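/-
The subgroup `℧ⁿ(Z(S))` is normal in every saturated fusion system over `S` when `S` has class at
most `n(p-1)+1` (S5218); exponent bound when `O_p(F) = 1` (S5219).
-/
import Mathlib
import Cfsg.Prelude.Def_FusionSystem
import Cfsg.Prelude.Def_PLocal
import Cfsg.Agent.Lib.Fusion.Basic
import Cfsg.Agent.Lib.Fusion.Saturated
import Cfsg.Agent.Lib.Fusion.Saturated2
import Cfsg.Agent.Lib.Fusion.StrongInvariance
import Cfsg.Agent.Lib.Fusion.FNInduction
import Cfsg.Agent.Lib.Fusion.NormalEssential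

set_option autoImplicit false

namespace Cfsg.Agent.Lib.Fusion.AgemoAct

/-- The ring computation: if `(1 + u)^p = 1` and `u^(n(p-1)+1) = 0` in a commutative ring then `p^n u = 0`. -/
theorem pow_mul_eq_zero_of_nilpotent {R : Type*} [CommRing R] {p : ℕ} (hp : p.Prime) (n : ℕ) {u : R}
    (h1 : (1 + u) ^ p = 1) (h2 : u ^ (n * (p - 1) + 1) = 0) : (p : R) ^ n * u = 0 := by
  classical
  have hcomm : Commute u (1 : R) := Commute.one_right u
  have hexp := hcomm.add_pow_prime_eq hp
  rw [add_comm u 1, h1] at hexp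
  -- split off the first term of the sum
  have h1mem : (1 : ℕ) ∈ Finset.Ioo 0 p := Finset.mem_Ioo.2 ⟨Nat.one_pos, hp.one_lt⟩
  rw [← Finset.add_sum_erase _ _ h1mem] at hexp
  have hchoose : p.choose 1 / p = 1 := by
    rw [Nat.choose_one_right, Nat.div_self hp.pos]
  simp only [one_pow, mul_one, hchoose, Nat.cast_one, Nat.sub_self, pow_zero] at hexp
  obtain ⟨g, hg⟩ : ∃ g : R, ∑ x ∈ (Finset.Ioo 0 p).erase 1, u ^ (x - 1) * ((p.choose x / p : ℕ) : R) = u * g := by
    refine ⟨∑ x ∈ (Finset.Ioo 0 p).erase 1, u ^ (x - 2) * ((p.choose x / p : ℕ) : R), ?_⟩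
    rw [Finset.mul_sum]
    refine Finset.sum_congr rfl fun x hx => ?_
    have hx2 : 2 ≤ x := by
      have h3 := Finset.mem_erase.1 hx
      have h4 := Finset.mem_Ioo.1 h3.2
      omega
    obtain ⟨y, rfl⟩ := Nat.exists_eq_add_of_le hx2
    have e1 : 2 + y - 1 = y + 1 := by omega
    have e2 : 2 + y - 2 = y := by omega
    rw [e1, e2]
    ring
  rw [hg] at hexp
  set w : R := 1 + u * g with hw
  -- `p u w = - u^p`
  have hkey : (p : R) * u * w = - u ^ p := by
    linear_combination -hexp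
  have hnil : IsNilpotent u := ⟨_, h2⟩
  have hunit : IsUnit w := by
    have : IsNilpotent (u * g) := (Commute.all u g).isNilpotent_mul_right hnil
    exact this.isUnit_one_add
  -- iterate
  have hit : ∀ k : ℕ, (p : R) ^ k * u * w ^ k = (-1) ^ k * u ^ (k * (p - 1) + 1) := by
    intro k
    induction k with
    | zero => simp
    | succ k ih =>
      have hp1 : p = (p - 1) + 1 := by have := hp.pos; omega
      have e1 : (p : R) ^ (k + 1) * u * w ^ (k + 1) = ((p : R) ^ k * u * w ^ k) * ((p : R) * w) := by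
        ring
      rw [e1, ih]
      have e2 : (k + 1) * (p - 1) + 1 = k * (p - 1) + (p - 1) + 1 := by ring
      rw [e2]
      have e3 : (-1 : R) ^ k * u ^ (k * (p - 1) + 1) * ((p : R) * w) =
          (-1 : R) ^ k * u ^ (k * (p - 1)) * ((p : R) * u * w) := by ring
      rw [e3, hkey]
      have e4 : u ^ (k * (p - 1) + (p - 1) + 1) = u ^ (k * (p - 1)) * u ^ ((p - 1) + 1) := by ring
      rw [e4, ← hp1]
      ring
  have h3 := hit n
  rw [h2, mul_zero] at h3
  exact (hunit.pow n).mul_left_eq_zero.1 h3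

/-- The same in a noncommutative ring. -/
theorem pow_mul_eq_zero_of_nilpotent' {R : Type*} [Ring R] {p : ℕ} (hp : p.Prime) (n : ℕ) {u : R}
    (h1 : (1 + u) ^ p = 1) (h2 : u ^ (n * (p - 1) + 1) = 0) : (p : R) ^ n * u = 0 := by
  have hc : ∀ a ∈ ({u} : Set R), ∀ b ∈ ({u} : Set R), a * b = b * a := by
    rintro a rfl b rfl
    rfl
  letI : IsMulCommutative (Algebra.adjoin ℤ ({u} : Set R)) := Algebra.isMulCommutative_adjoin ℤ hc
  letI : CommRing (Algebra.adjoin ℤ ({u} : Set R)) :=
    { (inferInstance : Ring (Algebra.adjoin ℤ ({u} : Set R))) with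
      mul_comm := mul_comm' }
  let u₀ : Algebra.adjoin ℤ ({u} : Set R) := ⟨u, Algebra.self_mem_adjoin_singleton ℤ u⟩
  have h1' : (1 + u₀) ^ p = 1 := Subtype.ext (by
    show ((1 + u) ^ p : R) = 1
    exact h1)
  have h2' : u₀ ^ (n * (p - 1) + 1) = 0 := Subtype.ext (by
    show (u ^ (n * (p - 1) + 1) : R) = 0
    exact h2)
  have h3 := pow_mul_eq_zero_of_nilpotent hp n h1' h2'
  have h4 := congrArg (Subtype.val) h3
  have e : ∀ k : ℕ, (((k : ℕ) : Algebra.adjoin ℤ ({u} : Set R)) : R) = (k : R) := by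
    intro k
    induction k with
    | zero =>
      rw [Nat.cast_zero, Nat.cast_zero]
      rfl
    | succ k ih =>
      rw [Nat.cast_succ, Nat.cast_succ, ← ih]
      rfl
  have h5 : (((p : ℕ) : Algebra.adjoin ℤ ({u} : Set R)) : R) ^ n * u = 0 := h4
  rwa [e] at h5

/-- The action version: an automorphism `t` of an abelian group `A` (given by a commuting hypothesis)
with `t^p = 1` and `t - 1` nilpotent of index `n(p-1)+1` fixes the `p^n`-th powers. -/
theorem map_pow_pow_eq {A : Type*} [CommGroup A] {p : ℕ} (hp : p.Prime) (n : ℕ) (t : A →* A)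
    (h1 : ∀ v, t^[p] v = v)
    (h2 : ∀ v, (fun w => t w * w⁻¹)^[n * (p - 1) + 1] v = 1) (v : A) :
    t (v ^ (p ^ n)) = v ^ (p ^ n) := by
  classical
  -- work in the ring of endomorphisms of `Additive A`
  let T : AddMonoid.End (Additive A) := MonoidHom.toAdditive t
  let u : AddMonoid.End (Additive A) := T - 1
  have hT : ∀ (k : ℕ) (x : Additive A), (T ^ k) x = Additive.ofMul (t^[k] (Additive.toMul x)) := by
    intro k x
    induction k generalizing x with
    | zero => rfl
    | succ k ih =>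
      rw [pow_succ, Function.iterate_succ_apply]
      show (T ^ k) (T x) = _
      rw [ih]
      rfl
  have hu : ∀ (k : ℕ) (x : Additive A),
      (u ^ k) x = Additive.ofMul ((fun w => t w * w⁻¹)^[k] (Additive.toMul x)) := by
    intro k x
    induction k generalizing x with
    | zero => rfl
    | succ k ih =>
      rw [pow_succ, Function.iterate_succ_apply]
      show (u ^ k) (u x) = _
      rw [ih]
      have e : Additive.toMul (u x) = t (Additive.toMul x) * (Additive.toMul x)⁻¹ := by
        show Additive.toMul (T x - x) = _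
        rw [toMul_sub, div_eq_mul_inv]
        rfl
      rw [e]
  have h1' : (1 + u) ^ p = 1 := by
    have e : (1 : AddMonoid.End (Additive A)) + u = T := by
      show 1 + (T - 1) = T
      abel
    rw [e]
    ext x
    rw [hT]
    simp only [h1]
    rfl
  have h2' : u ^ (n * (p - 1) + 1) = 0 := by
    ext x
    rw [hu]
    simp only [h2]
    rfl
  have h3 := pow_mul_eq_zero_of_nilpotent' hp n h1' h2'
  have h4 := congrArg (fun f : AddMonoid.End (Additive A) => f (Additive.ofMul v)) h3
  have e1 : ((p : AddMonoid.End (Additive A)) ^ n * u) (Additive.ofMul v) =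
      (p ^ n) • (u (Additive.ofMul v)) := by
    rw [← Nat.cast_pow]
    exact AddMonoid.End.natCast_apply _ _
  have h5 : (p ^ n) • (u (Additive.ofMul v)) = 0 := by
    rw [← e1]
    exact h4
  have e2 : Additive.toMul (u (Additive.ofMul v)) = t v * v⁻¹ := by
    show Additive.toMul (T (Additive.ofMul v) - Additive.ofMul v) = _
    rw [toMul_sub, div_eq_mul_inv]
    rfl
  have h6 : (t v * v⁻¹) ^ (p ^ n) = 1 := by
    have h7 := congrArg Additive.toMul h5
    rwa [toMul_nsmul, e2, toMul_zero] at h7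
  rw [mul_pow, inv_pow, mul_inv_eq_one] at h6
  rw [map_pow, h6]


open Cfsg Cfsg.FusionSystem Cfsg.Agent.Lib.Fusion.Basic Cfsg.Agent.Lib.Fusion.Saturated
  Cfsg.Agent.Lib.Fusion.Saturated2
open scoped commutatorElement

variable {Ω : Type*} [Group Ω] {S : Subgroup Ω}

/-- `℧ⁿ(Z(S))`. -/
abbrev agemoZ (S : Subgroup Ω) (p n : ℕ) : Subgroup Ω :=
  powerClosure p n (S ⊓ Subgroup.centralizer (S : Set Ω))

theorem agemoZ_le (p n : ℕ) : agemoZ S p n ≤ S ⊓ Subgroup.centralizer (S : Set Ω) := by
  refine (Subgroup.closure_le _).2 ?_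
  rintro _ ⟨x, hx, rfl⟩
  exact Subgroup.pow_mem _ hx _

/-- Automorphisms of `S` preserve `℧ⁿ(Z(S))`. -/
theorem aut_mem_agemoZ (p n : ℕ) (α : MulAut S) {x : Ω} (hx : x ∈ agemoZ S p n) :
    ∃ hxS : x ∈ S, ((α ⟨x, hxS⟩ : S) : Ω) ∈ agemoZ S p n := by
  induction hx using Subgroup.closure_induction with
  | mem x hx =>
    obtain ⟨z, hz, rfl⟩ := hx
    refine ⟨S.pow_mem hz.1 _, ?_⟩
    have e : (⟨z ^ (p ^ n), S.pow_mem hz.1 _⟩ : S) = (⟨z, hz.1⟩ : S) ^ (p ^ n) := rfl
    rw [e, map_pow]
    refine Subgroup.subset_closure ⟨((α ⟨z, hz.1⟩ : S) : Ω), ⟨(α ⟨z, hz.1⟩ : S).2, ?_⟩, rfl⟩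
    refine Subgroup.mem_centralizer_iff.2 fun y hy => ?_
    -- `α z` is central
    have h1 : ∀ w : S, w * ⟨z, hz.1⟩ = ⟨z, hz.1⟩ * w := fun w =>
      Subtype.ext (Subgroup.mem_centralizer_iff.1 hz.2 w w.2)
    have h2 := congrArg (α : S → S) (h1 (α⁻¹ ⟨y, hy⟩))
    rw [map_mul, map_mul, MulAut.apply_inv_self] at h2
    exact congrArg Subtype.val h2
  | one =>
    refine ⟨S.one_mem, ?_⟩
    have e : (⟨1, S.one_mem⟩ : S) = 1 := rfl
    rw [e, map_one]
    exact Subgroup.one_mem _
  | mul x y _ _ hx hy =>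
    obtain ⟨hx1, hx2⟩ := hx
    obtain ⟨hy1, hy2⟩ := hy
    refine ⟨S.mul_mem hx1 hy1, ?_⟩
    have e : (⟨x * y, S.mul_mem hx1 hy1⟩ : S) = ⟨x, hx1⟩ * ⟨y, hy1⟩ := rfl
    rw [e, map_mul]
    exact Subgroup.mul_mem _ hx2 hy2
  | inv x _ hx =>
    obtain ⟨hx1, hx2⟩ := hx
    refine ⟨S.inv_mem hx1, ?_⟩
    have e : (⟨x⁻¹, S.inv_mem hx1⟩ : S) = ⟨x, hx1⟩⁻¹ := rfl
    rw [e, map_inv]
    exact Subgroup.inv_mem _ hx2

/-- The pointwise fixer in `Aut_F(P)` of the `p^n`-th powers of `Z(P)`. -/
def fixB (F : FusionSystem S) (P : Subgroup Ω) (m : ℕ) : Subgroup (F.autGroup P) where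
  carrier := {β | ∀ v : P, (v : Ω) ∈ Subgroup.centralizer (P : Set Ω) →
    (β : MulAut P) (v ^ m) = v ^ m}
  one_mem' := fun _ _ => rfl
  mul_mem' := by
    intro a b ha hb v hv
    show (a : MulAut P) ((b : MulAut P) (v ^ m)) = v ^ m
    rw [hb v hv, ha v hv]
  inv_mem' := by
    intro a ha v hv
    show (a : MulAut P)⁻¹ (v ^ m) = v ^ m
    conv_lhs => rw [← ha v hv]
    exact MulAut.inv_apply_self _ _ _

theorem aut_mem_centralizer {P : Subgroup Ω} (g : MulAut P) {v : P}
    (hv : (v : Ω) ∈ Subgroup.centralizer (P : Set Ω)) :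
    ((g v : P) : Ω) ∈ Subgroup.centralizer (P : Set Ω) := by
  refine Subgroup.mem_centralizer_iff.2 fun y hy => ?_
  have h1 : ∀ w : P, w * v = v * w := fun w =>
    Subtype.ext (Subgroup.mem_centralizer_iff.1 hv w w.2)
  have h2 := congrArg (g : P → P) (h1 (g⁻¹ ⟨y, hy⟩))
  rw [map_mul, map_mul, MulAut.apply_inv_self] at h2
  exact congrArg Subtype.val h2

theorem fixB_normal (F : FusionSystem S) (P : Subgroup Ω) (m : ℕ) : (fixB F P m).Normal := by
  refine ⟨fun b hb g v hv => ?_⟩
  show (g : MulAut P) ((b : MulAut P) ((g : MulAut P)⁻¹ (v ^ m))) = v ^ m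
  have h1 : (g : MulAut P)⁻¹ (v ^ m) = ((g : MulAut P)⁻¹ v) ^ m := map_pow _ _ _
  rw [h1, hb _ (aut_mem_centralizer _ hv), map_pow, MulAut.apply_inv_self]

variable [Finite S] {p : ℕ} [Fact p.Prime]

/-- An element `g` of `S` normalizing `P` with `g^p ∈ P` fixes the `p^n`-th powers of `Z(P)`, when
`S` has class at most `n(p-1)+1`. -/
theorem conj_fix_pow {n : ℕ} (hcl : Subgroup.lowerCentralSeries S (n * (p - 1) + 1) = ⊥)
    {P : Subgroup Ω} (hPS : P ≤ S) {g : Ω} (hgS : g ∈ S)
    (hgN : g ∈ Subgroup.normalizer (P : Set Ω)) (hgp : g ^ p ∈ P) {v : P}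
    (hv : (v : Ω) ∈ Subgroup.centralizer (P : Set Ω)) :
    normConj g hgN (v ^ (p ^ n)) = v ^ (p ^ n) := by
  -- the centre of `P` as a commutative group
  let A := Subgroup.center P
  let t : A →* A := (Subgroup.centerCongr (normConj g hgN)).toMonoidHom
  have ht : ∀ w : A, (((t w : A) : P) : Ω) = g * ((w : P) : Ω) * g⁻¹ := fun _ => rfl
  have hmemA : ∀ w : P, (w : Ω) ∈ Subgroup.centralizer (P : Set Ω) → w ∈ A := by
    intro w hw
    rw [Subgroup.mem_center_iff]
    intro y
    exact Subtype.ext (Subgroup.mem_centralizer_iff.1 hw y y.2)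
  have hcent : ∀ w : A, ∀ y ∈ P, y * ((w : P) : Ω) = ((w : P) : Ω) * y := by
    intro w y hy
    exact congrArg Subtype.val ((Subgroup.mem_center_iff.1 w.2) ⟨y, hy⟩)
  have h1 : ∀ w : A, t^[p] w = w := by
    intro w
    have hk : ∀ k : ℕ, (((t^[k] w : A) : P) : Ω) = g ^ k * ((w : P) : Ω) * (g ^ k)⁻¹ := by
      intro k
      induction k with
      | zero => simp
      | succ k ih =>
        rw [Function.iterate_succ_apply', ht, ih, pow_succ']
        group
    apply Subtype.ext
    apply Subtype.ext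
    rw [hk]
    rw [hcent w _ hgp]
    group
  have h2 : ∀ w : A, (fun w => t w * w⁻¹)^[n * (p - 1) + 1] w = 1 := by
    intro w
    have hk : ∀ k : ℕ, ((((fun w => t w * w⁻¹)^[k] w : A) : P) : Ω) ∈ S.lowerCentralSeries k := by
      intro k
      induction k with
      | zero => exact hPS (w : P).2
      | succ k ih =>
        rw [Function.iterate_succ_apply', Subgroup.lowerCentralSeries_succ]
        set w' := (fun w => t w * w⁻¹)^[k] w
        have e : (((t w' * w'⁻¹ : A) : P) : Ω) = ⁅((w' : P) : Ω), g⁆⁻¹ := by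
          show (g * ((w' : P) : Ω) * g⁻¹) * ((w' : P) : Ω)⁻¹ = _
          rw [commutatorElement_def]
          group
        rw [e]
        exact Subgroup.inv_mem _ (Subgroup.commutator_mem_commutator ih hgS)
    have h3 := hk (n * (p - 1) + 1)
    rw [hcl, Subgroup.mem_bot] at h3
    exact Subtype.ext (Subtype.ext h3)
  letI : CommGroup (Subgroup.center P) :=
    { (inferInstance : Group (Subgroup.center P)) with
      mul_comm := fun a b => Subtype.ext ((Subgroup.mem_center_iff.1 b.2) a) }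
  have h3 := map_pow_pow_eq (A := Subgroup.center P) (Fact.out : p.Prime) n t h1 h2 ⟨v, hmemA v hv⟩
  have h4 := congrArg (fun w : Subgroup.center P => ((w : P) : P)) h3
  exact h4

/-- A proper subgroup of `S` is normalized by an element `g ∉ P` of `S` with `g^p ∈ P`. -/
theorem exists_mem_pow_mem (hS : IsPGroup p S) {P : Subgroup Ω} (hP : P < S) :
    ∃ g ∈ S, g ∈ Subgroup.normalizer (P : Set Ω) ∧ g ∉ P ∧ g ^ p ∈ P := by
  classical
  have hlt := lt_normalizerIn hS hP
  obtain ⟨s, hs, hsP⟩ := SetLike.exists_of_lt hlt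
  -- `s` has `p`-power order
  obtain ⟨k, hk⟩ := hS ⟨s, hs.1⟩
  have hk' : s ^ (p ^ k) = 1 := congrArg Subtype.val hk
  have hex : ∃ k, s ^ (p ^ k) ∈ P := ⟨k, by rw [hk']; exact P.one_mem⟩
  let m := Nat.find hex
  have hm : s ^ (p ^ m) ∈ P := Nat.find_spec hex
  have hm0 : m ≠ 0 := by
    intro h0
    rw [h0, pow_zero, pow_one] at hm
    exact hsP hm
  obtain ⟨j, hj⟩ := Nat.exists_eq_succ_of_ne_zero hm0
  have hjmin : s ^ (p ^ j) ∉ P := Nat.find_min hex (by omega : j < m)
  refine ⟨s ^ (p ^ j), S.pow_mem hs.1 _, Subgroup.pow_mem _ hs.2 _, hjmin, ?_⟩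
  rw [← pow_mul, ← pow_succ]
  rw [hj] at hm
  exact hm

section Main

variable {F : FusionSystem S}

/-- The invariance property. -/
def Pi (W : Subgroup Ω) (P : Subgroup Ω) (φ : P →* Ω) : Prop :=
  ∀ x : P, (x : Ω) ∈ W ↔ φ x ∈ W

set_option maxHeartbeats 1000000 in
/-- `℧ⁿ(Z(S))` is preserved in both directions by all maps of `F`. -/
theorem pi_agemoZ (hS : IsPGroup p S) (hF : F.IsSaturated p) {n : ℕ}
    (hcl : Subgroup.lowerCentralSeries S (n * (p - 1) + 1) = ⊥) {P : Subgroup Ω} {φ : P →* Ω}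
    (hφ : φ ∈ F.Hom P) : Pi (agemoZ S p n) P φ := by
  classical
  set W := agemoZ S p n with hW
  refine FNInduction.fn_induction (Pi := Pi W) hS hF ?_ ?_ ?_ ?_ hφ
  · intro P R φ _ h hR x
    exact h ⟨x, hR x.2⟩
  · intro P Q φ ψ _ _ h1 h2 h x
    exact (h1 x).trans (h2 ⟨φ x, h x⟩)
  · intro P Q φ ψ _ _ hr hi h1 y
    obtain ⟨x, hx⟩ : ∃ x : P, φ x = y := by
      have : (y : Ω) ∈ φ.range := hr ▸ y.2
      exact this
    have hyQ : φ x ∈ Q := hx ▸ y.2
    have e : (⟨φ x, hyQ⟩ : Q) = y := Subtype.ext hx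
    have h2 := hi x hyQ
    rw [e] at h2
    rw [h2, ← hx]
    exact (h1 x).symm
  · intro P φ hP hφ hr IH
    have hPS : P ≤ S := hP.1
    haveI : Finite P := finite_of_le hPS
    have hval : ∀ x : P, φ x ∈ S := map_mem_S hφ
    have hvalP : ∀ x : P, φ x ∈ P := fun x => by
      have : φ x ∈ φ.range := ⟨x, rfl⟩
      rwa [hr] at this
    have hExt : ∀ (ν : P →* Ω), ν ∈ F.Hom P → ν.range = P → P < extender S P ν → Pi W P ν := by
      intro ν hν hνr hlt x
      obtain ⟨ψ, hψ, hag⟩ := (fullyNormalized_receptive hS hF hP).2 P ν hν hνr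
      haveI : Finite (extender S P ν) := finite_of_le (extender_le_normalizerIn.trans normalizerIn_le)
      have h1 := IH _ ψ (card_lt_of_lt hlt) hψ ⟨x, hlt.le x.2⟩
      have h2 := hag x x.2 (hlt.le x.2)
      rw [h2] at h1
      exact h1
    by_cases hC : centralizerIn S P ≤ P
    · by_cases hPe : P = S
      · subst hPe
        let a : MulAut P := autOfHom φ (F.injective_of_mem hφ) hval
        intro x
        constructor
        · intro hx
          obtain ⟨h1, h2⟩ := aut_mem_agemoZ p n a hx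
          exact h2
        · intro hx
          obtain ⟨h1, h2⟩ := aut_mem_agemoZ p n a⁻¹ hx
          have e : (⟨φ x, h1⟩ : P) = a x := rfl
          rw [e, MulAut.inv_apply_self] at h2
          exact h2
      · have hlt : P < S := lt_of_le_of_ne hPS hPe
        obtain ⟨g, hgS, hgN, hgP, hgp⟩ := exists_mem_pow_mem hS hlt
        let a : F.autGroup P := ⟨autOfHom φ (F.injective_of_mem hφ) hvalP, autOfHom_mem hφ hvalP⟩
        obtain ⟨ν, κ, hκ, ha, hext⟩ := StrongInvariance.exists_aut_extending_of_normal hS hF hP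
          (fixB F P (p ^ n)) (fixB_normal F P (p ^ n)) a
        have hgB : (⟨normConj g hgN, autInducedBy_le_autGroup hPS (normConj_mem_autInducedBy hgS hgN)⟩ :
            F.autGroup P) ∈ fixB F P (p ^ n) := fun v hv => conj_fix_pow hcl hPS hgS hgN hgp hv
        have hgE := hext g hgS hgN hgB
        have hνh := autGroup_mem_hom hPS ν.2
        have hνr : (P.subtype.comp (ν : MulAut P).toMonoidHom).range = P := by
          ext y
          constructor
          · rintro ⟨z, rfl⟩
            exact ((ν : MulAut P) z).2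
          · intro hy
            exact ⟨(ν : MulAut P)⁻¹ ⟨y, hy⟩, by simp⟩
        have hlt2 : P < extender S P (P.subtype.comp (ν : MulAut P).toMonoidHom) := by
          exact lt_of_le_of_ne (le_extender hPS (map_mem_S hνh)) fun h => hgP (h.ge hgE)
        have hν := hExt _ hνh hνr hlt2
        -- `κ` fixes `W` pointwise
        have hZP : S ⊓ Subgroup.centralizer (S : Set Ω) ≤ P := by
          intro z hz
          refine hC ⟨hz.1, Subgroup.mem_centralizer_iff.2 fun y hy => ?_⟩
          exact Subgroup.mem_centralizer_iff.1 hz.2 y (hPS hy)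
        have hκW : ∀ y ∈ W, ∃ hy : y ∈ P, (((κ : MulAut P) ⟨y, hy⟩ : P) : Ω) = y := by
          intro y hy
          induction hy using Subgroup.closure_induction with
          | mem y hy =>
            obtain ⟨z, hz, rfl⟩ := hy
            have hzP := hZP hz
            refine ⟨P.pow_mem hzP _, ?_⟩
            have hzc : z ∈ Subgroup.centralizer (P : Set Ω) :=
              Subgroup.mem_centralizer_iff.2 fun w hw =>
                Subgroup.mem_centralizer_iff.1 hz.2 w (hPS hw)
            have h1 := hκ ⟨z, hzP⟩ hzc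
            exact congrArg Subtype.val h1
          | one => exact ⟨P.one_mem, by
              have e : (⟨1, P.one_mem⟩ : P) = 1 := rfl
              rw [e, map_one]
              rfl⟩
          | mul x y _ _ hx hy =>
            obtain ⟨hx1, hx2⟩ := hx
            obtain ⟨hy1, hy2⟩ := hy
            refine ⟨P.mul_mem hx1 hy1, ?_⟩
            have e : (⟨x * y, P.mul_mem hx1 hy1⟩ : P) = ⟨x, hx1⟩ * ⟨y, hy1⟩ := rfl
            rw [e, map_mul]
            show (((κ : MulAut P) ⟨x, hx1⟩ : P) : Ω) * (((κ : MulAut P) ⟨y, hy1⟩ : P) : Ω) = _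
            rw [hx2, hy2]
          | inv x _ hx =>
            obtain ⟨hx1, hx2⟩ := hx
            refine ⟨P.inv_mem hx1, ?_⟩
            have e : (⟨x⁻¹, P.inv_mem hx1⟩ : P) = ⟨x, hx1⟩⁻¹ := rfl
            rw [e, map_inv]
            show (((κ : MulAut P) ⟨x, hx1⟩ : P) : Ω)⁻¹ = _
            rw [hx2]
        intro x
        have hφx : φ x = (((κ : MulAut P) ((ν : MulAut P) x) : P) : Ω) := by
          have : ((a : MulAut P) x : P) = (κ : MulAut P) ((ν : MulAut P) x) := by
            rw [ha]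
            rfl
          exact congrArg Subtype.val this
        rw [hφx, hν x]
        show (((ν : MulAut P) x : P) : Ω) ∈ W ↔ _
        constructor
        · intro h1
          obtain ⟨h2, h3⟩ := hκW _ h1
          rw [show (⟨(((ν : MulAut P) x : P) : Ω), h2⟩ : P) = (ν : MulAut P) x from rfl] at h3
          rw [h3]
          exact h1
        · intro h1
          obtain ⟨h2, h3⟩ := hκW _ h1
          have h4 : (κ : MulAut P) ((κ : MulAut P) ((ν : MulAut P) x)) =
              (κ : MulAut P) ((ν : MulAut P) x) := Subtype.ext h3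
          have h5 := (κ : MulAut P).injective h4
          rw [h5] at h1
          exact h1
    · -- `C_S(P)` is not in `P`
      have hlt : P < extender S P φ := by
        exact lt_of_le_of_ne (le_extender hPS hval) fun h =>
          hC (centralizerIn_le_extender.trans h.ge)
      exact hExt φ hφ hr hlt

/-- `S5218`. -/
theorem isNormal_agemoZ (hS : IsPGroup p S) (hF : F.IsSaturated p) {n : ℕ}
    (hcl : Subgroup.lowerCentralSeries S (n * (p - 1) + 1) = ⊥) : F.IsNormal (agemoZ S p n) := by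
  classical
  refine (NormalEssential.isNormal_iff_essential hS hF).2 fun P hP => ?_
  have hPS : P ≤ S := by
    rcases hP with rfl | hP
    · exact le_rfl
    · exact hP.1.1
  have hZP : S ⊓ Subgroup.centralizer (S : Set Ω) ≤ P := by
    rcases hP with rfl | hP
    · exact inf_le_left
    · intro z hz
      refine (hP.1.2 P (Basic.IsConj.refl hPS)) ⟨hz.1, Subgroup.mem_centralizer_iff.2 fun y hy => ?_⟩
      exact Subgroup.mem_centralizer_iff.1 hz.2 y (hPS hy)
  refine ⟨(agemoZ_le p n).trans hZP, fun α hα => ?_⟩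
  have hpi := pi_agemoZ hS hF hcl (autGroup_mem_hom hPS hα)
  ext y
  constructor
  · rintro ⟨x, hx, rfl⟩
    exact (hpi x).1 hx
  · intro hy
    refine ⟨α⁻¹ y, ?_, by simp⟩
    have h1 := hpi (α⁻¹ y)
    refine h1.2 ?_
    have e : (P.subtype.comp α.toMonoidHom) (α⁻¹ y) = y := by simp
    rw [e]
    exact hy

end Main

section Exponent

open scoped commutatorElement

variable {G : Type*} [Group G]

/-- If the commutator is central then commutators of powers are powers. -/
theorem commutator_pow_of_central {H : Type*} [Group H] (a b : H)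
    (hc : ⁅a, b⁆ ∈ Subgroup.center H) (m : ℕ) : ⁅a ^ m, b⁆ = ⁅a, b⁆ ^ m := by
  have hcen : ∀ g : H, g * ⁅a, b⁆ = ⁅a, b⁆ * g := fun g => (Subgroup.mem_center_iff.1 hc) g
  have hcm : ∀ (m : ℕ) (g : H), g * ⁅a, b⁆ ^ m = ⁅a, b⁆ ^ m * g := by
    intro m g
    induction m with
    | zero => simp
    | succ m ih =>
      rw [pow_succ, ← mul_assoc, ih, mul_assoc, hcen, mul_assoc]
  induction m with
  | zero => simp
  | succ m ih =>
    have e : ⁅a ^ (m + 1), b⁆ = a * ⁅a ^ m, b⁆ * (b * a⁻¹ * b⁻¹) := by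
      simp only [commutatorElement_def, pow_succ', mul_inv_rev]
      group
    rw [e, ih, hcm m a, pow_succ, mul_assoc, mul_assoc]
    congr 1
    rw [commutatorElement_def]
    group

/-- The exponent of the factors of the upper central series. -/
theorem pow_mem_upperCentralSeries {e : ℕ} (h : ∀ z ∈ Subgroup.center G, z ^ e = 1) (k : ℕ) :
    ∀ x ∈ Subgroup.upperCentralSeries G (k + 1), x ^ e ∈ Subgroup.upperCentralSeries G k := by
  induction k with
  | zero =>
    intro x hx
    have hx' : x ∈ Subgroup.center G := by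
      rw [Subgroup.upperCentralSeries_one] at hx
      exact hx
    rw [h x hx']
    exact Subgroup.one_mem _
  | succ k ih =>
    intro x hx
    rw [Subgroup.mem_upperCentralSeries_succ_iff] at hx ⊢
    intro y
    have h1 := hx y
    -- work modulo `Z_k`
    let N := Subgroup.upperCentralSeries G k
    haveI : N.Normal := inferInstance
    let π : G →* G ⧸ N := QuotientGroup.mk' N
    have hcen : ⁅π x, π y⁆ ∈ Subgroup.center (G ⧸ N) := by
      rw [Subgroup.mem_center_iff]
      intro q
      obtain ⟨g, rfl⟩ := QuotientGroup.mk'_surjective N q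
      have h2 := Subgroup.mem_upperCentralSeries_succ_iff.1 h1 g
      have h3 : π ⁅⁅x, y⁆, g⁆ = 1 := (QuotientGroup.eq_one_iff _).2 h2
      rw [map_commutatorElement, map_commutatorElement] at h3
      have h4 := commutatorElement_eq_one_iff_commute.1 h3
      exact h4.symm
    have h5 := commutator_pow_of_central (π x) (π y) hcen e
    have h6 : ⁅x, y⁆ ^ e ∈ N := ih _ h1
    have h7 : π (⁅x ^ e, y⁆) = 1 := by
      rw [map_commutatorElement, map_pow, h5, ← map_commutatorElement, ← map_pow]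
      exact (QuotientGroup.eq_one_iff _).2 h6
    exact (QuotientGroup.eq_one_iff _).1 h7

theorem pow_eq_one_of_upperCentralSeries {e : ℕ} (h : ∀ z ∈ Subgroup.center G, z ^ e = 1) (k : ℕ) :
    ∀ x ∈ Subgroup.upperCentralSeries G k, x ^ (e ^ k) = 1 := by
  induction k with
  | zero =>
    intro x hx
    rw [Subgroup.upperCentralSeries_zero, Subgroup.mem_bot] at hx
    simp [hx]
  | succ k ih =>
    intro x hx
    rw [pow_succ', pow_mul]
    exact ih _ (pow_mem_upperCentralSeries h k x hx)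

end Exponent

/-- `S5219`. -/
theorem exponent_dvd_of_core_eq_bot {F : FusionSystem S} (hS : IsPGroup p S) (hF : F.IsSaturated p)
    {n : ℕ} (hcl : Subgroup.lowerCentralSeries S (n * (p - 1) + 1) = ⊥) (hcore : F.core = ⊥) :
    Monoid.exponent S ∣ p ^ (n ^ 2 * (p - 1) + n) := by
  have hW : agemoZ S p n = ⊥ := by
    have h1 : agemoZ S p n ≤ F.core := le_sSup (isNormal_agemoZ hS hF hcl)
    rw [hcore] at h1
    exact le_bot_iff.1 h1
  have hz : ∀ z ∈ Subgroup.center S, z ^ (p ^ n) = 1 := by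
    intro z hz
    have hz' : (z : Ω) ∈ S ⊓ Subgroup.centralizer (S : Set Ω) := by
      refine ⟨z.2, Subgroup.mem_centralizer_iff.2 fun y hy => ?_⟩
      exact congrArg Subtype.val ((Subgroup.mem_center_iff.1 hz) ⟨y, hy⟩)
    have h1 : (z : Ω) ^ (p ^ n) ∈ agemoZ S p n := Subgroup.subset_closure ⟨_, hz', rfl⟩
    rw [hW, Subgroup.mem_bot] at h1
    exact Subtype.ext h1
  haveI : Group.IsNilpotent S := hS.isNilpotent
  have hlow : (⊤ : Subgroup S).lowerCentralSeries (n * (p - 1) + 1) = ⊥ := by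
    have h1 := Subgroup.top_subtype_lowerCentralSeries S (n * (p - 1) + 1)
    rw [hcl] at h1
    exact (Subgroup.map_eq_bot_iff_of_injective _ S.subtype_injective).1 h1
  have hup : Subgroup.upperCentralSeries S (n * (p - 1) + 1) = ⊤ :=
    Subgroup.upperCentralSeries_eq_top_iff_nilpotencyClass_le.2
      (Subgroup.lowerCentralSeries_eq_bot_iff_nilpotencyClass_le.1 hlow)
  rw [Monoid.exponent_dvd_iff_forall_pow_eq_one]
  intro x
  have h1 := pow_eq_one_of_upperCentralSeries hz _ x (by rw [hup]; exact Subgroup.mem_top x)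
  have e : p ^ (n ^ 2 * (p - 1) + n) = (p ^ n) ^ (n * (p - 1) + 1) := by
    rw [← pow_mul]
    congr 1
    ring
  rw [e]
  exact h1

end Cfsg.Agent.Lib.Fusion.AgemoAct
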