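/-
Alperin's theorem for a class of subgroups containing the centre.
-/
import Mathlib
import Cfsg.Agent.Lib.Fusion.CenterIndex

set_option autoImplicit false
set_option linter.style.haveILetI false

namespace Cfsg.Agent.Lib.Fusion.AlperinClass

open Cfsg Cfsg.FusionSystem Cfsg.Agent.Lib.Fusion.Basic Cfsg.Agent.Lib.Fusion.Saturated
  Cfsg.Agent.Lib.Fusion.Saturated2 Cfsg.Agent.Lib.Fusion.Essential
  Cfsg.Agent.Lib.Fusion.EssentialPair Cfsg.Agent.Lib.Fusion.AbelianMax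
  Cfsg.Agent.Lib.Fusion.PearlCore Cfsg.Agent.Lib.Fusion.CenterIndex

variable {Ω : Type*} [Group Ω] {S : Subgroup Ω} [Finite S] {p : ℕ} [hp : Fact p.Prime]
  {F : FusionSystem S}

omit [Finite S] hp in
/-- Membership in an image. -/
theorem mem_image {Q R : Subgroup Ω} {φ : Q →* Ω} {y : Ω} :
    y ∈ (R.subgroupOf Q).map φ ↔ ∃ x : Q, (x : Ω) ∈ R ∧ φ x = y := Iff.rfl

/-- **Alperin's theorem for a class of subgroups.** Let `𝓒` be a class of subgroups containing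
`Z(S)`, invariant under `Aut_F(S)`, such that maps out of essential subgroups with source and target
in `𝓒` agree on `Z(S)` with elements of `Aut_F(S)`.  Then so do all maps out of subgroups in `𝓒`. -/
theorem alperin_class (hS : IsPGroup p S) (hF : F.IsSaturated p) (𝓒 : Set (Subgroup Ω))
    (hZ : ∀ R ∈ 𝓒, cen S ≤ R)
    (hD : ∀ d ∈ F.autGroup S, ∀ R, R ≤ S → R ∈ 𝓒 → (R.subgroupOf S).map (S.subtype.comp d.toMonoidHom) ∈ 𝓒)
    (hbase : ∀ {P : Subgroup Ω} {φ : P →* Ω}, F.IsEssential p P → φ ∈ F.Hom P → φ.range = P →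
      ∀ R, R ≤ P → (R ∈ 𝓒 ∨ (R.subgroupOf P).map φ ∈ 𝓒) → R ∈ 𝓒 ∧ (R.subgroupOf P).map φ ∈ 𝓒 ∧
        ∃ d ∈ F.autGroup S, ∀ y (hy : y ∈ cen S) (hyP : y ∈ P),
          φ ⟨y, hyP⟩ = ((d ⟨y, (mem_cen.1 hy).1⟩ : S) : Ω))
    {Q : Subgroup Ω} {φ : Q →* Ω} (hφ : φ ∈ F.Hom Q) {R : Subgroup Ω} (hR : R ≤ Q) (hRC : R ∈ 𝓒) :
    (R.subgroupOf Q).map φ ∈ 𝓒 ∧ ∃ d ∈ F.autGroup S, ∀ y (hy : y ∈ cen S) (hyQ : y ∈ Q),
      φ ⟨y, hyQ⟩ = ((d ⟨y, (mem_cen.1 hy).1⟩ : S) : Ω) := by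
  classical
  have key := alperin_induction_essential hS hF
    (fun Q φ => ∀ R, R ≤ Q → (R ∈ 𝓒 ∨ (R.subgroupOf Q).map φ ∈ 𝓒) →
      R ∈ 𝓒 ∧ (R.subgroupOf Q).map φ ∈ 𝓒 ∧ ∃ d ∈ F.autGroup S, ∀ y (hy : y ∈ cen S) (hyQ : y ∈ Q),
        φ ⟨y, hyQ⟩ = ((d ⟨y, (mem_cen.1 hy).1⟩ : S) : Ω)) ?_ ?_ ?_ ?_ hφ
  · obtain ⟨-, h2, h3⟩ := key R hR (Or.inl hRC)
    exact ⟨h2, h3⟩
  · -- restriction
    intro P R' φ _ hPi h R hR hor
    have e : (R.subgroupOf R').map (φ.comp (Subgroup.inclusion h)) = (R.subgroupOf P).map φ := by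
      ext y
      rw [mem_image, mem_image]
      constructor
      · rintro ⟨x, hx, rfl⟩
        exact ⟨⟨x, h x.2⟩, hx, rfl⟩
      · rintro ⟨x, hx, rfl⟩
        exact ⟨⟨x, hR hx⟩, hx, rfl⟩
    rw [e] at hor ⊢
    obtain ⟨h1, h2, d, hd, hdv⟩ := hPi R (hR.trans h) hor
    exact ⟨h1, h2, d, hd, fun y hy hyQ => hdv y hy (h hyQ)⟩
  · -- composition
    intro P Q' φ ψ _ _ h1 h2 h R hR hor
    set R₁ : Subgroup Ω := (R.subgroupOf P).map φ with hR₁def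
    have hR₁Q : R₁ ≤ Q' := by
      rintro _ ⟨x, -, rfl⟩
      exact h x
    have e : (R.subgroupOf P).map (ψ.comp (φ.codRestrict Q' h)) = (R₁.subgroupOf Q').map ψ := by
      ext y
      rw [mem_image, mem_image]
      constructor
      · rintro ⟨x, hx, rfl⟩
        exact ⟨⟨φ x, h x⟩, ⟨x, hx, rfl⟩, rfl⟩
      · rintro ⟨x', ⟨x, hx, hxe⟩, rfl⟩
        refine ⟨x, hx, ?_⟩
        show ψ ⟨φ x, h x⟩ = ψ x'
        congr 1
        exact Subtype.ext hxe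
    rw [e] at hor ⊢
    have hR₁or : R₁ ∈ 𝓒 ∨ (R₁.subgroupOf Q').map ψ ∈ 𝓒 := by
      rcases hor with hor | hor
      · exact Or.inl (h1 R hR (Or.inl hor)).2.1
      · exact Or.inr hor
    obtain ⟨hR₁, hR₂, d₂, hd₂, hd₂v⟩ := h2 R₁ hR₁Q hR₁or
    obtain ⟨hR₀, -, d₁, hd₁, hd₁v⟩ := h1 R hR (Or.inr hR₁)
    refine ⟨hR₀, hR₂, d₂ * d₁, (F.autGroup S).mul_mem hd₂ hd₁, fun y hy hyP => ?_⟩
    have h3 := hd₁v y hy hyP
    have h4 : ((d₁ ⟨y, (mem_cen.1 hy).1⟩ : S) : Ω) ∈ cen S := map_cen d₁ hy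
    have h5 := hd₂v _ h4 (by rw [← h3]; exact h _)
    show ψ ⟨φ ⟨y, hyP⟩, h _⟩ = _
    have e2 : (⟨φ ⟨y, hyP⟩, h _⟩ : Q') = ⟨((d₁ ⟨y, (mem_cen.1 hy).1⟩ : S) : Ω), by rw [← h3]; exact h _⟩ :=
      Subtype.ext h3
    rw [e2, h5]
    rfl
  · -- inverses
    intro P Q' φ ψ hφ _ hr hinv h1 R hR hor
    have hsurj : ∀ y ∈ Q', ∃ x : P, φ x = y := by
      intro y hy
      have : y ∈ φ.range := by
        rw [hr]
        exact hy
      exact this
    set R₀ : Subgroup Ω := (R.subgroupOf Q').map ψ with hR₀def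
    have hψx : ∀ (y : Q'), ∃ x : P, φ x = y ∧ ψ y = x := by
      intro y
      obtain ⟨x, hx⟩ := hsurj y y.2
      refine ⟨x, hx, ?_⟩
      have e : y = ⟨φ x, by rw [hx]; exact y.2⟩ := Subtype.ext hx.symm
      rw [e]
      exact hinv x _
    have hR₀P : R₀ ≤ P := by
      rintro _ ⟨y, -, rfl⟩
      obtain ⟨x, -, hx⟩ := hψx y
      rw [hx]
      exact x.2
    have e : (R₀.subgroupOf P).map φ = R := by
      ext y
      rw [mem_image]
      constructor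
      · rintro ⟨x, ⟨y', hy', hxe⟩, rfl⟩
        obtain ⟨x', hx', hx''⟩ := hψx y'
        have e3 : x = x' := Subtype.ext (hxe.symm.trans hx'')
        rw [e3, hx']
        exact hy'
      · intro hy
        obtain ⟨x, hx, hx'⟩ := hψx ⟨y, hR hy⟩
        exact ⟨x, ⟨⟨y, hR hy⟩, hy, hx'⟩, hx⟩
    obtain ⟨h2, h3, d, hd, hdv⟩ := h1 R₀ hR₀P (by
      rw [e]
      exact hor.symm)
    rw [e] at h3
    refine ⟨h3, h2, d⁻¹, (F.autGroup S).inv_mem hd, fun y hy hyQ => ?_⟩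
    have hx'Z : ((d⁻¹ ⟨y, (mem_cen.1 hy).1⟩ : S) : Ω) ∈ cen S := map_cen d⁻¹ hy
    have hx'P := hR₀P (hZ R₀ h2 hx'Z)
    have h4 := hdv _ hx'Z hx'P
    have e4 : (⟨((d⁻¹ ⟨y, (mem_cen.1 hy).1⟩ : S) : Ω), (mem_cen.1 hx'Z).1⟩ : S) =
        d⁻¹ ⟨y, (mem_cen.1 hy).1⟩ := rfl
    rw [e4, MulAut.apply_inv_self] at h4
    have h5 := hinv ⟨_, hx'P⟩ (by rw [h4]; exact hyQ)
    have e5 : (⟨φ ⟨_, hx'P⟩, by rw [h4]; exact hyQ⟩ : Q') = ⟨y, hyQ⟩ := Subtype.ext h4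
    rw [e5] at h5
    exact h5
  · -- the base
    intro P φ hP hφ hr R hR hor
    rcases hP with hPS | hPE
    · subst hPS
      haveI : Finite P := inferInstance
      have hv : ∀ u, φ u ∈ P := fun u => by
        have h0 : φ u ∈ φ.range := ⟨u, rfl⟩
        rwa [hr] at h0
      set d : MulAut P := autOfHom φ (F.injective_of_mem hφ) hv with hddef
      have hd : d ∈ F.autGroup P := autOfHom_mem hφ hv
      have e : (R.subgroupOf P).map φ = (R.subgroupOf P).map (P.subtype.comp d.toMonoidHom) := rfl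
      rw [e] at hor ⊢
      have himg : ∀ R, R ≤ P → (R.subgroupOf P).map (P.subtype.comp d.toMonoidHom) ∈ 𝓒 → R ∈ 𝓒 := by
        intro R hR h1
        have hle : (R.subgroupOf P).map (P.subtype.comp d.toMonoidHom) ≤ P := by
          rintro _ ⟨x, -, rfl⟩
          exact (d x).2
        have h2 := hD d⁻¹ ((F.autGroup P).inv_mem hd) _ hle h1
        have e2 : (((R.subgroupOf P).map (P.subtype.comp d.toMonoidHom)).subgroupOf P).map
            (P.subtype.comp (d⁻¹ : MulAut P).toMonoidHom) = R := by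
          ext y
          rw [mem_image]
          constructor
          · rintro ⟨x, ⟨u, hu, hue⟩, rfl⟩
            have e3 : x = d u := Subtype.ext hue.symm
            rw [e3]
            show ((d⁻¹ (d u) : P) : Ω) ∈ R
            rw [MulAut.inv_apply_self]
            exact hu
          · intro hy
            refine ⟨d ⟨y, hR hy⟩, ⟨⟨y, hR hy⟩, hy, rfl⟩, ?_⟩
            show ((d⁻¹ (d ⟨y, hR hy⟩) : P) : Ω) = y
            rw [MulAut.inv_apply_self]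
        rwa [e2] at h2
      have h1 : R ∈ 𝓒 := by
        rcases hor with h | h
        · exact h
        · exact himg R hR h
      exact ⟨h1, hD d hd R hR h1, d, hd, fun y hy hyP => rfl⟩
    · exact hbase hPE hφ hr R hR hor

end Cfsg.Agent.Lib.Fusion.AlperinClass
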