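import Mathlib
import Cfsg.Agent.Lib.Fusion.SimpleCriterion

/-!
# Simplicity of `F_S(G)` through a central `p'`-cover `π : Γ → G`
-/

set_option autoImplicit false

namespace Cfsg.Agent.Lib.Fusion.LiftSimple

open Cfsg Cfsg.FusionSystem

variable {Γ : Type*} [Group Γ]

/-- Properties of a Sylow subgroup of `Γ` forcing simplicity of the fusion system. -/
structure GoodS (S : Subgroup Γ) : Prop where
  ne : S ≠ ⊥
  closed : ∀ T : Subgroup Γ, T ≤ S → T ≠ ⊥ →
    (∀ x ∈ T, ∀ g : Γ, g * x * g⁻¹ ∈ S → g * x * g⁻¹ ∈ T) → T = S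
  inner : ∀ g : Γ, (∀ x ∈ S, g * x * g⁻¹ ∈ S) → ∃ s ∈ S, ∀ x ∈ S, g * x * g⁻¹ = s * x * s⁻¹

/-- Conjugate of a subgroup. -/
abbrev cjS (c : Γ) (S : Subgroup Γ) : Subgroup Γ := S.map (MulAut.conj c).toMonoidHom

lemma mem_cjS {c : Γ} {S : Subgroup Γ} {x : Γ} : x ∈ cjS c S ↔ c⁻¹ * x * c ∈ S := by
  constructor
  · rintro ⟨y, hy, rfl⟩
    simpa [mul_assoc] using hy
  · intro h
    exact ⟨_, h, by simp [mul_assoc]⟩

theorem GoodS.conj {S : Subgroup Γ} (h : GoodS S) (c : Γ) : GoodS (cjS c S) := by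
  refine ⟨?_, ?_, ?_⟩
  · intro hb
    apply h.ne
    rw [eq_bot_iff]
    intro x hx
    have : c * x * c⁻¹ ∈ cjS c S := mem_cjS.2 (by simpa [mul_assoc] using hx)
    rw [hb, Subgroup.mem_bot] at this
    rw [Subgroup.mem_bot]
    have h2 : x = c⁻¹ * (c * x * c⁻¹) * c := by group
    rw [h2, this]
    group
  · intro T hT hne hcl
    have hT' : ∀ x ∈ T, c⁻¹ * x * c ∈ S := fun x hx => mem_cjS.1 (hT hx)
    have key := h.closed (cjS c⁻¹ T) ?_ ?_ ?_
    · apply le_antisymm hT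
      intro x hx
      have h1 : c⁻¹ * x * c ∈ cjS c⁻¹ T := by rw [key]; exact mem_cjS.1 hx
      have h2 := mem_cjS.1 h1
      simpa [mul_assoc] using h2
    · intro x hx
      have h1 := mem_cjS.1 hx
      have h2 := hT' _ h1
      simpa [mul_assoc] using h2
    · intro hb
      apply hne
      rw [eq_bot_iff]
      intro x hx
      have h1 : c⁻¹ * x * c ∈ cjS c⁻¹ T := mem_cjS.2 (by simpa [mul_assoc] using hx)
      rw [hb, Subgroup.mem_bot] at h1
      rw [Subgroup.mem_bot]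
      have h2 : x = c * (c⁻¹ * x * c) * c⁻¹ := by group
      rw [h2, h1]
      group
    · intro x hx g hg
      have hxT : c * x * c⁻¹ ∈ T := by simpa [mul_assoc] using mem_cjS.1 hx
      have h1 := hcl _ hxT (c * g * c⁻¹) (mem_cjS.2 (by
        have e : c⁻¹ * (c * g * c⁻¹ * (c * x * c⁻¹) * (c * g * c⁻¹)⁻¹) * c = g * x * g⁻¹ := by group
        rw [e]; exact hg))
      apply mem_cjS.2
      have e : (c⁻¹)⁻¹ * (g * x * g⁻¹) * c⁻¹ = c * g * c⁻¹ * (c * x * c⁻¹) * (c * g * c⁻¹)⁻¹ := by group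
      rw [e]
      exact h1
  · intro g hg
    have hg' : ∀ x ∈ S, (c⁻¹ * g * c) * x * (c⁻¹ * g * c)⁻¹ ∈ S := by
      intro x hx
      have h1 : c * x * c⁻¹ ∈ cjS c S := mem_cjS.2 (by simpa [mul_assoc] using hx)
      have h2 := mem_cjS.1 (hg _ h1)
      have e : c⁻¹ * (g * (c * x * c⁻¹) * g⁻¹) * c = (c⁻¹ * g * c) * x * (c⁻¹ * g * c)⁻¹ := by group
      rwa [e] at h2
    obtain ⟨s, hs, hsx⟩ := h.inner _ hg'
    refine ⟨c * s * c⁻¹, mem_cjS.2 (by simpa [mul_assoc] using hs), ?_⟩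
    intro x hx
    have hx' := mem_cjS.1 hx
    have h2 := hsx _ hx'
    have e1 : g * x * g⁻¹ = c * ((c⁻¹ * g * c) * (c⁻¹ * x * c) * (c⁻¹ * g * c)⁻¹) * c⁻¹ := by group
    rw [e1, h2]
    group

section Lift

variable {G : Type*} [Group G] [Finite Γ] [Finite G]
variable {p : ℕ} [Fact p.Prime]

/-- Fusion-system simplicity through a central `p'`-cover. -/
theorem isSimple_of_good (π : Γ →* G) (hπ : Function.Surjective π)
    (hker : ¬ p ∣ Nat.card π.ker) (hcen : π.ker ≤ Subgroup.center Γ)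
    (P : Sylow p Γ) (hP : GoodS (P : Subgroup Γ)) (S : Sylow p G) :
    (groupFusionSystem (S : Subgroup G)).IsSimple p := by
  classical
  -- move `P` so that it covers `S`
  obtain ⟨d, hd⟩ := MulAction.exists_smul_eq G (Sylow.mapSurjective hπ P) S
  obtain ⟨c, rfl⟩ := hπ d
  set P' : Sylow p Γ := c • P with hP'
  have hP'c : (P' : Subgroup Γ) = cjS c (P : Subgroup Γ) := by
    rw [hP', Sylow.coe_subgroup_smul]
    ext x
    simp only [Subgroup.mem_pointwise_smul_iff_inv_smul_mem, mem_cjS, MulAut.smul_def]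
    rfl
  have hgood : GoodS (P' : Subgroup Γ) := by
    rw [hP'c]; exact hP.conj c
  have hS : (S : Subgroup G) = (P' : Subgroup Γ).map π := by
    rw [← hd]
    ext y
    simp only [Sylow.coe_subgroup_smul, Sylow.coe_mapSurjective, Subgroup.mem_pointwise_smul_iff_inv_smul_mem,
      Subgroup.mem_map, hP'c, MulAut.smul_def]
    have hinv : (MulAut.conj (π c))⁻¹ y = (π c)⁻¹ * y * π c := by simp
    rw [hinv]
    constructor
    · rintro ⟨x, hx, hxy⟩
      refine ⟨c * x * c⁻¹, mem_cjS.2 (by simpa [mul_assoc] using hx), ?_⟩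
      rw [map_mul, map_mul, hxy, map_inv]
      group
    · rintro ⟨x, hx, rfl⟩
      refine ⟨c⁻¹ * x * c, mem_cjS.1 hx, ?_⟩
      simp [map_mul, map_inv]
  -- `π` is injective on `P'`
  have hinj : ∀ x ∈ (P' : Subgroup Γ), π x = 1 → x = 1 := by
    intro x hx h1
    have hxk : x ∈ π.ker := h1
    obtain ⟨e, he⟩ := P'.isPGroup' ⟨x, hx⟩
    have h2 : x ^ p ^ e = 1 := by simpa using congrArg Subtype.val he
    have h3 : orderOf x ∣ p ^ e := orderOf_dvd_of_pow_eq_one h2
    have h4 : orderOf x ∣ Nat.card π.ker := by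
      have := orderOf_dvd_natCard (⟨x, hxk⟩ : π.ker)
      simpa [Subgroup.orderOf_mk] using this
    have hcop : Nat.Coprime (p ^ e) (Nat.card π.ker) :=
      Nat.Coprime.pow_left _ ((Nat.Prime.coprime_iff_not_dvd Fact.out).2 hker)
    have h5 : orderOf x = 1 := Nat.eq_one_of_dvd_coprimes hcop h3 h4
    exact orderOf_eq_one_iff.1 h5
  refine Cfsg.Agent.Lib.Fusion.SimpleCriterion.isSimple_groupFusionSystem S ?_ ?_ ?_
  · -- nontrivial
    intro hb
    apply hgood.ne
    rw [eq_bot_iff]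
    intro x hx
    have h1 : π x ∈ (S : Subgroup G) := by rw [hS]; exact ⟨x, hx, rfl⟩
    rw [hb, Subgroup.mem_bot] at h1
    rw [Subgroup.mem_bot]
    exact hinj x hx h1
  · -- strongly closed subgroups
    intro T hT hsc
    have hTS : T ≤ (S : Subgroup G) := hsc.1
    set Tt : Subgroup Γ := (P' : Subgroup Γ) ⊓ T.comap π with hTt
    have hconj : ∀ t ∈ T, ∀ g : G, g * t * g⁻¹ ∈ (S : Subgroup G) → g * t * g⁻¹ ∈ T := by
      intro t ht g hg
      have hzle : Subgroup.zpowers t ≤ T := by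
        rintro _ ⟨i, rfl⟩
        exact T.zpow_mem ht i
      have hmem : conjHom (Subgroup.zpowers t) g ∈ (groupFusionSystem (S : Subgroup G)).Hom (Subgroup.zpowers t) := by
        refine ⟨hzle.trans hTS, ?_, g, fun y => rfl⟩
        rintro ⟨_, i, rfl⟩
        show g * t ^ i * g⁻¹ ∈ (S : Subgroup G)
        rw [← conj_zpow]
        exact (S : Subgroup G).zpow_mem hg i
      exact hsc.2 _ hzle _ hmem ⟨t, Subgroup.mem_zpowers t⟩
    have hTt_eq : Tt = (P' : Subgroup Γ) := by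
      apply hgood.closed Tt inf_le_left
      · intro hb
        apply hT
        rw [eq_bot_iff]
        intro t ht
        have h1 := hTS ht
        rw [hS] at h1
        obtain ⟨x, hx, rfl⟩ := h1
        have h2 : x ∈ Tt := ⟨hx, ht⟩
        rw [hb, Subgroup.mem_bot] at h2
        rw [h2, map_one, Subgroup.mem_bot]
      · intro x hx g hg
        refine ⟨hg, ?_⟩
        show π (g * x * g⁻¹) ∈ T
        rw [map_mul, map_mul, map_inv]
        apply hconj _ hx.2
        have : π (g * x * g⁻¹) ∈ (S : Subgroup G) := by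
          rw [hS]; exact ⟨_, hg, rfl⟩
        rwa [map_mul, map_mul, map_inv] at this
    apply le_antisymm hTS
    intro y hy
    rw [hS] at hy
    obtain ⟨x, hx, rfl⟩ := hy
    rw [← hTt_eq] at hx
    exact hx.2
  · -- automorphisms of `S` from `N_G(S)` are inner
    intro g hg
    obtain ⟨g', rfl⟩ := hπ g
    have hnorm : ∀ x ∈ (P' : Subgroup Γ), g' * x * g'⁻¹ ∈ (P' : Subgroup Γ) := by
      intro x hx
      have h1 : π x ∈ (S : Subgroup G) := by rw [hS]; exact ⟨x, hx, rfl⟩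
      have h2 := hg _ h1
      rw [hS] at h2
      obtain ⟨y, hy, hyx⟩ := h2
      have h3 : π ((g' * x * g'⁻¹) * y⁻¹) = 1 := by
        rw [map_mul, map_inv, map_mul, map_mul, map_inv, ← hyx]
        group
      have hz : (g' * x * g'⁻¹) * y⁻¹ ∈ π.ker := h3
      set ζ := (g' * x * g'⁻¹) * y⁻¹ with hζ
      have hζc : ∀ a, a * ζ = ζ * a := fun a => (Subgroup.mem_center_iff.1 (hcen hz)) a
      have e1 : g' * x * g'⁻¹ = ζ * y := by rw [hζ]; group
      obtain ⟨e, he⟩ := P'.isPGroup' ⟨x, hx⟩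
      obtain ⟨f, hf⟩ := P'.isPGroup' ⟨y, hy⟩
      have hxe : x ^ p ^ e = 1 := by simpa using congrArg Subtype.val he
      have hyf : y ^ p ^ f = 1 := by simpa using congrArg Subtype.val hf
      have h6 : (g' * x * g'⁻¹) ^ p ^ (e + f) = 1 := by
        rw [conj_pow, pow_add, pow_mul, hxe]
        simp
      have h7 : ζ ^ p ^ (e + f) = 1 := by
        have hcomm : Commute ζ y := ((hζc y).symm)
        rw [e1, hcomm.mul_pow, pow_add, mul_comm (p ^ e), pow_mul y, hyf, one_pow, mul_one] at h6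
        rw [pow_add, mul_comm]
        exact h6
      have h8 : orderOf ζ ∣ p ^ (e + f) := orderOf_dvd_of_pow_eq_one h7
      have h9 : orderOf ζ ∣ Nat.card π.ker := by
        have := orderOf_dvd_natCard (⟨ζ, hz⟩ : π.ker)
        simpa [Subgroup.orderOf_mk] using this
      have hcop : Nat.Coprime (p ^ (e + f)) (Nat.card π.ker) :=
        Nat.Coprime.pow_left _ ((Nat.Prime.coprime_iff_not_dvd Fact.out).2 hker)
      have h10 : orderOf ζ = 1 := Nat.eq_one_of_dvd_coprimes hcop h8 h9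
      have h11 : ζ = 1 := orderOf_eq_one_iff.1 h10
      rw [e1, h11, one_mul]
      exact hy
    obtain ⟨s, hs, hsx⟩ := hgood.inner g' hnorm
    refine ⟨π s, by rw [hS]; exact ⟨s, hs, rfl⟩, ?_⟩
    intro x hx
    rw [hS] at hx
    obtain ⟨x', hx', rfl⟩ := hx
    have := congrArg π (hsx x' hx')
    simpa [map_mul, map_inv] using this

end Lift

end Cfsg.Agent.Lib.Fusion.LiftSimple
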