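import Mathlib
import Cfsg.Agent.Lib.Fusion.LiftSimple

/-!
# Block `3 × 3` matrices: explicit Sylow `2`-subgroups and the simplicity data for `GoodS`

`Γ` is a finite group with an injective representation `ρ : Γ → SL(3, F)`, containing the matrices
`J = [0 1; -1 0] ⊕ 1`, `σ = diag(1,-1,-1)` and the permutation `p`. Under a list of checkable hypotheses,
`exists_good` produces a Sylow `2`-subgroup of `Γ` satisfying `GoodS`.  The Sylow subgroup is contained in
the normalizer of `⟨J⟩`.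
-/

set_option autoImplicit false

namespace Cfsg.Agent.Lib.Fusion.Block3

open Matrix
open scoped MatrixGroups
open Cfsg.Agent.Lib.Fusion.LiftSimple

section Matrices

variable {F : Type*} [Field F]

/-- The block matrix `[a b; -b a] ⊕ e`. -/
def B (a b e : F) : Matrix (Fin 3) (Fin 3) F := !![a, b, 0; -b, a, 0; 0, 0, e]

/-- `diag(1,-1,-1)`. -/
def S3 : Matrix (Fin 3) (Fin 3) F := !![1, 0, 0; 0, -1, 0; 0, 0, -1]

/-- Permutation matrix with determinant one conjugating `diag(-1,-1,1)` to `diag(1,-1,-1)`. -/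
def P3 : Matrix (Fin 3) (Fin 3) F := !![0, 0, 1; 0, -1, 0; 1, 0, 0]

lemma B_mul (a b e a' b' e' : F) :
    B a b e * B a' b' e' = B (a * a' - b * b') (a * b' + b * a') (e * e') := by
  ext i j
  fin_cases i <;> fin_cases j <;> simp [B, Matrix.mul_apply, Fin.sum_univ_three] <;> ring

lemma B_one : B (1 : F) 0 1 = 1 := by
  ext i j
  fin_cases i <;> fin_cases j <;> simp [B]

lemma S3_mul_B_mul_S3 (a b e : F) : S3 * B a b e * S3 = B a (-b) e := by
  ext i j
  fin_cases i <;> fin_cases j <;> simp [S3, B, Matrix.mul_apply, Fin.sum_univ_three]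

lemma S3_mul_S3 : (S3 : Matrix (Fin 3) (Fin 3) F) * S3 = 1 := by
  ext i j
  fin_cases i <;> fin_cases j <;> simp [S3, Matrix.mul_apply, Fin.sum_univ_three]

lemma P3_conj : (P3 : Matrix (Fin 3) (Fin 3) F) * B (-1) 0 1 = S3 * P3 := by
  ext i j
  fin_cases i <;> fin_cases j <;> simp [S3, P3, B, Matrix.mul_apply, Fin.sum_univ_three]

lemma det_B (a b e : F) : (B a b e).det = e * (a ^ 2 + b ^ 2) := by
  simp [B, Matrix.det_fin_three]
  ring

lemma B_inj {a b e a' b' e' : F} (h : B a b e = B a' b' e') : a = a' ∧ b = b' ∧ e = e' := by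
  refine ⟨?_, ?_, ?_⟩
  · simpa [B] using congrFun (congrFun h 0) 0
  · simpa [B] using congrFun (congrFun h 0) 1
  · simpa [B] using congrFun (congrFun h 2) 2

lemma eq_B_of_comm (h2 : (2 : F) ≠ 0) (A : Matrix (Fin 3) (Fin 3) F)
    (h : A * B 0 1 1 = B 0 1 1 * A) : A = B (A 0 0) (A 0 1) (A 2 2) := by
  have e : ∀ i j : Fin 3, (A * B 0 1 1 : Matrix (Fin 3) (Fin 3) F) i j = (B 0 1 1 * A : Matrix (Fin 3) (Fin 3) F) i j := fun i j => by rw [h]
  have e00 := e 0 0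
  have e01 := e 0 1
  have e02 := e 0 2
  have e12 := e 1 2
  have e20 := e 2 0
  have e21 := e 2 1
  simp [B, Matrix.mul_apply, Fin.sum_univ_three] at e00 e01 e02 e12 e20 e21
  have hz : ∀ a : F, a = -a → a = 0 := by
    intro a ha
    have : (2 : F) * a = 0 := by linear_combination ha
    exact (mul_eq_zero.1 this).resolve_left h2
  have h02 : A 0 2 = 0 := hz _ (by linear_combination e02 + e12)
  have h12 : A 1 2 = 0 := by rw [← e02, h02]
  have h20 : A 2 0 = 0 := hz _ (by linear_combination e21 - e20)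
  have h21 : A 2 1 = 0 := by rw [← e21, h20]
  ext i j
  fin_cases i <;> fin_cases j <;> simp [B, h02, h12, h20, h21]
  · linear_combination -e00
  · linear_combination -e01

end Matrices

section General

variable {Γ : Type*} [Group Γ]

/-- `x` has `2`-power order. -/
def Two (x : Γ) : Prop := ∃ k : ℕ, x ^ 2 ^ k = 1

lemma Two.pow {x : Γ} (h : Two x) (n : ℕ) : Two (x ^ n) := by
  obtain ⟨k, hk⟩ := h
  exact ⟨k, by rw [← pow_mul, mul_comm, pow_mul, hk, one_pow]⟩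

lemma Two.inv {x : Γ} (h : Two x) : Two x⁻¹ := by
  obtain ⟨k, hk⟩ := h
  exact ⟨k, by rw [inv_pow, hk, inv_one]⟩

lemma Two.mul {x y : Γ} (hc : Commute x y) (hx : Two x) (hy : Two y) : Two (x * y) := by
  obtain ⟨k, hk⟩ := hx
  obtain ⟨l, hl⟩ := hy
  refine ⟨k + l, ?_⟩
  rw [hc.mul_pow, pow_add, pow_mul, hk, one_pow, one_mul, mul_comm, pow_mul, hl, one_pow]

lemma Two.conj {x : Γ} (h : Two x) (g : Γ) : Two (g * x * g⁻¹) := by
  obtain ⟨k, hk⟩ := h
  exact ⟨k, by rw [conj_pow, hk]; group⟩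

lemma two_one : Two (1 : Γ) := ⟨0, by simp⟩

lemma two_of_conj {x : Γ} {g : Γ} (h : Two (g * x * g⁻¹)) : Two x := by
  obtain ⟨k, hk⟩ := h
  refine ⟨k, ?_⟩
  rw [conj_pow] at hk
  have : x ^ 2 ^ k = g⁻¹ * (g * x ^ 2 ^ k * g⁻¹) * g := by group
  rw [this, hk]
  group

/-- A `2`-element of odd order is trivial. -/
lemma eq_one_of_two_of_odd_pow {x : Γ} (h : Two x) {m : ℕ} (hm : Odd m) (hx : x ^ m = 1) : x = 1 := by
  obtain ⟨k, hk⟩ := h
  have h1 : orderOf x ∣ 2 ^ k := orderOf_dvd_of_pow_eq_one hk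
  have h2 : orderOf x ∣ m := orderOf_dvd_of_pow_eq_one hx
  have hc : Nat.Coprime (2 ^ k) m := Nat.Coprime.pow_left _ (Nat.coprime_two_left.2 hm)
  exact orderOf_eq_one_iff.1 (Nat.eq_one_of_dvd_coprimes hc h1 h2)

/-- The normalizer of `⟨J⟩` when `J ^ 4 = 1`, explicitly. -/
def Nn (J : Γ) : Subgroup Γ where
  carrier := {x | x * J * x⁻¹ = J ∨ x * J * x⁻¹ = J⁻¹}
  one_mem' := by simp
  mul_mem' := by
    rintro x y (hx | hx) (hy | hy)
    · left
      have : x * y * J * (x * y)⁻¹ = x * (y * J * y⁻¹) * x⁻¹ := by group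
      rw [this, hy, hx]
    · right
      have : x * y * J * (x * y)⁻¹ = x * (y * J * y⁻¹) * x⁻¹ := by group
      rw [this, hy, ← conj_inv, hx]
    · right
      have : x * y * J * (x * y)⁻¹ = x * (y * J * y⁻¹) * x⁻¹ := by group
      rw [this, hy, hx]
    · left
      have : x * y * J * (x * y)⁻¹ = x * (y * J * y⁻¹) * x⁻¹ := by group
      rw [this, hy, ← conj_inv, hx, inv_inv]
  inv_mem' := by
    rintro x (hx | hx)
    · left
      calc x⁻¹ * J * x⁻¹⁻¹ = x⁻¹ * (x * J * x⁻¹) * x := by rw [hx]; group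
        _ = J := by group
    · right
      have h : x⁻¹ * J⁻¹ * x = J := by
        rw [← hx]; group
      have h2 : x⁻¹ * J * x = J⁻¹ := by
        have := congrArg (·⁻¹) h
        simpa [mul_assoc] using this
      simpa using h2

lemma mem_Nn {J x : Γ} : x ∈ Nn J ↔ x * J * x⁻¹ = J ∨ x * J * x⁻¹ = J⁻¹ := Iff.rfl

variable [Finite Γ]

/-- A subgroup of index prime to `p` contains a Sylow subgroup over any given `p`-subgroup. -/
lemma exists_sylow_of_index {p : ℕ} [Fact p.Prime] (N : Subgroup Γ) (hN : ¬ p ∣ N.index)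
    (Q : Subgroup Γ) (hQ : IsPGroup p Q) (hQN : Q ≤ N) :
    ∃ S : Sylow p Γ, Q ≤ (S : Subgroup Γ) ∧ (S : Subgroup Γ) ≤ N := by
  have hQ' : IsPGroup p (Q.subgroupOf N) := hQ.of_equiv (Subgroup.subgroupOfEquivOfLe hQN).symm
  obtain ⟨S₀, hS₀⟩ := hQ'.exists_le_sylow
  have h1 : IsPGroup p (S₀.1.map N.subtype) := S₀.isPGroup'.map _
  have h2 : ¬ p ∣ (S₀.1.map N.subtype).index := by
    rw [Subgroup.index_map_subtype]
    intro h
    rcases (Nat.Prime.dvd_mul Fact.out).1 h with h | h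
    · exact S₀.not_dvd_index h
    · exact hN h
  refine ⟨h1.toSylow h2, ?_, ?_⟩
  · intro x hx
    rw [IsPGroup.toSylow_coe]
    exact ⟨⟨x, hQN hx⟩, hS₀ (by simpa [Subgroup.mem_subgroupOf] using hx), rfl⟩
  · rw [IsPGroup.toSylow_coe]
    exact Subgroup.map_subtype_le _

/-- A `p`-element normalizing a Sylow `p`-subgroup lies in it. -/
lemma mem_sylow_of_conj {p : ℕ} [Fact p.Prime] (S : Sylow p Γ) {x : Γ} (hx : ∃ k : ℕ, x ^ p ^ k = 1)
    (hn : ∀ y ∈ (S : Subgroup Γ), x * y * x⁻¹ ∈ (S : Subgroup Γ)) : x ∈ (S : Subgroup Γ) := by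
  have h1 : IsPGroup p (Subgroup.zpowers x) := by
    rw [isPGroup_iff_pow_pow_eq_one]
    rintro ⟨_, i, rfl⟩
    obtain ⟨k, hk⟩ := hx
    refine ⟨k, Subtype.ext ?_⟩
    simp only [Subgroup.coe_pow, Subgroup.coe_one]
    rw [← zpow_natCast, ← _root_.zpow_mul, mul_comm, _root_.zpow_mul, zpow_natCast, hk, _root_.one_zpow]
  have h2 : Subgroup.zpowers x ≤ Subgroup.normalizer ((S : Subgroup Γ) : Set Γ) := by
    rw [Subgroup.zpowers_le]
    exact Cfsg.Agent.Lib.Fusion.SimpleCriterion.mem_normalizer_of_conj_le hn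
  have h3 := h1.to_sup_of_normal_right' S.isPGroup' h2
  have h4 := S.is_maximal' h3 le_sup_right
  rw [← h4]
  exact (le_sup_left : Subgroup.zpowers x ≤ _) (Subgroup.mem_zpowers x)

/-- A `p`-subgroup normalized by a Sylow `p`-subgroup lies in it. -/
lemma le_sylow_of_normalized {p : ℕ} [Fact p.Prime] (S : Sylow p Γ) (D : Subgroup Γ) (hD : IsPGroup p D)
    (hn : ∀ g ∈ (S : Subgroup Γ), ∀ y ∈ D, g * y * g⁻¹ ∈ D) : D ≤ (S : Subgroup Γ) := by
  have h2 : (S : Subgroup Γ) ≤ Subgroup.normalizer (D : Set Γ) := fun g hg =>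
    Cfsg.Agent.Lib.Fusion.SimpleCriterion.mem_normalizer_of_conj_le (hn g hg)
  have h3 := S.isPGroup'.to_sup_of_normal_right' hD h2
  have h4 := S.is_maximal' h3 le_sup_left
  rw [← h4]
  exact le_sup_right

/-- Decomposition of an element in its `2`-part and odd part. -/
lemma exists_two_part (x : Γ) : ∃ k l : ℕ, Two (x ^ k) ∧ Odd (orderOf (x ^ l)) ∧ x ^ k * x ^ l = x ∧
    ∀ y : Γ, Two y → y ^ orderOf x = 1 → y ^ k = y := by
  obtain ⟨t, m, hm, htm⟩ := Nat.exists_eq_two_pow_mul_odd (n := orderOf x) (orderOf_pos x).ne'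
  have hc : Nat.Coprime (2 ^ t) m := Nat.Coprime.pow_left _ (Nat.coprime_two_left.2 hm)
  let k := (Nat.chineseRemainder hc 1 0 : ℕ)
  have hk1 : k ≡ 1 [MOD 2 ^ t] := (Nat.chineseRemainder hc 1 0).2.1
  have hk0 : k ≡ 0 [MOD m] := (Nat.chineseRemainder hc 1 0).2.2
  have hmk : m ∣ k := (Nat.modEq_zero_iff_dvd).1 hk0
  have h2 : Two (x ^ k) := by
    obtain ⟨j, hj⟩ := hmk
    refine ⟨t, ?_⟩
    rw [← pow_mul, hj]
    have : m * j * 2 ^ t = orderOf x * j := by rw [htm]; ring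
    rw [this, pow_mul, pow_orderOf_eq_one, one_pow]
  -- the complementary exponent
  have hle : 1 ≤ k + orderOf x * 1 := by
    have := orderOf_pos x
    omega
  obtain ⟨l, hl⟩ : ∃ l, k + l ≡ 1 [MOD orderOf x] := by
    refine ⟨1 + orderOf x * k - k, ?_⟩
    have hle2 : k ≤ orderOf x * k := Nat.le_mul_of_pos_left k (orderOf_pos x)
    have : k + (1 + orderOf x * k - k) = 1 + orderOf x * k := by omega
    rw [this]
    simp [Nat.ModEq]
  have hprod : x ^ k * x ^ l = x := by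
    rw [← pow_add]
    have := pow_eq_pow_iff_modEq.2 hl
    rw [this, pow_one]
  refine ⟨k, l, h2, ?_, hprod, ?_⟩
  · -- `x ^ l` has odd order: `(x ^ l) ^ m = 1` or so
    have hml : 2 ^ t ∣ l := by
      have h3 : k + l ≡ 1 [MOD 2 ^ t] := hl.of_dvd ⟨m, htm⟩
      have h4 : 1 + l ≡ 1 + 0 [MOD 2 ^ t] := by
        have h5 : 1 + l ≡ k + l [MOD 2 ^ t] := (hk1.symm).add_right l
        exact h5.trans h3
      have h6 := Nat.ModEq.add_left_cancel' 1 h4
      exact (Nat.modEq_zero_iff_dvd).1 h6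
    have h7 : (x ^ l) ^ m = 1 := by
      obtain ⟨j, hj⟩ := hml
      rw [← pow_mul, hj]
      have : 2 ^ t * j * m = orderOf x * j := by rw [htm]; ring
      rw [this, pow_mul, pow_orderOf_eq_one, one_pow]
    exact Odd.of_dvd_nat hm (orderOf_dvd_of_pow_eq_one h7)
  · rintro y ⟨u, hu⟩ hy
    have h3 : orderOf y ∣ 2 ^ u := orderOf_dvd_of_pow_eq_one hu
    have h4 : orderOf y ∣ orderOf x := orderOf_dvd_of_pow_eq_one hy
    obtain ⟨v, -, hv⟩ := (Nat.dvd_prime_pow Nat.prime_two).1 h3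
    have h5 : orderOf y ∣ 2 ^ t := by
      rw [htm] at h4
      have hc2 : Nat.Coprime (orderOf y) m := by
        rw [hv]
        exact Nat.Coprime.pow_left _ (Nat.coprime_two_left.2 hm)
      exact hc2.dvd_of_dvd_mul_right h4
    have h6 : k ≡ 1 [MOD orderOf y] := hk1.of_dvd h5
    have := pow_eq_pow_iff_modEq.2 h6
    rw [this, pow_one]

/-- A nontrivial subgroup of a `p`-group normalized by the group meets the centre nontrivially. -/
lemma exists_central {p : ℕ} [Fact p.Prime] (S : Subgroup Γ) (hS : IsPGroup p S) (T : Subgroup Γ) (hTS : T ≤ S)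
    (hne : T ≠ ⊥) (hn : ∀ x ∈ T, ∀ g ∈ S, g * x * g⁻¹ ∈ T) :
    ∃ y ∈ T, y ≠ 1 ∧ ∀ t ∈ S, y * t = t * y := by
  classical
  set T' : Subgroup S := T.subgroupOf S with hT'
  have hnormal : T'.Normal := by
    constructor
    rintro ⟨x, hx⟩ hxT ⟨g, hg⟩
    rw [hT', Subgroup.mem_subgroupOf] at hxT ⊢
    exact hn x hxT g hg
  haveI := hnormal
  have hS' : IsPGroup p (ConjAct S) := hS.of_equiv ConjAct.toConjAct
  have hTp : IsPGroup p T' := hS.to_subgroup T'
  have hnt : Nontrivial T' := by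
    rw [Subgroup.nontrivial_iff_ne_bot]
    intro hb
    apply hne
    rw [eq_bot_iff]
    intro t ht
    have : (⟨t, hTS ht⟩ : S) ∈ T' := by
      rw [hT', Subgroup.mem_subgroupOf]; exact ht
    rw [hb, Subgroup.mem_bot] at this
    simpa using congrArg Subtype.val this
  have hdvd : p ∣ Nat.card T' := by
    rcases hTp.card_eq_or_dvd with h1 | h1
    · exact absurd h1 Finite.one_lt_card.ne'
    · exact h1
  have hfix : (1 : T') ∈ MulAction.fixedPoints (ConjAct S) T' := by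
    intro g
    exact smul_one g
  obtain ⟨b, hb, hb1⟩ := hS'.exists_fixed_point_of_prime_dvd_card_of_fixed_point (α := T') hdvd hfix
  refine ⟨(b : S), ?_, ?_, ?_⟩
  · exact Subgroup.mem_subgroupOf.1 b.2
  · intro h
    apply hb1
    apply Subtype.ext
    apply Subtype.ext
    simpa using h.symm
  · intro t ht
    have h1 := hb (ConjAct.toConjAct (⟨t, ht⟩ : S))
    have h2 := congrArg (fun z : T' => ((z : S) : Γ)) h1
    simp only [ConjAct.Subgroup.val_conj_smul, ConjAct.smul_def, ConjAct.ofConjAct_toConjAct] at h2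
    have h3 : t * ((b : S) : Γ) * t⁻¹ = ((b : S) : Γ) := by simpa using h2
    calc ((b : S) : Γ) * t = (t * ((b : S) : Γ) * t⁻¹) * t := by rw [h3]
      _ = t * ((b : S) : Γ) := by group

end General

section Core

variable {F : Type*} [Field F] {Γ : Type*} [Group Γ] (ρ : Γ →* SL(3, F))

/-- Matrix of an element. -/
def M (x : Γ) : Matrix (Fin 3) (Fin 3) F := ((ρ x : SL(3, F)) : Matrix (Fin 3) (Fin 3) F)

lemma M_mul (x y : Γ) : M ρ (x * y) = M ρ x * M ρ y := by simp [M]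

lemma M_one : M ρ 1 = 1 := by simp [M]

lemma M_det (x : Γ) : (M ρ x).det = 1 := (ρ x).2

/-- The basic elements. -/
structure Cfg where
  J : Γ
  s : Γ
  p : Γ
  hJ : M ρ J = B 0 1 1
  hs : M ρ s = S3
  hp : M ρ p = P3
  inj : Function.Injective ρ
  h2 : (2 : F) ≠ 0

variable {ρ}
variable (c : Cfg ρ)

/-- Commuting with `J`. -/
def IsR (x : Γ) : Prop := x * c.J = c.J * x

include c in
lemma M_inj {x y : Γ} (h : M ρ x = M ρ y) : x = y := c.inj (Subtype.ext h)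

lemma IsR.M_eq {c : Cfg ρ} {x : Γ} (hx : IsR c x) : M ρ x = B (M ρ x 0 0) (M ρ x 0 1) (M ρ x 2 2) := by
  apply eq_B_of_comm c.h2
  have := congrArg (M ρ) hx
  rwa [M_mul, M_mul, c.hJ] at this

lemma isR_of_M {x : Γ} {a b e : F} (h : M ρ x = B a b e) : IsR c x := by
  apply M_inj c
  rw [M_mul, M_mul, c.hJ, h, B_mul, B_mul]
  congr 1 <;> ring

lemma IsR.comm {c : Cfg ρ} {x y : Γ} (hx : IsR c x) (hy : IsR c y) : x * y = y * x := by
  apply M_inj c
  rw [M_mul, M_mul, hx.M_eq, hy.M_eq, B_mul, B_mul]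
  congr 1 <;> ring

lemma IsR.norm {c : Cfg ρ} {x : Γ} (hx : IsR c x) :
    M ρ x 2 2 * ((M ρ x 0 0) ^ 2 + (M ρ x 0 1) ^ 2) = 1 := by
  have h := M_det ρ x
  rw [hx.M_eq, det_B] at h
  simpa [B] using h

lemma IsR.mul {c : Cfg ρ} {x y : Γ} (hx : IsR c x) (hy : IsR c y) : IsR c (x * y) := by
  unfold IsR at *
  rw [mul_assoc, hy, ← mul_assoc, hx, mul_assoc]

lemma IsR.inv {c : Cfg ρ} {x : Γ} (hx : IsR c x) : IsR c x⁻¹ := by
  unfold IsR at *
  rw [inv_mul_eq_iff_eq_mul, ← mul_assoc, hx, mul_assoc, mul_inv_cancel, mul_one]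

lemma IsR.pow {c : Cfg ρ} {x : Γ} (hx : IsR c x) (n : ℕ) : IsR c (x ^ n) := by
  induction n with
  | zero => simp [IsR]
  | succ n ih => rw [pow_succ]; exact ih.mul hx

lemma isR_one : IsR c 1 := by simp [IsR]

lemma isR_J : IsR c c.J := rfl

/-- The third diagonal entry is multiplicative on commuting-with-`J` elements. -/
lemma IsR.e_mul {c : Cfg ρ} {x y : Γ} (hx : IsR c x) (hy : IsR c y) :
    M ρ (x * y) 2 2 = M ρ x 2 2 * M ρ y 2 2 := by
  rw [M_mul, hx.M_eq, hy.M_eq, B_mul]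
  simp [B]

lemma e_one : M ρ (1 : Γ) 2 2 = 1 := by
  rw [M_one]; simp

lemma IsR.e_inv {c : Cfg ρ} {x : Γ} (hx : IsR c x) : M ρ x⁻¹ 2 2 = (M ρ x 2 2)⁻¹ := by
  have h := hx.e_mul hx.inv
  rw [mul_inv_cancel, e_one] at h
  exact (eq_inv_of_mul_eq_one_right h.symm)

lemma IsR.e_pow {c : Cfg ρ} {x : Γ} (hx : IsR c x) (n : ℕ) : M ρ (x ^ n) 2 2 = (M ρ x 2 2) ^ n := by
  induction n with
  | zero => simp [e_one]
  | succ n ih => rw [pow_succ, (hx.pow n).e_mul hx, ih, pow_succ]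

lemma s_mul_s : c.s * c.s = 1 := by
  apply M_inj c
  rw [M_mul, c.hs, S3_mul_S3, M_one]

lemma s_inv : c.s⁻¹ = c.s := inv_eq_of_mul_eq_one_left (s_mul_s c)

lemma M_s_conj {x : Γ} {a b e : F} (h : M ρ x = B a b e) : M ρ (c.s * x * c.s) = B a (-b) e := by
  rw [M_mul, M_mul, c.hs, h, S3_mul_B_mul_S3]

lemma IsR.s_conj {c : Cfg ρ} {x : Γ} (hx : IsR c x) : IsR c (c.s * x * c.s) :=
  isR_of_M c (M_s_conj c hx.M_eq)

lemma M_J_inv : M ρ c.J⁻¹ = B 0 (-1) 1 := by
  have h : c.J⁻¹ = c.s * c.J * c.s := by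
    apply inv_eq_of_mul_eq_one_right
    apply M_inj c
    rw [M_mul, M_s_conj c c.hJ, c.hJ, B_mul, M_one, ← B_one]
    congr 1 <;> ring
  rw [h, M_s_conj c c.hJ]

lemma s_J_s : c.s * c.J * c.s = c.J⁻¹ := by
  apply M_inj c
  rw [M_s_conj c c.hJ, M_J_inv]

lemma M_z : M ρ (c.J * c.J) = B (-1) 0 1 := by
  rw [M_mul, c.hJ, B_mul]
  congr 1 <;> ring

lemma J_two : Two c.J := by
  refine ⟨2, ?_⟩
  apply M_inj c
  have : c.J ^ 2 ^ 2 = (c.J * c.J) * (c.J * c.J) := by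
    rw [show (2 : ℕ) ^ 2 = 2 * 2 from rfl, pow_mul, pow_two, pow_two]
  rw [this, M_mul, M_z c, B_mul, M_one, ← B_one]
  congr 1 <;> ring

lemma s_two : Two c.s := ⟨1, by rw [pow_one, pow_two, s_mul_s]⟩

lemma s_mem_Nn : c.s ∈ Nn c.J := by
  right
  rw [s_inv, s_J_s]

lemma s_not_isR : ¬ IsR c c.s := by
  intro h
  have h2 := congrArg (M ρ) h
  rw [M_mul, M_mul, c.hs, c.hJ] at h2
  have h3 := congrFun (congrFun h2 0) 1
  simp [S3, B, Matrix.mul_apply, Fin.sum_univ_three] at h3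
  have : (2 : F) = 0 := by linear_combination h3
  exact c.h2 this

lemma p_conj : c.p * (c.J * c.J) * c.p⁻¹ = c.s := by
  rw [mul_inv_eq_iff_eq_mul]
  apply M_inj c
  rw [M_mul ρ c.p, M_mul ρ c.s, c.hp, c.hs, M_z c, P3_conj]

/-- `2`-elements commuting with `J`. -/
def Dg : Subgroup Γ where
  carrier := {x | IsR c x ∧ Two x}
  one_mem' := ⟨isR_one c, two_one⟩
  mul_mem' := fun {a b} ha hb => ⟨ha.1.mul hb.1, Two.mul (ha.1.comm hb.1) ha.2 hb.2⟩
  inv_mem' := fun {a} ha => ⟨ha.1.inv, ha.2.inv⟩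

lemma mem_Dg {x : Γ} : x ∈ Dg c ↔ IsR c x ∧ Two x := Iff.rfl

lemma Dg_isPGroup : IsPGroup 2 (Dg c) := by
  rw [isPGroup_iff_pow_pow_eq_one]
  rintro ⟨x, hx⟩
  obtain ⟨k, hk⟩ := hx.2
  exact ⟨k, Subtype.ext (by simpa using hk)⟩

lemma Nn_conj_isR {g x : Γ} (hg : g ∈ Nn c.J) (hx : IsR c x) : IsR c (g * x * g⁻¹) := by
  have hg' : g⁻¹ ∈ Nn c.J := (Nn c.J).inv_mem hg
  have hx' : x * (g⁻¹ * c.J * g) = (g⁻¹ * c.J * g) * x := by
    rcases hg' with h | h
    · simp only [inv_inv] at h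
      rw [h]; exact hx
    · simp only [inv_inv] at h
      rw [h, eq_inv_mul_iff_mul_eq, ← mul_assoc, ← hx, mul_assoc, mul_inv_cancel, mul_one]
  unfold IsR
  calc g * x * g⁻¹ * c.J = g * (x * (g⁻¹ * c.J * g)) * g⁻¹ := by group
    _ = g * ((g⁻¹ * c.J * g) * x) * g⁻¹ := by rw [hx']
    _ = c.J * (g * x * g⁻¹) := by group

/-- Hypotheses to be verified for each `Γ`. -/
structure Hyps : Prop where
  idx : ¬ 2 ∣ (Nn c.J).index
  h90 : ∀ b, IsR c b → M ρ b 2 2 = 1 → b ≠ c.J * c.J → ∃ x, IsR c x ∧ x⁻¹ * (c.s * x * c.s) = b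
  hr : ∃ r, IsR c r ∧ M ρ r 2 2 = -1
  hconj : ∀ r, IsR c r → M ρ r 2 2 = -1 → ∃ g, g * c.J * g⁻¹ = r * c.s
  ha0 : ∃ a, IsR c a ∧ Two a ∧ M ρ a 0 0 ≠ 0 ∧ M ρ a 0 1 ≠ 0
  hiii : ∀ a, IsR c a → Two a → M ρ a 2 2 ≠ 1 → M ρ a 2 2 ≠ -1 →
    ∃ b w g, IsR c b ∧ Two b ∧ M ρ b 2 2 = 1 ∧ IsR c w ∧ Two w ∧ M ρ w 2 2 = M ρ a 2 2 ∧ g * b * g⁻¹ = w

/-- A `2`-subgroup in position. -/
structure Pos (S : Subgroup Γ) : Prop where
  two : ∀ x ∈ S, Two x
  hs : c.s ∈ S
  hN : S ≤ Nn c.J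
  hD : Dg c ≤ S

variable {c}

lemma z_comm_s : (c.J * c.J) * c.s = c.s * (c.J * c.J) := by
  have h : c.s * (c.J * c.J) * c.s = c.J * c.J := by
    apply M_inj c
    rw [M_s_conj c (M_z c), M_z c]
    congr 1
    ring
  calc (c.J * c.J) * c.s = (c.s * (c.J * c.J) * c.s) * c.s := by rw [h]
    _ = c.s * (c.J * c.J) * (c.s * c.s) := by group
    _ = c.s * (c.J * c.J) := by rw [s_mul_s, mul_one]

lemma isR_z : IsR c (c.J * c.J) := (isR_J c).mul (isR_J c)

section PosLemmas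

variable {S : Subgroup Γ} (hS : Pos c S)
include hS

lemma Pos.struct {x : Γ} (hx : x ∈ S) : x ∈ Dg c ∨ x * c.s ∈ Dg c := by
  rcases hS.hN hx with h | h
  · left
    exact ⟨mul_inv_eq_iff_eq_mul.1 h, hS.two x hx⟩
  · right
    refine ⟨?_, hS.two _ (S.mul_mem hx hS.hs)⟩
    have h1 : c.s * c.J = c.J⁻¹ * c.s := by
      rw [← s_J_s c]
      calc c.s * c.J = c.s * c.J * (c.s * c.s) := by rw [s_mul_s, mul_one]
        _ = c.s * c.J * c.s * c.s := by group
    have h2 : x * c.J⁻¹ = c.J * x := by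
      have h3 : x * c.J⁻¹ * x⁻¹ = (c.J⁻¹)⁻¹ := by rw [← conj_inv, h]
      rw [inv_inv] at h3
      exact mul_inv_eq_iff_eq_mul.1 h3
    unfold IsR
    calc x * c.s * c.J = x * (c.s * c.J) := by group
      _ = x * c.J⁻¹ * c.s := by rw [h1]; group
      _ = c.J * (x * c.s) := by rw [h2]; group

lemma Pos.J_mem : c.J ∈ S := hS.hD ⟨isR_J c, J_two c⟩

lemma Pos.mem_of_isR {x : Γ} (hx : x ∈ S) (hR : IsR c x) : x ∈ Dg c := ⟨hR, hS.two x hx⟩

lemma Pos.z_central {t : Γ} (ht : t ∈ S) : (c.J * c.J) * t = t * (c.J * c.J) := by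
  rcases hS.struct ht with h | h
  · exact (isR_z).comm h.1
  · have h1 := (isR_z (c := c)).comm h.1
    calc (c.J * c.J) * t = (c.J * c.J) * (t * c.s) * c.s := by
          rw [mul_assoc (c.J * c.J), mul_assoc t, s_mul_s, mul_one]
      _ = (t * c.s) * ((c.J * c.J) * c.s) := by rw [h1, mul_assoc]
      _ = (t * c.s) * (c.s * (c.J * c.J)) := by rw [z_comm_s]
      _ = t * (c.s * c.s) * (c.J * c.J) := by group
      _ = t * (c.J * c.J) := by rw [s_mul_s, mul_one]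

omit hS in
lemma M_pow_diag {y : Γ} {a e : F} (hy : M ρ y = B a 0 e) (n : ℕ) :
    M ρ (y ^ n) = B (a ^ n) 0 (e ^ n) := by
  induction n with
  | zero => simp [M_one, B_one]
  | succ n ih =>
    rw [pow_succ, M_mul, ih, hy, B_mul, pow_succ, pow_succ]
    congr 1 <;> ring

lemma Pos.central_form {y : Γ} (hy : y ∈ S) (hc : ∀ t ∈ S, y * t = t * y) :
    ∃ a e : F, M ρ y = B a 0 e := by
  have hR : IsR c y := hc _ hS.J_mem
  refine ⟨M ρ y 0 0, M ρ y 2 2, ?_⟩
  have h1 := hR.M_eq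
  have h2 : c.s * y * c.s = y := by
    rw [← hc _ hS.hs, mul_assoc, s_mul_s, mul_one]
  have h3 := M_s_conj c h1
  rw [h2] at h3
  have h4 := (B_inj (h1.symm.trans h3)).2.1
  have h5 : M ρ y 0 1 = 0 := by
    have : (2 : F) * M ρ y 0 1 = 0 := by linear_combination h4
    exact (mul_eq_zero.1 this).resolve_left c.h2
  rw [h5] at h1
  exact h1

omit hS in
lemma pow_eq_z {y : Γ} {a e : F} (hy : M ρ y = B a 0 e) (h2 : Two y) (hy1 : y ≠ 1) :
    ∃ k : ℕ, y ^ 2 ^ k = c.J * c.J := by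
  classical
  obtain ⟨K, hK⟩ := h2
  have haK : a ^ 2 ^ K = 1 := by
    have h1 := M_pow_diag hy (2 ^ K)
    rw [hK, M_one, ← B_one] at h1
    exact (B_inj h1).1.symm
  have hdet : e * (a ^ 2 + 0 ^ 2) = 1 := by
    have h1 := M_det ρ y
    rwa [hy, det_B] at h1
  have ha1 : a ≠ 1 := by
    rintro rfl
    apply hy1
    apply M_inj c
    have he : e = 1 := by simpa using hdet
    rw [hy, he, M_one, B_one]
  have hex : ∃ k, a ^ 2 ^ k = 1 := ⟨K, haK⟩
  have hj := Nat.find_spec hex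
  have hj0 : Nat.find hex ≠ 0 := by
    intro h0
    rw [h0] at hj
    exact ha1 (by simpa using hj)
  obtain ⟨j, hj1⟩ := Nat.exists_eq_succ_of_ne_zero hj0
  have hmin : a ^ 2 ^ j ≠ 1 := by
    have := Nat.find_min hex (m := j) (by omega)
    exact this
  have hsq : (a ^ 2 ^ j) * (a ^ 2 ^ j) = 1 := by
    rw [← pow_add, ← two_mul, ← pow_succ']
    rw [hj1] at hj
    exact hj
  have hm1 : a ^ 2 ^ j = -1 := (mul_self_eq_one_iff.1 hsq).resolve_left hmin
  refine ⟨j, ?_⟩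
  apply M_inj c
  have h3 := M_pow_diag hy (2 ^ j)
  rw [hm1] at h3
  have hd := M_det ρ (y ^ 2 ^ j)
  rw [h3, det_B] at hd
  have he : e ^ 2 ^ j = 1 := by
    have : e ^ 2 ^ j * ((-1 : F) ^ 2 + 0 ^ 2) = e ^ 2 ^ j := by ring
    rw [← this, hd]
  rw [h3, he, M_z c]

end PosLemmas

variable [Finite Γ]

section Closed

variable {S : Subgroup Γ} (hS : Pos c S) (hSp : IsPGroup 2 S) (H : Hyps c)
include hS hSp H

theorem Pos.closed (T : Subgroup Γ) (hTS : T ≤ S) (hne : T ≠ ⊥)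
    (hcl : ∀ x ∈ T, ∀ g : Γ, g * x * g⁻¹ ∈ S → g * x * g⁻¹ ∈ T) : T = S := by
  have hn : ∀ x ∈ T, ∀ g ∈ S, g * x * g⁻¹ ∈ T := fun x hx g hg =>
    hcl x hx g (S.mul_mem (S.mul_mem hg (hTS hx)) (S.inv_mem hg))
  obtain ⟨y, hyT, hy1, hyc⟩ := exists_central S hSp T hTS hne hn
  obtain ⟨a, e, hae⟩ := hS.central_form (hTS hyT) hyc
  obtain ⟨k, hk⟩ := pow_eq_z hae (hS.two y (hTS hyT)) hy1
  have hzT : c.J * c.J ∈ T := by
    rw [← hk]
    exact T.pow_mem hyT _
  have hsT : c.s ∈ T := by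
    have h1 := hcl _ hzT c.p (by rw [p_conj]; exact hS.hs)
    rwa [p_conj] at h1
  have hd : ∀ a ∈ Dg c, a⁻¹ * (c.s * a * c.s) ∈ T := by
    intro a ha
    have h1 := hn _ hsT a⁻¹ (S.inv_mem (hS.hD ha))
    have h2 := T.mul_mem h1 hsT
    have e1 : a⁻¹ * c.s * a⁻¹⁻¹ * c.s = a⁻¹ * (c.s * a * c.s) := by group
    rwa [e1] at h2
  have he1 : ∀ b ∈ Dg c, M ρ b 2 2 = 1 → b ∈ T := by
    intro b hb hb1
    by_cases hbz : b = c.J * c.J
    · rw [hbz]; exact hzT
    obtain ⟨x, hx, hxb⟩ := H.h90 b hb.1 hb1 hbz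
    obtain ⟨k, l, hk2, -, -, hkb⟩ := exists_two_part x
    have hphi : ∀ n : ℕ, (x⁻¹ * (c.s * x * c.s)) ^ n = (x ^ n)⁻¹ * (c.s * x ^ n * c.s) := by
      intro n
      have hcomm : Commute x⁻¹ (c.s * x * c.s) := hx.inv.comm hx.s_conj
      rw [hcomm.mul_pow, inv_pow]
      congr 1
      have := conj_pow (a := c.s) (b := x) (i := n)
      rw [s_inv] at this
      exact this
    have h3 : b ^ orderOf x = 1 := by
      rw [← hxb, hphi, pow_orderOf_eq_one]
      have := s_mul_s c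
      simp [this]
    have h4 : b ^ k = b := hkb b hb.2 h3
    have h5 := hd (x ^ k) ⟨hx.pow k, hk2⟩
    rw [← hphi, hxb, h4] at h5
    exact h5
  have hJT : c.J ∈ T := by
    apply he1 c.J ⟨isR_J c, J_two c⟩
    rw [c.hJ]
    simp [B]
  obtain ⟨r₁, hr₁, her₁⟩ := H.hr
  obtain ⟨k, l, hk2, hlodd, hkl, -⟩ := exists_two_part r₁
  have hr0e : M ρ (r₁ ^ k) 2 2 = -1 := by
    have h1 := (hr₁.pow k).e_mul (hr₁.pow l)
    rw [hkl, her₁, hr₁.e_pow, hr₁.e_pow, her₁] at h1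
    have h2 : ((-1 : F) ^ l) ^ orderOf (r₁ ^ l) = 1 := by
      have h3 := (hr₁.pow l).e_pow (orderOf (r₁ ^ l))
      rw [pow_orderOf_eq_one, e_one, hr₁.e_pow, her₁] at h3
      exact h3.symm
    rcases neg_one_pow_eq_or F l with h4 | h4
    · rw [h4, mul_one] at h1
      rw [hr₁.e_pow, her₁]
      exact h1.symm
    · rw [h4, hlodd.neg_one_pow] at h2
      exact absurd (by linear_combination -h2 : (2 : F) = 0) c.h2
  set r₀ := r₁ ^ k with hr₀
  have hr0R : IsR c r₀ := hr₁.pow k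
  have hr0D : r₀ ∈ Dg c := ⟨hr0R, hk2⟩
  have hr0T : r₀ ∈ T := by
    obtain ⟨g, hg⟩ := H.hconj r₀ hr0R hr0e
    have h1 := hcl _ hJT g (by rw [hg]; exact S.mul_mem (hS.hD hr0D) hS.hs)
    rw [hg] at h1
    have h2 := T.mul_mem h1 hsT
    rwa [mul_assoc, s_mul_s, mul_one] at h2
  have hem : ∀ a ∈ Dg c, M ρ a 2 2 = -1 → a ∈ T := by
    intro a ha hae
    have h1 : a * r₀⁻¹ ∈ Dg c := (Dg c).mul_mem ha ((Dg c).inv_mem hr0D)
    have h2 : M ρ (a * r₀⁻¹) 2 2 = 1 := by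
      rw [ha.1.e_mul hr0R.inv, hr0R.e_inv, hae, hr0e]
      simp
    have h3 := T.mul_mem (he1 _ h1 h2) hr0T
    simpa using h3
  have hall : ∀ a ∈ Dg c, a ∈ T := by
    intro a ha
    by_cases h1 : M ρ a 2 2 = 1
    · exact he1 a ha h1
    by_cases h2 : M ρ a 2 2 = -1
    · exact hem a ha h2
    obtain ⟨b, w, g, hbR, hb2, hb1, hwR, hw2, hwe, hgw⟩ := H.hiii a ha.1 ha.2 h1 h2
    have hbT := he1 b ⟨hbR, hb2⟩ hb1
    have hwD : w ∈ Dg c := ⟨hwR, hw2⟩
    have hwT : w ∈ T := by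
      have h3 := hcl _ hbT g (by rw [hgw]; exact hS.hD hwD)
      rwa [hgw] at h3
    have h4 : a * w⁻¹ ∈ Dg c := (Dg c).mul_mem ha ((Dg c).inv_mem hwD)
    have h5 : M ρ (a * w⁻¹) 2 2 = 1 := by
      rw [ha.1.e_mul hwR.inv, hwR.e_inv, hwe]
      exact mul_inv_cancel₀ (by
        intro h0
        have := ha.1.norm
        rw [h0, zero_mul] at this
        exact zero_ne_one this)
    have h6 := T.mul_mem (he1 _ h4 h5) hwT
    simpa using h6
  apply le_antisymm hTS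
  intro x hx
  rcases hS.struct hx with h | h
  · exact hall x h
  · have h1 := T.mul_mem (hall _ h) hsT
    rwa [mul_assoc, s_mul_s, mul_one] at h1

end Closed

section Inner

omit [Finite Γ] in
/-- Conjugation by `h` with `M h` in block form. -/
lemma comm_of_block (c : Cfg ρ) {h y : Γ} {a e : F} (hy : M ρ y = B a 0 e)
    (h02 : M ρ h 0 2 = 0) (h12 : M ρ h 1 2 = 0) (h20 : M ρ h 2 0 = 0) (h21 : M ρ h 2 1 = 0) :
    h * y = y * h := by
  apply M_inj c
  rw [M_mul, M_mul, hy]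
  ext i j
  fin_cases i <;> fin_cases j <;>
    simp [B, Matrix.mul_apply, Fin.sum_univ_three, h02, h12, h20, h21] <;> ring

omit [Finite Γ] in
/-- Elements outside `R` in position have squares in scalar block form. -/
lemma sq_form {t : Γ} {r : Γ} (hr : IsR c r) (ht : t = r * c.s) : ∃ A E : F, M ρ (t * t) = B A 0 E := by
  refine ⟨(M ρ r 0 0) ^ 2 + (M ρ r 0 1) ^ 2, (M ρ r 2 2) ^ 2, ?_⟩
  have h1 : t * t = r * (c.s * r * c.s) := by
    rw [ht]; group
  rw [h1, M_mul, M_s_conj c hr.M_eq, hr.M_eq, B_mul]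
  simp only [B, Matrix.of_apply, Matrix.cons_val]
  congr 1 <;> ring

variable {S : Subgroup Γ} (hS : Pos c S) (H : Hyps c)
include hS H

omit [Finite Γ] in
theorem Pos.comm_of_odd {h : Γ} (hh : ∀ x ∈ S, h * x * h⁻¹ ∈ S) (hh' : ∀ x ∈ S, h⁻¹ * x * h ∈ S)
    (hodd : Odd (orderOf h)) : ∀ x ∈ S, h * x = x * h := by
  have hzS : c.J * c.J ∈ S := S.mul_mem hS.J_mem hS.J_mem
  have hzz : (c.J * c.J) * (c.J * c.J) = 1 := by
    apply M_inj c
    rw [M_mul, M_z c, B_mul, M_one, ← B_one]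
    congr 1 <;> ring
  -- `h` centralizes `z`
  have hyS := hh _ hzS
  have hyc : ∀ t ∈ S, (h * (c.J * c.J) * h⁻¹) * t = t * (h * (c.J * c.J) * h⁻¹) := by
    intro t ht
    have h1 := hS.z_central (hh' t ht)
    calc (h * (c.J * c.J) * h⁻¹) * t = h * ((c.J * c.J) * (h⁻¹ * t * h)) * h⁻¹ := by group
      _ = h * ((h⁻¹ * t * h) * (c.J * c.J)) * h⁻¹ := by rw [h1]
      _ = t * (h * (c.J * c.J) * h⁻¹) := by group
  obtain ⟨a, e, hae⟩ := hS.central_form hyS hyc
  have hz1 : c.J * c.J ≠ 1 := by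
    intro h1
    have h3 := M_z c
    rw [h1, M_one, ← B_one] at h3
    have := (B_inj h3).1
    exact c.h2 (by linear_combination this)
  have hhz : h * (c.J * c.J) * h⁻¹ = c.J * c.J := by
    have hyy : (h * (c.J * c.J) * h⁻¹) * (h * (c.J * c.J) * h⁻¹) = 1 := by
      calc _ = h * ((c.J * c.J) * (c.J * c.J)) * h⁻¹ := by group
        _ = 1 := by rw [hzz]; group
    have h1 := congrArg (M ρ) hyy
    rw [M_mul, hae, B_mul, M_one, ← B_one] at h1
    obtain ⟨h2, -, h4⟩ := B_inj h1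
    have hdet := M_det ρ (h * (c.J * c.J) * h⁻¹)
    rw [hae, det_B] at hdet
    have h5 : a * a = 1 := by linear_combination h2
    have he : e = 1 := by
      have : e * (a * a) = 1 := by linear_combination hdet
      rwa [h5, mul_one] at this
    rcases mul_self_eq_one_iff.1 h5 with h6 | h6
    · exfalso
      apply hz1
      have h7 : h * (c.J * c.J) * h⁻¹ = 1 := by
        apply M_inj c
        rw [hae, h6, he, M_one, B_one]
      have h8 : c.J * c.J = h⁻¹ * (h * (c.J * c.J) * h⁻¹) * h := by group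
      rw [h8, h7]
      group
    · apply M_inj c
      rw [hae, h6, he, M_z c]
  have hcz : h * (c.J * c.J) = (c.J * c.J) * h := mul_inv_eq_iff_eq_mul.1 hhz
  -- block form of `M h`
  have hbl := congrArg (M ρ) hcz
  rw [M_mul ρ h, M_mul ρ (c.J * c.J), M_z c] at hbl
  have ez : ∀ i j : Fin 3, (M ρ h * B (-1) 0 1 : Matrix (Fin 3) (Fin 3) F) i j =
      (B (-1) 0 1 * M ρ h : Matrix (Fin 3) (Fin 3) F) i j := fun i j => by rw [hbl]
  have e02 := ez 0 2
  have e12 := ez 1 2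
  have e20 := ez 2 0
  have e21 := ez 2 1
  simp [B, Matrix.mul_apply, Fin.sum_univ_three] at e02 e12 e20 e21
  have hzr : ∀ a : F, a = -a → a = 0 := by
    intro a ha
    have : (2 : F) * a = 0 := by linear_combination ha
    exact (mul_eq_zero.1 this).resolve_left c.h2
  have h02 : M ρ h 0 2 = 0 := hzr _ e02
  have h12 : M ρ h 1 2 = 0 := hzr _ e12
  have h20 : M ρ h 2 0 = 0 := by
    apply hzr
    linear_combination -e20
  have h21 : M ρ h 2 1 = 0 := by
    apply hzr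
    linear_combination -e21
  -- squares outside `R`
  have hout : ∀ t ∈ S, ¬ IsR c t → ∃ A E : F, M ρ (t * t) = B A 0 E := by
    intro t ht hnR
    rcases hS.struct ht with h1 | h1
    · exact absurd h1.1 hnR
    · exact sq_form h1.1 (by rw [mul_assoc, s_mul_s, mul_one])
  have hconjD : ∀ x ∈ Dg c, M ρ x 0 0 * M ρ x 0 1 ≠ 0 → h * x * h⁻¹ ∈ Dg c := by
    intro x hx hne
    have ht : h * x * h⁻¹ ∈ S := hh x (hS.hD hx)
    by_contra hnot
    have hnR : ¬ IsR c (h * x * h⁻¹) := fun hR => hnot (hS.mem_of_isR ht hR)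
    obtain ⟨A, E, hAE⟩ := hout _ ht hnR
    have e2 : h * ((h * x * h⁻¹) * (h * x * h⁻¹)) = ((h * x * h⁻¹) * (h * x * h⁻¹)) * h :=
      comm_of_block c hAE h02 h12 h20 h21
    have e1 : (h * x * h⁻¹) * (h * x * h⁻¹) = h * (x * x) * h⁻¹ := by group
    have e3 : x * x = (h * x * h⁻¹) * (h * x * h⁻¹) := by
      have h4 : h * (x * x) = ((h * x * h⁻¹) * (h * x * h⁻¹)) * h := by
        rw [e1]; group
      rw [← e2] at h4
      exact mul_left_cancel h4
    have e4 := congrArg (M ρ) e3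
    rw [hAE, M_mul, hx.1.M_eq, B_mul] at e4
    have e5 := (B_inj e4).2.1
    apply hne
    have : (2 : F) * (M ρ x 0 0 * M ρ x 0 1) = 0 := by
      linear_combination e5
    exact (mul_eq_zero.1 this).resolve_left c.h2
  obtain ⟨a0, ha0R, ha02, ha00, ha01⟩ := H.ha0
  have hD0 : a0 ∈ Dg c := ⟨ha0R, ha02⟩
  have hD1 : a0 * c.J ∈ Dg c := (Dg c).mul_mem hD0 ⟨isR_J c, J_two c⟩
  have h1 := hconjD a0 hD0 (mul_ne_zero ha00 ha01)
  have h2 := hconjD (a0 * c.J) hD1 (by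
    have e1 : M ρ (a0 * c.J) = B (-(M ρ a0 0 1)) (M ρ a0 0 0) (M ρ a0 2 2) := by
      rw [M_mul, c.hJ]
      conv_lhs => rw [ha0R.M_eq]
      rw [B_mul]
      simp only [B, Matrix.of_apply, Matrix.cons_val]
      congr 1 <;> ring
    rw [e1]
    simp only [B, Matrix.of_apply, Matrix.cons_val]
    exact mul_ne_zero (neg_ne_zero.2 ha01) ha00)
  have hvD : h * c.J * h⁻¹ ∈ Dg c := by
    have h3 := (Dg c).mul_mem ((Dg c).inv_mem h1) h2
    have e1 : (h * a0 * h⁻¹)⁻¹ * (h * (a0 * c.J) * h⁻¹) = h * c.J * h⁻¹ := by group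
    rwa [e1] at h3
  have hvv : (h * c.J * h⁻¹) * (h * c.J * h⁻¹) = c.J * c.J := by
    rw [← hhz]; group
  -- `h` normalizes `⟨J⟩`
  have hbin : h * c.J * h⁻¹ = c.J ∨ h * c.J * h⁻¹ = c.J⁻¹ := by
    obtain ⟨v, hv⟩ : ∃ v, v = h * c.J * h⁻¹ := ⟨_, rfl⟩
    rw [← hv] at hvD hvv ⊢
    have hM := hvD.1.M_eq
    have hnorm := hvD.1.norm
    generalize hα : M ρ v 0 0 = α at hM hnorm
    generalize hβ : M ρ v 0 1 = β at hM hnorm
    generalize hε : M ρ v 2 2 = ε at hM hnorm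
    have h3 := congrArg (M ρ) hvv
    rw [M_mul, hM, B_mul, M_z c] at h3
    obtain ⟨h4, h5, h6⟩ := B_inj h3
    have h7 : α * β = 0 := by
      have : (2 : F) * (α * β) = 0 := by linear_combination h5
      exact (mul_eq_zero.1 this).resolve_left c.h2
    rcases mul_eq_zero.1 h7 with h8 | h8
    · have h9 : β * β = 1 := by
        rw [h8] at h4
        linear_combination -h4
      have h10 : ε = 1 := by
        rw [h8] at hnorm
        have : ε * (β * β) = 1 := by linear_combination hnorm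
        rwa [h9, mul_one] at this
      rcases mul_self_eq_one_iff.1 h9 with h11 | h11
      · left
        apply M_inj c
        rw [hM, h8, h11, h10, c.hJ]
      · right
        apply M_inj c
        rw [hM, h8, h11, h10, M_J_inv c]
    · exfalso
      rw [h8] at hM
      have hc : h * v = v * h := comm_of_block c hM h02 h12 h20 h21
      have h9 : c.J = v := by
        have h10 : c.J = h⁻¹ * v * h := by rw [hv]; group
        rw [h10, mul_assoc, ← hc, ← mul_assoc, inv_mul_cancel, one_mul]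
      have h10 := congrArg (M ρ) h9
      rw [hM, c.hJ] at h10
      have h11 := (B_inj h10).2.1
      exact one_ne_zero h11
  have hR : IsR c h := by
    rcases hbin with h3 | h3
    · exact mul_inv_eq_iff_eq_mul.1 h3
    · have h4 : h * c.J⁻¹ = c.J * h := by
        have h5 : h * c.J⁻¹ * h⁻¹ = (c.J⁻¹)⁻¹ := by rw [← conj_inv, h3]
        rw [inv_inv] at h5
        exact mul_inv_eq_iff_eq_mul.1 h5
      have h5 : h * c.J = c.J⁻¹ * h := mul_inv_eq_iff_eq_mul.1 h3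
      have hd : IsR c (h * h) := by
        unfold IsR
        calc h * h * c.J = h * (h * c.J) := by group
          _ = h * (c.J⁻¹ * h) := by rw [h5]
          _ = (h * c.J⁻¹) * h := by group
          _ = c.J * (h * h) := by rw [h4]; group
      obtain ⟨n, hn⟩ := hodd
      have e1 : (h * h) ^ (n + 1) = h := by
        rw [← pow_two, ← pow_mul]
        have e2 : 2 * (n + 1) = orderOf h + 1 := by omega
        rw [e2, pow_succ, pow_orderOf_eq_one, one_mul]
      rw [← e1]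
      exact hd.pow (n + 1)
  have hsh : IsR c (c.s * h⁻¹ * c.s) := hR.inv.s_conj
  have hbS : h * (c.s * h⁻¹ * c.s) ∈ S := by
    have h3 := S.mul_mem (hh _ hS.hs) hS.hs
    have e1 : h * c.s * h⁻¹ * c.s = h * (c.s * h⁻¹ * c.s) := by group
    rwa [e1] at h3
  have hb1 : h * (c.s * h⁻¹ * c.s) = 1 := by
    apply eq_one_of_two_of_odd_pow (hS.two _ hbS) hodd
    have hcomm : Commute h (c.s * h⁻¹ * c.s) := hR.comm hsh
    rw [hcomm.mul_pow, pow_orderOf_eq_one, one_mul]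
    have h3 := conj_pow (a := c.s) (b := h⁻¹) (i := orderOf h)
    rw [s_inv] at h3
    rw [h3, inv_pow, pow_orderOf_eq_one, inv_one, mul_one, s_mul_s]
  have hhs : h * c.s = c.s * h := by
    have h3 : h * c.s * h⁻¹ = c.s := by
      have e1 : h * c.s * h⁻¹ = h * (c.s * h⁻¹ * c.s) * c.s := by
        calc h * c.s * h⁻¹ = h * c.s * h⁻¹ * (c.s * c.s) := by rw [s_mul_s, mul_one]
          _ = h * (c.s * h⁻¹ * c.s) * c.s := by group
      rw [e1, hb1, one_mul]
    exact mul_inv_eq_iff_eq_mul.1 h3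
  intro x hx
  rcases hS.struct hx with h3 | h3
  · exact hR.comm h3.1
  · have h4 := hR.comm h3.1
    calc h * x = h * (x * c.s) * c.s := by rw [mul_assoc h, mul_assoc x, s_mul_s, mul_one]
      _ = (x * c.s) * (h * c.s) := by rw [h4, mul_assoc]
      _ = (x * c.s) * (c.s * h) := by rw [hhs]
      _ = x * (c.s * c.s) * h := by group
      _ = x * h := by rw [s_mul_s, mul_one]

end Inner

/-- The centralizer of `J`. -/
def Rg (c : Cfg ρ) : Subgroup Γ := Subgroup.centralizer {c.J}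

omit [Finite Γ] in
lemma mem_Rg {x : Γ} : x ∈ Rg c ↔ IsR c x := by
  rw [Rg, Subgroup.mem_centralizer_singleton_iff]
  exact ⟨fun h => h, fun h => h⟩

/-- `|Γ| = 2 |R| [Γ : N(⟨J⟩)]`. -/
theorem card_eq_two_mul (c : Cfg ρ) :
    Nat.card Γ = 2 * Nat.card (Rg c) * (Nn c.J).index := by
  have hle : Rg c ≤ Nn c.J := by
    intro x hx
    left
    rw [mem_Rg] at hx
    exact mul_inv_eq_iff_eq_mul.2 hx
  have hidx : ((Rg c).subgroupOf (Nn c.J)).index = 2 := by
    rw [Subgroup.index_eq_two_iff]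
    refine ⟨⟨c.s, s_mem_Nn c⟩, ?_⟩
    rintro ⟨b, hb⟩
    simp only [Subgroup.mem_subgroupOf, Subgroup.coe_mul, mem_Rg]
    have hsR := s_not_isR c
    by_cases hbR : IsR c b
    · right
      refine ⟨hbR, fun h => hsR ?_⟩
      have := hbR.inv.mul h
      simpa using this
    · left
      refine ⟨?_, hbR⟩
      rcases hb with h | h
      · exact absurd (mul_inv_eq_iff_eq_mul.1 h) hbR
      · have h1 : c.s * c.J = c.J⁻¹ * c.s := by
          rw [← s_J_s c]
          calc c.s * c.J = c.s * c.J * (c.s * c.s) := by rw [s_mul_s, mul_one]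
            _ = c.s * c.J * c.s * c.s := by group
        have h2 : b * c.J⁻¹ = c.J * b := by
          have h3 : b * c.J⁻¹ * b⁻¹ = (c.J⁻¹)⁻¹ := by rw [← conj_inv, h]
          rw [inv_inv] at h3
          exact mul_inv_eq_iff_eq_mul.1 h3
        unfold IsR
        calc b * c.s * c.J = b * (c.s * c.J) := by group
          _ = b * c.J⁻¹ * c.s := by rw [h1]; group
          _ = c.J * (b * c.s) := by rw [h2]; group
  have h1 := ((Rg c).subgroupOf (Nn c.J)).card_mul_index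
  rw [hidx, Nat.card_congr (Subgroup.subgroupOfEquivOfLe hle).toEquiv] at h1
  have h2 := (Nn c.J).card_mul_index
  rw [← h2, ← h1]
  ring

/-- The main theorem of the file. -/
theorem exists_good (c : Cfg ρ) (H : Hyps c) : ∃ S : Sylow 2 Γ, GoodS (S : Subgroup Γ) := by
  have hzp : IsPGroup 2 (Subgroup.zpowers c.s) := by
    rw [isPGroup_iff_pow_pow_eq_one]
    rintro ⟨_, i, rfl⟩
    refine ⟨1, Subtype.ext ?_⟩
    simp only [Subgroup.coe_pow, Subgroup.coe_one, pow_one]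
    rw [← zpow_natCast, ← _root_.zpow_mul, mul_comm, _root_.zpow_mul, zpow_natCast, pow_two, s_mul_s,
      _root_.one_zpow]
  obtain ⟨P, hP1, hP2⟩ := exists_sylow_of_index (Nn c.J) H.idx (Subgroup.zpowers c.s) hzp
    (by rw [Subgroup.zpowers_le]; exact s_mem_Nn c)
  have hD : Dg c ≤ (P : Subgroup Γ) := le_sylow_of_normalized P (Dg c) (Dg_isPGroup c)
    (fun g hg y hy => ⟨Nn_conj_isR c (hP2 hg) hy.1, hy.2.conj g⟩)
  have hPos : Pos c (P : Subgroup Γ) := by
    refine ⟨?_, hP1 (Subgroup.mem_zpowers _), hP2, hD⟩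
    intro x hx
    obtain ⟨k, hk⟩ := (isPGroup_iff_pow_pow_eq_one.1 P.isPGroup') ⟨x, hx⟩
    exact ⟨k, by simpa using congrArg Subtype.val hk⟩
  refine ⟨P, ?_, hPos.closed P.isPGroup' H, ?_⟩
  · intro hb
    have h1 := hP1 (Subgroup.mem_zpowers c.s)
    rw [hb, Subgroup.mem_bot] at h1
    apply s_not_isR c
    rw [h1]
    exact isR_one c
  · intro g hg
    have hgp : ∀ n : ℕ, ∀ x ∈ (P : Subgroup Γ), g ^ n * x * (g ^ n)⁻¹ ∈ (P : Subgroup Γ) := by
      intro n
      induction n with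
      | zero => intro x hx; simpa using hx
      | succ n ih =>
        intro x hx
        have h1 := ih _ (hg x hx)
        have e1 : g ^ n * (g * x * g⁻¹) * (g ^ n)⁻¹ = g ^ (n + 1) * x * (g ^ (n + 1))⁻¹ := by
          rw [pow_succ]; group
        rwa [e1] at h1
    obtain ⟨k, l, hk2, hlodd, hkl, -⟩ := exists_two_part g
    have hg2 : g ^ k ∈ (P : Subgroup Γ) := mem_sylow_of_conj P hk2 (hgp k)
    have hinv : (g ^ l)⁻¹ = g ^ (l * (orderOf (g ^ l) - 1)) := by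
      apply inv_eq_of_mul_eq_one_right
      rw [← pow_add]
      have h1 : l + l * (orderOf (g ^ l) - 1) = l * orderOf (g ^ l) := by
        have := orderOf_pos (g ^ l)
        obtain ⟨m, hm⟩ : ∃ m, orderOf (g ^ l) = m + 1 := ⟨orderOf (g ^ l) - 1, by omega⟩
        rw [hm]
        simp only [Nat.add_sub_cancel]
        ring
      rw [h1, pow_mul, pow_orderOf_eq_one]
    have hh : ∀ x ∈ (P : Subgroup Γ), g ^ l * x * (g ^ l)⁻¹ ∈ (P : Subgroup Γ) := hgp l
    have hh' : ∀ x ∈ (P : Subgroup Γ), (g ^ l)⁻¹ * x * g ^ l ∈ (P : Subgroup Γ) := by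
      intro x hx
      have h1 := hgp (l * (orderOf (g ^ l) - 1)) x hx
      rw [← hinv, inv_inv] at h1
      exact h1
    have hcomm := hPos.comm_of_odd H hh hh' hlodd
    refine ⟨g ^ k, hg2, fun x hx => ?_⟩
    calc g * x * g⁻¹ = (g ^ k * g ^ l) * x * (g ^ k * g ^ l)⁻¹ := by rw [hkl]
      _ = g ^ k * (g ^ l * x * (g ^ l)⁻¹) * (g ^ k)⁻¹ := by group
      _ = g ^ k * x * (g ^ k)⁻¹ := by rw [mul_inv_eq_iff_eq_mul.2 (hcomm x hx)]

end Core

end Cfsg.Agent.Lib.Fusion.Block3
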