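import Mathlib
import Cfsg.Agent.Lib.Fusion.Block3
import Cfsg.Agent.Lib.Linalg.Basic
import Cfsg.Agent.Lib.PSL2.TorusCore

/-!
# The hypotheses of `Block3.exists_good` for `SL(3, F)`, and simplicity of the 2-fusion system of `PSL(3, F)`
-/

set_option autoImplicit false

namespace Cfsg.Agent.Lib.Fusion.Block3SL

open Matrix
open scoped MatrixGroups
open Cfsg.Agent.Lib.Fusion.Block3 Cfsg.Agent.Lib.Fusion.LiftSimple

variable {F : Type*} [Field F]

/-- The identity representation. -/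
abbrev rho : SL(3, F) →* SL(3, F) := MonoidHom.id _

lemma M_rho (x : SL(3, F)) : M (rho (F := F)) x = x.1 := rfl

/-- Elements of `SL(3, F)` from a matrix. -/
def mkM (A : Matrix (Fin 3) (Fin 3) F) (h : A.det = 1) : SL(3, F) := ⟨A, h⟩

lemma M_mkM (A : Matrix (Fin 3) (Fin 3) F) (h : A.det = 1) : M (rho (F := F)) (mkM A h) = A := rfl

/-- Block elements of `SL(3, F)`. -/
def mkB (a b e : F) (h : e * (a ^ 2 + b ^ 2) = 1) : SL(3, F) := ⟨B a b e, by rw [det_B, h]⟩

lemma M_mkB (a b e : F) (h : e * (a ^ 2 + b ^ 2) = 1) : M (rho (F := F)) (mkB a b e h) = B a b e := rfl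

/-- The configuration in `SL(3, F)`. -/
def cfg (h2 : (2 : F) ≠ 0) : Cfg (rho (F := F)) where
  J := mkB 0 1 1 (by ring)
  s := ⟨S3, by simp [S3, Matrix.det_fin_three]⟩
  p := ⟨P3, by simp [P3, Matrix.det_fin_three]⟩
  hJ := rfl
  hs := rfl
  hp := rfl
  inj := Function.injective_id
  h2 := h2

variable (h2 : (2 : F) ≠ 0)

lemma h90 (b : SL(3, F)) (hb : IsR (cfg h2) b) (hb1 : M rho b 2 2 = 1)
    (hbz : b ≠ (cfg h2).J * (cfg h2).J) :
    ∃ x, IsR (cfg h2) x ∧ x⁻¹ * ((cfg h2).s * x * (cfg h2).s) = b := by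
  have hM := hb.M_eq
  have hn := hb.norm
  rw [hb1] at hM hn
  generalize M rho b 0 0 = u at hM hn
  generalize M rho b 0 1 = v at hM hn
  have hne : (1 + u) ^ 2 + v ^ 2 ≠ 0 := by
    intro h0
    have h1 : (2 : F) * (1 + u) = 0 := by linear_combination h0 - hn
    have h3 : u = -1 := by
      have := (mul_eq_zero.1 h1).resolve_left h2
      linear_combination this
    have h4 : v = 0 := by
      rw [h3] at hn
      have : v ^ 2 = 0 := by linear_combination hn
      exact pow_eq_zero_iff (two_ne_zero) |>.1 this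
    apply hbz
    apply M_inj (cfg h2)
    rw [hM, M_z (cfg h2), h3, h4]
  refine ⟨mkB (1 + u) (-v) ((1 + u) ^ 2 + v ^ 2)⁻¹ (by rw [neg_sq]; exact inv_mul_cancel₀ hne), ?_, ?_⟩
  · exact isR_of_M _ (M_mkB _ _ _ _)
  · rw [inv_mul_eq_iff_eq_mul]
    apply M_inj (cfg h2)
    rw [M_s_conj (cfg h2) (M_mkB _ _ _ _), M_mul, M_mkB, hM, B_mul]
    congr 1
    · linear_combination -hn
    · ring
    · simp

lemma hconj (r : SL(3, F)) (hr : IsR (cfg h2) r) (he : M rho r 2 2 = -1) :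
    ∃ g, g * (cfg h2).J * g⁻¹ = r * (cfg h2).s := by
  have hM := hr.M_eq
  have hn := hr.norm
  rw [he] at hM hn
  generalize M rho r 0 0 = a at hM hn
  generalize M rho r 0 1 = b at hM hn
  have hh : (2 : F) * 2⁻¹ = 1 := mul_inv_cancel₀ h2
  generalize (2 : F)⁻¹ = h at hh
  have hg : (!![a, 1 - b, 0; -1 - b, -a, 0; 0, 0, h] : Matrix (Fin 3) (Fin 3) F).det = 1 := by
    simp [Matrix.det_fin_three]
    linear_combination h * hn + hh
  refine ⟨mkM _ hg, ?_⟩
  rw [mul_inv_eq_iff_eq_mul]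
  apply M_inj (cfg h2)
  rw [M_mul, M_mul, M_mul, (cfg h2).hJ, (cfg h2).hs, hM, M_mkM]
  ext i j
  fin_cases i <;> fin_cases j <;> simp [B, S3, Matrix.mul_apply, Fin.sum_univ_three]
  · linear_combination hn
  · ring
  · ring
  · linear_combination hn

/-- The element with `a ^ 2 + b ^ 2 = -1`. -/
lemma hr [Fintype F] (hodd : Fintype.card F % 2 = 1) : ∃ r, IsR (cfg h2) r ∧ M rho r 2 2 = -1 := by
  obtain ⟨a, b, hab⟩ := FiniteField.exists_root_sum_quadratic (R := F)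
    (f := Polynomial.X ^ 2) (g := Polynomial.X ^ 2 + 1)
    (by simp) (by rw [Polynomial.degree_add_eq_left_of_degree_lt] <;> simp) hodd
  simp at hab
  refine ⟨mkB a b (-1) (by linear_combination -hab), isR_of_M _ (M_mkB _ _ _ _), ?_⟩
  rw [M_mkB]
  simp [B]

/-- Element with noncentral square when `-1` is a square. -/
lemma ha0_sq {i : F} (hi : i * i = -1) :
    ∃ a, IsR (cfg h2) a ∧ Two a ∧ M rho a 0 0 ≠ 0 ∧ M rho a 0 1 ≠ 0 := by
  have hh : (2 : F) * 2⁻¹ = 1 := mul_inv_cancel₀ h2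
  generalize (2 : F)⁻¹ = h at hh
  have hh0 : h ≠ 0 := by
    rintro rfl
    simp at hh
  have hi0 : i ≠ 0 := by
    rintro rfl
    have : (1 : F) = 0 := by linear_combination hi
    exact one_ne_zero this
  have hii : i * (-i) = 1 := by linear_combination -hi
  have hx : (1 + i) * h ≠ 0 := by
    apply mul_ne_zero _ hh0
    intro h0
    have h3 : i = -1 := by linear_combination h0
    rw [h3] at hi
    exact h2 (by linear_combination hi)
  have hxx : (1 + i) * h * ((1 + i) * h) + (1 + i) * h * ((1 + i) * h) = i := by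
    linear_combination (2 * h * h) * hi + i * (2 * h + 1) * hh
  have hnorm : (-i) * (((1 + i) * h) ^ 2 + ((1 + i) * h) ^ 2) = 1 := by
    have : (-i) * (((1 + i) * h) ^ 2 + ((1 + i) * h) ^ 2) =
      (-i) * ((1 + i) * h * ((1 + i) * h) + (1 + i) * h * ((1 + i) * h)) := by ring
    rw [this, hxx]
    linear_combination -hi
  refine ⟨mkB _ _ _ hnorm, isR_of_M _ (M_mkB _ _ _ _), ⟨2, ?_⟩, ?_, ?_⟩
  · apply M_inj (cfg h2)
    have e : (mkB _ _ _ hnorm) ^ 2 ^ 2 = ((mkB _ _ _ hnorm) * (mkB _ _ _ hnorm)) * ((mkB _ _ _ hnorm) * (mkB _ _ _ hnorm)) := by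
      rw [show (2 : ℕ) ^ 2 = 2 * 2 from rfl, pow_mul, pow_two, pow_two]
    rw [e, M_mul, M_mul, M_mkB, B_mul, B_mul, M_one, ← B_one]
    congr 1
    · have e1 : (1 + i) * h * ((1 + i) * h) - (1 + i) * h * ((1 + i) * h) = 0 := by ring
      rw [e1, hxx]
      linear_combination -hi
    · rw [hxx]
      ring
    · linear_combination (-i * -i - 1) * hi
  · rw [M_mkB]
    simpa [B] using hx
  · rw [M_mkB]
    simpa [B] using hx

/-- Element with noncentral square when `-1` is not a square: `c ^ 2 = 2 ε`. -/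
lemma ha0_nsq {c ε : F} (hε : ε * ε = 1) (hc : c * c = 2 * ε) :
    ∃ a, IsR (cfg h2) a ∧ Two a ∧ M rho a 0 0 ≠ 0 ∧ M rho a 0 1 ≠ 0 := by
  have hε0 : ε ≠ 0 := by
    rintro rfl
    simp at hε
  have hc0 : c ≠ 0 := by
    rintro rfl
    have : (2 : F) * ε = 0 := by linear_combination -hc
    rcases mul_eq_zero.1 this with h | h
    · exact h2 h
    · exact hε0 h
  obtain ⟨d, hd⟩ : ∃ d, c * d = 1 := ⟨c⁻¹, mul_inv_cancel₀ hc0⟩
  have hd0 : d ≠ 0 := by
    rintro rfl
    simp at hd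
  have hdd : 2 * ε * (d * d) = 1 := by
    have : 2 * ε * (d * d) = (c * d) * (c * d) := by rw [← hc]; ring
    rw [this, hd]; ring
  have hnorm : ε * (d ^ 2 + (ε * d) ^ 2) = 1 := by
    linear_combination hdd + ε * d * d * hε
  have hsq : (mkB d (ε * d) ε hnorm) * (mkB d (ε * d) ε hnorm) = (cfg h2).J := by
    apply M_inj (cfg h2)
    rw [M_mul, M_mkB, B_mul, (cfg h2).hJ]
    congr 1
    · linear_combination (-(d * d)) * hε
    · linear_combination hdd
  refine ⟨mkB d (ε * d) ε hnorm, isR_of_M _ (M_mkB _ _ _ _), ?_, ?_, ?_⟩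
  · obtain ⟨k, hk⟩ := J_two (cfg h2)
    refine ⟨k + 1, ?_⟩
    rw [pow_succ', pow_mul, pow_two, hsq, hk]
  · rw [M_mkB]
    simpa [B] using hd0
  · rw [M_mkB]
    simpa [B] using mul_ne_zero hε0 hd0

/-- Diagonal matrices. -/
def D3 (α β γ : F) : Matrix (Fin 3) (Fin 3) F := !![α, 0, 0; 0, β, 0; 0, 0, γ]

lemma D3_mul (α β γ α' β' γ' : F) : D3 α β γ * D3 α' β' γ' = D3 (α * α') (β * β') (γ * γ') := by
  ext i j
  fin_cases i <;> fin_cases j <;> simp [D3, Matrix.mul_apply, Fin.sum_univ_three]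

lemma D3_one : D3 (1 : F) 1 1 = 1 := by
  ext i j
  fin_cases i <;> fin_cases j <;> simp [D3]

lemma D3_pow (α β γ : F) (n : ℕ) : D3 α β γ ^ n = D3 (α ^ n) (β ^ n) (γ ^ n) := by
  induction n with
  | zero => simp [D3_one]
  | succ n ih => rw [pow_succ, ih, D3_mul, pow_succ, pow_succ, pow_succ]

lemma det_D3 (α β γ : F) : (D3 α β γ).det = α * β * γ := by
  simp [D3, Matrix.det_fin_three]

/-- Eigenvector description of block matrices when `i ^ 2 = -1`. -/
lemma B_eig {i h α β e c : F} (hi : i * i = -1) (hh : 2 * h = 1) :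
    B ((α + β) * h) (-i * (α - β) * h) e * !![1, 1, 0; i, -i, 0; 0, 0, c] =
      !![1, 1, 0; i, -i, 0; 0, 0, c] * D3 α β e := by
  ext k l
  fin_cases k <;> fin_cases l <;> simp [B, D3, Matrix.mul_apply, Fin.sum_univ_three]
  · linear_combination α * hh - (α - β) * h * hi
  · linear_combination β * hh + (α - β) * h * hi
  · linear_combination i * α * hh
  · linear_combination (-i) * β * hh
  · ring

lemma norm_eig {i h α β e : F} (hi : i * i = -1) (hh : 2 * h = 1) (he : e * (α * β) = 1) :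
    e * (((α + β) * h) ^ 2 + (-i * (α - β) * h) ^ 2) = 1 := by
  linear_combination he + e * (α - β) ^ 2 * h ^ 2 * hi + e * α * β * (2 * h + 1) * hh

/-- Some element of order four exists when a `2`-element differs from `±1`. -/
lemma exists_i_of_two {e : F} {K : ℕ} (hK : e ^ 2 ^ K = 1) (h1 : e ≠ 1) (hm : e ≠ -1) :
    ∃ i : F, i * i = -1 := by
  classical
  have hex : ∃ k, e ^ 2 ^ k = 1 := ⟨K, hK⟩
  have hj := Nat.find_spec hex
  have hj0 : Nat.find hex ≠ 0 := by
    intro h0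
    rw [h0] at hj
    exact h1 (by simpa using hj)
  have hj1 : Nat.find hex ≠ 1 := by
    intro h0
    rw [h0] at hj
    have : e * e = 1 := by simpa [pow_two] using hj
    rcases mul_self_eq_one_iff.1 this with h | h
    · exact h1 h
    · exact hm h
  obtain ⟨j, hj2⟩ : ∃ j, Nat.find hex = j + 2 := ⟨Nat.find hex - 2, by omega⟩
  have hmin : e ^ 2 ^ (j + 1) ≠ 1 := Nat.find_min hex (m := j + 1) (by omega)
  refine ⟨e ^ 2 ^ j, ?_⟩
  have h3 : e ^ 2 ^ (j + 1) * e ^ 2 ^ (j + 1) = 1 := by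
    rw [← pow_add]
    rw [hj2] at hj
    have : 2 ^ (j + 1) + 2 ^ (j + 1) = 2 ^ (j + 2) := by ring
    rwa [this]
  have h4 := (mul_self_eq_one_iff.1 h3).resolve_left hmin
  rw [← h4, ← pow_add]
  congr 1
  ring

lemma hiii (a : SL(3, F)) (ha : IsR (cfg h2) a) (ha2 : Two a) (h1 : M rho a 2 2 ≠ 1) (hm : M rho a 2 2 ≠ -1) :
    ∃ b w g, IsR (cfg h2) b ∧ Two b ∧ M rho b 2 2 = 1 ∧ IsR (cfg h2) w ∧ Two w ∧
      M rho w 2 2 = M rho a 2 2 ∧ g * b * g⁻¹ = w := by
  obtain ⟨K, hK⟩ := ha2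
  have hKe : M rho a 2 2 ^ 2 ^ K = 1 := by
    rw [← ha.e_pow, hK]
    simp [M]
  obtain ⟨i, hi⟩ := exists_i_of_two hKe h1 hm
  have hn := ha.norm
  generalize M rho a 2 2 = e at *
  have he0 : e ≠ 0 := by
    rintro rfl
    simp at hn
  obtain ⟨δ, hδ⟩ : ∃ δ, e * δ = 1 := ⟨e⁻¹, mul_inv_cancel₀ he0⟩
  have hδK : δ ^ 2 ^ K = 1 := by
    have : (e * δ) ^ 2 ^ K = 1 := by rw [hδ, one_pow]
    rwa [mul_pow, hKe, one_mul] at this
  have hδ' : δ * e = 1 := by rw [mul_comm]; exact hδ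
  have hh : (2 : F) * 2⁻¹ = 1 := mul_inv_cancel₀ h2
  generalize (2 : F)⁻¹ = h at hh
  have hi0 : i ≠ 0 := by
    rintro rfl
    have : (1 : F) = 0 := by linear_combination hi
    exact one_ne_zero this
  have hc0 : (-2 * i) ≠ 0 := mul_ne_zero (neg_ne_zero.2 h2) hi0
  obtain ⟨c, hc⟩ : ∃ c, (-2 * i) * c = 1 := ⟨(-2 * i)⁻¹, mul_inv_cancel₀ hc0⟩
  have hPdet : (!![1, 1, 0; i, -i, 0; 0, 0, c] : Matrix (Fin 3) (Fin 3) F).det = 1 := by
    simp [Matrix.det_fin_three]
    linear_combination hc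
  have hd₁ : (D3 δ e 1).det = 1 := by
    rw [det_D3]; linear_combination hδ'
  have hd₂ : (D3 1 δ e).det = 1 := by
    rw [det_D3]; linear_combination hδ'
  have hπ : (!![0, 0, 1; 1, 0, 0; 0, 1, 0] : Matrix (Fin 3) (Fin 3) F).det = 1 := by
    simp [Matrix.det_fin_three]
  let Pm := mkM _ hPdet
  let d₁ := mkM _ hd₁
  let d₂ := mkM _ hd₂
  let πm := mkM _ hπ
  let b := mkB _ _ _ (norm_eig (e := 1) (α := δ) (β := e) hi hh (by linear_combination hδ'))
  let w := mkB _ _ _ (norm_eig (e := e) (α := 1) (β := δ) hi hh (by linear_combination hδ))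
  have hb : b = Pm * d₁ * Pm⁻¹ := by
    rw [eq_mul_inv_iff_mul_eq]
    apply M_inj (cfg h2)
    rw [M_mul, M_mul]
    exact B_eig hi hh
  have hw : w = Pm * d₂ * Pm⁻¹ := by
    rw [eq_mul_inv_iff_mul_eq]
    apply M_inj (cfg h2)
    rw [M_mul, M_mul]
    exact B_eig hi hh
  have hπd : πm * d₁ = d₂ * πm := by
    apply M_inj (cfg h2)
    rw [M_mul, M_mul]
    show (!![0, 0, 1; 1, 0, 0; 0, 1, 0] : Matrix (Fin 3) (Fin 3) F) * D3 δ e 1 =
      D3 1 δ e * !![0, 0, 1; 1, 0, 0; 0, 1, 0]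
    ext k l
    fin_cases k <;> fin_cases l <;> simp [D3, Matrix.mul_apply, Fin.sum_univ_three]
  have hTwo1 : Two d₁ := by
    refine ⟨K, ?_⟩
    apply M_inj (cfg h2)
    show (D3 δ e 1) ^ 2 ^ K = 1
    rw [D3_pow, hδK, hKe, one_pow, D3_one]
  have hTwo2 : Two d₂ := by
    refine ⟨K, ?_⟩
    apply M_inj (cfg h2)
    show (D3 1 δ e) ^ 2 ^ K = 1
    rw [D3_pow, hδK, hKe, one_pow, D3_one]
  refine ⟨b, w, Pm * πm * Pm⁻¹, isR_of_M _ (M_mkB _ _ _ _), ?_, ?_, isR_of_M _ (M_mkB _ _ _ _), ?_, ?_, ?_⟩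
  · rw [hb]; exact hTwo1.conj Pm
  · show B _ _ 1 2 2 = 1
    simp [B]
  · rw [hw]; exact hTwo2.conj Pm
  · show B _ _ e 2 2 = e
    simp [B]
  · rw [hb, hw]
    calc (Pm * πm * Pm⁻¹) * (Pm * d₁ * Pm⁻¹) * (Pm * πm * Pm⁻¹)⁻¹ = Pm * (πm * d₁) * πm⁻¹ * Pm⁻¹ := by group
      _ = Pm * (d₂ * πm) * πm⁻¹ * Pm⁻¹ := by rw [hπd]
      _ = Pm * d₂ * Pm⁻¹ := by group

section Count

variable [Fintype F]

lemma card_R_sq {i : F} (hi : i * i = -1) :
    Nat.card (Rg (cfg h2)) = (Fintype.card F - 1) * (Fintype.card F - 1) := by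
  classical
  have hh : (2 : F) * 2⁻¹ = 1 := mul_inv_cancel₀ h2
  generalize (2 : F)⁻¹ = h at hh
  have hfac : ∀ a b : F, a ^ 2 + b ^ 2 = (a + i * b) * (a - i * b) := by
    intro a b
    linear_combination (b ^ 2) * hi
  have hne : ∀ x : Rg (cfg h2), (M rho x.1 0 0 + i * M rho x.1 0 1) ≠ 0 ∧ (M rho x.1 0 0 - i * M rho x.1 0 1) ≠ 0 := by
    intro x
    have h1 := (mem_Rg.1 x.2).norm
    rw [hfac] at h1
    constructor
    · intro h0
      rw [h0] at h1
      simp at h1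
    · intro h0
      rw [h0] at h1
      simp at h1
  have hnorm : ∀ p : Fˣ × Fˣ, ((p.1 : F) * p.2)⁻¹ * ((((p.1 : F) + p.2) * h) ^ 2 + (-i * ((p.1 : F) - p.2) * h) ^ 2) = 1 := by
    intro p
    apply norm_eig hi hh
    exact inv_mul_cancel₀ (mul_ne_zero p.1.ne_zero p.2.ne_zero)
  let e : Fˣ × Fˣ ≃ Rg (cfg h2) :=
    { toFun := fun p => ⟨mkB _ _ _ (hnorm p), mem_Rg.2 (isR_of_M _ (M_mkB _ _ _ _))⟩
      invFun := fun x => (Units.mk0 _ (hne x).1, Units.mk0 _ (hne x).2)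
      left_inv := by
        rintro ⟨α, β⟩
        ext
        · show ((α : F) + β) * h + i * (-i * ((α : F) - β) * h) = α
          linear_combination (α : F) * hh - ((α : F) - β) * h * hi
        · show ((α : F) + β) * h - i * (-i * ((α : F) - β) * h) = β
          linear_combination (β : F) * hh + ((α : F) - β) * h * hi
      right_inv := by
        rintro ⟨x, hx⟩
        apply Subtype.ext
        apply M_inj (cfg h2)
        have hR := mem_Rg.1 hx
        rw [M_mkB]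
        conv_rhs => rw [hR.M_eq]
        have hnx := hR.norm
        rw [hfac] at hnx
        have he : M rho x 2 2 = ((M rho x 0 0 + i * M rho x 0 1) * (M rho x 0 0 - i * M rho x 0 1))⁻¹ :=
          eq_inv_of_mul_eq_one_left hnx
        show B (((M rho x 0 0 + i * M rho x 0 1) + (M rho x 0 0 - i * M rho x 0 1)) * h)
            (-i * ((M rho x 0 0 + i * M rho x 0 1) - (M rho x 0 0 - i * M rho x 0 1)) * h)
            ((M rho x 0 0 + i * M rho x 0 1) * (M rho x 0 0 - i * M rho x 0 1))⁻¹ = _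
        rw [← he]
        congr 1
        · linear_combination M rho x 0 0 * hh
        · linear_combination (-2 * M rho x 0 1 * h) * hi + M rho x 0 1 * hh }
  rw [← Nat.card_congr e, Nat.card_prod, Nat.card_eq_fintype_card, Fintype.card_units]

lemma card_R_nsq (hns : ¬ IsSquare (-1 : F)) :
    Nat.card (Rg (cfg h2)) = Fintype.card F ^ 2 - 1 := by
  classical
  have hne : ∀ a b : F, (a, b) ≠ 0 → a ^ 2 + b ^ 2 ≠ 0 := by
    intro a b hab h0
    by_cases hb : b = 0
    · subst hb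
      apply hab
      have : a = 0 := by
        have : a ^ 2 = 0 := by linear_combination h0
        exact pow_eq_zero_iff two_ne_zero |>.1 this
      simp [this]
    · apply hns
      refine ⟨a / b, ?_⟩
      field_simp
      linear_combination -h0
  have hne' : ∀ x : Rg (cfg h2), ((M rho x.1 0 0, M rho x.1 0 1) : F × F) ≠ 0 := by
    intro x h0
    have h1 := (mem_Rg.1 x.2).norm
    have h3 : M rho x.1 0 0 = 0 := congrArg Prod.fst h0
    have h4 : M rho x.1 0 1 = 0 := congrArg Prod.snd h0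
    rw [h3, h4] at h1
    simp at h1
  let e : {p : F × F // p ≠ 0} ≃ Rg (cfg h2) :=
    { toFun := fun p => ⟨mkB p.1.1 p.1.2 (p.1.1 ^ 2 + p.1.2 ^ 2)⁻¹ (inv_mul_cancel₀ (hne _ _ p.2)),
        mem_Rg.2 (isR_of_M _ (M_mkB _ _ _ _))⟩
      invFun := fun x => ⟨(M rho x.1 0 0, M rho x.1 0 1), hne' x⟩
      left_inv := by
        rintro ⟨⟨a, b⟩, hp⟩
        apply Subtype.ext
        rfl
      right_inv := by
        rintro ⟨x, hx⟩
        apply Subtype.ext
        apply M_inj (cfg h2)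
        have hR := mem_Rg.1 hx
        rw [M_mkB]
        conv_rhs => rw [hR.M_eq]
        have hnx := hR.norm
        have he : M rho x 2 2 = ((M rho x 0 0) ^ 2 + (M rho x 0 1) ^ 2)⁻¹ :=
          eq_inv_of_mul_eq_one_left hnx
        rw [← he] }
  rw [← Nat.card_congr e, Nat.card_eq_fintype_card, Fintype.card_subtype_compl, Fintype.card_prod]
  simp [pow_two]

/-- The order of `SL(3, F)`. -/
lemma card_SL3 (m : ℕ) (hq : Fintype.card F = m + 1) :
    Nat.card SL(3, F) = m ^ 2 * (m + 1) ^ 3 * (m + 2) * ((m + 1) ^ 2 + (m + 1) + 1) := by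
  classical
  have h1 := Cfsg.Agent.Lib.Linalg.Basic.card_GL_eq_mul_card_SL (F := F) (ι := Fin 3)
  have h3 := Matrix.card_GL_field (𝔽 := F) 3
  rw [h3, Fin.prod_univ_three, Nat.card_eq_fintype_card (α := F), hq] at h1
  simp only [Fin.val_zero, Fin.val_one, Fin.val_two, pow_zero, pow_one] at h1
  have e1 : (m + 1) ^ 3 - 1 = m * ((m + 1) ^ 2 + (m + 1) + 1) := by
    apply Nat.sub_eq_of_eq_add
    ring
  have e2 : (m + 1) ^ 3 - (m + 1) = (m + 1) * (m * (m + 2)) := by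
    apply Nat.sub_eq_of_eq_add
    ring
  have e3 : (m + 1) ^ 3 - (m + 1) ^ 2 = (m + 1) ^ 2 * m := by
    apply Nat.sub_eq_of_eq_add
    ring
  rw [e1, e2, e3] at h1
  have hm : 0 < m := by
    have := Fintype.one_lt_card (α := F)
    omega
  simp only [Nat.add_sub_cancel] at h1
  apply Nat.eq_of_mul_eq_mul_left hm
  rw [← h1]
  ring

/-- Odd index of the normalizer of `⟨J⟩`. -/
lemma idx (hodd : Fintype.card F % 2 = 1) : ¬ 2 ∣ (Nn (cfg h2).J).index := by
  rintro ⟨k, hk⟩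
  obtain ⟨m, hm⟩ : ∃ m, Fintype.card F = m + 1 := ⟨Fintype.card F - 1, by
    have := Fintype.card_pos (α := F)
    omega⟩
  have hmeven : m % 2 = 0 := by omega
  have hmpos : 0 < m := by
    have := Fintype.one_lt_card (α := F)
    omega
  have h1 := card_eq_two_mul (cfg h2)
  rw [card_SL3 m hm, hk] at h1
  have hO : Nat.Coprime 4 ((m + 1) ^ 3 * ((m + 1) ^ 2 + (m + 1) + 1)) := by
    have h3 : Odd ((m + 1) ^ 3 * ((m + 1) ^ 2 + (m + 1) + 1)) := by
      obtain ⟨t, ht⟩ : ∃ t, m = 2 * t := ⟨m / 2, by omega⟩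
      subst ht
      apply Odd.mul
      · exact Odd.pow ⟨t, rfl⟩
      · have : (2 * t + 1) ^ 2 + (2 * t + 1) + 1 = 2 * (2 * t ^ 2 + 3 * t + 1) + 1 := by ring
        rw [this]
        exact ⟨_, rfl⟩
    have h4 : Nat.Coprime 2 ((m + 1) ^ 3 * ((m + 1) ^ 2 + (m + 1) + 1)) := Nat.coprime_two_left.2 h3
    exact Nat.Coprime.pow_left 2 h4 |>.symm.symm
  by_cases hs : IsSquare (-1 : F)
  · obtain ⟨i, hi⟩ := hs
    rw [card_R_sq h2 hi.symm, hm] at h1
    simp only [Nat.add_sub_cancel] at h1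
    have h3 := (FiniteField.isSquare_neg_one_iff (F := F)).1 ⟨i, hi⟩
    rw [hm] at h3
    have h4 : m % 4 = 0 := by omega
    have h5 : 4 * k = ((m + 1) ^ 3 * ((m + 1) ^ 2 + (m + 1) + 1)) * (m + 2) := by
      have hm2 : 0 < m * m := Nat.mul_pos hmpos hmpos
      apply Nat.eq_of_mul_eq_mul_left hm2
      linear_combination h1.symm
    have h6 : 4 ∣ m + 2 := hO.dvd_of_dvd_mul_left ⟨k, h5.symm⟩
    omega
  · rw [card_R_nsq h2 hs, hm] at h1
    have h3 : (m + 1) ^ 2 - 1 = m * (m + 2) := by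
      apply Nat.sub_eq_of_eq_add
      ring
    rw [h3] at h1
    have h4 : Fintype.card F % 4 = 3 := by
      by_contra hc
      exact hs ((FiniteField.isSquare_neg_one_iff (F := F)).2 hc)
    rw [hm] at h4
    have h5 : 4 * k = ((m + 1) ^ 3 * ((m + 1) ^ 2 + (m + 1) + 1)) * m := by
      have hm2 : 0 < m * (m + 2) := Nat.mul_pos hmpos (by omega)
      apply Nat.eq_of_mul_eq_mul_left hm2
      linear_combination h1.symm
    have h6 : 4 ∣ m := hO.dvd_of_dvd_mul_left ⟨k, h5.symm⟩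
    omega

/-- All hypotheses for `SL(3, F)`. -/
theorem hyps (hodd : Fintype.card F % 2 = 1) : Hyps (cfg h2) where
  idx := idx h2 hodd
  h90 := h90 h2
  hr := hr h2 hodd
  hconj := hconj h2
  ha0 := by
    classical
    by_cases hs : IsSquare (-1 : F)
    · obtain ⟨i, hi⟩ := hs
      exact ha0_sq h2 hi.symm
    · have h4 : Fintype.card F % 4 = 3 := by
        by_contra hc
        exact hs ((FiniteField.isSquare_neg_one_iff (F := F)).2 hc)
      by_cases h8 : Fintype.card F % 8 = 7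
      · obtain ⟨c, hc⟩ := (FiniteField.isSquare_two_iff (F := F)).2 (by omega)
        exact ha0_nsq h2 (c := c) (ε := 1) (by ring) (by rw [← hc]; ring)
      · obtain ⟨c, hc⟩ := (FiniteField.isSquare_neg_two_iff (F := F)).2 (by omega)
        exact ha0_nsq h2 (c := c) (ε := -1) (by ring) (by rw [← hc]; ring)
  hiii := hiii h2

end Count

/-- The `2`-fusion system of `PSL(3, F)` is simple, `F` finite of odd order. -/
theorem isSimple_fusion [Fintype F] (hodd : Fintype.card F % 2 = 1)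
    (S : Sylow 2 (Matrix.ProjectiveSpecialLinearGroup (Fin 3) F)) :
    (Cfsg.groupFusionSystem (S : Subgroup (Matrix.ProjectiveSpecialLinearGroup (Fin 3) F))).IsSimple 2 := by
  have h2 : (2 : F) ≠ 0 := Cfsg.Agent.Lib.PSL2.TorusCore.two_ne_zero_of_odd_card (Nat.odd_iff.2 hodd)
  obtain ⟨P, hP⟩ := exists_good (cfg h2) (hyps h2 hodd)
  refine isSimple_of_good (QuotientGroup.mk' _) (QuotientGroup.mk'_surjective _) ?_ ?_ P hP S
  · rw [QuotientGroup.ker_mk']
    intro h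
    obtain ⟨⟨x, hx⟩, hxo⟩ := exists_prime_orderOf_dvd_card' 2 h
    have hxo' : orderOf x = 2 := by simpa using hxo
    obtain ⟨r, hr, hrx⟩ := Matrix.SpecialLinearGroup.mem_center_iff.1 hx
    have hx3 : x ^ 3 = 1 := by
      apply Subtype.ext
      have hr3 : r ^ 3 = 1 := by simpa using hr
      rw [Matrix.SpecialLinearGroup.coe_pow, ← hrx, Matrix.SpecialLinearGroup.coe_one]
      rw [← map_pow, hr3, map_one]
    have := orderOf_dvd_of_pow_eq_one hx3
    rw [hxo'] at this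
    omega
  · rw [QuotientGroup.ker_mk']

end Cfsg.Agent.Lib.Fusion.Block3SL
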