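import Mathlib
import Cfsg.Agent.Lib.Fusion.Block3SL
import Cfsg.Agent.Lib.Classical.Herm.SU

/-!
# The hypotheses of `Block3.exists_good` for `SU(3, q)`, and simplicity of the 2-fusion system of `PSU(3, q)`
-/

set_option autoImplicit false

namespace Cfsg.Agent.Lib.Fusion.Block3SU

open Matrix Cfsg
open scoped MatrixGroups
open Cfsg.Agent.Lib.Fusion.Block3 Cfsg.Agent.Lib.Fusion.Block3SL Cfsg.Agent.Lib.Fusion.LiftSimple
open Cfsg.Agent.Lib.Classical.Herm.Basic Cfsg.Agent.Lib.Classical.Herm.Form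
open Cfsg.Agent.Lib.Classical.Herm.GU Cfsg.Agent.Lib.Classical.Herm.SU

variable {F : Type*} [Field F] [Fintype F] {q : ℕ}

/-- The inclusion of `SU(3, q)` in `SL(3, F)`. -/
abbrev rhoU (F : Type*) [Field F] (q : ℕ) : SU 3 F q →* SL(3, F) := (SU 3 F q).subtype

/-- Criterion for a block matrix (general) to preserve the form. -/
lemma preserves_block (hF : Fintype.card F = q ^ 2) {a b c d e : F}
    (h1 : a * a ^ q + c * c ^ q = 1) (h2 : b * b ^ q + d * d ^ q = 1) (h3 : a * b ^ q + c * d ^ q = 0)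
    (h4 : e * e ^ q = 1) : Preserves q (!![a, b, 0; c, d, 0; 0, 0, e]) := by
  have hq0 : (0 : F) ^ q = 0 := zero_pow_q hF
  have h3' : b * a ^ q + d * c ^ q = 0 := by
    have := congrArg (fun x : F => x ^ q) h3
    simp only [pow_q_add hF, mul_pow, pow_q_pow_q hF, hq0] at this
    linear_combination this
  rw [preserves_iff_frame hF]
  intro i j
  fin_cases i <;> fin_cases j <;> simp [hermForm, Fin.sum_univ_three, hq0, h1, h2, h3, h3', h4]

/-- Preservation for `B a b e`. -/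
lemma preserves_B (hF : Fintype.card F = q ^ 2) {a b e : F} (ha : a ^ q = a * e) (hb : b ^ q = b * e)
    (hn : e * (a ^ 2 + b ^ 2) = 1) : Preserves q (B a b e) := by
  have hne : a ^ 2 + b ^ 2 ≠ 0 := by
    intro h0
    rw [h0, mul_zero] at hn
    exact zero_ne_one hn
  have he : e * e ^ q = 1 := by
    have h1 := congrArg (fun x : F => x ^ q) hn
    simp only [mul_pow, pow_q_add hF, one_pow] at h1
    have e1 : (a ^ 2) ^ q = (a ^ q) ^ 2 := by rw [← pow_mul, ← pow_mul, mul_comm]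
    have e2 : (b ^ 2) ^ q = (b ^ q) ^ 2 := by rw [← pow_mul, ← pow_mul, mul_comm]
    rw [e1, e2, ha, hb] at h1
    have h3 : e ^ q * e * (e * (a ^ 2 + b ^ 2)) = 1 := by linear_combination h1
    rw [hn, mul_one, mul_comm] at h3
    exact h3
  have : B a b e = !![a, b, 0; -b, a, 0; 0, 0, e] := rfl
  rw [this]
  apply preserves_block hF
  · rw [pow_q_neg hF, ha, hb]
    linear_combination hn
  · rw [ha, hb]
    linear_combination hn
  · rw [ha, hb]
    ring
  · exact he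

/-- Conjugates of the entries of a form-preserving block matrix. -/
lemma bar_of_preserves (hF : Fintype.card F = q ^ 2) {a b e : F} (h : Preserves q (B a b e))
    (hn : e * (a ^ 2 + b ^ 2) = 1) : a ^ q = a * e ∧ b ^ q = b * e := by
  have hq0 : (0 : F) ^ q = 0 := zero_pow_q hF
  have hq := two_le_q hF
  rw [preserves_iff_frame hF] at h
  have h00 := h 0 0
  have h01 := h 0 1
  simp [hermForm, Fin.sum_univ_three, B, hq0, pow_q_neg hF] at h00 h01
  have h1 : a * a ^ q + b * b ^ q = 1 := by linear_combination h00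
  have h2 : a * b ^ q = b * a ^ q := by linear_combination h01
  constructor
  · linear_combination (-(a ^ q)) * hn + (e * a) * h1 - (e * b) * h2
  · linear_combination (-(b ^ q)) * hn + (e * b) * h1 + (e * a) * h2

lemma neg_one_pow_q (hF : Fintype.card F = q ^ 2) : (-1 : F) ^ q = -1 := by
  rw [pow_q_neg hF, one_pow]

lemma preserves_S3 (hF : Fintype.card F = q ^ 2) : Preserves q (S3 : Matrix (Fin 3) (Fin 3) F) := by
  have hq0 : (0 : F) ^ q = 0 := zero_pow_q hF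
  rw [preserves_iff_frame hF]
  intro i j
  fin_cases i <;> fin_cases j <;> simp [hermForm, Fin.sum_univ_three, S3, hq0, neg_one_pow_q hF]

lemma preserves_P3 (hF : Fintype.card F = q ^ 2) : Preserves q (P3 : Matrix (Fin 3) (Fin 3) F) := by
  have hq0 : (0 : F) ^ q = 0 := zero_pow_q hF
  rw [preserves_iff_frame hF]
  intro i j
  fin_cases i <;> fin_cases j <;> simp [hermForm, Fin.sum_univ_three, P3, hq0, neg_one_pow_q hF]

/-- Elements of `SU(3, q)` from a matrix. -/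
abbrev mkU (A : Matrix (Fin 3) (Fin 3) F) (hd : A.det = 1) (hP : Preserves q A) : SU 3 F q := mkSU A hd hP

omit [Fintype F] in
lemma M_rhoU (x : SU 3 F q) : M (rhoU F q) x = ((x : SL(3, F)) : Matrix (Fin 3) (Fin 3) F) := rfl

omit [Fintype F] in
lemma M_mkU (A : Matrix (Fin 3) (Fin 3) F) (hd : A.det = 1) (hP : Preserves q A) :
    M (rhoU F q) (mkU A hd hP) = A := rfl

/-- The configuration in `SU(3, q)`. -/
def cfgU (hF : Fintype.card F = q ^ 2) (h2 : (2 : F) ≠ 0) : Cfg (rhoU F q) where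
  J := mkU (B 0 1 1) (by rw [det_B]; ring) (preserves_B hF (by rw [zero_pow_q hF]; ring) (by simp) (by ring))
  s := mkU S3 (by simp [S3, Matrix.det_fin_three]) (preserves_S3 hF)
  p := mkU P3 (by simp [P3, Matrix.det_fin_three]) (preserves_P3 hF)
  hJ := rfl
  hs := rfl
  hp := rfl
  inj := Subtype.val_injective
  h2 := h2

section Hyp

variable (hF : Fintype.card F = q ^ 2) (h2 : (2 : F) ≠ 0)
include hF

/-- `x ↦ x ^ q` fixes `1/2`. -/
lemma half_bar {h : F} (hh : 2 * h = 1) : h ^ q = h := by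
  have e2 : (2 : F) ^ q = 2 := by
    have := pow_q_add hF (1 : F) 1
    rw [one_pow] at this
    rw [show (2 : F) = 1 + 1 by norm_num, this]
  have h3 := congrArg (fun x : F => x ^ q) hh
  simp only [mul_pow, e2, one_pow] at h3
  have h2' : (2 : F) ≠ 0 := fun h0 => by
    rw [h0, zero_mul] at hh
    exact zero_ne_one hh
  exact mul_left_cancel₀ h2' (h3.trans hh.symm)

/-- Conjugates of the entries of elements commuting with `J`. -/
lemma isR_bar {x : SU 3 F q} (hx : IsR (cfgU hF h2) x) :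
    (M (rhoU F q) x 0 0) ^ q = M (rhoU F q) x 0 0 * M (rhoU F q) x 2 2 ∧
      (M (rhoU F q) x 0 1) ^ q = M (rhoU F q) x 0 1 * M (rhoU F q) x 2 2 := by
  have hP : Preserves q (M (rhoU F q) x) := preserves_su x
  rw [hx.M_eq] at hP
  exact bar_of_preserves hF hP hx.norm

lemma h90U (b : SU 3 F q) (hb : IsR (cfgU hF h2) b) (hb1 : M (rhoU F q) b 2 2 = 1)
    (hbz : b ≠ (cfgU hF h2).J * (cfgU hF h2).J) :
    ∃ x, IsR (cfgU hF h2) x ∧ x⁻¹ * ((cfgU hF h2).s * x * (cfgU hF h2).s) = b := by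
  have hM := hb.M_eq
  have hn := hb.norm
  obtain ⟨hbu, hbv⟩ := isR_bar hF h2 hb
  rw [hb1] at hM hn hbu hbv
  rw [mul_one] at hbu hbv
  generalize M (rhoU F q) b 0 0 = u at hM hn hbu hbv
  generalize M (rhoU F q) b 0 1 = v at hM hn hbu hbv
  have hne : (1 + u) ^ 2 + v ^ 2 ≠ 0 := by
    intro h0
    have h1 : (2 : F) * (1 + u) = 0 := by linear_combination h0 - hn
    have h3 : u = -1 := by
      have := (mul_eq_zero.1 h1).resolve_left h2
      linear_combination this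
    have h4 : v = 0 := by
      rw [h3] at hn
      have : v ^ 2 = 0 := by linear_combination hn
      exact pow_eq_zero_iff (two_ne_zero) |>.1 this
    apply hbz
    apply M_inj (cfgU hF h2)
    rw [hM, M_z (cfgU hF h2), h3, h4]
  -- the scaling factor
  have hκq : (((1 + u) ^ 2 + v ^ 2)⁻¹) ^ q = ((1 + u) ^ 2 + v ^ 2)⁻¹ := by
    rw [inv_pow]
    congr 1
    have e1 : ((1 + u) ^ 2) ^ q = (1 + u) ^ 2 := by
      rw [← pow_mul, mul_comm, pow_mul, pow_q_add hF, one_pow, hbu]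
    have e2 : (v ^ 2) ^ q = v ^ 2 := by
      rw [← pow_mul, mul_comm, pow_mul, hbv]
    rw [pow_q_add hF, e1, e2]
  obtain ⟨l, hl⟩ := exists_norm_eq hF _ (inv_ne_zero hne) hκq
  have hl0 : l ≠ 0 := by
    rintro rfl
    rw [zero_pow (by omega)] at hl
    exact inv_ne_zero hne hl.symm
  have hE : (l ^ 2 * ((1 + u) ^ 2 + v ^ 2)) ≠ 0 := mul_ne_zero (pow_ne_zero 2 hl0) hne
  have hlbar : l ^ q = l * (l ^ 2 * ((1 + u) ^ 2 + v ^ 2))⁻¹ := by
    apply mul_left_cancel₀ hl0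
    rw [← pow_succ', hl]
    field_simp
  set E := (l ^ 2 * ((1 + u) ^ 2 + v ^ 2))⁻¹ with hEdef
  have hnorm : E * ((l * (1 + u)) ^ 2 + (-(l * v)) ^ 2) = 1 := by
    rw [hEdef]
    field_simp
  have hP : Preserves q (B (l * (1 + u)) (-(l * v)) E) := by
    apply preserves_B hF _ _ hnorm
    · rw [mul_pow, hlbar, pow_q_add hF, one_pow, hbu]
      ring
    · rw [pow_q_neg hF, mul_pow, hlbar, hbv]
      ring
  refine ⟨mkU _ (by rw [det_B]; exact hnorm) hP, isR_of_M _ (M_mkU _ _ _), ?_⟩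
  rw [inv_mul_eq_iff_eq_mul]
  apply M_inj (cfgU hF h2)
  rw [M_s_conj (cfgU hF h2) (M_mkU _ _ _), M_mul, M_mkU, hM, B_mul]
  congr 1
  · ring_nf
    linear_combination (-l) * hn
  · ring
  · simp

lemma hconjU (r : SU 3 F q) (hr : IsR (cfgU hF h2) r) (he : M (rhoU F q) r 2 2 = -1) :
    ∃ g, g * (cfgU hF h2).J * g⁻¹ = r * (cfgU hF h2).s := by
  have hM := hr.M_eq
  have hn := hr.norm
  obtain ⟨hba, hbb⟩ := isR_bar hF h2 hr
  rw [he] at hM hn hba hbb
  generalize M (rhoU F q) r 0 0 = a at hM hn hba hbb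
  generalize M (rhoU F q) r 0 1 = b at hM hn hba hbb
  rw [mul_neg_one] at hba hbb
  have hh : (2 : F) * 2⁻¹ = 1 := mul_inv_cancel₀ h2
  generalize (2 : F)⁻¹ = h at hh
  have hh0 : h ≠ 0 := by
    rintro rfl
    simp at hh
  obtain ⟨l, hl⟩ := exists_norm_eq hF h hh0 (half_bar hF hh)
  have hl0 : l ≠ 0 := by
    rintro rfl
    rw [zero_pow (by omega)] at hl
    exact hh0 hl.symm
  have hlq : l * l ^ q = h := by rw [← pow_succ']; exact hl
  obtain ⟨c, hc⟩ : ∃ c, (2 * l ^ 2) * c = 1 := ⟨(2 * l ^ 2)⁻¹, mul_inv_cancel₀ (mul_ne_zero h2 (pow_ne_zero 2 hl0))⟩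
  have hcbar : c * c ^ q = 1 := by
    have h3 := congrArg (fun x : F => x ^ q) hc
    have e2 : (2 : F) ^ q = 2 := by
      have := pow_q_add hF (1 : F) 1
      rw [one_pow] at this
      rw [show (2 : F) = 1 + 1 by norm_num, this]
    simp only [mul_pow, e2, one_pow] at h3
    have e1 : (l ^ 2) ^ q = (l ^ q) ^ 2 := by rw [← pow_mul, ← pow_mul, mul_comm]
    rw [e1] at h3
    have h4 : (2 * l ^ 2 * c) * (2 * (l ^ q) ^ 2 * c ^ q) = 1 := by rw [hc, h3, one_mul]
    have h5 : (2 * l * l ^ q) = 1 := by rw [mul_assoc, hlq, hh]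
    linear_combination h4 - (c * c ^ q) * (2 * l * l ^ q + 1) * h5
  have hP : Preserves q (!![l * a, l * (1 - b), 0; l * (-1 - b), l * (-a), 0; 0, 0, c]) := by
    apply preserves_block hF
    · have e1 : (l * (-1 - b)) ^ q = l ^ q * (-1 + b) := by
        rw [mul_pow, pow_q_sub hF, neg_one_pow_q hF, hbb]
        ring
      rw [e1, mul_pow, hba]
      linear_combination (l * l ^ q) * hn + 2 * hlq + hh
    · have e1 : (l * (1 - b)) ^ q = l ^ q * (1 + b) := by
        rw [mul_pow, pow_q_sub hF, one_pow, hbb]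
        ring
      have e2 : (l * (-a)) ^ q = l ^ q * a := by
        rw [mul_pow, pow_q_neg hF, hba]
        ring
      rw [e1, e2]
      linear_combination (l * l ^ q) * hn + 2 * hlq + hh
    · have e1 : (l * (1 - b)) ^ q = l ^ q * (1 + b) := by
        rw [mul_pow, pow_q_sub hF, one_pow, hbb]
        ring
      have e2 : (l * (-a)) ^ q = l ^ q * a := by
        rw [mul_pow, pow_q_neg hF, hba]
        ring
      rw [e1, e2]
      ring
    · exact hcbar
  have hdet : (!![l * a, l * (1 - b), 0; l * (-1 - b), l * (-a), 0; 0, 0, c] : Matrix (Fin 3) (Fin 3) F).det = 1 := by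
    simp [Matrix.det_fin_three]
    linear_combination c * l ^ 2 * hn + hc
  refine ⟨mkU _ hdet hP, ?_⟩
  rw [mul_inv_eq_iff_eq_mul]
  apply M_inj (cfgU hF h2)
  rw [M_mul, M_mul, M_mul, (cfgU hF h2).hJ, (cfgU hF h2).hs, hM, M_mkU]
  ext i j
  fin_cases i <;> fin_cases j <;> simp [B, S3, Matrix.mul_apply, Fin.sum_univ_three]
  · linear_combination l * hn
  · ring
  · ring
  · linear_combination l * hn

lemma two_bar : (2 : F) ^ q = 2 := by
  have := pow_q_add hF (1 : F) 1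
  rw [one_pow] at this
  rw [show (2 : F) = 1 + 1 by norm_num, this]

/-- The third diagonal entry has norm one. -/
lemma e_norm {a b e : F} (ha : a ^ q = a * e) (hb : b ^ q = b * e) (hn : e * (a ^ 2 + b ^ 2) = 1) :
    e * e ^ q = 1 := by
  have h1 := congrArg (fun x : F => x ^ q) hn
  simp only [mul_pow, pow_q_add hF, one_pow] at h1
  have e1 : (a ^ 2) ^ q = (a ^ q) ^ 2 := by rw [← pow_mul, ← pow_mul, mul_comm]
  have e2 : (b ^ 2) ^ q = (b ^ q) ^ 2 := by rw [← pow_mul, ← pow_mul, mul_comm]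
  rw [e1, e2, ha, hb] at h1
  have h3 : e ^ q * e * (e * (a ^ 2 + b ^ 2)) = 1 := by linear_combination h1
  rw [hn, mul_one, mul_comm] at h3
  exact h3

lemma pres_eigD {i h α β e : F} (hi : i * i = -1) (hiq : i ^ q = i) (hh : 2 * h = 1)
    (hα : α ^ q = e * α) (hβ : β ^ q = e * β) (he : e * (α * β) = 1) :
    Preserves q (B ((α + β) * h) (-i * (α - β) * h) e) := by
  apply preserves_B hF _ _ (norm_eig hi hh he)
  · rw [mul_pow, pow_q_add hF, hα, hβ, half_bar hF hh]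
    ring
  · rw [mul_pow, mul_pow, pow_q_neg hF, hiq, pow_q_sub hF, hα, hβ, half_bar hF hh]
    ring

lemma pres_eigW {i h α β e : F} (hi : i * i = -1) (hiq : i ^ q = -i) (hh : 2 * h = 1)
    (hα : α ^ q = e * β) (hβ : β ^ q = e * α) (he : e * (α * β) = 1) :
    Preserves q (B ((α + β) * h) (-i * (α - β) * h) e) := by
  apply preserves_B hF _ _ (norm_eig hi hh he)
  · rw [mul_pow, pow_q_add hF, hα, hβ, half_bar hF hh]
    ring
  · rw [mul_pow, mul_pow, pow_q_neg hF, hiq, pow_q_sub hF, hα, hβ, half_bar hF hh]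
    ring

omit [Fintype F] hF in
lemma i_bar_one {i : F} (hi : i * i = -1) (hq4 : q % 4 = 1) : i ^ q = i := by
  obtain ⟨k, rfl⟩ : ∃ k, q = 4 * k + 1 := ⟨q / 4, by omega⟩
  have h4 : i ^ 4 = 1 := by linear_combination (i * i - 1) * hi
  rw [pow_succ, pow_mul, h4, one_pow, one_mul]

omit [Fintype F] hF in
lemma i_bar_three {i : F} (hi : i * i = -1) (hq4 : q % 4 = 3) : i ^ q = -i := by
  obtain ⟨k, rfl⟩ : ∃ k, q = 4 * k + 3 := ⟨q / 4, by omega⟩
  have h4 : i ^ 4 = 1 := by linear_combination (i * i - 1) * hi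
  rw [pow_add, pow_mul, h4, one_pow, one_mul]
  linear_combination i * hi

/-- Block elements of `SU`. -/
def mkBU (a b e : F) (hn : e * (a ^ 2 + b ^ 2) = 1) (hP : Preserves q (B a b e)) : SU 3 F q :=
  mkU (B a b e) (by rw [det_B]; exact hn) hP

omit hF in
lemma M_mkBU (a b e : F) (hn : e * (a ^ 2 + b ^ 2) = 1) (hP : Preserves q (B a b e)) :
    M (rhoU F q) (mkBU a b e hn hP) = B a b e := rfl

lemma hrD {i : F} (hi : i * i = -1) (hiq : i ^ q = i) :
    ∃ r, IsR (cfgU hF h2) r ∧ M (rhoU F q) r 2 2 = -1 := by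
  obtain ⟨y, hy⟩ : ∃ y : F, y ^ q ≠ y := by
    by_contra hc
    push Not at hc
    exact sigma_ne_id hF (RingHom.ext fun x => by simpa using hc x)
  have hρ0 : y - y ^ q ≠ 0 := sub_ne_zero.2 hy.symm
  have hρq : (y - y ^ q) ^ q = -(y - y ^ q) := by
    rw [pow_q_sub hF, pow_q_pow_q hF]
    ring
  generalize y - y ^ q = ρ at hρ0 hρq
  obtain ⟨ρ', hρ'⟩ : ∃ r, ρ * r = 1 := ⟨ρ⁻¹, mul_inv_cancel₀ hρ0⟩
  have hρ'q : ρ' ^ q = -ρ' := by
    have h1 := congrArg (fun x : F => x ^ q) hρ'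
    simp only [mul_pow, hρq, one_pow] at h1
    have h3 : ρ * ρ' ^ q = ρ * (-ρ') := by linear_combination -h1 + hρ'
    exact mul_left_cancel₀ hρ0 h3
  have hh : (2 : F) * 2⁻¹ = 1 := mul_inv_cancel₀ h2
  generalize (2 : F)⁻¹ = h at hh
  have he : (-1 : F) * (ρ * (-ρ')) = 1 := by linear_combination hρ'
  have hP : Preserves q (B ((ρ + -ρ') * h) (-i * (ρ - -ρ') * h) (-1)) :=
    pres_eigD hF hi hiq hh (by rw [hρq]; ring) (by rw [pow_q_neg hF, hρ'q]; ring) he
  refine ⟨mkBU _ _ _ (norm_eig hi hh he) hP, isR_of_M _ (M_mkBU _ _ _ _ _), ?_⟩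
  rw [M_mkBU]
  simp [B]

lemma hrW {i : F} (hi : i * i = -1) (hiq : i ^ q = -i) :
    ∃ r, IsR (cfgU hF h2) r ∧ M (rhoU F q) r 2 2 = -1 := by
  have hn : (-1 : F) * (i ^ 2 + 0 ^ 2) = 1 := by linear_combination -hi
  have hP : Preserves q (B i 0 (-1)) := by
    apply preserves_B hF _ _ hn
    · rw [hiq]
      ring
    · rw [zero_pow_q hF]
      ring
  refine ⟨mkBU _ _ _ hn hP, isR_of_M _ (M_mkBU _ _ _ _ _), ?_⟩
  rw [M_mkBU]
  simp [B]

/-- A square root of `J`. -/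
lemma ha0_sqrtJ {d ε : F} (hε : ε * ε = 1) (hεq : ε ^ q = ε) (hd : 2 * ε * (d * d) = 1)
    (hdq : d ^ q = d * ε) :
    ∃ a, IsR (cfgU hF h2) a ∧ Two a ∧ M (rhoU F q) a 0 0 ≠ 0 ∧ M (rhoU F q) a 0 1 ≠ 0 := by
  have hε0 : ε ≠ 0 := by
    rintro rfl
    simp at hε
  have hd0 : d ≠ 0 := by
    rintro rfl
    simp at hd
  have hnorm : ε * (d ^ 2 + (ε * d) ^ 2) = 1 := by
    linear_combination hd + ε * d * d * hε
  have hP : Preserves q (B d (ε * d) ε) := by
    apply preserves_B hF hdq _ hnorm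
    rw [mul_pow, hεq, hdq]
    ring
  have hsq : (mkBU d (ε * d) ε hnorm hP) * (mkBU d (ε * d) ε hnorm hP) = (cfgU hF h2).J := by
    apply M_inj (cfgU hF h2)
    rw [M_mul, M_mkBU, B_mul, (cfgU hF h2).hJ]
    congr 1
    · linear_combination (-(d * d)) * hε
    · linear_combination hd
  refine ⟨mkBU d (ε * d) ε hnorm hP, isR_of_M _ (M_mkBU _ _ _ _ _), ?_, ?_, ?_⟩
  · obtain ⟨k, hk⟩ := J_two (cfgU hF h2)
    refine ⟨k + 1, ?_⟩
    rw [pow_succ', pow_mul, pow_two, hsq, hk]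
  · rw [M_mkBU]
    simpa [B] using hd0
  · rw [M_mkBU]
    simpa [B] using mul_ne_zero hε0 hd0

lemma ha0D {i : F} (hi : i * i = -1) (hiq : i ^ q = i) (hodd : q % 2 = 1) :
    ∃ a, IsR (cfgU hF h2) a ∧ Two a ∧ M (rhoU F q) a 0 0 ≠ 0 ∧ M (rhoU F q) a 0 1 ≠ 0 := by
  have hh : (2 : F) * 2⁻¹ = 1 := mul_inv_cancel₀ h2
  generalize (2 : F)⁻¹ = h at hh
  have hh0 : h ≠ 0 := by
    rintro rfl
    simp at hh
  obtain ⟨l, hl⟩ := exists_norm_eq hF h hh0 (half_bar hF hh)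
  obtain ⟨m, hm⟩ : ∃ m, q + 1 = 2 * m := ⟨(q + 1) / 2, by omega⟩
  have ht : l ^ m * l ^ m = h := by
    rw [← hl, hm, two_mul, pow_add]
  generalize l ^ m = t at ht
  have ht2 : (t ^ q - t) * (t ^ q + t) = 0 := by
    have h3 := congrArg (fun x : F => x ^ q) ht
    simp only [mul_pow, half_bar hF hh] at h3
    linear_combination h3 - ht
  rcases mul_eq_zero.1 ht2 with h3 | h3
  · exact ha0_sqrtJ hF h2 (d := t) (ε := 1) (by ring) (one_pow _) (by linear_combination 2 * ht + hh)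
      (by linear_combination h3)
  · refine ha0_sqrtJ hF h2 (d := i * t) (ε := -1) (by ring) (neg_one_pow_q hF) ?_ ?_
    · linear_combination (-2 * t * t) * hi + 2 * ht + hh
    · rw [mul_pow, hiq]
      linear_combination i * h3

lemma ha0W {i : F} (hi : i * i = -1) (hiq : i ^ q = -i) :
    ∃ a, IsR (cfgU hF h2) a ∧ Two a ∧ M (rhoU F q) a 0 0 ≠ 0 ∧ M (rhoU F q) a 0 1 ≠ 0 := by
  have hh : (2 : F) * 2⁻¹ = 1 := mul_inv_cancel₀ h2
  generalize (2 : F)⁻¹ = h at hh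
  have hh0 : h ≠ 0 := by
    rintro rfl
    simp at hh
  have hx : (1 + i) * h ≠ 0 := by
    apply mul_ne_zero _ hh0
    intro h0
    have h3 : i = -1 := by linear_combination h0
    rw [h3] at hi
    exact h2 (by linear_combination hi)
  have hxx : (1 + i) * h * ((1 + i) * h) + (1 + i) * h * ((1 + i) * h) = i := by
    linear_combination (2 * h * h) * hi + i * (2 * h + 1) * hh
  have hnorm : (-i) * (((1 + i) * h) ^ 2 + ((1 + i) * h) ^ 2) = 1 := by
    have : (-i) * (((1 + i) * h) ^ 2 + ((1 + i) * h) ^ 2) =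
      (-i) * ((1 + i) * h * ((1 + i) * h) + (1 + i) * h * ((1 + i) * h)) := by ring
    rw [this, hxx]
    linear_combination -hi
  have hbar : ((1 + i) * h) ^ q = (1 + i) * h * -i := by
    rw [mul_pow, pow_q_add hF, one_pow, hiq, half_bar hF hh]
    linear_combination h * hi
  have hP : Preserves q (B ((1 + i) * h) ((1 + i) * h) (-i)) := preserves_B hF hbar hbar hnorm
  refine ⟨mkBU _ _ _ hnorm hP, isR_of_M _ (M_mkBU _ _ _ _ _), ⟨2, ?_⟩, ?_, ?_⟩
  · apply M_inj (cfgU hF h2)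
    have e : (mkBU _ _ _ hnorm hP) ^ 2 ^ 2 = ((mkBU _ _ _ hnorm hP) * (mkBU _ _ _ hnorm hP)) * ((mkBU _ _ _ hnorm hP) * (mkBU _ _ _ hnorm hP)) := by
      rw [show (2 : ℕ) ^ 2 = 2 * 2 from rfl, pow_mul, pow_two, pow_two]
    rw [e, M_mul, M_mul, M_mkBU, B_mul, B_mul, M_one, ← B_one]
    congr 1
    · have e1 : (1 + i) * h * ((1 + i) * h) - (1 + i) * h * ((1 + i) * h) = 0 := by ring
      rw [e1, hxx]
      linear_combination -hi
    · rw [hxx]
      ring
    · linear_combination (-i * -i - 1) * hi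
  · rw [M_mkBU]
    simpa [B] using hx
  · rw [M_mkBU]
    simpa [B] using hx

lemma hiiiD (hq4 : q % 4 = 1) (a : SU 3 F q) (ha : IsR (cfgU hF h2) a) (ha2 : Two a)
    (h1 : M (rhoU F q) a 2 2 ≠ 1) (hm : M (rhoU F q) a 2 2 ≠ -1) :
    ∃ b w g, IsR (cfgU hF h2) b ∧ Two b ∧ M (rhoU F q) b 2 2 = 1 ∧ IsR (cfgU hF h2) w ∧ Two w ∧
      M (rhoU F q) w 2 2 = M (rhoU F q) a 2 2 ∧ g * b * g⁻¹ = w := by
  exfalso
  obtain ⟨K, hK⟩ := ha2
  have hKe : M (rhoU F q) a 2 2 ^ 2 ^ K = 1 := by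
    rw [← ha.e_pow, hK]
    simp [M]
  obtain ⟨hba, hbb⟩ := isR_bar hF h2 ha
  have hne := e_norm hF hba hbb ha.norm
  generalize M (rhoU F q) a 2 2 = e at *
  have h3 : e ^ (q + 1) = 1 := by rw [pow_succ']; exact hne
  obtain ⟨m, hm'⟩ : ∃ m, q + 1 = 2 * (2 * m + 1) := ⟨q / 4, by omega⟩
  have h4 : (e ^ 2) ^ (2 * m + 1) = 1 := by rw [← pow_mul, ← hm']; exact h3
  have h5 : (e ^ 2) ^ (2 ^ K) = 1 := by rw [← pow_mul, mul_comm, pow_mul, hKe, one_pow]
  have hg : Nat.gcd (2 * m + 1) (2 ^ K) = 1 := by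
    apply Nat.Coprime.pow_right
    simp
  have h6 : e ^ 2 = 1 := by
    have := pow_gcd_eq_one.2 ⟨h4, h5⟩
    rwa [hg, pow_one] at this
  have h7 : e * e = 1 := by rw [← pow_two]; exact h6
  rcases mul_self_eq_one_iff.1 h7 with h | h
  · exact h1 h
  · exact hm h

omit [Fintype F] hF in
/-- Eigenvector description with a scaling factor. -/
lemma B_eigU {i h α β e c l : F} (hi : i * i = -1) (hh : 2 * h = 1) :
    B ((α + β) * h) (-i * (α - β) * h) e * !![l, l, 0; l * i, -(l * i), 0; 0, 0, c] =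
      !![l, l, 0; l * i, -(l * i), 0; 0, 0, c] * D3 α β e := by
  ext k m
  fin_cases k <;> fin_cases m <;> simp [B, D3, Matrix.mul_apply, Fin.sum_univ_three]
  · linear_combination l * (α * hh - (α - β) * h * hi)
  · linear_combination l * (β * hh + (α - β) * h * hi)
  · linear_combination l * (i * α * hh)
  · linear_combination l * ((-i) * β * hh)
  · ring

omit hF in
lemma preserves_π (hF : Fintype.card F = q ^ 2) :
    Preserves q (!![0, 0, 1; 1, 0, 0; 0, 1, 0] : Matrix (Fin 3) (Fin 3) F) := by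
  have hq0 : (0 : F) ^ q = 0 := zero_pow_q hF
  rw [preserves_iff_frame hF]
  intro i j
  fin_cases i <;> fin_cases j <;> simp [hermForm, Fin.sum_univ_three, hq0]

lemma hiiiW {i : F} (hi : i * i = -1) (hiq : i ^ q = -i) (a : SU 3 F q) (ha : IsR (cfgU hF h2) a)
    (ha2 : Two a) (h1 : M (rhoU F q) a 2 2 ≠ 1) (hm : M (rhoU F q) a 2 2 ≠ -1) :
    ∃ b w g, IsR (cfgU hF h2) b ∧ Two b ∧ M (rhoU F q) b 2 2 = 1 ∧ IsR (cfgU hF h2) w ∧ Two w ∧
      M (rhoU F q) w 2 2 = M (rhoU F q) a 2 2 ∧ g * b * g⁻¹ = w := by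
  obtain ⟨K, hK⟩ := ha2
  have hKe : M (rhoU F q) a 2 2 ^ 2 ^ K = 1 := by
    rw [← ha.e_pow, hK]
    simp [M]
  obtain ⟨hba, hbb⟩ := isR_bar hF h2 ha
  have hne := e_norm hF hba hbb ha.norm
  generalize M (rhoU F q) a 2 2 = e at *
  have he0 : e ≠ 0 := by
    rintro rfl
    simp at hne
  have hδq : (e ^ q) ^ q = e := pow_q_pow_q hF e
  have hδK : (e ^ q) ^ 2 ^ K = 1 := by
    rw [← pow_mul, mul_comm, pow_mul, hKe, one_pow]
  obtain ⟨δ, hδe⟩ : ∃ δ, e ^ q = δ := ⟨_, rfl⟩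
  rw [hδe] at hne hδq hδK
  have hδ' : δ * e = 1 := by rw [mul_comm]; exact hne
  have hh : (2 : F) * 2⁻¹ = 1 := mul_inv_cancel₀ h2
  generalize (2 : F)⁻¹ = h at hh
  have hh0 : h ≠ 0 := by
    rintro rfl
    simp at hh
  have hi0 : i ≠ 0 := by
    rintro rfl
    have : (1 : F) = 0 := by linear_combination hi
    exact one_ne_zero this
  obtain ⟨l, hl⟩ := exists_norm_eq hF h hh0 (half_bar hF hh)
  have hl0 : l ≠ 0 := by
    rintro rfl
    rw [zero_pow (by omega)] at hl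
    exact hh0 hl.symm
  have hlq : l * l ^ q = h := by rw [← pow_succ']; exact hl
  have hc0 : (-2 * i * l ^ 2) ≠ 0 := mul_ne_zero (mul_ne_zero (neg_ne_zero.2 h2) hi0) (pow_ne_zero 2 hl0)
  obtain ⟨c, hc⟩ : ∃ c, (-2 * i * l ^ 2) * c = 1 := ⟨(-2 * i * l ^ 2)⁻¹, mul_inv_cancel₀ hc0⟩
  have hcbar : c * c ^ q = 1 := by
    have h3 := congrArg (fun x : F => x ^ q) hc
    simp only [mul_pow, pow_q_neg hF, two_bar hF, hiq, one_pow] at h3
    have e1 : (l ^ 2) ^ q = (l ^ q) ^ 2 := by rw [← pow_mul, ← pow_mul, mul_comm]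
    rw [e1] at h3
    have h4 : ((-2 * i * l ^ 2) * c) * ((-2 * -i * (l ^ q) ^ 2) * c ^ q) = 1 := by rw [hc, h3, one_mul]
    have h5 : (2 * (l * l ^ q)) = 1 := by rw [hlq, hh]
    linear_combination h4 + (c * c ^ q * (l * l ^ q) * (l * l ^ q) * 4) * hi
      - (c * c ^ q) * (2 * (l * l ^ q) + 1) * h5
  have hPP : Preserves q (!![l, l, 0; l * i, -(l * i), 0; 0, 0, c] : Matrix (Fin 3) (Fin 3) F) := by
    have e1 : (l * i) ^ q = l ^ q * -i := by rw [mul_pow, hiq]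
    apply preserves_block hF
    · rw [e1]
      linear_combination 2 * hlq + hh - (l * l ^ q) * hi
    · rw [pow_q_neg hF, e1]
      linear_combination 2 * hlq + hh - (l * l ^ q) * hi
    · rw [pow_q_neg hF, e1]
      linear_combination (l * l ^ q) * hi
    · exact hcbar
  have hPdet : (!![l, l, 0; l * i, -(l * i), 0; 0, 0, c] : Matrix (Fin 3) (Fin 3) F).det = 1 := by
    simp [Matrix.det_fin_three]
    linear_combination hc
  have hd₁ : (D3 δ e 1).det = 1 := by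
    rw [det_D3]; linear_combination hδ'
  have hd₂ : (D3 1 δ e).det = 1 := by
    rw [det_D3]; linear_combination hδ'
  have hπ : (!![0, 0, 1; 1, 0, 0; 0, 1, 0] : Matrix (Fin 3) (Fin 3) F).det = 1 := by
    simp [Matrix.det_fin_three]
  have hPd₁ : Preserves q (D3 δ e 1) := by
    apply preserves_block hF
    · rw [hδq, zero_mul, add_zero]; exact hδ'
    · rw [zero_mul, zero_add, hδe]; exact hne
    · simp [zero_pow_q hF]
    · simp
  have hPd₂ : Preserves q (D3 1 δ e) := by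
    apply preserves_block hF
    · simp
    · rw [zero_mul, zero_add, hδq]; exact hδ'
    · simp [zero_pow_q hF]
    · rw [hδe]; exact hne
  let Pm : SU 3 F q := mkU _ hPdet hPP
  let d₁ : SU 3 F q := mkU _ hd₁ hPd₁
  let d₂ : SU 3 F q := mkU _ hd₂ hPd₂
  let πm : SU 3 F q := mkU _ hπ (preserves_π hF)
  have hb1 : (1 : F) * (δ * e) = 1 := by linear_combination hδ'
  have hw1 : e * ((1 : F) * δ) = 1 := by linear_combination hδ'
  have hPb : Preserves q (B ((δ + e) * h) (-i * (δ - e) * h) 1) :=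
    pres_eigW hF hi hiq hh (by rw [hδq]; ring) (by rw [hδe]; ring) hb1
  have hPw : Preserves q (B ((1 + δ) * h) (-i * (1 - δ) * h) e) :=
    pres_eigW hF hi hiq hh (by rw [one_pow]; linear_combination -hδ') (by rw [hδq]; ring) hw1
  let b : SU 3 F q := mkBU _ _ _ (norm_eig hi hh hb1) hPb
  let w : SU 3 F q := mkBU _ _ _ (norm_eig hi hh hw1) hPw
  have hb : b = Pm * d₁ * Pm⁻¹ := by
    rw [eq_mul_inv_iff_mul_eq]
    apply M_inj (cfgU hF h2)
    rw [M_mul, M_mul]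
    exact B_eigU hi hh
  have hw : w = Pm * d₂ * Pm⁻¹ := by
    rw [eq_mul_inv_iff_mul_eq]
    apply M_inj (cfgU hF h2)
    rw [M_mul, M_mul]
    exact B_eigU hi hh
  have hπd : πm * d₁ = d₂ * πm := by
    apply M_inj (cfgU hF h2)
    rw [M_mul, M_mul]
    show (!![0, 0, 1; 1, 0, 0; 0, 1, 0] : Matrix (Fin 3) (Fin 3) F) * D3 δ e 1 =
      D3 1 δ e * !![0, 0, 1; 1, 0, 0; 0, 1, 0]
    ext k l
    fin_cases k <;> fin_cases l <;> simp [D3, Matrix.mul_apply, Fin.sum_univ_three]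
  have hTwo1 : Two d₁ := by
    refine ⟨K, ?_⟩
    apply M_inj (cfgU hF h2)
    show (D3 δ e 1) ^ 2 ^ K = 1
    rw [D3_pow, hδK, hKe, one_pow, D3_one]
  have hTwo2 : Two d₂ := by
    refine ⟨K, ?_⟩
    apply M_inj (cfgU hF h2)
    show (D3 1 δ e) ^ 2 ^ K = 1
    rw [D3_pow, hδK, hKe, one_pow, D3_one]
  refine ⟨b, w, Pm * πm * Pm⁻¹, isR_of_M _ (M_mkBU _ _ _ _ _), ?_, ?_, isR_of_M _ (M_mkBU _ _ _ _ _), ?_, ?_, ?_⟩
  · rw [hb]; exact hTwo1.conj Pm
  · show B _ _ 1 2 2 = 1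
    simp [B]
  · rw [hw]; exact hTwo2.conj Pm
  · show B _ _ e 2 2 = e
    simp [B]
  · rw [hb, hw]
    calc (Pm * πm * Pm⁻¹) * (Pm * d₁ * Pm⁻¹) * (Pm * πm * Pm⁻¹)⁻¹ = Pm * (πm * d₁) * πm⁻¹ * Pm⁻¹ := by group
      _ = Pm * (d₂ * πm) * πm⁻¹ * Pm⁻¹ := by rw [hπd]
      _ = Pm * d₂ * Pm⁻¹ := by group

omit hF in
lemma card_RW (hF : Fintype.card F = q ^ 2) {i : F} (hi : i * i = -1) (hiq : i ^ q = -i) :
    Nat.card (Rg (cfgU hF h2)) = (q + 1) * (q + 1) := by
  classical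
  have hh : (2 : F) * 2⁻¹ = 1 := mul_inv_cancel₀ h2
  generalize (2 : F)⁻¹ = h at hh
  have hfac : ∀ a b : F, a ^ 2 + b ^ 2 = (a + i * b) * (a - i * b) := by
    intro a b
    linear_combination (b ^ 2) * hi
  have hne : ∀ x : Rg (cfgU hF h2), (M (rhoU F q) x.1 0 0 + i * M (rhoU F q) x.1 0 1) ≠ 0 ∧
      (M (rhoU F q) x.1 0 0 - i * M (rhoU F q) x.1 0 1) ≠ 0 := by
    intro x
    have h1 := (mem_Rg.1 x.2).norm
    rw [hfac] at h1
    constructor
    · intro h0
      rw [h0] at h1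
      simp at h1
    · intro h0
      rw [h0] at h1
      simp at h1
  have hU1 : ∀ x : Rg (cfgU hF h2), (M (rhoU F q) x.1 0 0 + i * M (rhoU F q) x.1 0 1) ^ (q + 1) = 1 := by
    intro x
    have hR := mem_Rg.1 x.2
    obtain ⟨h1, h3⟩ := isR_bar hF h2 hR
    have hn := hR.norm
    rw [pow_succ, pow_q_add hF, mul_pow, hiq, h1, h3]
    linear_combination hn - (M (rhoU F q) x.1 2 2 * M (rhoU F q) x.1 0 1 ^ 2) * hi
  have hU2 : ∀ x : Rg (cfgU hF h2), (M (rhoU F q) x.1 0 0 - i * M (rhoU F q) x.1 0 1) ^ (q + 1) = 1 := by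
    intro x
    have hR := mem_Rg.1 x.2
    obtain ⟨h1, h3⟩ := isR_bar hF h2 hR
    have hn := hR.norm
    rw [pow_succ, pow_q_sub hF, mul_pow, hiq, h1, h3]
    linear_combination hn - (M (rhoU F q) x.1 2 2 * M (rhoU F q) x.1 0 1 ^ 2) * hi
  have hnorm : ∀ p : normOne F q × normOne F q, (((p.1 : Fˣ) : F) * ((p.2 : Fˣ) : F))⁻¹ *
      ((((((p.1 : Fˣ) : F) + ((p.2 : Fˣ) : F)) * h) ^ 2 + (-i * (((p.1 : Fˣ) : F) - ((p.2 : Fˣ) : F)) * h) ^ 2)) = 1 := by
    intro p
    apply norm_eig hi hh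
    exact inv_mul_cancel₀ (mul_ne_zero p.1.1.ne_zero p.2.1.ne_zero)
  have hbar : ∀ u : normOne F q, (((u : Fˣ) : F)) ^ q = ((u : Fˣ) : F)⁻¹ := by
    intro u
    apply eq_inv_of_mul_eq_one_left
    rw [← pow_succ]
    have := (mem_normOne (q := q) u.1).1 u.2
    have h' := congrArg Units.val this
    simpa using h'
  have hpres : ∀ p : normOne F q × normOne F q, Preserves q
      (B ((((p.1 : Fˣ) : F) + ((p.2 : Fˣ) : F)) * h) (-i * (((p.1 : Fˣ) : F) - ((p.2 : Fˣ) : F)) * h)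
        (((p.1 : Fˣ) : F) * ((p.2 : Fˣ) : F))⁻¹) := by
    intro p
    have h01 := p.1.1.ne_zero
    have h02 := p.2.1.ne_zero
    apply pres_eigW hF hi hiq hh
    · rw [hbar]
      field_simp
    · rw [hbar]
      field_simp
    · exact inv_mul_cancel₀ (mul_ne_zero h01 h02)
  let e : normOne F q × normOne F q ≃ Rg (cfgU hF h2) :=
    { toFun := fun p => ⟨mkBU _ _ _ (hnorm p) (hpres p), mem_Rg.2 (isR_of_M _ (M_mkBU _ _ _ _ _))⟩
      invFun := fun x => (⟨Units.mk0 _ (hne x).1, (mem_normOne _).2 (Units.ext (by simpa using hU1 x))⟩,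
        ⟨Units.mk0 _ (hne x).2, (mem_normOne _).2 (Units.ext (by simpa using hU2 x))⟩)
      left_inv := by
        rintro ⟨⟨α, hα⟩, ⟨β, hβ⟩⟩
        ext
        · show ((α : F) + β) * h + i * (-i * ((α : F) - β) * h) = α
          linear_combination (α : F) * hh - ((α : F) - β) * h * hi
        · show ((α : F) + β) * h - i * (-i * ((α : F) - β) * h) = β
          linear_combination (β : F) * hh + ((α : F) - β) * h * hi
      right_inv := by
        rintro ⟨x, hx⟩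
        apply Subtype.ext
        apply M_inj (cfgU hF h2)
        have hR := mem_Rg.1 hx
        rw [M_mkBU]
        conv_rhs => rw [hR.M_eq]
        have hnx := hR.norm
        rw [hfac] at hnx
        have he : M (rhoU F q) x 2 2 = ((M (rhoU F q) x 0 0 + i * M (rhoU F q) x 0 1) * (M (rhoU F q) x 0 0 - i * M (rhoU F q) x 0 1))⁻¹ :=
          eq_inv_of_mul_eq_one_left hnx
        show B (((M (rhoU F q) x 0 0 + i * M (rhoU F q) x 0 1) + (M (rhoU F q) x 0 0 - i * M (rhoU F q) x 0 1)) * h)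
            (-i * ((M (rhoU F q) x 0 0 + i * M (rhoU F q) x 0 1) - (M (rhoU F q) x 0 0 - i * M (rhoU F q) x 0 1)) * h)
            ((M (rhoU F q) x 0 0 + i * M (rhoU F q) x 0 1) * (M (rhoU F q) x 0 0 - i * M (rhoU F q) x 0 1))⁻¹ = _
        rw [← he]
        congr 1
        · linear_combination M (rhoU F q) x 0 0 * hh
        · linear_combination (-2 * M (rhoU F q) x 0 1 * h) * hi + M (rhoU F q) x 0 1 * hh }
  rw [← Nat.card_congr e, Nat.card_prod, card_normOne hF]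

omit hF in
lemma card_RD (hF : Fintype.card F = q ^ 2) {i : F} (hi : i * i = -1) (hiq : i ^ q = i) :
    Nat.card (Rg (cfgU hF h2)) = (q + 1) * (q - 1) := by
  classical
  have hh : (2 : F) * 2⁻¹ = 1 := mul_inv_cancel₀ h2
  generalize (2 : F)⁻¹ = h at hh
  have hfac : ∀ a b : F, a ^ 2 + b ^ 2 = (a + i * b) * (a - i * b) := by
    intro a b
    linear_combination (b ^ 2) * hi
  have hne : ∀ x : Rg (cfgU hF h2), (M (rhoU F q) x.1 0 0 + i * M (rhoU F q) x.1 0 1) ≠ 0 ∧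
      (M (rhoU F q) x.1 0 0 - i * M (rhoU F q) x.1 0 1) ≠ 0 := by
    intro x
    have h1 := (mem_Rg.1 x.2).norm
    rw [hfac] at h1
    constructor
    · intro h0
      rw [h0] at h1
      simp at h1
    · intro h0
      rw [h0] at h1
      simp at h1
  have hq0 : ∀ α : Fˣ, ((α : F) ^ q) ≠ 0 := fun α => pow_ne_zero _ α.ne_zero
  have hnorm : ∀ α : Fˣ, ((α : F) * ((α : F) ^ q)⁻¹)⁻¹ *
      ((((α : F) + ((α : F) ^ q)⁻¹) * h) ^ 2 + (-i * ((α : F) - ((α : F) ^ q)⁻¹) * h) ^ 2) = 1 := by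
    intro α
    apply norm_eig hi hh
    exact inv_mul_cancel₀ (mul_ne_zero α.ne_zero (inv_ne_zero (hq0 α)))
  have hpres : ∀ α : Fˣ, Preserves q
      (B (((α : F) + ((α : F) ^ q)⁻¹) * h) (-i * ((α : F) - ((α : F) ^ q)⁻¹) * h)
        ((α : F) * ((α : F) ^ q)⁻¹)⁻¹) := by
    intro α
    have h01 := α.ne_zero
    have h02 := hq0 α
    apply pres_eigD hF hi hiq hh
    · field_simp
    · rw [inv_pow, pow_q_pow_q hF]
      field_simp
    · exact inv_mul_cancel₀ (mul_ne_zero h01 (inv_ne_zero h02))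
  let e : Fˣ ≃ Rg (cfgU hF h2) :=
    { toFun := fun α => ⟨mkBU _ _ _ (hnorm α) (hpres α), mem_Rg.2 (isR_of_M _ (M_mkBU _ _ _ _ _))⟩
      invFun := fun x => Units.mk0 _ (hne x).1
      left_inv := by
        intro α
        ext
        show ((α : F) + ((α : F) ^ q)⁻¹) * h + i * (-i * ((α : F) - ((α : F) ^ q)⁻¹) * h) = α
        linear_combination (α : F) * hh - ((α : F) - ((α : F) ^ q)⁻¹) * h * hi
      right_inv := by
        rintro ⟨x, hx⟩
        apply Subtype.ext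
        apply M_inj (cfgU hF h2)
        have hR := mem_Rg.1 hx
        rw [M_mkBU]
        conv_rhs => rw [hR.M_eq]
        have hnx := hR.norm
        rw [hfac] at hnx
        obtain ⟨h1, h3⟩ := isR_bar hF h2 hR
        have he : M (rhoU F q) x 2 2 = ((M (rhoU F q) x 0 0 + i * M (rhoU F q) x 0 1) * (M (rhoU F q) x 0 0 - i * M (rhoU F q) x 0 1))⁻¹ :=
          eq_inv_of_mul_eq_one_left hnx
        have hv : ((M (rhoU F q) x 0 0 + i * M (rhoU F q) x 0 1) ^ q)⁻¹ = M (rhoU F q) x 0 0 - i * M (rhoU F q) x 0 1 := by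
          apply inv_eq_of_mul_eq_one_right
          rw [pow_q_add hF, mul_pow, hiq, h1, h3]
          linear_combination hnx
        show B (((M (rhoU F q) x 0 0 + i * M (rhoU F q) x 0 1) + ((M (rhoU F q) x 0 0 + i * M (rhoU F q) x 0 1) ^ q)⁻¹) * h)
            (-i * ((M (rhoU F q) x 0 0 + i * M (rhoU F q) x 0 1) - ((M (rhoU F q) x 0 0 + i * M (rhoU F q) x 0 1) ^ q)⁻¹) * h)
            ((M (rhoU F q) x 0 0 + i * M (rhoU F q) x 0 1) * ((M (rhoU F q) x 0 0 + i * M (rhoU F q) x 0 1) ^ q)⁻¹)⁻¹ = _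
        rw [hv, ← he]
        congr 1
        · linear_combination M (rhoU F q) x 0 0 * hh
        · linear_combination (-2 * M (rhoU F q) x 0 1 * h) * hi + M (rhoU F q) x 0 1 * hh }
  rw [← Nat.card_congr e, card_units hF]

omit hF in
lemma card_SU3 (hF : Fintype.card F = q ^ 2) :
    Nat.card (SU 3 F q) = q ^ 3 * ((q ^ 2 - 1) * (q ^ 3 + 1)) := by
  have h1 := card_SU hF (n := 3) (by norm_num)
  simp only [Finset.prod_range_succ, Finset.prod_range_zero, one_mul] at h1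
  norm_num at h1
  have e0 : (Even 0 : Prop) := by decide
  have hq := two_le_q hF
  have h3 : (q + 1) * Nat.card (SU 3 F q) = (q + 1) * (q ^ 3 * ((q ^ 2 - 1) * (q ^ 3 + 1))) := by
    rw [h1]
    ring
  exact Nat.eq_of_mul_eq_mul_left (by omega) h3

omit hF in
lemma idxU (hF : Fintype.card F = q ^ 2) (hodd : q % 2 = 1) {i : F} (hi : i * i = -1) :
    ¬ 2 ∣ (Nn (cfgU hF h2).J).index := by
  rintro ⟨k, hk⟩
  have h1 := card_eq_two_mul (cfgU hF h2)
  rw [card_SU3 hF, hk] at h1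
  have hq := two_le_q hF
  have hq4 : q % 4 = 1 ∨ q % 4 = 3 := by omega
  rcases hq4 with hq4 | hq4
  · rw [card_RD h2 hF hi (i_bar_one hi hq4)] at h1
    obtain ⟨t, rfl⟩ : ∃ t, q = 4 * t + 1 := ⟨q / 4, by omega⟩
    have ht : 0 < t := by omega
    have e1 : (4 * t + 1) ^ 2 - 1 = (4 * t + 2) * (4 * t) := by
      apply Nat.sub_eq_of_eq_add
      ring
    rw [e1] at h1
    simp only [Nat.add_sub_cancel] at h1
    have h3 : 2 * k = (4 * t + 1) ^ 3 * ((2 * t + 1) * (16 * t ^ 2 + 4 * t + 1)) := by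
      have hpos : 0 < (4 * t + 2) * (4 * t) * 2 := by positivity
      apply Nat.eq_of_mul_eq_mul_left hpos
      linear_combination -h1
    have h4 : Odd ((4 * t + 1) ^ 3 * ((2 * t + 1) * (16 * t ^ 2 + 4 * t + 1))) := by
      apply Odd.mul (Odd.pow ⟨2 * t, by ring⟩)
      apply Odd.mul ⟨t, by ring⟩ ⟨8 * t ^ 2 + 2 * t, by ring⟩
    rw [← h3] at h4
    exact (Nat.not_odd_iff_even.2 ⟨k, by ring⟩) h4
  · rw [card_RW h2 hF hi (i_bar_three hi hq4)] at h1
    obtain ⟨t, rfl⟩ : ∃ t, q = 4 * t + 3 := ⟨q / 4, by omega⟩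
    have e1 : (4 * t + 3) ^ 2 - 1 = (4 * t + 4) * (4 * t + 2) := by
      apply Nat.sub_eq_of_eq_add
      ring
    rw [e1] at h1
    have h3 : 2 * k = (4 * t + 3) ^ 3 * ((2 * t + 1) * (16 * t ^ 2 + 20 * t + 7)) := by
      have hpos : 0 < (4 * t + 3 + 1) * (4 * t + 3 + 1) * 2 := by positivity
      apply Nat.eq_of_mul_eq_mul_left hpos
      linear_combination -h1
    have h4 : Odd ((4 * t + 3) ^ 3 * ((2 * t + 1) * (16 * t ^ 2 + 20 * t + 7))) := by
      apply Odd.mul (Odd.pow ⟨2 * t + 1, by ring⟩)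
      apply Odd.mul ⟨t, by ring⟩ ⟨8 * t ^ 2 + 10 * t + 3, by ring⟩
    rw [← h3] at h4
    exact (Nat.not_odd_iff_even.2 ⟨k, by ring⟩) h4

lemma exists_i (hodd : q % 2 = 1) : ∃ i : F, i * i = -1 := by
  have h4 : Fintype.card F % 4 ≠ 3 := by
    rw [hF]
    have : q % 4 = 1 ∨ q % 4 = 3 := by omega
    rcases this with h | h <;> simp [Nat.pow_mod, h]
  obtain ⟨i, hi⟩ := (FiniteField.isSquare_neg_one_iff (F := F)).2 h4
  exact ⟨i, hi.symm⟩

/-- All hypotheses for `SU(3, q)`. -/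
theorem hypsU (hodd : q % 2 = 1) : Hyps (cfgU hF h2) := by
  obtain ⟨i, hi⟩ := exists_i hF hodd
  have hq4 : q % 4 = 1 ∨ q % 4 = 3 := by omega
  rcases hq4 with hq4 | hq4
  · have hiq := i_bar_one hi hq4
    exact
      { idx := idxU h2 hF hodd hi
        h90 := h90U hF h2
        hr := hrD hF h2 hi hiq
        hconj := hconjU hF h2
        ha0 := ha0D hF h2 hi hiq hodd
        hiii := hiiiD hF h2 hq4 }
  · have hiq := i_bar_three hi hq4
    exact
      { idx := idxU h2 hF hodd hi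
        h90 := h90U hF h2
        hr := hrW hF h2 hi hiq
        hconj := hconjU hF h2
        ha0 := ha0W hF h2 hi hiq
        hiii := hiiiW hF h2 hi hiq }

end Hyp

/-- The `2`-fusion system of `PSU(3, q)` is simple, `q` odd. -/
theorem isSimple_fusion (hF : Fintype.card F = q ^ 2) (hodd : q % 2 = 1) (S : Sylow 2 (PSU 3 F q)) :
    (Cfsg.groupFusionSystem (S : Subgroup (PSU 3 F q))).IsSimple 2 := by
  have hc : Fintype.card F % 2 = 1 := by
    rw [hF, Nat.pow_mod, hodd]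
  have h2 : (2 : F) ≠ 0 := Cfsg.Agent.Lib.PSL2.TorusCore.two_ne_zero_of_odd_card (Nat.odd_iff.2 hc)
  obtain ⟨P, hP⟩ := exists_good (cfgU hF h2) (hypsU hF h2 hodd)
  refine isSimple_of_good (QuotientGroup.mk' _) (QuotientGroup.mk'_surjective _) ?_ ?_ P hP S
  · rw [QuotientGroup.ker_mk', card_center_SU hF (n := 3) (by norm_num)]
    intro h
    have h3 : Nat.gcd 3 (q + 1) ∣ 3 := Nat.gcd_dvd_left _ _
    have h4 := h.trans h3
    omega
  · rw [QuotientGroup.ker_mk']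

end Cfsg.Agent.Lib.Fusion.Block3SU
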