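/-
`G`-sets whose marks on an arbitrary conjugation-closed family of subgroups depend only on the order.
No congruences are needed: scale the set before adding orbits.
-/
import Mathlib
import Cfsg.Agent.Lib.Fusion.Burnside

set_option autoImplicit false

namespace Cfsg.Agent.Lib.Fusion.BurnsideFree

open Cfsg.Agent.Lib.Fusion.Burnside
open MulAction

universe u

variable {G : Type u} [Group G] [Finite G]

/-- The subgroups of a family of given order. -/
def levelSet (good : Set (Subgroup G)) (n : ℕ) : Type u := {H : Subgroup G // H ∈ good ∧ Nat.card H = n}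

/-- Conjugacy on the subgroups of a family of given order. -/
def levelSetoid (good : Set (Subgroup G)) (n : ℕ) : Setoid (levelSet good n) where
  r H₁ H₂ := ∃ g : G, conjS g H₁.1 = H₂.1
  iseqv := by
    refine ⟨fun H => ⟨1, ?_⟩, ?_, ?_⟩
    · ext x
      simp [mem_conjS]
    · rintro H₁ H₂ ⟨g, hg⟩
      refine ⟨g⁻¹, ?_⟩
      rw [← hg]
      ext x
      simp [mul_assoc]
    · rintro H₁ H₂ H₃ ⟨g, hg⟩ ⟨k, hk⟩
      refine ⟨k * g, ?_⟩
      rw [← hk, ← hg]
      ext x
      simp [mul_assoc]

instance (good : Set (Subgroup G)) (n : ℕ) : Finite (Quotient (levelSetoid good n)) := by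
  haveI : Finite (levelSet good n) := Subtype.finite
  exact Quotient.finite _

/-- One step: scale the set, then add orbits to reach a common value at the next level. -/
theorem exists_step_free (good : Set (Subgroup G)) (hconj : ∀ (g : G) (H : Subgroup G), H ∈ good → conjS g H ∈ good)
    (X : Type u) [MulAction G X] [Finite X] (n : ℕ)
    (hX : ∀ x : X, stabilizer G x ∈ good)
    (hm : ∀ H₁ ∈ good, ∀ H₂ ∈ good, Nat.card H₁ = Nat.card H₂ → n + 1 < Nat.card H₁ →
      mark H₁ X = mark H₂ X)
    (hpos : ∀ H ∈ good, n + 1 < Nat.card H → 0 < mark H X) :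
    ∃ (X' : Type u) (_ : MulAction G X') (_ : Finite X'), (∀ x : X', stabilizer G x ∈ good) ∧
      (∀ H₁ ∈ good, ∀ H₂ ∈ good, Nat.card H₁ = Nat.card H₂ → n < Nat.card H₁ →
        mark H₁ X' = mark H₂ X') ∧
      (∀ H ∈ good, n < Nat.card H → 0 < mark H X') := by
  classical
  haveI : Fintype (Quotient (levelSetoid good (n + 1))) := Fintype.ofFinite _
  set N := Nat.card G with hN
  have hN0 : 0 < N := Nat.card_pos
  let L : ℕ := N * (Nat.card X + 1)
  let w : Subgroup G → ℕ := fun H => (H.subgroupOf (Subgroup.normalizer (H : Set G))).index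
  let D : Quotient (levelSetoid good (n + 1)) → Subgroup G := fun o => (Quotient.out o).1
  let m : Quotient (levelSetoid good (n + 1)) → ℕ := fun o => (L - N * mark (D o) X) / w (D o)
  have hD : ∀ o, D o ∈ good ∧ Nat.card (D o) = n + 1 := fun o => (Quotient.out o).2
  have hwdvd : ∀ H : Subgroup G, w H ∣ N := by
    intro H
    have h1 : w H ∣ Nat.card (Subgroup.normalizer (H : Set G)) := Subgroup.index_dvd_card _
    exact h1.trans (Subgroup.card_subgroup_dvd_card _)
  have hmarkle : ∀ H : Subgroup G, mark H X ≤ Nat.card X := fun H => Set.ncard_le_card _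
  have hLle : ∀ H : Subgroup G, N * mark H X ≤ L := fun H =>
    Nat.mul_le_mul_left _ ((hmarkle H).trans (Nat.le_succ _))
  have hwL : ∀ H : Subgroup G, w H ∣ L - N * mark H X := by
    intro H
    have h1 : L - N * mark H X = N * (Nat.card X + 1 - mark H X) := by
      change N * (Nat.card X + 1) - N * mark H X = _
      rw [Nat.mul_sub]
    rw [h1]
    exact (hwdvd H).mul_right _
  let Xs : Type u := Σ _ : Fin N, X
  let Y : Type u := Σ o : Quotient (levelSetoid good (n + 1)), Σ _ : Fin (m o), G ⧸ D o
  let X' : Type u := Xs ⊕ Y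
  have hmarkY : ∀ K : Subgroup G, mark K Y = ∑ o, m o * mark K (G ⧸ D o) := by
    intro K
    change mark K (Σ o : Quotient (levelSetoid good (n + 1)), Σ _ : Fin (m o), G ⧸ D o) = _
    rw [mark_sigma]
    refine Finset.sum_congr rfl fun o _ => ?_
    rw [mark_sigma_fin]
  have hmarkX' : ∀ K : Subgroup G, mark K X' = N * mark K X + ∑ o, m o * mark K (G ⧸ D o) := by
    intro K
    change mark K (Xs ⊕ Y) = _
    rw [mark_sum, hmarkY]
    change mark K (Σ _ : Fin N, X) + _ = _
    rw [mark_sigma_fin]
  have hhigh : ∀ K : Subgroup G, n + 1 < Nat.card K → ∀ o, mark K (G ⧸ D o) = 0 := by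
    intro K hK o
    by_contra hne
    obtain ⟨g, hg⟩ := exists_le_conj_of_mark_ne_zero K (D o) hne
    have h1 := Subgroup.card_le_of_le hg
    rw [card_conjS, (hD o).2] at h1
    omega
  have hlevel : ∀ K (hK : K ∈ good) (hKn : Nat.card K = n + 1), mark K X' = L := by
    intro K hK hKn
    let o₀ : Quotient (levelSetoid good (n + 1)) :=
      Quotient.mk (levelSetoid good (n + 1)) ⟨K, hK, hKn⟩
    have hrel : (levelSetoid good (n + 1)).r (Quotient.out o₀) ⟨K, hK, hKn⟩ :=
      Quotient.exact (Quotient.out_eq o₀)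
    obtain ⟨g₀, hg₀⟩ := hrel
    have hg₀' : conjS g₀ (D o₀) = K := hg₀
    have hsingle : ∀ o, o ≠ o₀ → mark K (G ⧸ D o) = 0 := by
      intro o ho
      by_contra hne
      obtain ⟨g, hg⟩ := exists_le_conj_of_mark_ne_zero K (D o) hne
      have heq : K = conjS g (D o) := Subgroup.eq_of_le_of_card_ge hg (by
        rw [card_conjS, (hD o).2, hKn])
      apply ho
      have h1 : (levelSetoid good (n + 1)).r (Quotient.out o) ⟨K, hK, hKn⟩ := ⟨g, heq.symm⟩
      have h2 : Quotient.mk (levelSetoid good (n + 1)) (Quotient.out o) =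
          Quotient.mk (levelSetoid good (n + 1)) ⟨K, hK, hKn⟩ := Quotient.sound h1
      rw [Quotient.out_eq] at h2
      exact h2
    have hsum : ∑ o, m o * mark K (G ⧸ D o) = m o₀ * mark K (G ⧸ D o₀) :=
      Finset.sum_eq_single o₀ (fun o _ ho => by rw [hsingle o ho, mul_zero]) (by simp)
    have hselfmark : mark K (G ⧸ D o₀) = w (D o₀) := by
      rw [← hg₀', mark_conj, mark_self]
    have hXK : mark K X = mark (D o₀) X := by
      rw [← hg₀', mark_conj]
    rw [hmarkX', hsum, hselfmark, hXK]
    change N * mark (D o₀) X + (L - N * mark (D o₀) X) / w (D o₀) * w (D o₀) = L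
    rw [Nat.div_mul_cancel (hwL _)]
    have := hLle (D o₀)
    omega
  haveI hfinXs : Finite Xs := by
    change Finite (Σ _ : Fin N, X)
    infer_instance
  haveI hfinY : Finite Y := by
    change Finite (Σ o : Quotient (levelSetoid good (n + 1)), Σ _ : Fin (m o), G ⧸ D o)
    infer_instance
  haveI hfinX' : Finite X' := by
    change Finite (Xs ⊕ Y)
    infer_instance
  refine ⟨X', inferInstance, hfinX', ?_, ?_, ?_⟩
  · -- stabilizers
    rintro (⟨i, x⟩ | ⟨o, i, q⟩)
    · have : stabilizer G (Sum.inl ⟨i, x⟩ : Xs ⊕ Y) = stabilizer G x := by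
        ext g
        simp only [mem_stabilizer_iff, Sum.smul_inl, Sum.inl.injEq]
        change (⟨i, g • x⟩ : Xs) = ⟨i, x⟩ ↔ g • x = x
        constructor
        · intro h
          simpa using h
        · intro h
          rw [h]
      rw [show stabilizer G _ = stabilizer G x from this]
      exact hX x
    · have : stabilizer G (Sum.inr ⟨o, i, q⟩ : Xs ⊕ Y) = stabilizer G q := by
        ext g
        simp only [mem_stabilizer_iff, Sum.smul_inr, Sum.inr.injEq]
        change (⟨o, ⟨i, g • q⟩⟩ : Y) = ⟨o, ⟨i, q⟩⟩ ↔ g • q = q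
        constructor
        · intro h
          simpa using h
        · intro h
          rw [h]
      rw [show stabilizer G _ = stabilizer G q from this]
      obtain ⟨g, rfl⟩ := QuotientGroup.mk_surjective q
      rw [stabilizer_coe]
      exact hconj g _ (hD o).1
  · -- marks
    intro H₁ h₁ H₂ h₂ hcard hc₁
    by_cases hlev : Nat.card H₁ = n + 1
    · rw [hlevel H₁ h₁ hlev, hlevel H₂ h₂ (hcard ▸ hlev)]
    · have hlt₁ : n + 1 < Nat.card H₁ := by omega
      have hlt₂ : n + 1 < Nat.card H₂ := by omega
      rw [hmarkX', hmarkX', hm H₁ h₁ H₂ h₂ hcard hlt₁]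
      congr 1
      refine Finset.sum_congr rfl fun o _ => ?_
      rw [hhigh H₁ hlt₁ o, hhigh H₂ hlt₂ o]
  · intro H hH hc
    by_cases hlev : Nat.card H = n + 1
    · rw [hlevel H hH hlev]
      exact Nat.mul_pos hN0 (Nat.succ_pos _)
    · have hlt : n + 1 < Nat.card H := by omega
      rw [hmarkX']
      have := Nat.mul_pos hN0 (hpos H hH hlt)
      omega

/-- **Existence of a stable `G`-set.**  For a conjugation-closed family of subgroups there is a finite
`G`-set with stabilizers in the family and with marks on the family positive and depending only on the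
order of the subgroup. -/
theorem exists_stable_free (good : Set (Subgroup G))
    (hconj : ∀ (g : G) (H : Subgroup G), H ∈ good → conjS g H ∈ good) :
    ∃ (X : Type u) (_ : MulAction G X) (_ : Finite X), (∀ x : X, stabilizer G x ∈ good) ∧
      (∀ H₁ ∈ good, ∀ H₂ ∈ good, Nat.card H₁ = Nat.card H₂ → mark H₁ X = mark H₂ X) ∧
      (∀ H ∈ good, 0 < mark H X) := by
  have key : ∀ k : ℕ, k ≤ Nat.card G → ∃ (X : Type u) (_ : MulAction G X) (_ : Finite X),
      (∀ x : X, stabilizer G x ∈ good) ∧
      (∀ H₁ ∈ good, ∀ H₂ ∈ good, Nat.card H₁ = Nat.card H₂ → Nat.card G - k < Nat.card H₁ →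
        mark H₁ X = mark H₂ X) ∧
      (∀ H ∈ good, Nat.card G - k < Nat.card H → 0 < mark H X) := by
    intro k
    induction k with
    | zero =>
      intro _
      letI : MulAction G PEmpty.{u + 1} :=
        { smul := fun _ x => x, one_smul := fun x => x.elim, mul_smul := fun _ _ x => x.elim }
      refine ⟨PEmpty.{u + 1}, this, inferInstance, fun x => x.elim, ?_, ?_⟩
      · intro H₁ _ H₂ _ _ hc
        have := Subgroup.card_le_card_group H₁
        omega
      · intro H _ hc
        have := Subgroup.card_le_card_group H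
        omega
    | succ k ih =>
      intro hk
      obtain ⟨X, i1, i2, h1, h2, h3⟩ := ih (by omega)
      have hnk : Nat.card G - k = (Nat.card G - (k + 1)) + 1 := by omega
      rw [hnk] at h2 h3
      exact exists_step_free good hconj X _ h1 h2 h3
  obtain ⟨X, i1, i2, h1, h2, h3⟩ := key _ le_rfl
  refine ⟨X, i1, i2, h1, fun H₁ h₁ H₂ h₂ hc => h2 H₁ h₁ H₂ h₂ hc ?_, fun H hH => h3 H hH ?_⟩
  · have : 0 < Nat.card H₁ := Nat.card_pos
    omega
  · have : 0 < Nat.card H := Nat.card_pos
    omega

end Cfsg.Agent.Lib.Fusion.BurnsideFree
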