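/-
A Gaschütz type statement for crossed homomorphisms, proved with the transfer: let `d : G → A` be a crossed homomorphism into a finite
abelian `G`-group, `P` a subgroup of index prime to `|A|` and `W ≤ P` central in `G`, acting trivially on `A`, such that `d` on `P` has the
same values as on `W`, all fixed by `G`, and the elements of `P` killed by `d` form a class closed under conjugation in `G` inside `P`.
Then up to `W` the map `d` is a coboundary.
-/
import Mathlib

set_option autoImplicit false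
set_option linter.style.haveILetI false

namespace Cfsg.Agent.Lib.Fusion.Gasch

variable {G A : Type*} [Group G] [Finite G] [CommGroup A] [Finite A]

theorem exists_pow_inv {m : ℕ} (h : Nat.Coprime m (Nat.card A)) : ∃ n : ℕ, ∀ a : A, (a ^ m) ^ n = a := by
  by_cases h1 : Nat.card A = 1
  · refine ⟨1, fun a => ?_⟩
    haveI : Subsingleton A := (Nat.card_eq_one_iff_unique.1 h1).1
    exact Subsingleton.elim _ _
  have h2 : 1 < Nat.card A := by
    have := Nat.card_pos (α := A)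
    omega
  obtain ⟨n, hn⟩ := Nat.exists_mul_mod_eq_one_of_coprime h h2
  refine ⟨n, fun a => ?_⟩
  rw [← pow_mul, ← Nat.div_add_mod (m * n) (Nat.card A), hn.2, pow_add, pow_mul, pow_card_eq_one', one_pow, one_mul, pow_one]

theorem main (act : G → A → A) (act_mul : ∀ g x y, act g (x * y) = act g x * act g y)
    (act_comp : ∀ g h x, act (g * h) x = act g (act h x)) (act_one : ∀ x, act 1 x = x)
    (d : G → A) (hd : ∀ g h, d (g * h) = d g * act g (d h))
    (P W : Subgroup G) (hWP : W ≤ P) (hWc : ∀ w ∈ W, ∀ g, g * w = w * g)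
    (hfix : ∀ w ∈ W, ∀ g, act g (d w) = d w)
    (hPW : ∀ u ∈ P, ∃ w ∈ W, d u = d w)
    (hclosed : ∀ c ∈ P, d c = 1 → ∀ g, g * c * g⁻¹ ∈ P → d (g * c * g⁻¹) = 1)
    (hm : Nat.Coprime P.index (Nat.card A)) :
    ∃ ζ : A, (∀ c ∈ P, d c = 1 → act c ζ = ζ) ∧ ∀ g, ∃ w ∈ W, d (g * w) = ζ * (act g ζ)⁻¹ := by
  classical
  -- `act g` as a homomorphism
  let aH : G → (A →* A) := fun g => MonoidHom.mk' (act g) (act_mul g)
  have aH_apply : ∀ g x, aH g x = act g x := fun _ _ => rfl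
  have act_inv : ∀ g x, act g x⁻¹ = (act g x)⁻¹ := fun g x => (aH g).map_inv x
  have act_pow : ∀ g x (k : ℕ), act g (x ^ k) = (act g x) ^ k := fun g x k => (aH g).map_pow x k
  have act_1 : ∀ g, act g 1 = 1 := fun g => (aH g).map_one
  -- `d` on `P`
  have hfixP : ∀ u ∈ P, ∀ g, act g (d u) = d u := by
    intro u hu g
    obtain ⟨w, hw, he⟩ := hPW u hu
    rw [he]
    exact hfix w hw g
  let ϕ : P →* A := MonoidHom.mk' (fun u => d u) (fun a b => by
    show d (a * b) = d a * d b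
    rw [hd, hfixP b b.2])
  have ϕ_apply : ∀ (u : P), ϕ u = d u := fun _ => rfl
  haveI : P.FiniteIndex := inferInstance
  let T : G →* A := ϕ.transfer
  obtain ⟨n, hn⟩ := exists_pow_inv (A := A) hm
  -- values of `T`
  have hTr : ∀ g, T g ∈ ϕ.range := by
    intro g
    letI : Fintype (Quotient (MulAction.orbitRel (Subgroup.zpowers g) (G ⧸ P))) := Fintype.ofFinite _
    show ϕ.transfer g ∈ ϕ.range
    rw [MonoidHom.transfer_eq_prod_quotient_orbitRel_zpowers_quot]
    exact Subgroup.prod_mem _ (fun _ _ => ⟨_, rfl⟩)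
  have hfixR : ∀ a ∈ ϕ.range, ∀ g, act g a = a := by
    rintro _ ⟨u, rfl⟩ g
    exact hfixP u u.2 g
  let r : G → A := fun g => (T g) ^ n
  have hrr : ∀ g, r g ∈ ϕ.range := fun g => pow_mem (hTr g) n
  have r_mul : ∀ g h, r (g * h) = r g * r h := by
    intro g h
    show (T (g * h)) ^ n = (T g) ^ n * (T h) ^ n
    rw [map_mul, mul_pow]
  -- `T` on `W`
  have hrW : ∀ w ∈ W, r w = d w := by
    intro w hw
    have key : ∀ (k : ℕ) (g₀ : G), g₀⁻¹ * w ^ k * g₀ ∈ P → g₀⁻¹ * w ^ k * g₀ = w ^ k := by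
      intro k g₀ _
      have hc : g₀⁻¹ * w ^ k = w ^ k * g₀⁻¹ := (Commute.pow_right (show Commute g₀⁻¹ w from hWc w hw g₀⁻¹) k)
      rw [hc, inv_mul_cancel_right]
    have h1 : T w = ϕ ⟨w ^ P.index, MonoidHom.transfer_eq_pow_aux w key⟩ := MonoidHom.transfer_eq_pow ϕ w key
    have h2 : (⟨w ^ P.index, MonoidHom.transfer_eq_pow_aux w key⟩ : P) = (⟨w, hWP hw⟩ : P) ^ P.index := rfl
    show (T w) ^ n = d w
    rw [h1, h2, map_pow, hn, ϕ_apply]
  -- `T` on the kernel
  have hrC : ∀ c ∈ P, d c = 1 → r c = 1 := by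
    intro c hc hdc
    letI : Fintype (Quotient (MulAction.orbitRel (Subgroup.zpowers c) (G ⧸ P))) := Fintype.ofFinite _
    have h1 : T c = 1 := by
      show ϕ.transfer c = 1
      rw [MonoidHom.transfer_eq_prod_quotient_orbitRel_zpowers_quot]
      refine Finset.prod_eq_one (fun q _ => ?_)
      rw [ϕ_apply]
      have hck : ∀ k : ℕ, c ^ k ∈ P := fun k => pow_mem hc k
      have hdk : ∀ k : ℕ, d (c ^ k) = 1 := by
        intro k
        have e : ϕ ((⟨c, hc⟩ : P) ^ k) = (ϕ ⟨c, hc⟩) ^ k := map_pow _ _ _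
        have e2 : ϕ ⟨c, hc⟩ = 1 := hdc
        rw [e2, one_pow] at e
        exact e
      have := hclosed _ (hck (Function.minimalPeriod (c • ·) q.out)) (hdk _) (q.out.out)⁻¹ (by
        simpa using QuotientGroup.out_conj_pow_minimalPeriod_mem P c q.out)
      simpa using this
    show (T c) ^ n = 1
    rw [h1, one_pow]
  -- the corrected crossed homomorphism
  let f : G → A := fun g => d g * (r g)⁻¹
  have f_mul : ∀ g h, f (g * h) = f g * act g (f h) := by
    intro g h
    show d (g * h) * (r (g * h))⁻¹ = d g * (r g)⁻¹ * act g (d h * (r h)⁻¹)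
    rw [hd, r_mul, act_mul, act_inv, hfixR _ (hrr h) g]
    simp only [mul_inv]
    ac_rfl
  have f_P : ∀ u ∈ P, f u = 1 := by
    intro u hu
    obtain ⟨w, hw, he⟩ := hPW u hu
    have hc : u * w⁻¹ ∈ P := P.mul_mem hu (P.inv_mem (hWP hw))
    have hdc : d (u * w⁻¹) = 1 := by
      have e1 : ϕ (⟨u, hu⟩ * (⟨w, hWP hw⟩ : P)⁻¹) = ϕ ⟨u, hu⟩ * (ϕ ⟨w, hWP hw⟩)⁻¹ := by
        rw [map_mul, map_inv]
      have e2 : ϕ ⟨u, hu⟩ = ϕ ⟨w, hWP hw⟩ := he
      rw [e2, mul_inv_cancel] at e1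
      exact e1
    have h1 := hrC _ hc hdc
    have h2 : r u = r (u * w⁻¹) * r w := by
      rw [← r_mul]
      simp
    rw [h1, one_mul, hrW w hw, ← he] at h2
    show d u * (r u)⁻¹ = 1
    rw [h2, mul_inv_cancel]
  have f_coset : ∀ g (u : G), u ∈ P → f (g * u) = f g := by
    intro g u hu
    rw [f_mul, f_P u hu, act_1, mul_one]
  -- the average
  letI : Fintype (G ⧸ P) := Fintype.ofFinite _
  let ζ₀ : A := ∏ q : G ⧸ P, f q.out
  have hq : ∀ (h : G) (q : G ⧸ P), f (h * q.out) = f (h • q).out := by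
    intro h q
    have e : ((h * q.out : G) : G ⧸ P) = h • q := by
      conv_rhs => rw [← q.out_eq']
      rfl
    have h1 : ((h • q).out : G ⧸ P) = ((h * q.out : G) : G ⧸ P) := by
      rw [e]
      exact (h • q).out_eq'
    have h2 := QuotientGroup.eq.1 h1
    have h3 := f_coset (h • q).out _ h2
    rw [← h3]
    congr 1
    group
  have hact : ∀ h, act h ζ₀ * (f h) ^ P.index = ζ₀ := by
    intro h
    have e1 : act h ζ₀ = ∏ q : G ⧸ P, act h (f q.out) := map_prod (aH h) _ _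
    have e2 : ∀ q : G ⧸ P, act h (f q.out) * f h = f (h • q).out := by
      intro q
      rw [← hq, f_mul, mul_comm]
    have e3 : (∏ q : G ⧸ P, act h (f q.out)) * (f h) ^ (Fintype.card (G ⧸ P)) = ∏ q : G ⧸ P, f (h • q).out := by
      rw [← Finset.card_univ, ← Finset.prod_const, ← Finset.prod_mul_distrib]
      exact Finset.prod_congr rfl (fun q _ => e2 q)
    have e4 : ∏ q : G ⧸ P, f (h • q).out = ζ₀ :=
      Equiv.prod_comp (MulAction.toPerm h : Equiv.Perm (G ⧸ P)) (fun q => f q.out)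
    have e5 : P.index = Fintype.card (G ⧸ P) := by
      rw [Subgroup.index, Nat.card_eq_fintype_card]
    rw [e1, e5, e3, e4]
  let ζ : A := ζ₀ ^ n
  have hf : ∀ h, f h = ζ * (act h ζ)⁻¹ := by
    intro h
    have e1 : act h ζ = (act h ζ₀) ^ n := act_pow _ _ _
    have e2 : ζ₀ * (act h ζ₀)⁻¹ = (f h) ^ P.index := by
      nth_rewrite 1 [← hact h]
      rw [mul_comm (act h ζ₀), mul_assoc, mul_inv_cancel, mul_one]
    rw [e1]
    show f h = ζ₀ ^ n * ((act h ζ₀) ^ n)⁻¹
    rw [← inv_pow, ← mul_pow, e2, hn]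
  refine ⟨ζ, fun c hc hdc => ?_, fun g => ?_⟩
  · have h1 : f c = 1 := f_P c hc
    rw [hf c] at h1
    exact (mul_inv_eq_one.1 h1).symm
  · have h1 : (r g)⁻¹ ∈ ϕ.range := inv_mem (hrr g)
    obtain ⟨u, hu⟩ := h1
    obtain ⟨w, hw, he⟩ := hPW u u.2
    refine ⟨w, hw, ?_⟩
    rw [hd, hfix w hw g, ← he, ← hf g]
    show d g * d u = d g * (r g)⁻¹
    rw [← hu]
    rfl

end Cfsg.Agent.Lib.Fusion.Gasch
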