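/-
`C_S(T)` and `Z(T) C_S(E)`: the local step at `O_p(E)`, when `O_p(E)` is centric in `E`. An element `x` of `C_S(T)` can be corrected by an
element `ζ` of `Z(T)` so that `x ζ` is fixed by good lifts of all automorphisms in `Aut_E(O)`.
-/
import Mathlib
import Cfsg.Agent.Lib.Fusion.Gasch
import Cfsg.Agent.Lib.Fusion.CLiftG2

set_option autoImplicit false
set_option linter.style.haveILetI false
set_option linter.unusedSectionVars false

namespace Cfsg.Agent.Lib.Fusion.CenFix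

open Cfsg Cfsg.FusionSystem Cfsg.Agent.Lib.Fusion.Basic Cfsg.Agent.Lib.Fusion.Saturated
open Cfsg.Agent.Lib.Fusion.GoodLift
open Cfsg.Agent.Lib.Fusion.CLiftG
open Cfsg.Agent.Lib.Fusion.NormalPair (stronglyClosed_apply)
open Cfsg.Agent.Lib.Fusion.NormalCR
open Cfsg.Agent.Lib.Fusion.ModelLocal (conj_eq_of_isNormal)

variable {Ω : Type*} [Group Ω] {S T : Subgroup Ω} {F : FusionSystem S} {E : FusionSystem T}
variable [Finite S] {p : ℕ} [hp : Fact p.Prime] {O : Subgroup Ω}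

section Basic

omit [Finite S] hp in
/-- The value of a good lift on `O`. -/
theorem good_val {ρ : MulAut ↥(hat S O)} {α : MulAut O} (h : IsGood F O ρ α) (z : O) :
    ρ (Subgroup.inclusion (le_hat O) z) = Subgroup.inclusion (le_hat O) (α z) := Subtype.ext (h.res z)

omit [Finite S] hp in
theorem good_zc {ρ : MulAut ↥(hat S O)} {α : MulAut O} (h : IsGood F O ρ α) {z : Ω} (hz : z ∈ Zc O) :
    ((ρ ⟨z, le_hat O (Zc.left hz)⟩ : ↥(hat S O)) : Ω) ∈ Zc O := by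
  have h1 := h.res ⟨z, Zc.left hz⟩
  have h2 := map_zc α (z := ⟨z, Zc.left hz⟩) hz
  have e : (⟨z, le_hat O (Zc.left hz)⟩ : ↥(hat S O)) = Subgroup.inclusion (le_hat O) ⟨z, Zc.left hz⟩ := rfl
  rw [e, h1]
  exact h2

omit [Finite S] hp in
/-- Multiplying a good lift out at an element of `C_S(O)`. -/
theorem good_mul_apply {ρ σ : MulAut ↥(hat S O)} {α β : MulAut O} (hρ : IsGood F O ρ α) (hσ : IsGood F O σ β) {x : Ω}
    (hx : x ∈ centralizerIn S O) :
    x⁻¹ * (((ρ * σ) ⟨x, cen_le_hat O hx⟩ : ↥(hat S O)) : Ω) =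
      (x⁻¹ * ((ρ ⟨x, cen_le_hat O hx⟩ : ↥(hat S O)) : Ω)) *
        ((ρ ⟨x⁻¹ * ((σ ⟨x, cen_le_hat O hx⟩ : ↥(hat S O)) : Ω), le_hat O (Zc.left (hσ.cen ⟨x, cen_le_hat O hx⟩ hx))⟩ :
          ↥(hat S O)) : Ω) := by
  have e : σ ⟨x, cen_le_hat O hx⟩ = ⟨x, cen_le_hat O hx⟩ *
      ⟨x⁻¹ * ((σ ⟨x, cen_le_hat O hx⟩ : ↥(hat S O)) : Ω), le_hat O (Zc.left (hσ.cen ⟨x, cen_le_hat O hx⟩ hx))⟩ := by
    apply Subtype.ext
    show _ = x * (x⁻¹ * ((σ ⟨x, cen_le_hat O hx⟩ : ↥(hat S O)) : Ω))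
    group
  rw [MulAut.mul_apply]
  conv_lhs => rw [e, map_mul]
  simp only [Subgroup.coe_mul, mul_assoc]

end Basic

section Fix

variable (hS : IsPGroup p S) (hF : F.IsSaturated p) (hO : F.IsNormal O)

include hS hF hO

theorem fc_of_normal : F.IsFullyCentralized O :=
  (fullyNormalized_props hS hF (Cfsg.Agent.Lib.Fusion.GoodLift.isFullyNormalized_of_stronglyClosed
    (IsNormal.stronglyClosed hO))).1

/-- A good lift trivial on `O` commutes with every good lift. -/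
theorem good_fix {ρ w : MulAut ↥(hat S O)} {α : MulAut O} (hρ : IsGood F O ρ α) (hw : IsGood F O w 1) {c : Ω}
    (hc : c ∈ centralizerIn S O) :
    ((α ⟨c⁻¹ * ((w ⟨c, cen_le_hat O hc⟩ : ↥(hat S O)) : Ω), Zc.left (hw.cen ⟨c, cen_le_hat O hc⟩ hc)⟩ : O) : Ω) =
      c⁻¹ * ((w ⟨c, cen_le_hat O hc⟩ : ↥(hat S O)) : Ω) := by
  have h1 := cl_fn hS hF (fc_of_normal hS hF hO) hρ hc (k := resLift w (sup_zp_le hc))
    (resLift_mem hO.1 hw.mem _) (fun x => hw.res x) (w := c⁻¹ * ((w ⟨c, cen_le_hat O hc⟩ : ↥(hat S O)) : Ω))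
    (hw.cen ⟨c, cen_le_hat O hc⟩ hc) (by
      show ((w ⟨c, cen_le_hat O hc⟩ : ↥(hat S O)) : Ω) = c * (c⁻¹ * ((w ⟨c, cen_le_hat O hc⟩ : ↥(hat S O)) : Ω))
      group)
  exact h1

theorem good_comm {ρ w : MulAut ↥(hat S O)} {α : MulAut O} (hρ : IsGood F O ρ α) (hw : IsGood F O w 1) :
    ρ * w = w * ρ := by
  have key : (ρ * w).toMonoidHom = (w * ρ).toMonoidHom := by
    refine hom_ext_hat (fun x => ?_) (fun c => ?_)
    · apply Subtype.ext
      show ((ρ (w (Subgroup.inclusion (le_hat O) x)) : ↥(hat S O)) : Ω) = ((w (ρ (Subgroup.inclusion (le_hat O) x)) : ↥(hat S O)) : Ω)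
      have h1 : w (Subgroup.inclusion (le_hat O) x) = Subgroup.inclusion (le_hat O) x := good_val hw x
      have h2 : w (Subgroup.inclusion (le_hat O) (α x)) = Subgroup.inclusion (le_hat O) (α x) := good_val hw (α x)
      rw [h1, good_val hρ x, h2]
    · have hc := c.2
      have e1 : Subgroup.inclusion (cen_le_hat O) c = (⟨c, cen_le_hat O hc⟩ : ↥(hat S O)) := rfl
      apply Subtype.ext
      show ((ρ (w (Subgroup.inclusion (cen_le_hat O) c)) : ↥(hat S O)) : Ω) = ((w (ρ (Subgroup.inclusion (cen_le_hat O) c)) : ↥(hat S O)) : Ω)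
      rw [e1]
      have hew := hw.cen ⟨c, cen_le_hat O hc⟩ hc
      have hez := hρ.cen ⟨c, cen_le_hat O hc⟩ hc
      have h1 : w ⟨c, cen_le_hat O hc⟩ = ⟨c, cen_le_hat O hc⟩ * Subgroup.inclusion (le_hat O)
          ⟨(c : Ω)⁻¹ * ((w ⟨c, cen_le_hat O hc⟩ : ↥(hat S O)) : Ω), Zc.left hew⟩ := hw.apply_eq _ hc
      have h2 : ρ ⟨c, cen_le_hat O hc⟩ = ⟨c, cen_le_hat O hc⟩ * Subgroup.inclusion (le_hat O)
          ⟨(c : Ω)⁻¹ * ((ρ ⟨c, cen_le_hat O hc⟩ : ↥(hat S O)) : Ω), Zc.left hez⟩ := hρ.apply_eq _ hc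
      have hfix := good_fix hS hF hO hρ hw hc
      conv_lhs => rw [h1, map_mul, good_val hρ, h2]
      conv_rhs => rw [h2, map_mul, good_val hw, h1]
      simp only [Subgroup.coe_mul, Subgroup.coe_inclusion, mul_assoc]
      rw [hfix]
      have hcomm := Zc.comm hez (Zc.left hew)
      simp only [MulAut.one_apply]
      congr 1
      simpa [mul_assoc] using hcomm
  exact MulEquiv.toMonoidHom_injective key

end Fix

section Tau

omit [Finite S] hp in
/-- Conjugation by `t ∈ N_T(O)` is a good lift, if `C_T(O) ≤ O`. -/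
theorem isGood_normConj (hTsc : F.StronglyClosed T) (hOS : O ≤ S) (hC : centralizerIn T O ≤ O) {t : Ω} (ht : t ∈ T)
    (htO : t ∈ Subgroup.normalizer (O : Set Ω)) :
    IsGood F O (normConj t (mem_normalizer_hat (hTsc.1 ht) htO)) (normConj t htO) := by
  have htS : t ∈ S := hTsc.1 ht
  have hN := mem_normalizer_hat (S := S) htS htO
  refine ⟨autInducedBy_le_autGroup (hat_le hOS) (normConj_mem_autInducedBy htS hN), fun x => rfl, fun c hc => ?_⟩
  show (c : Ω)⁻¹ * (t * c * t⁻¹) ∈ Zc O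
  have h1 : (c : Ω)⁻¹ * (t * c * t⁻¹) ∈ centralizerIn T O := by
    refine ⟨?_, ?_⟩
    · have h2 : (c : Ω)⁻¹ * t * c ∈ T := by
        have := StronglyClosed.conj_mem hTsc (S.inv_mem hc.1) ht
        simpa using this
      have e : (c : Ω)⁻¹ * (t * c * t⁻¹) = ((c : Ω)⁻¹ * t * c) * t⁻¹ := by group
      rw [e]
      exact T.mul_mem h2 (T.inv_mem ht)
    · refine Subgroup.mul_mem _ (Subgroup.inv_mem _ hc.2) ?_
      exact (conj_mem_cen htS htO hc).2
  exact Subgroup.mem_inf.2 ⟨hC h1, h1.2⟩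

omit hp in
theorem hat_fn (hO : F.IsNormal O) : F.IsFullyNormalized (hat S O) := by
  have hHS := hat_le (S := S) hO.1
  have hsn := StronglyClosed.le_normalizer (IsNormal.stronglyClosed hO)
  refine ⟨hHS, fun Q _ => ?_⟩
  have e : normalizerIn S (hat S O) = S :=
    inf_eq_left.2 (fun s hs => mem_normalizer_hat hs (hsn hs))
  rw [e]
  exact card_le_S normalizerIn_le

/-- **The key lemma on conjugates of `c_t`.** -/
theorem exists_tau (hS : IsPGroup p S) (hF : F.IsSaturated p) (hTsc : F.StronglyClosed T) (hO : F.IsNormal O)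
    (hC : centralizerIn T O ≤ O) {b v : MulAut ↥(hat S O)} (hb : b ∈ F.autGroup (hat S O)) {t t' : Ω} (ht : t ∈ T)
    (ht' : t' ∈ T) (htO : t ∈ Subgroup.normalizer (O : Set Ω)) (htO' : t' ∈ Subgroup.normalizer (O : Set Ω))
    (hv : v = b * normConj t (mem_normalizer_hat (hTsc.1 ht) htO) * b⁻¹) {α : MulAut O} (hgood : IsGood F O v α)
    (hvO : ∀ z : O, ((v (Subgroup.inclusion (le_hat O) z) : ↥(hat S O)) : Ω) = t' * z * t'⁻¹) :
    ∃ τ ∈ T, ∀ u : ↥(hat S O), ((v u : ↥(hat S O)) : Ω) = τ * u * τ⁻¹ := by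
  classical
  have hOS : O ≤ S := hO.1
  have hHS : hat S O ≤ S := hat_le hOS
  haveI : Finite ↥(hat S O) := finite_of_le hHS
  have hFN := hat_fn (S := S) hO
  have htS := hTsc.1 ht
  have htS' := hTsc.1 ht'
  set n' := normConj t' (mem_normalizer_hat htS' htO') with hn'
  have hg' := isGood_normConj hTsc hOS hC ht' htO'
  -- the difference is conjugation by an element of `S`
  have hδm : n'⁻¹ * v ∈ F.autGroup (hat S O) := Subgroup.mul_mem _ (Subgroup.inv_mem _ hg'.mem) hgood.mem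
  have hδΔ : (⟨n'⁻¹ * v, hδm⟩ : F.autGroup (hat S O)) ∈ DeltaK F O (hat S O) := by
    refine ⟨fun x hx => ?_, fun x => ?_⟩
    · show n'⁻¹ (v x) = x
      have e1 : ((v x : ↥(hat S O)) : Ω) = t' * x * t'⁻¹ := hvO ⟨x, hx⟩
      have e2 : v x = n' x := Subtype.ext e1
      rw [e2]
      simp
    · exact (TrivMod.mul (TrivMod.inv (Cfsg.Agent.Lib.Fusion.CLiftG.IsGood.trivMod hg')) (Cfsg.Agent.Lib.Fusion.CLiftG.IsGood.trivMod hgood)) x
  obtain ⟨-, R, hR⟩ := (fullyNormalized_props hS hF hFN).2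
  haveI : Finite (F.autGroup (hat S O)) := finite_autGroup hHS
  haveI := DeltaK_normal (F := F) (Q := hat S O) (IsNormal.stronglyClosed hO) hHS
  have hΔR := (isPGroup_DeltaK (F := F) (T := O) hS hHS).le_sylow_of_normal R
  have h1 := hΔR hδΔ
  rw [hR, Subgroup.mem_subgroupOf] at h1
  obtain ⟨y, hyS, hy⟩ := mem_autInducedBy_iff.1 h1
  -- `v` is conjugation by `t' y`
  have hvs : ∀ u : ↥(hat S O), ((v u : ↥(hat S O)) : Ω) = (t' * y) * u * (t' * y)⁻¹ := by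
    intro u
    have e1 : v u = n' ((n'⁻¹ * v) u) := by simp
    rw [e1]
    show t' * (((n'⁻¹ * v) u : ↥(hat S O)) : Ω) * t'⁻¹ = _
    rw [hy u]
    group
  -- extension
  set b' : ↥(hat S O) →* Ω := (hat S O).subtype.comp b.toMonoidHom with hb'
  have hb'm : b' ∈ F.Hom (hat S O) := autGroup_mem_hom hHS hb
  have hb'r : b'.range = hat S O := by
    ext y'
    constructor
    · rintro ⟨z, rfl⟩
      exact (b z).2
    · intro hy'
      exact ⟨b⁻¹ ⟨y', hy'⟩, by simp [hb']⟩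
  have hN := mem_normalizer_hat (S := S) htS htO
  have htX : t ∈ extender S (hat S O) b' := by
    refine extender_closure_mem htS hN (S.mul_mem htS' hyS) (fun u hu => ?_)
    have e1 : (⟨t * u * t⁻¹, hu⟩ : ↥(hat S O)) = normConj t hN u := rfl
    show ((b ⟨t * u * t⁻¹, hu⟩ : ↥(hat S O)) : Ω) = _
    rw [e1]
    have e2 : b (normConj t hN u) = v (b u) := by
      rw [hv]
      simp [MulAut.mul_apply]
    rw [e2, hvs]
    rfl
  obtain ⟨ψ, hψ, hψe⟩ := (fullyNormalized_receptive hS hF hFN).2 _ b' hb'm hb'r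
  have hle : hat S O ≤ extender S (hat S O) b' := sup_centralizerIn_le_extender hHS (map_mem_S hb'm) |>.trans' le_sup_left
  refine ⟨ψ ⟨t, htX⟩, stronglyClosed_apply hTsc hψ _ ht, fun u => ?_⟩
  set u' : ↥(hat S O) := b⁻¹ u with hu'
  have hbu : b u' = u := by simp [hu']
  have hm : t * (u' : Ω) * t⁻¹ ∈ hat S O := (normConj t hN u').2
  have e1 : ψ ⟨t * u' * t⁻¹, hle hm⟩ = b' ⟨t * u' * t⁻¹, hm⟩ := hψe _ hm _
  have e2 : (⟨t * u' * t⁻¹, hle hm⟩ : extender S (hat S O) b') = ⟨t, htX⟩ * ⟨u', hle u'.2⟩ * (⟨t, htX⟩)⁻¹ := rfl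
  rw [e2, map_mul, map_mul, map_inv] at e1
  have e3 : ψ ⟨u', hle u'.2⟩ = u := by
    have := hψe (u' : Ω) u'.2 (hle u'.2)
    rw [this]
    show ((b u' : ↥(hat S O)) : Ω) = u
    rw [hbu]
  rw [e3] at e1
  have e6 : b (normConj t hN u') = v (b u') := by
    rw [hv]
    simp [MulAut.mul_apply]
  have e7 : b' ⟨t * u' * t⁻¹, hm⟩ = ((v u : ↥(hat S O)) : Ω) := by
    show ((b (normConj t hN u') : ↥(hat S O)) : Ω) = _
    rw [e6, hbu]
  rw [← e7, ← e1]

end Tau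

section Zeta

/-- The group of good lifts of `Aut_E(O)`. -/
def GG (F : FusionSystem S) (E : FusionSystem T) (O : Subgroup Ω) (hOS : O ≤ S) : Subgroup (MulAut ↥(hat S O)) where
  carrier := {ρ | ∃ α ∈ E.autGroup O, IsGood F O ρ α}
  mul_mem' := by
    rintro a b ⟨α, hα, h1⟩ ⟨β, hβ, h2⟩
    exact ⟨α * β, Subgroup.mul_mem _ hα hβ, h1.mul h2⟩
  one_mem' := ⟨1, Subgroup.one_mem _, isGood_one⟩
  inv_mem' := by
    rintro a ⟨α, hα, h1⟩
    exact ⟨α⁻¹, Subgroup.inv_mem _ hα, h1.inv hOS⟩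

theorem exists_zeta (hS : IsPGroup p S) (hF : F.IsSaturated p) (hE : E.IsNormalIn F p) (hO : F.IsNormal O) (hOT : O ≤ T)
    (hOc : E.IsCentric O) {x : Ω} (hx : x ∈ centralizerIn S T) :
    ∃ ζ ∈ Zc O, (∀ t ∈ T, t * ζ = ζ * t) ∧ ∀ α ∈ E.autGroup O, ∃ ρ, IsGood F O ρ α ∧
      ∀ h : x * ζ ∈ centralizerIn S O, ρ ⟨x * ζ, cen_le_hat O h⟩ = ⟨x * ζ, cen_le_hat O h⟩ := by
  classical
  have hOS : O ≤ S := hO.1
  obtain ⟨hEs, -, hinv⟩ := hE.1
  have hTsc := hinv.2.1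
  have hTS : T ≤ S := hTsc.1
  haveI hfT : Finite T := finite_of_le hTS
  have hTp : IsPGroup p T := isPGroup_of_le hS hTS
  have hC : centralizerIn T O ≤ O := hOc.2 O (Basic.IsConj.refl hOT)
  have hsn := StronglyClosed.le_normalizer (IsNormal.stronglyClosed hO)
  have hxO : x ∈ centralizerIn S O := ⟨hx.1, Subgroup.centralizer_le hOT hx.2⟩
  have hxH : x ∈ hat S O := cen_le_hat O hxO
  have hHS : hat S O ≤ S := hat_le hOS
  haveI hfH : Finite ↥(hat S O) := finite_of_le hHS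
  haveI hfO : Finite O := finite_of_le hOS
  haveI hfG : Finite (MulAut ↥(hat S O)) := inferInstance
  have hZS : Zc O ≤ S := inf_le_left.trans hOS
  haveI hfA : Finite ↥(Zc O) := finite_of_le hZS
  letI cA : CommGroup ↥(Zc O) :=
    { (inferInstance : Group ↥(Zc O)) with
      mul_comm := fun a b => Subtype.ext (Zc.comm a.2 (Zc.left b.2)) }
  let G := ↥(GG F E O hOS)
  -- the restriction
  let rA : G → MulAut O := fun ρ => Classical.choose ρ.2
  have rA_mem : ∀ ρ : G, rA ρ ∈ E.autGroup O := fun ρ => (Classical.choose_spec ρ.2).1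
  have rA_good : ∀ ρ : G, IsGood F O ρ.1 (rA ρ) := fun ρ => (Classical.choose_spec ρ.2).2
  have r_uniq : ∀ (ρ : G) {α : MulAut O}, IsGood F O ρ.1 α → rA ρ = α := by
    intro ρ α h
    ext z
    have h1 := (rA_good ρ).res z
    have h2 := h.res z
    exact h1.symm.trans h2
  let π : G →* E.autGroup O := MonoidHom.mk' (fun ρ => ⟨rA ρ, rA_mem ρ⟩) (fun a b => by
    apply Subtype.ext
    exact r_uniq (a * b) ((rA_good a).mul (rA_good b)))
  have π_apply : ∀ (ρ : G) (z : O), ((ρ.1 (Subgroup.inclusion (le_hat O) z) : ↥(hat S O)) : Ω) = (((π ρ : E.autGroup O) : MulAut O) z : O) :=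
    fun ρ z => (rA_good ρ).res z
  have π_surj : Function.Surjective π := by
    rintro ⟨α, hα⟩
    obtain ⟨β, hβ⟩ := exists_good_all hS hF hE O hOc α hα
    exact ⟨⟨β, α, hα, hβ⟩, Subtype.ext (r_uniq _ hβ)⟩
  -- the Sylow subgroup
  have hEFN : E.IsFullyNormalized O := isFullyNormalized_sub hS hF hinv hOT
    (Cfsg.Agent.Lib.Fusion.GoodLift.isFullyNormalized_of_stronglyClosed (IsNormal.stronglyClosed hO))
  obtain ⟨-, R, hR⟩ := (fullyNormalized_props hTp hEs hEFN).2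
  haveI hfK : Finite (E.autGroup O) := finite_autGroup hOT
  let P : Subgroup G := (R : Subgroup (E.autGroup O)).comap π
  have mem_P : ∀ ρ : G, ρ ∈ P ↔ ∃ t ∈ T, ∀ z : O, ((ρ.1 (Subgroup.inclusion (le_hat O) z) : ↥(hat S O)) : Ω) = t * z * t⁻¹ := by
    intro ρ
    show π ρ ∈ (R : Subgroup (E.autGroup O)) ↔ _
    rw [hR, Subgroup.mem_subgroupOf, mem_autInducedBy_iff]
    refine exists_congr fun t => and_congr_right fun _ => forall_congr' fun z => ?_
    rw [π_apply]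
  -- `W`
  let W : Subgroup G :=
    { carrier := {ρ | ∀ z : O, ρ.1 (Subgroup.inclusion (le_hat O) z) = Subgroup.inclusion (le_hat O) z}
      mul_mem' := by
        intro a b ha hb z
        show a.1 (b.1 (Subgroup.inclusion (le_hat O) z)) = Subgroup.inclusion (le_hat O) z
        rw [hb z, ha z]
      one_mem' := fun z => rfl
      inv_mem' := by
        intro a ha z
        show a.1⁻¹ (Subgroup.inclusion (le_hat O) z) = Subgroup.inclusion (le_hat O) z
        have h1 := ha z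
        nth_rewrite 1 [← h1]
        simp }
  have W_good : ∀ w ∈ W, IsGood F O w.1 1 := by
    intro w hw
    obtain ⟨α, -, h⟩ := w.2
    have e : α = 1 := by
      ext z
      have h1 := h.res z
      have h2 := congrArg (fun t : ↥(hat S O) => (t : Ω)) (hw z)
      exact h1.symm.trans h2
    rwa [e] at h
  have hWP : W ≤ P := by
    intro w hw
    refine (mem_P w).2 ⟨1, T.one_mem, fun z => ?_⟩
    have h2 := congrArg (fun t : ↥(hat S O) => (t : Ω)) (hw z)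
    simpa using h2
  have hWc : ∀ w ∈ W, ∀ g : G, g * w = w * g := by
    intro w hw g
    exact Subtype.ext (good_comm hS hF hO (rA_good g) (W_good w hw))
  let d : G → ↥(Zc O) := fun ρ => ⟨x⁻¹ * ((ρ.1 ⟨x, hxH⟩ : ↥(hat S O)) : Ω), (rA_good ρ).cen ⟨x, hxH⟩ hxO⟩
  let act : G → ↥(Zc O) → ↥(Zc O) := fun ρ z =>
    ⟨((ρ.1 ⟨z, le_hat O (Zc.left z.2)⟩ : ↥(hat S O)) : Ω), good_zc (rA_good ρ) z.2⟩
  have act_mul : ∀ g a b, act g (a * b) = act g a * act g b := by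
    intro g a b
    apply Subtype.ext
    show ((g.1 (⟨a, le_hat O (Zc.left a.2)⟩ * ⟨b, le_hat O (Zc.left b.2)⟩) : ↥(hat S O)) : Ω) = _
    rw [map_mul]
    rfl
  have act_comp : ∀ g h a, act (g * h) a = act g (act h a) := fun _ _ _ => rfl
  have act_one : ∀ a, act 1 a = a := fun _ => rfl
  have hd : ∀ g h, d (g * h) = d g * act g (d h) := by
    intro g h
    apply Subtype.ext
    exact good_mul_apply (rA_good g) (rA_good h) hxO
  have hfix : ∀ w ∈ W, ∀ g, act g (d w) = d w := by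
    intro w hw g
    apply Subtype.ext
    have h1 := good_fix hS hF hO (rA_good g) (W_good w hw) hxO
    have h2 := (rA_good g).res ⟨x⁻¹ * ((w.1 ⟨x, cen_le_hat O hxO⟩ : ↥(hat S O)) : Ω), Zc.left ((W_good w hw).cen ⟨x, cen_le_hat O hxO⟩ hxO)⟩
    exact h2.trans h1
  -- conjugations
  have htN : ∀ {t : Ω}, t ∈ T → t ∈ Subgroup.normalizer (O : Set Ω) := fun ht => hsn (hTS ht)
  let cj : ∀ t : Ω, t ∈ T → G := fun t ht => ⟨normConj t (mem_normalizer_hat (hTS ht) (htN ht)), normConj t (htN ht),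
    autInducedBy_le_autGroup hOT (normConj_mem_autInducedBy ht (htN ht)), isGood_normConj hTsc hOS hC ht (htN ht)⟩
  have d_cj : ∀ {t : Ω} (ht : t ∈ T), d (cj t ht) = 1 := by
    intro t ht
    apply Subtype.ext
    show x⁻¹ * (t * x * t⁻¹) = 1
    have hc : x * t = t * x := (Subgroup.mem_centralizer_iff.1 hx.2 t ht).symm
    rw [← hc]
    group
  have cj_P : ∀ {t : Ω} (ht : t ∈ T), cj t ht ∈ P := fun {t} ht => (mem_P _).2 ⟨t, ht, fun _ => rfl⟩
  -- decomposition of `P`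
  have dec : ∀ (u : G) {t : Ω} (ht : t ∈ T), (∀ z : O, ((u.1 (Subgroup.inclusion (le_hat O) z) : ↥(hat S O)) : Ω) = t * z * t⁻¹) →
      (cj t ht)⁻¹ * u ∈ W := by
    intro u t ht hu z
    show ((cj t ht).1)⁻¹ (u.1 (Subgroup.inclusion (le_hat O) z)) = Subgroup.inclusion (le_hat O) z
    have e : u.1 (Subgroup.inclusion (le_hat O) z) = (cj t ht).1 (Subgroup.inclusion (le_hat O) z) := Subtype.ext (hu z)
    rw [e]
    simp
  have dec_d : ∀ (u : G) {t : Ω} (ht : t ∈ T), (cj t ht)⁻¹ * u ∈ W → d u = d ((cj t ht)⁻¹ * u) := by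
    intro u t ht hw
    have e : u = cj t ht * ((cj t ht)⁻¹ * u) := (mul_inv_cancel_left _ _).symm
    conv_lhs => rw [e]
    rw [hd, d_cj ht, one_mul, hfix _ hw]
  have hPW : ∀ u ∈ P, ∃ w ∈ W, d u = d w := by
    intro u hu
    obtain ⟨t, ht, htz⟩ := (mem_P u).1 hu
    have hw := dec u ht htz
    exact ⟨_, hw, dec_d u ht hw⟩
  have hclosed : ∀ c ∈ P, d c = 1 → ∀ g, g * c * g⁻¹ ∈ P → d (g * c * g⁻¹) = 1 := by
    intro c hc hdc g hy
    obtain ⟨t, ht, htz⟩ := (mem_P c).1 hc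
    have hw := dec c ht htz
    have hdw := dec_d c ht hw
    rw [hdc] at hdw
    set w := (cj t ht)⁻¹ * c with hwdef
    have e1 : g * c * g⁻¹ = (g * cj t ht * g⁻¹) * w := by
      have h1 : c = cj t ht * w := by
        rw [hwdef]
        exact (mul_inv_cancel_left _ _).symm
      have h2 : g * c * g⁻¹ = g * cj t ht * (w * g⁻¹) := by
        rw [h1]
        simp only [mul_assoc]
      rw [h2, ← hWc w hw g⁻¹]
      simp only [mul_assoc]
    obtain ⟨t', ht', htz'⟩ := (mem_P _).1 hy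
    have hvO : ∀ z : O, (((g * cj t ht * g⁻¹ : G) : MulAut ↥(hat S O)) (Subgroup.inclusion (le_hat O) z) : ↥(hat S O)).1 = t' * z * t'⁻¹ := by
      intro z
      have h1 := htz' z
      rw [e1] at h1
      have h2 : w.1 (Subgroup.inclusion (le_hat O) z) = Subgroup.inclusion (le_hat O) z := hw z
      have h3 : (((g * cj t ht * g⁻¹) * w : G).1 (Subgroup.inclusion (le_hat O) z)) =
          (g * cj t ht * g⁻¹ : G).1 (w.1 (Subgroup.inclusion (le_hat O) z)) := rfl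
      rw [h3, h2] at h1
      exact h1
    obtain ⟨τ, hτ, hτu⟩ := exists_tau hS hF hTsc hO hC (b := g.1) (v := (g * cj t ht * g⁻¹ : G).1) (rA_good g).mem ht ht' (htN ht) (htN ht') rfl
      (rA_good _) hvO
    have hdv : d (g * cj t ht * g⁻¹) = 1 := by
      apply Subtype.ext
      have h1 := hτu ⟨x, hxH⟩
      show x⁻¹ * ((g * cj t ht * g⁻¹ : G).1 ⟨x, hxH⟩ : ↥(hat S O)).1 = 1
      rw [h1]
      have hc : x * τ = τ * x := (Subgroup.mem_centralizer_iff.1 hx.2 τ hτ).symm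
      show x⁻¹ * (τ * x * τ⁻¹) = 1
      rw [← hc]
      group
    rw [e1, hd, hdv, ← hdw, one_mul]
    apply Subtype.ext
    show (((g * cj t ht * g⁻¹ : G).1 (1 : ↥(hat S O)) : ↥(hat S O)) : Ω) = 1
    rw [map_one]
    rfl
  have hm : Nat.Coprime P.index (Nat.card ↥(Zc O)) := by
    have e : P.index = (R : Subgroup (E.autGroup O)).index := Subgroup.index_comap_of_surjective _ π_surj
    rw [e]
    have hZp : IsPGroup p ↥(Zc O) := isPGroup_of_le hS hZS
    obtain ⟨k, hk⟩ := IsPGroup.iff_card.1 hZp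
    rw [hk]
    exact (Nat.Coprime.pow_right k ((Nat.Prime.coprime_iff_not_dvd hp.out).2 R.not_dvd_index).symm)
  haveI hfG' : Finite G := inferInstance
  obtain ⟨ζ, hζ1, hζ2⟩ := Cfsg.Agent.Lib.Fusion.Gasch.main (G := G) (A := ↥(Zc O)) act act_mul act_comp act_one d hd P W hWP hWc hfix hPW hclosed hm
  refine ⟨ζ, ζ.2, fun t ht => ?_, fun α hα => ?_⟩
  · have h1 := hζ1 (cj t ht) (cj_P ht) (d_cj ht)
    have h2 : t * (ζ : Ω) * t⁻¹ = ζ := congrArg (fun a : ↥(Zc O) => (a : Ω)) h1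
    calc t * (ζ : Ω) = t * (ζ : Ω) * t⁻¹ * t := by group
      _ = ζ * t := by rw [h2]
  · obtain ⟨β, hβ⟩ := exists_good_all hS hF hE O hOc α hα
    obtain ⟨w, hw, hdw⟩ := hζ2 ⟨β, α, hα, hβ⟩
    have hw' := W_good w hw
    have h1 := hβ.mul hw'
    rw [mul_one] at h1
    refine ⟨β * w.1, h1, fun h => ?_⟩
    apply Subtype.ext
    have ha : x⁻¹ * (((β * w.1) ⟨x, hxH⟩ : ↥(hat S O)) : Ω) =
        (ζ : Ω) * (((β ⟨ζ, le_hat O (Zc.left ζ.2)⟩ : ↥(hat S O)) : Ω))⁻¹ := congrArg (fun a : ↥(Zc O) => (a : Ω)) hdw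
    have e1 : (⟨x * ζ, cen_le_hat O h⟩ : ↥(hat S O)) = ⟨x, hxH⟩ * ⟨ζ, le_hat O (Zc.left ζ.2)⟩ := rfl
    have e2 : w.1 ⟨ζ, le_hat O (Zc.left ζ.2)⟩ = ⟨ζ, le_hat O (Zc.left ζ.2)⟩ := hw ⟨ζ, Zc.left ζ.2⟩
    have e3 : ((β * w.1) ⟨ζ, le_hat O (Zc.left ζ.2)⟩ : ↥(hat S O)) = β ⟨ζ, le_hat O (Zc.left ζ.2)⟩ := by
      rw [MulAut.mul_apply, e2]
    rw [e1, map_mul, e3, Subgroup.coe_mul]
    set a := (((β * w.1) ⟨x, hxH⟩ : ↥(hat S O)) : Ω) with ha'
    have e4 : a = x * ((ζ : Ω) * (((β ⟨ζ, le_hat O (Zc.left ζ.2)⟩ : ↥(hat S O)) : Ω))⁻¹) := by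
      rw [← ha]
      group
    rw [e4]
    show _ = x * (ζ : Ω)
    group

end Zeta

end Cfsg.Agent.Lib.Fusion.CenFix
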