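/-
`C_S(T) = Z(T) C_S(E)` when `O_p(E)` is centric in `E`.
-/
import Mathlib
import Cfsg.Agent.Lib.Fusion.CenFix1

set_option autoImplicit false
set_option linter.style.haveILetI false
set_option linter.unusedSectionVars false

namespace Cfsg.Agent.Lib.Fusion.CenFix

open Cfsg Cfsg.FusionSystem Cfsg.Agent.Lib.Fusion.Basic Cfsg.Agent.Lib.Fusion.Saturated
open Cfsg.Agent.Lib.Fusion.GoodLift
open Cfsg.Agent.Lib.Fusion.CLiftG
open Cfsg.Agent.Lib.Fusion.NormalPair (stronglyClosed_apply)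
open Cfsg.Agent.Lib.Fusion.NormalCR
open Cfsg.Agent.Lib.Fusion.Saturated2 (autOfHom autOfHom_mem)
open Cfsg.Agent.Lib.Fusion.LocalSystems (map_mem_sup_of_ext)

variable {Ω : Type*} [Group Ω] {S T : Subgroup Ω} {F : FusionSystem S} {E : FusionSystem T}
variable [Finite S] {p : ℕ} [hp : Fact p.Prime] {O : Subgroup Ω}

/-- If `y` is fixed by good lifts of all elements of `Aut_E(O)`, then it is fixed by all good lifts of order prime to `p`
at subgroups containing `O`. -/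
theorem good_fix_of_O (hS : IsPGroup p S) (hF : F.IsSaturated p) (hE : E.IsNormalIn F p) (hO : F.IsNormal O)
    (hOE : E.IsNormal O) (hOc : E.IsCentric O) {y : Ω} (hy : y ∈ centralizerIn S T)
    (hfixO : ∀ a ∈ E.autGroup O, ∃ ρ₁, IsGood F O ρ₁ a ∧
      ρ₁ ⟨y, cen_le_hat O (cen_mono hOE.1 hy)⟩ = ⟨y, cen_le_hat O (cen_mono hOE.1 hy)⟩)
    {Q : Subgroup Ω} (hOQ : O ≤ Q) (hQT : Q ≤ T) {θ : MulAut Q} (hθ : θ ∈ E.autGroup Q) {ρ : MulAut ↥(hat S Q)}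
    (hρ : IsGood F Q ρ θ) {n : ℕ} (hn : ρ ^ n = 1) (hco : n.Coprime p) :
    ρ ⟨y, cen_le_hat Q (cen_mono hQT hy)⟩ = ⟨y, cen_le_hat Q (cen_mono hQT hy)⟩ := by
  classical
  have hTS : T ≤ S := hE.1.2.2.2.1.1
  have hOT : O ≤ T := hOE.1
  have hOS : O ≤ S := hO.1
  have hQS : Q ≤ S := hQT.trans hTS
  have hC : centralizerIn T O ≤ O := hOc.2 O (Basic.IsConj.refl hOT)
  have hyQ : y ∈ centralizerIn S Q := cen_mono hQT hy
  have hyO : y ∈ centralizerIn S O := cen_mono hOT hy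
  haveI hfO : Finite O := finite_of_le hOS
  set y₀ : ↥(hat S Q) := ⟨y, cen_le_hat Q hyQ⟩ with hy₀
  set dz : Ω := y⁻¹ * ((ρ y₀ : ↥(hat S Q)) : Ω) with hdz
  have hdzQ : dz ∈ Zc Q := hρ.cen y₀ hyQ
  have hdzT : dz ∈ T := hQT (Zc.left hdzQ)
  have hdzcO : dz ∈ Subgroup.centralizer (O : Set Ω) := Subgroup.centralizer_le hOQ (Zc.right hdzQ)
  have hdzO : dz ∈ O := hC ⟨hdzT, hdzcO⟩
  have hdzZ : dz ∈ Zc O := Subgroup.mem_inf.2 ⟨hdzO, hdzcO⟩
  -- the restriction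
  let f : Q →* Ω := Q.subtype.comp θ.toMonoidHom
  have hf : f ∈ E.Hom Q := autGroup_mem_hom hQT hθ
  let f₀ : O →* Ω := f.comp (Subgroup.inclusion hOQ)
  have hf₀ : f₀ ∈ E.Hom O := res_mem hf hOQ
  have hf₀v : ∀ z, f₀ z ∈ O := fun z => stronglyClosed_apply (IsNormal.stronglyClosed hOE) hf _ z.2
  let a : MulAut O := autOfHom f₀ (E.injective_of_mem hf₀) hf₀v
  have ha : a ∈ E.autGroup O := autOfHom_mem hf₀ hf₀v
  have ha_val : ∀ z : O, ((a z : O) : Ω) = (θ (Subgroup.inclusion hOQ z) : Q) := fun _ => rfl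
  obtain ⟨ρ₁, hρ₁, hρ₁y⟩ := hfixO a ha
  -- the map
  let U : Subgroup Ω := O ⊔ Subgroup.zpowers y
  have hUO : U ≤ hat S O := sup_le (le_hat O) ((Subgroup.zpowers_le).2 (cen_le_hat O hyO))
  have hUQ : U ≤ hat S Q := sup_le (hOQ.trans (le_hat Q)) ((Subgroup.zpowers_le).2 (cen_le_hat Q hyQ))
  have hyU : y ∈ U := le_sup_right (a := O) (Subgroup.mem_zpowers y)
  let l : U →* Ω := resLift ρ hUQ
  have hl : l ∈ F.Hom U := resLift_mem hQS hρ.mem hUQ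
  have hlO : ∀ z : O, l (Subgroup.inclusion le_sup_left z) = a z := by
    intro z
    exact hρ.res (Subgroup.inclusion hOQ z)
  have hly : l ⟨y, hyU⟩ = y * dz := by
    show ((ρ y₀ : ↥(hat S Q)) : Ω) = y * (y⁻¹ * ((ρ y₀ : ↥(hat S Q)) : Ω))
    group
  have hlv : ∀ u : U, l u ∈ U := by
    intro u
    refine map_mem_sup_of_ext l (fun z => ?_) (fun z => ?_) u
    · rw [hlO]
      exact le_sup_left (a := O) (a z).2
    · obtain ⟨_, k, rfl⟩ := z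
      have e : Subgroup.inclusion (le_sup_right : Subgroup.zpowers y ≤ U) ⟨_, k, rfl⟩ = (⟨y, hyU⟩ : U) ^ k := by
        apply Subtype.ext
        rfl
      rw [e, map_zpow, hly]
      refine U.zpow_mem (U.mul_mem hyU ?_) k
      exact le_sup_left (a := O) hdzO
  let k₀ : U →* Ω := resLift ρ₁⁻¹ hUO
  have hk₀ : k₀ ∈ F.Hom U := resLift_mem hOS (Subgroup.inv_mem _ hρ₁.mem) hUO
  let k : U →* Ω := k₀.comp (l.codRestrict U hlv)
  have hk : k ∈ F.Hom U := F.comp_mem hl hk₀ hlv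
  have hkP : ∀ z : O, k (Subgroup.inclusion le_sup_left z) = z := by
    intro z
    have e : (l.codRestrict U hlv) (Subgroup.inclusion le_sup_left z) = Subgroup.inclusion le_sup_left (a z) :=
      Subtype.ext (hlO z)
    show k₀ ((l.codRestrict U hlv) (Subgroup.inclusion le_sup_left z)) = z
    rw [e]
    have h1 := (hρ₁.inv hOS).res (a z)
    refine h1.trans ?_
    simp
  set dO : O := ⟨dz, hdzO⟩ with hdO
  set w : Ω := ((a⁻¹ dO : O) : Ω) with hw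
  have hwZ : w ∈ Zc O := map_zc a⁻¹ (z := dO) hdzZ
  have hρ₁inv : ρ₁⁻¹ ⟨y, cen_le_hat O hyO⟩ = ⟨y, cen_le_hat O hyO⟩ := by
    nth_rewrite 1 [← hρ₁y]
    simp
  have hky : k ⟨y, le_sup_right (a := O) (Subgroup.mem_zpowers y)⟩ = y * w := by
    have e : (l.codRestrict U hlv) ⟨y, hyU⟩ = ⟨y, hyU⟩ * Subgroup.inclusion le_sup_left dO := Subtype.ext hly
    show k₀ ((l.codRestrict U hlv) ⟨y, hyU⟩) = y * w
    rw [e, map_mul]
    have h1 : k₀ ⟨y, hyU⟩ = y := congrArg (fun t : ↥(hat S O) => (t : Ω)) hρ₁inv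
    have h2 : k₀ (Subgroup.inclusion le_sup_left dO) = ((a⁻¹ dO : O) : Ω) := (hρ₁.inv hOS).res dO
    rw [h1, h2]
  have hcl := cl_fn hS hF (fc_of_normal hS hF hO) hρ₁ hyO hk hkP hwZ hky
  have hwe : (⟨w, Zc.left hwZ⟩ : O) = a⁻¹ dO := Subtype.ext rfl
  rw [hwe] at hcl
  have hdw : dz = w := by
    have : ((a (a⁻¹ dO) : O) : Ω) = dz := by simp [hdO]
    rw [← this, hcl]
  -- `ρ` fixes `dz`
  have hρd : ρ ⟨dz, le_hat Q (Zc.left hdzQ)⟩ = ⟨dz, le_hat Q (Zc.left hdzQ)⟩ := by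
    apply Subtype.ext
    have h1 : ((ρ ⟨dz, le_hat Q (Zc.left hdzQ)⟩ : ↥(hat S Q)) : Ω) = ((θ ⟨dz, Zc.left hdzQ⟩ : Q) : Ω) :=
      hρ.res ⟨dz, Zc.left hdzQ⟩
    have h2 : ((a dO : O) : Ω) = ((θ ⟨dz, Zc.left hdzQ⟩ : Q) : Ω) := ha_val dO
    have h3 : ((a dO : O) : Ω) = dz := by
      have e : dO = ⟨w, Zc.left hwZ⟩ := Subtype.ext hdw
      rw [e, hwe, hcl]
      exact hdw.symm
    rw [h1, ← h2, h3]
  -- iterate
  have hpow : ∀ j : ℕ, (ρ ^ j) y₀ = y₀ * ⟨dz, le_hat Q (Zc.left hdzQ)⟩ ^ j := by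
    intro j
    induction j with
    | zero => simp
    | succ j ih =>
      rw [pow_succ', MulAut.mul_apply, ih, map_mul, map_pow, hρd]
      have e : ρ y₀ = y₀ * ⟨dz, le_hat Q (Zc.left hdzQ)⟩ := by
        apply Subtype.ext
        show _ = y * (y⁻¹ * ((ρ y₀ : ↥(hat S Q)) : Ω))
        group
      rw [e, mul_assoc, pow_succ']
  have h1 := hpow n
  rw [hn, MulAut.one_apply] at h1
  have h2 : (⟨dz, le_hat Q (Zc.left hdzQ)⟩ : ↥(hat S Q)) ^ n = 1 := by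
    exact left_eq_mul.1 h1
  have h3 : dz ^ n = 1 := congrArg (fun t : ↥(hat S Q) => (t : Ω)) h2
  have hdzS : dz ∈ S := hTS hdzT
  obtain ⟨e, he⟩ := hS ⟨dz, hdzS⟩
  have h4 : dz ^ p ^ e = 1 := congrArg (fun t : S => (t : Ω)) he
  have h5 : orderOf dz ∣ Nat.gcd n (p ^ e) := Nat.dvd_gcd (orderOf_dvd_of_pow_eq_one h3) (orderOf_dvd_of_pow_eq_one h4)
  have h6 : Nat.gcd n (p ^ e) = 1 := Nat.Coprime.pow_right e hco
  rw [h6, Nat.dvd_one, orderOf_eq_one_iff] at h5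
  have e7 : y₀⁻¹ * ρ y₀ = 1 := Subtype.ext h5
  exact (inv_mul_eq_one.1 e7).symm

theorem isCentric_of_ge [Finite T] (hOE : E.IsNormal O) (hOc : E.IsCentric O) {Q : Subgroup Ω} (hOQ : O ≤ Q) (hQT : Q ≤ T) :
    E.IsCentric Q := by
  have hOT : O ≤ T := hOE.1
  have hC : centralizerIn T O ≤ O := hOc.2 O (Basic.IsConj.refl hOT)
  refine ⟨hQT, ?_⟩
  rintro Q' ⟨φ, hφ, rfl⟩
  have h1 := StronglyClosed.map_eq (IsNormal.stronglyClosed hOE) hOQ hφ
  have hOQ' : O ≤ φ.range := by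
    rw [← h1]
    rintro _ ⟨z, -, rfl⟩
    exact ⟨z, rfl⟩
  exact (inf_le_inf_left _ (Subgroup.centralizer_le hOQ')).trans (hC.trans hOQ')

/-- **Membership in `C_S(E)` from fixing at `O`.** -/
theorem mem_CC_of_fix_O (hS : IsPGroup p S) (hF : F.IsSaturated p) (hE : E.IsNormalIn F p) (hO : F.IsNormal O)
    (hOE : E.IsNormal O) (hOc : E.IsCentric O) {y : Ω} (hy : y ∈ centralizerIn S T)
    (hfixO : ∀ a ∈ E.autGroup O, ∃ ρ₁, IsGood F O ρ₁ a ∧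
      ρ₁ ⟨y, cen_le_hat O (cen_mono hOE.1 hy)⟩ = ⟨y, cen_le_hat O (cen_mono hOE.1 hy)⟩) :
    y ∈ CC hS hF hE := by
  classical
  refine ⟨hy, fun P α hα => ?_⟩
  have hTS : T ≤ S := hE.1.2.2.2.1.1
  have hOT : O ≤ T := hOE.1
  have hPT : P ≤ T := hα.le
  have hαE : α ∈ E.autGroup P := by
    rcases hα.1 with h | h
    · exact Cfsg.Agent.Lib.Fusion.PPrime.KK_le_autGroup E p P h.2
    · exact h.2
  obtain ⟨ψ, hψ, hψα, hψO⟩ := hOE.2 P _ (autGroup_mem_hom hPT hαE)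
  let Q : Subgroup Ω := P ⊔ O
  have hOQ : O ≤ Q := le_sup_right
  have hPQ : P ≤ Q := le_sup_left
  have hQT : Q ≤ T := sup_le hPT hOT
  have hQS : Q ≤ S := hQT.trans hTS
  haveI hfQ : Finite Q := finite_of_le hQS
  have hψv : ∀ u : Q, ψ u ∈ Q := by
    intro u
    refine map_mem_sup_of_ext ψ (fun z => ?_) (fun z => ?_) u
    · rw [hψα]
      exact hPQ (α z).2
    · refine hOQ (hψO.le ?_)
      exact ⟨_, z.2, rfl⟩
  let θ₀ : MulAut Q := autOfHom ψ (E.injective_of_mem hψ) hψv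
  have hθ₀ : θ₀ ∈ E.autGroup Q := autOfHom_mem hψ hψv
  haveI : Finite T := finite_of_le hTS
  have hQc := isCentric_of_ge hOE hOc hOQ hQT
  obtain ⟨β₀, hβ₀⟩ := exists_good_all hS hF hE Q hQc θ₀ hθ₀
  haveI : Finite ↥(hat S Q) := finite_of_le (hat_le hQS)
  obtain ⟨u, v, huv, hcu, k, hkv⟩ := exists_decomp (p := p) β₀ (orderOf_pos β₀)
  -- restriction to `P`
  have hres : ∀ (j : ℕ) (x : P), (((θ₀ ^ j) (Subgroup.inclusion hPQ x) : Q) : Ω) = ((α ^ j) x : P) := by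
    intro j
    induction j with
    | zero => intro x; rfl
    | succ j ih =>
      intro x
      rw [pow_succ', pow_succ', MulAut.mul_apply, MulAut.mul_apply]
      have e : (θ₀ ^ j) (Subgroup.inclusion hPQ x) = Subgroup.inclusion hPQ ((α ^ j) x) := Subtype.ext (ih x)
      rw [e]
      exact hψα _
  have hresβ : ∀ (j : ℕ) (x : P), (((β₀ ^ j) ⟨x, le_hat Q (hPQ x.2)⟩ : ↥(hat S Q)) : Ω) = ((α ^ j) x : P) := by
    intro j x
    have h1 := (hβ₀.pow j).res (Subgroup.inclusion hPQ x)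
    exact h1.trans (hres j x)
  have hαv : α ^ v = 1 := by
    have h1 : (β₀ ^ v) ^ p ^ k = 1 := by
      rw [← hkv]
      exact pow_orderOf_eq_one _
    have h2 : (α ^ v) ^ p ^ k = 1 := by
      ext x
      rw [← pow_mul, ← hresβ, pow_mul, h1]
      rfl
    have h3 : (α ^ v) ^ orderOf α = 1 := by
      rw [← pow_mul, mul_comm, pow_mul, pow_orderOf_eq_one, one_pow]
    have h4 : orderOf (α ^ v) ∣ Nat.gcd (p ^ k) (orderOf α) :=
      Nat.dvd_gcd (orderOf_dvd_of_pow_eq_one h2) (orderOf_dvd_of_pow_eq_one h3)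
    have h5 : Nat.gcd (p ^ k) (orderOf α) = 1 := Nat.Coprime.pow_left k hα.2.symm
    rw [h5, Nat.dvd_one, orderOf_eq_one_iff] at h4
    exact h4
  have hαu : α ^ u = α := by
    ext x
    have h1 := hresβ (u + v) x
    rw [pow_add, ← huv, pow_add, hαv, mul_one] at h1
    have h2 := hresβ 1 x
    rw [pow_one, pow_one] at h2
    exact h1.symm.trans h2
  have hρ := hβ₀.pow u
  have hfix := good_fix_of_O hS hF hE hO hOE hOc hy hfixO hOQ hQT (Subgroup.pow_mem _ hθ₀ u) hρ (pow_orderOf_eq_one _) hcu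
  have hyQ : y ∈ centralizerIn S Q := cen_mono hQT hy
  have hU : P ⊔ Subgroup.zpowers y ≤ hat S Q := sup_le (hPQ.trans (le_hat Q)) ((Subgroup.zpowers_le).2 (cen_le_hat Q hyQ))
  refine ⟨resLift (β₀ ^ u) hU, resLift_mem hQS hρ.mem hU, fun x => ?_, ?_⟩
  · have h1 := hresβ u x
    rw [hαu] at h1
    exact h1
  · exact congrArg (fun t : ↥(hat S Q) => (t : Ω)) hfix

/-- **`C_S(T) = Z(T) C_S(E)` when `O` is centric.** -/
theorem exists_mem_CC (hS : IsPGroup p S) (hF : F.IsSaturated p) (hE : E.IsNormalIn F p) (hO : F.IsNormal O)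
    (hOE : E.IsNormal O) (hOc : E.IsCentric O) {x : Ω} (hx : x ∈ centralizerIn S T) :
    ∃ ζ ∈ Zc O, (∀ t ∈ T, t * ζ = ζ * t) ∧ x * ζ ∈ CC hS hF hE := by
  have hTS : T ≤ S := hE.1.2.2.2.1.1
  have hOT : O ≤ T := hOE.1
  obtain ⟨ζ, hζ, hζT, hfix⟩ := exists_zeta hS hF hE hO hOT hOc hx
  refine ⟨ζ, hζ, hζT, ?_⟩
  have hζS : ζ ∈ S := hTS (hOT (Zc.left hζ))
  have hy : x * ζ ∈ centralizerIn S T := by
    refine (centralizerIn S T).mul_mem hx ⟨hζS, Subgroup.mem_centralizer_iff.2 fun t ht => hζT t ht⟩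
  refine mem_CC_of_fix_O hS hF hE hO hOE hOc hy (fun a ha => ?_)
  obtain ⟨ρ, hρ, hρy⟩ := hfix a ha
  exact ⟨ρ, hρ, hρy (cen_mono hOE.1 hy)⟩

end Cfsg.Agent.Lib.Fusion.CenFix
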