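/-
Maps carrying an element to an element: a small calculus. Local pairs: if `E` is normal in `F` and `X ≤ T` is fully normalized in `F`, then
`N_E(X)` is normal in `N_F(X)`.
-/
import Mathlib
import Cfsg.Agent.Lib.Fusion.CenFix2

set_option autoImplicit false
set_option linter.style.haveILetI false
set_option linter.unusedSectionVars false

namespace Cfsg.Agent.Lib.Fusion.CenFix

open Cfsg Cfsg.FusionSystem Cfsg.Agent.Lib.Fusion.Basic Cfsg.Agent.Lib.Fusion.Saturated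
open Cfsg.Agent.Lib.Fusion.GoodLift
open Cfsg.Agent.Lib.Fusion.CLiftG
open Cfsg.Agent.Lib.Fusion.NormalPair (stronglyClosed_apply strongClause)
open Cfsg.Agent.Lib.Fusion.NormalCR
open Cfsg.Agent.Lib.Fusion.Saturated2 (autOfHom autOfHom_mem)
open Cfsg.Agent.Lib.Fusion.LocalSystems (map_mem_sup_of_ext range_ext_eq normalizerSystem normalizerSystem_isNormalizerSystem)
open Cfsg.Agent.Lib.Fusion.ModelLocal (mem_normalizerSystem)
open Cfsg.Agent.Lib.Fusion.Joins (exists_hom_of_eq)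

variable {Ω : Type*} [Group Ω] {S T : Subgroup Ω} {F : FusionSystem S} {E : FusionSystem T}

section Mv

/-- A map of the system on `P ⟨x⟩` extending `φ` and carrying `x` to `y`. -/
def Mv (F : FusionSystem S) {P : Subgroup Ω} (φ : P →* Ω) (x y : Ω) : Prop :=
  ∃ ψ ∈ F.Hom (P ⊔ Subgroup.zpowers x), (∀ a : P, ψ (Subgroup.inclusion le_sup_left a) = φ a) ∧
    ψ ⟨x, le_sup_right (a := P) (Subgroup.mem_zpowers x)⟩ = y

theorem Mv.mono {S' : Subgroup Ω} {F' : FusionSystem S'} (h : ∀ P, F'.Hom P ⊆ F.Hom P) {P : Subgroup Ω} {φ : P →* Ω}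
    {x y : Ω} (hm : Mv F' φ x y) : Mv F φ x y := by
  obtain ⟨ψ, hψ, h1, h2⟩ := hm
  exact ⟨ψ, h _ hψ, h1, h2⟩

theorem Mv.res {P R : Subgroup Ω} {φ : P →* Ω} {x y : Ω} (hm : Mv F φ x y) (h : R ≤ P) :
    Mv F (φ.comp (Subgroup.inclusion h)) x y := by
  obtain ⟨ψ, hψ, h1, h2⟩ := hm
  have hle : R ⊔ Subgroup.zpowers x ≤ P ⊔ Subgroup.zpowers x := sup_le_sup_right h _
  exact ⟨ψ.comp (Subgroup.inclusion hle), res_mem hψ hle, fun a => h1 (Subgroup.inclusion h a), h2⟩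

/-- A map defined on a larger subgroup. -/
theorem Mv.of_hom {B P : Subgroup Ω} {ψ : B →* Ω} (hψ : ψ ∈ F.Hom B) (hPB : P ≤ B) {x : Ω} (hx : x ∈ B) :
    Mv F (ψ.comp (Subgroup.inclusion hPB)) x (ψ ⟨x, hx⟩) := by
  have hle : P ⊔ Subgroup.zpowers x ≤ B := sup_le hPB ((Subgroup.zpowers_le).2 hx)
  exact ⟨ψ.comp (Subgroup.inclusion hle), res_mem hψ hle, fun a => rfl, rfl⟩

theorem Mv.eq_fun {P : Subgroup Ω} {φ φ' : P →* Ω} {x y : Ω} (hm : Mv F φ x y) (h : ∀ a, φ a = φ' a) : Mv F φ' x y := by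
  obtain ⟨ψ, hψ, h1, h2⟩ := hm
  exact ⟨ψ, hψ, fun a => (h1 a).trans (h a), h2⟩

theorem Mv.comp {P Q : Subgroup Ω} {φ : P →* Ω} {ψ : Q →* Ω} {x y z : Ω} (h₁ : Mv F φ x y) (h₂ : Mv F ψ y z)
    (h : ∀ a, φ a ∈ Q) : Mv F (ψ.comp (φ.codRestrict Q h)) x z := by
  obtain ⟨ψ₁, hψ₁, ha₁, hb₁⟩ := h₁
  obtain ⟨ψ₂, hψ₂, ha₂, hb₂⟩ := h₂
  have hyU : y ∈ Q ⊔ Subgroup.zpowers y := le_sup_right (a := Q) (Subgroup.mem_zpowers y)
  have hv : ∀ u, ψ₁ u ∈ Q ⊔ Subgroup.zpowers y := by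
    intro u
    refine map_mem_sup_of_ext ψ₁ (fun a => ?_) (fun a => ?_) u
    · rw [ha₁]
      exact le_sup_left (a := Q) (h a)
    · obtain ⟨_, k, rfl⟩ := a
      have e : Subgroup.inclusion (le_sup_right : Subgroup.zpowers x ≤ P ⊔ Subgroup.zpowers x) ⟨_, k, rfl⟩ =
          (⟨x, le_sup_right (a := P) (Subgroup.mem_zpowers x)⟩ : ↥(P ⊔ Subgroup.zpowers x)) ^ k := by
        apply Subtype.ext
        rfl
      rw [e, map_zpow, hb₁]
      exact Subgroup.zpow_mem _ hyU k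
  refine ⟨ψ₂.comp (ψ₁.codRestrict _ hv), F.comp_mem hψ₁ hψ₂ hv, fun a => ?_, ?_⟩
  · have e : ψ₁.codRestrict _ hv (Subgroup.inclusion le_sup_left a) =
        Subgroup.inclusion le_sup_left (φ.codRestrict Q h a) := Subtype.ext (ha₁ a)
    show ψ₂ (ψ₁.codRestrict _ hv (Subgroup.inclusion le_sup_left a)) = _
    rw [e, ha₂]
    rfl
  · have e : ψ₁.codRestrict _ hv ⟨x, le_sup_right (a := P) (Subgroup.mem_zpowers x)⟩ = ⟨y, hyU⟩ := Subtype.ext hb₁
    show ψ₂ (ψ₁.codRestrict _ hv ⟨x, le_sup_right (a := P) (Subgroup.mem_zpowers x)⟩) = z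
    rw [e, hb₂]

theorem Mv.symm [Finite S] {P Q : Subgroup Ω} {φ : P →* Ω} {ξ : Q →* Ω} {x y : Ω} (hm : Mv F φ x y) (hr : φ.range = Q)
    (hξ : ∀ (a : P) (h : φ a ∈ Q), ξ ⟨φ a, h⟩ = a) : Mv F ξ y x := by
  obtain ⟨ψ, hψ, ha, hb⟩ := hm
  have hyU : y ∈ Q ⊔ Subgroup.zpowers y := le_sup_right (a := Q) (Subgroup.mem_zpowers y)
  have hxU : x ∈ P ⊔ Subgroup.zpowers x := le_sup_right (a := P) (Subgroup.mem_zpowers x)
  have hpow : ∀ k : ℤ, ψ ⟨x ^ k, Subgroup.zpow_mem _ hxU k⟩ = y ^ k := by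
    intro k
    have e : (⟨x ^ k, Subgroup.zpow_mem _ hxU k⟩ : ↥(P ⊔ Subgroup.zpowers x)) = ⟨x, hxU⟩ ^ k := rfl
    rw [e, map_zpow, hb]
  have hrng : ψ.range = Q ⊔ Subgroup.zpowers y := by
    apply le_antisymm
    · rintro _ ⟨u, rfl⟩
      refine map_mem_sup_of_ext ψ (fun a => ?_) (fun a => ?_) u
      · rw [ha]
        refine le_sup_left (a := Q) ?_
        rw [← hr]
        exact ⟨a, rfl⟩
      · obtain ⟨_, k, rfl⟩ := a
        exact (congrArg (fun w => w ∈ Q ⊔ Subgroup.zpowers y) (hpow k)).mpr (Subgroup.zpow_mem _ hyU k)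
    · refine sup_le (fun q hq => ?_) ((Subgroup.zpowers_le).2 ⟨_, hb⟩)
      rw [← hr] at hq
      obtain ⟨a, rfl⟩ := hq
      exact ⟨_, ha a⟩
  obtain ⟨θ, hθ, hθr, hθ1, -⟩ := exists_inv hψ hrng
  refine ⟨θ, hθ, fun q => ?_, ?_⟩
  · obtain ⟨a, ha'⟩ := hr.ge q.2
    have hqv : φ a ∈ Q := ha' ▸ q.2
    have e1 : q = ⟨φ a, hqv⟩ := Subtype.ext ha'.symm
    have h2 := hθ1 (Subgroup.inclusion le_sup_left a) (by rw [ha]; exact le_sup_left (a := Q) hqv)
    rw [e1, hξ a hqv]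
    refine Eq.trans ?_ h2
    congr 1
    exact Subtype.ext (ha a).symm
  · have h2 := hθ1 ⟨x, hxU⟩ (by rw [hb]; exact hyU)
    refine Eq.trans ?_ h2
    congr 1
    exact Subtype.ext hb.symm

end Mv

section Pair

variable [Finite S] {p : ℕ} [hp : Fact p.Prime]

/-- A map of the normalizer system on a subgroup containing `X` preserves `X`. -/
theorem nhom_map_eq {X R : Subgroup Ω} {φ : R →* Ω} (hφ : φ ∈ F.normalizerHom X R) (hXR : X ≤ R) :
    (X.subgroupOf R).map φ = X := by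
  obtain ⟨-, -, -, ψ, -, h1, h2⟩ := hφ
  have key : ∀ (z : Ω) (hz : z ∈ X), φ ⟨z, hXR hz⟩ = ψ ⟨z, le_sup_right (a := R) hz⟩ := fun z hz => (h1 ⟨z, hXR hz⟩).symm
  ext y
  constructor
  · rintro ⟨⟨z, hzR⟩, hz, rfl⟩
    have hz' : z ∈ X := hz
    rw [key z hz']
    exact h2.le ⟨_, hz', rfl⟩
  · intro hy
    obtain ⟨⟨z, hzR⟩, hz, rfl⟩ := h2.ge hy
    have hz' : z ∈ X := hz
    exact ⟨⟨z, hXR hz'⟩, hz', key z hz'⟩

theorem isNormalIn_normalizerSystem (hS : IsPGroup p S) (hF : F.IsSaturated p) (hE : E.IsNormalIn F p) {X : Subgroup Ω}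
    (hXT : X ≤ T) (hX : F.IsFullyNormalized X) :
    (normalizerSystem E X hXT).IsNormalIn (normalizerSystem F X hX.1) p := by
  classical
  obtain ⟨⟨hEs, -, hinv⟩, -⟩ := id hE
  have hTsc := hinv.2.1
  have hTS : T ≤ S := hTsc.1
  haveI hfT : Finite T := finite_of_le hTS
  have hTp : IsPGroup p T := isPGroup_of_le hS hTS
  have hXS : X ≤ S := hX.1
  have hEX : E.IsFullyNormalized X := isFullyNormalized_sub hS hF hinv hXT hX
  have hE' := normalizerSystem_isNormalizerSystem E X hXT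
  have hF' := normalizerSystem_isNormalizerSystem F X hXS
  have hYM : normalizerIn T X ≤ normalizerIn S X := inf_le_inf_right _ hTS
  have hXY : X ≤ normalizerIn T X := le_normalizerIn hXT
  have hYT : normalizerIn T X ≤ T := inf_le_left
  haveI hfY : Finite (normalizerIn T X) := finite_of_le hYT
  have hsub : (normalizerSystem E X hXT).IsSubsystemOf (normalizerSystem F X hXS) := by
    rintro P φ ⟨h1, h2, h3, ψ, hψ, h4, h5⟩
    exact ⟨hinv.1 P h1, h2.trans hYM, fun x => hYM (h3 x), ψ, hinv.1 _ hψ, h4, h5⟩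
  have hsc : (normalizerSystem F X hXS).StronglyClosed (normalizerIn T X) := by
    refine ⟨hYM, fun R hR φ hφ x => ?_⟩
    obtain ⟨hφF, -, hv, -⟩ := hφ
    exact ⟨stronglyClosed_apply hTsc hφF x (hYT (hR x.2)), (hv x).2⟩
  refine ⟨⟨Cfsg.Agent.Lib.Fusion.KNormalizer.isSaturated_normalizerSystem hTp hEs hEX hE',
    Cfsg.Agent.Lib.Fusion.KNormalizer.isSaturated_normalizerSystem hS hF hX hF', hsub, hsc, ?_, ?_⟩, ?_⟩
  · -- conjugation
    intro P hPY φ hφ α hα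
    obtain ⟨hφE, hPN, hv, ψ, hψ, h1, h2⟩ := hφ
    have haF' := autGroup_mem_hom hYM hα
    have haF := haF'.1
    have haX := nhom_map_eq haF' hXY
    have hAY : P ⊔ X ≤ normalizerIn T X := sup_le hPY hXY
    have hψv : ∀ u : ↥(P ⊔ X), ψ u ∈ normalizerIn T X := by
      intro u
      refine map_mem_sup_of_ext ψ (fun x => ?_) (fun x => ?_) u
      · rw [h1]
        exact hv x
      · exact hXY (h2.le ⟨_, x.2, rfl⟩)
    obtain ⟨χ₁, hχ₁, hχ₁e⟩ := strongClause hinv (P ⊔ X) (normalizerIn T X) hAY hYT ψ hψ hψv _ haF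
    have hXA' : X ≤ ((P ⊔ X).subgroupOf (normalizerIn T X)).map ((normalizerIn T X).subtype.comp α.toMonoidHom) := by
      intro z hz
      obtain ⟨u, hu, rfl⟩ := haX.ge hz
      refine ⟨u, ?_, rfl⟩
      exact Subgroup.mem_subgroupOf.2 (le_sup_right (a := P) hu)
    have hA'Y : ((P ⊔ X).subgroupOf (normalizerIn T X)).map ((normalizerIn T X).subtype.comp α.toMonoidHom) ≤ normalizerIn T X := by
      rintro _ ⟨u, -, rfl⟩
      exact (α u).2
    have hinja : Function.Injective ((normalizerIn T X).subtype.comp α.toMonoidHom) := F.injective_of_mem haF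
    have hχ₁img : (X.subgroupOf (((P ⊔ X).subgroupOf (normalizerIn T X)).map ((normalizerIn T X).subtype.comp α.toMonoidHom))).map χ₁ = X := by
      ext y
      rw [Cfsg.Agent.Lib.Fusion.LocalSystems.mem_map_subgroupOf]
      constructor
      · rintro ⟨⟨_, u, hu, rfl⟩, hw, rfl⟩
        have hu' : (u : Ω) ∈ P ⊔ X := Subgroup.mem_subgroupOf.1 hu
        have h3 := hχ₁e ⟨u, hu'⟩ ⟨u, hu, rfl⟩
        have e1 : Subgroup.inclusion hAY ⟨u, hu'⟩ = u := rfl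
        simp only [e1] at h3
        refine Eq.mpr (congrArg (fun w => w ∈ X) h3) ?_
        obtain ⟨u₁, hu₁, hu₁e⟩ := haX.ge hw
        have h4 : u₁ = u := hinja hu₁e
        have hux : (u : Ω) ∈ X := by
          rw [← h4]
          exact hu₁
        have h5 : ψ ⟨u, hu'⟩ ∈ X := h2.le ⟨⟨u, hu'⟩, hux, rfl⟩
        exact haX.le ⟨⟨_, hψv ⟨u, hu'⟩⟩, h5, rfl⟩
      · intro hy
        obtain ⟨z, hz, rfl⟩ := haX.ge hy
        obtain ⟨⟨z₂, hz₂A⟩, hz₂, hz₂e⟩ := h2.ge hz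
        have hz₂X : z₂ ∈ X := hz₂
        have hz₂Y : z₂ ∈ normalizerIn T X := hXY hz₂X
        have hmem : ((normalizerIn T X).subtype.comp α.toMonoidHom) ⟨z₂, hz₂Y⟩ ∈
            ((P ⊔ X).subgroupOf (normalizerIn T X)).map ((normalizerIn T X).subtype.comp α.toMonoidHom) :=
          ⟨⟨z₂, hz₂Y⟩, Subgroup.mem_subgroupOf.2 hz₂A, rfl⟩
        refine ⟨⟨_, hmem⟩, haX.le ⟨⟨z₂, hz₂Y⟩, hz₂X, rfl⟩, ?_⟩
        have h3 := hχ₁e ⟨z₂, hz₂A⟩ hmem
        refine Eq.trans h3 ?_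
        congr 1
        exact Subtype.ext hz₂e
    have hχ₁E' := mem_normalizerSystem hE' hXA' hA'Y hχ₁ hχ₁img
    have hPA' : (P.subgroupOf (normalizerIn T X)).map ((normalizerIn T X).subtype.comp α.toMonoidHom) ≤
        ((P ⊔ X).subgroupOf (normalizerIn T X)).map ((normalizerIn T X).subtype.comp α.toMonoidHom) := by
      rintro _ ⟨u, hu, rfl⟩
      exact ⟨u, Subgroup.mem_subgroupOf.2 (le_sup_left (a := P) (Subgroup.mem_subgroupOf.1 hu)), rfl⟩
    refine ⟨χ₁.comp (Subgroup.inclusion hPA'), res_mem hχ₁E' hPA', fun x hφx hαx => ?_⟩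
    have h3 := hχ₁e (Subgroup.inclusion le_sup_left x) (hPA' hαx)
    refine Eq.trans h3 ?_
    show ((α ⟨ψ (Subgroup.inclusion le_sup_left x), _⟩ : normalizerIn T X) : Ω) = _
    congr 2
    exact Subtype.ext (h1 x)
  · -- Frattini
    intro P hPY φ hφ
    obtain ⟨hφF, hPN, hv, ψ, hψ, h1, h2⟩ := hφ
    have hAY : P ⊔ X ≤ normalizerIn T X := sup_le hPY hXY
    have hAT : P ⊔ X ≤ T := hAY.trans hYT
    obtain ⟨α₁, hα₁, φ₁, hφ₁, hfr⟩ := hinv.2.2.2 (P ⊔ X) hAT ψ hψ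
    have hφ₁T : ∀ u, φ₁ u ∈ T := (E.le_of_mem hφ₁).2
    have hfr' : ∀ u, ψ u = ((α₁ ⟨φ₁ u, hφ₁T u⟩ : T) : Ω) := fun u => hfr u (hφ₁T u)
    have hXA : X ≤ P ⊔ X := le_sup_right
    have hconj₀ : E.IsConj X ((X.subgroupOf (P ⊔ X)).map φ₁) := by
      refine ⟨φ₁.comp (Subgroup.inclusion hXA), res_mem hφ₁ hXA, ?_⟩
      ext y
      constructor
      · rintro ⟨z, rfl⟩
        exact ⟨Subgroup.inclusion hXA z, z.2, rfl⟩
      · rintro ⟨z, hz, rfl⟩
        exact ⟨⟨z, hz⟩, rfl⟩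
    obtain ⟨χ, hχ, hχv, hχm⟩ := exists_map_to_fullyNormalized hTp hEs hEX (Basic.IsConj.symm hconj₀)
    have hφ₁N : ∀ u : ↥(P ⊔ X), φ₁ u ∈ normalizerIn T ((X.subgroupOf (P ⊔ X)).map φ₁) := fun u =>
      ⟨hφ₁T u, map_mem_normalizer rfl u (hAY u.2).2⟩
    have hφ₀A := E.comp_mem hφ₁ hχ hφ₁N
    have hR₀X : ∀ u : ↥(P ⊔ X), (u : Ω) ∈ X → χ ⟨φ₁ u, hφ₁N u⟩ ∈ X := fun u hu =>
      hχm.le ⟨⟨_, hφ₁N u⟩, ⟨u, hu, rfl⟩, rfl⟩
    have himg : (X.subgroupOf (P ⊔ X)).map (χ.comp (φ₁.codRestrict _ hφ₁N)) = X := by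
      ext y
      rw [Cfsg.Agent.Lib.Fusion.LocalSystems.mem_map_subgroupOf]
      constructor
      · rintro ⟨u, hu, rfl⟩
        exact hR₀X u hu
      · intro hy
        obtain ⟨r, hr, rfl⟩ := (Cfsg.Agent.Lib.Fusion.LocalSystems.mem_map_subgroupOf _ _).1 (hχm.ge hy)
        obtain ⟨u, hu, hue⟩ := (Cfsg.Agent.Lib.Fusion.LocalSystems.mem_map_subgroupOf _ _).1 hr
        refine ⟨u, hu, ?_⟩
        show χ ⟨φ₁ u, hφ₁N u⟩ = _
        congr 1
        exact Subtype.ext hue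
    have hφ₀E' := mem_normalizerSystem hE' hXA hAY hφ₀A himg
    -- `α₁` carries `R₀` onto `X`
    have hα₁m := autGroup_mem_hom hTS hα₁
    have hα₁X : (((X.subgroupOf (P ⊔ X)).map φ₁).subgroupOf T).map (T.subtype.comp α₁.toMonoidHom) = X := by
      ext y
      rw [Cfsg.Agent.Lib.Fusion.LocalSystems.mem_map_subgroupOf]
      constructor
      · rintro ⟨r, hr, rfl⟩
        obtain ⟨u, hu, hue⟩ := (Cfsg.Agent.Lib.Fusion.LocalSystems.mem_map_subgroupOf _ _).1 hr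
        have e : r = ⟨φ₁ u, hφ₁T u⟩ := Subtype.ext hue.symm
        rw [e]
        show ((α₁ ⟨φ₁ u, hφ₁T u⟩ : T) : Ω) ∈ X
        rw [← hfr' u]
        exact h2.le ((Cfsg.Agent.Lib.Fusion.LocalSystems.mem_map_subgroupOf _ _).2 ⟨u, hu, rfl⟩)
      · intro hy
        obtain ⟨u, hu, rfl⟩ := (Cfsg.Agent.Lib.Fusion.LocalSystems.mem_map_subgroupOf _ _).1 (h2.ge hy)
        exact ⟨⟨φ₁ u, hφ₁T u⟩, (Cfsg.Agent.Lib.Fusion.LocalSystems.mem_map_subgroupOf _ _).2 ⟨u, hu, rfl⟩, (hfr' u).symm⟩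
    -- orders
    have hcard : Nat.card (normalizerIn T X) ≤ Nat.card (normalizerIn T ((X.subgroupOf (P ⊔ X)).map φ₁)) := by
      have hα₁Xinv : (X.subgroupOf T).map (T.subtype.comp (α₁⁻¹).toMonoidHom) = (X.subgroupOf (P ⊔ X)).map φ₁ := by
        ext y
        rw [Cfsg.Agent.Lib.Fusion.LocalSystems.mem_map_subgroupOf]
        constructor
        · rintro ⟨t, ht, rfl⟩
          obtain ⟨r, hr, hre⟩ := (Cfsg.Agent.Lib.Fusion.LocalSystems.mem_map_subgroupOf _ _).1 (hα₁X.ge ht)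
          have e : α₁ r = t := Subtype.ext hre
          have e2 : α₁⁻¹ t = r := by rw [← e]; simp
          show ((α₁⁻¹ t : T) : Ω) ∈ _
          rw [e2]
          exact hr
        · intro hy
          have hyT : y ∈ T := by
            obtain ⟨u, -, rfl⟩ := (Cfsg.Agent.Lib.Fusion.LocalSystems.mem_map_subgroupOf _ _).1 hy
            exact hφ₁T u
          refine ⟨α₁ ⟨y, hyT⟩, hα₁X.le ((Cfsg.Agent.Lib.Fusion.LocalSystems.mem_map_subgroupOf _ _).2 ⟨⟨y, hyT⟩, hy, rfl⟩), ?_⟩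
          simp
      have hval : ∀ y : normalizerIn T X, ((α₁⁻¹ ⟨y, hYT y.2⟩ : T) : Ω) ∈ normalizerIn T ((X.subgroupOf (P ⊔ X)).map φ₁) := fun y =>
        ⟨(α₁⁻¹ ⟨y, hYT y.2⟩).2, map_mem_normalizer hα₁Xinv ⟨y, hYT y.2⟩ y.2.2⟩
      haveI : Finite (normalizerIn T ((X.subgroupOf (P ⊔ X)).map φ₁)) := finite_of_le inf_le_left
      refine Nat.card_le_card_of_injective (fun y => (⟨_, hval y⟩ : normalizerIn T ((X.subgroupOf (P ⊔ X)).map φ₁))) ?_
      intro a b hab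
      have h3 : α₁⁻¹ ⟨a, hYT a.2⟩ = α₁⁻¹ ⟨b, hYT b.2⟩ := Subtype.ext (congrArg (fun t : normalizerIn T ((X.subgroupOf (P ⊔ X)).map φ₁) => (t : Ω)) hab)
      have h4 := (α₁⁻¹).injective h3
      exact Subtype.ext (congrArg (fun t : T => (t : Ω)) h4)
    have hχr : χ.range = normalizerIn T X := range_eq_of_card hχ hχv hcard
    obtain ⟨ξ, hξ, hξr, hξ1, hξ2⟩ := exists_inv hχ hχr
    have hξN : ∀ y, ξ y ∈ normalizerIn T ((X.subgroupOf (P ⊔ X)).map φ₁) := fun y => hξr.le ⟨y, rfl⟩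
    have hξT : ∀ y, ξ y ∈ T := fun y => (hξN y).1
    have haF := F.comp_mem (hinv.1 _ hξ) hα₁m hξT
    have hav : ∀ y, ((T.subtype.comp α₁.toMonoidHom).comp (ξ.codRestrict T hξT)) y ∈ normalizerIn T X := fun y =>
      ⟨(α₁ ⟨ξ y, hξT y⟩).2, map_mem_normalizer hα₁X ⟨ξ y, hξT y⟩ (hξN y).2⟩
    have hξχ : ∀ (r : normalizerIn T ((X.subgroupOf (P ⊔ X)).map φ₁)), ξ ⟨χ r, hχv r⟩ = r := fun r =>
      hξ1 r (hχv r)
    have haimg : (X.subgroupOf (normalizerIn T X)).map ((T.subtype.comp α₁.toMonoidHom).comp (ξ.codRestrict T hξT)) = X := by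
      ext y
      rw [Cfsg.Agent.Lib.Fusion.LocalSystems.mem_map_subgroupOf]
      constructor
      · rintro ⟨z, hz, rfl⟩
        obtain ⟨r, hr, hre⟩ := (Cfsg.Agent.Lib.Fusion.LocalSystems.mem_map_subgroupOf _ _).1 (hχm.ge hz)
        have e : z = ⟨χ r, hχv r⟩ := Subtype.ext hre.symm
        have e2 : ξ z = r := by rw [e]; exact hξχ r
        refine hα₁X.le ((Cfsg.Agent.Lib.Fusion.LocalSystems.mem_map_subgroupOf _ _).2 ⟨⟨ξ z, hξT z⟩, ?_, rfl⟩)
        show ξ z ∈ _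
        rw [e2]
        exact hr
      · intro hy
        obtain ⟨r, hr, rfl⟩ := (Cfsg.Agent.Lib.Fusion.LocalSystems.mem_map_subgroupOf _ _).1 (hα₁X.ge hy)
        have hrN : (r : Ω) ∈ normalizerIn T ((X.subgroupOf (P ⊔ X)).map φ₁) := by
          refine ⟨r.2, ?_⟩
          exact Subgroup.le_normalizer hr
        have hχrX : χ ⟨r, hrN⟩ ∈ X := hχm.le ⟨⟨r, hrN⟩, hr, rfl⟩
        refine ⟨⟨χ ⟨r, hrN⟩, hχv _⟩, hχrX, ?_⟩
        have e : (⟨ξ ⟨χ ⟨r, hrN⟩, hχv _⟩, hξT _⟩ : T) = r := Subtype.ext (hξχ ⟨r, hrN⟩)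
        show ((α₁ ⟨ξ ⟨χ ⟨r, hrN⟩, hχv _⟩, hξT _⟩ : T) : Ω) = _
        rw [e]
        rfl
    have haF' := mem_normalizerSystem hF' hXY hYM haF haimg
    refine ⟨_, autOfHom_mem haF' hav, (χ.comp (φ₁.codRestrict _ hφ₁N)).comp (Subgroup.inclusion le_sup_left),
      res_mem hφ₀E' le_sup_left, fun x hx => ?_⟩
    show φ x = ((α₁ ⟨ξ ⟨χ ⟨φ₁ (Subgroup.inclusion le_sup_left x), hφ₁N _⟩, _⟩, _⟩ : T) : Ω)
    rw [← h1 x, hfr']
    congr 2
    apply Subtype.ext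
    exact (hξχ ⟨φ₁ (Subgroup.inclusion le_sup_left x), hφ₁N _⟩).symm
  · -- extension
    intro α hα
    have hsubE : (normalizerSystem E X hXT).IsSubsystemOf E := fun P φ (hφ : φ ∈ E.normalizerHom X P) => hφ.1
    have hαE : α ∈ E.autGroup (normalizerIn T X) :=
      Cfsg.Agent.Lib.Fusion.NormalPair.autGroup_le_of_subsystem hsubE _ hα
    have hYc : E.IsCentric (normalizerIn T X) := by
      refine ⟨hYT, ?_⟩
      rintro _ ⟨φ, hφ, rfl⟩
      have hconj₀ : E.IsConj X ((X.subgroupOf (normalizerIn T X)).map φ) := by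
        refine ⟨φ.comp (Subgroup.inclusion hXY), res_mem hφ hXY, ?_⟩
        ext y
        constructor
        · rintro ⟨z, rfl⟩
          exact ⟨Subgroup.inclusion hXY z, z.2, rfl⟩
        · rintro ⟨z, hz, rfl⟩
          exact ⟨⟨z, hz⟩, rfl⟩
      have h1 := hEX.2 _ hconj₀
      have hφN : ∀ u, φ u ∈ normalizerIn T ((X.subgroupOf (normalizerIn T X)).map φ) := fun u =>
        ⟨(E.le_of_mem hφ).2 u, map_mem_normalizer rfl u u.2.2⟩
      haveI : Finite (normalizerIn T ((X.subgroupOf (normalizerIn T X)).map φ)) := finite_of_le inf_le_left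
      have hr := range_eq_of_card hφ hφN h1
      rw [hr]
      intro c hc
      refine ⟨hc.1, ?_⟩
      have hle : (X.subgroupOf (normalizerIn T X)).map φ ≤ normalizerIn T ((X.subgroupOf (normalizerIn T X)).map φ) := by
        rintro _ ⟨z, hz, rfl⟩
        exact hφN z
      exact Subgroup.centralizer_le_normalizer _ (Subgroup.centralizer_le hle hc.2)
    obtain ⟨β, hβ⟩ := exists_good_all hS hF hE _ hYc α hαE
    have e : centralizerIn (normalizerIn S X) (normalizerIn T X) = centralizerIn S (normalizerIn T X) := by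
      ext c
      constructor
      · rintro ⟨h1, h2⟩
        exact ⟨h1.1, h2⟩
      · rintro ⟨h1, h2⟩
        refine ⟨⟨h1, ?_⟩, h2⟩
        exact Subgroup.centralizer_le_normalizer _ (Subgroup.centralizer_le hXY h2)
    have hHS := hat_le (S := S) (hYT.trans hTS)
    have hHM : hat S (normalizerIn T X) ≤ normalizerIn S X := by
      refine sup_le hYM ?_
      intro c hc
      exact ⟨hc.1, Subgroup.centralizer_le_normalizer _ (Subgroup.centralizer_le hXY hc.2)⟩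
    have hαF' := autGroup_mem_hom (F := normalizerSystem E X hXT) le_rfl hα
    have hαX := nhom_map_eq hαF' hXY
    have keyH : ∃ β ∈ (normalizerSystem F X hXS).autGroup (hat S (normalizerIn T X)), (∀ x : ↥(normalizerIn T X), ((β (Subgroup.inclusion le_sup_left x) : ↥(hat S (normalizerIn T X))) : Ω) = ((α x : normalizerIn T X) : Ω)) ∧
        ∀ c : ↥(hat S (normalizerIn T X)), (c : Ω) ∈ centralizerIn S (normalizerIn T X) → (c : Ω)⁻¹ * ((β c : ↥(hat S (normalizerIn T X))) : Ω) ∈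
          normalizerIn T X ⊓ Subgroup.centralizer (normalizerIn T X : Set Ω) := by
      refine ⟨β, ?_, hβ.res, hβ.cen⟩
      apply mem_autGroup_of_mem
      refine mem_normalizerSystem hF' ((hXY.trans (le_hat _))) hHM (autGroup_mem_hom hHS hβ.mem) ?_
      ext y
      rw [Cfsg.Agent.Lib.Fusion.LocalSystems.mem_map_subgroupOf]
      constructor
      · rintro ⟨⟨z, hzH⟩, hz, rfl⟩
        have hzX : z ∈ X := hz
        have h1 := hβ.res ⟨z, hXY hzX⟩
        have e2 : Subgroup.inclusion (le_hat (normalizerIn T X)) ⟨z, hXY hzX⟩ = (⟨z, hzH⟩ : ↥(hat S (normalizerIn T X))) := rfl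
        rw [e2] at h1
        show ((β ⟨z, hzH⟩ : ↥(hat S (normalizerIn T X))) : Ω) ∈ X
        rw [h1]
        exact hαX.le ⟨⟨z, hXY hzX⟩, hzX, rfl⟩
      · intro hy
        obtain ⟨u, hu, rfl⟩ := hαX.ge hy
        have hu' : (u : Ω) ∈ X := hu
        exact ⟨⟨u, le_hat _ u.2⟩, hu', hβ.res u⟩
    have key : ∀ C : Subgroup Ω, C = centralizerIn S (normalizerIn T X) → ∃ β ∈ (normalizerSystem F X hXS).autGroup (normalizerIn T X ⊔ C),
        (∀ x : ↥(normalizerIn T X), ((β (Subgroup.inclusion le_sup_left x) : ↥(normalizerIn T X ⊔ C)) : Ω) = ((α x : normalizerIn T X) : Ω)) ∧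
        ∀ c : ↥(normalizerIn T X ⊔ C), (c : Ω) ∈ C → (c : Ω)⁻¹ * ((β c : ↥(normalizerIn T X ⊔ C)) : Ω) ∈
          normalizerIn T X ⊓ Subgroup.centralizer (normalizerIn T X : Set Ω) := by
      rintro _ rfl
      exact keyH
    exact key _ e
end Pair

end Cfsg.Agent.Lib.Fusion.CenFix
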