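/-
The constrained case, `p` odd: if `x ∈ C_S(T)` is fixed by `N_E(J(T))` then `x ∈ C_S(E)`.
-/
import Mathlib
import Cfsg.Agent.Lib.Fusion.CenFix3
import Cfsg.Agent.Lib.Fusion.GT.WeakCenter
import Cfsg.Agent.Lib.Fusion.WeakControl
import Cfsg.Agent.Lib.Fusion.ModelUniq
import Cfsg.Agent.Lib.Fusion.ResidSeries

set_option autoImplicit false
set_option linter.style.haveILetI false
set_option linter.unusedSectionVars false

namespace Cfsg.Agent.Lib.Fusion.CenFix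

open Cfsg Cfsg.FusionSystem Cfsg.Agent.Lib.Fusion.Basic Cfsg.Agent.Lib.Fusion.Saturated
open Cfsg.Agent.Lib.Fusion.GoodLift
open Cfsg.Agent.Lib.Fusion.CLiftG
open Cfsg.Agent.Lib.Fusion.NormalPair (stronglyClosed_apply strongClause)
open Cfsg.Agent.Lib.Fusion.NormalCR
open Cfsg.Agent.Lib.Fusion.Saturated2 (autOfHom autOfHom_mem)
open Cfsg.Agent.Lib.Fusion.LocalSystems (map_mem_sup_of_ext range_ext_eq normalizerSystem normalizerSystem_isNormalizerSystem)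
open Cfsg.Agent.Lib.Fusion.ModelLocal (mem_normalizerSystem isCentric_of_isNormal)
open Cfsg.Agent.Lib.Fusion.Joins (exists_hom_of_eq isNormal_core)
open Cfsg.Agent.Lib.PGroup.ZJ
open Cfsg.Agent.Lib.Fusion.GT.WeakChain
open Cfsg.Agent.Lib.Fusion.Model (coreIn mem_coreIn isNormal_coreIn exists_hom_of_conj exists_conj_of_mem pCore_le_range)

universe u

variable {Ω : Type u} [Group Ω] {S T : Subgroup Ω} {F : FusionSystem S} {E : FusionSystem T}
variable [Finite S] {p : ℕ} [hp : Fact p.Prime] {O : Subgroup Ω}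

/-- Comparing a lift fixing `x` with a good lift fixing `x ζ`. -/
theorem fix_of_two (hS : IsPGroup p S) (hF : F.IsSaturated p) (hO : F.IsNormal O) {a : MulAut O} {ρ : MulAut ↥(hat S O)}
    (hρ : IsGood F O ρ a) {x ζ : Ω} (hxO : x ∈ centralizerIn S O) (hζ : ζ ∈ Zc O) (h2 : x * ζ ∈ centralizerIn S O)
    (hρfix : ρ ⟨x * ζ, cen_le_hat O h2⟩ = ⟨x * ζ, cen_le_hat O h2⟩)
    (hMv : Mv F (O.subtype.comp a.toMonoidHom) x x) {n : ℕ} (hn : a ^ n = 1) (hco : n.Coprime p) :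
    a ⟨ζ, Zc.left hζ⟩ = ⟨ζ, Zc.left hζ⟩ := by
  classical
  have hOS : O ≤ S := hO.1
  have hOp : IsPGroup p O := isPGroup_of_le hS hOS
  obtain ⟨ψ₁, hψ₁, hψa, hψx⟩ := hMv
  set ζO : O := ⟨ζ, Zc.left hζ⟩ with hζO
  have hxU : x ∈ (O ⊔ Subgroup.zpowers x) := le_sup_right (a := O) (Subgroup.mem_zpowers x)
  have hUO : (O ⊔ Subgroup.zpowers x) ≤ hat S O := sup_le (le_hat O) ((Subgroup.zpowers_le).2 (cen_le_hat O hxO))
  have hψv : ∀ u, ψ₁ u ∈ (O ⊔ Subgroup.zpowers x) := by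
    intro u
    refine map_mem_sup_of_ext ψ₁ (fun z => ?_) (fun z => ?_) u
    · rw [hψa]
      exact le_sup_left (a := O) (a z).2
    · obtain ⟨_, k, rfl⟩ := z
      have e : Subgroup.inclusion (le_sup_right : Subgroup.zpowers x ≤ (O ⊔ Subgroup.zpowers x)) ⟨_, k, rfl⟩ = (⟨x, hxU⟩ : ↥(O ⊔ Subgroup.zpowers x)) ^ k := by
        apply Subtype.ext
        rfl
      rw [e, map_zpow, hψx]
      exact (O ⊔ Subgroup.zpowers x).zpow_mem hxU k
  let k₀ : ↥(O ⊔ Subgroup.zpowers x) →* Ω := resLift ρ⁻¹ hUO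
  have hk₀ : k₀ ∈ F.Hom (O ⊔ Subgroup.zpowers x) := resLift_mem hOS (Subgroup.inv_mem _ hρ.mem) hUO
  let k : ↥(O ⊔ Subgroup.zpowers x) →* Ω := k₀.comp (ψ₁.codRestrict (O ⊔ Subgroup.zpowers x) hψv)
  have hk : k ∈ F.Hom (O ⊔ Subgroup.zpowers x) := F.comp_mem hψ₁ hk₀ hψv
  have hkP : ∀ z : O, k (Subgroup.inclusion le_sup_left z) = z := by
    intro z
    have e : (ψ₁.codRestrict (O ⊔ Subgroup.zpowers x) hψv) (Subgroup.inclusion le_sup_left z) = Subgroup.inclusion le_sup_left (a z) :=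
      Subtype.ext (hψa z)
    show k₀ ((ψ₁.codRestrict (O ⊔ Subgroup.zpowers x) hψv) (Subgroup.inclusion le_sup_left z)) = z
    rw [e]
    have h1 := (hρ.inv hOS).res (a z)
    refine h1.trans ?_
    simp
  -- the value at `x`
  set w : Ω := ζ * ((a⁻¹ ζO : O) : Ω)⁻¹ with hw
  have hζ' : ((a⁻¹ ζO : O) : Ω) ∈ Zc O := map_zc a⁻¹ (z := ζO) hζ
  have hwZ : w ∈ Zc O := (Zc O).mul_mem hζ ((Zc O).inv_mem hζ')
  have hρinv : ρ⁻¹ ⟨x * ζ, cen_le_hat O h2⟩ = ⟨x * ζ, cen_le_hat O h2⟩ := by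
    nth_rewrite 1 [← hρfix]
    simp
  have hkx : k ⟨x, le_sup_right (a := O) (Subgroup.mem_zpowers x)⟩ = x * w := by
    have e : (ψ₁.codRestrict (O ⊔ Subgroup.zpowers x) hψv) ⟨x, hxU⟩ = ⟨x, hxU⟩ := Subtype.ext hψx
    show k₀ ((ψ₁.codRestrict (O ⊔ Subgroup.zpowers x) hψv) ⟨x, hxU⟩) = x * w
    rw [e]
    show (((ρ⁻¹) ⟨x, cen_le_hat O hxO⟩ : ↥(hat S O)) : Ω) = x * w
    have e1 : (⟨x * ζ, cen_le_hat O h2⟩ : ↥(hat S O)) = ⟨x, cen_le_hat O hxO⟩ * Subgroup.inclusion (le_hat O) ζO := rfl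
    rw [e1, map_mul] at hρinv
    have h3 := congrArg (fun t : ↥(hat S O) => (t : Ω)) hρinv
    have h4 : ((ρ⁻¹ (Subgroup.inclusion (le_hat O) ζO) : ↥(hat S O)) : Ω) = ((a⁻¹ ζO : O) : Ω) := (hρ.inv hOS).res ζO
    simp only [Subgroup.coe_mul] at h3
    rw [h4] at h3
    have h5 : (((ρ⁻¹) ⟨x, cen_le_hat O hxO⟩ : ↥(hat S O)) : Ω) = x * ζ * ((a⁻¹ ζO : O) : Ω)⁻¹ := by
      exact eq_mul_inv_of_mul_eq h3
    rw [h5, hw]
    simp [mul_assoc]
  have hcl := cl_fn hS hF (fc_of_normal hS hF hO) hρ hxO hk hkP hwZ hkx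
  -- `ε`
  obtain ⟨ε, hε⟩ : ∃ ε : O, ε = a ζO * ζO⁻¹ := ⟨_, rfl⟩
  have hwe : (⟨w, Zc.left hwZ⟩ : O) = ζO * (a⁻¹ ζO)⁻¹ := Subtype.ext rfl
  have haw : a ⟨w, Zc.left hwZ⟩ = ε := by
    rw [hwe, map_mul, map_inv]
    simp [hε]
  have hwε : w = ε := by
    rw [← haw]
    exact hcl.symm
  have haε : a ε = ε := by
    have e : ε = ⟨w, Zc.left hwZ⟩ := Subtype.ext hwε.symm
    nth_rewrite 1 [e]
    exact haw
  have haζ : a ζO = ε * ζO := by
    rw [hε]
    group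
  have hpow : ∀ j : ℕ, (a ^ j) ζO = ε ^ j * ζO := by
    intro j
    induction j with
    | zero => simp
    | succ j ih =>
      rw [pow_succ', MulAut.mul_apply, ih, map_mul, map_pow, haε, haζ, pow_succ, mul_assoc]
  have h1 := hpow n
  rw [hn, MulAut.one_apply] at h1
  have h2' : ε ^ n = 1 := (right_eq_mul.1 h1)
  have h3 := Cfsg.Agent.Lib.Fusion.LiftSys.eq_one_of_pow_coprime hOp hco h2'
  rw [haζ, h3, one_mul]

section Constrained

variable {L : Type u} [Group L] {ι : T →* L}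

/-- Conjugation stays in the image on a join. -/
theorem conj_range_sup [Finite T] {A B : Subgroup Ω} (hA : A ≤ T) (hB : B ≤ T) (g : L)
    (h1 : ∀ r : A, g * ι ⟨r, hA r.2⟩ * g⁻¹ ∈ ι.range) (h2 : ∀ r : B, g * ι ⟨r, hB r.2⟩ * g⁻¹ ∈ ι.range)
    (r : ↥(A ⊔ B)) : g * ι ⟨r, (sup_le hA hB) r.2⟩ * g⁻¹ ∈ ι.range := by
  let W : Subgroup Ω := ((ι.range.comap (MulAut.conj g).toMonoidHom).comap ι).map T.subtype
  have hAW : A ≤ W := fun a ha => ⟨⟨a, hA ha⟩, h1 ⟨a, ha⟩, rfl⟩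
  have hBW : B ≤ W := fun a ha => ⟨⟨a, hB ha⟩, h2 ⟨a, ha⟩, rfl⟩
  obtain ⟨s, hs, hse⟩ := (sup_le hAW hBW) r.2
  have hss : s = ⟨r, (sup_le hA hB) r.2⟩ := Subtype.ext hse
  rw [hss] at hs
  exact hs

/-- **The constrained case** for odd `p`: an element of `C_S(T)` fixed by `N_E(J(T))` lies in `C_S(E)`. -/
theorem mem_CC_of_constrained (hp2 : p ≠ 2) (hS : IsPGroup p S) (hF : F.IsSaturated p) (hE : E.IsNormalIn F p)
    (hOc : centralizerIn T E.core ≤ E.core) {x : Ω} (hx : x ∈ centralizerIn S T)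
    (H : ∀ (P : Subgroup Ω) (φ : P →* Ω), φ ∈ E.normalizerHom (JJ 0 T) P → Mv F φ x x) : x ∈ CC hS hF hE := by
  classical
  have hTS : T ≤ S := hE.1.2.2.2.1.1
  have hTp : IsPGroup p T := isPGroup_of_le hS hTS
  haveI hfinT : Finite T := finite_of_le hTS
  have hEs : E.IsSaturated p := hE.1.1
  have hO : F.IsNormal E.core := Cfsg.Agent.Lib.Fusion.ResidSeries.isNormal_core_of_isNormalIn hS hF hE
  have hOE : E.IsNormal E.core := isNormal_core E
  have hOT : E.core ≤ T := hOE.1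
  have hOcen : E.IsCentric E.core := isCentric_of_isNormal hOE hOc
  haveI hfinO : Finite E.core := finite_of_le hOT
  obtain ⟨ζ, hζ, hζT, hfix⟩ := exists_zeta hS hF hE hO hOT hOcen hx
  have hζO : ζ ∈ E.core := Zc.left hζ
  have hζTT : ζ ∈ T := hOT hζO
  have hζS : ζ ∈ S := hTS hζTT
  have hζC : ζ ∈ centralizerIn S T := ⟨hζS, Subgroup.mem_centralizer_iff.2 fun t ht => hζT t ht⟩
  have hy : x * ζ ∈ centralizerIn S T := (centralizerIn S T).mul_mem hx hζC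
  have hyO : x * ζ ∈ centralizerIn S E.core := cen_mono hOT hy
  have hxO : x ∈ centralizerIn S E.core := cen_mono hOT hx
  have hyCC : x * ζ ∈ CC hS hF hE := by
    refine mem_CC_of_fix_O hS hF hE hO hOE hOcen hy (fun a ha => ?_)
    obtain ⟨ρ, hρ, hρy⟩ := hfix a ha
    exact ⟨ρ, hρ, hρy (cen_mono hOE.1 hy)⟩
  suffices hζCC : ζ ∈ CC hS hF hE by
    have : x = (x * ζ) * ζ⁻¹ := by group
    rw [this]
    exact mul_mem hyCC (inv_mem hζCC)
  -- the model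
  obtain ⟨L, _, ι, hG⟩ := Cfsg.Agent.Lib.Fusion.ModelF.exists_model hTp (⟨hEs, E.core, hOE, hOcen⟩ : E.IsConstrained p)
  obtain ⟨hfin, hreal, ⟨Y, hY⟩, hcent⟩ := id hG
  haveI := hfin
  have hinj : Function.Injective ι := hreal.1
  have hgO : ∀ (g : L) (q : E.core), ∃ q' : E.core, g * ι ⟨q, hOT q.2⟩ * g⁻¹ = ι ⟨q', hOT q'.2⟩ := fun g q =>
    Cfsg.Agent.Lib.Fusion.ModelUniq.exists_conj_Q hreal hY hcent hOE hOT (StronglyClosed.le_normalizer (IsNormal.stronglyClosed hOE)) g q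
  set z : L := ι ⟨ζ, hζTT⟩ with hz
  have hzY : z ∈ (Y : Subgroup L) := by
    rw [hY]
    exact ⟨_, rfl⟩
  -- elements of the normalizer of `J(Y)`
  have hJJY : JJ 0 (Y : Subgroup L) = JJ 0 ι.range := by rw [hY]
  have hJT : JJ 0 T ≤ T := JJ_le 0 T
  have hPT : E.core ⊔ JJ 0 T ≤ T := sup_le hOT hJT
  have hpp : ∀ g : L, g ∈ Subgroup.normalizer ((JJ 0 (Y : Subgroup L) : Subgroup L) : Set L) → Nat.Coprime (orderOf g) p → g * z = z * g := by
    intro g hg hco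
    have hg' := Subgroup.mem_normalizer_iff.1 hg
    have hv1 : ∀ r : E.core, g * ι ⟨r, hOT r.2⟩ * g⁻¹ ∈ ι.range := fun r => by
      obtain ⟨q', hq'⟩ := hgO g r
      rw [hq']
      exact ⟨_, rfl⟩
    have hJmem : ∀ r : JJ 0 T, ι ⟨r, hJT r.2⟩ ∈ JJ 0 (Y : Subgroup L) := fun r => by
      rw [hJJY]
      exact (mem_JJ_range_iff ι hinj _).2 r.2
    have hJr : ∀ w ∈ JJ 0 (Y : Subgroup L), ∃ t : JJ 0 T, ι ⟨t, hJT t.2⟩ = w := by
      intro w hw
      have hwY : w ∈ (Y : Subgroup L) := JJ_le 0 _ hw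
      rw [hY] at hwY
      obtain ⟨t, rfl⟩ := hwY
      rw [hJJY] at hw
      exact ⟨⟨t, (mem_JJ_range_iff ι hinj _).1 hw⟩, rfl⟩
    have hv2 : ∀ r : JJ 0 T, g * ι ⟨r, hJT r.2⟩ * g⁻¹ ∈ ι.range := fun r => by
      have h1 : g * ι ⟨r, hJT r.2⟩ * g⁻¹ ∈ JJ 0 (Y : Subgroup L) := (hg' _).1 (hJmem r)
      have h2 := JJ_le 0 _ h1
      rwa [hY] at h2
    obtain ⟨φ, hφ, hφe⟩ := exists_hom_of_conj hreal hPT g (conj_range_sup hOT hJT g hv1 hv2)
    have hJP : JJ 0 T ≤ E.core ⊔ JJ 0 T := le_sup_right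
    have hOP : E.core ≤ E.core ⊔ JJ 0 T := le_sup_left
    -- `φ` normalizes `J(T)`
    have himg : ((JJ 0 T).subgroupOf (E.core ⊔ JJ 0 T)).map φ = JJ 0 T := by
      ext y
      constructor
      · rintro ⟨r, hr, rfl⟩
        obtain ⟨hs, he⟩ := hφe r
        have h1 : g * ι ⟨r, hJT hr⟩ * g⁻¹ ∈ JJ 0 (Y : Subgroup L) := (hg' _).1 (hJmem ⟨r, hr⟩)
        rw [← he, hJJY] at h1
        exact (mem_JJ_range_iff ι hinj _).1 h1
      · intro hy
        have h1 := hJmem ⟨y, hy⟩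
        have h2 : g⁻¹ * ι ⟨y, hJT hy⟩ * g ∈ JJ 0 (Y : Subgroup L) := by
          refine (hg' _).2 ?_
          convert h1 using 1
          group
        obtain ⟨t, ht⟩ := hJr _ h2
        refine ⟨⟨t, hJP t.2⟩, t.2, ?_⟩
        obtain ⟨hs, he⟩ := hφe ⟨t, hJP t.2⟩
        have : (⟨φ ⟨t, hJP t.2⟩, hs⟩ : T) = ⟨y, hJT hy⟩ := by
          apply hinj
          rw [he]
          show g * ι ⟨t, hJT t.2⟩ * g⁻¹ = _
          rw [ht]
          group
        exact congrArg Subtype.val this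
    have hPN : E.core ⊔ JJ 0 T ≤ normalizerIn T (JJ 0 T) := by
      rw [Cfsg.Agent.Lib.Fusion.GT.WeakCenter.normalizerIn_JJ]
      exact hPT
    have hφN : φ ∈ E.normalizerHom (JJ 0 T) (E.core ⊔ JJ 0 T) :=
      Cfsg.Agent.Lib.Fusion.WeakControl.mem_normalizerHom hJP hPN hφ himg
    have hMv := (H _ φ hφN).res hOP
    -- the automorphism of `O`
    have ha₀ : φ.comp (Subgroup.inclusion hOP) ∈ E.Hom E.core := res_mem hφ hOP
    have ha₀v : ∀ q, (φ.comp (Subgroup.inclusion hOP)) q ∈ E.core := fun q =>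
      stronglyClosed_apply (IsNormal.stronglyClosed hOE) hφ (Subgroup.inclusion hOP q) q.2
    have hacv : ∀ q : E.core, ∃ hs : (φ.comp (Subgroup.inclusion hOP)) q ∈ T,
        ι ⟨(φ.comp (Subgroup.inclusion hOP)) q, hs⟩ = g * ι ⟨q, hOT q.2⟩ * g⁻¹ := fun q => hφe (Subgroup.inclusion hOP q)
    let a : MulAut E.core := autOfHom _ (E.injective_of_mem ha₀) ha₀v
    have haE : a ∈ E.autGroup E.core := autOfHom_mem ha₀ ha₀v
    have ha1 : ∀ q : E.core, ι ⟨(a q : E.core), hOT (a q).2⟩ = g * ι ⟨q, hOT q.2⟩ * g⁻¹ := fun q => by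
      obtain ⟨hs, he⟩ := hacv q
      exact he
    have hapow : ∀ (k : ℕ) (q : E.core), ι ⟨((a ^ k) q : E.core), hOT ((a ^ k) q).2⟩ = g ^ k * ι ⟨q, hOT q.2⟩ * (g ^ k)⁻¹ := by
      intro k
      induction k with
      | zero => intro q; simp
      | succ k ih =>
        intro q
        rw [pow_succ', MulAut.mul_apply, ha1, ih, pow_succ']
        group
    have hn : a ^ orderOf g = 1 := by
      ext q
      have h1 := hapow (orderOf g) q
      rw [pow_orderOf_eq_one] at h1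
      simp only [inv_one, one_mul, mul_one] at h1
      have h2 := hinj h1
      have h3 : (((a ^ orderOf g) q : E.core) : Ω) = q := congrArg (fun t : T => (t : Ω)) h2
      exact h3
    obtain ⟨ρ, hρ, hρy⟩ := hfix a haE
    have hMv' : Mv F (E.core.subtype.comp a.toMonoidHom) x x := hMv.eq_fun fun q => rfl
    have h3 := fix_of_two hS hF hO hρ hxO hζ hyO (hρy hyO) hMv' hn hco
    have h4 := ha1 ⟨ζ, hζO⟩
    rw [h3] at h4
    have h5 : z = g * z * g⁻¹ := h4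
    calc g * z = (g * z * g⁻¹) * g := by group
      _ = z * g := by rw [← h5]
  have hall : ∀ g ∈ Subgroup.normalizer ((JJ 0 (Y : Subgroup L) : Subgroup L) : Set L), g * z = z * g := by
    set N := Subgroup.normalizer ((JJ 0 (Y : Subgroup L) : Subgroup L) : Set L) with hN
    have hYN : (Y : Subgroup L) ≤ N := by
      intro y hy
      refine Subgroup.mem_normalizer_iff.2 fun w => ?_
      have hyi : y⁻¹ ∈ (Y : Subgroup L) := inv_mem hy
      have h1 : ∀ t ∈ (Y : Subgroup L), y * t * y⁻¹ ∈ (Y : Subgroup L) := fun t ht => mul_mem (mul_mem hy ht) hyi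
      have h2 : ∀ t ∈ (Y : Subgroup L), y⁻¹ * t * y ∈ (Y : Subgroup L) := fun t ht => mul_mem (mul_mem hyi ht) hy
      refine ⟨fun hw => conj_mem_JJ' h1 h2 hw, fun hw => ?_⟩
      have h3 := conj_mem_JJ' (s := y⁻¹) (by simpa using h2) (by simpa using h1) hw
      simpa [mul_assoc] using h3
    let A : Subgroup N := (Subgroup.centralizer ({z} : Set L)).subgroupOf N
    have hYA : ((Y.subtype hYN : Sylow p N) : Subgroup N) ≤ A := by
      rw [Sylow.coe_subtype]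
      intro y hy
      refine Subgroup.mem_subgroupOf.2 (Subgroup.mem_centralizer_iff.2 fun w hw => ?_)
      have hyY : (y : L) ∈ (Y : Subgroup L) := hy
      rw [hY] at hyY
      obtain ⟨t, ht⟩ := hyY
      rw [Set.mem_singleton_iff.1 hw, ← ht, hz, ← map_mul, ← map_mul]
      congr 1
      exact Subtype.ext (hζT t t.2).symm
    have htop := Cfsg.Agent.Lib.Fusion.LiftSys.eq_top_of_sylow_pprime (Y.subtype hYN) A hYA (fun g hg => ?_)
    · intro g hg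
      have h1 : (⟨g, hg⟩ : N) ∈ A := by
        rw [htop]
        trivial
      have h2 := Subgroup.mem_centralizer_iff.1 (Subgroup.mem_subgroupOf.1 h1) z rfl
      exact h2.symm
    · refine Subgroup.mem_subgroupOf.2 (Subgroup.mem_centralizer_iff.2 fun w hw => ?_)
      rw [Set.mem_singleton_iff.1 hw]
      refine (hpp (g : L) g.2 ?_).symm
      rwa [Subgroup.orderOf_coe]
  have hcentral : ∀ g : L, g * z * g⁻¹ = z := by
    intro g
    refine Cfsg.Agent.Lib.PGroup.WeakClosureMain.wc_all _ L rfl Y z hzY hall (Or.inl hp2) g ?_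
    obtain ⟨q', hq'⟩ := hgO g ⟨ζ, hζO⟩
    have : g * z * g⁻¹ = ι ⟨q', hOT q'.2⟩ := hq'
    rw [this, hY]
    exact ⟨_, rfl⟩
  -- `ζ` is fixed by all maps
  refine ⟨hζC, fun P α hα => ?_⟩
  have hPT' : P ≤ T := hα.le
  have hαE : α ∈ E.autGroup P := by
    rcases hα.1 with h | h
    · exact Cfsg.Agent.Lib.Fusion.PPrime.KK_le_autGroup E p P h.2
    · exact h.2
  have hαh := autGroup_mem_hom hPT' hαE
  obtain ⟨g, hg⟩ := exists_conj_of_mem hreal hαh
  have hαv := (E.le_of_mem hαh).2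
  have hZT : Subgroup.zpowers ζ ≤ T := (Subgroup.zpowers_le).2 hζTT
  have hv : ∀ r : ↥(P ⊔ Subgroup.zpowers ζ), g * ι ⟨r, (sup_le hPT' hZT) r.2⟩ * g⁻¹ ∈ ι.range := by
    refine conj_range_sup hPT' hZT g (fun r => ?_) (fun r => ?_)
    · rw [← hg r (hαv r) (hPT' r.2)]
      exact ⟨_, rfl⟩
    · obtain ⟨_, k, hk⟩ := r
      have e : (⟨ζ ^ k, hZT ⟨k, rfl⟩⟩ : T) = (⟨ζ, hζTT⟩ : T) ^ k := rfl
      subst hk
      show g * ι ⟨ζ ^ k, hZT ⟨k, rfl⟩⟩ * g⁻¹ ∈ _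
      rw [e, map_zpow]
      have : g * z ^ k * g⁻¹ = z ^ k := by
        rw [← conj_zpow, hcentral]
      show g * z ^ k * g⁻¹ ∈ _
      rw [this]
      exact ι.range.zpow_mem ⟨_, rfl⟩ k
  obtain ⟨ψ, hψ, hψe⟩ := exists_hom_of_conj hreal (sup_le hPT' hZT) g hv
  refine ⟨ψ, hE.1.2.2.1 _ hψ, fun u => ?_, ?_⟩
  · obtain ⟨hs, he⟩ := hψe (Subgroup.inclusion le_sup_left u)
    have h1 := hg u (hαv u) (hPT' u.2)
    have : (⟨ψ (Subgroup.inclusion le_sup_left u), hs⟩ : T) = ⟨(P.subtype.comp α.toMonoidHom) u, hαv u⟩ := by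
      apply hinj
      rw [he, h1]
      rfl
    exact congrArg Subtype.val this
  · obtain ⟨hs, he⟩ := hψe ⟨ζ, le_sup_right (a := P) (Subgroup.mem_zpowers ζ)⟩
    have h1 : (⟨ψ ⟨ζ, le_sup_right (a := P) (Subgroup.mem_zpowers ζ)⟩, hs⟩ : T) = ⟨ζ, hζTT⟩ := by
      apply hinj
      rw [he]
      exact hcentral g
    exact congrArg Subtype.val h1

end Constrained

end Cfsg.Agent.Lib.Fusion.CenFix
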