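/-
The transport lemmas for elements of `C_S(T)` fixed by normalizers in `E`.
-/
import Mathlib
import Cfsg.Agent.Lib.Fusion.CenFix4
import Cfsg.Agent.Lib.Fusion.AlperinInduct

set_option autoImplicit false
set_option linter.style.haveILetI false
set_option linter.unusedSectionVars false

namespace Cfsg.Agent.Lib.Fusion.CenFix

open Cfsg Cfsg.FusionSystem Cfsg.Agent.Lib.Fusion.Basic Cfsg.Agent.Lib.Fusion.Saturated
open Cfsg.Agent.Lib.Fusion.GoodLift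
open Cfsg.Agent.Lib.Fusion.CLiftG
open Cfsg.Agent.Lib.Fusion.NormalPair (stronglyClosed_apply strongClause)
open Cfsg.Agent.Lib.Fusion.NormalCR
open Cfsg.Agent.Lib.Fusion.Saturated2 (autOfHom autOfHom_mem)
open Cfsg.Agent.Lib.Fusion.LocalSystems (map_mem_sup_of_ext range_ext_eq normalizerSystem normalizerSystem_isNormalizerSystem mem_map_subgroupOf)
open Cfsg.Agent.Lib.Fusion.ModelLocal (mem_normalizerSystem isCentric_of_isNormal)
open Cfsg.Agent.Lib.Fusion.Joins (exists_hom_of_eq isNormal_core)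
open Cfsg.Agent.Lib.PGroup.ZJ
open Cfsg.Agent.Lib.Fusion.GT.WeakChain
open Cfsg.Agent.Lib.Fusion.WeakControl (mem_normalizerHom)

universe u

variable {Ω : Type u} [Group Ω] {S T : Subgroup Ω} {F : FusionSystem S} {E : FusionSystem T}

/-- `x` is fixed by `N_E(Q)`. -/
def FixN (F : FusionSystem S) (E : FusionSystem T) (Q : Subgroup Ω) (x : Ω) : Prop :=
  ∀ (P : Subgroup Ω) (φ : P →* Ω), φ ∈ E.normalizerHom Q P → Mv F φ x x

/-- `x` is fixed by `E`. -/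
def FixE (F : FusionSystem S) (E : FusionSystem T) (x : Ω) : Prop :=
  ∀ (P : Subgroup Ω) (φ : P →* Ω), φ ∈ E.Hom P → Mv F φ x x

/-- Pulling back `Mv` along a conjugation. -/
theorem Mv.of_conj [Finite S] {U A A₁ : Subgroup Ω} (hAU : A ≤ U) {θ : U →* Ω} {φ : A →* Ω} {φ₁ : A₁ →* Ω} {x x₁ : Ω}
    (hθ : θ ∈ F.Hom U) (hMv : Mv F θ x x₁) (hA₁ : ∀ a : A, θ (Subgroup.inclusion hAU a) ∈ A₁) (h1 : Mv F φ₁ x₁ x₁)
    (hv : ∀ a, φ a ∈ U)
    (hc : ∀ (a : A) (h : θ (Subgroup.inclusion hAU a) ∈ A₁), φ₁ ⟨θ (Subgroup.inclusion hAU a), h⟩ = θ ⟨φ a, hv a⟩) :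
    Mv F φ x x := by
  obtain ⟨ξ, hξ, hξr, hξ1, -⟩ := exists_inv hθ (Q := θ.range) rfl
  have h2 : Mv F ξ x₁ x := hMv.symm rfl hξ1
  have h3 := (hMv.res hAU).comp h1 hA₁
  have hv3 : ∀ a, (φ₁.comp ((θ.comp (Subgroup.inclusion hAU)).codRestrict A₁ hA₁)) a ∈ θ.range := fun a => by
    show φ₁ ⟨θ (Subgroup.inclusion hAU a), hA₁ a⟩ ∈ θ.range
    rw [hc a (hA₁ a)]
    exact ⟨_, rfl⟩
  refine (h3.comp h2 hv3).eq_fun fun a => ?_
  show ξ ⟨φ₁ ⟨θ (Subgroup.inclusion hAU a), hA₁ a⟩, _⟩ = φ a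
  have hm : θ ⟨φ a, hv a⟩ ∈ θ.range := ⟨_, rfl⟩
  have e : (⟨φ₁ ⟨θ (Subgroup.inclusion hAU a), hA₁ a⟩, hv3 a⟩ : θ.range) = ⟨θ ⟨φ a, hv a⟩, hm⟩ := Subtype.ext (hc a (hA₁ a))
  exact (congrArg ξ e).trans (hξ1 _ hm)

variable [Finite S] {p : ℕ} [hp : Fact p.Prime]

/-- Elements of `C_S(E)` are fixed by `E`. -/
theorem fixE_of_mem_CC (hS : IsPGroup p S) (hF : F.IsSaturated p) (hE : E.IsNormalIn F p) {x : Ω} (hx : x ∈ CC hS hF hE) :
    FixE F E x := by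
  intro P φ hφ
  obtain ⟨-, -, -, ψ, hψ, h1, h2⟩ := cen_CC hS hF hE P hφ
  have hU : P ⊔ Subgroup.zpowers x ≤ P ⊔ CC hS hF hE := sup_le_sup_left ((Subgroup.zpowers_le).2 hx) _
  refine ⟨ψ.comp (Subgroup.inclusion hU), res_mem hψ hU, fun a => h1 a, ?_⟩
  exact h2 ⟨x, hx⟩

/-- Elements of `C_S(T)` fixed by `E` lie in `C_S(E)`. -/
theorem mem_CC_of_fixE (hS : IsPGroup p S) (hF : F.IsSaturated p) (hE : E.IsNormalIn F p) {x : Ω}
    (hx : x ∈ centralizerIn S T) (h : FixE F E x) : x ∈ CC hS hF hE := by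
  refine ⟨hx, fun P α hα => ?_⟩
  have hPT : P ≤ T := hα.le
  have hαE : α ∈ E.autGroup P := by
    rcases hα.1 with h | h
    · exact Cfsg.Agent.Lib.Fusion.PPrime.KK_le_autGroup E p P h.2
    · exact h.2
  exact h P _ (autGroup_mem_hom hPT hαE)

theorem strongClause' (hE : E.IsInvariantIn F) {P Q A₁ : Subgroup Ω} (hPQ : P ≤ Q) (hQT : Q ≤ T) {φ : P →* Ω} (hφ : φ ∈ E.Hom P)
    (hφQ : ∀ x : P, φ x ∈ Q) {ψ : Q →* Ω} (hψ : ψ ∈ F.Hom Q) (hA₁ : A₁ = (P.subgroupOf Q).map ψ) :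
    ∃ χ ∈ E.Hom A₁, ∀ (x : P) (hx : ψ (Subgroup.inclusion hPQ x) ∈ A₁), χ ⟨ψ (Subgroup.inclusion hPQ x), hx⟩ = ψ ⟨φ x, hφQ x⟩ := by
  subst hA₁
  exact strongClause hE P Q hPQ hQT φ hφ hφQ ψ hψ

/-- Transport of the fixing property along a map of `F`. -/
theorem fixN_transport (hE : E.IsInvariantIn F) {Q Q₁ U : Subgroup Ω} (hU : U = normalizerIn T Q) (hQT : Q ≤ T) {θ : U →* Ω}
    (hθ : θ ∈ F.Hom U) {x x₁ : Ω} (hMv : Mv F θ x x₁) (hQ₁ : (Q.subgroupOf U).map θ = Q₁) (hfix : FixN F E Q₁ x₁) :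
    FixN F E Q x := by
  subst hU
  intro A φ hφ
  obtain ⟨hφE, hAN, hφv, φ', hφ', h1, h2⟩ := hφ
  have hTS : T ≤ S := hE.2.1.1
  have hUT : normalizerIn T Q ≤ T := inf_le_left
  have hQU : Q ≤ normalizerIn T Q := le_normalizerIn hQT
  have hA'U : A ⊔ Q ≤ normalizerIn T Q := sup_le hAN hQU
  have hφ'v : ∀ u : ↥(A ⊔ Q), φ' u ∈ normalizerIn T Q := by
    intro u
    refine map_mem_sup_of_ext φ' (fun a => ?_) (fun a => ?_) u
    · rw [h1]
      exact hφv a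
    · exact hQU (h2.le ⟨_, a.2, rfl⟩)
  obtain ⟨A₁, hA₁⟩ : ∃ A₁ : Subgroup Ω, A₁ = ((A ⊔ Q).subgroupOf (normalizerIn T Q)).map θ := ⟨_, rfl⟩
  obtain ⟨χ, hχ, hχe⟩ := strongClause' hE hA'U hUT hφ' hφ'v hθ hA₁
  have hQA : Q ≤ A ⊔ Q := le_sup_right
  haveI hfT : Finite T := finite_of_le hTS
  have hQ₁A₁ : Q₁ ≤ A₁ := by
    intro y hy
    rw [← hQ₁] at hy
    obtain ⟨u, hu, rfl⟩ := hy
    rw [hA₁]
    exact ⟨u, Subgroup.mem_subgroupOf.2 (hQA hu), rfl⟩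
  have hθT : ∀ u, θ u ∈ T := fun u => stronglyClosed_apply hE.2.1 hθ u (hUT u.2)
  have hθN : ∀ u, θ u ∈ Subgroup.normalizer (Q₁ : Set Ω) := fun u => Saturated.map_mem_normalizer hQ₁ u u.2.2
  have hA₁N : A₁ ≤ normalizerIn T Q₁ := by
    rw [hA₁]
    rintro _ ⟨u, -, rfl⟩
    exact ⟨hθT u, hθN u⟩
  -- `χ` preserves `Q₁`
  have hχe' : ∀ (u : ↥(A ⊔ Q)) (h : θ (Subgroup.inclusion hA'U u) ∈ A₁), χ ⟨θ (Subgroup.inclusion hA'U u), h⟩ = θ ⟨φ' u, hφ'v u⟩ := hχe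
  have hχimg : (Q₁.subgroupOf A₁).map χ = Q₁ := by
    ext y
    rw [mem_map_subgroupOf]
    constructor
    · rintro ⟨⟨y₁, hy₁⟩, hw, rfl⟩
      have hy₂ := hy₁
      rw [hA₁] at hy₂
      obtain ⟨v, hv, hve⟩ := hy₂
      subst hve
      have hv' : (v : Ω) ∈ A ⊔ Q := Subgroup.mem_subgroupOf.1 hv
      have hvQ : (v : Ω) ∈ Q := by
        have hw' : θ v ∈ Q₁ := hw
        rw [← hQ₁] at hw'
        obtain ⟨v', hv'Q, hv'e⟩ := hw'
        have := F.injective_of_mem hθ hv'e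
        rw [← this]
        exact hv'Q
      have h3 := hχe' ⟨v, hv'⟩ hy₁
      have e1 : Subgroup.inclusion hA'U ⟨v, hv'⟩ = v := rfl
      simp only [e1] at h3
      refine Eq.mpr (congrArg (fun w => w ∈ Q₁) h3) ?_
      rw [← hQ₁]
      exact ⟨_, h2.le ⟨_, hvQ, rfl⟩, rfl⟩
    · intro hy
      rw [← hQ₁] at hy
      obtain ⟨v, hv, rfl⟩ := hy
      have hv' : (v : Ω) ∈ Q := hv
      obtain ⟨w, hw, hwe⟩ := h2.ge hv'
      have hw' : (w : Ω) ∈ Q := hw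
      have hwv : θ (Subgroup.inclusion hA'U w) ∈ Q₁ := by
        rw [← hQ₁]
        exact ⟨_, hw', rfl⟩
      refine ⟨⟨_, hQ₁A₁ hwv⟩, hwv, ?_⟩
      have h3 := hχe' w (hQ₁A₁ hwv)
      refine h3.trans ?_
      congr 1
      exact Subtype.ext hwe
  have hχN : χ ∈ E.normalizerHom Q₁ A₁ := mem_normalizerHom hQ₁A₁ hA₁N hχ hχimg
  have hm1 := hfix _ χ hχN
  have hA₁' : ∀ a : ↥(A ⊔ Q), θ (Subgroup.inclusion hA'U a) ∈ A₁ := fun a => by
    rw [hA₁]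
    exact ⟨_, Subgroup.mem_subgroupOf.2 a.2, rfl⟩
  have hm2 : Mv F φ' x x := Mv.of_conj hA'U hθ hMv hA₁' hm1 hφ'v hχe'
  exact (hm2.res le_sup_left).eq_fun h1

/-- `J(T)` contains its centralizer in `T`. -/
theorem mem_JJ_of_comm_JJ {T : Subgroup Ω} [Finite T] {x : Ω} (hxT : x ∈ T) (hc : ∀ j ∈ JJ 0 T, x * j = j * x) : x ∈ JJ 0 T := by
  refine (mem_JJ_iff ⟨x, hxT⟩).2 ?_
  obtain ⟨U, hU⟩ := AA_nonempty 0 (⊤ : Subgroup T)
  refine AA_le_JJ hU (mem_of_comm hU (Subgroup.mem_top _) (fun u hu => ?_) (pow_zero _))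
  apply Subtype.ext
  exact hc u ((mem_JJ_iff u).2 (AA_le_JJ hU hu))

omit [Finite S] hp in
theorem mem_normalizer_sup {A B : Subgroup Ω} {g : Ω} (hA : g ∈ Subgroup.normalizer (A : Set Ω)) (hB : g ∈ Subgroup.normalizer (B : Set Ω)) :
    g ∈ Subgroup.normalizer ((A ⊔ B : Subgroup Ω) : Set Ω) := by
  have key : ∀ s, s ∈ Subgroup.normalizer (A : Set Ω) → s ∈ Subgroup.normalizer (B : Set Ω) →
      A ⊔ B ≤ (A ⊔ B).comap (MulAut.conj s).toMonoidHom := by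
    intro s h1 h2
    refine sup_le (fun a ha => ?_) (fun a ha => ?_)
    · exact Subgroup.mem_comap.2 ((le_sup_left : A ≤ A ⊔ B) ((Subgroup.mem_normalizer_iff.1 h1 a).1 ha))
    · exact Subgroup.mem_comap.2 ((le_sup_right : B ≤ A ⊔ B) ((Subgroup.mem_normalizer_iff.1 h2 a).1 ha))
  refine Subgroup.mem_normalizer_iff.2 fun h => ⟨fun hh => key g hA hB hh, fun hh => ?_⟩
  have h1 : g⁻¹ * (g * h * g⁻¹) * g⁻¹⁻¹ ∈ A ⊔ B := key g⁻¹ (inv_mem hA) (inv_mem hB) hh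
  simpa [mul_assoc] using h1

omit [Finite S] hp in
theorem mem_normalizer_centralizerIn {O : Subgroup Ω} (hTO : T ≤ Subgroup.normalizer (O : Set Ω)) {g : Ω} (hg : g ∈ T) :
    g ∈ Subgroup.normalizer ((centralizerIn T O : Subgroup Ω) : Set Ω) := by
  have key : ∀ s ∈ T, ∀ c ∈ centralizerIn T O, s * c * s⁻¹ ∈ centralizerIn T O := by
    intro s hs c hc
    refine ⟨T.mul_mem (T.mul_mem hs hc.1) (T.inv_mem hs), Subgroup.mem_centralizer_iff.2 fun o ho => ?_⟩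
    have hs' := Subgroup.mem_normalizer_iff.1 (hTO hs)
    have h1 : s⁻¹ * o * s ∈ O := by
      rw [hs' (s⁻¹ * o * s)]
      simpa [mul_assoc] using ho
    have h2 := Subgroup.mem_centralizer_iff.1 hc.2 _ h1
    calc o * (s * c * s⁻¹) = s * ((s⁻¹ * o * s) * c) * s⁻¹ := by group
      _ = s * (c * (s⁻¹ * o * s)) * s⁻¹ := by rw [h2]
      _ = (s * c * s⁻¹) * o := by group
  refine Subgroup.mem_normalizer_iff.2 fun h => ⟨fun hh => key g hg h hh, fun hh => ?_⟩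
  have h1 := key g⁻¹ (T.inv_mem hg) _ hh
  simpa [mul_assoc] using h1

omit [Finite S] in
/-- The normalizer of a subgroup `X ≥ O` of `T` still contains elements of `C_T(O)` outside `O`. -/
theorem not_cen_normalizer [Finite T] (hTp : IsPGroup p T) {O X : Subgroup Ω} (hOX : O ≤ X) (hXT : X ≤ T)
    (hTO : T ≤ Subgroup.normalizer (O : Set Ω)) (hcen : ¬ centralizerIn T O ≤ O) : ¬ centralizerIn (normalizerIn T X) O ≤ O := by
  intro hle
  apply hcen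
  have hCle : ∀ c ∈ centralizerIn T O, c ∈ Subgroup.normalizer (X : Set Ω) → c ∈ O := fun c hc hn =>
    hle ⟨⟨hc.1, hn⟩, hc.2⟩
  by_cases hCX : centralizerIn T O ≤ X
  · intro c hc
    refine hCle c hc ?_
    exact Subgroup.le_normalizer (hCX hc)
  exfalso
  have hlt : X < X ⊔ centralizerIn T O := lt_of_le_of_ne le_sup_left (fun e => hCX (by rw [e]; exact le_sup_right))
  have hUT : X ⊔ centralizerIn T O ≤ T := sup_le hXT inf_le_left
  haveI hfU : Finite ↥(X ⊔ centralizerIn T O) := finite_of_le hUT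
  obtain ⟨g, hg1, hg2⟩ := Cfsg.Agent.Lib.Fusion.AlperinInduct.exists_mem_normalizerIn_of_lt
    (isPGroup_of_le hTp hUT) hlt
  obtain ⟨h, hh, c, hc, hgc⟩ := Cfsg.Agent.Lib.Fusion.GroupSylow.exists_mul_of_mem_sup
    (H := X) (C := centralizerIn T O) (fun c hc => mem_normalizer_centralizerIn hTO (hXT hc)) hg1.1
  have hcg : c = h⁻¹ * g := by rw [hgc]; group
  have hcN : c ∈ Subgroup.normalizer (X : Set Ω) := by
    rw [hcg]
    exact mul_mem (inv_mem (Subgroup.le_normalizer hh)) hg1.2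
  have hcO := hCle c hc hcN
  exact hg2 (by rw [hgc]; exact mul_mem hh (hOX hcO))

/-- A self-map of `T` in `F` with a `x`-value in the centralizer. -/
theorem exists_Mv_aut (hS : IsPGroup p S) (hF : F.IsSaturated p) (hE : E.IsInvariantIn F) {α : T →* Ω} (hα : α ∈ F.Hom T)
    (hr : α.range = T) {x : Ω} (hx : x ∈ centralizerIn S T) : ∃ x₁ ∈ centralizerIn S T, Mv F α x x₁ := by
  have hTsc := hE.2.1
  have hTS : T ≤ S := hTsc.1
  have hFN : F.IsFullyNormalized T := isFullyNormalized_of_stronglyClosed hTsc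
  obtain ⟨β, hβ, hβe⟩ := (fullyNormalized_receptive hS hF hFN).2 T α hα hr
  have hαv : ∀ t, α t ∈ S := fun t => map_mem_S hα t
  have hext := sup_centralizerIn_le_extender (P := T) (φ := α) hTS hαv
  have hTW : T ≤ T ⊔ centralizerIn S T := le_sup_left
  have hxW : x ∈ T ⊔ centralizerIn S T := le_sup_right (a := T) hx
  have hβ' := res_mem hβ hext
  refine ⟨β ⟨x, hext hxW⟩, ⟨map_mem_S hβ _, ?_⟩, ?_⟩
  · have himg : (T.subgroupOf (extender S T α)).map β = T := by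
      ext y
      constructor
      · rintro ⟨u, hu, rfl⟩
        have : β u = α ⟨u, hu⟩ := hβe u hu _
        rw [this]
        exact hr.le ⟨_, rfl⟩
      · intro hy
        rw [← hr] at hy
        obtain ⟨u, rfl⟩ := hy
        exact ⟨⟨u, hext (hTW u.2)⟩, u.2, hβe u u.2 _⟩
    exact map_mem_centralizer himg ⟨x, hext hxW⟩ hx.2
  · have hU : T ⊔ Subgroup.zpowers x ≤ extender S T α := sup_le (hext.trans' hTW) ((Subgroup.zpowers_le).2 (hext hxW))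
    exact ⟨β.comp (Subgroup.inclusion hU), res_mem hβ hU, fun a => hβe a a.2 _, rfl⟩

/-- An injective self-map of `T` preserves `J(T)`. -/
theorem map_JJ_self {α : T →* Ω} (hinj : Function.Injective α) (hr : α.range = T) :
    ((JJ 0 T).subgroupOf T).map α = JJ 0 T := by
  have h1 := mem_JJ_range_iff α hinj
  rw [hr] at h1
  ext y
  constructor
  · rintro ⟨u, hu, rfl⟩
    exact (h1 u).2 hu
  · intro hy
    have hyT : y ∈ T := JJ_le 0 T hy
    rw [← hr] at hyT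
    obtain ⟨u, rfl⟩ := hyT
    exact ⟨u, (h1 u).1 hy, rfl⟩

/-- The fixing property for `N_E(J(T))` is invariant under `Aut_F(T)`. -/
theorem fixN_JJ_of_aut (hE : E.IsInvariantIn F) {α : T →* Ω} (hα : α ∈ F.Hom T) (hr : α.range = T) {x x₁ : Ω}
    (hMv : Mv F α x x₁) (hfix : FixN F E (JJ 0 T) x) : FixN F E (JJ 0 T) x₁ := by
  obtain ⟨ξ, hξ, hξr, hξ1, -⟩ := exists_inv hα hr
  have hm : Mv F ξ x₁ x := hMv.symm hr hξ1
  exact fixN_transport hE (U := T) (Cfsg.Agent.Lib.Fusion.GT.WeakCenter.normalizerIn_JJ T).symm (JJ_le 0 T) hξ hm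
    (map_JJ_self (F.injective_of_mem hξ) hξr) hfix

end Cfsg.Agent.Lib.Fusion.CenFix
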