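/-
The reduction theorem for odd `p`: an element of `C_S(T)` fixed by `N_E(J(T))` lies in `C_S(E)`.
-/
import Mathlib
import Cfsg.Agent.Lib.Fusion.CenFix5

set_option autoImplicit false
set_option linter.style.haveILetI false
set_option linter.unusedSectionVars false

namespace Cfsg.Agent.Lib.Fusion.CenFix

open Cfsg Cfsg.FusionSystem Cfsg.Agent.Lib.Fusion.Basic Cfsg.Agent.Lib.Fusion.Saturated
open Cfsg.Agent.Lib.Fusion.GoodLift
open Cfsg.Agent.Lib.Fusion.CLiftG
open Cfsg.Agent.Lib.Fusion.NormalPair (stronglyClosed_apply strongClause)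
open Cfsg.Agent.Lib.Fusion.NormalCR
open Cfsg.Agent.Lib.Fusion.Saturated2 (autOfHom autOfHom_mem)
open Cfsg.Agent.Lib.Fusion.LocalSystems (map_mem_sup_of_ext range_ext_eq normalizerSystem normalizerSystem_isNormalizerSystem mem_map_subgroupOf)
open Cfsg.Agent.Lib.Fusion.ModelLocal (mem_normalizerSystem isCentric_of_isNormal)
open Cfsg.Agent.Lib.Fusion.Joins (exists_hom_of_eq isNormal_core)
open Cfsg.Agent.Lib.PGroup.ZJ
open Cfsg.Agent.Lib.Fusion.GT.WeakChain
open Cfsg.Agent.Lib.Fusion.GT.WeakCenter (normalizerIn_JJ)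
open Cfsg.Agent.Lib.Fusion.WeakControl (mem_normalizerHom)

universe u

variable {Ω : Type u} [Group Ω] {S T : Subgroup Ω} {F : FusionSystem S} {E : FusionSystem T}

/-- The statement of the reduction theorem. -/
def RStmt (F : FusionSystem S) (E : FusionSystem T) : Prop :=
  ∀ x ∈ centralizerIn S T, FixN F E (JJ 0 T) x → FixE F E x

variable [Finite S] {p : ℕ} [hp : Fact p.Prime]

/-- The local step. -/
theorem fixN_local (hS : IsPGroup p S) (hF : F.IsSaturated p) (hE : E.IsNormalIn F p) {X : Subgroup Ω} (hXT : X ≤ T)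
    (hX : F.IsFullyNormalized X) (IH : RStmt (normalizerSystem F X hX.1) (normalizerSystem E X hXT)) {x : Ω}
    (hx : x ∈ centralizerIn S T) (hY : FixN F E (JJ 0 (normalizerIn T X)) x) : FixN F E X x := by
  classical
  obtain ⟨⟨hEs, -, hinv⟩, -⟩ := id hE
  have hTS : T ≤ S := hinv.2.1.1
  have hXS : X ≤ S := hX.1
  haveI hfT : Finite T := finite_of_le hTS
  have hE' := normalizerSystem_isNormalizerSystem E X hXT
  have hF' := normalizerSystem_isNormalizerSystem F X hXS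
  haveI hfinS' : Finite (normalizerIn S X) := finite_of_le normalizerIn_le
  have hYT : normalizerIn T X ≤ T := inf_le_left
  have hXY : X ≤ normalizerIn T X := le_normalizerIn hXT
  have hxX : ∀ q ∈ X, x * q = q * x := fun q hq => (Subgroup.mem_centralizer_iff.1 hx.2 q (hXT hq)).symm
  have hxN : x ∈ normalizerIn S X := by
    refine ⟨hx.1, Subgroup.mem_normalizer_iff.2 fun h => ?_⟩
    constructor
    · intro hh
      have : x * h * x⁻¹ = h := by rw [hxX h hh]; group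
      rw [this]
      exact hh
    · intro hh
      have h1 : x⁻¹ * (x * h * x⁻¹) * x = h := by group
      have h2 := hxX _ hh
      rw [← h1]
      have h3 : x⁻¹ * (x * h * x⁻¹) * x = x * h * x⁻¹ := by
        rw [mul_assoc, ← h2]
        group
      rw [h3]
      exact hh
  have hxC : x ∈ centralizerIn (normalizerIn S X) (normalizerIn T X) :=
    ⟨hxN, Subgroup.centralizer_le (by exact_mod_cast hYT) hx.2⟩
  have hJY : JJ 0 (normalizerIn T X) ≤ normalizerIn T X := JJ_le 0 _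
  have hYJ : normalizerIn T X ≤ normalizerIn T (JJ 0 (normalizerIn T X)) := by
    intro y hy
    refine ⟨hYT hy, ?_⟩
    have : y ∈ normalizerIn (normalizerIn T X) (JJ 0 (normalizerIn T X)) := by
      rw [normalizerIn_JJ]
      exact hy
    exact this.2
  have hfix' : FixN (normalizerSystem F X hXS) (normalizerSystem E X hXT) (JJ 0 (normalizerIn T X)) x := by
    intro P φ hφ
    obtain ⟨hφE, hPN, hφv, ψ, hψ, h1, h2⟩ := hφ
    have hψ' := hψ
    rw [hE' _] at hψ'
    obtain ⟨hψE, hAN, hψv, ψ₂, hψ₂, h3, h4⟩ := hψ'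
    have hPY : P ≤ normalizerIn T X := hPN.trans inf_le_left
    have hA1Y : P ⊔ JJ 0 (normalizerIn T X) ≤ normalizerIn T X := sup_le hPY hJY
    have hAY : (P ⊔ JJ 0 (normalizerIn T X)) ⊔ X ≤ normalizerIn T X := sup_le hA1Y hXY
    have hJA : JJ 0 (normalizerIn T X) ≤ (P ⊔ JJ 0 (normalizerIn T X)) ⊔ X := le_sup_left.trans' le_sup_right
    have hPA : P ≤ (P ⊔ JJ 0 (normalizerIn T X)) ⊔ X := le_sup_left.trans' le_sup_left
    have hA1A : P ⊔ JJ 0 (normalizerIn T X) ≤ (P ⊔ JJ 0 (normalizerIn T X)) ⊔ X := le_sup_left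
    have hXA : X ≤ (P ⊔ JJ 0 (normalizerIn T X)) ⊔ X := le_sup_right
    have himgJ : ((JJ 0 (normalizerIn T X)).subgroupOf ((P ⊔ JJ 0 (normalizerIn T X)) ⊔ X)).map ψ₂ = JJ 0 (normalizerIn T X) := by
      ext y
      constructor
      · rintro ⟨⟨u, huA⟩, hu, rfl⟩
        have hu' : u ∈ JJ 0 (normalizerIn T X) := hu
        have hu1 : u ∈ P ⊔ JJ 0 (normalizerIn T X) := le_sup_right (a := P) hu'
        have e1 := h3 ⟨u, hu1⟩
        have e2 : ψ₂ ⟨u, huA⟩ = ψ ⟨u, hu1⟩ := e1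
        rw [e2]
        exact h2.le ⟨_, hu', rfl⟩
      · intro hy
        obtain ⟨⟨u, hu1⟩, hu, rfl⟩ := h2.ge hy
        have hu' : u ∈ JJ 0 (normalizerIn T X) := hu
        exact ⟨⟨u, hA1A hu1⟩, hu', h3 ⟨u, hu1⟩⟩
    have hψ₂N : ψ₂ ∈ E.normalizerHom (JJ 0 (normalizerIn T X)) ((P ⊔ JJ 0 (normalizerIn T X)) ⊔ X) :=
      mem_normalizerHom hJA (hAY.trans hYJ) hψ₂ himgJ
    obtain ⟨ψ₃, hψ₃, h5, h6⟩ := hY _ ψ₂ hψ₂N
    have hAU : (P ⊔ JJ 0 (normalizerIn T X)) ⊔ X ≤ ((P ⊔ JJ 0 (normalizerIn T X)) ⊔ X) ⊔ Subgroup.zpowers x := le_sup_left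
    have hUN : ((P ⊔ JJ 0 (normalizerIn T X)) ⊔ X) ⊔ Subgroup.zpowers x ≤ normalizerIn S X :=
      sup_le (hAY.trans (inf_le_inf_right _ hTS)) ((Subgroup.zpowers_le).2 hxN)
    have himgX : (X.subgroupOf (((P ⊔ JJ 0 (normalizerIn T X)) ⊔ X) ⊔ Subgroup.zpowers x)).map ψ₃ = X := by
      ext y
      constructor
      · rintro ⟨⟨u, huA⟩, hu, rfl⟩
        have hu' : u ∈ X := hu
        have e2 : ψ₃ ⟨u, huA⟩ = ψ₂ ⟨u, hXA hu'⟩ := h5 ⟨u, hXA hu'⟩
        rw [e2]
        exact h4.le ⟨_, hu', rfl⟩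
      · intro hy
        obtain ⟨⟨u, hu1⟩, hu, rfl⟩ := h4.ge hy
        have hu' : u ∈ X := hu
        exact ⟨⟨u, hAU hu1⟩, hu', h5 ⟨u, hu1⟩⟩
    have hψ₃' : ψ₃ ∈ (normalizerSystem F X hXS).Hom _ :=
      mem_normalizerSystem hF' (hXA.trans hAU) hUN hψ₃ himgX
    have hx' : x ∈ ((P ⊔ JJ 0 (normalizerIn T X)) ⊔ X) ⊔ Subgroup.zpowers x :=
      (le_sup_right : Subgroup.zpowers x ≤ ((P ⊔ JJ 0 (normalizerIn T X)) ⊔ X) ⊔ Subgroup.zpowers x) (Subgroup.mem_zpowers x)
    have hm := Mv.of_hom hψ₃' (hPA.trans hAU) hx'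
    rw [h6] at hm
    refine hm.eq_fun fun a => ?_
    show ψ₃ (Subgroup.inclusion hAU (Subgroup.inclusion hPA a)) = φ a
    rw [h5, ← h1 a]
    exact h3 (Subgroup.inclusion le_sup_left a)
  have hres := IH x hxC hfix'
  intro P φ hφ
  have hφ' : φ ∈ (normalizerSystem E X hXT).Hom P := by
    rw [hE' P]
    exact hφ
  refine (hres P φ hφ').mono fun P φ hφ => ?_
  rw [hF' P] at hφ
  exact hφ.1

/-- The transport step of the chain. -/
theorem fixN_of_chain (hS : IsPGroup p S) (hF : F.IsSaturated p) (hE : E.IsNormalIn F p)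
    (hcen : ¬ centralizerIn T E.core ≤ E.core)
    (IH : ∀ (X : Subgroup Ω) (hXT : X ≤ T) (hX : F.IsFullyNormalized X), ¬ E.IsNormal X →
      RStmt (normalizerSystem F X hX.1) (normalizerSystem E X hXT))
    {n : ℕ} (good1 : ∀ (P : Subgroup Ω) (φ : P →* Ω), φ ∈ E.Hom P → n + 1 ≤ Nat.card P →
      ∀ x ∈ centralizerIn S T, FixN F E (JJ 0 T) x → Mv F φ x x)
    {R : Subgroup Ω} (hRT : R ≤ T) (hOR : E.core ≤ R) (hRO : ¬ R ≤ E.core) (hn : n < Nat.card (normalizerIn T R))
    (claim : ∀ T' : Subgroup Ω, T' ≤ T → E.core ≤ T' → ¬ centralizerIn T' E.core ≤ E.core →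
      Nat.card (normalizerIn T R) ≤ Nat.card T' → ∀ x ∈ centralizerIn S T, FixN F E (JJ 0 T) x → FixN F E (JJ 0 T') x)
    {x : Ω} (hx : x ∈ centralizerIn S T) (hfix : FixN F E (JJ 0 T) x) : FixN F E R x := by
  classical
  obtain ⟨⟨hEs, -, hinv⟩, -⟩ := id hE
  have hTsc := hinv.2.1
  have hTS : T ≤ S := hTsc.1
  haveI hfT : Finite T := finite_of_le hTS
  have hTp : IsPGroup p T := isPGroup_of_le hS hTS
  have hRS : R ≤ S := hRT.trans hTS
  have hO : F.IsNormal E.core := Cfsg.Agent.Lib.Fusion.ResidSeries.isNormal_core_of_isNormalIn hS hF hE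
  have hOE : E.IsNormal E.core := isNormal_core E
  have hOsc : F.StronglyClosed E.core := IsNormal.stronglyClosed hO
  have hTO : T ≤ Subgroup.normalizer (E.core : Set Ω) := StronglyClosed.le_normalizer (IsNormal.stronglyClosed hOE)
  haveI hfO : Finite E.core := finite_of_le hOE.1
  obtain ⟨X, hconj, hXFN⟩ := exists_fullyNormalized (F := F) hRS
  obtain ⟨χ, hχ, hχv, hχm⟩ := exists_map_to_fullyNormalized hS hF hXFN hconj
  have hUS : normalizerIn T R ≤ normalizerIn S R := inf_le_inf_right _ hTS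
  have hUT : normalizerIn T R ≤ T := inf_le_left
  have hRU : R ≤ normalizerIn T R := le_normalizerIn hRT
  have hχ₀ : χ.comp (Subgroup.inclusion hUS) ∈ F.Hom (normalizerIn T R) := res_mem hχ hUS
  obtain ⟨α, hα, φ₀, hφ₀, hχ₀e⟩ := hinv.2.2.2 _ hUT _ hχ₀
  have hαh : T.subtype.comp α.toMonoidHom ∈ F.Hom T := autGroup_mem_hom hTS hα
  have hαr : (T.subtype.comp α.toMonoidHom).range = T := by
    ext y
    constructor
    · rintro ⟨u, rfl⟩
      exact (α u).2
    · intro hy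
      refine ⟨α.symm ⟨y, hy⟩, ?_⟩
      simp
  obtain ⟨x₁, hx₁, hMα⟩ := exists_Mv_aut hS hF hinv hαh hαr hx
  have hfix₁ := fixN_JJ_of_aut hinv hαh hαr hMα hfix
  have hφ₀m := good1 _ φ₀ hφ₀ (by omega) x hx hfix
  have hφ₀v : ∀ a, φ₀ a ∈ T := (E.le_of_mem hφ₀).2
  have hθ : Mv F (χ.comp (Subgroup.inclusion hUS)) x x₁ :=
    (hφ₀m.comp hMα hφ₀v).eq_fun fun a => (hχ₀e a (hφ₀v a)).symm
  have himgX : (R.subgroupOf (normalizerIn T R)).map (χ.comp (Subgroup.inclusion hUS)) = X := by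
    ext y
    constructor
    · rintro ⟨u, hu, rfl⟩
      exact hχm.le ⟨Subgroup.inclusion hUS u, hu, rfl⟩
    · intro hy
      obtain ⟨v, hv, rfl⟩ := hχm.ge hy
      exact ⟨⟨v, hRU hv⟩, hv, rfl⟩
  have hχT : ∀ u, (χ.comp (Subgroup.inclusion hUS)) u ∈ T := fun u => stronglyClosed_apply hTsc hχ₀ u (hUT u.2)
  have hXT : X ≤ T := by
    intro y hy
    rw [← himgX] at hy
    obtain ⟨u, -, rfl⟩ := hy
    exact hχT u
  -- `O ≤ X`
  have hOU : E.core ≤ normalizerIn T R := hOR.trans hRU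
  have hψ := res_mem hχ₀ hOU
  have hψv : ∀ o : E.core, ((χ.comp (Subgroup.inclusion hUS)).comp (Subgroup.inclusion hOU)) o ∈ E.core := fun o =>
    stronglyClosed_apply hOsc hχ₀ (Subgroup.inclusion hOU o) o.2
  have hψr := range_eq_of_card hψ hψv le_rfl
  have hOX : E.core ≤ X := by
    intro y hy
    obtain ⟨o, rfl⟩ := hψr.ge hy
    rw [← himgX]
    exact ⟨Subgroup.inclusion hOU o, hOR o.2, rfl⟩
  -- `X` is not normal
  have hnn : ¬ E.IsNormal X := by
    intro hn'
    have hXO : X ≤ E.core := le_sSup hn'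
    apply hRO
    intro r hr
    obtain ⟨ξ, hξ, -, hξ1, -⟩ := exists_inv hχ₀ (Q := (χ.comp (Subgroup.inclusion hUS)).range) rfl
    have h1 : (χ.comp (Subgroup.inclusion hUS)) ⟨r, hRU hr⟩ ∈ X := by
      rw [← himgX]
      exact ⟨_, hr, rfl⟩
    have h2 := stronglyClosed_apply hOsc hξ ⟨_, ⟨⟨r, hRU hr⟩, rfl⟩⟩ (hXO h1)
    have e := hξ1 ⟨r, hRU hr⟩ ⟨_, rfl⟩
    exact (congrArg (fun w => w ∈ E.core) e).mp h2
  have hfY : Finite (normalizerIn T X) := finite_of_le inf_le_left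
  have hcard : Nat.card (normalizerIn T R) ≤ Nat.card (normalizerIn T X) := by
    refine Nat.card_le_card_of_injective (fun u => (⟨_, hχT u, ?_⟩ : normalizerIn T X)) ?_
    · exact (hχv (Subgroup.inclusion hUS u)).2
    · intro a b hab
      exact F.injective_of_mem hχ₀ (congrArg Subtype.val hab)
  have hOY : E.core ≤ normalizerIn T X := hOX.trans (le_normalizerIn hXT)
  have hcY := not_cen_normalizer hTp hOX hXT hTO hcen
  have h1 := claim _ inf_le_left hOY hcY hcard x₁ hx₁ hfix₁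
  have h2 := fixN_local hS hF hE hXT hXFN (IH X hXT hXFN hnn) hx₁ h1
  exact fixN_transport hinv rfl hRT hχ₀ hθ himgX h2

omit [Finite S] hp in
theorem map_sup_eq {A J O : Subgroup Ω} {f : A →* Ω} (hJ : J ≤ A) (hO : O ≤ A) (h1 : (J.subgroupOf A).map f = J)
    (h2 : (O.subgroupOf A).map f = O) : ((J ⊔ O).subgroupOf A).map f = J ⊔ O := by
  rw [Subgroup.subgroupOf_sup hJ hO, Subgroup.map_sup, h1, h2]

/-- **The reduction theorem**, inductive step. -/
theorem R_step (hp2 : p ≠ 2) (hS : IsPGroup p S) (hF : F.IsSaturated p) (hE : E.IsNormalIn F p)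
    (IH : ∀ (X : Subgroup Ω) (hXT : X ≤ T) (hX : F.IsFullyNormalized X), ¬ E.IsNormal X →
      RStmt (normalizerSystem F X hX.1) (normalizerSystem E X hXT)) : RStmt F E := by
  classical
  intro x hx hfix
  by_cases hcen : centralizerIn T E.core ≤ E.core
  · exact fixE_of_mem_CC hS hF hE (mem_CC_of_constrained hp2 hS hF hE hcen hx hfix)
  obtain ⟨⟨hEs, -, hinv⟩, -⟩ := id hE
  have hTS : T ≤ S := hinv.2.1.1
  haveI hfT : Finite T := finite_of_le hTS
  have hTp : IsPGroup p T := isPGroup_of_le hS hTS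
  have hOE : E.IsNormal E.core := isNormal_core E
  have hOT : E.core ≤ T := hOE.1
  have hTO : T ≤ Subgroup.normalizer (E.core : Set Ω) := StronglyClosed.le_normalizer (IsNormal.stronglyClosed hOE)
  suffices H : ∀ (k n : ℕ), n + k = Nat.card T + 1 → ∀ (P : Subgroup Ω) (φ : P →* Ω), φ ∈ E.Hom P → n ≤ Nat.card P →
      ∀ x ∈ centralizerIn S T, FixN F E (JJ 0 T) x → Mv F φ x x from
    fun P φ hφ => H (Nat.card T + 1) 0 (by omega) P φ hφ (Nat.zero_le _) x hx hfix
  intro k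
  induction k with
  | zero =>
    intro n hn P φ hφ hc
    have := card_le_S (source_le hφ)
    omega
  | succ k ih =>
    intro n hn
    have good1 := ih (n + 1) (by omega)
    have claimD : ∀ (m : ℕ) (T' : Subgroup Ω), Nat.card T - Nat.card T' = m → T' ≤ T → E.core ≤ T' →
        ¬ centralizerIn T' E.core ≤ E.core → n < Nat.card T' →
        ∀ x ∈ centralizerIn S T, FixN F E (JJ 0 T) x → FixN F E (JJ 0 T') x := by
      intro m
      induction m using Nat.strong_induction_on with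
      | _ m ihC =>
      intro T' hm hT'T hOT' hcT' hnT' x hx hfix
      by_cases hT'e : T' = T
      · subst hT'e
        exact hfix
      have hlt : T' < T := lt_of_le_of_ne hT'T hT'e
      haveI hfT' : Finite T' := finite_of_le hT'T
      have hJT' : JJ 0 T' ≤ T' := JJ_le 0 T'
      have hR₂T : JJ 0 T' ⊔ E.core ≤ T := sup_le (hJT'.trans hT'T) hOT
      have hOR₂ : E.core ≤ JJ 0 T' ⊔ E.core := le_sup_right
      have hJR₂ : JJ 0 T' ≤ JJ 0 T' ⊔ E.core := le_sup_left
      have hR₂O : ¬ JJ 0 T' ⊔ E.core ≤ E.core := by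
        intro hle
        apply hcT'
        intro c hc
        refine hle (hJR₂ (mem_JJ_of_comm_JJ hc.1 fun j hj => ?_))
        exact (Subgroup.mem_centralizer_iff.1 hc.2 j (hle (hJR₂ hj))).symm
      have hNN : normalizerIn T T' ≤ normalizerIn T (JJ 0 T' ⊔ E.core) := by
        intro g hg
        refine ⟨hg.1, mem_normalizer_sup ?_ (hTO hg.1)⟩
        have hg' := Subgroup.mem_normalizer_iff.1 hg.2
        have h1 : ∀ t ∈ T', g * t * g⁻¹ ∈ T' := fun t ht => (hg' t).1 ht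
        have h2 : ∀ t ∈ T', g⁻¹ * t * g ∈ T' := fun t ht => (hg' _).2 (by simpa [mul_assoc] using ht)
        refine Subgroup.mem_normalizer_iff.2 fun h => ⟨fun hh => conj_mem_JJ' h1 h2 hh, fun hh => ?_⟩
        have h3 := conj_mem_JJ' (s := g⁻¹) (by simpa using h2) (by simpa using h1) hh
        simpa [mul_assoc] using h3
      have hcardN : Nat.card T' < Nat.card (normalizerIn T T') :=
        Cfsg.Agent.Lib.Fusion.AlperinInduct.card_lt_of_lt inf_le_left
          (Cfsg.Agent.Lib.Fusion.AlperinInduct.lt_normalizerIn hTp hlt)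
      have hfN : Finite (normalizerIn T (JJ 0 T' ⊔ E.core)) := finite_of_le inf_le_left
      have hcardN2 : Nat.card (normalizerIn T T') ≤ Nat.card (normalizerIn T (JJ 0 T' ⊔ E.core)) :=
        Subgroup.card_le_of_le hNN
      have hm2 : FixN F E (JJ 0 T' ⊔ E.core) x := by
        refine fixN_of_chain hS hF hE hcen IH good1 hR₂T hOR₂ hR₂O (by omega) (fun T'' hT'' hO'' hc'' hcard => ?_) hx hfix
        have h1 : Nat.card T'' ≤ Nat.card T := Subgroup.card_le_of_le hT''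
        have h2 : Nat.card T' ≤ Nat.card T := Subgroup.card_le_of_le hT'T
        exact ihC _ (by omega) T'' rfl hT'' hO'' hc'' (by omega)
      -- conclude
      intro P φ hφ
      obtain ⟨hφE, hPN, hφv, φ₂, hφ₂, h1, h2⟩ := hφ
      obtain ⟨φ₃, hφ₃, h3, h4⟩ := hOE.2 _ φ₂ hφ₂
      have hA1 : P ⊔ JJ 0 T' ≤ (P ⊔ JJ 0 T') ⊔ E.core := le_sup_left
      have hJA : JJ 0 T' ≤ (P ⊔ JJ 0 T') ⊔ E.core := le_sup_right.trans hA1
      have hPA : P ≤ (P ⊔ JJ 0 T') ⊔ E.core := le_sup_left.trans hA1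
      have hOA : E.core ≤ (P ⊔ JJ 0 T') ⊔ E.core := le_sup_right
      have himgJ : ((JJ 0 T').subgroupOf ((P ⊔ JJ 0 T') ⊔ E.core)).map φ₃ = JJ 0 T' := by
        ext y
        constructor
        · rintro ⟨⟨u, huA⟩, hu, rfl⟩
          have hu' : u ∈ JJ 0 T' := hu
          have hu1 : u ∈ P ⊔ JJ 0 T' := le_sup_right (a := P) hu'
          have e2 : φ₃ ⟨u, huA⟩ = φ₂ ⟨u, hu1⟩ := h3 ⟨u, hu1⟩
          rw [e2]
          exact h2.le ⟨_, hu', rfl⟩
        · intro hy
          obtain ⟨⟨u, hu1⟩, hu, rfl⟩ := h2.ge hy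
          have hu' : u ∈ JJ 0 T' := hu
          exact ⟨⟨u, hA1 hu1⟩, hu', h3 ⟨u, hu1⟩⟩
      have himg := map_sup_eq hJA hOA himgJ h4
      have hAN : (P ⊔ JJ 0 T') ⊔ E.core ≤ normalizerIn T (JJ 0 T' ⊔ E.core) := by
        have hPT : P ≤ T := (source_le hφE)
        have hR₂N : JJ 0 T' ⊔ E.core ≤ normalizerIn T (JJ 0 T' ⊔ E.core) := le_normalizerIn hR₂T
        refine sup_le (sup_le (fun u hu => ⟨hPT hu, ?_⟩) (hJR₂.trans hR₂N)) (hOR₂.trans hR₂N)
        exact mem_normalizer_sup (hPN hu).2 (hTO (hPT hu))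
      have hφ₃N := mem_normalizerHom (sup_le hJA hOA) hAN hφ₃ himg
      have hm3 := hm2 _ φ₃ hφ₃N
      refine (hm3.res hPA).eq_fun fun a => ?_
      show φ₃ (Subgroup.inclusion hA1 (Subgroup.inclusion le_sup_left a)) = φ a
      rw [h3, h1]
    -- Alperin
    have hPi : ∀ {P : Subgroup Ω} {φ : P →* Ω}, φ ∈ E.Hom P → (n ≤ Nat.card P →
        ∀ x ∈ centralizerIn S T, FixN F E (JJ 0 T) x → Mv F φ x x) := by
      refine Cfsg.Agent.Lib.Fusion.AlperinInduct.alperin_induction hTp hEs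
        (fun P φ => n ≤ Nat.card P → ∀ x ∈ centralizerIn S T, FixN F E (JJ 0 T) x → Mv F φ x x) ?_ ?_ ?_ ?_
      · intro P R φ hφ hPi h hc x hx hf
        have : Finite P := finite_of_le (source_le hφ)
        exact (hPi (hc.trans (Subgroup.card_le_of_le h)) x hx hf).res h
      · intro P Q φ ψ hφ hψ hφi hψi h hc x hx hf
        have hcQ : Nat.card P ≤ Nat.card Q := by
          have : Finite Q := finite_of_le (source_le hψ)
          exact Nat.card_le_card_of_injective (φ.codRestrict Q h) (fun a b hab =>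
            E.injective_of_mem hφ (congrArg Subtype.val hab))
        exact (hφi hc x hx hf).comp (hψi (hc.trans hcQ) x hx hf) h
      · intro P Q φ ψ hφ hψ hr hinv' hφi hc x hx hf
        have hc' : Nat.card P = Nat.card Q := card_eq_of_range hφ hr
        exact (hφi (hc'.symm ▸ hc) x hx hf).symm hr hinv'
      · intro P φ hcase hφ hφr hc x hx hf
        by_cases hPT : P = T
        · subst hPT
          exact hf _ φ (mem_normalizerHom (JJ_le 0 _) (by rw [normalizerIn_JJ]) hφ (map_JJ_self (E.injective_of_mem hφ) hφr))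
        rcases hcase with h | ⟨-, hPc, -⟩
        · exact absurd h hPT
        have hPTle : P ≤ T := hPc.1
        have hφN : φ ∈ E.normalizerHom P P := mem_normalizerHom le_rfl (le_normalizerIn hPTle) hφ (by
          rw [Subgroup.subgroupOf_self, ← MonoidHom.range_eq_map, hφr])
        by_cases hgt : n + 1 ≤ Nat.card P
        · exact good1 P φ hφ hgt x hx hf
        have hPn : Nat.card P = n := by omega
        by_cases hOP : E.core ≤ P
        · -- `P` is not in `O`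
          have hPO : ¬ P ≤ E.core := by
            intro hle
            have e : P = E.core := le_antisymm hle hOP
            apply hcen
            have := hPc.2 P (Basic.IsConj.refl hPTle)
            rw [e] at this
            exact this
          have hPlt : P < T := lt_of_le_of_ne hPTle hPT
          have hcardN : Nat.card P < Nat.card (normalizerIn T P) :=
            Cfsg.Agent.Lib.Fusion.AlperinInduct.card_lt_of_lt inf_le_left
              (Cfsg.Agent.Lib.Fusion.AlperinInduct.lt_normalizerIn hTp hPlt)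
          refine fixN_of_chain hS hF hE hcen IH good1 hPTle hOP hPO (by omega) (fun T'' hT'' hO'' hc'' hcard => ?_) hx hf P φ hφN
          exact claimD _ T'' rfl hT'' hO'' hc'' (by omega)
        · -- extend
          obtain ⟨φ₃, hφ₃, h3, h4⟩ := hOE.2 _ φ hφ
          have hlt : P < P ⊔ E.core := lt_of_le_of_ne le_sup_left (fun e => hOP (by rw [e]; exact le_sup_right))
          have hcard := Cfsg.Agent.Lib.Fusion.AlperinInduct.card_lt_of_lt (S := T) (sup_le hPTle hOT) hlt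
          have hm := good1 _ φ₃ hφ₃ (by omega) x hx hf
          exact (hm.res le_sup_left).eq_fun h3
    exact fun P φ hφ => hPi hφ

/-- **The reduction theorem** for odd `p`. -/
theorem R_main (hp2 : p ≠ 2) : ∀ (m : ℕ) (S' T' : Subgroup Ω) [Finite S'] (F' : FusionSystem S') (E' : FusionSystem T'),
    (Cfsg.Agent.Lib.Fusion.GlaubermanMain.mapsOf E').ncard = m → IsPGroup p S' → F'.IsSaturated p → E'.IsNormalIn F' p → RStmt F' E' := by
  intro m
  induction m using Nat.strong_induction_on with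
  | _ m ihm =>
  intro S' T' _ F' E' hm hS' hF' hE'
  refine R_step hp2 hS' hF' hE' fun X hXT hX hnn => ?_
  haveI : Finite (normalizerIn S' X) := finite_of_le normalizerIn_le
  have hTS : T' ≤ S' := hE'.1.2.2.2.1.1
  haveI : Finite T' := finite_of_le hTS
  have hE₂ := normalizerSystem_isNormalizerSystem E' X hXT
  refine ihm _ ?_ _ _ _ _ rfl (isPGroup_of_le hS' normalizerIn_le)
    (Cfsg.Agent.Lib.Fusion.KNormalizer.isSaturated_normalizerSystem hS' hF' hX (normalizerSystem_isNormalizerSystem F' X hX.1))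
    (isNormalIn_normalizerSystem hS' hF' hE' hXT hX)
  rw [← hm]
  refine Cfsg.Agent.Lib.Fusion.GlaubermanMain.ncard_mapsOf_lt ?_ ?_
  · intro P φ hφ
    rw [hE₂ P] at hφ
    exact hφ.1
  · by_contra hcon
    push Not at hcon
    apply hnn
    refine ⟨hXT, fun P φ hφ => ?_⟩
    have h1 := hcon P φ hφ
    rw [hE₂ P] at h1
    obtain ⟨-, -, -, ψ, hψ, h2, h3⟩ := h1
    exact ⟨ψ, hψ, h2, h3⟩

/-- The reduction theorem. -/
theorem fixE_of_fixN (hp2 : p ≠ 2) (hS : IsPGroup p S) (hF : F.IsSaturated p) (hE : E.IsNormalIn F p) {x : Ω}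
    (hx : x ∈ centralizerIn S T) (h : FixN F E (JJ 0 T) x) : FixE F E x :=
  R_main hp2 _ S T F E rfl hS hF hE x hx h

/-- The statement of the factorization theorem. -/
def ZStmt (F : FusionSystem S) (E : FusionSystem T) : Prop :=
  ∀ x ∈ centralizerIn S T, ∃ ζ ∈ T, (∀ t ∈ T, t * ζ = ζ * t) ∧ FixE F E (x * ζ)

/-- **Factorization**: for odd `p`, `C_S(T) = Z(T) C_S(E)`. -/
theorem Z_main (hp2 : p ≠ 2) : ∀ (m : ℕ) (S' T' : Subgroup Ω) [Finite S'] (F' : FusionSystem S') (E' : FusionSystem T'),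
    (Cfsg.Agent.Lib.Fusion.GlaubermanMain.mapsOf E').ncard = m → IsPGroup p S' → F'.IsSaturated p → E'.IsNormalIn F' p → ZStmt F' E' := by
  intro m
  induction m using Nat.strong_induction_on with
  | _ m ihm =>
  intro S T _ F E hm hS hF hE x hx
  classical
  obtain ⟨⟨hEs, -, hinv⟩, -⟩ := id hE
  have hTsc := hinv.2.1
  have hTS : T ≤ S := hTsc.1
  haveI hfT : Finite T := finite_of_le hTS
  have hJT : JJ 0 T ≤ T := JJ_le 0 T
  by_cases hJn : E.IsNormal (JJ 0 T)
  · -- constrained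
    have hJO : JJ 0 T ≤ E.core := le_sSup hJn
    have hO : F.IsNormal E.core := Cfsg.Agent.Lib.Fusion.ResidSeries.isNormal_core_of_isNormalIn hS hF hE
    have hOE : E.IsNormal E.core := isNormal_core E
    have hOc : centralizerIn T E.core ≤ E.core := fun c hc =>
      hJO (mem_JJ_of_comm_JJ hc.1 fun j hj => (Subgroup.mem_centralizer_iff.1 hc.2 j (hJO hj)).symm)
    obtain ⟨ζ, hζ, hζT, hm'⟩ := exists_mem_CC hS hF hE hO hOE (isCentric_of_isNormal hOE hOc) hx
    exact ⟨ζ, hOE.1 (Zc.left hζ), hζT, fixE_of_mem_CC hS hF hE hm'⟩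
  -- the normalizer
  have hST : S ≤ Subgroup.normalizer (T : Set Ω) := StronglyClosed.le_normalizer hTsc
  have hNS : normalizerIn S (JJ 0 T) = S := by
    refine inf_eq_left.2 fun s hs => Subgroup.mem_normalizer_iff.2 fun h => ?_
    have hs' := Subgroup.mem_normalizer_iff.1 (hST hs)
    have h1 : ∀ t ∈ T, s * t * s⁻¹ ∈ T := fun t ht => (hs' t).1 ht
    have h2 : ∀ t ∈ T, s⁻¹ * t * s ∈ T := fun t ht => (hs' _).2 (by simpa [mul_assoc] using ht)
    refine ⟨fun hh => conj_mem_JJ' h1 h2 hh, fun hh => ?_⟩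
    have h3 := conj_mem_JJ' (s := s⁻¹) (by simpa using h2) (by simpa using h1) hh
    simpa [mul_assoc] using h3
  have hJS : JJ 0 T ≤ S := hJT.trans hTS
  have hJFN : F.IsFullyNormalized (JJ 0 T) := ⟨hJS, fun Q _ => by
    rw [hNS]
    exact card_le_S normalizerIn_le⟩
  haveI : Finite (normalizerIn S (JJ 0 T)) := finite_of_le normalizerIn_le
  have hE₂ := normalizerSystem_isNormalizerSystem E (JJ 0 T) hJT
  have hF₂ := normalizerSystem_isNormalizerSystem F (JJ 0 T) hJS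
  have hNT : normalizerIn T (JJ 0 T) = T := normalizerIn_JJ T
  have hsub : ∀ P, (normalizerSystem E (JJ 0 T) hJT).Hom P ⊆ E.Hom P := fun P φ hφ => by
    rw [hE₂ P] at hφ
    exact hφ.1
  have hstrict : ∃ P, ∃ φ ∈ E.Hom P, φ ∉ (normalizerSystem E (JJ 0 T) hJT).Hom P := by
    by_contra hcon
    push Not at hcon
    apply hJn
    refine ⟨hJT, fun P φ hφ => ?_⟩
    have h1 := hcon P φ hφ
    rw [hE₂ P] at h1
    obtain ⟨-, -, -, ψ, hψ, h2, h3⟩ := h1
    exact ⟨ψ, hψ, h2, h3⟩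
  have hZ := ihm _ (by rw [← hm]; exact Cfsg.Agent.Lib.Fusion.GlaubermanMain.ncard_mapsOf_lt hsub hstrict) _ _ _ _ rfl
    (isPGroup_of_le hS normalizerIn_le)
    (Cfsg.Agent.Lib.Fusion.KNormalizer.isSaturated_normalizerSystem hS hF hJFN hF₂)
    (isNormalIn_normalizerSystem hS hF hE hJT hJFN)
  have hxC : x ∈ centralizerIn (normalizerIn S (JJ 0 T)) (normalizerIn T (JJ 0 T)) := by
    refine ⟨by rw [hNS]; exact hx.1, ?_⟩
    rw [hNT]
    exact hx.2
  obtain ⟨ζ, hζ, hζT, hfixZ⟩ := hZ x hxC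
  rw [hNT] at hζ
  have hζT' : ∀ t ∈ T, t * ζ = ζ * t := fun t ht => hζT t (by rw [hNT]; exact ht)
  refine ⟨ζ, hζ, hζT', ?_⟩
  have hyC : x * ζ ∈ centralizerIn S T :=
    (centralizerIn S T).mul_mem hx ⟨hTS hζ, Subgroup.mem_centralizer_iff.2 fun t ht => hζT' t ht⟩
  refine fixE_of_fixN hp2 hS hF hE hyC fun P φ hφ => ?_
  have hφ' : φ ∈ (normalizerSystem E (JJ 0 T) hJT).Hom P := by
    rw [hE₂ P]
    exact hφ
  refine (hfixZ P φ hφ').mono fun P φ hφ => ?_
  rw [hF₂ P] at hφ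
  exact hφ.1

/-- **Factorization**: for odd `p`, every element of `C_S(T)` is the product of an element of `Z(T)` and one of `C_S(E)`. -/
theorem exists_mem_CC_odd (hp2 : p ≠ 2) (hS : IsPGroup p S) (hF : F.IsSaturated p) (hE : E.IsNormalIn F p) {x : Ω}
    (hx : x ∈ centralizerIn S T) : ∃ ζ ∈ T, (∀ t ∈ T, t * ζ = ζ * t) ∧ x * ζ ∈ CC hS hF hE := by
  obtain ⟨ζ, hζ, hζT, h⟩ := Z_main hp2 _ S T F E rfl hS hF hE x hx
  refine ⟨ζ, hζ, hζT, mem_CC_of_fixE hS hF hE ?_ h⟩
  exact (centralizerIn S T).mul_mem hx ⟨hE.1.2.2.2.1.1 hζ, Subgroup.mem_centralizer_iff.2 fun t ht => hζT t ht⟩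

end Cfsg.Agent.Lib.Fusion.CenFix
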