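/-
Saturated fusion systems on `2`-groups in which every element is conjugate into the centre: the group is abelian.
An element inverted in `S` is an involution; the involutions of `S` form a subgroup `E`; an odd order automorphism of
`P ≤ S` fixing all involutions of `P` is trivial, hence `E` lies in every centric radical subgroup and `E` is normal in
the system, hence central in `S`; factoring by `E` and a two-step argument on the centre finish the proof.
-/
import Mathlib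
import Cfsg.Prelude.Def_FusionSystem
import Cfsg.Prelude.Def_FusionComponents
import Cfsg.Agent.Lib.Fusion.Basic
import Cfsg.Agent.Lib.Fusion.Saturated
import Cfsg.Agent.Lib.Fusion.Normal
import Cfsg.Agent.Lib.Fusion.NormalCR
import Cfsg.Agent.Lib.Fusion.Abelian
import Cfsg.Agent.Lib.Fusion.Joins
import Cfsg.Agent.Lib.Fusion.Factor
import Cfsg.Agent.Lib.Fusion.FactorMorphism
import Cfsg.Agent.Lib.Fusion.Image
import Cfsg.Agent.Lib.Basic.PCore

set_option autoImplicit false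
set_option linter.style.haveILetI false

universe u

namespace Cfsg.Agent.Lib.Fusion.CentralConj

open Cfsg Cfsg.FusionSystem Cfsg.Agent.Lib.Fusion Cfsg.Agent.Lib.Fusion.Basic
open Cfsg.Agent.Lib.Fusion.Saturated Cfsg.Agent.Lib.Fusion.NormalCR Cfsg.Agent.Lib.Fusion.Normal
open Cfsg.Agent.Lib.Fusion.Abelian

section Group

variable {G : Type*} [Group G]

/-- An automorphism of odd order fixing every element of square `1` is trivial, if no element of order `> 2` is inverted. -/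
theorem fix_of_fix_involutions (α : MulAut G) (hα : Odd (orderOf α))
    (h1 : ∀ x : G, x ^ 2 = 1 → α x = x)
    (h2 : ∀ g b : G, b⁻¹ * g * b = g⁻¹ → g ^ 2 = 1)
    (k : ℕ) : ∀ b : G, b ^ 2 ^ k = 1 → α b = b := by
  induction k with
  | zero =>
    intro b hb
    have hb1 : b = 1 := by simpa using hb
    rw [hb1, map_one]
  | succ k ih =>
    intro b hb
    have h3 : α (b ^ 2) = b ^ 2 := ih (b ^ 2) (by rw [← pow_mul, ← pow_succ']; exact hb)
    have ha2 : α b * α b = b * b := by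
      rw [← map_mul]
      have e : b * b = b ^ 2 := (pow_two b).symm
      rw [e, h3]
    have hg : b⁻¹ * (α b * b⁻¹) * b = (α b * b⁻¹)⁻¹ := by
      rw [mul_inv_rev, inv_inv]
      have e : α b = b * b * (α b)⁻¹ := by
        rw [← ha2]; group
      calc b⁻¹ * (α b * b⁻¹) * b = b⁻¹ * α b := by group
        _ = b⁻¹ * (b * b * (α b)⁻¹) := by rw [← e]
        _ = b * (α b)⁻¹ := by group
    have hg2 := h2 _ b hg
    have hgf := h1 _ hg2
    have h4 : α (α b) = b := by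
      have e : α (α b * b⁻¹) = α (α b) * (α b)⁻¹ := by rw [map_mul, map_inv]
      rw [e] at hgf
      have e2 : α (α b) = (α b * b⁻¹) * α b := by
        rw [← hgf]; group
      rw [e2]
      have e3 : (α b * b⁻¹) ^ 2 = 1 := hg2
      rw [pow_two] at e3
      calc α b * b⁻¹ * α b = (α b * b⁻¹) * (α b * b⁻¹) * b := by group
        _ = b := by rw [e3, one_mul]
    obtain ⟨m, hm⟩ := hα
    have h5 : ∀ j : ℕ, (α ^ (2 * j)) b = b := by
      intro j
      induction j with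
      | zero => rfl
      | succ j ihj =>
        have e : α ^ (2 * (j + 1)) = α ^ (2 * j) * (α * α) := by
          rw [mul_add, pow_add, mul_one, pow_two]
        rw [e]
        show (α ^ (2 * j)) (α (α b)) = b
        rw [h4, ihj]
    have h6 : α ^ (2 * (m + 1)) = α := by
      have e : 2 * (m + 1) = orderOf α + 1 := by omega
      rw [e, pow_succ, pow_orderOf_eq_one, one_mul]
    have h7 := h5 (m + 1)
    rwa [h6] at h7

end Group

section Fusion

variable {Ω : Type u} [Group Ω] {S : Subgroup Ω} {F : FusionSystem S}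

/-- Every element of `S` is conjugate in the system to an element of `Z(S)`. -/
def AllCentral (F : FusionSystem S) : Prop :=
  ∀ x ∈ S, ∃ z ∈ S ⊓ Subgroup.centralizer (S : Set Ω), F.IsConjElt x z

theorem fullyNormalized_of_le_normalizer [Finite S] {R : Subgroup Ω} (hR : R ≤ S)
    (hn : S ≤ Subgroup.normalizer (R : Set Ω)) : F.IsFullyNormalized R := by
  refine ⟨hR, fun Q _ => ?_⟩
  have e : normalizerIn S R = S := inf_eq_left.2 hn
  rw [e]
  exact Nat.card_le_card_of_injective (Subgroup.inclusion (normalizerIn_le))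
    (Subgroup.inclusion_injective _)

variable [Finite S]

/-- A `2`-element action on the centre under `Aut_F(S)` is trivial. -/
theorem aut_fix (hS : IsPGroup 2 S) (hF : F.IsSaturated 2) {β : MulAut S} (hβ : β ∈ F.autGroup S)
    {z : S} (hz : ∀ s : S, s * z = z * s) (h2 : β (β z) = z) : β z = z := by
  classical
  have hFN : F.IsFullyNormalized S :=
    fullyNormalized_of_le_normalizer le_rfl (Subgroup.le_normalizer)
  obtain ⟨-, R₀, hR₀⟩ := (fullyNormalized_props hS hF hFN).2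
  haveI hfinA : Finite (F.autGroup S) := finite_autGroup le_rfl
  have hnorm : (R₀ : Subgroup (F.autGroup S)).Normal := by
    rw [hR₀]
    refine ⟨fun γ hγ α => ?_⟩
    obtain ⟨g, hg, hge⟩ := mem_autInducedBy_iff.1 (Subgroup.mem_subgroupOf.1 hγ)
    rw [Subgroup.mem_subgroupOf]
    refine mem_autInducedBy_iff.2 ⟨((α : MulAut S) ⟨g, hg⟩ : S), ((α : MulAut S) ⟨g, hg⟩ : S).2, fun y => ?_⟩
    obtain ⟨x, rfl⟩ := (α : MulAut S).surjective y
    have h1 : (((α * γ * α⁻¹ : F.autGroup S) : MulAut S) ((α : MulAut S) x) : S) =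
        (α : MulAut S) ((γ : MulAut S) x) := by
      show (α : MulAut S) ((γ : MulAut S) ((α : MulAut S)⁻¹ ((α : MulAut S) x))) = _
      simp
    rw [h1]
    have h3 : (γ : MulAut S) x = ⟨g, hg⟩ * x * (⟨g, hg⟩ : S)⁻¹ := Subtype.ext (hge x)
    rw [h3, map_mul, map_mul, map_inv]
    rfl
  haveI := hnorm
  have hidx := Subgroup.pow_index_mem (R₀ : Subgroup (F.autGroup S)) (⟨β, hβ⟩ : F.autGroup S)
  have hodd : Odd (R₀ : Subgroup (F.autGroup S)).index := by
    have h := R₀.not_dvd_index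
    exact Nat.odd_iff.2 (by omega)
  rw [hR₀] at hidx
  rw [← hR₀] at hidx
  rw [hR₀] at hidx
  have hmem := Subgroup.mem_subgroupOf.1 hidx
  obtain ⟨g, hg, hge⟩ := mem_autInducedBy_iff.1 hmem
  rw [← hR₀] at hge
  obtain ⟨m, hm⟩ := hodd
  have hfix : (β ^ (R₀ : Subgroup (F.autGroup S)).index) z = z := by
    have := hge z
    apply Subtype.ext
    have e : ((⟨β, hβ⟩ ^ (R₀ : Subgroup (F.autGroup S)).index : F.autGroup S) : MulAut S) =
        β ^ (R₀ : Subgroup (F.autGroup S)).index := rfl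
    rw [e] at this
    rw [this]
    have h5 := congrArg (fun t : S => (t : Ω)) (hz ⟨g, hg⟩)
    simp only [Subgroup.coe_mul] at h5
    rw [h5]
    group
  have h5 : ∀ j : ℕ, (β ^ (2 * j)) z = z := by
    intro j
    induction j with
    | zero => rfl
    | succ j ihj =>
      have e : β ^ (2 * (j + 1)) = β ^ (2 * j) * (β * β) := by
        rw [mul_add, pow_add, mul_one, pow_two]
      rw [e]
      show (β ^ (2 * j)) (β (β z)) = z
      rw [h2, ihj]
  rw [hm, pow_succ] at hfix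
  -- commute the powers
  have h7 : β ^ (2 * m) * β = β * β ^ (2 * m) := by
    rw [← pow_succ, ← pow_succ']
  rw [h7] at hfix
  have h8 : (β * β ^ (2 * m)) z = β ((β ^ (2 * m)) z) := rfl
  rw [h8, h5] at hfix
  exact hfix

/-- Two maps with central values differ by an element of `Aut_F(S)`. -/
theorem exists_aut_of_central (hS : IsPGroup 2 S) (hF : F.IsSaturated 2) {P : Subgroup Ω} {φ₁ φ₂ : P →* Ω}
    (h₁ : φ₁ ∈ F.Hom P) (h₂ : φ₂ ∈ F.Hom P)
    (hc₁ : ∀ x, φ₁ x ∈ S ⊓ Subgroup.centralizer (S : Set Ω))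
    (hc₂ : ∀ x, φ₂ x ∈ S ⊓ Subgroup.centralizer (S : Set Ω)) :
    ∃ β : MulAut S, β ∈ F.autGroup S ∧ ∀ (x : P) (h : φ₁ x ∈ S), ((β ⟨φ₁ x, h⟩ : S) : Ω) = φ₂ x := by
  obtain ⟨ψ', hψ', hr', hi', -⟩ := exists_inv h₁ rfl
  have hv : ∀ y, ψ' y ∈ P := fun y => hr'.le ⟨y, rfl⟩
  let ψ : φ₁.range →* Ω := φ₂.comp (ψ'.codRestrict P hv)
  have hψ : ψ ∈ F.Hom φ₁.range := F.comp_mem hψ' h₂ hv
  have hψe : ∀ (x : P) (h : φ₁ x ∈ φ₁.range), ψ ⟨φ₁ x, h⟩ = φ₂ x := by
    intro x h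
    show φ₂ ⟨ψ' ⟨φ₁ x, h⟩, _⟩ = _
    congr 1
    exact Subtype.ext (hi' x h)
  have hψZ : ψ.range ≤ S ⊓ Subgroup.centralizer (S : Set Ω) := by
    rintro _ ⟨y, rfl⟩
    exact hc₂ _
  have hnormal : ∀ {R : Subgroup Ω}, R ≤ S ⊓ Subgroup.centralizer (S : Set Ω) →
      S ≤ Subgroup.normalizer (R : Set Ω) := by
    intro R hR g hg
    refine Subgroup.mem_normalizer_iff.2 (fun x => ?_)
    constructor
    · intro hx
      have h1 : x * g = g * x := by
        have := Subgroup.mem_centralizer_iff.1 (hR hx).2 g hg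
        exact this.symm
      have e : g * x * g⁻¹ = x := by rw [← h1]; group
      rwa [e]
    · intro hx
      have h1 : g * (g * x * g⁻¹) = (g * x * g⁻¹) * g := Subgroup.mem_centralizer_iff.1 (hR hx).2 g hg
      have e2 : x = g * x * g⁻¹ := by
        calc x = g⁻¹ * ((g * x * g⁻¹) * g) := by group
          _ = g⁻¹ * (g * (g * x * g⁻¹)) := by rw [h1]
          _ = g * x * g⁻¹ := by group
      rw [e2]
      exact hx
  have hFN : F.IsFullyNormalized ψ.range :=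
    fullyNormalized_of_le_normalizer (hψZ.trans inf_le_left) (hnormal hψZ)
  have hrec := fullyNormalized_receptive hS hF hFN
  obtain ⟨χ, hχ, hχe⟩ := hrec.2 φ₁.range ψ hψ rfl
  have hrange₁ : φ₁.range ≤ S ⊓ Subgroup.centralizer (S : Set Ω) := by
    rintro _ ⟨y, rfl⟩
    exact hc₁ _
  have hSext : S ≤ extender S φ₁.range ψ := by
    intro g hg
    refine extender_closure_mem hg (hnormal hrange₁ hg) S.one_mem (fun x hx => ?_)
    have hxc : (x : Ω) * g = g * x :=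
      (Subgroup.mem_centralizer_iff.1 (hrange₁ x.2).2 g hg).symm
    have e : g * (x : Ω) * g⁻¹ = x := by rw [← hxc]; group
    have e2 : (⟨g * x * g⁻¹, hx⟩ : φ₁.range) = x := Subtype.ext e
    rw [e2]
    simp
  have hβ₀ := res_mem hχ hSext
  refine ⟨autOfTop hβ₀, autOfTop_mem hβ₀, fun x h => ?_⟩
  rw [autOfTop_apply]
  have h1 := hχe (φ₁ x) ⟨x, rfl⟩ (hSext h)
  show χ ⟨φ₁ x, hSext h⟩ = _
  exact h1.trans (hψe x _)

theorem map_central_of_zpowers {x z : Ω} {φ : Subgroup.zpowers x →* Ω}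
    (hφx : φ ⟨x, Subgroup.mem_zpowers x⟩ = z) (hz : z ∈ S ⊓ Subgroup.centralizer (S : Set Ω))
    (a : Subgroup.zpowers x) : φ a ∈ S ⊓ Subgroup.centralizer (S : Set Ω) := by
  obtain ⟨k, hk⟩ := a.2
  have e : a = (⟨x, Subgroup.mem_zpowers x⟩ : Subgroup.zpowers x) ^ k := Subtype.ext hk.symm
  rw [e, map_zpow, hφx]
  exact Subgroup.zpow_mem _ hz k

/-- An element inverted by an element of `S` has square `1`. -/
theorem sq_eq_one_of_inverted (hS : IsPGroup 2 S) (hF : F.IsSaturated 2) (hH : AllCentral F) {x y : Ω}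
    (hx : x ∈ S) (hy : y ∈ S) (h : y⁻¹ * x * y = x⁻¹) : x ^ 2 = 1 := by
  obtain ⟨z, hz, φ, hφ, hφx⟩ := hH x hx
  have hXS : Subgroup.zpowers x ≤ S := by
    rw [Subgroup.zpowers_le]; exact hx
  have hconj := F.conj_mem hXS (S.inv_mem hy)
  have hv : ∀ a : Subgroup.zpowers x, conjHom (Subgroup.zpowers x) y⁻¹ a ∈ Subgroup.zpowers x := by
    intro a
    obtain ⟨k, hk⟩ := a.2
    have hk' : x ^ k = a := hk
    have h' : y⁻¹ * x * y⁻¹⁻¹ = x⁻¹ := by rw [inv_inv, h]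
    have e : conjHom (Subgroup.zpowers x) y⁻¹ a = (x⁻¹) ^ k := by
      show y⁻¹ * (a : Ω) * y⁻¹⁻¹ = _
      rw [← hk', ← conj_zpow, h']
    rw [e]
    exact Subgroup.zpow_mem _ (Subgroup.inv_mem _ (Subgroup.mem_zpowers x)) k
  have hφ₂ := F.comp_mem hconj hφ hv
  have hc₁ := map_central_of_zpowers hφx hz
  obtain ⟨β, hβ, hβe⟩ := exists_aut_of_central hS hF hφ hφ₂ hc₁ (fun a => hc₁ _)
  have hzS : z ∈ S := hz.1
  have hβz : ((β ⟨z, hzS⟩ : S) : Ω) = z⁻¹ := by
    have h1 := hβe ⟨x, Subgroup.mem_zpowers x⟩ (hφx ▸ hzS)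
    have e1 : (⟨φ ⟨x, Subgroup.mem_zpowers x⟩, hφx ▸ hzS⟩ : S) = ⟨z, hzS⟩ := Subtype.ext hφx
    rw [e1] at h1
    rw [h1]
    show φ ⟨y⁻¹ * x * y⁻¹⁻¹, _⟩ = _
    have e2 : (⟨y⁻¹ * x * y⁻¹⁻¹, hv ⟨x, Subgroup.mem_zpowers x⟩⟩ : Subgroup.zpowers x) =
        (⟨x, Subgroup.mem_zpowers x⟩ : Subgroup.zpowers x)⁻¹ := by
      apply Subtype.ext
      show y⁻¹ * x * y⁻¹⁻¹ = x⁻¹
      rw [inv_inv, h]
    rw [e2, map_inv, hφx]
  have hzc : ∀ s : S, s * (⟨z, hzS⟩ : S) = ⟨z, hzS⟩ * s := by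
    intro s
    exact Subtype.ext (Subgroup.mem_centralizer_iff.1 hz.2 s s.2)
  have h2 : β (β ⟨z, hzS⟩) = ⟨z, hzS⟩ := by
    have e : β ⟨z, hzS⟩ = (⟨z, hzS⟩ : S)⁻¹ := Subtype.ext hβz
    rw [e, map_inv, e, inv_inv]
  have h3 := aut_fix hS hF hβ hzc h2
  have h4 : z⁻¹ = z := by
    rw [← hβz, h3]
  have h5 : z ^ 2 = 1 := by
    rw [pow_two]
    nth_rewrite 1 [← h4]
    exact inv_mul_cancel z
  have h6 : φ ((⟨x, Subgroup.mem_zpowers x⟩ : Subgroup.zpowers x) ^ 2) = 1 := by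
    rw [map_pow, hφx, h5]
  have h7 := F.injective_of_mem hφ (h6.trans (map_one φ).symm)
  exact congrArg Subtype.val h7

/-- The involutions of `S`, together with `1`, form a subgroup. -/
theorem exists_omega (hS : IsPGroup 2 S) (hF : F.IsSaturated 2) (hH : AllCentral F) :
    ∃ E : Subgroup Ω, ∀ x, x ∈ E ↔ x ∈ S ∧ x ^ 2 = 1 := by
  refine ⟨{ carrier := {x | x ∈ S ∧ x ^ 2 = 1}, one_mem' := ⟨S.one_mem, one_pow 2⟩,
            mul_mem' := ?_, inv_mem' := ?_ }, fun x => Iff.rfl⟩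
  · rintro a b ⟨ha, ha2⟩ ⟨hb, hb2⟩
    refine ⟨S.mul_mem ha hb, ?_⟩
    refine sq_eq_one_of_inverted hS hF hH (S.mul_mem ha hb) ha ?_
    have ea : a⁻¹ = a := by
      rw [pow_two] at ha2
      exact inv_eq_of_mul_eq_one_left ha2
    have eb : b⁻¹ = b := by
      rw [pow_two] at hb2
      exact inv_eq_of_mul_eq_one_left hb2
    calc a⁻¹ * (a * b) * a = b * a := by group
      _ = (a * b)⁻¹ := by rw [mul_inv_rev, ea, eb]
  · rintro a ⟨ha, ha2⟩
    exact ⟨S.inv_mem ha, by rw [inv_pow, ha2, inv_one]⟩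

theorem omega_comm {E : Subgroup Ω} (hE : ∀ x, x ∈ E ↔ x ∈ S ∧ x ^ 2 = 1) {a b : Ω} (ha : a ∈ E) (hb : b ∈ E) :
    a * b = b * a := by
  have h1 := ((hE _).1 (E.mul_mem ha hb)).2
  have ha2 := ((hE _).1 ha).2
  have hb2 := ((hE _).1 hb).2
  rw [pow_two] at h1 ha2 hb2
  calc a * b = a * b * (a * b * (b * a)) := by
        rw [show a * b * (b * a) = a * (b * b) * a by group, hb2, mul_one, ha2, mul_one]
    _ = (a * b * (a * b)) * (b * a) := by group
    _ = b * a := by rw [h1, one_mul]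

theorem omega_stronglyClosed {E : Subgroup Ω} (hE : ∀ x, x ∈ E ↔ x ∈ S ∧ x ^ 2 = 1) : F.StronglyClosed E := by
  refine ⟨fun x hx => ((hE x).1 hx).1, fun R hR φ hφ x => (hE _).2 ⟨(F.le_of_mem hφ).2 x, ?_⟩⟩
  have h1 : x ^ 2 = 1 := Subtype.ext ((hE _).1 (hR x.2)).2
  rw [← map_pow, h1, map_one]

/-- The involutions lie in every centric radical subgroup. -/
theorem omega_le (hS : IsPGroup 2 S) (hF : F.IsSaturated 2) (hH : AllCentral F) {E : Subgroup Ω}
    (hE : ∀ x, x ∈ E ↔ x ∈ S ∧ x ^ 2 = 1) {P : Subgroup Ω} (hC : F.IsCentric P) (hR : F.IsRadical 2 P) : E ≤ P := by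
  classical
  have hPS := hC.1
  have hES : E ≤ S := fun x hx => ((hE x).1 hx).1
  refine le_of_normalizer_inf_le hS hPS hES (StronglyClosed.le_normalizer (omega_stronglyClosed (F := F) hE)) ?_
  intro a haE haN
  let A := F.autGroup P
  haveI hfinA : Finite A := finite_autGroup hPS
  let K : Subgroup A :=
    { carrier := {γ | ∀ x : P, x ^ 2 = 1 → (γ : MulAut P) x = x}
      one_mem' := fun x _ => rfl
      mul_mem' := by
        intro γ δ hγ hδ x hx
        show (γ : MulAut P) ((δ : MulAut P) x) = x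
        rw [hδ x hx, hγ x hx]
      inv_mem' := by
        intro γ hγ x hx
        show (γ : MulAut P)⁻¹ x = x
        rw [MulAut.inv_def]
        exact (MulEquiv.symm_apply_eq _).2 (hγ x hx).symm }
  have hKn : K.Normal := by
    refine ⟨fun γ hγ α x hx => ?_⟩
    show (α : MulAut P) ((γ : MulAut P) ((α : MulAut P)⁻¹ x)) = x
    have h1 : ((α : MulAut P)⁻¹ x) ^ 2 = 1 := by
      rw [← map_pow, hx, map_one]
    rw [hγ _ h1]
    exact MulAut.apply_inv_self _ _ _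
  have hP2 : IsPGroup 2 P := hS.to_le hPS
  have hKp : IsPGroup 2 K := by
    rintro ⟨γ, hγ⟩
    have hne : orderOf (γ : A) ≠ 0 := (orderOf_pos (γ : A)).ne'
    obtain ⟨k, m, hm, hn⟩ := Nat.exists_eq_two_pow_mul_odd hne
    refine ⟨k, Subtype.ext ?_⟩
    show (γ : A) ^ 2 ^ k = 1
    have hδK : (γ : A) ^ 2 ^ k ∈ K := K.pow_mem hγ _
    have hord : Odd (orderOf (((γ : A) ^ 2 ^ k : A) : MulAut P)) := by
      have h1 : (((γ : A) ^ 2 ^ k : A) : MulAut P) ^ m = 1 := by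
        have h2 : ((γ : A) ^ 2 ^ k) ^ m = 1 := by
          rw [← pow_mul, ← hn, pow_orderOf_eq_one]
        have h3 := congrArg (fun t : A => (t : MulAut P)) h2
        simpa using h3
      exact Odd.of_dvd_nat hm (orderOf_dvd_of_pow_eq_one h1)
    have hfix : ∀ b : P, (((γ : A) ^ 2 ^ k : A) : MulAut P) b = b := by
      intro b
      obtain ⟨j, hj⟩ := hP2 b
      refine fix_of_fix_involutions _ hord (fun x hx => hδK x hx) (fun g c hgc => ?_) j b hj
      have h1 : (c : Ω)⁻¹ * g * c = (g : Ω)⁻¹ := congrArg (fun t : P => (t : Ω)) hgc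
      have h2 := sq_eq_one_of_inverted hS hF hH (hPS g.2) (hPS c.2) h1
      exact Subtype.ext h2
    apply Subtype.ext
    ext b
    exact congrArg (fun t : P => (t : Ω)) (hfix b)
  have hKcore : K ≤ pCore 2 A := Cfsg.Agent.Lib.Basic.PCore.le_pCore hKn hKp
  have haS : a ∈ S := hES haE
  have hmemA : normConj a haN ∈ A := autInducedBy_le_autGroup hPS (normConj_mem_autInducedBy haS haN)
  have hmemK : (⟨normConj a haN, hmemA⟩ : A) ∈ K := by
    intro x hx
    apply Subtype.ext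
    show a * (x : Ω) * a⁻¹ = x
    have hxE : (x : Ω) ∈ E := (hE _).2 ⟨hPS x.2, congrArg (fun t : P => (t : Ω)) hx⟩
    rw [omega_comm hE haE hxE]
    group
  exact mem_of_conj_mem_pCore hC hR haS (α := ⟨_, hmemA⟩) (hKcore hmemK) (fun x => rfl)

/-- A normal subgroup of the system is central in `S`. -/
theorem normal_le_center (hH : AllCentral F) {Q : Subgroup Ω} (hQ : F.IsNormal Q) {x q : Ω} (hx : x ∈ S) (hq : q ∈ Q) :
    x * q = q * x := by
  obtain ⟨z, hz, φ, hφ, hφx⟩ := hH x hx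
  obtain ⟨ψ', hψ', hr', hi', -⟩ := exists_inv hφ rfl
  obtain ⟨ψ, hψ, hag, himg⟩ := hQ.2 _ _ hψ'
  obtain ⟨q₀, hq₀, hq₀e⟩ := himg.ge hq
  have hzr : z ∈ φ.range := ⟨_, hφx⟩
  have h1 : ψ (Subgroup.inclusion le_sup_left ⟨z, hzr⟩) = x := by
    rw [hag]
    have h2 := hi' ⟨x, Subgroup.mem_zpowers x⟩ (by rw [hφx]; exact hzr)
    have e : (⟨φ ⟨x, Subgroup.mem_zpowers x⟩, by rw [hφx]; exact hzr⟩ : φ.range) = ⟨z, hzr⟩ :=
      Subtype.ext hφx
    rw [e] at h2
    exact h2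
  have hq₀S : (q₀ : Ω) ∈ S := hQ.1 hq₀
  have hcomm : (Subgroup.inclusion le_sup_left ⟨z, hzr⟩ : ↥(φ.range ⊔ Q)) * q₀ =
      q₀ * Subgroup.inclusion le_sup_left ⟨z, hzr⟩ :=
    Subtype.ext (Subgroup.mem_centralizer_iff.1 hz.2 _ hq₀S).symm
  have h3 := congrArg ψ hcomm
  rw [map_mul, map_mul, h1] at h3
  change x * ψ q₀ = ψ q₀ * x at h3
  rw [hq₀e] at h3
  exact h3

/-- If `y⁻¹ x y = x c` with `c` in a normal subgroup of exponent `2`, then `c = 1`. -/
theorem comm_step (hS : IsPGroup 2 S) (hF : F.IsSaturated 2) (hH : AllCentral F) {Q : Subgroup Ω} (hQ : F.IsNormal Q)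
    (hQ2 : ∀ q ∈ Q, q ^ 2 = 1) {x y c : Ω} (hx : x ∈ S) (hy : y ∈ S) (hc : c ∈ Q) (h : y⁻¹ * x * y = x * c) : c = 1 := by
  obtain ⟨z, hz, φ, hφ, hφx⟩ := hH x hx
  obtain ⟨φ₁, hφ₁, hag, himg⟩ := hQ.2 _ _ hφ
  let X := Subgroup.zpowers x
  have hXS : X ≤ S := by
    rw [Subgroup.zpowers_le]; exact hx
  have hPS : X ⊔ Q ≤ S := sup_le hXS hQ.1
  have hQc : ∀ {q : Ω}, q ∈ Q → ∀ s ∈ S, s * q = q * s := fun hq s hs => normal_le_center hH hQ hs hq
  have hZ : ∀ a, φ₁ a ∈ S ⊓ Subgroup.centralizer (S : Set Ω) := by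
    refine hom_sup_mem φ₁ (fun a => ?_) (fun q => ?_)
    · rw [hag]
      exact map_central_of_zpowers hφx hz a
    · have h1 : φ₁ (Subgroup.inclusion le_sup_right q) ∈ Q := himg.le ⟨_, q.2, rfl⟩
      refine ⟨hQ.1 h1, Subgroup.mem_centralizer_iff.2 (fun s hs => ?_)⟩
      exact hQc h1 s hs
  have hconj := F.conj_mem hPS (S.inv_mem hy)
  -- `y⁻¹` conjugates `X ⊔ Q` into itself
  have hcv : ∀ a : ↥(X ⊔ Q), conjHom (X ⊔ Q) y⁻¹ a ∈ X ⊔ Q := by
    intro a
    let W : Subgroup Ω := ((X ⊔ Q).comap (MulAut.conj y⁻¹).toMonoidHom)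
    have h1 : X ≤ W := by
      rw [Subgroup.zpowers_le]
      show y⁻¹ * x * y⁻¹⁻¹ ∈ X ⊔ Q
      rw [inv_inv, h]
      exact Subgroup.mul_mem _ (le_sup_left (a := X) (Subgroup.mem_zpowers x)) (le_sup_right (a := X) hc)
    have h2 : Q ≤ W := by
      intro q hq
      show y⁻¹ * q * y⁻¹⁻¹ ∈ X ⊔ Q
      rw [hQc hq _ (S.inv_mem hy)]
      have e : q * y⁻¹ * y⁻¹⁻¹ = q := by group
      rw [e]
      exact le_sup_right (a := X) hq
    exact (sup_le h1 h2) a.2
  have hφ₂ := F.comp_mem hconj hφ₁ hcv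
  obtain ⟨β, hβ, hβe⟩ := exists_aut_of_central hS hF hφ₁ hφ₂ hZ (fun a => hZ _)
  have hxP : x ∈ X ⊔ Q := le_sup_left (a := X) (Subgroup.mem_zpowers x)
  have hcP : c ∈ X ⊔ Q := le_sup_right (a := X) hc
  have hzS : z ∈ S := hz.1
  have hφ₁x : φ₁ ⟨x, hxP⟩ = z := by
    have := hag ⟨x, Subgroup.mem_zpowers x⟩
    rw [hφx] at this
    exact this
  have hd : φ₁ ⟨c, hcP⟩ ∈ Q := himg.le ⟨_, hc, rfl⟩
  have hdS : φ₁ ⟨c, hcP⟩ ∈ S := hQ.1 hd
  set d : Ω := φ₁ ⟨c, hcP⟩ with hd_def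
  have hβz : ((β ⟨z, hzS⟩ : S) : Ω) = z * d := by
    have h1 := hβe ⟨x, hxP⟩ (hZ _).1
    have e1 : (⟨φ₁ ⟨x, hxP⟩, (hZ _).1⟩ : S) = ⟨z, hzS⟩ := Subtype.ext hφ₁x
    rw [e1] at h1
    rw [h1]
    show φ₁ ⟨y⁻¹ * x * y⁻¹⁻¹, _⟩ = _
    have e2 : (⟨y⁻¹ * x * y⁻¹⁻¹, hcv ⟨x, hxP⟩⟩ : ↥(X ⊔ Q)) = ⟨x, hxP⟩ * ⟨c, hcP⟩ := by
      apply Subtype.ext
      show y⁻¹ * x * y⁻¹⁻¹ = x * c
      rw [inv_inv, h]
    rw [e2, map_mul, hφ₁x]
  have hβd : ((β ⟨d, hdS⟩ : S) : Ω) = d := by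
    have h1 := hβe ⟨c, hcP⟩ (hZ _).1
    rw [h1]
    show φ₁ ⟨y⁻¹ * c * y⁻¹⁻¹, _⟩ = _
    have e2 : (⟨y⁻¹ * c * y⁻¹⁻¹, hcv ⟨c, hcP⟩⟩ : ↥(X ⊔ Q)) = ⟨c, hcP⟩ := by
      apply Subtype.ext
      show y⁻¹ * c * y⁻¹⁻¹ = c
      rw [hQc hc _ (S.inv_mem hy)]
      group
    rw [e2]
  have hd2 : d * d = 1 := by
    have := hQ2 d hd
    rwa [pow_two] at this
  have hzc : ∀ s : S, s * (⟨z, hzS⟩ : S) = ⟨z, hzS⟩ * s := by
    intro s
    exact Subtype.ext (Subgroup.mem_centralizer_iff.1 hz.2 s s.2)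
  have h2 : β (β ⟨z, hzS⟩) = ⟨z, hzS⟩ := by
    have e : β ⟨z, hzS⟩ = ⟨z, hzS⟩ * ⟨d, hdS⟩ := Subtype.ext hβz
    rw [e, map_mul, e]
    apply Subtype.ext
    show z * d * ((β ⟨d, hdS⟩ : S) : Ω) = z
    rw [hβd, mul_assoc, hd2, mul_one]
  have h3 := aut_fix hS hF hβ hzc h2
  have h4 : z * d = z := by
    rw [← hβz, h3]
  have h5 : d = 1 := by simpa using h4
  have h6 : φ₁ ⟨c, hcP⟩ = φ₁ 1 := by
    rw [map_one]; exact h5
  have h7 := F.injective_of_mem hφ₁ h6
  exact congrArg Subtype.val h7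

end Fusion

/-- **Every element conjugate into the centre: `S` is abelian** (`p = 2`). -/
theorem comm_of_allCentral (n : ℕ) : ∀ {Ω : Type u} [Group Ω] {S : Subgroup Ω} [Finite S] {F : FusionSystem S},
    Nat.card S = n → IsPGroup 2 S → F.IsSaturated 2 → AllCentral F → ∀ a ∈ S, ∀ b ∈ S, a * b = b * a := by
  induction n using Nat.strong_induction_on with
  | _ n ih =>
    intro Ω _ S _ F hn hS hF hH a ha b hb
    classical
    obtain ⟨E, hE⟩ := exists_omega hS hF hH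
    by_cases hS1 : S = ⊥
    · rw [hS1, Subgroup.mem_bot] at ha hb
      rw [ha, hb]
    have hsc := omega_stronglyClosed (F := F) hE
    have hEn : F.IsNormal E := isNormal_of_stronglyClosed_of_le hS hF hsc
      (fun P hC hR => omega_le hS hF hH hE hC hR)
    have hE2 : ∀ q ∈ E, q ^ 2 = 1 := fun q hq => ((hE q).1 hq).2
    -- `E` is nontrivial
    have hEne : E ≠ ⊥ := by
      intro h
      haveI : Nontrivial S := by
        rw [Subgroup.nontrivial_iff_exists_ne_one]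
        obtain ⟨x, hx, hx1⟩ := (Subgroup.bot_or_exists_ne_one S).resolve_left hS1
        exact ⟨x, hx, hx1⟩
      obtain ⟨k, hk⟩ := IsPGroup.iff_card.1 hS
      have h2 : 2 ∣ Nat.card S := by
        have h3 : Nat.card S ≠ 1 := Finite.one_lt_card.ne'
        rw [hk] at h3 ⊢
        have hk0 : k ≠ 0 := by
          rintro rfl
          simp at h3
        exact dvd_pow_self 2 hk0
      obtain ⟨x, hx⟩ := exists_prime_orderOf_dvd_card' 2 h2
      have h1 : ((x : S) : Ω) ∈ E := (hE _).2 ⟨x.2, by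
        have := pow_orderOf_eq_one x
        rw [hx] at this
        exact congrArg (fun t : S => (t : Ω)) this⟩
      rw [h, Subgroup.mem_bot] at h1
      have h2 : x = 1 := Subtype.ext h1
      rw [h2, orderOf_one] at hx
      omega
    have hSNE : S ≤ Subgroup.normalizer (E : Set Ω) := StronglyClosed.le_normalizer hsc
    have hnorm : (E.subgroupOf S).Normal := by
      refine ⟨fun x hx g => ?_⟩
      rw [Subgroup.mem_subgroupOf] at hx ⊢
      exact (Subgroup.mem_normalizer_iff.1 (hSNE g.2) x).1 hx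
    let θ : S →* (S ⧸ E.subgroupOf S) := QuotientGroup.mk' _
    have hker : ∀ s : S, θ s = 1 ↔ (s : Ω) ∈ E := by
      intro s
      rw [show θ s = 1 ↔ s ∈ E.subgroupOf S from QuotientGroup.eq_one_iff s, Subgroup.mem_subgroupOf]
    have hrange : θ.range = ⊤ := QuotientGroup.range_mk' _
    obtain ⟨D, hD⟩ := Cfsg.Agent.Lib.Fusion.Factor.exists_isFactorSystem F hsc θ hker hrange
    have hsurj := Cfsg.Agent.Lib.Fusion.FactorMorphism.isSurjectiveMorphism_of_isFactorSystem hS hF hsc hD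
    have hDs : D.IsSaturated 2 := Cfsg.Agent.Lib.Fusion.Image.isSaturated_image hS hF hsurj
    haveI hfinQ : Finite (S ⧸ E.subgroupOf S) := Finite.of_surjective θ (QuotientGroup.mk'_surjective _)
    have hDp : IsPGroup 2 (⊤ : Subgroup (S ⧸ E.subgroupOf S)) := by
      have h1 : IsPGroup 2 (S ⧸ E.subgroupOf S) := IsPGroup.of_surjective hS θ (QuotientGroup.mk'_surjective _)
      exact h1.to_subgroup _
    have hcard : Nat.card (⊤ : Subgroup (S ⧸ E.subgroupOf S)) < n := by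
      rw [Subgroup.card_top, ← hn]
      have h1 := Subgroup.card_eq_card_quotient_mul_card_subgroup (E.subgroupOf S)
      have h2 : Nat.card (E.subgroupOf S) ≠ 1 := by
        intro h
        have h3 := Subgroup.eq_bot_of_card_eq _ h
        apply hEne
        apply le_bot_iff.1
        intro x hx
        have h5 : (⟨x, hsc.1 hx⟩ : S) ∈ E.subgroupOf S := hx
        rw [h3] at h5
        have h6 := Subgroup.mem_bot.1 h5
        exact Subgroup.mem_bot.2 (congrArg Subtype.val h6)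
      have h3 : 0 < Nat.card (E.subgroupOf S) := Nat.card_pos
      have h4 : 0 < Nat.card (S ⧸ E.subgroupOf S) := Nat.card_pos
      rw [h1]
      exact lt_mul_of_one_lt_right h4 (by omega)
    have hDH : AllCentral D := by
      intro w _
      obtain ⟨x, rfl⟩ := QuotientGroup.mk'_surjective _ w
      obtain ⟨z, hz, φ, hφ, hφx⟩ := hH x x.2
      obtain ⟨φ', hφ', hp, hv, hmem, he⟩ := hsurj.1.2 _ φ hφ
      have hzS : z ∈ S := hz.1
      have himg : imageAlong θ (Subgroup.zpowers (x : Ω)) = Subgroup.zpowers (θ x) := by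
        apply le_antisymm
        · rintro _ ⟨⟨w, hwS⟩, hw, rfl⟩
          obtain ⟨k, hk⟩ := Subgroup.mem_subgroupOf.1 hw
          refine ⟨k, ?_⟩
          show θ x ^ k = _
          rw [← map_zpow]
          congr 1
          exact Subtype.ext hk
        · rw [Subgroup.zpowers_le]
          exact ⟨x, Subgroup.mem_subgroupOf.2 (Subgroup.mem_zpowers _), rfl⟩
      obtain ⟨φ'', hφ'', hφ''e⟩ := Cfsg.Agent.Lib.Fusion.Joins.exists_hom_of_eq D himg φ' hφ'
      refine ⟨θ ⟨z, hzS⟩, ⟨Subgroup.mem_top _, ?_⟩, φ'', hφ'', ?_⟩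
      · refine Subgroup.mem_centralizer_iff.2 (fun w _ => ?_)
        obtain ⟨s, rfl⟩ := QuotientGroup.mk'_surjective _ w
        have h1 : s * ⟨z, hzS⟩ = ⟨z, hzS⟩ * s := Subtype.ext (Subgroup.mem_centralizer_iff.1 hz.2 s s.2)
        have h2 := congrArg θ h1
        rw [map_mul, map_mul] at h2
        exact h2
      · have hxr : θ x ∈ imageAlong θ (Subgroup.zpowers (x : Ω)) :=
          himg.ge (Subgroup.mem_zpowers _)
        rw [hφ''e _ hxr (Subgroup.mem_zpowers _)]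
        have h1 := he ⟨x, Subgroup.mem_zpowers (x : Ω)⟩
        have e : (⟨x, hp (Subgroup.mem_zpowers (x : Ω))⟩ : S) = x := rfl
        have h2 : (⟨φ ⟨x, Subgroup.mem_zpowers (x : Ω)⟩, hv _⟩ : S) = ⟨z, hzS⟩ := Subtype.ext hφx
        rw [h2] at h1
        exact h1
    -- the quotient is abelian
    have hab := ih _ hcard (F := D) rfl hDp hDs hDH
    have h1 := hab (θ ⟨a, ha⟩) (Subgroup.mem_top _) (θ ⟨b, hb⟩) (Subgroup.mem_top _)
    rw [← map_mul, ← map_mul] at h1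
    have h2 : θ ((⟨a, ha⟩ * ⟨b, hb⟩)⁻¹ * (⟨b, hb⟩ * ⟨a, ha⟩)) = 1 := by
      rw [map_mul, map_inv, h1, inv_mul_cancel]
    rw [hker] at h2
    -- `c = (a b)⁻¹ (b a)`
    have hc : b⁻¹ * a * b = a * ((a * b)⁻¹ * (b * a))⁻¹ := by
      group
    have h3 := comm_step hS hF hH hEn hE2 ha hb (E.inv_mem h2) hc
    have h4 : (a * b)⁻¹ * (b * a) = 1 := inv_eq_one.1 h3
    have h5 : b * a = a * b := by
      have := eq_of_inv_mul_eq_one h4
      exact this.symm
    exact h5.symm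

end Cfsg.Agent.Lib.Fusion.CentralConj
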