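/-
Characters of the automizer of a normal subsystem, part 1: fusion systems generated over a family of centric subgroups,
and a saturation criterion for the product with a group of automorphisms.
-/
import Mathlib
import Cfsg.Prelude.Def_FusionComponents
import Cfsg.Agent.Lib.Fusion.Basic
import Cfsg.Agent.Lib.Fusion.Saturated
import Cfsg.Agent.Lib.Fusion.Alperin
import Cfsg.Agent.Lib.Fusion.Centric
import Cfsg.Agent.Lib.Fusion.Subsystem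
import Cfsg.Agent.Lib.Fusion.SatCrit8
import Cfsg.Agent.Lib.Fusion.PPrime3

set_option autoImplicit false

namespace Cfsg.Agent.Lib.Fusion.CharAut

open Cfsg Cfsg.FusionSystem Cfsg.Agent.Lib.Fusion.Basic Cfsg.Agent.Lib.Fusion.Saturated
open Cfsg.Agent.Lib.Fusion.PPrime
open Cfsg.Agent.Lib.Fusion.SatCrit (imgOf mem_imgOf imgOf_le)
open Cfsg.Agent.Lib.Fusion.Alperin (lt_normalizerIn isFullyNormalized_of_good)
open Cfsg.Agent.Lib.Fusion.Centric (isCentric_of_le)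
open Cfsg.Agent.Lib.Fusion.Subsystem (isCentric_of_isConj)

variable {Ω : Type*} [Group Ω] {S : Subgroup Ω} {F : FusionSystem S}

/-- The fusion systems containing `O^{p'}(Aut_F(R))` for all `R` in the family `ℋ`. -/
def famClass (F : FusionSystem S) (p : ℕ) (ℋ : Set (Subgroup Ω)) : Set (FusionSystem S) :=
  {E | ∀ R ∈ ℋ, KK F p R ≤ E.autGroup R}

theorem self_mem_famClass (F : FusionSystem S) (p : ℕ) (ℋ : Set (Subgroup Ω)) : F ∈ famClass F p ℋ :=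
  fun R _ => KK_le_autGroup F p R

/-- The fusion system generated by `O^{p'}(Aut_F(R))`, `R ∈ ℋ`. -/
def famSys (F : FusionSystem S) (p : ℕ) (ℋ : Set (Subgroup Ω)) : FusionSystem S :=
  sInfSys (famClass F p ℋ) F (self_mem_famClass F p ℋ)

theorem famSys_le {p : ℕ} {ℋ : Set (Subgroup Ω)} {E : FusionSystem S} (hE : E ∈ famClass F p ℋ) : famSys F p ℋ ≤ E :=
  fun _ _ h => h E hE

theorem famSys_self_le (F : FusionSystem S) (p : ℕ) (ℋ : Set (Subgroup Ω)) : famSys F p ℋ ≤ F :=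
  famSys_le (self_mem_famClass F p ℋ)

theorem famSys_mem (F : FusionSystem S) (p : ℕ) {ℋ : Set (Subgroup Ω)} (hℋS : ∀ R ∈ ℋ, R ≤ S) :
    famSys F p ℋ ∈ famClass F p ℋ := by
  intro R hR α hα
  refine mem_autGroup_of_mem (fun E hE => ?_)
  exact autGroup_mem_hom (hℋS R hR) (hE R hR hα)

theorem conjSys_mem_famClass {p : ℕ} {ℋ : Set (Subgroup Ω)} (hℋS : ∀ R ∈ ℋ, R ≤ S)
    (hℋ : ∀ β ∈ F.autGroup S, ∀ R ∈ ℋ, imgOf β R ∈ ℋ) {E : FusionSystem S} (hE : E ∈ famClass F p ℋ) {β : MulAut S}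
    (hβ : β ∈ F.autGroup S) : conjSys E β ∈ famClass F p ℋ := by
  intro R hR
  rw [KK_le_iff]
  intro α hα hk
  have hRS := hℋS R hR
  have hm := resA_mem hβ hRS
  have hinj := F.injective_of_mem hm
  let e := isoOfRange hinj (range_resA β hRS)
  have he : ∀ x : R, ((e x : imgOf β R) : Ω) = resA β hRS x := fun x => rfl
  have hα' : MulAut.congr e α ∈ F.autGroup (imgOf β R) := congr_mem_autGroup hm e he hα
  have hk' : ∃ k : ℕ, orderOf (MulAut.congr e α) = p ^ k := by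
    obtain ⟨k, hk⟩ := hk
    refine ⟨k, ?_⟩
    rw [← hk]
    exact orderOf_injective (MulAut.congr e).toMonoidHom (MulEquiv.injective _) α
  have h1 := hE _ (hℋ β hβ R hR) (mem_KK hα' hk')
  refine mem_autGroup_of_mem ⟨hRS, fun x => hRS (α x).2, _, autGroup_mem_hom (imgOf_le β R) h1, ?_⟩
  intro a b ha hb hab
  have e1 : (⟨((β a : S) : Ω), hb⟩ : imgOf β R) = e ⟨a, ha⟩ := Subtype.ext rfl
  show (((MulAut.congr e α) ⟨((β a : S) : Ω), hb⟩ : imgOf β R) : Ω) = _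
  rw [e1]
  have e2 : (MulAut.congr e α) (e ⟨a, ha⟩) = e (α ⟨a, ha⟩) := by
    simp [MulAut.congr_apply]
  rw [e2]
  have e3 : (⟨((α ⟨a, ha⟩ : R) : Ω), hRS (α ⟨a, ha⟩).2⟩ : S) = b := Subtype.ext hab
  show ((β ⟨((α ⟨a, ha⟩ : R) : Ω), hRS (α ⟨a, ha⟩).2⟩ : S) : Ω) = _
  rw [e3]

theorem famSys_inv (F : FusionSystem S) (p : ℕ) {ℋ : Set (Subgroup Ω)} (hℋS : ∀ R ∈ ℋ, R ≤ S)
    (hℋ : ∀ β ∈ F.autGroup S, ∀ R ∈ ℋ, imgOf β R ∈ ℋ) : IsInvUnder (famSys F p ℋ) (F.autGroup S) := by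
  intro β hβ P φ hφ E hE
  obtain ⟨hP, hv, χ, hχ, hc⟩ := hφ (conjSys E β) (conjSys_mem_famClass hℋS hℋ hE hβ)
  rwa [← hc.eq_conjMap hP]

/-- The product `Γ · G` is invariant under every group normalizing `Γ` and leaving `G` invariant. -/
theorem prodSys_inv {Γ Λ : Subgroup (MulAut S)} {G : FusionSystem S} {hinv : IsInvUnder G Γ} (hG : IsInvUnder G Λ)
    (hΓ : ∀ γ ∈ Λ, ∀ β ∈ Γ, γ * β * γ⁻¹ ∈ Γ) : IsInvUnder (prodSys Γ G hinv) Λ := by
  rintro γ hγ P φ ⟨β, hβ, φ₀, hφ₀, he⟩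
  refine ⟨γ * β * γ⁻¹, hΓ γ hγ β hβ, conjMap γ φ₀ (map_mem_S hφ₀), hG γ hγ P φ₀ hφ₀, fun y hy => ?_⟩
  have hyS : (y : Ω) ∈ S := imgOf_le γ P y.2
  have h1 := (mem_imgOf (⟨y, hyS⟩ : S)).1 y.2
  have e0 : γ (γ⁻¹ ⟨y, hyS⟩) = ⟨y, hyS⟩ := by simp
  have h2 := (isConjBy_conjMap γ φ₀ (map_mem_S hφ₀)).apply' (a := γ⁻¹ ⟨y, hyS⟩) (y := ⟨y, hyS⟩)
    (b := ⟨φ₀ ⟨_, h1⟩, map_mem_S hφ₀ _⟩) h1 y.2 e0 rfl
  have hφS : ∀ x : P, φ x ∈ S := fun x => by
    rw [he x (map_mem_S hφ₀ x)]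
    exact (β _).2
  have h3 := (isConjBy_conjMap γ φ hφS).apply' (a := γ⁻¹ ⟨y, hyS⟩) (y := ⟨y, hyS⟩)
    (b := ⟨φ ⟨_, h1⟩, hφS _⟩) h1 y.2 e0 rfl
  refine h3.trans ?_
  have h4 : (⟨conjMap γ φ₀ (map_mem_S hφ₀) y, hy⟩ : S) = γ ⟨φ₀ ⟨_, h1⟩, map_mem_S hφ₀ _⟩ := Subtype.ext h2
  rw [h4]
  have h5 : (⟨φ ⟨_, h1⟩, hφS _⟩ : S) = β ⟨φ₀ ⟨_, h1⟩, map_mem_S hφ₀ _⟩ := Subtype.ext (he _ _)
  rw [h5]
  simp

section Main

variable [Finite S] {p : ℕ} [Fact p.Prime]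

/-- Generation: a fusion system containing `Aut_F(S)` and, for the `F`-centric fully normalized `R`, either
`O^{p'}(Aut_F(R))`, or all of whose automorphisms extend to a larger subgroup, contains `F`. -/
theorem le_of_family (hS : IsPGroup p S) (hF : F.IsSaturated p) {D : FusionSystem S}
    (h1 : ∀ R : Subgroup Ω, F.IsCentric R → F.IsFullyNormalized R →
      KK F p R ≤ D.autGroup R ∨ ∀ α ∈ F.autGroup R, ∃ t ∈ S, t ∉ R ∧ t ∈ extender S R (R.subtype.comp α.toMonoidHom))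
    (h2 : F.autGroup S ≤ D.autGroup S) : F ≤ D := by
  have key : ∀ n : ℕ, ∀ R : Subgroup Ω, F.IsCentric R → Nat.card S - Nat.card R = n →
      ∀ θ : R →* Ω, θ ∈ F.Hom R → θ ∈ D.Hom R := by
    intro n
    induction n using Nat.strong_induction_on with
    | _ n ih =>
      intro R hRc hn φ hφ
      obtain ⟨Q, hRQ, hQa, hQr⟩ := hF R hRc.1
      have hQc := isCentric_of_isConj hRc hRQ
      have hIH : ∀ R' : Subgroup Ω, F.IsCentric R' → Nat.card R < Nat.card R' → ∀ θ : R' →* Ω,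
          θ ∈ F.Hom R' → θ ∈ D.Hom R' := by
        intro R' hR' hlt θ hθ
        have hc : Nat.card R' ≤ Nat.card S := Subgroup.card_le_of_le hR'.1
        exact ih (Nat.card S - Nat.card R') (by omega) R' hR' rfl θ hθ
      refine hom_mem_of_larger_centric hS hQa hQr hRQ hRc hIH ?_ φ hφ
      by_cases hQS : Q = S
      · subst hQS
        exact h2
      rcases h1 Q hQc (isFullyNormalized_of_good hS hQa hQr) with hK | hext
      · refine autGroup_le_of_good hQa hQr hK (fun θ hθ => hIH _ ?_ ?_ θ hθ)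
        · exact isCentric_of_le hQc (le_normalizerIn hQc.1) normalizerIn_le
        · rw [Basic.IsConj.card_eq hRQ]
          have hlt := lt_normalizerIn hS hQc.1 hQS
          have hfin : Finite (normalizerIn S Q) := finite_of_le normalizerIn_le
          by_contra hcon
          exact hlt.ne (Subgroup.eq_of_le_of_card_ge hlt.le (not_lt.1 hcon))
      · intro α hα
        obtain ⟨t, htS, htQ, hte⟩ := hext α hα
        have hQS' : Q ≤ S := hQa.1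
        have hαF : Q.subtype.comp α.toMonoidHom ∈ F.Hom Q := autGroup_mem_hom hQS' hα
        have hr : (Q.subtype.comp α.toMonoidHom).range = Q := by
          ext y
          constructor
          · rintro ⟨z, rfl⟩
            exact (α z).2
          · intro hy
            exact ⟨α⁻¹ ⟨y, hy⟩, by simp⟩
        obtain ⟨ψ, hψ, hψe⟩ := hQr.2 Q _ hαF hr
        have hQM : Q ≤ extender S Q (Q.subtype.comp α.toMonoidHom) := le_extender hQS' (map_mem_S hαF)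
        have hMS : extender S Q (Q.subtype.comp α.toMonoidHom) ≤ S := extender_le_normalizerIn.trans normalizerIn_le
        have hfin : Finite ↥(extender S Q (Q.subtype.comp α.toMonoidHom)) := finite_of_le hMS
        have hlt : Nat.card Q < Nat.card ↥(extender S Q (Q.subtype.comp α.toMonoidHom)) := by
          by_contra hcon
          have := Subgroup.eq_of_le_of_card_ge hQM (not_lt.1 hcon)
          exact htQ (this ▸ hte)
        have hψD := hIH _ (isCentric_of_le hQc hQM hMS) (by rw [Basic.IsConj.card_eq hRQ]; exact hlt) ψ hψ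
        refine mem_autGroup_of_mem (mem_of_eq_res hψD hQM (fun x => ?_))
        exact (hψe x x.2 (hQM x.2)).symm
  refine Alperin.le_of_essential hS hF ?_
  rintro P (rfl | he) α hα
  · exact h2 hα
  · exact mem_autGroup_of_mem (key _ P he.1 rfl _ (autGroup_mem_hom he.1.1 hα))

/-- Under a factorization of `F` through `G`, each subgroup is `G`-conjugate to an `F`-fully normalized one. -/
theorem exists_conj_fullyNormalized (hS : IsPGroup p S) (hF : F.IsSaturated p) {G : FusionSystem S} (hGF : G ≤ F)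
    (hfac : ∀ (P : Subgroup Ω) (φ : P →* Ω), φ ∈ F.Hom P → ∃ α ∈ F.autGroup S, ∃ φ₀ ∈ G.Hom P,
      ∀ (x : P) (hx : φ₀ x ∈ S), φ x = ((α ⟨φ₀ x, hx⟩ : S) : Ω)) {P : Subgroup Ω} (hP : P ≤ S) :
    ∃ ω₀ ∈ G.Hom P, F.IsFullyNormalized ω₀.range := by
  obtain ⟨Q₁, ⟨ω, hω, hωr⟩, hQ₁a, hQ₁r⟩ := hF P hP
  obtain ⟨β, hβ, ω₀, hω₀, he⟩ := hfac P ω hω
  have hQ₁fn : F.IsFullyNormalized Q₁ := isFullyNormalized_of_good hS hQ₁a hQ₁r
  have hω₀F := hGF P hω₀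
  have hQle : ω₀.range ≤ S := range_le hω₀
  have hQ₁S : Q₁ ≤ S := hQ₁a.1
  have hiff : ∀ s : S, (s : Ω) ∈ Q₁ ↔ ((β⁻¹ s : S) : Ω) ∈ ω₀.range := by
    intro s
    constructor
    · intro hs
      rw [← hωr] at hs
      obtain ⟨x, hx⟩ := hs
      refine ⟨x, ?_⟩
      have h1 : (⟨ω₀ x, map_mem_S hω₀ x⟩ : S) = β⁻¹ s := by
        apply (MulEquiv.eq_symm_apply β).2
        exact Subtype.ext ((he x (map_mem_S hω₀ x)).symm.trans hx)
      exact congrArg (fun z : S => (z : Ω)) h1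
    · rintro ⟨x, hx⟩
      rw [← hωr]
      refine ⟨x, ?_⟩
      rw [he x (map_mem_S hω₀ x)]
      have h1 : (⟨ω₀ x, map_mem_S hω₀ x⟩ : S) = β⁻¹ s := Subtype.ext hx
      rw [h1]
      simp
  have hconj : F.IsConj ω₀.range Q₁ :=
    Basic.IsConj.trans (Basic.IsConj.symm ⟨ω₀, hω₀F, rfl⟩) ⟨ω, hω, hωr⟩
  refine ⟨ω₀, hω₀, hQle, fun Q' hQ' => ?_⟩
  refine (hQ₁fn.2 Q' (Basic.IsConj.trans (Basic.IsConj.symm hconj) hQ')).trans ?_
  exact card_normalizerIn_le hQ₁S hQle β⁻¹ hiff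

/-- A saturation criterion for the product `Γ₀ · G`, given a factorization of `F` through `G`. -/
theorem isSaturated_prodSys (hS : IsPGroup p S) (hF : F.IsSaturated p) {G : FusionSystem S} (hGF : G ≤ F)
    {Γ₀ : Subgroup (MulAut S)} (hΓ₀ : Γ₀ ≤ F.autGroup S) (hinv : IsInvUnder G Γ₀)
    (hfac : ∀ (P : Subgroup Ω) (φ : P →* Ω), φ ∈ F.Hom P → ∃ α ∈ F.autGroup S, ∃ φ₀ ∈ G.Hom P,
      ∀ (x : P) (hx : φ₀ x ∈ S), φ x = ((α ⟨φ₀ x, hx⟩ : S) : Ω))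
    (ℋ : Set (Subgroup Ω)) (hℋS : ∀ P ∈ ℋ, F.IsCentric P) (hℋconj : ∀ P ∈ ℋ, ∀ Q, F.IsConj P Q → Q ∈ ℋ)
    (hc : ∀ β ∈ F.autGroup S, ∀ R ∈ ℋ, ∀ hRS : R ≤ S, resA β hRS ∈ (prodSys Γ₀ G hinv).Hom R → β ∈ Γ₀)
    (hgen : ∀ E' : FusionSystem S, (∀ P ∈ ℋ, (prodSys Γ₀ G hinv).Hom P ⊆ E'.Hom P) → prodSys Γ₀ G hinv ≤ E')
    (hstar : ∀ P : Subgroup Ω, F.IsCentric P → P ∉ ℋ → F.IsFullyNormalized P →
      ¬ (autInducedBy S P ⊓ (pCore p ↥((prodSys Γ₀ G hinv).autGroup P)).map ((prodSys Γ₀ G hinv).autGroup P).subtype ≤ Inn P)) :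
    (prodSys Γ₀ G hinv).IsSaturated p := by
  have hF₀F : prodSys Γ₀ G hinv ≤ F := prodSys_le hGF hΓ₀
  refine SatCrit.isSaturated_of_family hS ℋ (fun P hP => (hℋS P hP).1) ?_ ?_ hgen ?_
  · rintro P hP Q ⟨φ, hφ, hr⟩
    exact hℋconj P hP Q ⟨φ, hF₀F _ hφ, hr⟩
  · intro P hP
    obtain ⟨ω₀, hω₀, hfn⟩ := exists_conj_fullyNormalized hS hF hGF hfac (hℋS P hP).1
    have hfa := (fullyNormalized_props hS hF hfn).2
    have hfr := fullyNormalized_receptive hS hF hfn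
    refine ⟨ω₀.range, ⟨ω₀, le_prodSys _ hω₀, rfl⟩, isFullyAutomized_of_le hS hF₀F hfa, range_le hω₀, ?_⟩
    intro P' φ hφ hφr
    obtain ⟨ψ, hψ, hext⟩ := hfr.2 P' φ (hF₀F _ hφ) hφr
    obtain ⟨β₂, hβ₂, ψ₀, hψ₀, hψe⟩ := hfac _ ψ hψ
    refine ⟨ψ, ?_, hext⟩
    have hP'conj : F.IsConj P P' :=
      Basic.IsConj.trans ⟨ω₀, hGF _ hω₀, rfl⟩ (Basic.IsConj.symm (F := F) ⟨φ, hF₀F _ hφ, hφr⟩)
    have hP'ℋ : P' ∈ ℋ := hℋconj P hP P' hP'conj
    have hP'c : F.IsCentric P' := hℋS _ hP'ℋ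
    have hP'le : P' ≤ extender S P' φ := le_extender hP'c.1 (map_mem_S hφ)
    have hres := res_mem hψ₀ hP'le
    have hRℋ : (ψ₀.comp (Subgroup.inclusion hP'le)).range ∈ ℋ := hℋconj P' hP'ℋ _ ⟨_, hGF _ hres, rfl⟩
    obtain ⟨σ, hσ, hσx⟩ := G.inv_mem hres
    have hσv : ∀ y : (ψ₀.comp (Subgroup.inclusion hP'le)).range, σ y ∈ P' := by
      rintro ⟨_, x, rfl⟩
      rw [hσx x]
      exact x.2
    have hβres : resA β₂ (hℋS _ hRℋ).1 ∈ (prodSys Γ₀ G hinv).Hom (ψ₀.comp (Subgroup.inclusion hP'le)).range := by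
      refine comp_mem' (le_prodSys _ hσ) hφ hσv (fun y => ?_)
      obtain ⟨_, x, rfl⟩ := y
      have h1 : (⟨σ ⟨(ψ₀.comp (Subgroup.inclusion hP'le)) x, ⟨x, rfl⟩⟩, hσv _⟩ : P') = x := Subtype.ext (hσx x)
      rw [h1, ← hext x x.2 (hP'le x.2)]
      have h2 := hψe (Subgroup.inclusion hP'le x) (map_mem_S hψ₀ _)
      rw [resA_apply]
      exact h2.symm
    exact ⟨β₂, hc β₂ hβ₂ _ hRℋ _ hβres, ψ₀, hψ₀, hψe⟩
  · intro P hP hP'
    have hfac' : ∀ (P : Subgroup Ω) (φ : P →* Ω), φ ∈ F.Hom P → ∃ α ∈ F.autGroup S, ∃ φ₀ ∈ (prodSys Γ₀ G hinv).Hom P,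
        ∀ (x : P) (hx : φ₀ x ∈ S), φ x = ((α ⟨φ₀ x, hx⟩ : S) : Ω) := by
      intro P φ hφ
      obtain ⟨α, hα, φ₀, hφ₀, he⟩ := hfac P φ hφ
      exact ⟨α, hα, φ₀, le_prodSys _ hφ₀, he⟩
    have hPc : F.IsCentric P := (isCentric_iff_of_prod hF₀F hfac' P).1 hP
    obtain ⟨ω₀, hω₀, hfn⟩ := exists_conj_fullyNormalized hS hF hGF hfac hPc.1
    refine ⟨ω₀.range, ⟨ω₀, le_prodSys _ hω₀, rfl⟩, hstar _ (isCentric_of_isConj hPc ⟨ω₀, hGF _ hω₀, rfl⟩) ?_ hfn⟩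
    intro hin
    exact hP' (hℋconj _ hin P (Basic.IsConj.symm (F := F) ⟨ω₀, hGF _ hω₀, rfl⟩))

end Main

end Cfsg.Agent.Lib.Fusion.CharAut
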