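/-
Characters of the automizer of a normal subsystem, part 2: a fully normalized `P` such that `P ∩ T` is not centric in
the subsystem over `T` has non-inner automorphisms in `O_p(Aut_F(P))` induced by `S`.
-/
import Mathlib
import Cfsg.Prelude.Def_FusionComponents
import Cfsg.Agent.Lib.Fusion.Chain
import Cfsg.Agent.Lib.Fusion.Factor
import Cfsg.Agent.Lib.Fusion.NormalCR
import Cfsg.Agent.Lib.Fusion.CharAut1

set_option autoImplicit false

namespace Cfsg.Agent.Lib.Fusion.CharAut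

open Cfsg Cfsg.FusionSystem Cfsg.Agent.Lib.Fusion.Basic Cfsg.Agent.Lib.Fusion.Saturated
open Cfsg.Agent.Lib.Fusion.PPrime
open Cfsg.Agent.Lib.Fusion.SatCrit (imgOf mem_imgOf imgOf_le)
open Cfsg.Agent.Lib.Fusion.Alperin (lt_normalizerIn isFullyNormalized_of_good)
open Cfsg.Agent.Lib.Fusion.Centric (isCentric_of_le)
open Cfsg.Agent.Lib.Fusion.Subsystem (isCentric_of_isConj)
open Cfsg.Agent.Lib.Fusion.Factor (mem_of_map_mem_stronglyClosed)

variable {Ω : Type*} [Group Ω] {S : Subgroup Ω} {F : FusionSystem S}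

/-- The product of two subgroups, the first normalizing the second. -/
def mulSub (Q W : Subgroup Ω) (h : ∀ q ∈ Q, ∀ w ∈ W, q * w * q⁻¹ ∈ W) : Subgroup Ω where
  carrier := {x | ∃ q ∈ Q, ∃ w ∈ W, x = q * w}
  mul_mem' := by
    rintro _ _ ⟨q, hq, w, hw, rfl⟩ ⟨q', hq', w', hw', rfl⟩
    refine ⟨q * q', Q.mul_mem hq hq', q'⁻¹ * w * q' * w', W.mul_mem ?_ hw', by group⟩
    have := h q'⁻¹ (Q.inv_mem hq') w hw
    simpa using this
  one_mem' := ⟨1, Q.one_mem, 1, W.one_mem, by simp⟩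
  inv_mem' := by
    rintro _ ⟨q, hq, w, hw, rfl⟩
    exact ⟨q⁻¹, Q.inv_mem hq, q * w⁻¹ * q⁻¹, h q hq _ (W.inv_mem hw), by group⟩

section Main

variable [Finite S] {p : ℕ} [Fact p.Prime]

/-- The element `t`. -/
theorem exists_t (hS : IsPGroup p S) (hF : F.IsSaturated p) {T : Subgroup Ω} (hSC : F.StronglyClosed T)
    {E : FusionSystem T} (hEF : E.IsSubsystemOf F)
    (hC : ∀ R : Subgroup Ω, R ≤ T → ∀ φ ∈ F.Hom R, E.IsCentric R → E.IsCentric φ.range) {P : Subgroup Ω}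
    (hPfn : F.IsFullyNormalized P) (hn : ¬ E.IsCentric (P ⊓ T)) :
    ∃ t ∈ T, t ∈ Subgroup.normalizer (P : Set Ω) ∧ t ∉ P ∧ ∀ x ∈ P ⊓ T, t * x * t⁻¹ = x := by
  have hTS : T ≤ S := hSC.1
  have hPS : P ≤ S := hPfn.1
  have hRS : P ⊓ T ≤ S := inf_le_left.trans hPS
  obtain ⟨R₁, hRR₁, hR₁a, hR₁r⟩ := hF (P ⊓ T) hRS
  obtain ⟨ω, hω, hωv, hωm⟩ := exists_map_normalizerIn hS hR₁a hR₁r hRR₁
  have hR₁T : R₁ ≤ T := by
    obtain ⟨θ, hθ, rfl⟩ := hRR₁
    rintro _ ⟨r, rfl⟩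
    exact hSC.2 _ inf_le_right θ hθ r
  have hR₁S : R₁ ≤ S := hR₁T.trans hTS
  have hR₁n : ¬ E.IsCentric R₁ := by
    intro hc
    obtain ⟨θ, hθ, hθr⟩ := Basic.IsConj.symm hRR₁
    apply hn
    rw [← hθr]
    exact hC R₁ hR₁T θ hθ hc
  -- a conjugate with a large centralizer in `T`
  have hex : ∃ R₂, E.IsConj R₁ R₂ ∧ ¬ centralizerIn T R₂ ≤ R₂ := by
    by_contra hcon
    push_neg at hcon
    exact hR₁n ⟨hR₁T, hcon⟩
  obtain ⟨R₂, hR₁R₂, hR₂c⟩ := hex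
  obtain ⟨c, hcC, hcR₂⟩ := SetLike.not_le_iff_exists.1 hR₂c
  obtain ⟨σ, hσ, hσr⟩ := Basic.IsConj.symm hR₁R₂
  have hσF := hEF R₂ hσ
  obtain ⟨ψ, hψ, hext⟩ := hR₁r.2 R₂ σ hσF hσr
  have hcext : c ∈ extender S R₂ σ := centralizerIn_le_extender ⟨hTS hcC.1, hcC.2⟩
  have hR₂S : R₂ ≤ S := source_le hσF
  have hR₂ext : R₂ ≤ extender S R₂ σ := le_extender hR₂S (map_mem_S hσF)
  have hw₀T : ψ ⟨c, hcext⟩ ∈ T :=
    hSC.2 (extender S R₂ σ ⊓ T) inf_le_right _ (res_mem hψ inf_le_left) ⟨c, hcext, hcC.1⟩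
  have hσψ : ∀ r : R₂, σ r = ψ ⟨r, hR₂ext r.2⟩ := fun r => (hext r r.2 _).symm
  have hw₀c : ψ ⟨c, hcext⟩ ∈ centralizerIn T R₁ := by
    refine ⟨hw₀T, Subgroup.mem_centralizer_iff.2 ?_⟩
    intro y hy
    have hy' : y ∈ σ.range := by rw [hσr]; exact hy
    obtain ⟨r, rfl⟩ := hy'
    have h1 : (⟨r, hR₂ext r.2⟩ : extender S R₂ σ) * ⟨c, hcext⟩ = ⟨c, hcext⟩ * ⟨r, hR₂ext r.2⟩ :=
      Subtype.ext ((Subgroup.mem_centralizer_iff.1 hcC.2) r r.2)
    have h2 := congrArg ψ h1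
    rw [map_mul, map_mul] at h2
    rw [hσψ r]
    exact h2
  have hw₀n : ψ ⟨c, hcext⟩ ∉ R₁ := by
    intro hin
    have hy' : ψ ⟨c, hcext⟩ ∈ σ.range := by rw [hσr]; exact hin
    obtain ⟨r, hr⟩ := hy'
    rw [hσψ r] at hr
    have h1 := F.injective_of_mem hψ hr
    have h2 : (r : Ω) = c := congrArg (fun z : extender S R₂ σ => (z : Ω)) h1
    exact hcR₂ (h2 ▸ r.2)
  -- the image `Q'` of `P`
  have hPN : P ≤ normalizerIn S (P ⊓ T) := by
    intro x hx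
    refine ⟨hPS hx, Subgroup.mem_normalizer_iff.2 (fun h => ?_)⟩
    constructor
    · rintro ⟨h1, h2⟩
      exact ⟨P.mul_mem (P.mul_mem hx h1) (P.inv_mem hx), NormalCR.StronglyClosed.conj_mem hSC (hPS hx) h2⟩
    · rintro ⟨h1, h2⟩
      have e : h = x⁻¹ * (x * h * x⁻¹) * x⁻¹⁻¹ := by group
      rw [e]
      exact ⟨P.mul_mem (P.mul_mem (P.inv_mem hx) h1) (P.inv_mem (P.inv_mem hx)),
        NormalCR.StronglyClosed.conj_mem hSC (S.inv_mem (hPS hx)) h2⟩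
  let ωP : P →* Ω := ω.comp (Subgroup.inclusion hPN)
  have hωP : ωP ∈ F.Hom P := res_mem hω hPN
  have hQ'N : ωP.range ≤ normalizerIn S R₁ := by
    rintro _ ⟨x, rfl⟩
    exact hωv _
  have hQ'T : ∀ y ∈ ωP.range, y ∈ T → y ∈ R₁ := by
    rintro _ ⟨x, rfl⟩ hy
    have hxT : (x : Ω) ∈ T := mem_of_map_mem_stronglyClosed F hSC hωP hy
    rw [← hωm]
    exact ⟨Subgroup.inclusion hPN x, ⟨x.2, hxT⟩, rfl⟩
  have hR₁Q' : R₁ ≤ ωP.range := by
    intro y hy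
    rw [← hωm] at hy
    obtain ⟨n, hn', rfl⟩ := hy
    exact ⟨⟨n, hn'.1⟩, rfl⟩
  have hQ'S : ωP.range ≤ S := range_le hωP
  -- the product `L = Q' C_T(R₁)`
  have hnorm : ∀ q ∈ ωP.range, ∀ w ∈ centralizerIn T R₁, q * w * q⁻¹ ∈ centralizerIn T R₁ := by
    intro q hq w hw
    have hqN := hQ'N hq
    refine ⟨NormalCR.StronglyClosed.conj_mem hSC hqN.1 hw.1, Subgroup.mem_centralizer_iff.2 (fun r hr => ?_)⟩
    have h1 : q⁻¹ * r * q ∈ R₁ := by
      have := (Subgroup.mem_normalizer_iff'.1 hqN.2 r).2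
      have h0 := (Subgroup.mem_normalizer_iff.1 hqN.2 (q⁻¹ * r * q)).2
      apply h0
      have e : q * (q⁻¹ * r * q) * q⁻¹ = r := by group
      rw [e]
      exact hr
    have h2 := (Subgroup.mem_centralizer_iff.1 hw.2) _ h1
    calc r * (q * w * q⁻¹) = q * ((q⁻¹ * r * q) * w) * q⁻¹ := by group
      _ = q * (w * (q⁻¹ * r * q)) * q⁻¹ := by rw [h2]
      _ = q * w * q⁻¹ * r := by group
  let L := mulSub ωP.range (centralizerIn T R₁) hnorm
  have hLS : L ≤ S := by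
    rintro _ ⟨q, hq, w, hw, rfl⟩
    exact S.mul_mem (hQ'S hq) (hTS hw.1)
  have hQ'L : ωP.range ≤ L := fun q hq => ⟨q, hq, 1, Subgroup.one_mem _, by simp⟩
  have hw₀L : ψ ⟨c, hcext⟩ ∈ L := ⟨1, Subgroup.one_mem _, _, hw₀c, by simp⟩
  have hw₀Q : ψ ⟨c, hcext⟩ ∉ ωP.range := fun hin => hw₀n (hQ'T _ hin hw₀T)
  haveI : Finite L := finite_of_le hLS
  have hLp : IsPGroup p L := isPGroup_of_le hS hLS
  have hne : ωP.range ≠ L := fun h => hw₀Q (h ▸ hw₀L)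
  have hlt := lt_normalizerIn hLp hQ'L hne
  obtain ⟨x, hxN, hxQ⟩ := SetLike.exists_of_lt hlt
  obtain ⟨q, hq, w, hw, hxe⟩ := hxN.1
  have hwN : w ∈ Subgroup.normalizer (ωP.range : Set Ω) := by
    have e : w = q⁻¹ * x := by rw [hxe]; group
    rw [e]
    exact Subgroup.mul_mem _ (Subgroup.inv_mem _ (Subgroup.le_normalizer hq)) hxN.2
  have hwQ : w ∉ ωP.range := by
    intro hin
    apply hxQ
    rw [hxe]
    exact Subgroup.mul_mem _ hq hin
  -- transport to `P`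
  have hconj : F.IsConj ωP.range P := Basic.IsConj.symm (F := F) ⟨ωP, hωP, rfl⟩
  have hPa := (fullyNormalized_props hS hF hPfn).2
  have hPr := fullyNormalized_receptive hS hF hPfn
  obtain ⟨ω', hω', hω'v, hω'm⟩ := exists_map_normalizerIn hS hPa hPr hconj
  have hwS : w ∈ S := hTS hw.1
  have hwM : w ∈ normalizerIn S ωP.range := ⟨hwS, hwN⟩
  have hQ'M : ωP.range ≤ normalizerIn S ωP.range := le_normalizerIn hQ'S
  refine ⟨ω' ⟨w, hwM⟩, ?_, (hω'v _).2, ?_, ?_⟩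
  · exact hSC.2 (normalizerIn S ωP.range ⊓ T) inf_le_right _ (res_mem hω' inf_le_left) ⟨w, hwM, hw.1⟩
  · intro hin
    obtain ⟨n, hn', hne'⟩ := hω'm.ge hin
    have h1 := F.injective_of_mem hω' hne'
    have h2 : (n : Ω) = w := congrArg (fun z : normalizerIn S ωP.range => (z : Ω)) h1
    exact hwQ (h2 ▸ hn')
  · rintro y ⟨hyP, hyT⟩
    obtain ⟨n, hn', rfl⟩ := hω'm.ge hyP
    have hnT : (n : Ω) ∈ T := mem_of_map_mem_stronglyClosed F hSC hω' hyT
    have hnR : (n : Ω) ∈ R₁ := hQ'T _ hn' hnT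
    have h1 : (⟨w, hwM⟩ : normalizerIn S ωP.range) * n = n * ⟨w, hwM⟩ :=
      Subtype.ext ((Subgroup.mem_centralizer_iff.1 hw.2) n hnR).symm
    have h2 := congrArg ω' h1
    rw [map_mul, map_mul] at h2
    rw [h2]
    group

/-- The conjugation by `t ∈ T` centralizing `P ∩ T` lies in `O_p`. -/
theorem conj_mem_pCore (hS : IsPGroup p S) {F' : FusionSystem S} {T : Subgroup Ω} (hSC : F'.StronglyClosed T)
    {P : Subgroup Ω} (hPS : P ≤ S) {t : Ω} (ht : t ∈ T) (htN : t ∈ Subgroup.normalizer (P : Set Ω))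
    (htc : ∀ x ∈ P ⊓ T, t * x * t⁻¹ = x) :
    (⟨normConj t htN, autInducedBy_le_autGroup hPS (normConj_mem_autInducedBy (hSC.1 ht) htN)⟩ : F'.autGroup P) ∈
      pCore p (F'.autGroup P) := by
  haveI : Finite P := finite_of_le hPS
  have hPp : IsPGroup p P := isPGroup_of_le hS hPS
  let D : ℕ → Subgroup P := fun i => match i with
    | 0 => ⊥
    | 1 => T.subgroupOf P
    | _ => ⊤
  refine Chain.mem_pCore_of_stab_chain (D := D) (m := 2) hPp rfl rfl ?_ ?_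
  · intro i hi α hα x hx
    match i, hi, hx with
    | 0, _, hx =>
      have hx1 : x = 1 := hx
      rw [hx1, map_one]
      exact Subgroup.one_mem _
    | 1, _, hx =>
      exact Chain.StronglyClosed.aut_mem hSC hPS hα x hx
    | 2, _, _ => trivial
  · intro i hi x hx
    match i, hi, hx with
    | 0, _, hx =>
      have hxT : (x : Ω) ∈ T := hx
      have e : ((normConj t htN x : P) : Ω) = x := htc x ⟨x.2, hxT⟩
      have e2 : (normConj t htN x : P) = x := Subtype.ext e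
      show x⁻¹ * (normConj t htN x : P) ∈ ⊥
      rw [e2]
      simp
    | 1, _, _ =>
      show (x⁻¹ * (normConj t htN x : P) : P) ∈ T.subgroupOf P
      rw [Subgroup.mem_subgroupOf]
      show (x : Ω)⁻¹ * (t * x * t⁻¹) ∈ T
      have e : (x : Ω)⁻¹ * (t * x * t⁻¹) = ((x : Ω)⁻¹ * t * (x : Ω)⁻¹⁻¹) * t⁻¹ := by group
      rw [e]
      exact T.mul_mem (NormalCR.StronglyClosed.conj_mem hSC (S.inv_mem (hPS x.2)) ht) (T.inv_mem ht)

/-- An element of `N_S(P)` inducing an element of `O_p(Aut_F(P))` lies in each extender. -/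
theorem mem_extender_of_pCore {P : Subgroup Ω} (hPa : F.IsFullyAutomized p P) {t : Ω} (htS : t ∈ S)
    (htN : t ∈ Subgroup.normalizer (P : Set Ω)) {c : F.autGroup P} (hc : (c : MulAut P) = normConj t htN)
    (ht : c ∈ pCore p (F.autGroup P)) {α : MulAut P} (hα : α ∈ F.autGroup P) :
    t ∈ extender S P (P.subtype.comp α.toMonoidHom) := by
  obtain ⟨hPS, R, hR⟩ := hPa
  haveI : Finite (F.autGroup P) := finite_autGroup hPS
  haveI := Cfsg.Agent.Lib.Basic.PCore.pCore_normal p (F.autGroup P)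
  have h1 : (⟨α, hα⟩ : F.autGroup P) * c * (⟨α, hα⟩ : F.autGroup P)⁻¹ ∈ pCore p (F.autGroup P) :=
    (Cfsg.Agent.Lib.Basic.PCore.pCore_normal p (F.autGroup P)).conj_mem c ht _
  have h2 := Cfsg.Agent.Lib.Basic.PCore.pCore_le_sylow R h1
  rw [hR, Subgroup.mem_subgroupOf] at h2
  obtain ⟨h', hh', hhv⟩ := mem_autInducedBy_iff.1 h2
  refine extender_closure_mem htS htN hh' (fun x hx => ?_)
  have h3 := hhv (α x)
  have e : (((⟨α, hα⟩ : F.autGroup P) * c * (⟨α, hα⟩ : F.autGroup P)⁻¹ : F.autGroup P) : MulAut P) (α x) =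
      α (normConj t htN x) := by
    show α ((c : MulAut P) (α⁻¹ (α x))) = _
    rw [hc]
    simp
  rw [e] at h3
  have e2 : normConj t htN x = ⟨t * x * t⁻¹, hx⟩ := Subtype.ext rfl
  rw [e2] at h3
  exact h3

omit [Finite S] [Fact p.Prime] in
/-- An element outside the `F`-centric `P` induces a non-inner automorphism. -/
theorem normConj_not_mem_inn {P : Subgroup Ω} (hPS : P ≤ S) (hC : centralizerIn S P ≤ P) {t : Ω} (htS : t ∈ S)
    (htN : t ∈ Subgroup.normalizer (P : Set Ω)) (htP : t ∉ P) : normConj t htN ∉ Inn P := by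
  intro h1
  obtain ⟨y, hy⟩ := h1
  have hy' : ∀ x : P, (y : Ω) * x * (y : Ω)⁻¹ = t * x * t⁻¹ := by
    intro x
    have h2 := congrArg (fun a : MulAut P => ((a x : P) : Ω)) hy
    exact h2
  have hcent : (y : Ω)⁻¹ * t ∈ centralizerIn S P := by
    refine ⟨S.mul_mem (S.inv_mem (hPS y.2)) htS, Subgroup.mem_centralizer_iff.2 (fun x hx => ?_)⟩
    have h3 := hy' ⟨x, hx⟩
    have h4 : (y : Ω)⁻¹ * (t * x * t⁻¹) * y = x := by
      rw [← h3]
      group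
    calc x * ((y : Ω)⁻¹ * t) = ((y : Ω)⁻¹ * (t * x * t⁻¹) * y) * ((y : Ω)⁻¹ * t) := by rw [h4]
      _ = (y : Ω)⁻¹ * t * x := by group
  have h5 := P.mul_mem y.2 (hC hcent)
  apply htP
  have e : t = y * ((y : Ω)⁻¹ * t) := by group
  rw [e]
  exact h5

end Main

end Cfsg.Agent.Lib.Fusion.CharAut
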