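/-
Theorem Z: let `D` be a saturated fusion system over the finite `p`-group `S`, `Γ` a group of automorphisms of `S`
leaving `D` invariant, and `χ : Γ →* Δ` a homomorphism killing `Γ ∩ Aut_D(S)`, with `Δ` without elements of order `p`.
If `α ∈ Γ` restricts to a map of `D` on a `D`-centric subgroup, then `χ α = 1`.
-/
import Mathlib
import Cfsg.Prelude.Def_FusionSystem
import Cfsg.Agent.Lib.Fusion.Basic
import Cfsg.Agent.Lib.Fusion.Saturated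
import Cfsg.Agent.Lib.Fusion.Alperin
import Cfsg.Agent.Lib.Fusion.Centric
import Cfsg.Agent.Lib.Fusion.Subsystem
import Cfsg.Agent.Lib.Fusion.PPrime3

set_option autoImplicit false

namespace Cfsg.Agent.Lib.Fusion.ZLemma

open Cfsg Cfsg.FusionSystem Cfsg.Agent.Lib.Fusion.Basic Cfsg.Agent.Lib.Fusion.Saturated
open Cfsg.Agent.Lib.Fusion.PPrime
open Cfsg.Agent.Lib.Fusion.SatCrit (imgOf mem_imgOf imgOf_le)
open Cfsg.Agent.Lib.Fusion.Alperin (lt_normalizerIn)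
open Cfsg.Agent.Lib.Fusion.Centric (isCentric_of_le)
open Cfsg.Agent.Lib.Fusion.Subsystem (isCentric_of_isConj)

variable {Ω : Type*} [Group Ω] {S : Subgroup Ω}

/-- The powers of a map `ζ = α ∘ φ`, with `φ ∈ D`, have the form `α ^ k ∘ φ_k`, with `φ_k ∈ D`. -/
theorem exists_pow_factor {D : FusionSystem S} {Γ : Subgroup (MulAut S)} (hinv : IsInvUnder D Γ)
    {α : MulAut S} (hα : α ∈ Γ) {B : Subgroup Ω} {ζ : Monoid.End B} {φ : B →* Ω} (hφ : φ ∈ D.Hom B)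
    (h : ∀ x : B, ((ζ x : B) : Ω) = ((α ⟨φ x, map_mem_S hφ x⟩ : S) : Ω)) (k : ℕ) :
    ∃ φk ∈ D.Hom B, ∀ (x : B) (hx : φk x ∈ S), (((ζ ^ k) x : B) : Ω) = (((α ^ k) ⟨φk x, hx⟩ : S) : Ω) := by
  induction k with
  | zero =>
    refine ⟨B.subtype, subtype_mem (source_le hφ), fun x hx => ?_⟩
    rfl
  | succ k ih =>
    obtain ⟨φk, hφk, hk⟩ := ih
    have hc := hinv α⁻¹ (Γ.inv_mem hα) B φk hφk
    have hm : ∀ x : B, φ x ∈ imgOf α⁻¹ B := by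
      intro x
      rw [show φ x = ((⟨φ x, map_mem_S hφ x⟩ : S) : Ω) from rfl, mem_imgOf, inv_inv, ← h x]
      exact (ζ x).2
    refine ⟨(conjMap α⁻¹ φk (map_mem_S hφk)).comp (φ.codRestrict _ hm), D.comp_mem hφ hc hm, fun x hx => ?_⟩
    have hBS : B ≤ S := source_le hφ
    have hu : α⁻¹ (⟨ζ x, hBS (ζ x).2⟩ : S) = ⟨φ x, map_mem_S hφ x⟩ := by
      apply (MulEquiv.symm_apply_eq α).2
      exact Subtype.ext (h x)
    have h3 := (isConjBy_conjMap α⁻¹ φk (map_mem_S hφk)).apply' (a := ⟨ζ x, hBS (ζ x).2⟩)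
      (y := ⟨φ x, map_mem_S hφ x⟩) (b := ⟨φk (ζ x), map_mem_S hφk _⟩) (ζ x).2 (hm x) hu rfl
    have h4 : (⟨((conjMap α⁻¹ φk (map_mem_S hφk)).comp (φ.codRestrict _ hm)) x, hx⟩ : S) =
        α⁻¹ ⟨φk (ζ x), map_mem_S hφk _⟩ := Subtype.ext h3
    rw [h4, pow_succ, pow_succ]
    show (((ζ ^ k) (ζ x) : B) : Ω) = (((α ^ k) (α (α⁻¹ ⟨φk (ζ x), map_mem_S hφk _⟩)) : S) : Ω)
    rw [hk (ζ x) (map_mem_S hφk _)]
    simp

/-- A self-map of `B` that is trivial on `A ≤ B`, and moves elements of `B` by elements of `A`, has finite order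
dividing the exponent of `A`. -/
theorem pow_eq_one_of_trivial {B A : Subgroup Ω} (hAB : A ≤ B) (ζ : Monoid.End B)
    (h1 : ∀ a : A, ζ (Subgroup.inclusion hAB a) = Subgroup.inclusion hAB a)
    (h2 : ∀ x : B, (x : Ω)⁻¹ * (ζ x : B) ∈ A) {n : ℕ} (hn : ∀ a : A, a ^ n = 1) : ζ ^ n = 1 := by
  have key : ∀ (k : ℕ) (x : B), (((ζ ^ k) x : B) : Ω) = x * ((x : Ω)⁻¹ * (ζ x : B)) ^ k := by
    intro k x
    induction k with
    | zero => simp
    | succ k ih =>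
      have hg : ((x : Ω)⁻¹ * (ζ x : B)) ^ k ∈ A := A.pow_mem (h2 x) k
      have e : (ζ ^ k) x = x * Subgroup.inclusion hAB ⟨_, hg⟩ := Subtype.ext ih
      rw [pow_succ']
      show ((ζ ((ζ ^ k) x) : B) : Ω) = _
      rw [e, map_mul, h1]
      show ((ζ x : B) : Ω) * ((x : Ω)⁻¹ * (ζ x : B)) ^ k = _
      rw [pow_succ', ← mul_assoc, mul_inv_cancel_left]
  ext x
  rw [key n x]
  have := hn ⟨_, h2 x⟩
  have h3 := congrArg (fun z : A => (z : Ω)) this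
  simp only [Subgroup.coe_pow, Subgroup.coe_one] at h3
  rw [h3]
  simp

theorem eq_one_of_pow {Δ : Type*} [Group Δ] {p : ℕ} (hΔ : ∀ x : Δ, x ^ p = 1 → x = 1) {x : Δ} {m : ℕ}
    (h : x ^ p ^ m = 1) : x = 1 := by
  induction m with
  | zero => simpa using h
  | succ m ih =>
    apply ih
    apply hΔ
    rw [← pow_mul, ← pow_succ]
    exact h

section Main

variable [Finite S] {p : ℕ} [Fact p.Prime]

theorem main_aux (hS : IsPGroup p S) {D : FusionSystem S} (hD : D.IsSaturated p) {Γ : Subgroup (MulAut S)}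
    (hinv : IsInvUnder D Γ) {Δ : Type*} [Group Δ] (hΔ : ∀ x : Δ, x ^ p = 1 → x = 1) (χ : Γ →* Δ)
    (hker : ∀ β : Γ, (β : MulAut S) ∈ D.autGroup S → χ β = 1) :
    ∀ (n : ℕ) (R : Subgroup Ω) (hR : D.IsCentric R), Nat.card S - Nat.card R = n → ∀ α : Γ,
      resA (α : MulAut S) hR.1 ∈ D.Hom R → χ α = 1 := by
  intro n
  induction n using Nat.strong_induction_on with
  | _ n ih =>
  rintro R hR hn ⟨β, hβΓ⟩ hres
  have hres : resA β hR.1 ∈ D.Hom R := hres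
  have hRS : R ≤ S := hR.1
  by_cases hRe : R = S
  · subst hRe
    exact hker _ (mem_autGroup_of_mem (mem_of_eq_res hres le_rfl (fun x => rfl)))
  have hr : (resA β hRS).range = imgOf β R := range_resA β hRS
  obtain ⟨Rs, hRs, hRa, hRr⟩ := hD (imgOf β R) (imgOf_le β R)
  obtain ⟨ω, hω, hωv, hωm⟩ := exists_map_normalizerIn hS hRa hRr hRs
  have hcases : ∀ g : S, (g : Ω) ∈ Subgroup.normalizer (R : Set Ω) →
      ((β g : S) : Ω) ∈ normalizerIn S (imgOf β R) := fun g hg =>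
    ⟨(β g).2, apply_mem_normalizer hRS (imgOf_le β R) β (imgOf_iff β R) hg⟩
  -- the composite `τ₂ = ω ∘ β` on `N_S(R)`
  let j : normalizerIn S R →* normalizerIn S (imgOf β R) :=
    MonoidHom.codRestrict (resA β normalizerIn_le) _
      (fun x => hcases ⟨x, x.2.1⟩ x.2.2)
  have hj : ∀ x : normalizerIn S R, ((j x : normalizerIn S (imgOf β R)) : Ω) = β ⟨x, x.2.1⟩ := fun x => rfl
  let τ₂ : normalizerIn S R →* Ω := ω.comp j
  -- `τ` on `R`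
  have hRN : R ≤ normalizerIn S R := le_normalizerIn hRS
  have hR'N : imgOf β R ≤ normalizerIn S (imgOf β R) := le_normalizerIn (imgOf_le β R)
  let τ : R →* Ω := τ₂.comp (Subgroup.inclusion hRN)
  have hτ : τ ∈ D.Hom R := by
    have hω' := res_mem hω hR'N
    refine comp_mem' hres hω' (fun x => (apply_mem_imgOf β _).2 x.2) (fun x => ?_)
    rfl
  have hτr : τ.range = Rs := by
    rw [← hωm]
    ext y
    constructor
    · rintro ⟨x, rfl⟩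
      exact ⟨j (Subgroup.inclusion hRN x), (apply_mem_imgOf β _).2 x.2, rfl⟩
    · rintro ⟨x, hx, rfl⟩
      have hxS : ((x : normalizerIn S (imgOf β R)) : Ω) ∈ S := normalizerIn_le x.2
      have hm : (x : Ω) ∈ imgOf β R := hx
      have h1 := (mem_imgOf (⟨x, hxS⟩ : S)).1 hm
      refine ⟨⟨_, h1⟩, ?_⟩
      show ω (j _) = _
      congr 1
      apply Subtype.ext
      show ((β (β⁻¹ ⟨x, hxS⟩) : S) : Ω) = _
      simp
  obtain ⟨ψ, hψ, hext⟩ := hRr.2 R τ hτ hτr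
  have hNle : normalizerIn S R ≤ extender S R τ := by
    rintro g ⟨hgS, hgN⟩
    refine extender_closure_mem hgS hgN (map_mem_S hω (j ⟨g, hgS, hgN⟩)) (fun x hx => ?_)
    show τ₂ (Subgroup.inclusion hRN ⟨g * x * g⁻¹, hx⟩) = _
    have e2 : Subgroup.inclusion hRN ⟨g * x * g⁻¹, hx⟩ = ⟨g, hgS, hgN⟩ * Subgroup.inclusion hRN x * ⟨g, hgS, hgN⟩⁻¹ :=
      Subtype.ext rfl
    rw [e2, map_mul, map_mul, map_inv]
    rfl
  let ψ₁ : normalizerIn S R →* Ω := ψ.comp (Subgroup.inclusion hNle)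
  have hψ1 : ψ₁ ∈ D.Hom (normalizerIn S R) := res_mem hψ hNle
  have hagree : ∀ x : normalizerIn S R, (x : Ω) ∈ R → ψ₁ x = τ₂ x := by
    intro x hx
    exact hext x hx (hNle x.2)
  -- centricity of `Rs`
  have hRsc : D.IsCentric Rs := isCentric_of_isConj hR ⟨τ, hτ, hτr⟩
  have hCRs : centralizerIn S Rs ≤ Rs := hRsc.2 Rs (Basic.IsConj.refl hRsc.1)
  have hτ₂S : ∀ n : normalizerIn S R, τ₂ n ∈ S := fun n => map_mem_S hω (j n)
  -- the difference of `τ₂` and `ψ₁`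
  have hdiff : ∀ n : normalizerIn S R, (ψ₁ n)⁻¹ * τ₂ n ∈ Rs := by
    intro n
    apply hCRs
    refine ⟨S.mul_mem (S.inv_mem (map_mem_S hψ1 n)) (hτ₂S n), Subgroup.mem_centralizer_iff.2 ?_⟩
    intro r hr
    have hr' : r ∈ τ.range := by rw [hτr]; exact hr
    obtain ⟨a, rfl⟩ := hr'
    have hna : ((n * Subgroup.inclusion hRN a * n⁻¹ : normalizerIn S R) : Ω) ∈ R := by
      have := (Subgroup.mem_normalizer_iff.1 n.2.2 a).1 a.2
      exact this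
    have h1 := hagree _ hna
    rw [map_mul, map_mul, map_mul, map_mul, map_inv, map_inv, hagree (Subgroup.inclusion hRN a) a.2] at h1
    have h2 : τ a = τ₂ (Subgroup.inclusion hRN a) := rfl
    rw [h2]
    have h3 : (ψ₁ n)⁻¹ * τ₂ n * τ₂ (Subgroup.inclusion hRN a) * (τ₂ n)⁻¹ * ψ₁ n = τ₂ (Subgroup.inclusion hRN a) := by
      have : ψ₁ n * τ₂ (Subgroup.inclusion hRN a) * (ψ₁ n)⁻¹ = τ₂ n * τ₂ (Subgroup.inclusion hRN a) * (τ₂ n)⁻¹ := h1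
      calc (ψ₁ n)⁻¹ * τ₂ n * τ₂ (Subgroup.inclusion hRN a) * (τ₂ n)⁻¹ * ψ₁ n
          = (ψ₁ n)⁻¹ * (τ₂ n * τ₂ (Subgroup.inclusion hRN a) * (τ₂ n)⁻¹) * ψ₁ n := by group
        _ = (ψ₁ n)⁻¹ * (ψ₁ n * τ₂ (Subgroup.inclusion hRN a) * (ψ₁ n)⁻¹) * ψ₁ n := by rw [this]
        _ = _ := by group
    calc τ₂ (Subgroup.inclusion hRN a) * ((ψ₁ n)⁻¹ * τ₂ n)
        = ((ψ₁ n)⁻¹ * τ₂ n * τ₂ (Subgroup.inclusion hRN a) * (τ₂ n)⁻¹ * ψ₁ n) * ((ψ₁ n)⁻¹ * τ₂ n) := by rw [h3]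
      _ = _ := by group
  -- the image `B₀`
  have hRsB : Rs ≤ ψ₁.range := by
    intro r hr
    have hr' : r ∈ τ.range := by rw [hτr]; exact hr
    obtain ⟨a, rfl⟩ := hr'
    exact ⟨Subgroup.inclusion hRN a, hagree (Subgroup.inclusion hRN a) a.2⟩
  have hτv : ∀ n : normalizerIn S R, τ₂ n ∈ ψ₁.range := by
    intro n
    have h1 := ψ₁.range.mul_mem ⟨n, rfl⟩ (hRsB (hdiff n))
    simpa using h1
  obtain ⟨ρ, hρ, hρr, hρ1, hρ2⟩ := exists_inv hψ1 rfl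
  have hρv : ∀ y : ψ₁.range, ρ y ∈ normalizerIn S R := by
    intro y
    exact hρr.le ⟨y, rfl⟩
  have hρe : ∀ y : ψ₁.range, ψ₁ ⟨ρ y, hρv y⟩ = y := fun y => hρ2 y (hρv y)
  let ρ' : ψ₁.range →* normalizerIn S R := ρ.codRestrict _ hρv
  have hρ'e : ∀ n : normalizerIn S R, ρ' ⟨ψ₁ n, ⟨n, rfl⟩⟩ = n := fun n => Subtype.ext (hρ1 n ⟨n, rfl⟩)
  have hζv : ∀ y : ψ₁.range, τ₂ (ρ' y) ∈ ψ₁.range := fun y => hτv _
  let ζ : Monoid.End ψ₁.range := (τ₂.comp ρ').codRestrict _ hζv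
  have hζe : ∀ n : normalizerIn S R, ((ζ ⟨ψ₁ n, ⟨n, rfl⟩⟩ : ψ₁.range) : Ω) = τ₂ n := by
    intro n
    show τ₂ (ρ' ⟨ψ₁ n, ⟨n, rfl⟩⟩) = _
    rw [hρ'e]
  -- `ζ` is `β ∘ φ`
  have hc := hinv β⁻¹ (Γ.inv_mem hβΓ) _ ω hω
  have hcc := isConjBy_conjMap β⁻¹ ω (map_mem_S hω)
  have hm : ∀ y : ψ₁.range, ρ y ∈ imgOf β⁻¹ (normalizerIn S (imgOf β R)) := by
    intro y
    have h1 := hρv y
    have h2 : ρ y = ((⟨ρ y, h1.1⟩ : S) : Ω) := rfl
    rw [h2, mem_imgOf, inv_inv]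
    exact hcases ⟨ρ y, h1.1⟩ h1.2
  let φ : ψ₁.range →* Ω := (conjMap β⁻¹ ω (map_mem_S hω)).comp (ρ.codRestrict _ hm)
  have hφ : φ ∈ D.Hom ψ₁.range := D.comp_mem hρ hc hm
  have hζφ : ∀ y : ψ₁.range, ((ζ y : ψ₁.range) : Ω) = ((β ⟨φ y, map_mem_S hφ y⟩ : S) : Ω) := by
    intro y
    have e0 : β⁻¹ (β ⟨ρ y, (hρv y).1⟩) = (⟨ρ y, (hρv y).1⟩ : S) := by simp
    have h3 := hcc.apply' (a := β ⟨ρ y, (hρv y).1⟩) (y := ⟨ρ y, (hρv y).1⟩)
      (b := ⟨ω (j ⟨ρ y, hρv y⟩), map_mem_S hω _⟩) (hcases _ (hρv y).2) (hm y) e0 rfl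
    have h4 : (⟨φ y, map_mem_S hφ y⟩ : S) = β⁻¹ ⟨ω (j ⟨ρ y, hρv y⟩), map_mem_S hω _⟩ := Subtype.ext h3
    rw [h4]
    simp only [MulAut.apply_inv_self]
    rfl
  -- `ζ` is a `p`-element
  have hζ1 : ∀ a : Rs, ζ (Subgroup.inclusion hRsB a) = Subgroup.inclusion hRsB a := by
    intro a
    have hr' : (a : Ω) ∈ τ.range := by rw [hτr]; exact a.2
    obtain ⟨b, hb⟩ := hr'
    have hb2 : ψ₁ (Subgroup.inclusion hRN b) = a := (hagree (Subgroup.inclusion hRN b) b.2).trans hb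
    apply Subtype.ext
    have e : Subgroup.inclusion hRsB a = ⟨ψ₁ (Subgroup.inclusion hRN b), ⟨_, rfl⟩⟩ := Subtype.ext hb2.symm
    rw [e, hζe]
    exact (hagree (Subgroup.inclusion hRN b) b.2).symm
  have hζ2 : ∀ x : ψ₁.range, (x : Ω)⁻¹ * (ζ x : ψ₁.range) ∈ Rs := by
    rintro ⟨_, n, rfl⟩
    rw [hζe]
    exact hdiff n
  have hRsS : Rs ≤ S := hRsc.1
  have hexp : ∀ a : Rs, a ^ Nat.card S = 1 := by
    intro a
    have h1 : (⟨a, hRsS a.2⟩ : S) ^ Nat.card S = 1 := pow_card_eq_one'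
    apply Subtype.ext
    have h2 : (((⟨a, hRsS a.2⟩ : S) ^ Nat.card S : S) : Ω) = ((1 : S) : Ω) := congrArg _ h1
    exact h2
  have hpow : ζ ^ Nat.card S = 1 := pow_eq_one_of_trivial hRsB ζ hζ1 hζ2 hexp
  obtain ⟨φN, hφN, hφNe⟩ := exists_pow_factor hinv hβΓ hφ hζφ (Nat.card S)
  rw [hpow] at hφNe
  have hid : ∀ x : ψ₁.range, (x : Ω) = (((β ^ Nat.card S) ⟨φN x, map_mem_S hφN x⟩ : S) : Ω) :=
    fun x => hφNe x (map_mem_S hφN x)
  obtain ⟨σ, hσ, hσx⟩ := D.inv_mem hφN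
  have hNc : D.IsCentric (normalizerIn S R) := isCentric_of_le hR hRN normalizerIn_le
  have hB₀c : D.IsCentric ψ₁.range := isCentric_of_isConj hNc ⟨ψ₁, hψ1, rfl⟩
  have hB'c : D.IsCentric φN.range := isCentric_of_isConj hB₀c ⟨φN, hφN, rfl⟩
  have hres' : resA (β ^ Nat.card S) hB'c.1 ∈ D.Hom φN.range := by
    refine mem_of_eq_res hσ le_rfl (fun y => ?_)
    obtain ⟨_, x, rfl⟩ := y
    show resA (β ^ Nat.card S) hB'c.1 ⟨φN x, ⟨x, rfl⟩⟩ = σ ⟨φN x, ⟨x, rfl⟩⟩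
    rw [hσx x, resA_apply]
    exact (hid x).symm
  have hfin : Finite (normalizerIn S R) := finite_of_le normalizerIn_le
  have hlt : Nat.card R < Nat.card (normalizerIn S R) := by
    have hlt := lt_normalizerIn hS hRS hRe
    by_contra hcon
    exact hlt.ne (Subgroup.eq_of_le_of_card_ge hlt.le (not_lt.1 hcon))
  have hcard : Nat.card φN.range = Nat.card (normalizerIn S R) := by
    rw [← card_eq_of_range hφN rfl, ← card_eq_of_range hψ1 rfl]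
  have hcB : Nat.card φN.range ≤ Nat.card S := Subgroup.card_le_of_le hB'c.1
  have h1 := ih (Nat.card S - Nat.card φN.range) (by omega) φN.range hB'c rfl
    ((⟨β, hβΓ⟩ : Γ) ^ Nat.card S) hres'
  rw [map_pow] at h1
  obtain ⟨m, hm'⟩ := IsPGroup.iff_card.1 hS
  rw [hm'] at h1
  exact eq_one_of_pow hΔ h1

/-- **Theorem Z.** -/
theorem main (hS : IsPGroup p S) {D : FusionSystem S} (hD : D.IsSaturated p) {Γ : Subgroup (MulAut S)}
    (hinv : IsInvUnder D Γ) {Δ : Type*} [Group Δ] (hΔ : ∀ x : Δ, x ^ p = 1 → x = 1) (χ : Γ →* Δ)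
    (hker : ∀ β : Γ, (β : MulAut S) ∈ D.autGroup S → χ β = 1) {R : Subgroup Ω} (hR : D.IsCentric R)
    {α : Γ} (h : resA (α : MulAut S) hR.1 ∈ D.Hom R) : χ α = 1 :=
  main_aux hS hD hinv hΔ χ hker _ R hR rfl α h

end Main

end Cfsg.Agent.Lib.Fusion.ZLemma
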