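/-
Consequences of Theorem Z: the cyclic version, and generalities on invariant subsystems.
-/
import Mathlib
import Cfsg.Prelude.Def_FusionComponents
import Cfsg.Agent.Lib.Fusion.PPowerNormal
import Cfsg.Agent.Lib.Fusion.ZLemma

set_option autoImplicit false

namespace Cfsg.Agent.Lib.Fusion.ZLemma

open Cfsg Cfsg.FusionSystem Cfsg.Agent.Lib.Fusion.Basic Cfsg.Agent.Lib.Fusion.Saturated
open Cfsg.Agent.Lib.Fusion.PPrime Cfsg.Agent.Lib.Fusion.PPowerNormal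
open Cfsg.Agent.Lib.Fusion.SatCrit (imgOf mem_imgOf imgOf_le)

variable {Ω : Type*} [Group Ω] {S : Subgroup Ω}

/-- A fusion system invariant in `F` is invariant under `Aut_F(T)`. -/
theorem isInvUnder_of_invariant {T : Subgroup Ω} {F : FusionSystem S} {E : FusionSystem T} (h : E.IsInvariantIn F) :
    IsInvUnder E (F.autGroup T) := by
  intro α hα P φ hφ
  obtain ⟨χ, hχ, hχe⟩ := h.2.2.1 P (source_le hφ) φ hφ α hα
  have hle : imgOf α P ≤ (P.subgroupOf T).map (T.subtype.comp α.toMonoidHom) := (imgOf_eq_map α P).le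
  refine mem_of_eq_res hχ hle (fun y => ?_)
  have hyT : (y : Ω) ∈ T := imgOf_le α P y.2
  have h1 := (mem_imgOf (⟨y, hyT⟩ : T)).1 y.2
  have e0 : α (α⁻¹ ⟨y, hyT⟩) = ⟨y, hyT⟩ := by simp
  have h2 := (isConjBy_conjMap α φ (map_mem_S hφ)).apply' (a := α⁻¹ ⟨y, hyT⟩) (y := ⟨y, hyT⟩)
    (b := ⟨φ ⟨_, h1⟩, map_mem_S hφ _⟩) h1 y.2 e0 rfl
  refine h2.trans ?_
  have hy' : ((α ⟨((⟨_, h1⟩ : P) : Ω), source_le hφ h1⟩ : T) : Ω) = y := by
    have e1 : (⟨((⟨_, h1⟩ : P) : Ω), source_le hφ h1⟩ : T) = α⁻¹ ⟨y, hyT⟩ := rfl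
    rw [e1, e0]
  have hmem : ((α ⟨((⟨_, h1⟩ : P) : Ω), source_le hφ h1⟩ : T) : Ω) ∈ (P.subgroupOf T).map (T.subtype.comp α.toMonoidHom) := by
    rw [hy']
    exact hle y.2
  have h3 := hχe ⟨_, h1⟩ (map_mem_S hφ _) hmem
  have e2 : Subgroup.inclusion hle y = ⟨_, hmem⟩ := Subtype.ext hy'.symm
  rw [e2]
  exact h3.symm

/-- A variant of the factorization step: a map conjugate to the conjugation by an element of `S`, through a map of `E`
followed by an automorphism of `S`, lies in `Aut_E`. -/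
theorem mem_autGroup_of_conj_factor {E : FusionSystem S} {P : Subgroup Ω} {α : MulAut P} {ψ ψ₀ : P →* Ω} {β : MulAut S}
    (hψ₀ : ψ₀ ∈ E.Hom P) (hψe : ∀ (x : P) (hx : ψ₀ x ∈ S), ψ x = ((β ⟨ψ₀ x, hx⟩ : S) : Ω)) {x : Ω} (hx : x ∈ S)
    (hψα : ∀ a : P, ψ (α a) = x * ψ a * x⁻¹) : α ∈ E.autGroup P := by
  set y : S := β⁻¹ ⟨x, hx⟩ with hy
  have hβy : β y = ⟨x, hx⟩ := by simp [hy]
  have key : ∀ a : P, ψ₀ (α a) = (y : Ω) * ψ₀ a * (y : Ω)⁻¹ := by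
    intro a
    have h1 := hψα a
    rw [hψe _ (map_mem_S hψ₀ _), hψe _ (map_mem_S hψ₀ _)] at h1
    have h3 : β ⟨ψ₀ (α a), map_mem_S hψ₀ _⟩ = β (y * ⟨ψ₀ a, map_mem_S hψ₀ _⟩ * y⁻¹) := by
      apply Subtype.ext
      rw [h1, map_mul, map_mul, map_inv, hβy]
      rfl
    exact congrArg (fun z : S => (z : Ω)) (β.injective h3)
  obtain ⟨σ, hσ, hσx⟩ := E.inv_mem hψ₀
  have hc := E.conj_mem (range_le hψ₀) y.2
  have hm : ∀ a : P, ψ₀ a ∈ ψ₀.range := fun a => ⟨a, rfl⟩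
  have h3 : (conjHom ψ₀.range (y : Ω)).comp (ψ₀.codRestrict _ hm) ∈ E.Hom P := E.comp_mem hψ₀ hc hm
  have hm2 : ∀ a : P, ((conjHom ψ₀.range (y : Ω)).comp (ψ₀.codRestrict _ hm)) a ∈ ψ₀.range := by
    intro a
    show (y : Ω) * ψ₀ a * (y : Ω)⁻¹ ∈ _
    rw [← key]
    exact ⟨α a, rfl⟩
  refine mem_autGroup_of_mem (comp_mem' h3 hσ hm2 (fun a => ?_))
  have e1 : (⟨((conjHom ψ₀.range (y : Ω)).comp (ψ₀.codRestrict _ hm)) a, hm2 a⟩ : ψ₀.range) =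
      ⟨ψ₀ (α a), ⟨α a, rfl⟩⟩ := Subtype.ext (key a).symm
  rw [e1, hσx]
  rfl

/-- Centricity passes along a factorization through automorphisms of `S`. -/
theorem isCentric_of_factor {E E' : FusionSystem S}
    (h2 : ∀ (P : Subgroup Ω) (φ : P →* Ω), φ ∈ E'.Hom P → ∃ α : MulAut S, ∃ φ₀ ∈ E.Hom P,
      ∀ (x : P) (hx : φ₀ x ∈ S), φ x = ((α ⟨φ₀ x, hx⟩ : S) : Ω)) {P : Subgroup Ω} (hc : E.IsCentric P) :
    E'.IsCentric P := by
  obtain ⟨hP, hc⟩ := hc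
  refine ⟨hP, ?_⟩
  rintro Q ⟨φ, hφ, rfl⟩ c ⟨hcS, hcC⟩
  obtain ⟨β, φ₀, hφ₀, he⟩ := h2 P φ hφ
  have hcC' : (β⁻¹ ⟨c, hcS⟩ : S).1 ∈ centralizerIn S φ₀.range := by
    refine ⟨(β⁻¹ ⟨c, hcS⟩ : S).2, ?_⟩
    refine Subgroup.mem_centralizer_iff.2 ?_
    rintro _ ⟨a, rfl⟩
    have h1 := (Subgroup.mem_centralizer_iff.1 hcC) (φ a) ⟨a, rfl⟩
    rw [he a (map_mem_S hφ₀ a)] at h1
    have h3 : β (⟨φ₀ a, map_mem_S hφ₀ a⟩ * β⁻¹ ⟨c, hcS⟩) = β (β⁻¹ ⟨c, hcS⟩ * ⟨φ₀ a, map_mem_S hφ₀ a⟩) := by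
      apply Subtype.ext
      rw [map_mul, map_mul]
      simpa using h1
    exact congrArg (fun z : S => (z : Ω)) (β.injective h3)
  obtain ⟨a, ha⟩ := hc _ ⟨φ₀, hφ₀, rfl⟩ hcC'
  refine ⟨a, ?_⟩
  rw [he a (map_mem_S hφ₀ a)]
  have h3 : (⟨φ₀ a, map_mem_S hφ₀ a⟩ : S) = β⁻¹ ⟨c, hcS⟩ := Subtype.ext ha
  rw [h3]
  simp

section Main

variable [Finite S] {p : ℕ} [Fact p.Prime]

/-- **Cyclic form of Theorem Z.** -/
theorem mem_autGroup_of_res_cyclic (hS : IsPGroup p S) {D : FusionSystem S} (hD : D.IsSaturated p) {β : MulAut S}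
    (hinv : IsInvUnder D (Subgroup.zpowers β))
    (hp : ∀ γ ∈ Subgroup.zpowers β, (∃ k : ℕ, orderOf γ = p ^ k) → γ ∈ D.autGroup S)
    {R : Subgroup Ω} (hR : D.IsCentric R) (h : resA β hR.1 ∈ D.Hom R) : β ∈ D.autGroup S := by
  classical
  haveI : Finite (MulAut S) := inferInstance
  let Γ : Subgroup (MulAut S) := Subgroup.zpowers β
  let N : Subgroup Γ := (D.autGroup S).subgroupOf Γ
  have hcomm : ∀ g n : Γ, Commute g n := by
    rintro ⟨g', hg'⟩ ⟨n', hn'⟩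
    obtain ⟨i, rfl⟩ := Subgroup.mem_zpowers_iff.1 hg'
    obtain ⟨j, rfl⟩ := Subgroup.mem_zpowers_iff.1 hn'
    apply Subtype.ext
    exact Commute.zpow_zpow_self β i j
  haveI hN : N.Normal := by
    refine ⟨fun n hn g => ?_⟩
    have e : g * n * g⁻¹ = n := by
      rw [(hcomm g n).eq]
      group
    rwa [e]
  have hΔ : ∀ x : Γ ⧸ N, x ^ p = 1 → x = 1 := by
    intro x hx
    obtain ⟨g, rfl⟩ := QuotientGroup.mk_surjective x
    have ho : orderOf g ≠ 0 := (orderOf_pos g).ne'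
    obtain ⟨a, m, hpm, hm⟩ := Nat.exists_eq_pow_mul_and_not_dvd ho p (Fact.out : p.Prime).ne_one
    have hm0 : m ≠ 0 := fun h0 => ho (by rw [hm, h0, mul_zero])
    have hu : (g : Γ) ^ m ∈ N := by
      rw [Subgroup.mem_subgroupOf]
      refine hp _ ((g ^ m).2) ⟨a, ?_⟩
      have h3 : Nat.gcd (orderOf g) m = m := Nat.gcd_eq_right (Dvd.intro_left _ hm.symm)
      rw [Subgroup.orderOf_coe, orderOf_pow' g hm0, h3, hm, Nat.mul_div_cancel _ (Nat.pos_of_ne_zero hm0)]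
    have h1 : ((g : Γ ⧸ N)) ^ m = 1 := by
      rw [← QuotientGroup.mk_pow]
      exact (QuotientGroup.eq_one_iff _).2 hu
    have hcop : Nat.Coprime m p := by
      rw [Nat.coprime_comm]
      exact ((Nat.Prime.coprime_iff_not_dvd (Fact.out : p.Prime))).2 hpm
    have h2 : (g : Γ ⧸ N) ^ Nat.gcd m p = 1 := pow_gcd_eq_one.2 ⟨h1, hx⟩
    rw [hcop.gcd_eq_one, pow_one] at h2
    exact h2
  have hker : ∀ b : Γ, (b : MulAut S) ∈ D.autGroup S → QuotientGroup.mk' N b = 1 := by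
    intro b hb
    exact (QuotientGroup.eq_one_iff _).2 (by rwa [Subgroup.mem_subgroupOf])
  have h1 := main hS hD hinv hΔ (QuotientGroup.mk' N) hker hR (α := ⟨β, Subgroup.mem_zpowers β⟩) h
  have h2 : (⟨β, Subgroup.mem_zpowers β⟩ : Γ) ∈ N := (QuotientGroup.eq_one_iff _).1 h1
  rwa [Subgroup.mem_subgroupOf] at h2

/-- `p`-elements of `Aut_E(R)` lie in `Aut_{D'}(R)`, when `D'` satisfies the Frattini condition in `F ≥ E`. -/
theorem KK_le_of_frattini {T : Subgroup Ω} [Finite T] {F : FusionSystem S} {E D' : FusionSystem T}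
    (hEs : E.IsSaturated p) (hEF : E.IsSubsystemOf F)
    (hfr : ∀ (P : Subgroup Ω), P ≤ T → ∀ (φ : P →* Ω), φ ∈ F.Hom P →
      ∃ α ∈ F.autGroup T, ∃ φ₀ ∈ D'.Hom P, ∀ (x : P) (hx : φ₀ x ∈ T), φ x = ((α ⟨φ₀ x, hx⟩ : T) : Ω))
    {R : Subgroup Ω} (hR : R ≤ T) : KK E p R ≤ D'.autGroup R := by
  rw [KK_le_iff]
  intro α hα hk
  obtain ⟨ψ, hψ, x, hx, hψα⟩ := exists_map_conj_p_element hEs hR hα hk
  obtain ⟨β, -, ψ₀, hψ₀, hψe⟩ := hfr R hR ψ (hEF R hψ)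
  exact mem_autGroup_of_conj_factor hψ₀ hψe hx hψα

/-- **The `p'`-residual of a weakly normal subsystem lies in every weakly normal subsystem over the same `T`.** -/
theorem residSys_le_of_invariant {T : Subgroup Ω} (hT : IsPGroup p T) [Finite T] {F : FusionSystem S}
    {E D' : FusionSystem T} (hEs : E.IsSaturated p) (hD's : D'.IsSaturated p) (hE : E.IsInvariantIn F)
    (hD' : D'.IsInvariantIn F) : residSys E p ≤ D' := by
  obtain ⟨hEF, -, -, hEfr⟩ := hE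
  have hKK : ∀ {R : Subgroup Ω}, R ≤ T → KK E p R ≤ D'.autGroup R :=
    fun hR => KK_le_of_frattini hEs hEF hD'.2.2.2 hR
  have hcore : coreSys E p ≤ D' := coreSys_le (fun R hR => hKK hR.1)
  have hinv := isInvUnder_of_invariant hD'
  have hΓ : gamma0 E p ≤ D'.autGroup T := by
    refine (Subgroup.closure_le _).2 ?_
    rintro β ⟨hβ, R, hR, hres⟩
    have hzp : Subgroup.zpowers β ≤ E.autGroup T := (Subgroup.zpowers_le).2 hβ
    have hEa : E.autGroup T ≤ F.autGroup T := Subgroup.closure_mono fun _ hα => hEF T hα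
    have hcent : D'.IsCentric R := by
      refine isCentric_of_factor (E := E) (fun P φ hφ => ?_) hR
      obtain ⟨α, -, φ₀, hφ₀, he⟩ := hEfr P (source_le hφ) φ (hD'.1 P hφ)
      exact ⟨α, φ₀, hφ₀, he⟩
    exact mem_autGroup_of_res_cyclic hT hD's (fun γ hγ => hinv γ (hEa (hzp hγ)))
      (fun γ hγ hk => hKK le_rfl (mem_KK (hzp hγ) hk)) hcent (hcore R hres)
  exact prodSys_le hcore hΓ

end Main

end Cfsg.Agent.Lib.Fusion.ZLemma
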