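/-
Characters of the automizer of a normal subsystem, part 3: the kernel of the character, and the systems it defines.
-/
import Mathlib
import Cfsg.Prelude.Def_FusionComponents
import Cfsg.Agent.Lib.Fusion.SatCrit6
import Cfsg.Agent.Lib.Fusion.PPowerNormal
import Cfsg.Agent.Lib.Fusion.ZCor
import Cfsg.Agent.Lib.Fusion.CharAut2

set_option autoImplicit false

namespace Cfsg.Agent.Lib.Fusion.CharAut

open Cfsg Cfsg.FusionSystem Cfsg.Agent.Lib.Fusion.Basic Cfsg.Agent.Lib.Fusion.Saturated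
open Cfsg.Agent.Lib.Fusion.PPrime Cfsg.Agent.Lib.Fusion.PPowerNormal
open Cfsg.Agent.Lib.Fusion.SatCrit (imgOf mem_imgOf imgOf_le stabIn resAut resHom)
open Cfsg.Agent.Lib.Fusion.Factor (mem_of_map_mem_stronglyClosed)

variable {Ω : Type*} [Group Ω] {S : Subgroup Ω} {F : FusionSystem S} {T : Subgroup Ω} {Δ : Type*} [Group Δ]

/-- The kernel of a character of `Aut_F(T)`, in `Aut(T)`. -/
def kerA (F : FusionSystem S) (χ : F.autGroup T →* Δ) : Subgroup (MulAut T) := χ.ker.map (F.autGroup T).subtype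

theorem mem_kerA {χ : F.autGroup T →* Δ} {k : MulAut T} : k ∈ kerA F χ ↔ ∃ h : k ∈ F.autGroup T, χ ⟨k, h⟩ = 1 := by
  constructor
  · rintro ⟨a, ha, rfl⟩
    exact ⟨a.2, ha⟩
  · rintro ⟨h, hk⟩
    exact ⟨⟨k, h⟩, hk, rfl⟩

theorem kerA_le (χ : F.autGroup T →* Δ) : kerA F χ ≤ F.autGroup T := Subgroup.map_subtype_le _

theorem autGroup_le_stabIn (hSC : F.StronglyClosed T) : F.autGroup S ≤ stabIn S T := by
  intro β hβ x
  constructor
  · intro hx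
    exact mem_of_map_mem_stronglyClosed F hSC (autGroup_mem_hom le_rfl hβ) (x := x) hx
  · intro hx
    exact Chain.StronglyClosed.aut_mem hSC le_rfl hβ x hx

/-- Restriction of `Aut_F(S)` to `T`. -/
def restrT (hSC : F.StronglyClosed T) : F.autGroup S →* F.autGroup T :=
  ((resHom hSC.1).comp (Subgroup.inclusion (autGroup_le_stabIn hSC))).codRestrict _
    (fun β => SatCrit.resAut_mem_autGroup le_rfl hSC.1 (autGroup_le_stabIn hSC β.2) β.2)

theorem restrT_apply (hSC : F.StronglyClosed T) (β : F.autGroup S) (t : T) :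
    (((restrT hSC β : MulAut T) t : T) : Ω) = (β : MulAut S) ⟨t, hSC.1 t.2⟩ := rfl

/-- The elements of `Aut_F(S)` whose restriction to `T` is in the kernel of `χ`. -/
def gammaKer (hSC : F.StronglyClosed T) (χ : F.autGroup T →* Δ) : Subgroup (MulAut S) :=
  (χ.comp (restrT hSC)).ker.map (F.autGroup S).subtype

theorem mem_gammaKer {hSC : F.StronglyClosed T} {χ : F.autGroup T →* Δ} {β : MulAut S} :
    β ∈ gammaKer hSC χ ↔ ∃ h : β ∈ F.autGroup S, χ (restrT hSC ⟨β, h⟩) = 1 := by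
  constructor
  · rintro ⟨a, ha, rfl⟩
    exact ⟨a.2, ha⟩
  · rintro ⟨h, hk⟩
    exact ⟨⟨β, h⟩, hk, rfl⟩

theorem gammaKer_le (hSC : F.StronglyClosed T) (χ : F.autGroup T →* Δ) : gammaKer hSC χ ≤ F.autGroup S :=
  Subgroup.map_subtype_le _

theorem gammaKer_conj (hSC : F.StronglyClosed T) (χ : F.autGroup T →* Δ) {γ β : MulAut S} (hγ : γ ∈ F.autGroup S)
    (hβ : β ∈ gammaKer hSC χ) : γ * β * γ⁻¹ ∈ gammaKer hSC χ := by
  obtain ⟨h, hk⟩ := mem_gammaKer.1 hβ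
  refine mem_gammaKer.2 ⟨(F.autGroup S).mul_mem ((F.autGroup S).mul_mem hγ h) ((F.autGroup S).inv_mem hγ), ?_⟩
  have e : (⟨γ * β * γ⁻¹, (F.autGroup S).mul_mem ((F.autGroup S).mul_mem hγ h) ((F.autGroup S).inv_mem hγ)⟩ : F.autGroup S) =
      ⟨γ, hγ⟩ * ⟨β, h⟩ * (⟨γ, hγ⟩ : F.autGroup S)⁻¹ := rfl
  rw [e, map_mul, map_mul, map_mul, map_mul, hk, mul_one, map_inv, map_inv, mul_inv_cancel]

section Main

variable [Finite S] {p : ℕ} [Fact p.Prime]

/-- A character into a group without `p`-elements kills the automorphisms of `T` induced by `S`. -/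
theorem chi_conj (hS : IsPGroup p S) (hSC : F.StronglyClosed T) (hΔ : ∀ x : Δ, x ^ p = 1 → x = 1)
    (χ : F.autGroup T →* Δ) {x : Ω} (hx : x ∈ S) (hxN : x ∈ Subgroup.normalizer (T : Set Ω))
    (hm : normConj x hxN ∈ F.autGroup T) : χ ⟨normConj x hxN, hm⟩ = 1 := by
  obtain ⟨n, hn⟩ := isPGroup_autInducedBy hS T ⟨normConj x hxN, normConj_mem_autInducedBy hx hxN⟩
  have h2 : (normConj x hxN) ^ p ^ n = 1 := congrArg Subtype.val hn
  have h3 : (⟨normConj x hxN, hm⟩ : F.autGroup T) ^ p ^ n = 1 := Subtype.ext h2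
  refine ZLemma.eq_one_of_pow hΔ (m := n) ?_
  rw [← map_pow, h3, map_one]

theorem conj_mem_ker (hS : IsPGroup p S) (hSC : F.StronglyClosed T) (hΔ : ∀ x : Δ, x ^ p = 1 → x = 1)
    (χ : F.autGroup T →* Δ) {E : FusionSystem T} (hinvK : IsInvUnder E (kerA F χ)) (R : Subgroup Ω) (g : Ω)
    (hR : R ≤ T) (hg : g ∈ S) : conjHom R g ∈ (prodSys (kerA F χ) E hinvK).Hom R := by
  have hgN := NormalCR.StronglyClosed.le_normalizer hSC hg
  have hm : normConj g hgN ∈ F.autGroup T :=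
    autInducedBy_le_autGroup hSC.1 (normConj_mem_autInducedBy hg hgN)
  exact ⟨normConj g hgN, mem_kerA.2 ⟨hm, chi_conj hS hSC hΔ χ hg hgN hm⟩, R.subtype, subtype_mem hR, fun x hx => rfl⟩

/-- The elements of `p`-power order of `Aut_F(R)` lie in the system defined by the kernel of `χ`. -/
theorem pElement_mem (hS : IsPGroup p S) (hF : F.IsSaturated p) (hSC : F.StronglyClosed T) {E : FusionSystem T}
    (hfr : ∀ (P : Subgroup Ω), P ≤ T → ∀ (φ : P →* Ω), φ ∈ F.Hom P →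
      ∃ α ∈ F.autGroup T, ∃ φ₀ ∈ E.Hom P, ∀ (x : P) (hx : φ₀ x ∈ T), φ x = ((α ⟨φ₀ x, hx⟩ : T) : Ω))
    (hΔ : ∀ x : Δ, x ^ p = 1 → x = 1) (χ : F.autGroup T →* Δ) (hinvK : IsInvUnder E (kerA F χ))
    {hconj : ∀ (R : Subgroup Ω) (g : Ω), R ≤ T → g ∈ S → conjHom R g ∈ (prodSys (kerA F χ) E hinvK).Hom R}
    {R : Subgroup Ω} (hRS : R ≤ S) {α : MulAut R} (hα : α ∈ F.autGroup R) (hk : ∃ k : ℕ, orderOf α = p ^ k) :
    α ∈ (liftSys F hSC (prodSys (kerA F χ) E hinvK) hconj).autGroup R := by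
  have hTS : T ≤ S := hSC.1
  obtain ⟨ψ, hψ, x, hx, hψα⟩ := exists_map_conj_p_element hF hRS hα hk
  refine mem_autGroup_of_mem ⟨autGroup_mem_hom hRS hα, fun R₂ hR₂R hR₂T => ?_⟩
  have hle : R ⊓ T ≤ R := inf_le_left
  obtain ⟨b, hb, ψ₀, hψ₀, he⟩ := hfr (R ⊓ T) inf_le_right _ (res_mem hψ hle)
  have hxN := NormalCR.StronglyClosed.le_normalizer hSC hx
  have hcxF : normConj x hxN ∈ F.autGroup T := autInducedBy_le_autGroup hTS (normConj_mem_autInducedBy hx hxN)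
  have hcx1 := chi_conj hS hSC hΔ χ hx hxN hcxF
  have hb'F : b⁻¹ * normConj x hxN * b ∈ F.autGroup T :=
    (F.autGroup T).mul_mem ((F.autGroup T).mul_mem ((F.autGroup T).inv_mem hb) hcxF) hb
  have hb'K : b⁻¹ * normConj x hxN * b ∈ kerA F χ := by
    refine mem_kerA.2 ⟨hb'F, ?_⟩
    have e : (⟨b⁻¹ * normConj x hxN * b, hb'F⟩ : F.autGroup T) =
        (⟨b, hb⟩ : F.autGroup T)⁻¹ * ⟨normConj x hxN, hcxF⟩ * ⟨b, hb⟩ := rfl
    rw [e, map_mul, map_mul, hcx1, mul_one, map_inv, inv_mul_cancel]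
  have hψ₀T : ∀ a : ↥(R ⊓ T), ψ₀ a ∈ T := map_mem_S hψ₀
  have hαv : ∀ a : ↥(R ⊓ T), ((α ⟨a, a.2.1⟩ : R) : Ω) ∈ R ⊓ T := fun a =>
    ⟨(α ⟨a, a.2.1⟩).2, Chain.StronglyClosed.aut_mem hSC hRS hα _ a.2.2⟩
  have key : ∀ a : ↥(R ⊓ T), (⟨ψ₀ ⟨_, hαv a⟩, hψ₀T _⟩ : T) = (b⁻¹ * normConj x hxN * b) ⟨ψ₀ a, hψ₀T a⟩ := by
    intro a
    have h1 := he ⟨_, hαv a⟩ (hψ₀T _)
    have h2 := he a (hψ₀T a)
    have h3 := hψα ⟨a, a.2.1⟩
    have h4 : (ψ.comp (Subgroup.inclusion hle)) ⟨_, hαv a⟩ = ψ (α ⟨a, a.2.1⟩) := rfl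
    have h5 : (ψ.comp (Subgroup.inclusion hle)) a = ψ ⟨a, a.2.1⟩ := rfl
    rw [h4] at h1
    rw [h5] at h2
    rw [h3, h2] at h1
    have h6 : b ⟨ψ₀ ⟨_, hαv a⟩, hψ₀T _⟩ = normConj x hxN (b ⟨ψ₀ a, hψ₀T a⟩) := Subtype.ext h1.symm
    show _ = b⁻¹ (normConj x hxN (b ⟨ψ₀ a, hψ₀T a⟩))
    rw [← h6]
    simp
  let θ₁ : ↥(R ⊓ T) →* Ω :=
    T.subtype.comp ((b⁻¹ * normConj x hxN * b).toMonoidHom.comp (ψ₀.codRestrict T hψ₀T))
  have hθ₁ : θ₁ ∈ (prodSys (kerA F χ) E hinvK).Hom (R ⊓ T) :=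
    ⟨_, hb'K, ψ₀, hψ₀, fun y hy => rfl⟩
  obtain ⟨σ, hσ, hσx⟩ := E.inv_mem hψ₀
  have hval : ∀ a : ↥(R ⊓ T), θ₁ a ∈ ψ₀.range := fun a =>
    ⟨⟨_, hαv a⟩, congrArg (fun z : T => (z : Ω)) (key a)⟩
  have hρ : ((R.subtype.comp α.toMonoidHom).comp (Subgroup.inclusion hle)) ∈ (prodSys (kerA F χ) E hinvK).Hom (R ⊓ T) := by
    refine comp_mem' hθ₁ (le_prodSys _ hσ) hval (fun a => ?_)
    have e : (⟨θ₁ a, hval a⟩ : ψ₀.range) = ⟨ψ₀ ⟨_, hαv a⟩, ⟨_, rfl⟩⟩ :=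
      Subtype.ext (congrArg (fun z : T => (z : Ω)) (key a)).symm
    rw [e, hσx]
    rfl
  exact mem_of_eq_res hρ (le_inf hR₂R hR₂T) (fun z => rfl)

/-- **Uses Theorem Z.** An element of `Aut_F(S)` which, on `R` with `R ∩ T` centric in `E`, is `β₁ ∘ φ₀`, with
`β₁ ∈ Γ₀` and `φ₀` in the system defined by the kernel of `χ`, has restriction to `T` in the kernel of `χ`. -/
theorem mem_gammaKer_of_res (hT : IsPGroup p T) [Finite T] (hSC : F.StronglyClosed T) {E : FusionSystem T}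
    (hEs : E.IsSaturated p) (hinvA : IsInvUnder E (F.autGroup T)) (hΔ : ∀ x : Δ, x ^ p = 1 → x = 1)
    (χ : F.autGroup T →* Δ) (hker : ∀ β : F.autGroup T, (β : MulAut T) ∈ E.autGroup T → χ β = 1)
    (hinvK : IsInvUnder E (kerA F χ))
    {hconj : ∀ (R : Subgroup Ω) (g : Ω), R ≤ T → g ∈ S → conjHom R g ∈ (prodSys (kerA F χ) E hinvK).Hom R}
    {G : FusionSystem S} (hG : G ≤ liftSys F hSC (prodSys (kerA F χ) E hinvK) hconj)
    (hinv : IsInvUnder G (gammaKer hSC χ)) {β : MulAut S} (hβ : β ∈ F.autGroup S) {R : Subgroup Ω} (hRS : R ≤ S)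
    (hRc : E.IsCentric (R ⊓ T)) (hres : resA β hRS ∈ (prodSys (gammaKer hSC χ) G hinv).Hom R) :
    β ∈ gammaKer hSC χ := by
  obtain ⟨β₁, hβ₁, φ₀, hφ₀, he⟩ := hres
  obtain ⟨hβ₁F, hβ₁χ⟩ := mem_gammaKer.1 hβ₁
  obtain ⟨k, hk, ψ₀, hψ₀, hke⟩ := (hG R hφ₀).2 (R ⊓ T) inf_le_left inf_le_right
  obtain ⟨hkF, hkχ⟩ := mem_kerA.1 hk
  have hψ₀T : ∀ a : ↥(R ⊓ T), ψ₀ a ∈ T := map_mem_S hψ₀
  let a : F.autGroup T := restrT hSC ⟨β, hβ⟩
  let a₁ : F.autGroup T := restrT hSC ⟨β₁, hβ₁F⟩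
  let k' : F.autGroup T := ⟨k, hkF⟩
  let γ : F.autGroup T := k'⁻¹ * a₁⁻¹ * a
  have hm : ∀ r : ↥(R ⊓ T), (a₁ : MulAut T) (k ⟨ψ₀ r, hψ₀T r⟩) = (a : MulAut T) ⟨r, r.2.2⟩ := by
    intro r
    apply Subtype.ext
    have h1 := he ⟨r, r.2.1⟩ (map_mem_S hφ₀ _)
    have h2 := hke r (hψ₀T r)
    have h3 : (φ₀.comp (Subgroup.inclusion (inf_le_left : R ⊓ T ≤ R))) r = φ₀ ⟨r, r.2.1⟩ := rfl
    rw [h3] at h2
    have h4 : (⟨φ₀ ⟨r, r.2.1⟩, map_mem_S hφ₀ _⟩ : S) = ⟨((k ⟨ψ₀ r, hψ₀T r⟩ : T) : Ω), hSC.1 (k _).2⟩ := Subtype.ext h2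
    rw [h4] at h1
    exact h1.symm
  have hresγ : resA (γ : MulAut T) (inf_le_right : R ⊓ T ≤ T) ∈ E.Hom (R ⊓ T) := by
    refine mem_of_eq_res hψ₀ le_rfl (fun r => ?_)
    show (((k⁻¹ : MulAut T) ((a₁ : MulAut T)⁻¹ ((a : MulAut T) ⟨r, r.2.2⟩)) : T) : Ω) = ψ₀ r
    rw [← hm r]
    simp
  have hγ := ZLemma.main hT hEs hinvA hΔ χ hker hRc (α := γ) hresγ
  refine mem_gammaKer.2 ⟨hβ, ?_⟩
  have e : a = a₁ * k' * γ := by
    show a = a₁ * k' * (k'⁻¹ * a₁⁻¹ * a)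
    group
  show χ a = 1
  rw [e, map_mul, map_mul, hβ₁χ, hkχ, hγ]
  simp

/-- Frattini: each element of `Aut_F(T)` is the restriction of an element of `Aut_F(S)` times an element of
`O^{p'}(Aut_F(T))`. -/
theorem exists_restrT_mul (hS : IsPGroup p S) (hF : F.IsSaturated p) (hSC : F.StronglyClosed T) (a : F.autGroup T) :
    ∃ β : F.autGroup S, ∃ k ∈ Subgroup.closure {α : F.autGroup T | ∃ k : ℕ, orderOf α = p ^ k},
      a = restrT hSC β * k := by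
  classical
  have hTS : T ≤ S := hSC.1
  have hFN : F.IsFullyNormalized T := by
    refine ⟨hTS, ?_⟩
    rintro Q ⟨φ, hφ, rfl⟩
    have hle : φ.range ≤ T := by
      rintro _ ⟨x, rfl⟩
      exact hSC.2 T le_rfl φ hφ x
    haveI : Finite T := finite_of_le hTS
    have heq : φ.range = T := Subgroup.eq_of_le_of_card_ge hle (card_eq_of_range hφ rfl).le
    rw [heq]
  have hQr := fullyNormalized_receptive hS hF hFN
  obtain ⟨-, R, hR⟩ := (fullyNormalized_props hS hF hFN).2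
  haveI : Finite (F.autGroup T) := finite_autGroup hTS
  let K : Subgroup (F.autGroup T) := Subgroup.closure {α : F.autGroup T | ∃ k : ℕ, orderOf α = p ^ k}
  haveI hKn : K.Normal := closure_p_normal _
  have hRK : (R : Subgroup (F.autGroup T)) ≤ K := by
    intro x hx
    refine Subgroup.subset_closure ?_
    obtain ⟨k, hk⟩ := (IsPGroup.iff_orderOf.1 R.isPGroup') ⟨x, hx⟩
    exact ⟨k, by rw [← Subgroup.orderOf_mk x hx]; exact hk⟩
  let P' : Sylow p K := R.subtype hRK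
  have hP' : ((P' : Subgroup K).map K.subtype) = R := by
    show ((R : Subgroup (F.autGroup T)).subgroupOf K).map K.subtype = R
    rw [Subgroup.map_subgroupOf_eq_of_le hRK]
  have htop := Sylow.normalizer_sup_eq_top P'
  rw [hP'] at htop
  have hmem : a ∈ Subgroup.normalizer ((R : Subgroup (F.autGroup T)) : Set (F.autGroup T)) ⊔ K := by
    rw [htop]
    trivial
  obtain ⟨n, hn, k, hk, hnk⟩ := Subgroup.mem_sup_of_normal_right.1 hmem
  -- `n` extends to `S`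
  have hnF : T.subtype.comp (n : MulAut T).toMonoidHom ∈ F.Hom T := autGroup_mem_hom hTS n.2
  have hr : (T.subtype.comp (n : MulAut T).toMonoidHom).range = T := by
    ext y
    constructor
    · rintro ⟨z, rfl⟩
      exact ((n : MulAut T) z).2
    · intro hy
      exact ⟨(n : MulAut T)⁻¹ ⟨y, hy⟩, by simp⟩
  obtain ⟨ψ, hψ, hext⟩ := hQr.2 T _ hnF hr
  have hNle : S ≤ extender S T (T.subtype.comp (n : MulAut T).toMonoidHom) := by
    intro g hgS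
    have hgN := NormalCR.StronglyClosed.le_normalizer hSC hgS
    have hc : normConj g hgN ∈ F.autGroup T :=
      autInducedBy_le_autGroup hTS (normConj_mem_autInducedBy hgS hgN)
    have hcR : (⟨normConj g hgN, hc⟩ : F.autGroup T) ∈ (R : Subgroup (F.autGroup T)) := by
      rw [hR, Subgroup.mem_subgroupOf]
      exact normConj_mem_autInducedBy hgS hgN
    have h2 : n * ⟨normConj g hgN, hc⟩ * n⁻¹ ∈ (R : Subgroup (F.autGroup T)) :=
      (Subgroup.mem_normalizer_iff.1 hn _).1 hcR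
    rw [hR, Subgroup.mem_subgroupOf] at h2
    obtain ⟨h', hh', hhv⟩ := mem_autInducedBy_iff.1 h2
    refine extender_closure_mem hgS hgN hh' (fun x hx => ?_)
    have h3 := hhv ((n : MulAut T) x)
    have e : ((n * ⟨normConj g hgN, hc⟩ * n⁻¹ : F.autGroup T) : MulAut T) ((n : MulAut T) x) =
        (n : MulAut T) (normConj g hgN x) := by
      simp
    rw [e] at h3
    have e2 : normConj g hgN x = ⟨g * x * g⁻¹, hx⟩ := Subtype.ext rfl
    rw [e2] at h3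
    exact h3
  have hψ' : ψ.comp (Subgroup.inclusion hNle) ∈ F.Hom S := res_mem hψ hNle
  have hrange : (ψ.comp (Subgroup.inclusion hNle)).range = S :=
    range_eq_of_card hψ' (map_mem_S hψ') le_rfl
  let β : MulAut S := isoOfRange (F.injective_of_mem hψ') hrange
  have hβF : β ∈ F.autGroup S := mem_autGroup_of_mem (mem_of_eq_res hψ' le_rfl (fun z => rfl))
  refine ⟨⟨β, hβF⟩, k, hk, ?_⟩
  have hn2 : n = restrT hSC ⟨β, hβF⟩ := by
    apply Subtype.ext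
    ext t
    rw [restrT_apply]
    exact (hext t t.2 (hNle (hTS t.2))).symm
  rw [← hn2, hnk]

end Main

/-! ### The restriction of a system to a strongly closed subgroup -/

/-- The maps of `D` between subgroups of the strongly closed `T`. -/
def resSys (D : FusionSystem S) (hSC : D.StronglyClosed T) : FusionSystem T where
  Hom P := {φ | φ ∈ D.Hom P ∧ P ≤ T}
  le_of_mem := by
    rintro P φ ⟨hφ, hP⟩
    exact ⟨hP, fun x => hSC.2 P hP φ hφ x⟩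
  injective_of_mem h := D.injective_of_mem h.1
  conj_mem := by
    intro P g hP hg
    exact ⟨D.conj_mem (hP.trans hSC.1) (hSC.1 hg), hP⟩
  comp_mem := by
    rintro P Q φ ψ ⟨hφ, hP⟩ ⟨hψ, hQ⟩ h
    exact ⟨D.comp_mem hφ hψ h, hP⟩
  inv_mem := by
    rintro P φ ⟨hφ, hP⟩
    obtain ⟨ψ, hψ, hx⟩ := D.inv_mem hφ
    refine ⟨ψ, ⟨hψ, ?_⟩, hx⟩
    rintro _ ⟨x, rfl⟩
    exact hSC.2 P hP φ hφ x

theorem autGroup_resSys {D : FusionSystem S} (hSC : D.StronglyClosed T) {P : Subgroup Ω} (hP : P ≤ T) {α : MulAut P}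
    (hα : α ∈ D.autGroup P) : α ∈ (resSys D hSC).autGroup P :=
  mem_autGroup_of_mem ⟨autGroup_mem_hom (hP.trans hSC.1) hα, hP⟩

end Cfsg.Agent.Lib.Fusion.CharAut
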