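/-
Characters of the automizer of an invariant subsystem, part 4: the main theorem.
-/
import Mathlib
import Cfsg.Prelude.Def_FusionComponents
import Cfsg.Agent.Lib.Fusion.CharAut3

set_option autoImplicit false

namespace Cfsg.Agent.Lib.Fusion.CharAut

open Cfsg Cfsg.FusionSystem Cfsg.Agent.Lib.Fusion.Basic Cfsg.Agent.Lib.Fusion.Saturated
open Cfsg.Agent.Lib.Fusion.PPrime Cfsg.Agent.Lib.Fusion.PPowerNormal
open Cfsg.Agent.Lib.Fusion.SatCrit (imgOf mem_imgOf imgOf_le stabIn resAut resHom)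
open Cfsg.Agent.Lib.Fusion.Factor (mem_of_map_mem_stronglyClosed)
open Cfsg.Agent.Lib.Fusion.Subsystem (isCentric_of_isConj)

variable {Ω : Type*} [Group Ω] {S : Subgroup Ω} {F : FusionSystem S} {T : Subgroup Ω} {Δ : Type*} [Group Δ]

/-- The extension condition, for a system over all of `S`. -/
theorem exists_ext_aux (F : FusionSystem S) {α : MulAut S} (hα : α ∈ F.autGroup S) :
    ∀ (X : Subgroup Ω) (_ : X = S) (hSX : S ≤ X), ∃ β ∈ F.autGroup X,
      (∀ x : S, ((β (Subgroup.inclusion hSX x) : X) : Ω) = ((α x : S) : Ω)) ∧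
      ∀ c : X, (c : Ω) ∈ centralizerIn S S → (c : Ω)⁻¹ * ((β c : X) : Ω) ∈ S ⊓ Subgroup.centralizer (S : Set Ω) := by
  intro X hX hSX
  subst hX
  refine ⟨α, hα, fun x => rfl, fun c hc => ?_⟩
  have h2 : ((α c : X) : Ω) ∈ Subgroup.centralizer (X : Set Ω) := by
    refine Subgroup.mem_centralizer_iff.2 (fun s hs => ?_)
    obtain ⟨s', hs'⟩ : ∃ s' : X, α s' = ⟨s, hs⟩ := ⟨α⁻¹ ⟨s, hs⟩, by simp⟩
    have h3 : s' * c = c * s' := Subtype.ext ((Subgroup.mem_centralizer_iff.1 hc.2) s' s'.2)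
    have h4 := congrArg α h3
    rw [map_mul, map_mul, hs'] at h4
    exact congrArg (fun z : X => (z : Ω)) h4
  refine ⟨X.mul_mem (X.inv_mem c.2) (α c).2, Subgroup.mul_mem _ (Subgroup.inv_mem _ hc.2) h2⟩

section Main

variable [Finite S] {p : ℕ} [Fact p.Prime]

theorem chi_closure (hΔ : ∀ x : Δ, x ^ p = 1 → x = 1) (χ : F.autGroup T →* Δ) {k : F.autGroup T}
    (hk : k ∈ Subgroup.closure {α : F.autGroup T | ∃ k : ℕ, orderOf α = p ^ k}) : χ k = 1 := by
  induction hk using Subgroup.closure_induction with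
  | mem x hx =>
    obtain ⟨j, hj⟩ := hx
    refine ZLemma.eq_one_of_pow hΔ (m := j) ?_
    rw [← map_pow, ← hj, pow_orderOf_eq_one, map_one]
  | one => exact map_one χ
  | mul a b _ _ ha hb => rw [map_mul, ha, hb, one_mul]
  | inv a _ ha => rw [map_inv, ha, inv_one]

/-- **The main theorem.** -/
theorem main (hS : IsPGroup p S) (hF : F.IsSaturated p) (hTS : T ≤ S) {E : FusionSystem T} (hEs : E.IsSaturated p)
    (hE : E.IsInvariantIn F) [Finite Δ] [Nontrivial Δ] (hΔ : (Nat.card Δ).Coprime p) (χ : F.autGroup T →* Δ)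
    (hχ : Function.Surjective χ) (hker : (E.autGroup T).subgroupOf (F.autGroup T) ≤ χ.ker) :
    ∃ F₀ : FusionSystem S, F₀.IsNormalIn F p ∧ ¬ (∀ P : Subgroup Ω, F₀.Hom P = F.Hom P) ∧ E.IsSubsystemOf F₀ ∧
      (∀ α : MulAut S, α ∈ F₀.autGroup S ↔ α ∈ F.autGroup S ∧ ∃ β : F.autGroup T, χ β = 1 ∧
        ∀ t : T, (((β : MulAut T) t : T) : Ω) = ((α ⟨(t : Ω), hTS t.2⟩ : S) : Ω)) ∧
      ∀ R : FusionSystem S, F.IsPPrimeResidual p R → R.IsSubsystemOf F₀ := by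
  have hinvA := ZLemma.isInvUnder_of_invariant hE
  obtain ⟨hEF, hSC, -, hfr⟩ := hE
  haveI : Finite T := finite_of_le hTS
  have hT : IsPGroup p T := isPGroup_of_le hS hTS
  have hΔ' : ∀ x : Δ, x ^ p = 1 → x = 1 := by
    intro x hx
    have h1 : x ^ Nat.gcd (Nat.card Δ) p = 1 := pow_gcd_eq_one.2 ⟨pow_card_eq_one', hx⟩
    rw [hΔ.gcd_eq_one, pow_one] at h1
    exact h1
  have hker' : ∀ β : F.autGroup T, (β : MulAut T) ∈ E.autGroup T → χ β = 1 :=
    fun β hβ => hker (Subgroup.mem_subgroupOf.2 hβ)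
  have hinvK : IsInvUnder E (kerA F χ) := fun β hβ => hinvA β (kerA_le χ hβ)
  have hconj : ∀ (R : Subgroup Ω) (g : Ω), R ≤ T → g ∈ S → conjHom R g ∈ (prodSys (kerA F χ) E hinvK).Hom R :=
    fun R g hR hg => conj_mem_ker hS hSC hΔ' χ hinvK R g hR hg
  -- conjugation in `F` preserves `E`-centricity
  have hC : ∀ R : Subgroup Ω, R ≤ T → ∀ φ ∈ F.Hom R, E.IsCentric R → E.IsCentric φ.range := by
    intro R hR φ hφ hRc
    have h1 : (prodSys (F.autGroup T) E hinvA).IsCentric R :=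
      ZLemma.isCentric_of_factor (fun P ψ hψ => by
        obtain ⟨β, -, ψ₀, hψ₀, he⟩ := hψ
        exact ⟨β, ψ₀, hψ₀, he⟩) hRc
    have h2 : φ ∈ (prodSys (F.autGroup T) E hinvA).Hom R := hfr R hR φ hφ
    have h3 := isCentric_of_isConj h1 ⟨φ, h2, rfl⟩
    refine ⟨h3.1, fun Q hQ => h3.2 Q ?_⟩
    obtain ⟨ψ, hψ, hr⟩ := hQ
    exact ⟨ψ, le_prodSys _ hψ, hr⟩
  -- the family
  let ℋ : Set (Subgroup Ω) := {Q | F.IsCentric Q ∧ E.IsCentric (Q ⊓ T)}
  have hℋS : ∀ R ∈ ℋ, R ≤ S := fun R hR => hR.1.1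
  have hℋconj : ∀ P ∈ ℋ, ∀ Q, F.IsConj P Q → Q ∈ ℋ := by
    rintro P ⟨hPc, hPT⟩ Q ⟨φ, hφ, rfl⟩
    refine ⟨isCentric_of_isConj hPc ⟨φ, hφ, rfl⟩, ?_⟩
    have hle : P ⊓ T ≤ P := inf_le_left
    have hres := res_mem hφ hle
    have hEq : (φ.comp (Subgroup.inclusion hle)).range = φ.range ⊓ T := by
      ext y
      constructor
      · rintro ⟨x, rfl⟩
        exact ⟨⟨_, rfl⟩, hSC.2 _ inf_le_right _ hres x⟩
      · rintro ⟨⟨x, rfl⟩, hy⟩
        exact ⟨⟨x, x.2, mem_of_map_mem_stronglyClosed F hSC hφ hy⟩, rfl⟩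
    rw [← hEq]
    exact hC _ inf_le_right _ hres hPT
  have hℋinv : ∀ β ∈ F.autGroup S, ∀ R ∈ ℋ, imgOf β R ∈ ℋ :=
    fun β hβ R hR => hℋconj R hR _ ⟨resA β (hℋS R hR), resA_mem hβ _, range_resA β _⟩
  have hSℋ : S ∈ ℋ := by
    refine ⟨⟨le_rfl, fun Q hQ => ?_⟩, ?_⟩
    · have hQS := Basic.IsConj.le_right hQ
      have : Q = S := Subgroup.eq_of_le_of_card_ge hQS (Basic.IsConj.card_eq hQ).le
      rw [this]
      exact inf_le_left
    · have e : S ⊓ T = T := inf_eq_right.2 hTS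
      rw [e]
      refine ⟨le_rfl, fun Q hQ => ?_⟩
      have hQT := Basic.IsConj.le_right hQ
      have : Q = T := Subgroup.eq_of_le_of_card_ge hQT (Basic.IsConj.card_eq hQ).le
      rw [this]
      exact inf_le_left
  -- the generated system and the factorization
  have hGF : famSys F p ℋ ≤ F := famSys_self_le F p ℋ
  have hGinv := famSys_inv F p hℋS hℋinv
  have hext : ∀ R : Subgroup Ω, F.IsCentric R → F.IsFullyNormalized R → R ∉ ℋ → ∀ α ∈ F.autGroup R,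
      ∃ t ∈ S, t ∉ R ∧ t ∈ extender S R (R.subtype.comp α.toMonoidHom) := by
    intro R hRc hRfn hRℋ α hα
    have hn : ¬ E.IsCentric (R ⊓ T) := fun h => hRℋ ⟨hRc, h⟩
    obtain ⟨t, htT, htN, htR, htc⟩ := exists_t hS hF hSC hEF hC hRfn hn
    have hcore := conj_mem_pCore hS hSC hRfn.1 htT htN htc
    exact ⟨t, hTS htT, htR,
      mem_extender_of_pCore (fullyNormalized_props hS hF hRfn).2 (hTS htT) htN rfl hcore hα⟩
  have hfac : F ≤ prodSys (F.autGroup S) (famSys F p ℋ) hGinv := by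
    refine le_of_family hS hF (fun R hRc hRfn => ?_) le_autGroup_prodSys
    by_cases hR : R ∈ ℋ
    · left
      exact (famSys_mem F p hℋS R hR).trans (autGroup_mono le_prodSys R)
    · right
      exact hext R hRc hRfn hR
  have hfac' : ∀ (P : Subgroup Ω) (φ : P →* Ω), φ ∈ F.Hom P → ∃ α ∈ F.autGroup S, ∃ φ₀ ∈ (famSys F p ℋ).Hom P,
      ∀ (x : P) (hx : φ₀ x ∈ S), φ x = ((α ⟨φ₀ x, hx⟩ : S) : Ω) := fun P φ hφ => hfac P hφ
  have hGlift : famSys F p ℋ ≤ liftSys F hSC (prodSys (kerA F χ) E hinvK) hconj :=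
    famSys_le (fun R hR => KK_le_iff.2 (fun α hα hk => pElement_mem hS hF hSC hfr hΔ' χ hinvK (hℋS R hR) hα hk))
  -- the subsystem `F₀`
  have hinvΓ : IsInvUnder (famSys F p ℋ) (gammaKer hSC χ) := fun β hβ => hGinv β (gammaKer_le hSC χ hβ)
  have hF₀F : prodSys (gammaKer hSC χ) (famSys F p ℋ) hinvΓ ≤ F := prodSys_le hGF (gammaKer_le hSC χ)
  have hSC₀ : (prodSys (gammaKer hSC χ) (famSys F p ℋ) hinvΓ).StronglyClosed T :=
    ⟨hTS, fun R hR φ hφ x => hSC.2 R hR φ (hF₀F _ hφ) x⟩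
  have hc : ∀ β ∈ F.autGroup S, ∀ R ∈ ℋ, ∀ hRS : R ≤ S,
      resA β hRS ∈ (prodSys (gammaKer hSC χ) (famSys F p ℋ) hinvΓ).Hom R → β ∈ gammaKer hSC χ :=
    fun β hβ R hR hRS hres => mem_gammaKer_of_res hT hSC hEs hinvA hΔ' χ hker' hinvK hGlift hinvΓ hβ hRS hR.2 hres
  have hgen : ∀ E' : FusionSystem S, (∀ P ∈ ℋ, (prodSys (gammaKer hSC χ) (famSys F p ℋ) hinvΓ).Hom P ⊆ E'.Hom P) →
      prodSys (gammaKer hSC χ) (famSys F p ℋ) hinvΓ ≤ E' := by
    intro E' hE'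
    have hcls : E' ∈ famClass F p ℋ := by
      intro R hR α hα
      have h1 := famSys_mem F p hℋS R hR hα
      have h2 : α ∈ (prodSys (gammaKer hSC χ) (famSys F p ℋ) hinvΓ).autGroup R := autGroup_mono le_prodSys R h1
      exact mem_autGroup_of_mem (hE' R hR (autGroup_mem_hom (hℋS R hR) h2))
    have hΓ : gammaKer hSC χ ≤ E'.autGroup S := by
      intro β hβ
      exact mem_autGroup_of_mem (hE' S hSℋ (autGroup_mem_hom le_rfl (le_autGroup_prodSys hβ)))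
    exact prodSys_le (famSys_le hcls) hΓ
  have hstar : ∀ P : Subgroup Ω, F.IsCentric P → P ∉ ℋ → F.IsFullyNormalized P →
      ¬ (autInducedBy S P ⊓ (pCore p ↥((prodSys (gammaKer hSC χ) (famSys F p ℋ) hinvΓ).autGroup P)).map
        ((prodSys (gammaKer hSC χ) (famSys F p ℋ) hinvΓ).autGroup P).subtype ≤ Inn P) := by
    intro P hPc hPℋ hPfn hle
    have hn : ¬ E.IsCentric (P ⊓ T) := fun h => hPℋ ⟨hPc, h⟩
    obtain ⟨t, htT, htN, htP, htc⟩ := exists_t hS hF hSC hEF hC hPfn hn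
    have hcore := conj_mem_pCore hS hSC₀ hPfn.1 htT htN htc
    have hin : normConj t htN ∈ Inn P := hle ⟨normConj_mem_autInducedBy (hTS htT) htN, ⟨_, hcore, rfl⟩⟩
    exact normConj_not_mem_inn hPfn.1 (hPc.2 P (Basic.IsConj.refl hPc.1)) (hTS htT) htN htP hin
  have hsat : (prodSys (gammaKer hSC χ) (famSys F p ℋ) hinvΓ).IsSaturated p :=
    isSaturated_prodSys hS hF hGF (gammaKer_le hSC χ) hinvΓ hfac' ℋ (fun P hP => hP.1) hℋconj hc hgen hstar
  have hidx : (prodSys (gammaKer hSC χ) (famSys F p ℋ) hinvΓ).HasPrimeToPIndexIn F p :=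
    ⟨hF₀F, fun P hP => KK_le_iff.2 (fun α hα hk =>
      autGroup_mono le_prodSys P (mem_autGroup_of_prod hF hfac' hP hα hk))⟩
  -- the automorphisms of `S`
  have h4 : ∀ α : MulAut S, α ∈ (prodSys (gammaKer hSC χ) (famSys F p ℋ) hinvΓ).autGroup S ↔
      α ∈ F.autGroup S ∧ ∃ β : F.autGroup T, χ β = 1 ∧
        ∀ t : T, (((β : MulAut T) t : T) : Ω) = ((α ⟨(t : Ω), hTS t.2⟩ : S) : Ω) := by
    intro α
    constructor
    · intro hα
      have hαF : α ∈ F.autGroup S := autGroup_mono hF₀F S hα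
      have hres : resA α (le_rfl : S ≤ S) ∈ (prodSys (gammaKer hSC χ) (famSys F p ℋ) hinvΓ).Hom S := resA_mem hα le_rfl
      obtain ⟨h, hk⟩ := mem_gammaKer.1 (hc α hαF S hSℋ le_rfl hres)
      exact ⟨hαF, restrT hSC ⟨α, h⟩, hk, fun t => rfl⟩
    · rintro ⟨hα, β, hβ, hβe⟩
      have e : restrT hSC ⟨α, hα⟩ = β := by
        apply Subtype.ext
        ext t
        exact (hβe t).symm
      exact le_autGroup_prodSys (mem_gammaKer.2 ⟨hα, by rw [e]; exact hβ⟩)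
  refine ⟨prodSys (gammaKer hSC χ) (famSys F p ℋ) hinvΓ, ?_, ?_, ?_, h4, fun R hR => hR.2.2 _ hsat hidx⟩
  · -- normality
    have hinv₀ : IsInvUnder (prodSys (gammaKer hSC χ) (famSys F p ℋ) hinvΓ) (F.autGroup S) :=
      prodSys_inv hGinv (fun γ hγ β hβ => gammaKer_conj hSC χ hγ hβ)
    refine ⟨⟨hsat, hF, hF₀F, ⟨le_rfl, fun R hR φ hφ x => map_mem_S hφ x⟩, ?_, ?_⟩, fun α hα => ?_⟩
    · intro P hPS φ hφ α hα
      have h1 := hinv₀ α hα P φ hφ
      have hle2 : (P.subgroupOf S).map (S.subtype.comp α.toMonoidHom) ≤ imgOf α P := (imgOf_eq_map α P).ge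
      refine ⟨_, res_mem h1 hle2, fun x hφx hαx => ?_⟩
      exact isConjBy_conjMap α φ (map_mem_S hφ) ⟨x, hPS x.2⟩ ⟨φ x, hφx⟩ x.2 (hle2 hαx) rfl
    · intro P hPS φ hφ
      obtain ⟨α, hα, φ₀, hφ₀, he⟩ := hfac P hφ
      exact ⟨α, hα, φ₀, le_prodSys _ hφ₀, he⟩
    · have hX : S ⊔ centralizerIn S S = S := sup_eq_left.2 inf_le_left
      exact exists_ext_aux F (autGroup_mono hF₀F S hα) _ hX le_sup_left
  · -- properness
    intro hall
    obtain ⟨δ, hδ⟩ := exists_ne (1 : Δ)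
    obtain ⟨a, ha⟩ := hχ δ
    obtain ⟨β, k, hk, hak⟩ := exists_restrT_mul hS hF hSC a
    have hχk := chi_closure hΔ' χ hk
    have hβF₀ : (β : MulAut S) ∈ (prodSys (gammaKer hSC χ) (famSys F p ℋ) hinvΓ).autGroup S := by
      apply mem_autGroup_of_mem
      rw [hall]
      exact autGroup_mem_hom le_rfl β.2
    obtain ⟨-, β', hβ', hβe⟩ := (h4 _).1 hβF₀
    have e : restrT hSC β = β' := by
      apply Subtype.ext
      ext t
      exact (hβe t).symm
    apply hδ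
    rw [← ha, hak, map_mul, hχk, mul_one, e, hβ']
  · -- `E ≤ F₀`
    have hle : E ≤ resSys _ hSC₀ := by
      refine le_of_centric hT hEs (fun R hR => ?_) (fun a ha => ?_)
      · rw [KK_le_iff]
        intro α hα hk
        have hαF : α ∈ F.autGroup R := (show E.autGroup R ≤ F.autGroup R from Subgroup.closure_mono fun _ h => hEF R h) hα
        exact autGroup_resSys hSC₀ hR.1 (hidx.2 R (hR.1.trans hTS) (mem_KK hαF hk))
      · have haF : a ∈ F.autGroup T := (show E.autGroup T ≤ F.autGroup T from Subgroup.closure_mono fun _ h => hEF T h) ha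
        have hχa : χ ⟨a, haF⟩ = 1 := hker' _ ha
        obtain ⟨β, k, hk, hak⟩ := exists_restrT_mul hS hF hSC ⟨a, haF⟩
        have hχk := chi_closure hΔ' χ hk
        have hχβ : χ (restrT hSC β) = 1 := by
          rw [hak, map_mul, hχk, mul_one] at hχa
          exact hχa
        have hβ₀ : (β : MulAut S) ∈ gammaKer hSC χ := mem_gammaKer.2 ⟨β.2, hχβ⟩
        have hak' : a = (restrT hSC β : MulAut T) * (k : MulAut T) := congrArg Subtype.val hak
        rw [hak']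
        refine Subgroup.mul_mem _ (autGroup_resSys hSC₀ le_rfl ?_) (autGroup_resSys hSC₀ le_rfl ?_)
        · refine mem_autGroup_of_mem (mem_of_eq_res (resA_mem (le_autGroup_prodSys hβ₀) hTS) le_rfl (fun z => rfl))
        · exact hidx.2 T hTS ⟨k, hk, rfl⟩
    exact fun P φ hφ => (hle P hφ).1

end Main

end Cfsg.Agent.Lib.Fusion.CharAut
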