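/-
Control of transfer. Let `W` be a positive characteristic `p`-functor such that `O_p(G) ∩ G' = O_p(G) ∩ N_G(W(P))'` in finite groups with
`C_G(O_p(G)) ≤ O_p(G)`. Then `foc(F) = foc(N_F(W(S)))` in every saturated fusion system. The key: for a subgroup `A` normal in `F`, the
intersection `A ∩ foc(F)` lies in `[S,S] [A, Aut_F(A)]`, by the stable transfer.
-/
import Mathlib
import Cfsg.Prelude.Def_FusionSystem
import Cfsg.Prelude.Def_FusionReduction
import Cfsg.Agent.Lib.Fusion.CharTransfer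
import Cfsg.Agent.Lib.Fusion.CenterControl
import Cfsg.Agent.Lib.Transfer.WellPlacedControl

set_option autoImplicit false

namespace Cfsg.Agent.Lib.Fusion.FocalControl

open Cfsg Cfsg.FusionSystem Cfsg.Agent.Lib.Fusion.Basic Cfsg.Agent.Lib.Fusion.Saturated
  Cfsg.Agent.Lib.Fusion.NormalCR Cfsg.Agent.Lib.Fusion.Normal Cfsg.Agent.Lib.Fusion.LocalSystems
  Cfsg.Agent.Lib.Fusion.Joins Cfsg.Agent.Lib.Fusion.ModelLocal Cfsg.Agent.Lib.Fusion.CentrNormal
  Cfsg.Agent.Lib.Fusion.CentrFree Cfsg.Agent.Lib.Fusion.GFunctor Cfsg.Agent.Lib.Fusion.QdFree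
  Cfsg.Agent.Lib.Fusion.QdFreeFactor Cfsg.Agent.Lib.Fusion.Factor Cfsg.Agent.Lib.Fusion.FactorMorphism
  Cfsg.Agent.Lib.Fusion.GlaubermanMain Cfsg.Agent.Lib.Fusion.ChainGeneral Cfsg.Agent.Lib.Fusion.Model
  Cfsg.Agent.Lib.Fusion.CenterControl Cfsg.Agent.Lib.Fusion.CharTransfer
open MulAction
open scoped commutatorElement

universe u

variable {Ω : Type u} [Group Ω] {S : Subgroup Ω} {F : FusionSystem S} {p : ℕ} [Fact p.Prime]

/-- The intersection of the focal subgroup with a subgroup `A` normal in `F` lies in any `D ≥ [S,S]` containing `[A, Aut_F(A)]`. -/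
theorem inf_focal_le [Finite S] (hS : IsPGroup p S) (hF : F.IsSaturated p) {A : Subgroup Ω} (hAn : F.IsNormal A) {D : Subgroup Ω}
    (hD : ⁅S, S⁆ ≤ D)
    (hAD : ∀ {Q : Subgroup Ω} {ψ : Q →* Ω}, ψ ∈ F.Hom Q → A ≤ Q → (A.subgroupOf Q).map ψ = A → ∀ a : Q, (a : Ω) ∈ A →
      (a : Ω)⁻¹ * ψ a ∈ D) :
    A ⊓ F.focalSubgroup ≤ D := by
  classical
  obtain ⟨ι, i1, Q, ρ, hρ, hp, hmain⟩ := exists_stable_transfer (F := F) hS hF
  have hSN : S ≤ Subgroup.normalizer (A : Set Ω) := StronglyClosed.le_normalizer (IsNormal.stronglyClosed hAn)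
  -- the quotient
  let K : Subgroup (Abelianization S) := (D.subgroupOf S).map Abelianization.of
  let π : S →* (Abelianization S ⧸ K) := (QuotientGroup.mk' K).comp Abelianization.of
  have hcomm : commutator S ≤ D.subgroupOf S := by
    intro s hs
    have h5 : (commutator S).map S.subtype = ⁅S, S⁆ := by
      have h6 : (⊤ : Subgroup S).map S.subtype = S := by
        rw [← MonoidHom.range_eq_map, Subgroup.range_subtype]
      rw [commutator_def, Subgroup.map_commutator, h6]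
    have h7 : (s : Ω) ∈ ⁅S, S⁆ := by
      rw [← h5]
      exact ⟨s, hs, rfl⟩
    exact hD h7
  have hπ1 : ∀ s : S, π s = 1 ↔ (s : Ω) ∈ D := by
    intro s
    constructor
    · intro h
      have h1 : Abelianization.of s ∈ K := (QuotientGroup.eq_one_iff _).1 h
      obtain ⟨d, hd, hde⟩ := h1
      have h2 : Abelianization.of (d⁻¹ * s) = 1 := by
        rw [map_mul, map_inv, hde, inv_mul_cancel]
      have h3 : d⁻¹ * s ∈ commutator S := (QuotientGroup.eq_one_iff _).1 h2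
      have h4 := hcomm h3
      have h5 : s = d * (d⁻¹ * s) := by group
      rw [h5]
      exact (D.subgroupOf S).mul_mem hd h4
    · intro h
      exact (QuotientGroup.eq_one_iff _).2 ⟨s, h, rfl⟩
  let ϕ : ∀ i, (Q i).subgroupOf S →* (Abelianization S ⧸ K) := fun i => π.comp (rOf (ρ i) (map_mem_S (hρ i)))
  let t : S →* (Abelianization S ⧸ K) := ∏ i, (ϕ i).transfer
  have ht : ∀ x, t x = ∏ i, (ϕ i).transfer x := fun x => MonoidHom.finset_prod_apply _ _ _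
  have hst : ∀ {P : Subgroup Ω} {φ : P →* Ω} (hφ : φ ∈ F.Hom P) (a : P),
      t ⟨a, source_le hφ a.2⟩ = t ⟨φ a, map_mem_S hφ a⟩ := by
    intro P φ hφ a
    rw [ht, ht]
    exact hmain π hφ a
  have hfoc : F.focalSubgroup ≤ (t.ker).map S.subtype := by
    refine (Subgroup.closure_le _).2 ?_
    rintro _ ⟨P, φ, x, hφ, rfl⟩
    refine ⟨(⟨x, source_le hφ x.2⟩ : S)⁻¹ * ⟨φ x, map_mem_S hφ x⟩, ?_, rfl⟩
    change _ ∈ t.ker
    rw [MonoidHom.mem_ker, map_mul, map_inv, ← hst hφ x, inv_mul_cancel]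
  rintro z ⟨hzA, hzf⟩
  obtain ⟨s, hs, rfl⟩ := hfoc hzf
  have hs1 : t s = 1 := hs
  have hsA : (s : Ω) ∈ A := hzA
  have hpow : ∀ i, (ϕ i).transfer s = π s ^ ((Q i).subgroupOf S).index := by
    intro i
    haveI : Fintype (Quotient (orbitRel (Subgroup.zpowers s) (S ⧸ (Q i).subgroupOf S))) := Fintype.ofFinite _
    rw [MonoidHom.transfer_eq_prod_quotient_orbitRel_zpowers_quot]
    have term : ∀ q : Quotient (orbitRel (Subgroup.zpowers s) (S ⧸ (Q i).subgroupOf S)),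
        ϕ i ⟨q.out.out⁻¹ * s ^ Function.minimalPeriod (s • ·) q.out * q.out.out,
          QuotientGroup.out_conj_pow_minimalPeriod_mem _ s q.out⟩ = π s ^ Function.minimalPeriod (s • ·) q.out := by
      intro q
      generalize hy : (⟨q.out.out⁻¹ * s ^ Function.minimalPeriod (s • ·) q.out * q.out.out,
          QuotientGroup.out_conj_pow_minimalPeriod_mem _ s q.out⟩ : (Q i).subgroupOf S) = y
      have hyv : (y : S) = q.out.out⁻¹ * s ^ Function.minimalPeriod (s • ·) q.out * q.out.out := by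
        rw [← hy]
      have hyQ : ((y : S) : Ω) ∈ Q i := y.2
      have hyA : ((y : S) : Ω) ∈ A := by
        rw [hyv]
        have h1 : ((s ^ Function.minimalPeriod (s • ·) q.out : S) : Ω) ∈ A := by
          rw [Subgroup.coe_pow]
          exact A.pow_mem hsA _
        have h2 := (Subgroup.mem_normalizer_iff.1 (hSN (q.out.out⁻¹ : S).2) _).1 h1
        simpa using h2
      obtain ⟨ψ, hψ, hag, himg⟩ := hAn.2 (Q i) (ρ i) (hρ i)
      have hQA : ((y : S) : Ω) ∈ Q i ⊔ A := (le_sup_right : A ≤ Q i ⊔ A) hyA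
      have h1 := hAD hψ le_sup_right himg ⟨_, hQA⟩ hyA
      have h2 : ψ ⟨_, hQA⟩ = ρ i ⟨_, hyQ⟩ := hag ⟨_, hyQ⟩
      rw [h2] at h1
      have h3 : π ((y : S)⁻¹ * (rOf (ρ i) (map_mem_S (hρ i)) y)) = 1 := (hπ1 _).2 h1
      rw [map_mul, map_inv, inv_mul_eq_one] at h3
      show π (rOf (ρ i) (map_mem_S (hρ i)) y) = _
      rw [← h3, hyv, map_mul, map_mul, map_inv, map_pow, mul_comm _ (π s ^ _), mul_assoc, inv_mul_cancel, mul_one]
    rw [Finset.prod_congr rfl (fun q _ => term q), Finset.prod_pow_eq_pow_sum, ← Subgroup.index_eq_sum_minimalPeriod]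
  have h1 : π s ^ (∑ i, ((Q i).subgroupOf S).index) = 1 := by
    rw [← Finset.prod_pow_eq_pow_sum, ← hs1, ht]
    exact Finset.prod_congr rfl fun i _ => (hpow i).symm
  obtain ⟨n, hn⟩ := hS s
  have h2 : π s ^ p ^ n = 1 := by
    rw [← map_pow, hn, map_one]
  have h3 : π s = 1 := by
    have h4 : orderOf (π s) ∣ p ^ n := orderOf_dvd_of_pow_eq_one h2
    have h5 : orderOf (π s) ∣ ∑ i, ((Q i).subgroupOf S).index := orderOf_dvd_of_pow_eq_one h1
    have hcop : Nat.Coprime (p ^ n) (∑ i, ((Q i).subgroupOf S).index) :=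
      Nat.Coprime.pow_left _ ((Nat.Prime.coprime_iff_not_dvd Fact.out).mpr hp)
    exact orderOf_eq_one_iff.mp (Nat.eq_one_of_dvd_coprimes hcop h4 h5)
  exact (hπ1 s).1 h3

variable {W : ∀ (Q : Type u) [Group Q], Subgroup Q}

/-- The local condition on the functor. -/
def TransferCond (p : ℕ) (W : ∀ (Q : Type u) [Group Q], Subgroup Q) : Prop :=
  ∀ (G : Type u) [Group G] [Finite G] (P : Sylow p G),
    Subgroup.centralizer ((Cfsg.pCore p G : Subgroup G) : Set G) ≤ Cfsg.pCore p G →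
    Cfsg.pCore p G ⊓ commutator G = Cfsg.pCore p G ⊓
      (commutator ↥(Subgroup.normalizer ((wOf W (P : Subgroup G) : Subgroup G) : Set G))).map
        (Subgroup.normalizer ((wOf W (P : Subgroup G) : Subgroup G) : Set G)).subtype

/-- Conjugation in a realizing group by an element normalizing the image of `W(S)` gives a map of the normalizer system. -/
theorem exists_normalizerHom_of_conj (hW : IsPFunctor p W) [Finite S] (hS : IsPGroup p S) {L : Type u} [Group L] {ι : S →* L}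
    (hreal : F.IsRealizedBy ι) {T : Subgroup L} (hT : T = ι.range) {g : L}
    (hg : g ∈ Subgroup.normalizer ((wOf W T : Subgroup L) : Set L)) {V : Subgroup Ω} (hV : V ≤ S)
    (hv : ∀ y : V, g * ι ⟨y, hV y.2⟩ * g⁻¹ ∈ ι.range) :
    ∃ ψ ∈ F.normalizerHom (wOf W S) (V ⊔ wOf W S), ∀ r : ↥(V ⊔ wOf W S), ∃ hs : ψ r ∈ S,
      ι ⟨ψ r, hs⟩ = g * ι ⟨r, (sup_le hV (wOf_le S)) r.2⟩ * g⁻¹ := by
  have hmW := map_wOf_eq_of_range (W := W) hW hS hreal.1 (P := T) hT.symm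
  have hK : V ⊔ wOf W S ≤ S := sup_le hV (wOf_le S)
  have hgW : ∀ y : wOf W S, g * ι ⟨y, wOf_le S y.2⟩ * g⁻¹ ∈ wOf W T := by
    intro y
    refine (Subgroup.mem_normalizer_iff.1 hg _).1 ?_
    show ι ⟨y, wOf_le S y.2⟩ ∈ _
    rw [← hmW]
    exact ⟨⟨y, wOf_le S y.2⟩, y.2, rfl⟩
  have hvV : ∀ y : wOf W S, g * ι ⟨y, wOf_le S y.2⟩ * g⁻¹ ∈ ι.range := fun y => by
    rw [← hT]
    exact wOf_le _ (hgW y)
  have hv' := Cfsg.Agent.Lib.Fusion.Embed.conj_mem_range_sup ι hV (wOf_le S) g hv hvV hK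
  obtain ⟨ψ, hψ, hψe⟩ := exists_hom_of_conj hreal hK g hv'
  have himg : ((wOf W S).subgroupOf (V ⊔ wOf W S)).map ψ = wOf W S := by
    ext y
    rw [mem_map_subgroupOf]
    constructor
    · rintro ⟨r, hr, rfl⟩
      obtain ⟨hs, he⟩ := hψe r
      have h1 : ι ⟨ψ r, hs⟩ ∈ wOf W T := by
        rw [he]
        exact hgW ⟨r, hr⟩
      rw [← hmW] at h1
      obtain ⟨v, hv, hve⟩ := h1
      have h2 : (v : Ω) = ψ r := congrArg Subtype.val (hreal.1 (hve.trans rfl))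
      rw [← h2]
      exact hv
    · intro hy
      have h1 : g⁻¹ * ι ⟨y, wOf_le S hy⟩ * g ∈ wOf W T := by
        have h2 : ι ⟨y, wOf_le S hy⟩ ∈ wOf W T := by
          rw [← hmW]
          exact ⟨⟨y, wOf_le S hy⟩, hy, rfl⟩
        have h3 := (Subgroup.mem_normalizer_iff.1 (Subgroup.inv_mem _ hg) _).1 h2
        simpa using h3
      rw [← hmW] at h1
      obtain ⟨v, hv, hve⟩ := h1
      have hvK : (v : Ω) ∈ V ⊔ wOf W S := (le_sup_right : wOf W S ≤ _) hv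
      refine ⟨⟨v, hvK⟩, hv, ?_⟩
      obtain ⟨hs, he⟩ := hψe ⟨v, hvK⟩
      have e1 : ι ⟨(v : Ω), hK hvK⟩ = g⁻¹ * ι ⟨y, wOf_le S hy⟩ * g := hve
      have h5 : (⟨ψ ⟨v, hvK⟩, hs⟩ : S) = ⟨y, wOf_le S hy⟩ := by
        apply hreal.1
        rw [he]
        show g * ι ⟨(v : Ω), hK hvK⟩ * g⁻¹ = _
        rw [e1]
        group
      exact congrArg Subtype.val h5
  have hSN := normalizerIn_wOf hW hS
  have hE := normalizerSystem_isNormalizerSystem F (wOf W S) (wOf_le S)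
  have hψN := mem_normalizerSystem hE le_sup_right (by rw [hSN]; exact hK) hψ himg
  have hψN' : ψ ∈ F.normalizerHom (wOf W S) _ := by
    rwa [hE] at hψN
  exact ⟨ψ, hψN', hψe⟩

/-- **The constrained case**: `O_p(F) ∩ foc(F) ≤ foc(N_F(W(S)))`. -/
theorem inf_focal_le_of_constrained (hW : IsPFunctor p W) (hTc : TransferCond p W) [Finite S] (hS : IsPGroup p S)
    (hFc : F.IsConstrained p) {D : Subgroup Ω}
    (hyp : ∀ {P : Subgroup Ω} {φ : P →* Ω}, φ ∈ F.normalizerHom (wOf W S) P → ∀ x : P, (x : Ω)⁻¹ * φ x ∈ D) :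
    F.core ⊓ F.focalSubgroup ≤ D := by
  obtain ⟨L, _, ι, hL⟩ := Cfsg.Agent.Lib.Fusion.ModelF.exists_model hS hFc
  have hmodel := hL
  obtain ⟨hfin, hreal, ⟨T, hT⟩, hcent⟩ := hL
  haveI := hfin
  rintro y ⟨hyA, hyf⟩
  have hAn := isNormal_core F
  have hyS : y ∈ S := hAn.1 hyA
  have h1 : ι ⟨y, hyS⟩ ∈ Cfsg.pCore p L := by
    have hn := normal_map_of_isNormal hAn hmodel
    have hp' : IsPGroup p ((F.core.subgroupOf S).map ι) := by
      have h0 : IsPGroup p (F.core.subgroupOf S) := IsPGroup.to_subgroup hS _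
      exact h0.map ι
    exact Cfsg.Agent.Lib.Basic.PCore.le_pCore hn hp' ⟨⟨y, hyS⟩, hyA, rfl⟩
  have h2 : ι ⟨y, hyS⟩ ∈ commutator L := by
    have hfoc : F.focalSubgroup ≤ ((commutator L).comap ι).map S.subtype := by
      refine (Subgroup.closure_le _).2 ?_
      rintro _ ⟨P, φ, x, hφ, rfl⟩
      refine ⟨(⟨x, source_le hφ x.2⟩ : S)⁻¹ * ⟨φ x, map_mem_S hφ x⟩, ?_, rfl⟩
      show ι _ ∈ commutator L
      obtain ⟨g, hg⟩ := exists_conj_of_mem hreal hφ
      rw [map_mul, map_inv, hg x (map_mem_S hφ x) (source_le hφ x.2)]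
      rw [commutator_def]
      have e : (ι ⟨x, source_le hφ x.2⟩)⁻¹ * (g * ι ⟨x, source_le hφ x.2⟩ * g⁻¹) = ⁅(ι ⟨x, source_le hφ x.2⟩)⁻¹, g⁆ := by
        rw [commutatorElement_def]
        group
      rw [e]
      exact Subgroup.commutator_mem_commutator (Subgroup.mem_top _) (Subgroup.mem_top _)
    obtain ⟨s, hs, hse⟩ := hfoc hyf
    have e : s = ⟨y, hyS⟩ := Subtype.ext hse
    rw [← e]
    exact hs
  have h3 := (hTc L T hcent).le ⟨h1, h2⟩
  obtain ⟨c, hc, hce⟩ := h3.2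
  have hTp : IsPGroup p (T : Subgroup L) := T.isPGroup'
  have hTN : (T : Subgroup L) ≤ Subgroup.normalizer ((wOf W (T : Subgroup L) : Subgroup L) : Set L) :=
    le_normalizer_wOf hW hTp
  have hmem : ∀ a : ↥(Subgroup.normalizer ((wOf W (T : Subgroup L) : Subgroup L) : Set L)),
      a ∈ ((T.subtype hTN : Sylow p _) : Subgroup _) ↔ (a : L) ∈ ι.range := by
    intro a
    rw [Sylow.coe_subtype, Subgroup.mem_subgroupOf, ← hT]
  have hle := Cfsg.Agent.Lib.Transfer.WellPlacedControl.inf_commutator_le_of_focal (T.subtype hTN)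
    (N := ((D.subgroupOf S).map ι).comap (Subgroup.normalizer ((wOf W (T : Subgroup L) : Subgroup L) : Set L)).subtype) (by
      intro x u hx hu
      obtain ⟨x₀, hx₀⟩ := (hmem x).1 hx
      obtain ⟨x₁, hx₁⟩ := (hmem _).1 hu
      have hV : Subgroup.zpowers (x₀ : Ω) ≤ S := (Subgroup.zpowers_le).2 x₀.2
      have hv : ∀ y : Subgroup.zpowers (x₀ : Ω), (u : L) * ι ⟨y, hV y.2⟩ * (u : L)⁻¹ ∈ ι.range := by
        have hle2 : Subgroup.zpowers (x₀ : Ω) ≤ ((ι.range.comap (MulAut.conj (u : L)).toMonoidHom).comap ι).map S.subtype := by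
          refine (Subgroup.zpowers_le).2 ⟨x₀, ?_, rfl⟩
          show (u : L) * ι x₀ * (u : L)⁻¹ ∈ ι.range
          rw [hx₀]
          exact ⟨x₁, hx₁⟩
        intro y
        obtain ⟨s, hs, hse⟩ := hle2 y.2
        have e : s = ⟨y, hV y.2⟩ := Subtype.ext hse
        rw [← e]
        exact hs
      obtain ⟨ψ, hψ, hψe⟩ := exists_normalizerHom_of_conj hW hS hreal hT u.2 hV hv
      have hx₀K : (x₀ : Ω) ∈ Subgroup.zpowers (x₀ : Ω) ⊔ wOf W S :=
        (le_sup_left : Subgroup.zpowers (x₀ : Ω) ≤ _) (Subgroup.mem_zpowers _)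
      have h4 := hyp hψ ⟨x₀, hx₀K⟩
      obtain ⟨hs, he⟩ := hψe ⟨x₀, hx₀K⟩
      refine ⟨x₀⁻¹ * ⟨ψ ⟨x₀, hx₀K⟩, hs⟩, h4, ?_⟩
      rw [map_mul, map_inv, he]
      show _ = ((x⁻¹ * (u * x * u⁻¹) : ↥(Subgroup.normalizer _)) : L)
      have e2 : ι ⟨(x₀ : Ω), _⟩ = (x : L) := hx₀
      rw [e2]
      rfl)
  have hcT : c ∈ ((T.subtype hTN : Sylow p _) : Subgroup _) := by
    refine (hmem c).2 ?_
    rw [show (c : L) = ι ⟨y, hyS⟩ from hce]
    exact ⟨_, rfl⟩
  obtain ⟨d, hd, hde⟩ := hle ⟨hcT, hc⟩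
  have e : d = ⟨y, hyS⟩ := hreal.1 (hde.trans hce)
  rw [← show (d : Ω) = y from congrArg Subtype.val e]
  exact hd

/-- **The inductive step.** -/
theorem focal_step (hW : IsPFunctor p W) (hTc : TransferCond p W) [Finite S] (hS : IsPGroup p S) (hF : F.IsSaturated p)
    {D : Subgroup Ω}
    (hyp : ∀ {P : Subgroup Ω} {φ : P →* Ω}, φ ∈ F.normalizerHom (wOf W S) P → ∀ x : P, (x : Ω)⁻¹ * φ x ∈ D)
    (IH₁ : ∀ (S₂ : Subgroup Ω) (F₂ : FusionSystem S₂), S₂ ≤ S → F₂.IsSaturated p → (∀ P, F₂.Hom P ⊆ F.Hom P) →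
      (∃ P, ∃ φ ∈ F.Hom P, φ ∉ F₂.Hom P) →
      (∀ {P : Subgroup Ω} {φ : P →* Ω}, φ ∈ F₂.normalizerHom (wOf W S₂) P → ∀ x : P, (x : Ω)⁻¹ * φ x ∈ D) →
      ∀ {P : Subgroup Ω} {φ : P →* Ω}, φ ∈ F₂.Hom P → ∀ x : P, (x : Ω)⁻¹ * φ x ∈ D)
    (IH₂ : ∀ (Ω' : Type u) [Group Ω'] (S' : Subgroup Ω') [Finite S'] (F' : FusionSystem S') (D' : Subgroup Ω'), IsPGroup p S' →
      F'.IsSaturated p → Nat.card S' < Nat.card S →
      (∀ {P : Subgroup Ω'} {φ : P →* Ω'}, φ ∈ F'.normalizerHom (wOf W S') P → ∀ x : P, (x : Ω')⁻¹ * φ x ∈ D') →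
      ∀ {P : Subgroup Ω'} {φ : P →* Ω'}, φ ∈ F'.Hom P → ∀ x : P, (x : Ω')⁻¹ * φ x ∈ D') :
    ∀ {P : Subgroup Ω} {φ : P →* Ω}, φ ∈ F.Hom P → ∀ x : P, (x : Ω)⁻¹ * φ x ∈ D := by
  classical
  have hSN₀ := normalizerIn_wOf hW hS
  -- maps preserving a non-normal subgroup normalized by `S`
  have hfixU : ∀ U : Subgroup Ω, U ≤ S → S ≤ Subgroup.normalizer (U : Set Ω) → ¬ F.IsNormal U →
      ∀ {P : Subgroup Ω} {φ : P →* Ω}, φ ∈ F.normalizerHom U P → ∀ x : P, (x : Ω)⁻¹ * φ x ∈ D := by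
    intro U hU hUN hUn P φ hφ x
    have hFN : F.IsFullyNormalized U := Cfsg.Agent.Lib.Fusion.ModelF.isFullyNormalized_of_le_normalizer hU hUN
    have e : normalizerIn S U = S := inf_eq_left.2 hUN
    have hN₁ := normalizerSystem_isNormalizerSystem F U hU
    have hsat := Cfsg.Agent.Lib.Fusion.KNormalizer.isSaturated_normalizerSystem hS hF hFN hN₁
    have hφ₁ : φ ∈ (normalizerSystem F U hU).Hom P := by rwa [hN₁ P]
    have hsub : ∀ P, (normalizerSystem F U hU).Hom P ⊆ F.Hom P := fun P φ hφ => hφ.1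
    refine IH₁ _ (normalizerSystem F U hU) normalizerIn_le hsat hsub (exists_not_mem_normalizerSystem hU hN₁ hUn) ?_ hφ₁ x
    intro P φ hφ x
    have h1 := normalizerHom_mono normalizerIn_le hsub hφ
    rw [e] at h1
    exact hyp h1 x
  intro P φ hφ x
  by_cases hcore : F.core = ⊥
  · -- the chain
    refine forall_of_chain hW hS hF (fun P φ => ∀ x : P, (x : Ω)⁻¹ * φ x ∈ D)
      (fun {P R φ} _ hPi h y => hPi (Subgroup.inclusion h y))
      (fun {P Q φ ψ} _ _ hPi₁ hPi₂ h y => by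
        have e : (y : Ω)⁻¹ * ψ ⟨φ y, h y⟩ = ((y : Ω)⁻¹ * φ y) * ((φ y)⁻¹ * ψ ⟨φ y, h y⟩) := by group
        show (y : Ω)⁻¹ * ψ ⟨φ y, h y⟩ ∈ D
        rw [e]
        exact D.mul_mem (hPi₁ y) (hPi₂ ⟨φ y, h y⟩))
      (fun {P Q φ ψ} _ _ hr hi hPi y => by
        have hm : (y : Ω) ∈ φ.range := hr ▸ y.2
        obtain ⟨y₀, hy₀⟩ := hm
        have e2 : y = ⟨φ y₀, hr ▸ ⟨y₀, rfl⟩⟩ := Subtype.ext hy₀.symm
        rw [e2, hi y₀]
        have h1 := D.inv_mem (hPi y₀)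
        have e3 : (φ y₀)⁻¹ * (y₀ : Ω) = ((y₀ : Ω)⁻¹ * φ y₀)⁻¹ := by group
        show (φ y₀)⁻¹ * (y₀ : Ω) ∈ D
        rw [e3]
        exact h1)
      (fun {P φ} hφ => hyp hφ)
      (fun X₁ hne hX₁ hY {P φ} hφ => by
        have hN₁ := normalizerSystem_isNormalizerSystem F X₁ hX₁.1
        have hsat := Cfsg.Agent.Lib.Fusion.KNormalizer.isSaturated_normalizerSystem hS hF hX₁ hN₁
        have hsub : ∀ P, (normalizerSystem F X₁ hX₁.1).Hom P ⊆ F.Hom P := fun P φ hφ => hφ.1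
        have hnn : ¬ F.IsNormal X₁ := fun hn => by
          have h2 : X₁ ≤ F.core := le_sSup hn
          rw [hcore] at h2
          exact hne (le_bot_iff.1 h2)
        exact IH₁ _ (normalizerSystem F X₁ hX₁.1) normalizerIn_le hsat hsub (exists_not_mem_normalizerSystem hX₁.1 hN₁ hnn)
          (fun hφ x => hY (normalizerHom_mono normalizerIn_le hsub hφ) x) hφ)
      hφ x
  have hAn := isNormal_core F
  have hAS := hAn.1
  have hASC := IsNormal.stronglyClosed hAn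
  have hnormal_le : ∀ U : Subgroup Ω, F.IsNormal U → U ≤ F.core := fun U hU => le_sSup hU
  have hSNA : S ≤ Subgroup.normalizer (F.core : Set Ω) := StronglyClosed.le_normalizer hASC
  have hE₀ := normalizerSystem_isNormalizerSystem F (wOf W S) (wOf_le S)
  -- automorphisms of `S` lie in the normalizer
  have hautS : ∀ {ψ : S →* Ω}, ψ ∈ F.Hom S → ψ ∈ F.normalizerHom (wOf W S) S := by
    intro ψ hψ
    have hr : ψ.range = S := range_eq_of_card hψ (map_mem_S hψ) le_rfl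
    have h1 := mem_normalizerSystem hE₀ (wOf_le S) (by rw [hSN₀]) hψ (map_wOf_self hW hS hψ hr)
    rwa [hE₀] at h1
  -- the commutator subgroup
  have hD : ⁅S, S⁆ ≤ D := by
    rw [Subgroup.commutator_le]
    intro a ha b hb
    have h1 := hyp (hautS (F.conj_mem le_rfl hb)) ⟨a⁻¹, S.inv_mem ha⟩
    have e : (a⁻¹)⁻¹ * (b * a⁻¹ * b⁻¹) = ⁅a, b⁆ := by
      rw [commutatorElement_def]
      group
    rw [← e]
    exact h1
  -- `O_p(F) ∩ foc(F) ≤ D`
  have hX : F.core ⊓ F.focalSubgroup ≤ D := by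
    by_cases hcon : F.IsConstrained p
    · exact inf_focal_le_of_constrained hW hTc hS hcon hyp
    · have hCA : ¬ centralizerIn S F.core ≤ F.core := fun h => hcon ⟨hF, F.core, hAn, isCentric_of_isNormal hAn h⟩
      have hSNC := le_normalizer_centralizerIn hSNA
      have hUS : uOf S F.core ≤ S := uOf_le hAS
      have hUN : S ≤ Subgroup.normalizer (uOf S F.core : Set Ω) := fun s hs => mem_normalizer_sup (hSNA hs) (hSNC hs)
      have hUnot : ¬ F.IsNormal (uOf S F.core) := fun hn =>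
        hCA ((le_sup_right : centralizerIn S F.core ≤ uOf S F.core).trans (hnormal_le _ hn))
      have hrec := fullyCentralized_receptive hS hF (isFullyCentralized_of_isNormal hAn)
      refine inf_focal_le hS hF hAn hD ?_
      intro Q ψ hψ hAQ himg a haA
      have hαr : (ψ.comp (Subgroup.inclusion hAQ)).range = F.core := by
        refine Eq.trans ?_ himg
        ext y
        rw [mem_map_subgroupOf]
        constructor
        · rintro ⟨u, rfl⟩
          exact ⟨Subgroup.inclusion hAQ u, u.2, rfl⟩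
        · rintro ⟨u, hu, rfl⟩
          exact ⟨⟨u, hu⟩, rfl⟩
      obtain ⟨σ, hσ, hσα⟩ := exists_adm_of_aut hrec (res_mem hψ hAQ) hαr
      have hadm : admHom σ ∈ F.normalizerHom (uOf S F.core) (uOf S F.core) := by
        have hE := normalizerSystem_isNormalizerSystem F (uOf S F.core) hUS
        have h3 := mem_normalizerSystem hE (R := uOf S F.core) le_rfl (le_inf hUS (hUS.trans hUN)) hσ.mem (by
          ext y
          rw [mem_map_subgroupOf]
          constructor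
          · rintro ⟨u, -, rfl⟩
            exact (σ u).2
          · intro hy
            refine ⟨σ⁻¹ ⟨y, hy⟩, (σ⁻¹ ⟨y, hy⟩).2, ?_⟩
            show ((σ (σ⁻¹ ⟨y, hy⟩) : ↥(uOf S F.core)) : Ω) = y
            have e : σ (σ⁻¹ ⟨y, hy⟩) = ⟨y, hy⟩ := σ.apply_symm_apply _
            rw [e])
        rwa [hE] at h3
      have haU : (a : Ω) ∈ uOf S F.core := (le_sup_left : F.core ≤ uOf S F.core) haA
      have h3 := hfixU _ hUS hUN hUnot hadm ⟨a, haU⟩
      have h4 : admHom σ ⟨a, haU⟩ = ψ a := hσα ⟨a, haU⟩ haA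
      rw [h4] at h3
      exact h3
  by_cases hSA : S ≤ F.core
  · -- `S` is normal
    obtain ⟨ψ, hψ, hag, -⟩ := hAn.2 P φ hφ
    have hPS : P ≤ S := source_le hφ
    have e : P ⊔ F.core = S := le_antisymm (sup_le hPS hAS) (hSA.trans le_sup_right)
    obtain ⟨ψ₁, hψ₁, hψ₁e⟩ := exists_hom_of_eq F e ψ hψ
    have h1 := hyp (hautS hψ₁) ⟨x, hPS x.2⟩
    have h2 := hψ₁e x ((le_sup_left : P ≤ P ⊔ F.core) x.2) (hPS x.2)
    rw [h2] at h1
    have h3 := hag x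
    have e2 : (⟨(x : Ω), (le_sup_left : P ≤ P ⊔ F.core) x.2⟩ : ↥(P ⊔ F.core)) = Subgroup.inclusion le_sup_left x := rfl
    rw [e2, h3] at h1
    exact h1
  -- the factor system
  have hnorm : (F.core.subgroupOf S).Normal := by
    refine ⟨fun x hx g => ?_⟩
    rw [Subgroup.mem_subgroupOf] at hx ⊢
    exact (Subgroup.mem_normalizer_iff.1 (hSNA g.2) x).1 hx
  let θ : S →* (S ⧸ F.core.subgroupOf S) := QuotientGroup.mk' _
  have hker : ∀ s : S, θ s = 1 ↔ (s : Ω) ∈ F.core := by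
    intro s
    rw [show θ s = 1 ↔ s ∈ F.core.subgroupOf S from QuotientGroup.eq_one_iff s, Subgroup.mem_subgroupOf]
  have hrange : θ.range = ⊤ := QuotientGroup.range_mk' _
  obtain ⟨E, hE⟩ := exists_isFactorSystem F hASC θ hker hrange
  have hsurj := isSurjectiveMorphism_of_isFactorSystem hS hF hASC hE
  have hEs : E.IsSaturated p := Cfsg.Agent.Lib.Fusion.Image.isSaturated_image hS hF hsurj
  haveI hfinQ : Finite (S ⧸ F.core.subgroupOf S) := Finite.of_surjective θ (QuotientGroup.mk'_surjective _)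
  have hEp : IsPGroup p (⊤ : Subgroup (S ⧸ F.core.subgroupOf S)) := by
    have h1 : IsPGroup p (S ⧸ F.core.subgroupOf S) := IsPGroup.of_surjective hS θ (QuotientGroup.mk'_surjective _)
    exact h1.to_subgroup _
  have hcard : Nat.card (⊤ : Subgroup (S ⧸ F.core.subgroupOf S)) < Nat.card S := by
    rw [Subgroup.card_top]
    have h1 := Subgroup.card_eq_card_quotient_mul_card_subgroup (F.core.subgroupOf S)
    have h2 : Nat.card (F.core.subgroupOf S) ≠ 1 := by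
      intro h
      have h3 := Subgroup.eq_bot_of_card_eq _ h
      apply hcore
      apply le_bot_iff.1
      intro x hx
      have h5 : (⟨x, hAS hx⟩ : S) ∈ F.core.subgroupOf S := hx
      rw [h3] at h5
      have h6 := Subgroup.mem_bot.1 h5
      exact Subgroup.mem_bot.2 (congrArg Subtype.val h6)
    have h3 : 0 < Nat.card (F.core.subgroupOf S) := Nat.card_pos
    have h4 : 0 < Nat.card (S ⧸ F.core.subgroupOf S) := Nat.card_pos
    rw [h1]
    exact lt_mul_of_one_lt_right h4 (by omega)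
  -- the preimage of `W(S/A)`
  have hY'le : wOf W (⊤ : Subgroup (S ⧸ F.core.subgroupOf S)) ≤ θ.range := by
    rw [hrange]
    exact le_top
  have hYS : preimageAlong θ (wOf W ⊤) ≤ S := preimage_le θ _
  have hYN : S ≤ Subgroup.normalizer (preimageAlong θ (wOf W ⊤) : Set Ω) := fun s hs =>
    (mem_normalizer_preimage_iff hY'le (s := ⟨s, hs⟩)).2 (le_normalizer_wOf hW hEp (Subgroup.mem_top _))
  have htop : (⊤ : Subgroup (S ⧸ F.core.subgroupOf S)) ≠ ⊥ := by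
    intro h
    apply hSA
    intro s hs
    have h1 : θ ⟨s, hs⟩ = 1 := by
      have h2 : θ ⟨s, hs⟩ ∈ (⊤ : Subgroup (S ⧸ F.core.subgroupOf S)) := Subgroup.mem_top _
      rw [h] at h2
      exact Subgroup.mem_bot.1 h2
    exact (hker _).1 h1
  have hYnot : ¬ F.IsNormal (preimageAlong θ (wOf W ⊤)) := by
    intro hn
    have hYA : preimageAlong θ (wOf W ⊤) ≤ F.core := hnormal_le _ hn
    apply wOf_ne_bot hW hEp htop
    apply le_bot_iff.1
    intro y hy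
    obtain ⟨s, rfl⟩ := QuotientGroup.mk'_surjective _ y
    have h1 : (s : Ω) ∈ preimageAlong θ (wOf W ⊤) := mem_preimage.2 ⟨s.2, hy⟩
    exact Subgroup.mem_bot.2 ((hker s).2 (hYA h1))
  have hfixY : ∀ {P : Subgroup Ω} {φ : P →* Ω}, φ ∈ F.normalizerHom (preimageAlong θ (wOf W ⊤)) P →
      ∀ x : P, (x : Ω)⁻¹ * φ x ∈ D := fun {P φ} hφ x => hfixU _ hYS hYN hYnot hφ x
  -- the induction in the factor system
  have hfixE : ∀ {P' : Subgroup (S ⧸ F.core.subgroupOf S)} {φ' : P' →* (S ⧸ F.core.subgroupOf S)}, φ' ∈ E.Hom P' →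
      ∀ x' : P', (x' : S ⧸ F.core.subgroupOf S)⁻¹ * φ' x' ∈ imageAlong θ (D ⊓ F.focalSubgroup) := by
    refine IH₂ _ ⊤ E _ hEp hEs hcard ?_
    intro P' φ' hφ' x'
    obtain ⟨-, -, -, ψ', hψ', hag, himg⟩ := hφ'
    obtain ⟨-, -, -, hiff⟩ := id hE
    obtain ⟨-, ψ₂, hψ₂, hle, hv', hmem, he⟩ := (hiff _ _).1 hψ'
    have hYR : preimageAlong θ (wOf W ⊤) ≤ preimageAlong θ (P' ⊔ wOf W ⊤) := by
      intro y hy
      obtain ⟨h1, h2⟩ := mem_preimage.1 hy
      exact mem_preimage.2 ⟨h1, (le_sup_right : wOf W ⊤ ≤ P' ⊔ wOf W ⊤) h2⟩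
    obtain ⟨s, hs⟩ := QuotientGroup.mk'_surjective (F.core.subgroupOf S) (x' : S ⧸ F.core.subgroupOf S)
    have hsx : θ s = x' := hs
    have hsR : (s : Ω) ∈ preimageAlong θ (P' ⊔ wOf W ⊤) := by
      refine mem_preimage.2 ⟨s.2, ?_⟩
      show θ s ∈ _
      rw [hsx]
      exact (le_sup_left : P' ≤ P' ⊔ wOf W ⊤) x'.2
    haveI : Finite (preimageAlong θ (wOf W ⊤)) := finite_of_le hYS
    have himgY := map_eq_of_mem (F.injective_of_mem hψ₂) hYR (fun y => by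
      refine mem_preimage.2 ⟨hv' _, ?_⟩
      rw [← he]
      have h1 : θ ⟨y, hYS y.2⟩ ∈ wOf W ⊤ := (mem_preimage.1 y.2).2
      refine himg.le ?_
      rw [mem_map_subgroupOf]
      exact ⟨⟨θ ⟨y, hYS y.2⟩, hmem (Subgroup.inclusion hYR y)⟩, h1, rfl⟩)
    have hE' := normalizerSystem_isNormalizerSystem F _ hYS
    have hψN := mem_normalizerSystem hE' hYR (le_inf hle (hle.trans hYN)) hψ₂ himgY
    have hψN' : ψ₂ ∈ F.normalizerHom (preimageAlong θ (wOf W ⊤)) _ := by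
      rwa [hE'] at hψN
    have h1 := hfixY hψN' ⟨s, hsR⟩
    have h2 := he ⟨s, hsR⟩
    have h3 := hag x'
    have h4 : (x' : S ⧸ F.core.subgroupOf S)⁻¹ * φ' x' =
        θ ((⟨s, hle hsR⟩ : S)⁻¹ * ⟨ψ₂ ⟨s, hsR⟩, hv' _⟩) := by
      rw [map_mul, map_inv, ← h3]
      have e1 : θ ⟨ψ₂ ⟨s, hsR⟩, hv' _⟩ = ψ' (Subgroup.inclusion le_sup_left x') := by
        rw [← h2]
        congr 1
        exact Subtype.ext hsx
      rw [e1]
      congr 2
      exact hsx.symm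
    rw [h4]
    refine ⟨_, ?_, rfl⟩
    show _ ∈ D ⊓ F.focalSubgroup
    refine ⟨h1, Subgroup.subset_closure ⟨_, ψ₂, ⟨s, hsR⟩, hψ₂, rfl⟩⟩
  -- the conclusion
  have hmor := isMorphism_of_isFactorSystem hS hF hASC hE
  obtain ⟨φ', hφ', hle, hv, hP', he⟩ := hmor.2 P φ hφ
  have e1 := he x
  have e2 := hfixE hφ' ⟨_, hP' x⟩
  obtain ⟨t, ht, hte⟩ := e2
  rw [e1] at hte
  obtain ⟨htD, htf⟩ : ((t : S) : Ω) ∈ D ⊓ F.focalSubgroup := ht
  have e4 : ((t : Ω))⁻¹ * ((x : Ω)⁻¹ * φ x) ∈ F.core := by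
    refine (hker ((t : S)⁻¹ * ((⟨x, hle x.2⟩ : S)⁻¹ * ⟨φ x, hv x⟩))).1 ?_
    rw [map_mul, map_inv, map_mul, map_inv]
    have hte2 : θ t = (θ ⟨x, hle x.2⟩)⁻¹ * θ ⟨φ x, hv x⟩ := hte
    rw [hte2, inv_mul_cancel]
  have hfx : (x : Ω)⁻¹ * φ x ∈ F.focalSubgroup := Subgroup.subset_closure ⟨P, φ, x, hφ, rfl⟩
  have e5 : ((t : Ω))⁻¹ * ((x : Ω)⁻¹ * φ x) ∈ F.focalSubgroup := Subgroup.mul_mem _ (Subgroup.inv_mem _ htf) hfx
  have e6 := hX ⟨e4, e5⟩
  have e7 : (x : Ω)⁻¹ * φ x = (t : Ω) * (((t : Ω))⁻¹ * ((x : Ω)⁻¹ * φ x)) := by group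
  rw [e7]
  exact D.mul_mem htD e6

/-- **Main theorem** on control of transfer. -/
theorem focal_of_normalizer (hW : IsPFunctor p W) (hTc : TransferCond p W) :
    ∀ (n : ℕ) (Ω : Type u) [Group Ω] (S : Subgroup Ω) [Finite S] (F : FusionSystem S) (D : Subgroup Ω), Nat.card S = n →
      IsPGroup p S → F.IsSaturated p →
      (∀ {P : Subgroup Ω} {φ : P →* Ω}, φ ∈ F.normalizerHom (wOf W S) P → ∀ x : P, (x : Ω)⁻¹ * φ x ∈ D) →
      ∀ {P : Subgroup Ω} {φ : P →* Ω}, φ ∈ F.Hom P → ∀ x : P, (x : Ω)⁻¹ * φ x ∈ D := by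
  intro n
  induction n using Nat.strong_induction_on with
  | _ n ih =>
  intro Ω _ S _ F D hn hS hF hyp
  suffices H : ∀ (m : ℕ) (S' : Subgroup Ω) [Finite S'] (F' : FusionSystem S'), Nat.card S' = n → (mapsOf F').ncard = m →
      IsPGroup p S' → F'.IsSaturated p →
      (∀ {P : Subgroup Ω} {φ : P →* Ω}, φ ∈ F'.normalizerHom (wOf W S') P → ∀ x : P, (x : Ω)⁻¹ * φ x ∈ D) →
      ∀ {P : Subgroup Ω} {φ : P →* Ω}, φ ∈ F'.Hom P → ∀ x : P, (x : Ω)⁻¹ * φ x ∈ D from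
    fun {P φ} hφ x => H _ S F hn rfl hS hF hyp hφ x
  intro m
  induction m using Nat.strong_induction_on with
  | _ m ihm =>
  intro S' _ F' hn' hm hS' hF' hyp' P φ hφ x
  refine focal_step hW hTc hS' hF' hyp' ?_ ?_ hφ x
  · intro S₂ F₂ hS₂ hsat₂ hsub hstrict hyp₂ P₂ φ₂ hφ₂ x₂
    haveI : Finite S₂ := finite_of_le hS₂
    have hp₂ : IsPGroup p S₂ := isPGroup_of_le hS' hS₂
    by_cases hc : Nat.card S₂ < n
    · exact ih _ hc Ω S₂ F₂ D rfl hp₂ hsat₂ hyp₂ hφ₂ x₂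
    · have hc' : Nat.card S₂ = n := le_antisymm (by rw [← hn']; exact card_le_S hS₂) (not_lt.1 hc)
      refine ihm _ ?_ S₂ F₂ hc' rfl hp₂ hsat₂ hyp₂ hφ₂ x₂
      rw [← hm]
      exact ncard_mapsOf_lt hsub hstrict
  · intro Ω' _ S₂ _ F₂ D₂ hp₂ hsat₂ hc hyp₂ P₂ φ₂ hφ₂ x₂
    exact ih _ (hn' ▸ hc) Ω' S₂ F₂ D₂ rfl hp₂ hsat₂ hyp₂ hφ₂ x₂

end Cfsg.Agent.Lib.Fusion.FocalControl
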