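/-
For `p ≥ 5`: if `Aut_F(S)` is a `p`-group, `S ≠ 1`, then `foc(F) < S`. By control of transfer `foc(F) = foc(N_F(K_∞(S)))`; then factor out
a nontrivial normal subgroup.
-/
import Mathlib
import Cfsg.Prelude.Def_FusionSystem
import Cfsg.Prelude.Def_FusionReduction
import Cfsg.Agent.Lib.Fusion.FocalControl
import Cfsg.Agent.Lib.Fusion.Abelian
import Cfsg.Agent.Lib.Transfer.KInfControl
import Cfsg.Agent.Lib.PGroup.KInfIso

set_option autoImplicit false

namespace Cfsg.Agent.Lib.Fusion.FocalProper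

open Cfsg Cfsg.FusionSystem Cfsg.Agent.Lib.Fusion.Basic Cfsg.Agent.Lib.Fusion.Saturated
  Cfsg.Agent.Lib.Fusion.NormalCR Cfsg.Agent.Lib.Fusion.Normal Cfsg.Agent.Lib.Fusion.LocalSystems
  Cfsg.Agent.Lib.Fusion.Joins Cfsg.Agent.Lib.Fusion.ModelLocal Cfsg.Agent.Lib.Fusion.CentrNormal
  Cfsg.Agent.Lib.Fusion.CentrFree Cfsg.Agent.Lib.Fusion.GFunctor Cfsg.Agent.Lib.Fusion.QdFree
  Cfsg.Agent.Lib.Fusion.QdFreeFactor Cfsg.Agent.Lib.Fusion.Factor Cfsg.Agent.Lib.Fusion.FactorMorphism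
  Cfsg.Agent.Lib.Fusion.GlaubermanMain Cfsg.Agent.Lib.Fusion.ChainGeneral Cfsg.Agent.Lib.Fusion.Model
  Cfsg.Agent.Lib.Fusion.CenterControl Cfsg.Agent.Lib.Fusion.FocalControl Cfsg.Agent.Lib.Fusion.Abelian
open scoped commutatorElement

universe u

variable {p : ℕ} [Fact p.Prime]

/-- A `p`-group of automorphisms of a nontrivial `p`-group: the commutators lie in a proper subgroup. -/
theorem exists_commutator_proper {T : Type*} [Group T] [Finite T] [Nontrivial T] (hT : IsPGroup p T)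
    (A : Subgroup (MulAut T)) (hA : IsPGroup p A) :
    ∃ D : Subgroup T, D ≠ ⊤ ∧ ∀ x : T, ∀ a ∈ A, x⁻¹ * a x ∈ D := by
  classical
  haveI : Finite (MulAut T) := Finite.of_injective (fun α : MulAut T => (α : T → T)) DFunLike.coe_injective
  let G := SemidirectProduct T A A.subtype
  haveI : Finite G := Finite.of_equiv _ (SemidirectProduct.equivProd (N := T) (G := A) (φ := A.subtype)).symm
  have hG : IsPGroup p G := by
    obtain ⟨n, hn⟩ := IsPGroup.iff_card.1 hT
    obtain ⟨m, hm⟩ := IsPGroup.iff_card.1 hA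
    refine IsPGroup.iff_card.2 ⟨n + m, ?_⟩
    rw [Nat.card_congr (SemidirectProduct.equivProd (N := T) (G := A) (φ := A.subtype)), Nat.card_prod, hn, hm, pow_add]
  haveI : Group.IsNilpotent G := hG.isNilpotent
  let ι : T →* G := SemidirectProduct.inl
  let N : Subgroup G := ι.range
  let D : Subgroup T := (⁅N, ⊤⁆ : Subgroup G).comap ι
  refine ⟨D, ?_, ?_⟩
  · intro hD
    have h1 : N ≤ ⁅N, ⊤⁆ := by
      rintro _ ⟨t, rfl⟩
      have h2 : t ∈ D := hD ▸ Subgroup.mem_top t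
      exact h2
    have h2 : ∀ n, N ≤ (⊤ : Subgroup G).lowerCentralSeries n := by
      intro n
      induction n with
      | zero => exact le_top
      | succ n ih => exact h1.trans (Subgroup.commutator_mono ih le_rfl)
    obtain ⟨n, hn⟩ := nilpotent_iff_lowerCentralSeries.1 (inferInstance : Group.IsNilpotent G)
    have h3 := h2 n
    rw [hn] at h3
    obtain ⟨t, ht⟩ := exists_ne (1 : T)
    apply ht
    have h4 : ι t = 1 := Subgroup.mem_bot.1 (h3 ⟨t, rfl⟩)
    exact SemidirectProduct.inl_injective (h4.trans (map_one ι).symm)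
  · intro x a ha
    refine Subgroup.mem_comap.2 ?_
    have h1 : ι (a x) = (SemidirectProduct.inr ⟨a, ha⟩ : G) * ι x * (SemidirectProduct.inr ⟨a, ha⟩ : G)⁻¹ := by
      rw [← map_inv]
      exact SemidirectProduct.inl_aut (φ := A.subtype) ⟨a, ha⟩ x
    have h2 : ι (x⁻¹ * a x) = ⁅ι x⁻¹, (SemidirectProduct.inr ⟨a, ha⟩ : G)⁆ := by
      rw [map_mul, h1, commutatorElement_def, map_inv, inv_inv]
      group
    rw [h2]
    exact Subgroup.commutator_mem_commutator ⟨_, rfl⟩ (Subgroup.mem_top _)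

variable {Ω : Type u} [Group Ω] {S : Subgroup Ω} {F : FusionSystem S}

/-- The statement of the induction. -/
def InductionHyp (p : ℕ) [Fact p.Prime] (n : ℕ) : Prop :=
  ∀ (Ω' : Type u) [Group Ω'] (S' : Subgroup Ω') [Finite S'] (F' : FusionSystem S'), IsPGroup p S' → F'.IsSaturated p →
    Nat.card S' < n → S' ≠ ⊥ → IsPGroup p (F'.autGroup S') → F'.focalSubgroup < S'

/-- The case of a nontrivial normal subgroup. -/
theorem focal_lt_of_normal [Finite S] (hS : IsPGroup p S) (hF : F.IsSaturated p) {A : Subgroup Ω} (hA : F.IsNormal A)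
    (hA1 : A ≠ ⊥) (haut : IsPGroup p (F.autGroup S)) (IH : InductionHyp.{u} p (Nat.card S)) :
    F.focalSubgroup < S := by
  classical
  have hAS := hA.1
  have hfS : F.focalSubgroup ≤ S := by
    refine (Subgroup.closure_le _).2 ?_
    rintro _ ⟨P, φ, x, hφ, rfl⟩
    exact S.mul_mem (S.inv_mem (source_le hφ x.2)) (map_mem_S hφ x)
  by_cases hSA : S ≤ A
  · have hnt : Nontrivial S := by
      rw [Subgroup.nontrivial_iff_ne_bot]
      rintro rfl
      exact hA1 (le_bot_iff.1 hAS)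
    obtain ⟨D, hD, hDc⟩ := exists_commutator_proper hS (F.autGroup S) haut
    have hle : F.focalSubgroup ≤ D.map S.subtype := by
      refine (Subgroup.closure_le _).2 ?_
      rintro _ ⟨P, φ, x, hφ, rfl⟩
      obtain ⟨ψ, hψ, hag, -⟩ := hA.2 P φ hφ
      have hPS : P ≤ S := source_le hφ
      have e : P ⊔ A = S := le_antisymm (sup_le hPS hAS) (hSA.trans le_sup_right)
      obtain ⟨ψ₁, hψ₁, hψ₁e⟩ := exists_hom_of_eq F e ψ hψ
      have h1 := hDc ⟨x, hPS x.2⟩ _ (autOfTop_mem hψ₁)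
      refine ⟨_, h1, ?_⟩
      have h2 := hψ₁e x ((le_sup_left : P ≤ P ⊔ A) x.2) (hPS x.2)
      have h3 := hag x
      have e2 : (⟨(x : Ω), (le_sup_left : P ≤ P ⊔ A) x.2⟩ : ↥(P ⊔ A)) = Subgroup.inclusion le_sup_left x := rfl
      rw [e2, h3] at h2
      show (((⟨x, hPS x.2⟩ : S)⁻¹ * autOfTop hψ₁ ⟨x, hPS x.2⟩ : S) : Ω) = _
      rw [Subgroup.coe_mul, autOfTop_apply, h2]
      rfl
    refine lt_of_le_of_ne hfS ?_
    intro h
    apply hD
    rw [eq_top_iff]
    intro s _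
    have h2 : (s : Ω) ∈ D.map S.subtype := hle (by rw [h]; exact s.2)
    obtain ⟨d, hd, hde⟩ := h2
    have : d = s := Subtype.ext hde
    rwa [← this]
  -- the factor system
  have hASC := IsNormal.stronglyClosed hA
  have hSNA : S ≤ Subgroup.normalizer (A : Set Ω) := StronglyClosed.le_normalizer hASC
  have hnorm : (A.subgroupOf S).Normal := by
    refine ⟨fun x hx g => ?_⟩
    rw [Subgroup.mem_subgroupOf] at hx ⊢
    exact (Subgroup.mem_normalizer_iff.1 (hSNA g.2) x).1 hx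
  let θ : S →* (S ⧸ A.subgroupOf S) := QuotientGroup.mk' _
  have hker : ∀ s : S, θ s = 1 ↔ (s : Ω) ∈ A := by
    intro s
    rw [show θ s = 1 ↔ s ∈ A.subgroupOf S from QuotientGroup.eq_one_iff s, Subgroup.mem_subgroupOf]
  have hrange : θ.range = ⊤ := QuotientGroup.range_mk' _
  obtain ⟨E, hE⟩ := exists_isFactorSystem F hASC θ hker hrange
  have hsurj := isSurjectiveMorphism_of_isFactorSystem hS hF hASC hE
  have hEs : E.IsSaturated p := Cfsg.Agent.Lib.Fusion.Image.isSaturated_image hS hF hsurj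
  have hfinQ : Finite (S ⧸ A.subgroupOf S) := Finite.of_surjective θ (QuotientGroup.mk'_surjective _)
  have hEp : IsPGroup p (⊤ : Subgroup (S ⧸ A.subgroupOf S)) := by
    have h1 : IsPGroup p (S ⧸ A.subgroupOf S) := IsPGroup.of_surjective hS θ (QuotientGroup.mk'_surjective _)
    exact h1.to_subgroup _
  have hcard : Nat.card (⊤ : Subgroup (S ⧸ A.subgroupOf S)) < Nat.card S := by
    rw [Subgroup.card_top]
    have h1 := Subgroup.card_eq_card_quotient_mul_card_subgroup (A.subgroupOf S)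
    have h2 : Nat.card (A.subgroupOf S) ≠ 1 := by
      intro h
      have h3 := Subgroup.eq_bot_of_card_eq _ h
      apply hA1
      apply le_bot_iff.1
      intro x hx
      have h5 : (⟨x, hAS hx⟩ : S) ∈ A.subgroupOf S := hx
      rw [h3] at h5
      have h6 := Subgroup.mem_bot.1 h5
      exact Subgroup.mem_bot.2 (congrArg Subtype.val h6)
    have h3 : 0 < Nat.card (A.subgroupOf S) := Nat.card_pos
    have h4 : 0 < Nat.card (S ⧸ A.subgroupOf S) := Nat.card_pos
    rw [h1]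
    exact lt_mul_of_one_lt_right h4 (by omega)
  have htop : (⊤ : Subgroup (S ⧸ A.subgroupOf S)) ≠ ⊥ := by
    intro h
    apply hSA
    intro s hs
    have h1 : θ ⟨s, hs⟩ = 1 := by
      have h2 : θ ⟨s, hs⟩ ∈ (⊤ : Subgroup (S ⧸ A.subgroupOf S)) := Subgroup.mem_top _
      rw [h] at h2
      exact Subgroup.mem_bot.1 h2
    exact (hker _).1 h1
  -- the automorphism group of the factor system is a `p`-group
  have hEaut : IsPGroup p (E.autGroup (⊤ : Subgroup (S ⧸ A.subgroupOf S))) := by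
    rintro ⟨β, hβ⟩
    have hβ₁ := autGroup_mem_hom (F := E) le_rfl hβ
    obtain ⟨ψ, hψ, hle, hv, hmem, he⟩ := hsurj.2.2 ⊤ le_rfl _ hβ₁
    have hpre : preimageAlong θ (⊤ : Subgroup (S ⧸ A.subgroupOf S)) = S := by
      apply le_antisymm (preimage_le θ _)
      intro s hs
      exact mem_preimage.2 ⟨hs, Subgroup.mem_top _⟩
    obtain ⟨ψ₁, hψ₁, hψ₁e⟩ := exists_hom_of_eq F hpre ψ hψ
    obtain ⟨n, hn⟩ := haut ⟨autOfTop hψ₁, autOfTop_mem hψ₁⟩
    have hn' : autOfTop hψ₁ ^ p ^ n = 1 := by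
      have := congrArg Subtype.val hn
      simpa using this
    refine ⟨n, Subtype.ext ?_⟩
    show β ^ p ^ n = 1
    -- compatibility
    have hcomp : ∀ s : S, ((β (⟨θ s, Subgroup.mem_top _⟩) : ↥(⊤ : Subgroup (S ⧸ A.subgroupOf S))) : S ⧸ A.subgroupOf S) =
        θ (autOfTop hψ₁ s) := by
      intro s
      have hsR : (s : Ω) ∈ preimageAlong θ (⊤ : Subgroup (S ⧸ A.subgroupOf S)) := mem_preimage.2 ⟨s.2, Subgroup.mem_top _⟩
      have h1 := he ⟨s, hsR⟩
      have h2 : ψ₁ ⟨s, s.2⟩ = ψ ⟨s, hsR⟩ := hψ₁e s hsR s.2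
      have h3 : autOfTop hψ₁ s = ⟨ψ ⟨s, hsR⟩, hv _⟩ := Subtype.ext ((autOfTop_apply hψ₁ s).trans h2)
      rw [h3, ← h1]
      rfl
    have hpow : ∀ (k : ℕ) (s : S), ((β ^ k) (⟨θ s, Subgroup.mem_top _⟩) : ↥(⊤ : Subgroup (S ⧸ A.subgroupOf S))) =
        ⟨θ ((autOfTop hψ₁ ^ k) s), Subgroup.mem_top _⟩ := by
      intro k
      induction k with
      | zero =>
        intro s
        rfl
      | succ k ih =>
        intro s
        rw [pow_succ', MulAut.mul_apply, pow_succ', MulAut.mul_apply, ih]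
        exact Subtype.ext (hcomp _)
    ext y
    obtain ⟨s, hs⟩ := QuotientGroup.mk'_surjective (A.subgroupOf S) (y : S ⧸ A.subgroupOf S)
    have hy : y = ⟨θ s, Subgroup.mem_top _⟩ := Subtype.ext hs.symm
    rw [hy, hpow, hn']
    rfl
  -- the induction
  have hEf := IH _ ⊤ E hEp hEs hcard htop hEaut
  have hmor := hsurj.1
  have hle : F.focalSubgroup ≤ preimageAlong θ E.focalSubgroup := by
    refine (Subgroup.closure_le _).2 ?_
    rintro _ ⟨P, φ, x, hφ, rfl⟩
    obtain ⟨φ', hφ', hle, hv, hP', he⟩ := hmor.2 P φ hφ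
    refine mem_preimage.2 ⟨S.mul_mem (S.inv_mem (hle x.2)) (hv x), ?_⟩
    have e1 := he x
    have e2 : θ ⟨(x : Ω)⁻¹ * φ x, S.mul_mem (S.inv_mem (hle x.2)) (hv x)⟩ =
        (θ ⟨x, hle x.2⟩)⁻¹ * θ ⟨φ x, hv x⟩ := by
      rw [← map_inv, ← map_mul]
      rfl
    rw [e2, ← e1]
    exact Subgroup.subset_closure ⟨_, φ', ⟨_, hP' x⟩, hφ', rfl⟩
  refine lt_of_le_of_ne hfS ?_
  intro h
  apply hEf.ne
  rw [eq_top_iff]
  intro y _
  obtain ⟨s, hs⟩ := QuotientGroup.mk'_surjective (A.subgroupOf S) y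
  have h1 : (s : Ω) ∈ preimageAlong θ E.focalSubgroup := hle (by rw [h]; exact s.2)
  have h2 := (mem_preimage.1 h1).2
  have e : (⟨(s : Ω), s.2⟩ : S) = s := rfl
  rw [e] at h2
  rw [← hs]
  exact h2

theorem transferCond_kInf (hp5 : 5 ≤ p) : TransferCond.{u} p Cfsg.kInfLower := by
  intro G _ _ P _
  have h1 := Cfsg.Agent.Lib.Transfer.KInfControl.controls_at Cfsg.kInfLower (Or.inl rfl) hp5 P
  have hind : Cfsg.inducedFunctor Cfsg.kInfLower (P : Subgroup G) = wOf Cfsg.kInfLower (P : Subgroup G) := rfl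
  rw [hind] at h1
  have hle : (Cfsg.pCore p G : Subgroup G) ≤ P := Cfsg.Agent.Lib.Basic.PCore.pCore_le_sylow P
  have h2 : (commutator ↥(Subgroup.normalizer ((wOf Cfsg.kInfLower (P : Subgroup G) : Subgroup G) : Set G))).map
      (Subgroup.normalizer ((wOf Cfsg.kInfLower (P : Subgroup G) : Subgroup G) : Set G)).subtype =
      ⁅Subgroup.normalizer ((wOf Cfsg.kInfLower (P : Subgroup G) : Subgroup G) : Set G),
        Subgroup.normalizer ((wOf Cfsg.kInfLower (P : Subgroup G) : Subgroup G) : Set G)⁆ := by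
    rw [commutator_def, Subgroup.map_commutator, ← MonoidHom.range_eq_map, Subgroup.range_subtype]
  rw [h2]
  calc (Cfsg.pCore p G : Subgroup G) ⊓ commutator G = (Cfsg.pCore p G : Subgroup G) ⊓ ((P : Subgroup G) ⊓ commutator G) := by
        rw [← inf_assoc, inf_eq_left.2 hle]
    _ = _ := by
        rw [h1, ← inf_assoc, inf_eq_left.2 hle]

theorem isPFunctor_kInf : IsPFunctor.{u} p Cfsg.kInfLower :=
  ⟨(Cfsg.Agent.Lib.PGroup.KInfIso.isCharPFunctor_kInfLower p).1, (Cfsg.Agent.Lib.PGroup.KInfIso.isCharPFunctor_kInfLower p).2⟩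

theorem autGroup_isPGroup_of_le {S₁ S : Subgroup Ω} (e : S₁ = S) {F₁ : FusionSystem S₁} {F : FusionSystem S}
    (hle : ∀ P, F₁.Hom P ⊆ F.Hom P) (h : IsPGroup p (F.autGroup S)) : IsPGroup p (F₁.autGroup S₁) := by
  subst e
  refine h.to_le (Subgroup.closure_mono ?_)
  intro α hα
  exact hle _ hα

/-- **For `p ≥ 5`, if `Aut_F(S)` is a `p`-group and `S ≠ 1`, then `foc(F) < S`.** -/
theorem focal_lt (hp5 : 5 ≤ p) : ∀ (n : ℕ), ∀ (Ω : Type u) [Group Ω] (S : Subgroup Ω) [Finite S] (F : FusionSystem S),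
    IsPGroup p S → F.IsSaturated p → Nat.card S = n → S ≠ ⊥ → IsPGroup p (F.autGroup S) → F.focalSubgroup < S := by
  intro n
  induction n using Nat.strong_induction_on with
  | _ n ih =>
  intro Ω _ S _ F hS hF hn hne haut
  have hW : IsPFunctor.{u} p Cfsg.kInfLower := isPFunctor_kInf
  have hTc := transferCond_kInf.{u} (p := p) hp5
  have IH : InductionHyp.{u} p (Nat.card S) := by
    intro Ω' _ S' _ F' hS' hF' hlt hne' haut'
    exact ih _ (hn ▸ hlt) Ω' S' F' hS' hF' rfl hne' haut'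
  set W₀ := wOf Cfsg.kInfLower S with hW₀
  have hW₀S : W₀ ≤ S := wOf_le S
  have hW₀1 : W₀ ≠ ⊥ := wOf_ne_bot hW hS hne
  have hSN₀ : normalizerIn S W₀ = S := normalizerIn_wOf hW hS
  have hN₁ := normalizerSystem_isNormalizerSystem F W₀ hW₀S
  have hFN : F.IsFullyNormalized W₀ := Cfsg.Agent.Lib.Fusion.ModelF.isFullyNormalized_of_le_normalizer hW₀S (inf_eq_left.1 hSN₀)
  have hsat := Cfsg.Agent.Lib.Fusion.KNormalizer.isSaturated_normalizerSystem hS hF hFN hN₁
  have hsub : ∀ P, (normalizerSystem F W₀ hW₀S).Hom P ⊆ F.Hom P := fun P φ hφ => hφ.1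
  haveI : Finite ↥(normalizerIn S W₀) := hSN₀.symm ▸ inferInstance
  have hS₁ : IsPGroup p ↥(normalizerIn S W₀) := hS.to_le normalizerIn_le
  have hlt₁ : F.focalSubgroup ≤ (normalizerSystem F W₀ hW₀S).focalSubgroup := by
    refine (Subgroup.closure_le _).2 ?_
    rintro _ ⟨P, φ, x, hφ, rfl⟩
    refine focal_of_normalizer hW hTc _ Ω S F _ rfl hS hF ?_ hφ x
    intro P φ hφ x
    exact Subgroup.subset_closure ⟨P, φ, x, by rw [hN₁ P]; exact hφ, rfl⟩
  have hn₁ : (normalizerSystem F W₀ hW₀S).IsNormal W₀ := isNormal_normalizerSystem hW₀S hN₁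
  have := focal_lt_of_normal hS₁ hsat hn₁ hW₀1 (autGroup_isPGroup_of_le hSN₀ hsub haut) (by rw [hSN₀]; exact IH)
  exact (lt_of_le_of_lt hlt₁ this).trans_eq hSN₀

end Cfsg.Agent.Lib.Fusion.FocalProper
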