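/-
Gaschütz-type transfer: for a finite group `G` acting on a finite abelian `p`-group `M` and a subgroup `R` of index
prime to `p`, the fixed points of `G` are a direct factor of the fixed points of `R`.
-/
import Mathlib

set_option autoImplicit false
set_option linter.style.haveILetI false
set_option linter.unusedSectionVars false

namespace Cfsg.Agent.Lib.Fusion.Gaschutz

variable {G M : Type*} [Group G] [CommGroup M]

/-- The fixed points of a subgroup. -/
def fixedBy (ρ : G →* MulAut M) (K : Subgroup G) : Subgroup M where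
  carrier := {a | ∀ g ∈ K, ρ g a = a}
  one_mem' := fun g _ => map_one _
  mul_mem' := by
    intro a b ha hb g hg
    rw [map_mul, ha g hg, hb g hg]
  inv_mem' := by
    intro a ha g hg
    rw [map_inv, ha g hg]

theorem mem_fixedBy {ρ : G →* MulAut M} {K : Subgroup G} {a : M} :
    a ∈ fixedBy ρ K ↔ ∀ g ∈ K, ρ g a = a := Iff.rfl

variable [Finite G]

/-- The transfer. -/
noncomputable def tr (ρ : G →* MulAut M) (R : Subgroup G) [Fintype (G ⧸ R)] (a : M) : M :=
  ∏ c : G ⧸ R, ρ c.out a

theorem tr_mul (ρ : G →* MulAut M) (R : Subgroup G) [Fintype (G ⧸ R)] (a b : M) :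
    tr ρ R (a * b) = tr ρ R a * tr ρ R b := by
  unfold tr
  rw [← Finset.prod_mul_distrib]
  exact Finset.prod_congr rfl fun c _ => map_mul _ _ _

theorem tr_fixed (ρ : G →* MulAut M) (R : Subgroup G) [Fintype (G ⧸ R)] {a : M} (ha : a ∈ fixedBy ρ R) (h : G) :
    ρ h (tr ρ R a) = tr ρ R a := by
  have e : tr ρ R a = ∏ c : G ⧸ R, ρ c.out a := rfl
  rw [e, map_prod]
  have e2 := Equiv.prod_comp (MulAction.toPerm h : Equiv.Perm (G ⧸ R)) (fun c => ρ c.out a)
  rw [← e2]
  refine Finset.prod_congr rfl fun c _ => ?_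
  show ρ h (ρ c.out a) = ρ (h • c).out a
  have h1 : (((h * c.out : G) : G ⧸ R)) = h • c := by
    conv_rhs => rw [← c.out_eq']
    rfl
  have h2 : (((h • c).out : G) : G ⧸ R) = h • c := (h • c).out_eq'
  have h3 : ((h • c).out : G)⁻¹ * (h * c.out) ∈ R := by
    apply QuotientGroup.eq.1
    rw [h1, h2]
  have h4 := ha _ h3
  rw [← MulAut.mul_apply, ← map_mul]
  have e5 : h * c.out = (h • c).out * (((h • c).out : G)⁻¹ * (h * c.out)) := by group
  rw [e5, map_mul, MulAut.mul_apply, h4]

theorem tr_eq_pow (ρ : G →* MulAut M) (R : Subgroup G) [Fintype (G ⧸ R)] {a : M} (ha : a ∈ fixedBy ρ ⊤) :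
    tr ρ R a = a ^ R.index := by
  have e : tr ρ R a = ∏ c : G ⧸ R, ρ c.out a := rfl
  rw [e]
  have h1 : ∀ c : G ⧸ R, ρ c.out a = a := fun c => ha _ (Subgroup.mem_top _)
  simp only [h1, Finset.prod_const, Finset.card_univ]
  rw [Subgroup.index, Nat.card_eq_fintype_card]

/-- **Gaschütz**: the fixed points of `G` are a direct factor of the fixed points of a subgroup of index prime to `p`. -/
theorem exists_fixed_complement [Finite M] {p : ℕ} [hp : Fact p.Prime] (hM : IsPGroup p M) (ρ : G →* MulAut M)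
    (R : Subgroup G) (hR : R.index.Coprime p) :
    ∃ K : Subgroup M, K ≤ fixedBy ρ R ∧ fixedBy ρ ⊤ ⊓ K = ⊥ ∧ fixedBy ρ ⊤ ⊔ K = fixedBy ρ R := by
  classical
  letI : Fintype (G ⧸ R) := Fintype.ofFinite _
  let K : Subgroup M :=
    { carrier := {a | a ∈ fixedBy ρ R ∧ tr ρ R a = 1}
      one_mem' := by
        refine ⟨one_mem _, ?_⟩
        have h := tr_mul ρ R 1 1
        rw [mul_one] at h
        exact left_eq_mul.mp h
      mul_mem' := by
        rintro a b ⟨ha, ha1⟩ ⟨hb, hb1⟩
        refine ⟨mul_mem ha hb, ?_⟩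
        rw [tr_mul, ha1, hb1, one_mul]
      inv_mem' := by
        rintro a ⟨ha, ha1⟩
        refine ⟨inv_mem ha, ?_⟩
        have h := tr_mul ρ R a a⁻¹
        rw [mul_inv_cancel, ha1, one_mul] at h
        have h1 : tr ρ R 1 = 1 := by
          have h2 := tr_mul ρ R 1 1
          rw [mul_one] at h2
          exact left_eq_mul.mp h2
        rw [← h, h1] }
  have htop : fixedBy ρ ⊤ ≤ fixedBy ρ R := fun a ha g _ => ha g (Subgroup.mem_top g)
  refine ⟨K, fun a ha => ha.1, ?_, ?_⟩
  · rw [eq_bot_iff]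
    rintro a ⟨ha1, ha2, ha3⟩
    rw [tr_eq_pow ρ R ha1] at ha3
    obtain ⟨k, hk⟩ := hM a
    have h1 : orderOf a ∣ R.index := orderOf_dvd_of_pow_eq_one ha3
    have h2 : orderOf a ∣ p ^ k := orderOf_dvd_of_pow_eq_one hk
    have h3 : orderOf a = 1 := Nat.eq_one_of_dvd_coprimes (hR.pow_right k) h1 h2
    exact Subgroup.mem_bot.2 (orderOf_eq_one_iff.1 h3)
  · apply le_antisymm
    · exact sup_le htop (fun a ha => ha.1)
    · intro a ha
      set b := tr ρ R a with hb
      have hbG : b ∈ fixedBy ρ ⊤ := fun g _ => tr_fixed ρ R ha g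
      -- an `m`-th root of `b`
      have hcop : (Nat.card M).Coprime R.index := by
        obtain ⟨n, hn⟩ := IsPGroup.iff_card.1 hM
        rw [hn]
        exact (hR.pow_right n).symm
      set c := (powCoprime hcop).symm b with hc
      have hcm : c ^ R.index = b := (powCoprime hcop).apply_symm_apply b
      have hinj : Function.Injective (fun x : M => x ^ R.index) := (powCoprime hcop).injective
      have hcG : c ∈ fixedBy ρ ⊤ := by
        intro g hg
        apply hinj
        show (ρ g c) ^ R.index = c ^ R.index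
        rw [← map_pow, hcm]
        exact hbG g hg
      have hac : a * c⁻¹ ∈ K := by
        refine ⟨mul_mem ha (inv_mem (htop hcG)), ?_⟩
        have h1 := tr_mul ρ R a c⁻¹
        have h2 := tr_eq_pow ρ R (inv_mem hcG)
        rw [h1, h2, inv_pow, hcm]
        exact mul_inv_cancel b
      have e : a = c * (a * c⁻¹) := by
        rw [mul_comm a, mul_inv_cancel_left]
      rw [e]
      exact mul_mem (Subgroup.mem_sup_left hcG) (Subgroup.mem_sup_right hac)

end Cfsg.Agent.Lib.Fusion.Gaschutz
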