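/-
Lifting automorphisms of order prime to `p` modulo a strongly closed subgroup to automorphisms of order prime to `p`.
-/
import Mathlib
import Cfsg.Prelude.Def_FusionComponents
import Cfsg.Agent.Lib.Fusion.Basic
import Cfsg.Agent.Lib.Fusion.Saturated
import Cfsg.Agent.Lib.Fusion.Lift
import Cfsg.Agent.Lib.Fusion.FactorHyperfocal

set_option autoImplicit false
set_option linter.style.haveILetI false

namespace Cfsg.Agent.Lib.Fusion.LiftCoprime

open Cfsg Cfsg.FusionSystem Cfsg.Agent.Lib.Fusion.Basic Cfsg.Agent.Lib.Fusion.Saturated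
open Cfsg.Agent.Lib.Fusion.Factor Cfsg.Agent.Lib.Fusion.Lift Cfsg.Agent.Lib.Fusion.Chain

variable {Ω : Type*} [Group Ω] {S T : Subgroup Ω} {F : FusionSystem S}
variable [Finite S] {p : ℕ} [hp : Fact p.Prime]

/-- An automorphism of `P` of order prime to `p` agrees modulo `T` with an automorphism of `P T` of order prime
to `p`. -/
theorem exists_coprime_lift (hS : IsPGroup p S) (hF : F.IsSaturated p) (hT : F.StronglyClosed T)
    {P : Subgroup Ω} (hPS : P ≤ S) (β : F.autGroup P) (hβ : (orderOf β).Coprime p) :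
    ∃ ρ : F.autGroup (P ⊔ T), (orderOf ρ).Coprime p ∧ ∀ x : P,
      ((((β : MulAut P) x : P) : Ω))⁻¹ * (((ρ : MulAut ↥(P ⊔ T)) (Subgroup.inclusion le_sup_left x) : ↥(P ⊔ T)) : Ω) ∈ T := by
  classical
  have hφ : P.subtype.comp (β : MulAut P).toMonoidHom ∈ F.Hom P := autGroup_mem_hom hPS β.2
  obtain ⟨ψ, hψ, hag⟩ := exists_lift hS hF hT hφ
  have hv : ∀ z, ψ z ∈ P ⊔ T := lift_mem hT hψ hag (Q := P) (fun x => ((β : MulAut P) x).2)
  have hKS : P ⊔ T ≤ S := source_le hψ
  haveI hfK : Finite ↥(P ⊔ T) := finite_of_le hKS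
  have hr : ψ.range = P ⊔ T := range_eq_of_card hψ hv le_rfl
  obtain ⟨a, hval⟩ : ∃ a : MulAut ↥(P ⊔ T), ∀ z, ((a z : ↥(P ⊔ T)) : Ω) = ψ z :=
    ⟨isoOfRange (F.injective_of_mem hψ) hr, fun _ => rfl⟩
  have ha : a ∈ F.autGroup (P ⊔ T) := by
    apply mem_autGroup_of_mem
    have e : (P ⊔ T).subtype.comp a.toMonoidHom = ψ := by
      ext z
      exact hval z
    rw [e]
    exact hψ
  haveI : Finite (MulAut ↥(P ⊔ T)) := finite_mulAut hKS
  haveI : Finite (F.autGroup (P ⊔ T)) := finite_autGroup hKS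
  have hβ' : (orderOf (β : MulAut P)).Coprime p := by rwa [Subgroup.orderOf_coe]
  obtain ⟨u, hu, hc⟩ := Cfsg.Agent.Lib.Fusion.FactorHyperfocal.exists_pow_coprime hp.out
    (⟨a, ha⟩ : F.autGroup (P ⊔ T)) (orderOf_pos _) hβ'
  have hpow : ∀ (k : ℕ) (x : P), ((((β : MulAut P) ^ k) x : P) : Ω)⁻¹ *
      (((a ^ k) (Subgroup.inclusion le_sup_left x) : ↥(P ⊔ T)) : Ω) ∈ T := by
    intro k
    induction k with
    | zero =>
      intro x
      show ((x : P) : Ω)⁻¹ * (x : Ω) ∈ T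
      simp
    | succ k ih =>
      intro x
      have h1 := ih x
      set t := ((((β : MulAut P) ^ k) x : P) : Ω)⁻¹ *
        (((a ^ k) (Subgroup.inclusion le_sup_left x) : ↥(P ⊔ T)) : Ω) with ht
      have e : (a ^ k) (Subgroup.inclusion le_sup_left x) =
          Subgroup.inclusion le_sup_left (((β : MulAut P) ^ k) x) * ⟨t, Subgroup.mem_sup_right h1⟩ := by
        apply Subtype.ext
        show _ = ((((β : MulAut P) ^ k) x : P) : Ω) * t
        rw [ht]
        group
      rw [pow_succ', pow_succ', MulAut.mul_apply, MulAut.mul_apply, e, map_mul]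
      have h2 := hag (((β : MulAut P) ^ k) x)
      have h3 : ((a ⟨t, Subgroup.mem_sup_right h1⟩ : ↥(P ⊔ T)) : Ω) ∈ T := by
        rw [hval]
        exact map_mem_of_stronglyClosed F hT le_sup_right hψ h1
      rw [Subgroup.coe_mul, hval (Subgroup.inclusion le_sup_left _), ← mul_assoc]
      exact T.mul_mem h2 h3
  refine ⟨⟨a, ha⟩ ^ u, hc, fun x => ?_⟩
  have hβu : (β : MulAut P) ^ u = (β : MulAut P) := by
    have := (pow_eq_pow_iff_modEq (x := (β : MulAut P))).2 hu
    simpa using this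
  have h := hpow u x
  rw [hβu] at h
  have e : (((⟨a, ha⟩ : F.autGroup (P ⊔ T)) ^ u : F.autGroup (P ⊔ T)) : MulAut ↥(P ⊔ T)) = a ^ u :=
    SubgroupClass.coe_pow _ _
  rw [e]
  exact h

end Cfsg.Agent.Lib.Fusion.LiftCoprime
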