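/-
The action of the hyperfocal subgroup on a strongly closed subgroup.
-/
import Mathlib
import Cfsg.Prelude.Def_FusionComponents
import Cfsg.Agent.Lib.Fusion.Basic
import Cfsg.Agent.Lib.Fusion.Saturated
import Cfsg.Agent.Lib.Fusion.LiftCoprime
import Cfsg.Agent.Lib.Fusion.Hyperfocal

set_option autoImplicit false
set_option linter.style.haveILetI false

namespace Cfsg.Agent.Lib.Fusion.HyperfocalAction

open Cfsg Cfsg.FusionSystem Cfsg.Agent.Lib.Fusion.Basic Cfsg.Agent.Lib.Fusion.Saturated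
open Cfsg.Agent.Lib.Fusion.Factor Cfsg.Agent.Lib.Fusion.Lift Cfsg.Agent.Lib.Fusion.Chain
open Cfsg.Agent.Lib.Fusion.LiftCoprime Cfsg.Agent.Lib.Fusion.NormalCR

variable {Ω : Type*} [Group Ω] {S T : Subgroup Ω} {F : FusionSystem S}

/-- The elements acting on `T` by conjugation as an element of a given group `A₀` of automorphisms of `T`. -/
def actSubgroup (T : Subgroup Ω) (A₀ : Subgroup (MulAut T)) : Subgroup Ω where
  carrier := {x | ∃ α ∈ A₀, ∀ t : T, ((α t : T) : Ω) = x * t * x⁻¹}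
  one_mem' := ⟨1, one_mem _, fun t => by simp⟩
  mul_mem' := by
    rintro a b ⟨α, hα, h₁⟩ ⟨β, hβ, h₂⟩
    refine ⟨α * β, mul_mem hα hβ, fun t => ?_⟩
    rw [MulAut.mul_apply, h₁, h₂]
    group
  inv_mem' := by
    rintro a ⟨α, hα, h⟩
    refine ⟨α⁻¹, inv_mem hα, fun t => ?_⟩
    have h1 := h (α⁻¹ t)
    have h2 : α (α⁻¹ t) = t := by simp
    rw [h2] at h1
    rw [h1]
    group

variable [Finite S] {p : ℕ} [hp : Fact p.Prime]

/-- The action of the hyperfocal subgroup on a strongly closed subgroup. -/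
theorem hyperfocal_le_act (hS : IsPGroup p S) (hF : F.IsSaturated p) (hT : F.StronglyClosed T) :
    F.hyperfocalSubgroup p ≤ actSubgroup T
      ((pResidual p ↥(F.autGroup T)).map (F.autGroup T).subtype ⊔ Inn ↥T) := by
  classical
  refine Cfsg.Agent.Lib.Fusion.Hyperfocal.hyperfocal_le fun P hPS β hβ x => ?_
  have hTS : T ≤ S := hT.1
  obtain ⟨ρ, hρc, hρ⟩ := exists_coprime_lift hS hF hT hPS β hβ
  have hKS : P ⊔ T ≤ S := sup_le hPS hTS
  have hfT : Finite T := finite_of_le hTS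
  set ρ' : MulAut ↥(P ⊔ T) := (ρ : MulAut ↥(P ⊔ T)) with hρ'
  -- restriction of `ρ` to `T`
  have hg : ((P ⊔ T).subtype.comp ρ'.toMonoidHom).comp (Subgroup.inclusion le_sup_right) ∈ F.Hom T :=
    res_mem (autGroup_mem_hom hKS ρ.2) le_sup_right
  have hgv := hT.2 T le_rfl _ hg
  have hgr := range_eq_of_card hg hgv le_rfl
  obtain ⟨γ, hγv⟩ : ∃ γ : MulAut T, ∀ z : T,
      ((γ z : T) : Ω) = ((ρ' (Subgroup.inclusion le_sup_right z) : ↥(P ⊔ T)) : Ω) :=
    ⟨isoOfRange (F.injective_of_mem hg) hgr, fun _ => rfl⟩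
  have hγ : γ ∈ F.autGroup T := by
    apply mem_autGroup_of_mem
    have e : T.subtype.comp γ.toMonoidHom =
        ((P ⊔ T).subtype.comp ρ'.toMonoidHom).comp (Subgroup.inclusion le_sup_right) := by
      ext z
      exact hγv z
    rw [e]
    exact hg
  have hpowγ : ∀ (k : ℕ) (z : T), (((γ ^ k) z : T) : Ω) =
      (((ρ' ^ k) (Subgroup.inclusion le_sup_right z) : ↥(P ⊔ T)) : Ω) := by
    intro k
    induction k with
    | zero => intro z; rfl
    | succ k ih =>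
      intro z
      rw [pow_succ', pow_succ', MulAut.mul_apply, MulAut.mul_apply, hγv]
      have e : Subgroup.inclusion le_sup_right ((γ ^ k) z) = (ρ' ^ k) (Subgroup.inclusion le_sup_right z) :=
        Subtype.ext (ih z)
      rw [e]
  have hordγ : (orderOf (⟨γ, hγ⟩ : F.autGroup T)).Coprime p := by
    have hd : orderOf (⟨γ, hγ⟩ : F.autGroup T) ∣ orderOf ρ := by
      apply orderOf_dvd_of_pow_eq_one
      apply Subtype.ext
      ext z
      show (((γ ^ orderOf ρ) z : T) : Ω) = z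
      rw [hpowγ]
      have h1 : ρ' ^ orderOf ρ = 1 := by
        rw [hρ', ← SubgroupClass.coe_pow, pow_orderOf_eq_one]
        rfl
      rw [h1]
      rfl
    exact Nat.Coprime.coprime_dvd_left hd hρc
  -- notation
  have hxS : (x : Ω) ∈ S := hPS x.2
  have hxN : (x : Ω) ∈ Subgroup.normalizer (T : Set Ω) := StronglyClosed.le_normalizer hT hxS
  let cA : F.autGroup T := ⟨normConj (x : Ω) hxN, autInducedBy_le_autGroup hTS (normConj_mem_autInducedBy hxS hxN)⟩
  let γA : F.autGroup T := ⟨γ, hγ⟩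
  set y : ↥(P ⊔ T) := ρ' (Subgroup.inclusion le_sup_left x) with hy
  set w : Ω := (((β : MulAut P) x : P) : Ω) with hw
  have ht₀ : w⁻¹ * (y : Ω) ∈ T := hρ x
  let t₀ : T := ⟨w⁻¹ * (y : Ω), ht₀⟩
  have hr₁ : cA⁻¹ * γA * cA ∈ pResidual p (F.autGroup T) := by
    apply Subgroup.subset_closure
    show Nat.Coprime _ p
    have e : orderOf (cA⁻¹ * γA * cA) = orderOf γA := by
      have h1 := orderOf_injective (MulAut.conj cA⁻¹).toMonoidHom (MulAut.conj cA⁻¹).injective γA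
      simpa using h1
    rw [e]
    exact hordγ
  have hr₂ : γA⁻¹ ∈ pResidual p (F.autGroup T) :=
    Subgroup.inv_mem _ (Subgroup.subset_closure hordγ)
  refine ⟨(((cA⁻¹ * γA * cA) * γA⁻¹ : F.autGroup T) : MulAut T) * (MulAut.conj t₀⁻¹),
    Subgroup.mul_mem _ (Subgroup.mem_sup_left ⟨_, Subgroup.mul_mem _ hr₁ hr₂, rfl⟩)
      (Subgroup.mem_sup_right ⟨_, rfl⟩), fun t => ?_⟩
  -- computation
  set s : T := γ⁻¹ (t₀⁻¹ * t * t₀⁻¹⁻¹) with hs
  have hγs : γ s = t₀⁻¹ * t * t₀⁻¹⁻¹ := by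
    rw [hs]
    simp
  have hcs : ((normConj (x : Ω) hxN s : T) : Ω) = x * s * (x : Ω)⁻¹ := rfl
  have hxs : (x : Ω) * s * (x : Ω)⁻¹ ∈ T := (normConj (x : Ω) hxN s).2
  have hact : (((((cA⁻¹ * γA * cA) * γA⁻¹ : F.autGroup T) : MulAut T) * (MulAut.conj t₀⁻¹)) t : T) =
      (normConj (x : Ω) hxN)⁻¹ (γ (normConj (x : Ω) hxN s)) := by
    rfl
  rw [hact]
  -- the image of `x s x⁻¹` under `γ`
  have hγx : ((γ (normConj (x : Ω) hxN s) : T) : Ω) = (y : Ω) * (γ s : T) * (y : Ω)⁻¹ := by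
    rw [hγv, hγv]
    have e : Subgroup.inclusion le_sup_right (normConj (x : Ω) hxN s) =
        Subgroup.inclusion le_sup_left x * Subgroup.inclusion le_sup_right s * (Subgroup.inclusion le_sup_left x)⁻¹ := by
      apply Subtype.ext
      rfl
    rw [e, map_mul, map_mul, map_inv]
    rfl
  -- inverting the conjugation
  set u : T := γ (normConj (x : Ω) hxN s) with hu
  have hinv : (((normConj (x : Ω) hxN)⁻¹ u : T) : Ω) = (x : Ω)⁻¹ * u * x := by
    have h1 := normConj_apply (x : Ω) hxN ((normConj (x : Ω) hxN)⁻¹ u)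
    have h2 : normConj (x : Ω) hxN ((normConj (x : Ω) hxN)⁻¹ u) = u := by simp
    rw [h2] at h1
    rw [h1]
    group
  rw [hinv, hγx, hγs]
  show (x : Ω)⁻¹ * ((y : Ω) * (((t₀ : Ω)⁻¹ * t * (t₀ : Ω)⁻¹⁻¹)) * (y : Ω)⁻¹) * x = _
  have hty : (t₀ : Ω) = w⁻¹ * (y : Ω) := rfl
  rw [hty]
  group

end Cfsg.Agent.Lib.Fusion.HyperfocalAction
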