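/-
Isomorphic transport of fusion systems, continued: centres, simple systems, quasisimple systems.
-/
import Mathlib
import Cfsg.Agent.Lib.Fusion.IsoTr2
import Cfsg.Agent.Lib.Fusion.SecondCenter
import Cfsg.Agent.Lib.Fusion.FactorHyperfocal

set_option autoImplicit false

namespace Cfsg.Agent.Lib.Fusion.IsoTr

open Cfsg Cfsg.FusionSystem Cfsg.Agent.Lib.Fusion.Basic
open Cfsg.Agent.Lib.Fusion.Joins (exists_hom_of_eq)
open Cfsg.Agent.Lib.Fusion.FactorMorphism (preimage_le mem_preimage exists_induced)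

variable {Ω Ω' : Type*} [Group Ω] [Group Ω'] {S : Subgroup Ω} {θ : S →* Ω'}

section center

variable {T : Subgroup Ω} {T' : Subgroup Ω'} {C : FusionSystem T} {E : FusionSystem T'}

theorem Rel.isCentral_up (h : Rel θ C E) (hinj : Function.Injective θ) {Q : Subgroup Ω} (hQ : C.IsCentral Q) :
    E.IsCentral (imageAlong θ Q) := by
  obtain ⟨hQT, hext⟩ := hQ
  refine ⟨?_, fun P' φ' hφ' => ?_⟩
  · rw [← h.img]
    exact image_mono hQT
  · obtain ⟨P, hP, rfl⟩ := h.exists_image hinj (E.le_of_mem hφ').1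
    obtain ⟨φ, hφ, he⟩ := h.down' hinj hP hφ'
    obtain ⟨ψ, hψ, hψ1, hψ2⟩ := hext P φ hφ
    obtain ⟨ψ', hψ', he'⟩ := h.up' hψ
    have ei : imageAlong θ (P ⊔ Q) = imageAlong θ P ⊔ imageAlong θ Q :=
      image_sup (hP.trans h.le) (hQT.trans h.le)
    obtain ⟨ψ'', hψ'', he''⟩ := exists_hom_of_eq E ei ψ' hψ'
    refine ⟨ψ'', hψ'', ?_, ?_⟩
    · rintro ⟨_, s, hs, rfl⟩
      have hsP : (s : Ω) ∈ P := hs
      have hm : (s : Ω) ∈ P ⊔ Q := Subgroup.mem_sup_left hsP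
      have h1 := he' ⟨s, hm⟩ s.2 (h.le ((C.le_of_mem hψ).2 _)) (image_mem _ hm)
      have h2 := he'' (θ s) (image_mem _ hm) (Subgroup.mem_sup_left (image_mem s.2 hsP))
      have h3 := hψ1 ⟨s, hsP⟩
      have h4 := he ⟨s, hsP⟩ s.2 (h.le ((C.le_of_mem hφ).2 _)) (image_mem _ hsP)
      have e1 : ψ ⟨s, hm⟩ = φ ⟨s, hsP⟩ := h3
      have e2 : (⟨ψ ⟨s, hm⟩, h.le ((C.le_of_mem hψ).2 _)⟩ : S) = ⟨φ ⟨s, hsP⟩, h.le ((C.le_of_mem hφ).2 _)⟩ :=
        Subtype.ext e1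
      rw [e2] at h1
      exact h2.trans (h1.trans h4.symm)
    · rintro ⟨_, s, hs, rfl⟩
      have hsQ : (s : Ω) ∈ Q := hs
      have hm : (s : Ω) ∈ P ⊔ Q := Subgroup.mem_sup_right hsQ
      have h1 := he' ⟨s, hm⟩ s.2 (h.le ((C.le_of_mem hψ).2 _)) (image_mem _ hm)
      have h2 := he'' (θ s) (image_mem _ hm) (Subgroup.mem_sup_right (image_mem s.2 hsQ))
      have h3 := hψ2 ⟨s, hsQ⟩
      have e1 : ψ ⟨s, hm⟩ = s := h3
      have e2 : (⟨ψ ⟨s, hm⟩, h.le ((C.le_of_mem hψ).2 _)⟩ : S) = s := Subtype.ext e1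
      rw [e2] at h1
      exact h2.trans h1

variable {S' : Subgroup Ω'} {ρ : S' →* Ω}

theorem center_image [Finite T] [Finite T'] (h : Rel θ C E) (hρ : InvPair θ ρ) :
    E.center = imageAlong θ C.center := by
  apply le_antisymm
  · apply sSup_le
    intro Q' hQ'
    have hQ'T : Q' ≤ T' := hQ'.1
    have hT'S' : T' ≤ S' := (h.symm hρ).le
    have hC := (h.symm hρ).isCentral_up hρ.symm.inj hQ'
    have hle : imageAlong ρ Q' ≤ C.center := le_sSup hC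
    have hr : Q' ≤ θ.range := by
      refine hQ'T.trans ?_
      rw [← h.img]
      exact image_le_range T
    have e : Q' = imageAlong θ (imageAlong ρ Q') := by
      rw [hρ.image_eq (hQ'T.trans hT'S'), image_preimage hr]
    rw [e]
    exact image_mono hle
  · exact le_sSup (h.isCentral_up hρ.inj (Joins.isCentral_center C))

end center

section two

variable {Ω₁ Ω₂ : Type*} [Group Ω₁] [Group Ω₂] {S₁ : Subgroup Ω₁} {S₂ : Subgroup Ω₂} {F : FusionSystem S}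
  {E₁ : FusionSystem S₁} {E₂ : FusionSystem S₂} {S₀ : Subgroup Ω}

/-- Two factor systems modulo the same subgroup: "up". -/
theorem up_two_factors (hS₀ : F.StronglyClosed S₀) {θ₁ : S →* Ω₁} {θ₂ : S →* Ω₂}
    (h₁ : F.IsFactorSystem S₀ θ₁ E₁) (h₂ : F.IsFactorSystem S₀ θ₂ E₂) {τ : S₁ →* Ω₂}
    (hm : ∀ s, θ₁ s ∈ S₁) (hτ : ∀ s, τ ⟨θ₁ s, hm s⟩ = θ₂ s) (hinj : Function.Injective τ)
    {P₁ : Subgroup Ω₁} {φ₁ : P₁ →* Ω₁} (hφ₁ : φ₁ ∈ E₁.Hom P₁) :
    ∃ φ₂ ∈ E₂.Hom (imageAlong τ P₁), InducedAlong τ φ₁ φ₂ := by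
  obtain ⟨-, hker₁, hr₁, hiff₁⟩ := h₁
  obtain ⟨-, hker₂, hr₂, hiff₂⟩ := h₂
  obtain ⟨hP₁, φ, hφ, hle, hv, hmem, he⟩ := (hiff₁ P₁ φ₁).1 hφ₁
  have hP₂r : imageAlong τ P₁ ≤ θ₂.range := by
    rintro _ ⟨z, -, rfl⟩
    have hz : (z : Ω₁) ∈ θ₁.range := hr₁.ge z.2
    obtain ⟨s, hs⟩ := hz
    refine ⟨s, ?_⟩
    rw [← hτ s]
    congr 1
    exact Subtype.ext hs
  have ep : preimageAlong θ₁ P₁ = preimageAlong θ₂ (imageAlong τ P₁) := by
    ext x
    rw [mem_preimage, mem_preimage]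
    constructor
    · rintro ⟨hS, hx⟩
      refine ⟨hS, ?_⟩
      rw [← hτ]
      exact image_mem _ hx
    · rintro ⟨hS, hx⟩
      refine ⟨hS, ?_⟩
      rw [← hτ] at hx
      exact mem_of_image_mem hinj hx
  obtain ⟨φ₂', hφ₂', he₂'⟩ := exists_hom_of_eq F ep φ hφ
  obtain ⟨φ₂, hind⟩ := exists_induced hS₀ hker₂ hP₂r hφ₂'
  have hmem₂ := (hiff₂ _ φ₂).2 ⟨hr₂ ▸ hP₂r, φ₂', hφ₂', hind⟩
  refine ⟨φ₂, hmem₂, hP₁, ?_, fun x => image_mem _ x.2, ?_⟩
  · intro x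
    have hx : (x : Ω₁) ∈ θ₁.range := hr₁.ge (hP₁ x.2)
    obtain ⟨s, hs⟩ := hx
    have hsp : (s : Ω) ∈ preimageAlong θ₁ P₁ := mem_preimage.2 ⟨s.2, by
      show θ₁ s ∈ P₁
      rw [hs]
      exact x.2⟩
    have h1 := he ⟨s, hsp⟩
    have e1 : (⟨θ₁ ⟨s, hle hsp⟩, hmem ⟨s, hsp⟩⟩ : P₁) = x := Subtype.ext hs
    rw [e1] at h1
    rw [h1]
    exact hm _
  · intro x
    have hx : (x : Ω₁) ∈ θ₁.range := hr₁.ge (hP₁ x.2)
    obtain ⟨s, hs⟩ := hx
    have hsp : (s : Ω) ∈ preimageAlong θ₁ P₁ := mem_preimage.2 ⟨s.2, by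
      show θ₁ s ∈ P₁
      rw [hs]
      exact x.2⟩
    have hsp₂ : (s : Ω) ∈ preimageAlong θ₂ (imageAlong τ P₁) := ep ▸ hsp
    obtain ⟨hle₂, hv₂, hmem₂', he₂⟩ := hind
    have h1 := he ⟨s, hsp⟩
    have e1 : (⟨θ₁ ⟨s, hle hsp⟩, hmem ⟨s, hsp⟩⟩ : P₁) = x := Subtype.ext hs
    rw [e1] at h1
    have h2 := he₂ ⟨s, hsp₂⟩
    have h3 : φ₂' ⟨s, hsp₂⟩ = φ ⟨s, hsp⟩ := he₂' s hsp hsp₂
    have e2 : (⟨φ₂' ⟨s, hsp₂⟩, hv₂ _⟩ : S) = ⟨φ ⟨s, hsp⟩, hv _⟩ := Subtype.ext h3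
    rw [e2] at h2
    have e3 : (⟨τ ⟨x, hP₁ x.2⟩, image_mem _ x.2⟩ : ↥(imageAlong τ P₁)) = ⟨θ₂ ⟨s, hle₂ hsp₂⟩, hmem₂' ⟨s, hsp₂⟩⟩ := by
      apply Subtype.ext
      show τ ⟨x, hP₁ x.2⟩ = θ₂ s
      rw [← hτ s]
      congr 1
      exact Subtype.ext hs.symm
    rw [e3, h2, ← hτ]
    congr 1
    exact Subtype.ext h1.symm

/-- Two factor systems modulo the same subgroup are images of each other. -/
theorem rel_two_factors (hS₀ : F.StronglyClosed S₀) {θ₁ : S →* Ω₁} {θ₂ : S →* Ω₂}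
    (h₁ : F.IsFactorSystem S₀ θ₁ E₁) (h₂ : F.IsFactorSystem S₀ θ₂ E₂) {τ : S₁ →* Ω₂} {σ : S₂ →* Ω₁}
    (hpair : InvPair τ σ) (hm : ∀ s, θ₁ s ∈ S₁) (hτ : ∀ s, τ ⟨θ₁ s, hm s⟩ = θ₂ s) : Rel τ E₁ E₂ := by
  have hm₂ : ∀ s, θ₂ s ∈ S₂ := fun s => by
    rw [← hτ]
    exact hpair.mem₁ _
  have hσ : ∀ s, σ ⟨θ₂ s, hm₂ s⟩ = θ₁ s := by
    intro s
    have e : (⟨θ₂ s, hm₂ s⟩ : S₂) = ⟨τ ⟨θ₁ s, hm s⟩, hpair.mem₁ _⟩ := Subtype.ext (hτ s).symm
    rw [e, hpair.eq₁]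
  refine rel_of_up_up hpair le_rfl ?_ (up_two_factors hS₀ h₁ h₂ hm hτ hpair.inj)
    (up_two_factors hS₀ h₂ h₁ hm₂ hσ hpair.symm.inj)
  ext y
  rw [mem_image]
  constructor
  · rintro ⟨x, hS, -, rfl⟩
    exact hpair.mem₁ _
  · intro hy
    exact ⟨_, hpair.mem₂ ⟨y, hy⟩, hpair.mem₂ ⟨y, hy⟩, hpair.eq₂ ⟨y, hy⟩⟩

/-- A factor system of an image, read back. -/
theorem factor_comp {T : Subgroup Ω} {T' : Subgroup Ω'} {C : FusionSystem T} {E : FusionSystem T'} {γ : T →* Ω'}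
    (h : Rel γ C E) (hinj : Function.Injective γ) {Z : Subgroup Ω} {Z' : Subgroup Ω'}
    {q : T' →* Ω₂} (hq : E.IsFactorSystem Z' q E₂) (hv : ∀ s : T, γ s ∈ T') (hZ : Z ≤ T)
    (hZZ : ∀ s : T, (s : Ω) ∈ Z ↔ γ s ∈ Z') {ε : T →* Ω₂} (hε : ∀ s, ε s = q ⟨γ s, hv s⟩) :
    C.IsFactorSystem Z ε E₂ := by
  obtain ⟨-, hker, hr, hiff⟩ := hq
  have hT' : ∀ y : T', ∃ s : T, γ s = y := by
    intro y
    have hy : (y : Ω') ∈ imageAlong γ T := by
      rw [h.img]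
      exact y.2
    obtain ⟨s, -, hs⟩ := hy
    exact ⟨s, hs⟩
  have hpre : ∀ Pb : Subgroup Ω₂, imageAlong γ (preimageAlong ε Pb) = preimageAlong q Pb := by
    intro Pb
    ext y
    rw [mem_image, mem_preimage]
    constructor
    · rintro ⟨x, hS, hx, rfl⟩
      obtain ⟨_, hxm⟩ := mem_preimage.1 hx
      refine ⟨hv _, ?_⟩
      rw [← hε]
      exact hxm
    · rintro ⟨hy, hq'⟩
      obtain ⟨s, hs⟩ := hT' ⟨y, hy⟩
      subst hs
      refine ⟨s, s.2, mem_preimage.2 ⟨s.2, ?_⟩, rfl⟩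
      show ε s ∈ Pb
      rw [hε]
      exact hq'
  have hPT : ∀ Pb : Subgroup Ω₂, preimageAlong ε Pb ≤ T := fun Pb => preimage_le ε Pb
  refine ⟨hZ, fun s => ?_, ?_, fun Pb φb => ?_⟩
  · rw [hε, hker, hZZ]
  · rw [← hr]
    ext y
    constructor
    · rintro ⟨s, rfl⟩
      exact ⟨⟨γ s, hv s⟩, (hε s).symm⟩
    · rintro ⟨y', rfl⟩
      obtain ⟨s, hs⟩ := hT' y'
      refine ⟨s, ?_⟩
      rw [hε]
      congr 1
      exact Subtype.ext hs
  · rw [hiff]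
    constructor
    · rintro ⟨hPb, φ', hφ', hle, hvv, hmem, he⟩
      obtain ⟨φ'', hφ'', he''⟩ := exists_hom_of_eq E (hpre Pb).symm φ' hφ'
      obtain ⟨φ, hφ, hφe⟩ := h.down' hinj (hPT Pb) hφ''
      refine ⟨hPb, φ, hφ, hPT Pb, (C.le_of_mem hφ).2, fun x => (mem_preimage.1 x.2).2, fun x => ?_⟩
      have hxS : (x : Ω) ∈ T := hPT Pb x.2
      have hm : γ ⟨x, hxS⟩ ∈ preimageAlong q Pb := (hpre Pb) ▸ image_mem hxS x.2
      have h1 := he ⟨_, hm⟩
      have h2 := he'' _ hm (image_mem hxS x.2)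
      have h3 := hφe x hxS ((C.le_of_mem hφ).2 x) (image_mem hxS x.2)
      have e1 : (⟨φ' ⟨_, hm⟩, hvv _⟩ : T') = ⟨γ ⟨φ x, (C.le_of_mem hφ).2 x⟩, hv _⟩ :=
        Subtype.ext (h2.symm.trans h3)
      rw [e1] at h1
      have e2 : (⟨ε ⟨x, hxS⟩, (mem_preimage.1 x.2).2⟩ : Pb) = ⟨q ⟨γ ⟨x, hxS⟩, hle hm⟩, hmem ⟨_, hm⟩⟩ :=
        Subtype.ext (hε _)
      rw [e2, hε]
      exact h1
    · rintro ⟨hPb, φ, hφ, hle, hvv, hmem, he⟩
      obtain ⟨φ₁, hφ₁, he₁⟩ := h.up' hφ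
      obtain ⟨φ₂, hφ₂, he₂⟩ := exists_hom_of_eq E (hpre Pb) φ₁ hφ₁
      refine ⟨hPb, φ₂, hφ₂, preimage_le q Pb, (E.le_of_mem hφ₂).2, fun x => (mem_preimage.1 x.2).2, fun x => ?_⟩
      obtain ⟨y, hy⟩ := x
      have hy' : y ∈ imageAlong γ (preimageAlong ε Pb) := (hpre Pb).ge hy
      obtain ⟨s, hs, rfl⟩ := hy'
      have hsP : (s : Ω) ∈ preimageAlong ε Pb := hs
      have h1 := he ⟨s, hsP⟩
      have hvs : φ ⟨s, hsP⟩ ∈ T := (C.le_of_mem hφ).2 _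
      have h2 := he₁ ⟨s, hsP⟩ s.2 hvs (image_mem _ hsP)
      have h3 := he₂ (γ s) (image_mem _ hsP) hy
      have e1 : (⟨q ⟨γ s, preimage_le q Pb hy⟩, (mem_preimage.1 hy).2⟩ : Pb) = ⟨ε ⟨s, hle hsP⟩, hmem ⟨s, hsP⟩⟩ :=
        Subtype.ext (hε _).symm
      have e2 : (⟨φ₂ ⟨γ s, hy⟩, (E.le_of_mem hφ₂).2 _⟩ : T') = ⟨γ ⟨φ ⟨s, hsP⟩, hvs⟩, hv _⟩ :=
        Subtype.ext (h3.trans h2)
      show φb ⟨q ⟨γ s, preimage_le q Pb hy⟩, (mem_preimage.1 hy).2⟩ = q ⟨φ₂ ⟨γ s, hy⟩, (E.le_of_mem hφ₂).2 _⟩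
      rw [e1, e2, h1, hε]

end two

section simple

variable {S' : Subgroup Ω'} {ρ : S' →* Ω} {E₁ : FusionSystem S} {E₂ : FusionSystem S'}

/-- **Simplicity transports** along an isomorphism. -/
theorem Rel.isSimple [Finite S'] (h : Rel θ E₁ E₂) (hp : InvPair θ ρ) {p : ℕ} [Fact p.Prime]
    (hs : E₁.IsSimple p) : E₂.IsSimple p := by
  obtain ⟨hsat, hne, hnorm⟩ := hs
  refine ⟨h.isSaturated hp.inj hsat, ?_, ?_⟩
  · intro hbot
    apply hne
    rw [eq_bot_iff]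
    intro x hx
    have h1 : θ ⟨x, hx⟩ ∈ S' := hp.mem₁ _
    rw [hbot, Subgroup.mem_bot] at h1
    have h2 := hp.inj (h1.trans (map_one θ).symm)
    rw [Subgroup.mem_bot]
    exact congrArg Subtype.val h2
  · intro R₀ R hR
    have hR₀ : R₀ ≤ S' := hR.1.2.2.2.1.1
    obtain ⟨R', hR'⟩ := exists_rel (θ := ρ) hp.symm.inj hR₀ R
    have hsym := h.symm hp
    have hn' := hR'.isNormalIn hsym hp.symm.inj hR
    rcases hnorm _ R' hn' with hb | ⟨he, hhom⟩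
    · left
      rw [eq_bot_iff]
      intro y hy
      have h1 : ρ ⟨y, hR₀ hy⟩ ∈ imageAlong ρ R₀ := image_mem _ hy
      rw [hb, Subgroup.mem_bot] at h1
      have h2 := hp.symm.inj (h1.trans (map_one ρ).symm)
      rw [Subgroup.mem_bot]
      exact congrArg Subtype.val h2
    · right
      have hRS : R₀ = S' := by
        refine le_antisymm hR₀ fun y hy => ?_
        have h1 : ρ ⟨y, hy⟩ ∈ imageAlong ρ R₀ := he.ge (hp.mem₂ _)
        exact mem_of_image_mem hp.symm.inj h1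
      refine ⟨hRS, fun P => ?_⟩
      have hR'' : Rel ρ R E₁ := by
        refine ⟨hR₀, he, fun hφ => ?_, fun hφ' => ?_⟩
        · obtain ⟨φ', hφ', hi⟩ := hR'.up hφ
          exact ⟨φ', hhom _ ▸ hφ', hi⟩
        · obtain ⟨φ, hφ, hi⟩ := hR'.down ((hhom _).symm ▸ hφ')
          exact ⟨φ, hφ, hi⟩
      have hR3 := hR''.symm hp.symm
      exact Set.Subset.antisymm (hR.1.2.2.1 P) (h.hom_eq hR3 hp.inj P)

end simple

section restrict

variable {T : Subgroup Ω} {T' : Subgroup Ω'} {E : FusionSystem T} {E' : FusionSystem T'}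

/-- Restricting `θ` to the group of `E`. -/
theorem Rel.restrict (h : Rel θ E E') (hinj : Function.Injective θ) :
    Rel (θ.comp (Subgroup.inclusion h.le)) E E' := by
  have hTS := h.le
  have eimg : ∀ {P : Subgroup Ω}, P ≤ T → imageAlong θ P = imageAlong (θ.comp (Subgroup.inclusion hTS)) P := by
    intro P hP
    ext y
    rw [mem_image, mem_image]
    constructor
    · rintro ⟨x, hS, hx, rfl⟩
      exact ⟨x, hP hx, hx, rfl⟩
    · rintro ⟨x, hS, hx, rfl⟩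
      exact ⟨x, hTS hS, hx, rfl⟩
  have epre : ∀ {P' : Subgroup Ω'}, P' ≤ T' →
      preimageAlong θ P' = preimageAlong (θ.comp (Subgroup.inclusion hTS)) P' := by
    intro P' hP'
    ext x
    rw [mem_preimage, mem_preimage]
    constructor
    · rintro ⟨hS, hx⟩
      have h1 : θ ⟨x, hS⟩ ∈ imageAlong θ T := by
        rw [h.img]
        exact hP' hx
      exact ⟨mem_of_image_mem hinj h1, hx⟩
    · rintro ⟨hS, hx⟩
      exact ⟨hTS hS, hx⟩
  refine ⟨le_rfl, ?_, ?_, ?_⟩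
  · rw [← eimg le_rfl, h.img]
  · intro P φ hφ
    obtain ⟨φ', hφ', hle, hv, hmem, he⟩ := h.up hφ
    have hPT := (E.le_of_mem hφ).1
    obtain ⟨φ₂, hφ₂, he₂⟩ := exists_hom_of_eq E' (eimg hPT) φ' hφ'
    refine ⟨φ₂, hφ₂, hPT, (E.le_of_mem hφ).2, fun x => image_mem _ x.2, fun x => ?_⟩
    exact (he₂ _ (hmem x) _).trans (he x)
  · intro P' φ' hφ'
    obtain ⟨φ, hφ, hle, hv, hmem, he⟩ := h.down hφ'
    obtain ⟨φ₂, hφ₂, he₂⟩ := exists_hom_of_eq E (epre (E'.le_of_mem hφ').1) φ hφ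
    refine ⟨φ₂, hφ₂, preimage_le _ _, (E.le_of_mem hφ₂).2, fun x => (mem_preimage.1 x.2).2, fun x => ?_⟩
    have hx : (x : Ω) ∈ preimageAlong θ P' := (epre (E'.le_of_mem hφ').1).ge x.2
    have h1 := he ⟨x, hx⟩
    have h2 := he₂ x hx x.2
    have e : (⟨φ ⟨x, hx⟩, hv _⟩ : S) = ⟨φ₂ x, hTS ((E.le_of_mem hφ₂).2 x)⟩ := Subtype.ext h2.symm
    rw [e] at h1
    exact h1

end restrict

section quasi

variable {T : Subgroup Ω} {T' : Subgroup Ω'} {C : FusionSystem T} {E : FusionSystem T'} {γ : T →* Ω'}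

/-- **Quasisimplicity transports** along an injective map. -/
theorem Rel.quasisimple [Finite T] (h : Rel γ C E) (hinj : Function.Injective γ) {p : ℕ} [Fact p.Prime]
    (hS : IsPGroup p T) (hC : C.Quasisimple p) : E.Quasisimple p := by
  obtain ⟨hsat, hhyp, hsimple⟩ := hC
  have hr : γ.range = T' := by
    rw [← h.img]
    ext y
    constructor
    · rintro ⟨s, rfl⟩
      exact ⟨s, s.2, rfl⟩
    · rintro ⟨s, -, rfl⟩
      exact ⟨s, rfl⟩
  haveI : Finite T' := by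
    subst hr
    exact Finite.of_surjective _ γ.rangeRestrict_surjective
  obtain ⟨ρ, hρ⟩ := exists_invPair hinj hr
  refine ⟨h.isSaturated hinj hsat, ?_, ?_⟩
  · have h1 := FactorHyperfocal.hyperfocal_factor hS hsat (bot_stronglyClosed C) (h.isFactorSystem hinj)
    rw [h1, hhyp]
    exact h.img
  · intro Eb hEb
    have hZ := center_image h hρ
    have hZC : C.IsCentral C.center := Joins.isCentral_center C
    have hZSC := SecondCenter.IsCentral.stronglyClosed hZC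
    let qc : T →* T ⧸ (C.center.subgroupOf T) := QuotientGroup.mk' _
    have hkerc : ∀ s : T, qc s = 1 ↔ (s : Ω) ∈ C.center := fun s => by
      show ((s : T) : T ⧸ (C.center.subgroupOf T)) = 1 ↔ _
      rw [QuotientGroup.eq_one_iff, Subgroup.mem_subgroupOf]
    have hrc : qc.range = ⊤ := MonoidHom.range_eq_top.2 (QuotientGroup.mk'_surjective _)
    obtain ⟨Cb, hCb⟩ := Factor.exists_isFactorSystem C hZSC qc hkerc hrc
    have hCbs := hsimple Cb hCb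
    have hv : ∀ s : T, γ s ∈ T' := fun s => hr ▸ ⟨s, rfl⟩
    let qe : T' →* T' ⧸ (E.center.subgroupOf T') := QuotientGroup.mk' _
    let ε : T →* T' ⧸ (E.center.subgroupOf T') := qe.comp (γ.codRestrict T' hv)
    have hZZ : ∀ s : T, (s : Ω) ∈ C.center ↔ γ s ∈ E.center := fun s => by
      rw [hZ]
      exact ⟨fun hs => image_mem _ hs, mem_of_image_mem hinj⟩
    have hε : C.IsFactorSystem C.center ε Eb := factor_comp h hinj hEb hv hZC.1 hZZ (fun s => rfl)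
    have hkerε : ∀ s : T, ε s = 1 ↔ (s : Ω) ∈ C.center := hε.2.1
    have hlift : ∀ z ∈ C.center.subgroupOf T, ε z = 1 := fun z hz => (hkerε z).2 hz
    let τ₀ := QuotientGroup.lift (C.center.subgroupOf T) ε hlift
    let τ : (⊤ : Subgroup (T ⧸ (C.center.subgroupOf T))) →* T' ⧸ (E.center.subgroupOf T') :=
      τ₀.comp (⊤ : Subgroup (T ⧸ (C.center.subgroupOf T))).subtype
    have hτ₀inj : Function.Injective τ₀ := by
      rw [injective_iff_map_eq_one]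
      intro x hx
      obtain ⟨a, rfl⟩ := QuotientGroup.mk_surjective x
      have h1 : ε a = 1 := hx
      exact (QuotientGroup.eq_one_iff a).2 ((hkerε a).1 h1)
    have hτinj : Function.Injective τ := hτ₀inj.comp (Subgroup.subtype_injective _)
    have hτr : τ.range = ⊤ := by
      rw [MonoidHom.range_eq_top]
      intro y
      obtain ⟨y, rfl⟩ := QuotientGroup.mk_surjective y
      have hy : (y : Ω') ∈ γ.range := hr.ge y.2
      obtain ⟨s, hs⟩ := hy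
      refine ⟨⟨((s : T) : T ⧸ (C.center.subgroupOf T)), trivial⟩, ?_⟩
      show ε s = _
      show ((⟨γ s, hv s⟩ : T') : T' ⧸ (E.center.subgroupOf T')) = _
      congr 1
      exact Subtype.ext hs
    obtain ⟨σ, hσ⟩ := exists_invPair hτinj hτr
    have hrel : Rel τ Cb Eb := rel_two_factors hZSC hCb hε hσ (fun _ => trivial) (fun s => rfl)
    exact hrel.isSimple hσ hCbs

end quasi

section component

variable [Finite S] {T U : Subgroup Ω} {T' U' : Subgroup Ω'} {C : FusionSystem T} {E : FusionSystem T'}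
  {F : FusionSystem U} {F' : FusionSystem U'}

/-- **Components transport along an injective map.** -/
theorem Rel.isComponentIn (hC : Rel θ C E) (hF : Rel θ F F') (hinj : Function.Injective θ) {p : ℕ}
    [Fact p.Prime] (hU : IsPGroup p U) (h : C.IsComponentIn F p) : E.IsComponentIn F' p := by
  have hTU : T ≤ U := le_of_subnormal h.1
  haveI : Finite T := Finite.of_injective _ (Subgroup.inclusion_injective (hTU.trans hF.le))
  exact ⟨isSubnormal_image h.1 inferInstance hinj hC hF,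
    (hC.restrict hinj).quasisimple (hinj.comp (Subgroup.inclusion_injective hC.le)) (hU.to_le hTU) h.2⟩

end component

/-- **Conjugates of components are components.** -/
theorem isComponentIn_conj {T U : Subgroup Ω} {C : FusionSystem T} {F : FusionSystem U} {T' : Subgroup Ω}
    {E : FusionSystem T'} {γ : T →* Ω} [Finite U] {p : ℕ} [Fact p.Prime] (hU : IsPGroup p U)
    (hC : C.IsComponentIn F p) (hγ : γ ∈ F.Hom T) (hE : C.IsFactorSystem ⊥ γ E) : E.IsComponentIn F p := by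
  have hinj : Function.Injective γ := F.injective_of_mem hγ
  have hrel := rel_of_factor_top hinj hE
  have hTS : T ≤ U := (F.le_of_mem hγ).1
  haveI : Finite T := Finite.of_injective _ (Subgroup.inclusion_injective hTS)
  exact ⟨isSubnormal_conj hC.1 inferInstance inferInstance γ hγ hrel,
    hrel.quasisimple hinj (hU.to_le hTS) hC.2⟩

section layer

variable {U : Subgroup Ω} {F : FusionSystem U} [Finite U] {p : ℕ} [Fact p.Prime]

/-- **The layer is characteristic.** -/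
theorem layer_char (hU : IsPGroup p U) (α : ↥U ≃* ↥U)
    (hα : F.IsMorphism F (U.subtype.comp α.toMonoidHom))
    (hα' : F.IsMorphism F (U.subtype.comp α.symm.toMonoidHom)) {T : Subgroup Ω} {E : FusionSystem T}
    (hE : E.IsLayerOf F p) :
    imageAlong (U.subtype.comp α.toMonoidHom) T = T ∧
      ∀ (P : Subgroup Ω) (φ : ↥P →* Ω), φ ∈ E.Hom P →
        ∀ φ' : ↥(imageAlong (U.subtype.comp α.toMonoidHom) P) →* Ω,
          InducedAlong (U.subtype.comp α.toMonoidHom) φ φ' →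
            φ' ∈ E.Hom (imageAlong (U.subtype.comp α.toMonoidHom) P) := by
  have hpair : InvPair (U.subtype.comp α.toMonoidHom) (U.subtype.comp α.symm.toMonoidHom) := by
    refine ⟨fun s => (α s).2, fun s => ?_, fun y => (α.symm y).2, fun y => ?_⟩
    · show ((α.symm ⟨(α s : U), (α s).2⟩ : U) : Ω) = s
      simp
    · show ((α ⟨(α.symm y : U), (α.symm y).2⟩ : U) : Ω) = y
      simp
  have hinj₁ := hpair.inj
  have hinj₂ := hpair.symm.inj
  have himg : imageAlong (U.subtype.comp α.toMonoidHom) U = U := by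
    ext y
    rw [mem_image]
    constructor
    · rintro ⟨x, hS, -, rfl⟩
      exact (α ⟨x, hS⟩).2
    · intro hy
      exact ⟨_, (α.symm ⟨y, hy⟩).2, (α.symm ⟨y, hy⟩).2, by
        show ((α (α.symm ⟨y, hy⟩) : U) : Ω) = y
        simp⟩
  have hF₁ : Rel (U.subtype.comp α.toMonoidHom) F F :=
    rel_of_up_up hpair le_rfl himg (fun {P φ} hφ => hα.2 P φ hφ) (fun {P φ} hφ => hα'.2 P φ hφ)
  have hF₂ := hF₁.symm hpair
  have hTU : T ≤ U := hE.1.1.2.2.2.1.1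
  obtain ⟨E₁, hE₁⟩ := exists_rel hinj₁ hTU E
  obtain ⟨E₂, hE₂⟩ := exists_rel hinj₂ hTU E
  have hn₁ := hE₁.isNormalIn hF₁ hinj₁ hE.1
  have hn₂ := hE₂.isNormalIn hF₂ hinj₂ hE.1
  have hcomp₁ : ∀ (R : Subgroup Ω) (C : FusionSystem R), C.IsComponentIn F p → C.IsSubsystemOf E₁ := by
    intro R C hC
    have hRU : R ≤ U := le_of_subnormal hC.1
    obtain ⟨C₀, hC₀⟩ := exists_rel hinj₂ hRU C
    have h1 := hC₀.isComponentIn hF₂ hinj₂ hU hC
    have h2 := hE.2.1 _ C₀ h1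
    exact (hC₀.symm hpair.symm).isSubsystem hE₁ hinj₁ h2
  have hcomp₂ : ∀ (R : Subgroup Ω) (C : FusionSystem R), C.IsComponentIn F p → C.IsSubsystemOf E₂ := by
    intro R C hC
    have hRU : R ≤ U := le_of_subnormal hC.1
    obtain ⟨C₀, hC₀⟩ := exists_rel hinj₁ hRU C
    have h1 := hC₀.isComponentIn hF₁ hinj₁ hU hC
    have h2 := hE.2.1 _ C₀ h1
    exact (hC₀.symm hpair).isSubsystem hE₂ hinj₂ h2
  have hle₁ : E.IsSubsystemOf E₁ := hE.2.2 _ E₁ hn₁ hcomp₁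
  have hle₂ : E.IsSubsystemOf E₂ := hE.2.2 _ E₂ hn₂ hcomp₂
  have hT1 : T ≤ imageAlong (U.subtype.comp α.toMonoidHom) T :=
    (E₁.le_of_mem (hle₁ T (E.conj_mem le_rfl T.one_mem))).1
  constructor
  · haveI : Finite T := Finite.of_injective _ (Subgroup.inclusion_injective hTU)
    have hc : Nat.card ↥(imageAlong (U.subtype.comp α.toMonoidHom) T) = Nat.card T := by
      unfold imageAlong
      rw [Nat.card_congr (Subgroup.equivMapOfInjective _ _ hinj₁).toEquiv.symm]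
      exact Nat.card_congr (Subgroup.subgroupOfEquivOfLe hTU).toEquiv
    haveI : Finite ↥(imageAlong (U.subtype.comp α.toMonoidHom) T) :=
      Nat.finite_of_card_ne_zero (by rw [hc]; exact Nat.card_pos.ne')
    exact (Subgroup.eq_of_le_of_card_ge hT1 hc.le).symm
  · intro P φ hφ φ' hind
    have hφ₂ := hle₂ P hφ
    obtain ⟨φ'', hφ'', hind'⟩ := (hE₂.symm hpair.symm).up hφ₂
    have : φ' = φ'' := by
      obtain ⟨hle, hv, hmem, he⟩ := hind
      obtain ⟨hle', hv', hmem', he'⟩ := hind'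
      apply hom_ext_image
      intro x hx hS hx'
      exact (he ⟨x, hx⟩).trans (he' ⟨x, hx⟩).symm
    rw [this]
    exact hφ''

end layer

end Cfsg.Agent.Lib.Fusion.IsoTr
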