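/-
The hyperfocal subgroup of a subsystem of `p`-power index, and uniqueness of residual limits.
-/
import Mathlib
import Cfsg.Prelude.Def_FusionReduction
import Cfsg.Agent.Lib.Fusion.PTheta5
import Cfsg.Agent.Lib.Fusion.PPrime3

set_option autoImplicit false

namespace Cfsg.Agent.Lib.Fusion.Limit

open Cfsg Cfsg.FusionSystem Cfsg.Agent.Lib.Fusion.Basic Cfsg.Agent.Lib.Fusion.Saturated
open Cfsg.Agent.Lib.Fusion.Saturated2 (autOfHom autOfHom_coe autOfHom_mem)

section Comm

variable {G : Type*} [Group G]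

/-- `[G, α]`. -/
def commSub (α : MulAut G) : Subgroup G := Subgroup.closure {z | ∃ g, z = g⁻¹ * α g}

/-- `[[G, α], α]`. -/
def comm2 (α : MulAut G) : Subgroup G := Subgroup.closure {w | ∃ y ∈ commSub α, w = y⁻¹ * α y}

theorem diff_mem_commSub (α : MulAut G) (g : G) : g⁻¹ * α g ∈ commSub α := Subgroup.subset_closure ⟨g, rfl⟩

theorem map_mem_commSub (α : MulAut G) {y : G} (hy : y ∈ commSub α) : α y ∈ commSub α := by
  have e : α y = y * (y⁻¹ * α y) := by group
  rw [e]
  exact mul_mem hy (diff_mem_commSub α y)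

theorem diff_mem_comm2 (α : MulAut G) {y : G} (hy : y ∈ commSub α) : y⁻¹ * α y ∈ comm2 α :=
  Subgroup.subset_closure ⟨y, hy, rfl⟩

theorem conj_mem_comm2 (α : MulAut G) {g w : G} (hg : g ∈ commSub α) (hw : w ∈ comm2 α) : g⁻¹ * w * g ∈ comm2 α := by
  induction hw using Subgroup.closure_induction with
  | mem w hw =>
    obtain ⟨y, hy, rfl⟩ := hw
    have e : g⁻¹ * (y⁻¹ * α y) * g = (y * g)⁻¹ * α (y * g) * (g⁻¹ * α g)⁻¹ := by
      simp only [map_mul]
      group
    rw [e]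
    exact mul_mem (diff_mem_comm2 α (mul_mem hy hg)) (inv_mem (diff_mem_comm2 α hg))
  | one => simpa using one_mem _
  | mul a b _ _ ha hb =>
    have e : g⁻¹ * (a * b) * g = (g⁻¹ * a * g) * (g⁻¹ * b * g) := by group
    rw [e]
    exact mul_mem ha hb
  | inv a _ ha =>
    have e : g⁻¹ * a⁻¹ * g = (g⁻¹ * a * g)⁻¹ := by group
    rw [e]
    exact inv_mem ha

theorem pow_diff_mem_comm2 (α : MulAut G) (i : ℕ) : ∀ {y : G}, y ∈ commSub α → y⁻¹ * (α ^ i) y ∈ comm2 α := by
  induction i with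
  | zero => intro y _; simpa using one_mem _
  | succ i ih =>
    intro y hy
    have e : y⁻¹ * (α ^ (i + 1)) y = (y⁻¹ * α y) * ((α y)⁻¹ * (α ^ i) (α y)) := by
      rw [pow_succ, MulAut.mul_apply]
      group
    rw [e]
    exact mul_mem (diff_mem_comm2 α hy) (ih (map_mem_commSub α hy))

/-- `[G, α] = [G, α, α]` for a coprime automorphism of a `p`-group. -/
theorem diff_mem_comm2_of_coprime {p : ℕ} [hp : Fact p.Prime] (hG : IsPGroup p G) (α : MulAut G) {k : ℕ} (hk : α ^ k = 1)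
    (hc : k.Coprime p) (x : G) : x⁻¹ * α x ∈ comm2 α := by
  have hy : x⁻¹ * α x ∈ commSub α := diff_mem_commSub α x
  generalize hydef : x⁻¹ * α x = y at hy ⊢
  have hαx : α x = x * y := by
    rw [← hydef]
    group
  have key : ∀ i : ℕ, (y ^ i)⁻¹ * (x⁻¹ * (α ^ i) x) ∈ comm2 α := by
    intro i
    induction i with
    | zero => simpa using one_mem _
    | succ i ih =>
      have e : (y ^ (i + 1))⁻¹ * (x⁻¹ * (α ^ (i + 1)) x) =
          (y⁻¹ * ((y ^ i)⁻¹ * (x⁻¹ * (α ^ i) x)) * y) * (y⁻¹ * (α ^ i) y) := by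
        rw [pow_succ α, MulAut.mul_apply, hαx, map_mul, pow_succ]
        group
      rw [e]
      exact mul_mem (conj_mem_comm2 α hy ih) (pow_diff_mem_comm2 α i hy)
  have h1 := key k
  rw [hk] at h1
  have h2 : (y ^ k)⁻¹ ∈ comm2 α := by
    simpa using h1
  have h3 : y ^ k ∈ comm2 α := by
    simpa using inv_mem h2
  obtain ⟨n, hn⟩ := hG y
  have h4 : Nat.Coprime k (orderOf y) := by
    have h5 : orderOf y ∣ p ^ n := orderOf_dvd_of_pow_eq_one hn
    exact Nat.Coprime.coprime_dvd_right h5 (hc.pow_right n)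
  obtain ⟨m, hm⟩ := exists_pow_eq_self_of_coprime h4
  rw [← hm]
  exact pow_mem h3 m

end Comm

variable {Ω : Type*} [Group Ω] {S T : Subgroup Ω} {F : FusionSystem S} {p : ℕ} [hp : Fact p.Prime]

/-- A subsystem of `p`-power index has the same hyperfocal subgroup. -/
theorem hyperfocal_eq_of_pPowerIndex [Finite S] {E : FusionSystem T} (hidx : E.HasPPowerIndexIn F p)
    (hS : IsPGroup p S) : E.hyperfocalSubgroup p = F.hyperfocalSubgroup p := by
  classical
  have hTS : T ≤ S := source_le (hidx.1 T (subtype_mem (F := E) le_rfl))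
  apply le_antisymm
  · refine (Subgroup.closure_le _).2 ?_
    rintro _ ⟨P, α, x, hPT, hα, rfl⟩
    obtain ⟨h, hr⟩ := PPowerIndex.residual_mem_of_le hidx.1 hPT (hPT.trans hTS) hα
    exact Subgroup.subset_closure ⟨P, ⟨α, h⟩, x, hPT.trans hTS, hr, rfl⟩
  · refine Hyperfocal.hyperfocal_le fun P hP α hα x => ?_
    haveI : Finite P := finite_of_le hP
    have hPp : IsPGroup p P := isPGroup_of_le hS hP
    let a : MulAut P := (α : MulAut P)
    have hak : a ^ orderOf α = 1 := by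
      have := pow_orderOf_eq_one α
      exact congrArg (fun z : F.autGroup P => (z : MulAut P)) this
    have hαres : α ∈ pResidual p (F.autGroup P) := Subgroup.subset_closure hα
    let Q : Subgroup Ω := (commSub a).map P.subtype
    have hQP : Q ≤ P := Subgroup.map_subtype_le _
    have hQhyp : Q ≤ F.hyperfocalSubgroup p := by
      refine Subgroup.map_le_iff_le_comap.2 ((Subgroup.closure_le _).2 ?_)
      rintro _ ⟨g, rfl⟩
      exact Subgroup.subset_closure ⟨P, α, g, hP, hαres, rfl⟩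
    have hQT : Q ≤ T := hQhyp.trans hidx.2.1
    haveI : Finite Q := finite_of_le (hQT.trans hTS)
    have hmem1 : (P.subtype.comp a.toMonoidHom).comp (Subgroup.inclusion hQP) ∈ F.Hom Q :=
      res_mem (autGroup_mem_hom hP α.2) hQP
    have hval : ∀ y : Q, (P.subtype.comp a.toMonoidHom).comp (Subgroup.inclusion hQP) y ∈ Q := by
      rintro ⟨_, y, hy, rfl⟩
      exact ⟨a y, map_mem_commSub a hy, rfl⟩
    let a₀ : MulAut Q := autOfHom _ (F.injective_of_mem hmem1) hval
    have ha₀ : a₀ ∈ F.autGroup Q := autOfHom_mem hmem1 hval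
    have ha₀v : ∀ y : Q, ((a₀ y : Q) : Ω) = ((a (Subgroup.inclusion hQP y) : P) : Ω) := fun _ => rfl
    have hpow : ∀ (i : ℕ) (y : Q), (((a₀ ^ i) y : Q) : Ω) = (((a ^ i) (Subgroup.inclusion hQP y) : P) : Ω) := by
      intro i
      induction i with
      | zero => intro y; rfl
      | succ i ih =>
        intro y
        rw [pow_succ, pow_succ, MulAut.mul_apply, MulAut.mul_apply, ih]
        have e : Subgroup.inclusion hQP (a₀ y) = a (Subgroup.inclusion hQP y) := Subtype.ext (ha₀v y)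
        rw [e]
    have ha₀k : a₀ ^ orderOf α = 1 := by
      ext y
      rw [hpow, hak]
      rfl
    have hord : ∀ {H : Subgroup (MulAut Q)} (h : a₀ ∈ H), Nat.Coprime (orderOf (⟨a₀, h⟩ : H)) p := by
      intro H h
      rw [Subgroup.orderOf_mk]
      exact Nat.Coprime.coprime_dvd_left (orderOf_dvd_of_pow_eq_one ha₀k) hα
    have hres : (⟨a₀, ha₀⟩ : F.autGroup Q) ∈ pResidual p (F.autGroup Q) := Subgroup.subset_closure (hord ha₀)
    have hE : a₀ ∈ E.autGroup Q := hidx.2.2 Q hQT ⟨_, hres, rfl⟩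
    have hres2 : (⟨a₀, hE⟩ : E.autGroup Q) ∈ pResidual p (E.autGroup Q) := Subgroup.subset_closure (hord hE)
    have hmain : (comm2 a).map P.subtype ≤ E.hyperfocalSubgroup p := by
      refine Subgroup.map_le_iff_le_comap.2 ((Subgroup.closure_le _).2 ?_)
      rintro _ ⟨y, hy, rfl⟩
      have hyQ : (y : Ω) ∈ Q := ⟨y, hy, rfl⟩
      exact Subgroup.subset_closure ⟨Q, ⟨a₀, hE⟩, ⟨y, hyQ⟩, hQT, hres2, rfl⟩
    exact hmain ⟨_, diff_mem_comm2_of_coprime hPp a hak hα x, rfl⟩

/-- Two saturated subsystems of `p`-power index over the same subgroup have the same maps. -/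
theorem pResidual_eq [Finite S] (hS : IsPGroup p S) (hF : F.IsSaturated p) {H₁ H₂ : Subgroup Ω} (h : H₁ = H₂)
    {D : FusionSystem H₁} {D₂ : FusionSystem H₂} (hD : D.IsSaturated p) (hDi : D.HasPPowerIndexIn F p)
    (hD₂ : D₂.IsSaturated p) (hD₂i : D₂.HasPPowerIndexIn F p) : ∀ P, D.Hom P = D₂.Hom P := by
  subst h
  have hH : H₁ ≤ S := source_le (hDi.1 H₁ (subtype_mem (F := D) le_rfl))
  obtain ⟨E, -, hu⟩ := PTheta.existsUnique_pPowerIndex hS hF hH hDi.2.1
  rw [hu D hD hDi, hu D₂ hD₂ hD₂i]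
  intro P
  rfl

/-- The `p'`-residual is determined by the maps. -/
theorem pPrimeResidual_eq {H₁ H₂ : Subgroup Ω} (h : H₁ = H₂) {X₁ : FusionSystem H₁} {X₂ : FusionSystem H₂}
    (hX : ∀ P, X₁.Hom P = X₂.Hom P) {D₁ : FusionSystem H₁} {D₂ : FusionSystem H₂} (h₁ : X₁.IsPPrimeResidual p D₁)
    (h₂ : X₂.IsPPrimeResidual p D₂) : ∀ P, D₁.Hom P = D₂.Hom P := by
  subst h
  obtain rfl : X₁ = X₂ := Alperin.ext_of_hom hX
  intro P
  exact Set.Subset.antisymm (h₁.2.2 D₂ h₂.1 h₂.2.1 P) (h₂.2.2 D₁ h₁.1 h₁.2.1 P)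

theorem stable_transfer {H : Subgroup Ω} (hH : H = S) {D' : FusionSystem H} (hD' : ∀ P, D'.Hom P = F.Hom P)
    (h2 : F.IsPPrimeResidual p F) : D'.hyperfocalSubgroup p = F.hyperfocalSubgroup p ∧ D'.IsPPrimeResidual p D' := by
  subst hH
  obtain rfl : D' = F := Alperin.ext_of_hom hD'
  exact ⟨rfl, h2⟩

theorem finite_hyperfocal [Finite S] (F : FusionSystem S) (p : ℕ) : Finite (F.hyperfocalSubgroup p) :=
  finite_of_le Hyperfocal.hyperfocal_le_S

theorem isPGroup_hyperfocal [Finite S] (hS : IsPGroup p S) (F : FusionSystem S) : IsPGroup p (F.hyperfocalSubgroup p) :=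
  isPGroup_of_le hS Hyperfocal.hyperfocal_le_S

theorem index_self (F : FusionSystem S) (h : F.hyperfocalSubgroup p = S) : F.HasPPowerIndexIn F p :=
  ⟨fun _ => subset_rfl, h.le, fun _ _ => Subgroup.map_subtype_le _⟩

/-- A stable system is its own residual limit, and this is the only one. -/
theorem limit_of_stable {T S : Subgroup Ω} {E : FusionSystem T} {F : FusionSystem S} {q : ℕ}
    (h : FusionSystem.IsResidualLimitOf E F q) :
    Fact q.Prime → Finite S → IsPGroup q S → F.IsSaturated q → F.hyperfocalSubgroup q = S → F.IsPPrimeResidual q F →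
      ∀ P, E.Hom P = F.Hom P := by
  induction h with
  | stable F p h1 h2 =>
    intro _ _ _ _ _ _ P
    rfl
  | step F p D D' hD hD' h ih =>
    intro hq hfin hS hF h1 h2 P
    have e1 : ∀ P, D.Hom P = F.Hom P := pResidual_eq hS hF h1 hD.1 hD.2 hF (index_self F h1)
    have e2 : ∀ P, D'.Hom P = F.Hom P := pPrimeResidual_eq h1 e1 hD' h2
    obtain ⟨h3, h4⟩ := stable_transfer h1 e2 h2
    rw [ih hq (finite_hyperfocal F p) (isPGroup_hyperfocal hS F) hD'.1 h3 h4 P, e2]

/-- Uniqueness of the residual limit. -/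
theorem limit_unique {T S : Subgroup Ω} {E : FusionSystem T} {F : FusionSystem S} {q : ℕ}
    (h : FusionSystem.IsResidualLimitOf E F q) :
    Fact q.Prime → Finite S → IsPGroup q S → F.IsSaturated q → ∀ {T₂ : Subgroup Ω} (E₂ : FusionSystem T₂),
      FusionSystem.IsResidualLimitOf E₂ F q → ∀ P, E.Hom P = E₂.Hom P := by
  induction h with
  | stable F p h1 h2 =>
    intro hq hfin hS hF T₂ E₂ h₂ P
    exact (limit_of_stable h₂ hq hfin hS hF h1 h2 P).symm
  | step F p D D' hD hD' h ih =>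
    intro hq hfin hS hF T₂ E₂ h₂ P
    cases h₂ with
    | stable _ _ h1 h2 =>
      exact limit_of_stable (FusionSystem.IsResidualLimitOf.step F p D D' hD hD' h) hq hfin hS hF h1 h2 P
    | step _ _ D₂ D₂' hD₂ hD₂' h₂' =>
      obtain rfl : D = D₂ := Alperin.ext_of_hom (pResidual_eq hS hF rfl hD.1 hD.2 hD₂.1 hD₂.2)
      obtain rfl : D' = D₂' := Alperin.ext_of_hom (pPrimeResidual_eq rfl (fun _ => rfl) hD' hD₂')
      exact ih hq (finite_hyperfocal F p) (isPGroup_hyperfocal hS F) hD'.1 _ h₂' P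

/-- A residual limit of `X` is a residual limit of the residuals of `X`, up to the maps. -/
theorem limit_residual {T : Subgroup Ω} {L : FusionSystem T} {X : FusionSystem S} [Finite S] (hS : IsPGroup p S)
    (hX : X.IsSaturated p) (hL : FusionSystem.IsResidualLimitOf L X p) {D D' : FusionSystem (X.hyperfocalSubgroup p)}
    (hD : X.IsPResidual p D) (hD' : D.IsPPrimeResidual p D') :
    ∃ (T' : Subgroup Ω) (L' : FusionSystem T'), FusionSystem.IsResidualLimitOf L' D' p ∧ ∀ P, L'.Hom P = L.Hom P := by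
  cases hL with
  | stable _ _ h1 h2 =>
    have e1 : ∀ P, D.Hom P = X.Hom P := pResidual_eq hS hX h1 hD.1 hD.2 hX (index_self X h1)
    have e2 : ∀ P, D'.Hom P = X.Hom P := pPrimeResidual_eq h1 e1 hD' h2
    obtain ⟨h3, h4⟩ := stable_transfer h1 e2 h2
    exact ⟨_, D', FusionSystem.IsResidualLimitOf.stable D' p h3 h4, e2⟩
  | step _ _ D₂ D₂' hD₂ hD₂' h₂' =>
    obtain rfl : D = D₂ := Alperin.ext_of_hom (pResidual_eq hS hX rfl hD.1 hD.2 hD₂.1 hD₂.2)
    obtain rfl : D' = D₂' := Alperin.ext_of_hom (pPrimeResidual_eq rfl (fun _ => rfl) hD' hD₂')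
    exact ⟨_, _, h₂', fun _ => rfl⟩

/-- Residual limits only depend on the maps. -/
theorem limit_congr {H₁ H₂ : Subgroup Ω} (h : H₁ = H₂) {X₁ : FusionSystem H₁} {X₂ : FusionSystem H₂} [Finite H₁]
    (hp₁ : IsPGroup p H₁) (hX₁ : X₁.IsSaturated p) (hX : ∀ P, X₁.Hom P = X₂.Hom P) {T₁ T₂ : Subgroup Ω}
    {L₁ : FusionSystem T₁} {L₂ : FusionSystem T₂} (h₁ : FusionSystem.IsResidualLimitOf L₁ X₁ p)
    (h₂ : FusionSystem.IsResidualLimitOf L₂ X₂ p) : ∀ P, L₁.Hom P = L₂.Hom P := by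
  subst h
  obtain rfl : X₁ = X₂ := Alperin.ext_of_hom hX
  exact limit_unique h₁ hp inferInstance hp₁ hX₁ _ h₂

/-- A subsystem of `p`-power index in a subsystem of `p`-power index. -/
theorem index_trans [Finite S] (hS : IsPGroup p S) {E : FusionSystem T} (hidx : E.HasPPowerIndexIn F p) {H : Subgroup Ω}
    {E₁ : FusionSystem H} (h₁ : E₁.HasPPowerIndexIn E p) : E₁.HasPPowerIndexIn F p := by
  have hHT : H ≤ T := source_le (h₁.1 H (subtype_mem (F := E₁) le_rfl))
  refine ⟨fun P φ hφ => hidx.1 P (h₁.1 P hφ), ?_, fun P hP => ?_⟩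
  · rw [← hyperfocal_eq_of_pPowerIndex hidx hS]
    exact h₁.2.1
  · rintro _ ⟨r, hr, rfl⟩
    induction hr using Subgroup.closure_induction with
    | mem y hy =>
      have hy1 : (y : MulAut P) ∈ E.autGroup P := hidx.2.2 P (hP.trans hHT) ⟨y, Subgroup.subset_closure hy, rfl⟩
      have hy2 : (⟨y, hy1⟩ : E.autGroup P) ∈ pResidual p (E.autGroup P) := by
        apply Subgroup.subset_closure
        show Nat.Coprime _ p
        rw [Subgroup.orderOf_mk, Subgroup.orderOf_coe]
        exact hy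
      exact h₁.2.2 P hP ⟨_, hy2, rfl⟩
    | one => exact one_mem _
    | mul x y _ _ hx hy => exact mul_mem hx hy
    | inv x _ hx => exact inv_mem hx

/-- The residual limits of a saturated system and of a saturated subsystem of `p`-power index agree. -/
theorem limit_eq_of_pPowerIndex [Finite S] (hS : IsPGroup p S) (hF : F.IsSaturated p) {E : FusionSystem T}
    (hE : E.IsSaturated p) (hidx : E.HasPPowerIndexIn F p) {U V : Subgroup Ω} {Finf : FusionSystem U}
    (hFinf : FusionSystem.IsResidualLimitOf Finf F p) {Einf : FusionSystem V}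
    (hEinf : FusionSystem.IsResidualLimitOf Einf E p) : ∀ P, Finf.Hom P = Einf.Hom P := by
  have hTS : T ≤ S := source_le (hidx.1 T (subtype_mem (F := E) le_rfl))
  haveI : Finite T := finite_of_le hTS
  have hTp : IsPGroup p T := isPGroup_of_le hS hTS
  have hhyp := hyperfocal_eq_of_pPowerIndex hidx hS
  haveI := finite_hyperfocal F p
  haveI := finite_hyperfocal E p
  obtain ⟨D, hD, -⟩ := PTheta.existsUnique_pPowerIndex hS hF Hyperfocal.hyperfocal_le_S (le_refl (F.hyperfocalSubgroup p))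
  obtain ⟨E₁, hE₁, -⟩ := PTheta.existsUnique_pPowerIndex hTp hE Hyperfocal.hyperfocal_le_S (le_refl (E.hyperfocalSubgroup p))
  have hD' := PPrime.isPPrimeResidual_residSys (isPGroup_hyperfocal hS F) hD.1
  have hE₁' := PPrime.isPPrimeResidual_residSys (isPGroup_hyperfocal hTp E) hE₁.1
  obtain ⟨_, L₁, hL₁, eL₁⟩ := limit_residual hS hF hFinf hD hD'
  obtain ⟨_, L₂, hL₂, eL₂⟩ := limit_residual hTp hE hEinf hE₁ hE₁'
  have e1 : ∀ P, D.Hom P = E₁.Hom P := pResidual_eq hS hF hhyp.symm hD.1 hD.2 hE₁.1 (index_trans hS hidx hE₁.2)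
  have e2 := pPrimeResidual_eq hhyp.symm e1 hD' hE₁'
  have e3 := limit_congr hhyp.symm (isPGroup_hyperfocal hS F) hD'.1 e2 hL₁ hL₂
  intro P
  rw [← eL₁, ← eL₂, e3]

end Cfsg.Agent.Lib.Fusion.Limit
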