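/-
Saturated subsystems on `T` and systems containing `O^p(Aut_F(P))`: a saturated subsystem is contained in any
fusion system over a larger subgroup containing `O^p(Aut_F(P))` for all `P`.
-/
import Mathlib
import Cfsg.Prelude.Def_FusionSystem
import Cfsg.Agent.Lib.Fusion.Basic
import Cfsg.Agent.Lib.Fusion.Saturated
import Cfsg.Agent.Lib.Fusion.PPowerIndex
import Cfsg.Agent.Lib.Fusion.FNInduction

set_option autoImplicit false

namespace Cfsg.Agent.Lib.Fusion.PPowerIndex2

open Cfsg Cfsg.FusionSystem Cfsg.Agent.Lib.Fusion.Basic Cfsg.Agent.Lib.Fusion.Saturated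
open Cfsg.Agent.Lib.Fusion.PPowerIndex Cfsg.Agent.Lib.Fusion.Focal

variable {Ω : Type*} [Group Ω] {S : Subgroup Ω} {F : FusionSystem S}

/-- A saturated subsystem `E` over `T` is contained in any fusion system over `T₁ ≥ T` that contains `O^p(Aut_F(P))`
for all `P ≤ T₁`. -/
theorem hom_subset_of_residual_le' {T T₁ : Subgroup Ω} (hTT : T ≤ T₁) [Finite T] {p : ℕ} [Fact p.Prime]
    (hTp : IsPGroup p T) {E : FusionSystem T} {E₁ : FusionSystem T₁} (hE : E.IsSaturated p)
    (hEF : E.IsSubsystemOf F) (hTS : T ≤ S)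
    (hE₁ : ∀ P : Subgroup Ω, P ≤ T₁ → (pResidual p (F.autGroup P)).map (F.autGroup P).subtype ≤
      E₁.autGroup P) : ∀ P : Subgroup Ω, E.Hom P ⊆ E₁.Hom P := by
  classical
  intro P φ hφ
  refine Cfsg.Agent.Lib.Fusion.FNInduction.fn_induction hTp hE (fun P φ => φ ∈ E₁.Hom P)
    (fun _ h hR => res_mem h hR)
    (fun _ _ h₁ h₂ hv => E₁.comp_mem h₁ h₂ hv) ?_ ?_ hφ
  · intro P Q φ ψ hφ hψ hr hψφ h
    obtain ⟨σ, hσ, -, hσa, -⟩ := exists_inv h hr
    have e : ψ = σ := by
      ext y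
      obtain ⟨x, hx⟩ : (y : Ω) ∈ φ.range := by
        rw [hr]
        exact y.2
      have hy : y = ⟨φ x, hr.le ⟨x, rfl⟩⟩ := Subtype.ext hx.symm
      subst hy
      rw [hψφ x, hσa x]
    rw [e]
    exact hσ
  · intro P φ hP hφ hr _
    have hPT : P ≤ T := hP.1
    have hPS : P ≤ S := hPT.trans hTS
    let a : MulAut P := isoOfRange (E.injective_of_mem hφ) hr
    have hag : ∀ z : P, ((a z : P) : Ω) = φ z := fun _ => rfl
    have e : P.subtype.comp a.toMonoidHom = φ := by
      ext z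
      exact hag z
    have haA : a ∈ E.autGroup P := by
      apply mem_autGroup_of_mem
      rw [e]
      exact hφ
    obtain ⟨-, R, hR⟩ := (fullyNormalized_props hTp hE hP).2
    haveI : Finite (E.autGroup P) := finite_autGroup hPT
    obtain ⟨τ, hτ, r, hr', he⟩ := exists_sylow_mul_residual R ⟨a, haA⟩
    have hτS : (τ : MulAut P) ∈ autInducedBy T P := by
      rw [hR] at hτ
      exact hτ
    have hind : autInducedBy T P ≤ autInducedBy T₁ P := by
      intro b hb
      obtain ⟨g, hg, h⟩ := mem_autInducedBy_iff.1 hb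
      exact mem_autInducedBy_iff.2 ⟨g, hTT hg, h⟩
    have h1 : (τ : MulAut P) ∈ E₁.autGroup P := autInducedBy_le_autGroup (hPT.trans hTT) (hind hτS)
    obtain ⟨h2, h3⟩ := residual_mem_of_le hEF hPT hPS hr'
    have h4 : (r : MulAut P) ∈ E₁.autGroup P := hE₁ P (hPT.trans hTT) ⟨⟨r, h2⟩, h3, rfl⟩
    have h5 : a = (τ : MulAut P) * (r : MulAut P) := congrArg Subtype.val he
    have h6 : a ∈ E₁.autGroup P := by
      rw [h5]
      exact Subgroup.mul_mem _ h1 h4
    have := autGroup_mem_hom (hPT.trans hTT) h6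
    rwa [e] at this

end Cfsg.Agent.Lib.Fusion.PPowerIndex2
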