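import Mathlib
import Cfsg.Agent.Lib.PSL2.TraceZero
import Cfsg.Agent.Lib.PSL2.TorusCore
import Cfsg.Agent.Lib.PGroup.CyclicMax2
import Cfsg.Agent.Lib.Fusion.SimpleCriterion

/-!
# Sylow 2-subgroups of `PSL(2, F)`, `F` finite of odd order, have dihedral shape
-/

set_option autoImplicit false

namespace Cfsg.Agent.Lib.Fusion.PSL2Shape

open Matrix Matrix.SpecialLinearGroup
open scoped MatrixGroups
open Cfsg.Agent.Lib.PSL2.Basic Cfsg.Agent.Lib.PSL2.Torus Cfsg.Agent.Lib.PSL2.TraceZero
open Cfsg.Agent.Lib.Fusion.SimpleCriterion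

variable {F : Type*} [Field F] [Fintype F]

omit [Fintype F] in
lemma h2' (h2 : (2 : F) ≠ 0) (T : SL(2, F)) (h : T = -T) : False := by
  have h00 : T.1 0 0 = - T.1 0 0 := congrArg (fun M : SL(2, F) => M.1 0 0) h
  have h01 : T.1 0 1 = - T.1 0 1 := congrArg (fun M : SL(2, F) => M.1 0 1) h
  have h10 : T.1 1 0 = - T.1 1 0 := congrArg (fun M : SL(2, F) => M.1 1 0) h
  have h11 : T.1 1 1 = - T.1 1 1 := congrArg (fun M : SL(2, F) => M.1 1 1) h
  have e : ∀ a : F, a = -a → a = 0 := by
    intro a ha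
    have : (2 : F) * a = 0 := by linear_combination ha
    exact (mul_eq_zero.1 this).resolve_left h2
  have hdet := det_entries T
  rw [e _ h00, e _ h01] at hdet
  simp at hdet

/-- A lift of an involution has square `-1` and trace `0`. -/
lemma lift_involution (h2 : (2 : F) ≠ 0) {X : SL(2, F)} (h1 : mkP X ≠ 1) (hsq : mkP X * mkP X = 1) :
    X * X = -1 ∧ tr X = 0 ∧ X ≠ 1 ∧ X ≠ -1 := by
  have hne : X ≠ 1 ∧ X ≠ -1 := by
    constructor
    · rintro rfl
      exact h1 (map_one _)
    · rintro rfl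
      exact h1 mkP_neg_one
  have h3 : mkP (X * X) = 1 := by rw [map_mul]; exact hsq
  rcases mkP_eq_one_iff.1 h3 with h4 | h4
  · rcases (mul_self_eq_one_iff h2 X).1 h4 with h5 | h5
    · exact absurd h5 hne.1
    · exact absurd h5 hne.2
  · exact ⟨h4, (mul_self_eq_neg_one_iff X).1 h4, hne⟩

/-- All involutions of `PSL(2, F)` are conjugate. -/
theorem involutions_conj (h2 : (2 : F) ≠ 0) (a b : PSL(2, F)) (ha : a ≠ 1) (haa : a * a = 1)
    (hb : b ≠ 1) (hbb : b * b = 1) : ∃ g, g * a * g⁻¹ = b := by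
  obtain ⟨A, rfl⟩ := mkP_surjective a
  obtain ⟨B, rfl⟩ := mkP_surjective b
  obtain ⟨-, hA, -⟩ := lift_involution h2 ha haa
  obtain ⟨-, hB, -⟩ := lift_involution h2 hb hbb
  obtain ⟨g, hg⟩ := exists_conj_of_tr_eq_zero h2 A B hA hB
  refine ⟨mkP g, ?_⟩
  rw [← hg, map_mul, map_mul, map_inv]

section Structure

variable (h2 : (2 : F) ≠ 0) (S : Sylow 2 PSL(2, F)) (T : SL(2, F))

include h2

theorem exists_shape (h8 : 8 ∣ Nat.card (S : Subgroup PSL(2, F))) :
    ∃ C : Subgroup PSL(2, F), IsDihedralShape (S : Subgroup PSL(2, F)) C := by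
  have : Fact (Nat.Prime 2) := ⟨Nat.prime_two⟩
  have : Finite SL(2, F) := inferInstance
  have hSp : IsPGroup 2 (S : Subgroup PSL(2, F)) := S.isPGroup'
  have hcardS : 1 < Nat.card (S : Subgroup PSL(2, F)) := by
    have := Nat.le_of_dvd (Nat.card_pos) h8
    omega
  have : Nontrivial (S : Subgroup PSL(2, F)) := Finite.one_lt_card_iff_nontrivial.1 hcardS
  have := hSp.center_nontrivial
  have h2c : 2 ∣ Nat.card (Subgroup.center (S : Subgroup PSL(2, F))) := by
    have hcp : IsPGroup 2 (Subgroup.center (S : Subgroup PSL(2, F))) := hSp.to_subgroup _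
    rcases hcp.card_eq_or_dvd with h1 | h1
    · exact absurd h1 Finite.one_lt_card.ne'
    · exact h1
  obtain ⟨⟨⟨t, htS⟩, htc⟩, ht⟩ := exists_prime_orderOf_dvd_card' 2 h2c
  have ht' : orderOf t = 2 := by
    simpa [Subgroup.orderOf_mk] using ht
  obtain ⟨T, rfl⟩ := mkP_surjective t
  have ht1 : mkP T ≠ 1 := by
    intro h
    rw [h] at ht'
    simp at ht'
  have htt : mkP T * mkP T = 1 := by
    have h := pow_orderOf_eq_one (mkP T)
    rw [ht', pow_two] at h
    exact h
  obtain ⟨hTT, htr, hT1, hTm⟩ := lift_involution h2 ht1 htt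
  have hTinv : T⁻¹ = -T := by
    apply inv_eq_of_mul_eq_one_right
    rw [mul_neg, hTT, neg_neg]
  -- elements of the preimage of `S` centralize or invert `T`
  have hcases : ∀ x : SL(2, F), mkP x ∈ (S : Subgroup PSL(2, F)) → x * T = T * x ∨ x * T * x⁻¹ = -T := by
    intro x hx
    have h1 : (⟨mkP x, hx⟩ : (S : Subgroup PSL(2, F))) * ⟨mkP T, htS⟩ = ⟨mkP T, htS⟩ * ⟨mkP x, hx⟩ :=
      (Subgroup.mem_center_iff.1 htc _)
    have h3 : mkP x * mkP T = mkP T * mkP x := congrArg Subtype.val h1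
    have h4 : mkP T = mkP (x * T * x⁻¹) := by
      rw [map_mul, map_mul, map_inv, h3]
      group
    rcases mkP_eq_iff.1 h4 with h5 | h5
    · left
      exact mul_inv_eq_iff_eq_mul.1 h5
    · right
      exact h5
  set Chat : Subgroup SL(2, F) := (S : Subgroup PSL(2, F)).comap mkP ⊓ Subgroup.centralizer {T} with hChat
  have hChat_mem : ∀ x, x ∈ Chat ↔ mkP x ∈ (S : Subgroup PSL(2, F)) ∧ x * T = T * x := by
    intro x
    rw [hChat, Subgroup.mem_inf, Subgroup.mem_comap, Subgroup.mem_centralizer_singleton_iff]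
  set C : Subgroup PSL(2, F) := Chat.map mkP with hC
  have hCS : C ≤ (S : Subgroup PSL(2, F)) := by
    rintro _ ⟨x, hx, rfl⟩
    exact ((hChat_mem x).1 hx).1
  have hmemC : ∀ x : SL(2, F), mkP x ∈ C → x * T = T * x := by
    rintro x ⟨y, hy, hxy⟩
    have hyc := ((hChat_mem y).1 hy).2
    rcases mkP_eq_iff.1 hxy with h5 | h5
    · rw [h5]; exact hyc
    · rw [h5, neg_mul, mul_neg, hyc]
  have hmemC' : ∀ x : SL(2, F), mkP x ∈ (S : Subgroup PSL(2, F)) → x * T = T * x → mkP x ∈ C :=
    fun x hx hc => ⟨x, (hChat_mem x).2 ⟨hx, hc⟩, rfl⟩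
  -- lifts of elements outside `C` invert `T`
  have hoff : ∀ x : SL(2, F), mkP x ∈ (S : Subgroup PSL(2, F)) → mkP x ∉ C → x * T * x⁻¹ = -T := by
    intro x hx hxC
    rcases hcases x hx with h5 | h5
    · exact absurd (hmemC' x hx h5) hxC
    · exact h5
  have hinv : ∀ x ∈ (S : Subgroup PSL(2, F)), x ∉ C → x * x = 1 := by
    intro x hx hxC
    obtain ⟨X, rfl⟩ := mkP_surjective x
    have h5 := hoff X hx hxC
    have h6 : tr X = 0 := Cfsg.Agent.Lib.PSL2.TorusCore.tr_eq_zero_of_inverts ⟨hT1, hTm⟩ (by rw [h5, hTinv])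
    have h7 := (mul_self_eq_neg_one_iff X).2 h6
    rw [← map_mul, h7]
    exact mkP_neg_one
  -- there are elements outside `C`
  have hout : ∃ s ∈ (S : Subgroup PSL(2, F)), s ∉ C := by
    by_contra hcon
    push_neg at hcon
    set Z : Subgroup SL(2, F) := Subgroup.centralizer {T} with hZ
    have hZmem : ∀ x, x ∈ Z ↔ x * T = T * x := fun x => Subgroup.mem_centralizer_singleton_iff
    have hle : (S : Subgroup PSL(2, F)).comap mkP ≤ Z := by
      intro x hx
      exact (hZmem x).2 (hmemC x (hcon _ hx))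
    obtain ⟨w, hw⟩ := exists_conj_of_tr_eq_zero h2 T (-T) htr (by simp [htr])
    have hTne : T ≠ -T := by
      intro h
      have h00 := congrArg (fun M : SL(2, F) => M) h
      exact h2' h2 T h
    have hwZ : w ∉ Z := by
      rw [hZmem]
      intro hc
      apply hTne
      rw [← hw, hc]
      group
    have hwn : w ∈ Subgroup.normalizer (Z : Set SL(2, F)) := by
      apply mem_normalizer_of_conj_le
      intro z hz
      rw [hZmem] at hz ⊢
      have h1 : w⁻¹ * T * w = -T := by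
        have : T = w⁻¹ * (-T) * w := by rw [← hw]; group
        have h3 : w⁻¹ * (-T) * w = - (w⁻¹ * T * w) := by simp [mul_neg, neg_mul]
        rw [h3] at this
        have h5 : - T = - (- (w⁻¹ * T * w)) := congrArg (fun M => - M) this
        rw [neg_neg] at h5
        exact h5.symm
      have h3 : w * z * (-T) * w⁻¹ = - (w * (z * T) * w⁻¹) := by
        simp only [mul_neg, neg_mul, mul_assoc]
      have h4 : w * (-T) * z * w⁻¹ = - (w * (T * z) * w⁻¹) := by
        simp only [mul_neg, neg_mul, mul_assoc]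
      calc w * z * w⁻¹ * T = w * z * (w⁻¹ * T * w) * w⁻¹ := by group
        _ = - (w * (z * T) * w⁻¹) := by rw [h1, h3]
        _ = - (w * (T * z) * w⁻¹) := by rw [hz]
        _ = w * (w⁻¹ * T * w) * z * w⁻¹ := by rw [h1, h4]
        _ = T * (w * z * w⁻¹) := by group
    have hww : w * w ∈ Z := by
      have h6 : tr w = 0 := Cfsg.Agent.Lib.PSL2.TorusCore.tr_eq_zero_of_inverts ⟨hT1, hTm⟩ (by rw [hw, hTinv])
      rw [(mul_self_eq_neg_one_iff w).2 h6, hZmem]
      simp
    set N := Subgroup.normalizer (Z : Set SL(2, F)) with hN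
    have : (Z.subgroupOf N).Normal := Subgroup.normal_in_normalizer
    set q : N ⧸ Z.subgroupOf N := QuotientGroup.mk (⟨w, hwn⟩ : N) with hq
    have hq1 : q ≠ 1 := by
      intro h
      rw [hq, QuotientGroup.eq_one_iff, Subgroup.mem_subgroupOf] at h
      exact hwZ h
    have hq2 : q ^ 2 = 1 := by
      rw [hq, ← QuotientGroup.mk_pow, QuotientGroup.eq_one_iff, Subgroup.mem_subgroupOf, pow_two]
      exact hww
    have hord : orderOf q = 2 := orderOf_eq_prime hq2 hq1
    have h2rel : 2 ∣ (Z.subgroupOf N).index := by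
      have := orderOf_dvd_natCard q
      rw [hord] at this
      exact this
    have h2Z : 2 ∣ Z.index := by
      rw [← Subgroup.relIndex_mul_index (Subgroup.le_normalizer (H := Z))]
      exact Dvd.dvd.mul_right h2rel _
    have h2S : 2 ∣ (S : Subgroup PSL(2, F)).index := by
      rw [← Subgroup.index_comap_of_surjective _ (mkP_surjective (R := F))]
      exact h2Z.trans (Subgroup.index_dvd_of_le hle)
    exact S.not_dvd_index h2S
  -- `C` is cyclic
  have hcyc : IsCyclic C := by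
    have hcomm : ∀ x y : Chat, x * y = y * x := by
      rintro ⟨x, hx⟩ ⟨y, hy⟩
      apply Subtype.ext
      exact commute_of_commute ⟨hT1, hTm⟩ ((hChat_mem x).1 hx).2.symm ((hChat_mem y).1 hy).2.symm
    have hp : IsPGroup 2 Chat := by
      rintro ⟨x, hx⟩
      have hxS := ((hChat_mem x).1 hx).1
      obtain ⟨e, he⟩ := hSp ⟨mkP x, hxS⟩
      have h1 : mkP (x ^ 2 ^ e) = 1 := by
        rw [map_pow]
        simpa using congrArg Subtype.val he
      refine ⟨e + 1, Subtype.ext ?_⟩
      rw [pow_succ, pow_mul]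
      simp only [Subgroup.coe_pow, Subgroup.coe_one]
      rcases mkP_eq_one_iff.1 h1 with h3 | h3
      · rw [h3, one_pow]
      · rw [h3]; simp [pow_two]
    have hu : Cfsg.Agent.Lib.PGroup.CyclicMax2.UniqueP 2 Chat := by
      rintro ⟨y, hy⟩ ⟨z, hz⟩ hy2 hz2 hy1 hz1
      have hy3 : y * y = 1 := by simpa [pow_two] using congrArg Subtype.val hy2
      have hz3 : z * z = 1 := by simpa [pow_two] using congrArg Subtype.val hz2
      have hy4 : y = -1 := ((mul_self_eq_one_iff h2 y).1 hy3).resolve_left (fun h => hy1 (Subtype.ext h))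
      have hz4 : z = -1 := ((mul_self_eq_one_iff h2 z).1 hz3).resolve_left (fun h => hz1 (Subtype.ext h))
      have : (⟨y, hy⟩ : Chat) = ⟨z, hz⟩ := Subtype.ext (hy4.trans hz4.symm)
      rw [this]
      exact Subgroup.mem_zpowers _
    have := Cfsg.Agent.Lib.PGroup.CyclicMax2.isCyclic_of_comm_uniqueP hcomm hp hu
    exact isCyclic_of_surjective (mkP.subgroupMap Chat) (mkP.subgroupMap_surjective Chat)
  -- `C` has index two
  obtain ⟨s, hs, hsC⟩ := hout
  have hindex : (C.subgroupOf (S : Subgroup PSL(2, F))).index = 2 := by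
    rw [Subgroup.index_eq_two_iff]
    refine ⟨⟨s, hs⟩, ?_⟩
    rintro ⟨b, hb⟩
    simp only [Subgroup.mem_subgroupOf, Subgroup.coe_mul]
    by_cases hbC : b ∈ C
    · right
      refine ⟨hbC, fun h => hsC ?_⟩
      simpa using C.mul_mem (C.inv_mem hbC) h
    · left
      refine ⟨?_, hbC⟩
      obtain ⟨B, rfl⟩ := mkP_surjective b
      obtain ⟨W, rfl⟩ := mkP_surjective s
      have h5 := hoff B hb hbC
      have h6 := hoff W hs hsC
      rw [← map_mul]
      refine hmemC' _ (by rw [map_mul]; exact S.mul_mem hb hs) ?_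
      have h7 : W * T = - T * W := by
        rw [← h6]; group
      have h8' : B * (-T) = T * B := by
        have : B * T = - T * B := by rw [← h5]; group
        rw [mul_neg, this, neg_mul, neg_neg]
      rw [mul_assoc, h7, ← mul_assoc, h8', mul_assoc]
  have hcard : Nat.card (S : Subgroup PSL(2, F)) = Nat.card C * 2 := by
    have h3 := (C.subgroupOf (S : Subgroup PSL(2, F))).card_mul_index
    rw [hindex, Nat.card_congr (Subgroup.subgroupOfEquivOfLe hCS).toEquiv] at h3
    exact h3.symm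
  have hbig : ∃ y ∈ C, y * y ≠ 1 := by
    obtain ⟨g, hg⟩ := hcyc.exists_generator
    have hgo : orderOf g = Nat.card C := orderOf_eq_card_of_forall_mem_zpowers hg
    have h4 : 4 ≤ Nat.card C := by
      have h3 : 4 ∣ Nat.card C := by
        rw [hcard] at h8
        omega
      exact Nat.le_of_dvd Nat.card_pos h3
    refine ⟨g, g.2, fun h => ?_⟩
    have h5 : g ^ 2 = 1 := by
      apply Subtype.ext
      simpa [pow_two] using h
    have := orderOf_le_of_pow_eq_one (by norm_num) h5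
    omega
  exact ⟨C, ⟨hCS, hcyc, ⟨s, hs, hsC⟩, hinv, hbig⟩⟩

end Structure

/-- `F_S(PSL(2, F))` is simple when `16 ∣ q ^ 2 - 1`. -/
theorem isSimple_fusion (hodd : Fintype.card F % 2 = 1) (h16 : 16 ∣ Fintype.card F ^ 2 - 1)
    (S : Sylow 2 (Matrix.ProjectiveSpecialLinearGroup (Fin 2) F)) :
    (Cfsg.groupFusionSystem (S : Subgroup (Matrix.ProjectiveSpecialLinearGroup (Fin 2) F))).IsSimple 2 := by
  have : Fact (Nat.Prime 2) := ⟨Nat.prime_two⟩
  have h2 : (2 : F) ≠ 0 := Cfsg.Agent.Lib.PSL2.TorusCore.two_ne_zero_of_odd_card (Nat.odd_iff.2 hodd)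
  have hcard := card_PSL2_of_two_ne_zero (F := F) h2
  have h8G : 2 ^ 3 ∣ Nat.card (Matrix.ProjectiveSpecialLinearGroup (Fin 2) F) := by
    have h3 : 16 ∣ 2 * Nat.card (Matrix.ProjectiveSpecialLinearGroup (Fin 2) F) := by
      rw [hcard]
      exact Dvd.dvd.mul_left h16 _
    omega
  have h8 : 8 ∣ Nat.card (S : Subgroup (Matrix.ProjectiveSpecialLinearGroup (Fin 2) F)) :=
    Sylow.pow_dvd_card_of_pow_dvd_card S h8G
  obtain ⟨C, hC⟩ := exists_shape h2 S h8
  exact isSimple_of_isDihedralShape S hC (involutions_conj h2)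

end Cfsg.Agent.Lib.Fusion.PSL2Shape
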