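import Mathlib
import Cfsg.Agent.Lib.Fusion.SimpleCriterion2
import Cfsg.Agent.Lib.Fusion.GoodSylow

/-!
# A simplicity criterion for `F_S(G)` transported along an embedding into a permutation group

`isSimple_of_closure'`: the form of `SimpleCriterion2.isSimple_of_closure` where each element of `N_G(S)` is in
the subgroup generated by `p`-elements of `N_G(R)` for some fully normalized centric `R`.

`FusCert K S R z`: the data on a subgroup `K` of an ambient group, from which `F_Q(G)` is simple for every `G` embedded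
in the ambient group with image `K` and every Sylow `2`-subgroup `Q` of `G`.
-/

set_option autoImplicit false
set_option linter.style.haveILetI false

namespace Cfsg.Agent.Lib.Fusion.PermFusA

open Cfsg Cfsg.FusionSystem Cfsg.Agent.Lib.Fusion.Basic Cfsg.Agent.Lib.Fusion.Saturated
  Cfsg.Agent.Lib.Fusion.Saturated2 Cfsg.Agent.Lib.Fusion.Centric Cfsg.Agent.Lib.Fusion.SimpleCriterion2
  Cfsg.Agent.Lib.Fusion.GoodSylowCrit

variable {G : Type*} [Group G] [Finite G] {p : ℕ} [Fact p.Prime]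

/-- The simplicity criterion with generation of `N_G(S)` element by element. -/
theorem isSimple_of_closure' (S : Sylow p G) (hS1 : (S : Subgroup G) ≠ ⊥)
    (ha : ∀ T : Subgroup G, T ≠ ⊥ → (groupFusionSystem (S : Subgroup G)).StronglyClosed T → T = (S : Subgroup G))
    (hb : ∀ g : G, (∀ x ∈ (S : Subgroup G), g * x * g⁻¹ ∈ (S : Subgroup G)) → ∃ R : Subgroup G,
      (groupFusionSystem (S : Subgroup G)).IsFullyNormalized R ∧
      (groupFusionSystem (S : Subgroup G)).IsCentric R ∧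
      g ∈ Subgroup.closure {g : G | g ∈ Subgroup.normalizer (R : Set G) ∧ ∃ k : ℕ, orderOf g = p ^ k}) :
    (groupFusionSystem (S : Subgroup G)).IsSimple p := by
  have hS : IsPGroup p (S : Subgroup G) := S.isPGroup'
  have hF := GroupSylow.isSaturated_groupFusionSystem S
  refine ⟨hF, hS1, ?_⟩
  intro T E hE
  obtain ⟨⟨hEs, -, hinv⟩, -⟩ := hE
  have hsc := hinv.2.1
  by_cases hbot : T = ⊥
  · exact Or.inl hbot
  right
  have h := ha T hbot hsc
  subst h
  refine ⟨rfl, fun P => Set.Subset.antisymm (hinv.1 P) ?_⟩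
  -- all automorphisms of `S` lie in `E`
  have hkey : (groupFusionSystem (S : Subgroup G)).autGroup (S : Subgroup G) ≤
      E.autGroup (S : Subgroup G) := by
    rw [GroupSylow.autGroup_groupFusionSystem _ le_rfl]
    refine (Subgroup.closure_le _).2 ?_
    rintro β ⟨g, -, hgβ⟩
    have hgS : ∀ x ∈ (S : Subgroup G), g * x * g⁻¹ ∈ (S : Subgroup G) := by
      intro x hx
      rw [← hgβ ⟨x, hx⟩]
      exact (β ⟨x, hx⟩).2
    obtain ⟨R, hFN, hCen, hgK⟩ := hb g hgS
    obtain ⟨hgN, hmem⟩ := conj_mem_of_closure S hinv hFN hgK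
    have hRS : R ≤ (S : Subgroup G) := hFN.1
    refine mem_autGroup_of_mem ?_
    refine mem_of_res_centric hS hF hEs hinv.1 β ⟨le_rfl, fun x => (β x).2, g, hgβ⟩ hCen
      (fun x hx => ?_) (autGroup_mem_hom hRS hmem) (fun x => ?_)
    · rw [hgβ]
      exact (Subgroup.mem_normalizer_iff.1 hgN _).1 hx
    · rw [hgβ]
      rfl
  intro φ hφ
  have hPS : P ≤ (S : Subgroup G) := hφ.1
  obtain ⟨α, hα, φ₀, hφ₀, h⟩ := hinv.2.2.2 P hPS φ hφ
  have h1 := autGroup_mem_hom le_rfl (hkey hα)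
  exact comp_mem' hφ₀ h1 (map_mem_S hφ₀) (fun x => h x _)

section Cert

variable {A : Type*} [Group A]

/-- The data of the criterion on a subgroup `K` of an ambient group. -/
structure FusCert (K S R : Subgroup A) (z : A) : Prop where
  S_le : S ≤ K
  z_mem : z ∈ S
  z_ne : z ≠ 1
  hz : ∀ x ∈ S, (∀ s ∈ S, x * s = s * x) → x * x = 1 → x = 1 ∨ x = z
  closed : ∀ T : Subgroup A, z ∈ T → T ≤ S → (∀ x ∈ T, ∀ h ∈ K, h * x * h⁻¹ ∈ S → h * x * h⁻¹ ∈ T) → S ≤ T
  R_le : R ≤ S
  R_norm : ∀ s ∈ S, ∀ r ∈ R, s * r * s⁻¹ ∈ R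
  R_cent : ∀ c ∈ K, (∀ r ∈ R, c * r = r * c) → c ∈ R
  gen : ∀ g ∈ K, (∀ s ∈ S, g * s * g⁻¹ ∈ S) →
    g ∈ Subgroup.closure {t | t ∈ K ∧ (∀ r ∈ R, t * r * t⁻¹ ∈ R) ∧ ∃ k : ℕ, orderOf t = 2 ^ k}

variable {K S R : Subgroup A} {z : A}

/-- The criterion when the Sylow subgroup is the preimage of `S`. -/
theorem FusCert.isSimple_aux (c : FusCert K S R z) (f : G →* A) (hf : Function.Injective f) (hr : f.range = K)
    [Fact (Nat.Prime 2)] (Q : Sylow 2 G) (hQ : (Q : Subgroup G) = S.comap f) :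
    (groupFusionSystem (Q : Subgroup G)).IsSimple 2 := by
  have hle : ∀ y ∈ K, ∃ y', f y' = y := by
    intro y hy
    rw [← hr] at hy
    exact hy
  have mQ : ∀ {x : G}, x ∈ (Q : Subgroup G) ↔ f x ∈ S := by
    intro x
    rw [hQ]
    rfl
  have hfK : ∀ x, f x ∈ K := fun x => hr ▸ MonoidHom.mem_range.2 ⟨x, rfl⟩
  obtain ⟨z', rfl⟩ := hle z (c.S_le c.z_mem)
  have hz'Q : z' ∈ (Q : Subgroup G) := mQ.2 c.z_mem
  have hQp : IsPGroup 2 (Q : Subgroup G) := Q.isPGroup'
  refine isSimple_of_closure' Q ?_ ?_ ?_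
  · intro hb
    rw [hb, Subgroup.mem_bot] at hz'Q
    apply c.z_ne
    rw [hz'Q, map_one]
  · intro T hT hsc
    have hcl := closedIn_of_stronglyClosed hsc
    have hz' : ∀ x ∈ (Q : Subgroup G), (∀ s ∈ (Q : Subgroup G), x * s = s * x) → x * x = 1 → x = 1 ∨ x = z' := by
      intro x hx hcm hxx
      have := c.hz (f x) (mQ.1 hx) (fun s hs => ?_) (by rw [← map_mul, hxx, map_one])
      · rcases this with h | h
        · left
          exact hf (by rw [h, map_one])
        · right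
          exact hf h
      · obtain ⟨s', rfl⟩ := hle s (c.S_le hs)
        rw [← map_mul, ← map_mul, hcm s' (mQ.2 hs)]
    have hzT := central_mem_of_closedIn hQp hz' hT hcl
    have hST := c.closed (T.map f) ⟨z', hzT, rfl⟩ ?_ ?_
    · refine le_antisymm hcl.1 ?_
      intro y hy
      obtain ⟨y', hy', he⟩ := hST (mQ.1 hy)
      rw [← hf he]
      exact hy'
    · rintro _ ⟨x, hx, rfl⟩
      exact mQ.1 (hcl.1 hx)
    · rintro _ ⟨x, hx, rfl⟩ h hh hs
      obtain ⟨h', rfl⟩ := hle h hh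
      have e : f h' * f x * (f h')⁻¹ = f (h' * x * h'⁻¹) := by simp
      rw [e] at hs ⊢
      exact ⟨_, hcl.2 x hx h' (mQ.2 hs), rfl⟩
  · intro g hg
    have hRf : ∀ {x : G}, x ∈ R.comap f ↔ f x ∈ R := fun {x} => Iff.rfl
    have hR'Q : R.comap f ≤ (Q : Subgroup G) := fun x hx => mQ.2 (c.R_le hx)
    have hnormR : ∀ t : G, (∀ r ∈ R, f t * r * (f t)⁻¹ ∈ R) → t ∈ Subgroup.normalizer ((R.comap f : Subgroup G) : Set G) := by
      intro t ht
      refine SimpleCriterion.mem_normalizer_of_conj_le fun x hx => ?_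
      rw [hRf, map_mul, map_mul, map_inv]
      exact ht _ hx
    refine ⟨R.comap f, ⟨hR'Q, fun Q' _ => ?_⟩, ⟨hR'Q, fun Q' hQ' => ?_⟩, ?_⟩
    · have h1 : normalizerIn (Q : Subgroup G) (R.comap f) = (Q : Subgroup G) := by
        refine le_antisymm inf_le_left (le_inf le_rfl fun s hs => hnormR s fun r hr => c.R_norm _ (mQ.1 hs) r hr)
      rw [h1]
      exact Subgroup.card_le_of_le inf_le_left
    · rw [GroupSylow.isConj_iff] at hQ'
      obtain ⟨-, -, h, rfl⟩ := hQ'
      rintro y ⟨hy, hyc⟩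
      rw [GroupSylow.mem_cj]
      refine hRf.2 (c.R_cent _ (hfK _) fun r hr => ?_)
      obtain ⟨r', rfl⟩ := hle r (c.S_le (c.R_le hr))
      have h3 : h * r' * h⁻¹ ∈ cj h (R.comap f) := GroupSylow.conj_mem_cj hr
      have h4 := Subgroup.mem_centralizer_iff.1 hyc _ h3
      rw [← map_mul, ← map_mul]
      congr 1
      have e : h⁻¹ * y * h * r' = h⁻¹ * (y * (h * r' * h⁻¹)) * h := by group
      have e' : r' * (h⁻¹ * y * h) = h⁻¹ * ((h * r' * h⁻¹) * y) * h := by group
      rw [e, e', h4]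
    · have hgK : f g ∈ K := hfK g
      have hgS : ∀ s ∈ S, f g * s * (f g)⁻¹ ∈ S := by
        intro s hs
        obtain ⟨s', rfl⟩ := hle s (c.S_le hs)
        have := mQ.1 (hg s' (mQ.2 hs))
        simpa using this
      have h1 := c.gen (f g) hgK hgS
      set Y : Set G := {g : G | g ∈ Subgroup.normalizer ((R.comap f : Subgroup G) : Set G) ∧ ∃ k : ℕ, orderOf g = 2 ^ k}
      have h2 : Subgroup.closure {t | t ∈ K ∧ (∀ r ∈ R, t * r * t⁻¹ ∈ R) ∧ ∃ k : ℕ, orderOf t = 2 ^ k} ≤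
          (Subgroup.closure Y).map f := by
        refine (Subgroup.closure_le _).2 ?_
        rintro t ⟨htK, htR, k, hk⟩
        obtain ⟨t', rfl⟩ := hle t htK
        refine ⟨t', Subgroup.subset_closure ⟨hnormR t' htR, k, ?_⟩, rfl⟩
        rw [← hk, orderOf_injective f hf]
      obtain ⟨g', hg', he⟩ := h2 h1
      rw [← hf he]
      exact hg'

/-- The criterion: `F_Q(G)` is simple for every `G` embedded in the ambient group with image `K` and every Sylow
`2`-subgroup `Q` of `G`. -/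
theorem FusCert.isSimple (c : FusCert K S R z) {k m : ℕ} (hS : Nat.card S = 2 ^ k) (hK : Nat.card K = 2 ^ k * m)
    (hm : Odd m) (f : G →* A) (hf : Function.Injective f) (hr : f.range = K) (Q : Sylow 2 G) :
    (groupFusionSystem (Q : Subgroup G)).IsSimple 2 := by
  haveI : Fact (Nat.Prime 2) := ⟨Nat.prime_two⟩
  have hle : ∀ y ∈ K, ∃ y', f y' = y := by
    intro y hy
    rw [← hr] at hy
    exact hy
  have hcG : Nat.card G = 2 ^ k * m := by
    rw [← hK, ← hr, Nat.card_congr (MonoidHom.ofInjective hf).toEquiv]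
  have hcS : Nat.card (S.comap f) = 2 ^ k := by
    rw [← hS]
    refine Nat.card_congr (Equiv.ofBijective (fun x : S.comap f => (⟨f x, x.2⟩ : S)) ⟨?_, ?_⟩)
    · intro a b hab
      exact Subtype.ext (hf (congrArg (fun t : S => (t : A)) hab))
    · rintro ⟨y, hy⟩
      obtain ⟨y', rfl⟩ := hle y (c.S_le hy)
      exact ⟨⟨y', hy⟩, rfl⟩
  have hfac : (Nat.card G).factorization 2 = k := by
    rw [hcG, Nat.factorization_mul (by positivity) (hm.pos.ne'), Finsupp.add_apply,
      Nat.Prime.factorization_pow Nat.prime_two, Finsupp.single_eq_same,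
      Nat.factorization_eq_zero_of_not_dvd (by
        intro h2
        exact (Nat.not_even_iff_odd.2 hm) (even_iff_two_dvd.2 h2)), add_zero]
  let S₀ : Sylow 2 G := Sylow.ofCard (S.comap f) (by rw [hfac, hcS])
  obtain ⟨g, hg⟩ := MulAction.exists_smul_eq G S₀ Q
  let f' : G →* A := f.comp (MulAut.conj g⁻¹).toMonoidHom
  have hf' : Function.Injective f' := hf.comp (MulAut.conj g⁻¹).injective
  have hr' : f'.range = K := by
    rw [← hr]
    ext y
    constructor
    · rintro ⟨x, rfl⟩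
      exact ⟨_, rfl⟩
    · rintro ⟨x, rfl⟩
      refine ⟨(MulAut.conj g⁻¹).symm x, ?_⟩
      show f ((MulAut.conj g⁻¹) ((MulAut.conj g⁻¹).symm x)) = f x
      rw [MulEquiv.apply_symm_apply]
  refine c.isSimple_aux f' hf' hr' Q ?_
  ext x
  rw [← hg, Sylow.coe_subgroup_smul, Subgroup.mem_pointwise_smul_iff_inv_smul_mem]
  show (MulAut.conj g)⁻¹ • x ∈ S.comap f ↔ f (g⁻¹ * x * g⁻¹⁻¹) ∈ S
  have e : (MulAut.conj g)⁻¹ • x = g⁻¹ * x * g⁻¹⁻¹ := by
    rw [MulAut.smul_def, MulAut.conj_inv_apply, inv_inv]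
  rw [e]
  rfl

end Cert

end Cfsg.Agent.Lib.Fusion.PermFusA
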