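import Mathlib
import Cfsg.Agent.Lib.Compute.OutFinal
import Cfsg.Agent.Lib.Fusion.PermFusA

/-!
# The kernel checks behind `PermFusA.FusCert` for a permutation group

`K` is a permutation group with an exact chain (`OutFinal.ChainFor`), `S` and `R` are given by checked chains
(`PermCert.chainCheck`), `z` is the central involution of `S`.  Elements of `K` are determined by the images of the
base points: `siftB` sifts through a chain and compares only on these.
-/

set_option autoImplicit false
set_option linter.style.haveILetI false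

namespace Cfsg.Agent.Lib.Fusion.PermFusC

open Cfsg.Agent.Lib.Compute.PermCert Cfsg.Agent.Lib.Compute.OutChain Cfsg.Agent.Lib.Compute.OutFinal
open Cfsg.Agent.Lib.Compute.ToddCoxeterCore (frc frc_eq)
open Cfsg.Agent.Lib.Fusion.PermFusA

/-- `if b then t else e` on booleans, through the recursor. -/
local notation "bB(" b ", " t ", " e ")" => Bool.rec (motive := fun _ => Bool) e t b

section Defs

variable (w m N tw tm d : Nat)

/-- Sifting, comparing on the points of `bs` at the end. -/
noncomputable def siftB (bs : List Nat) : List Level → (Nat → Nat) → Bool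
  | [], x => bs.all (fun b => Nat.beq (x b) b)
  | l :: ls, x =>
    frc (x l.base) fun y =>
      match findPt y l.trans with
      | none => false
      | some e => siftB bs ls (fun i => frc (x i) (get w m e.u.g))

/-- All the elements of a chain satisfy `P` (after the element given by `vf`, `vi`). -/
noncomputable def enumS (P : (Nat → Nat) → (Nat → Nat) → Bool) : List Level → (Nat → Nat) → (Nat → Nat) → Bool
  | [], vf, vi => P vf vi
  | l :: ls, vf, vi => l.trans.all fun e =>
      enumS P ls (fun a => frc (get w m e.u.f a) vf) (fun a => frc (vi a) (get w m e.u.g))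

/-- The leaf for the centre of `S`: an element commuting with the generators on `bs` is `1` or `z` on `bs`. -/
noncomputable def centLeaf (gS : List Elt) (ze : Elt) (bs : List Nat) (vf _vi : Nat → Nat) : Bool :=
  bB(gS.all fun s => bs.all fun b => Nat.beq (vf (get w m s.f b)) (get w m s.f (vf b)),
    bB(bs.all fun b => Nat.beq (vf b) b, true, bs.all fun b => Nat.beq (vf b) (get w m ze.f b)),
    true)

/-- The leaf for the normalizer of `S` and the centralizer of `R`. -/
noncomputable def mainLeaf (bs : List Nat) (sl rl : List Level) (ts : List Elt) (cos : List (List Nat))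
    (vf vi : Nat → Nat) : Bool :=
  bB(bB((nextGens sl).all fun s => siftB w m bs sl fun i => frc (vi i) fun a => frc (get w m s.f a) vf,
      cos.any fun u => siftB w m bs sl fun i => frc (wordF w m ts u i) vf, true),
    bB((nextGens rl).all fun r => bs.all fun b => Nat.beq (vf (get w m r.f b)) (get w m r.f (vf b)),
      siftB w m bs rl vf, true), false)

/-- A step of the strong closure: `h * w(k) * h⁻¹ = y`. -/
structure FStep where
  h : Elt
  ws : List Nat
  y : Elt

/-- The generators are words in `k`. -/
def finOK (k : List Elt) : List Elt → List (List Nat) → Bool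
  | [], _ => true
  | _ :: _, [] => false
  | t :: ts, u :: us => wordCheck w m N k u t && finOK k ts us

/-- A step of the strong closure. -/
noncomputable def stepOK (ls : List Lv) (sl : List Level) (k : List Elt) (st : FStep) : Bool :=
  validB w m N st.h && validB w m N st.y && siftF w m N tw tm d ls (get w m st.h.f) &&
    sift w m N sl (get w m st.y.f) &&
    allN (fun i => Nat.beq (get w m st.h.f (wordFn w m k st.ws i)) (get w m st.y.f (get w m st.h.f i))) N d

/-- The strong closure. -/
noncomputable def stepsOK (ls : List Lv) (sl : List Level) (fin : List (List Nat)) :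
    List Elt → List FStep → Bool
  | k, [] => finOK w m N k (nextGens sl) fin
  | k, st :: sts => stepOK w m N tw tm d ls sl k st && stepsOK ls sl fin (st.y :: k) sts

/-- The checks of the elements `ts`. -/
noncomputable def tsOK (ls : List Lv) (rl : List Level) (e : Nat) (ts : List Elt) : Bool :=
  ts.all fun t => validB w m N t && siftF w m N tw tm d ls (get w m t.f) &&
    ((nextGens rl).all fun r => sift w m N rl fun i => get w m t.f (get w m r.f (get w m t.g i))) &&
    allN (fun i => Nat.beq (iterF (get w m t.f) (2 ^ e) i) i) N d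

end Defs

variable {w m N tw tm d : Nat}

theorem chainGroup_nil : chainGroup w m N [] = ⊥ := by
  simp [chainGroup, nextGens, genGroup]

theorem siftB_complete {ls : List Level} (hc : chainCheck w m N ls = true) {bs : List Nat} (hbs : ∀ b ∈ bs, b < N) :
    ∀ (x : Nat → Nat) (X : Equiv.Perm (Fin N)), (∀ i : Fin N, x i = X i) →
      X ∈ chainGroup w m N ls → siftB w m bs ls x = true := by
  induction ls with
  | nil =>
    intro x X hX h
    rw [chainGroup_nil, Subgroup.mem_bot] at h
    subst h
    rw [siftB, List.all_eq_true]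
    intro b hb
    have := hX ⟨b, hbs b hb⟩
    simpa using this
  | cons l ls ih =>
    intro x X hX hmem
    have hc' := hc
    simp only [chainCheck, Bool.and_eq_true] at hc'
    have hf := levelFacts hc'.1
    have hb := hf.base_lt
    obtain ⟨e₀, he₀, hpt, -⟩ := chain_orbit hc hb hmem
    have hx : x l.base = e₀.pt := by
      rw [← hpt]
      exact hX ⟨l.base, hb⟩
    obtain ⟨e, hfind⟩ := findPt_isSome he₀ hx.symm
    rw [siftB, frc_eq, hfind]
    obtain ⟨he, hept⟩ := findPt_some hfind
    have hX' : ∀ i : Fin N, frc (x i) (get w m e.u.g) = (((permOf w m N e.u)⁻¹ * X) i : Fin N) := by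
      intro i
      rw [frc_eq, hX, Equiv.Perm.mul_apply, permOf_symm_apply (hf.trans_valid e he)]
    refine ih hc'.2 _ _ hX' ?_
    rw [← chain_stab hc hb]
    refine ⟨Subgroup.mul_mem _ (Subgroup.inv_mem _ (hf.trans_mem e he)) hmem, ?_⟩
    show ((permOf w m N e.u)⁻¹ * X) (⟨l.base, hb⟩ : Fin N) = ⟨l.base, hb⟩
    rw [Equiv.Perm.mul_apply, Equiv.Perm.inv_eq_iff_eq]
    apply Fin.ext
    rw [permOf_apply (hf.trans_valid e he), hf.trans_pt e he, hept]
    exact (hX ⟨l.base, hb⟩).symm

theorem siftB_sound {K : Subgroup (Equiv.Perm (Fin N))} {bs : List Nat}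
    (hK1 : ∀ g ∈ K, (∀ b ∈ bs, ∀ hlt : b < N, g ⟨b, hlt⟩ = ⟨b, hlt⟩) → g = 1)
    {ls : List Level} (hc : chainCheck w m N ls = true) (hle : chainGroup w m N ls ≤ K) :
    ∀ (x : Nat → Nat) (X : Equiv.Perm (Fin N)), X ∈ K → (∀ i : Fin N, x i = X i) →
      siftB w m bs ls x = true → X ∈ chainGroup w m N ls := by
  induction ls with
  | nil =>
    intro x X hXK hX h
    rw [siftB, List.all_eq_true] at h
    have : X = 1 := by
      refine hK1 X hXK fun b hb hlt => Fin.ext ?_
      have h1 := h b hb
      rw [Nat.beq_eq] at h1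
      rw [← hX ⟨b, hlt⟩]
      exact h1
    rw [this]
    exact Subgroup.one_mem _
  | cons l ls ih =>
    intro x X hXK hX h
    simp only [chainCheck, Bool.and_eq_true] at hc
    have hf := levelFacts hc.1
    rw [siftB, frc_eq] at h
    cases hfind : findPt (x l.base) l.trans with
    | none =>
      rw [hfind] at h
      exact absurd h (by simp)
    | some e =>
      rw [hfind] at h
      have he := (findPt_some hfind).1
      have hX' : ∀ i : Fin N, frc (x i) (get w m e.u.g) = (((permOf w m N e.u)⁻¹ * X) i : Fin N) := by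
        intro i
        rw [frc_eq, hX, Equiv.Perm.mul_apply, permOf_symm_apply (hf.trans_valid e he)]
      have hle' : genGroup w m N l.gens ≤ K := hle
      have huK := hle' (hf.trans_mem e he)
      have hle2 : chainGroup w m N ls ≤ K := (chainGroup_le hc.1 hc.2).trans hle'
      have hmem := ih hc.2 hle2 _ _ (K.mul_mem (K.inv_mem huK) hXK) hX' h
      have hmem' : (permOf w m N e.u)⁻¹ * X ∈ genGroup w m N l.gens := chainGroup_le hc.1 hc.2 hmem
      have : X = permOf w m N e.u * ((permOf w m N e.u)⁻¹ * X) := by group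
      rw [this]
      exact Subgroup.mul_mem _ (hf.trans_mem e he) hmem'

theorem enumS_sound {P : (Nat → Nat) → (Nat → Nat) → Bool} {ls : List Level} (hc : chainCheck w m N ls = true) :
    ∀ (V : Equiv.Perm (Fin N)) (vf vi : Nat → Nat), Rep V vf vi → enumS w m P ls vf vi = true →
      ∀ g ∈ chainGroup w m N ls, ∃ vf' vi', Rep (V * g) vf' vi' ∧ P vf' vi' = true := by
  induction ls with
  | nil =>
    intro V vf vi hV h g hg
    rw [chainGroup_nil, Subgroup.mem_bot] at hg
    subst hg
    exact ⟨vf, vi, by simpa using hV, h⟩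
  | cons l ls ih =>
    intro V vf vi hV h g hg
    simp only [chainCheck, Bool.and_eq_true] at hc
    have hf := levelFacts hc.1
    obtain ⟨e, he, hek⟩ := level_generates hc.1 hc.2 g hg
    rw [enumS, List.all_eq_true] at h
    have hv := hf.trans_valid e he
    have hrep : Rep (V * permOf w m N e.u) (fun a => frc (get w m e.u.f a) vf)
        (fun a => frc (vi a) (get w m e.u.g)) := by
      intro i
      constructor
      · simp only [frc_eq]
        rw [Equiv.Perm.mul_apply, ← permOf_apply hv, (hV _).1]
      · simp only [frc_eq]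
        rw [(hV i).2, mul_inv_rev, Equiv.Perm.mul_apply, permOf_symm_apply hv]
    obtain ⟨vf', vi', h1, h2⟩ := ih hc.2 _ _ _ hrep (h e he) _ hek
    refine ⟨vf', vi', ?_, h2⟩
    have e1 : V * permOf w m N e.u * ((permOf w m N e.u)⁻¹ * g) = V * g := by group
    rwa [e1] at h1

theorem id_rep : Rep (1 : Equiv.Perm (Fin N)) id id := fun _ => ⟨rfl, rfl⟩

theorem finOK_le {k : List Elt} (hk : k.all (validB w m N) = true) {ts : List Elt} {us : List (List Nat)}
    (hv : ts.all (validB w m N) = true) (h : finOK w m N k ts us = true) :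
    genGroup w m N ts ≤ genGroup w m N k := by
  refine (Subgroup.closure_le _).2 ?_
  rintro _ ⟨e, he, rfl⟩
  induction ts generalizing us with
  | nil => cases he
  | cons t ts ih =>
    cases us with
    | nil => simp [finOK] at h
    | cons u us =>
      simp only [finOK, Bool.and_eq_true] at h
      simp only [List.all_cons, Bool.and_eq_true] at hv
      rcases List.mem_cons.1 he with rfl | he'
      · exact wordCheck_mem hk hv.1 h.1
      · exact ih hv.2 h.2 he'

theorem stepsOK_sound {K : Subgroup (Equiv.Perm (Fin N))} {ls : List Lv} (hK : ChainFor w m N tw tm K ls)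
    (hd : N ≤ 2 ^ d) {sl : List Level} {fin : List (List Nat)} (hsl : chainCheck w m N sl = true)
    {T : Subgroup (Equiv.Perm (Fin N))}
    (hcl : ∀ x ∈ T, ∀ h ∈ K, h * x * h⁻¹ ∈ chainGroup w m N sl → h * x * h⁻¹ ∈ T)
    (sts : List FStep) : ∀ k : List Elt, k.all (validB w m N) = true → (∀ e ∈ k, permOf w m N e ∈ T) →
      stepsOK w m N tw tm d ls sl fin k sts = true → chainGroup w m N sl ≤ T := by
  induction sts with
  | nil =>
    intro k hk hT h
    rw [stepsOK] at h
    refine (finOK_le hk (chain_gens_valid hsl) h).trans ?_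
    refine (Subgroup.closure_le _).2 ?_
    rintro _ ⟨e, he, rfl⟩
    exact hT e he
  | cons st sts ih =>
    intro k hk hT h
    rw [stepsOK] at h
    simp only [stepOK, Bool.and_eq_true] at h
    obtain ⟨⟨⟨⟨⟨vh, vy⟩, hh⟩, hy⟩, hc⟩, h⟩ := h
    refine ih (st.y :: k) (by simp [vy, hk]) ?_ h
    have hgT : genGroup w m N k ≤ T := by
      refine (Subgroup.closure_le _).2 ?_
      rintro _ ⟨e, he, rfl⟩
      exact hT e he
    have hW : wordPerm w m N k st.ws ∈ T := hgT (wordPerm_mem _ _)
    have hhK : permOf w m N st.h ∈ K := hK.mem_of_sift hd (gt_eq vh) hh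
    have hyS : permOf w m N st.y ∈ chainGroup w m N sl :=
      (sift_iff hsl _ _ (gt_eq vy)).2 hy
    have he : permOf w m N st.h * wordPerm w m N k st.ws = permOf w m N st.y * permOf w m N st.h := by
      refine eq_of_check (d := d) (fun i => ?_) (fun i => ?_) hd hc
      · rw [wordFn_eq hk, Equiv.Perm.mul_apply, ← permOf_apply vh]
      · rw [Equiv.Perm.mul_apply, ← permOf_apply vh, ← permOf_apply vy]
    have he' : permOf w m N st.h * wordPerm w m N k st.ws * (permOf w m N st.h)⁻¹ = permOf w m N st.y := by
      rw [he]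
      group
    intro e he2
    rcases List.mem_cons.1 he2 with rfl | he3
    · rw [← he']
      exact hcl _ hW _ hhK (by rw [he']; exact hyS)
    · exact hT e he3

section Main

variable {K : Subgroup (Equiv.Perm (Fin N))} {lr : List (Lv × Rule)}

theorem base1 (hK : ChainFor w m N tw tm K (lr.map Prod.fst)) (g : Equiv.Perm (Fin N)) (hg : g ∈ K)
    (h : ∀ b ∈ baseL (lr.map Prod.fst), ∀ hlt : b < N, g ⟨b, hlt⟩ = ⟨b, hlt⟩) : g = 1 :=
  hK.eq_of_base hg K.one_mem (fun b hb hlt => by simpa using h b hb hlt)

theorem mem_normalizer_of_conj {H : Subgroup (Equiv.Perm (Fin N))} {g : Equiv.Perm (Fin N)}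
    (h : ∀ x ∈ H, g * x * g⁻¹ ∈ H) : g ∈ Subgroup.normalizer (H : Set (Equiv.Perm (Fin N))) := by
  have hle : H.map (MulAut.conj g).toMonoidHom ≤ H := by
    rintro _ ⟨x, hx, rfl⟩
    exact h x hx
  have hcard : Nat.card H ≤ Nat.card (H.map (MulAut.conj g).toMonoidHom) := by
    rw [Nat.card_congr (H.equivMapOfInjective (MulAut.conj g).toMonoidHom
      (MulAut.conj g).injective).toEquiv]
  have heq := Subgroup.eq_of_le_of_card_ge hle hcard
  rw [Subgroup.mem_normalizer_iff]
  intro x
  refine ⟨h x, fun hx => ?_⟩
  rw [← heq] at hx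
  obtain ⟨y, hy, hyx⟩ := hx
  have : y = x := by
    have e : g * y * g⁻¹ = g * x * g⁻¹ := hyx
    exact mul_left_cancel (mul_right_cancel e)
  exact this ▸ hy

/-- An element conjugating generators into a chain group normalizes it. -/
theorem conj_chain {rl : List Level} {gg : Equiv.Perm (Fin N)}
    (h : ∀ r ∈ nextGens rl, gg * permOf w m N r * gg⁻¹ ∈ chainGroup w m N rl) :
    ∀ x ∈ chainGroup w m N rl, gg * x * gg⁻¹ ∈ chainGroup w m N rl := by
  have hle : chainGroup w m N rl ≤ (chainGroup w m N rl).comap (MulAut.conj gg).toMonoidHom := by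
    refine (Subgroup.closure_le _).2 ?_
    rintro _ ⟨r, hr, rfl⟩
    exact h r hr
  intro x hx
  exact hle hx

theorem fusCert_of_checks (hK : ChainFor w m N tw tm K (lr.map Prod.fst)) (hd : N ≤ 2 ^ d)
    {sl rl : List Level} {ze : Elt} {ts : List Elt} {cos : List (List Nat)} {steps : List FStep}
    {fin : List (List Nat)} {k e : Nat} {iz : Nat}
    (hsl : chainCheck w m N sl = true) (hrl : chainCheck w m N rl = true) (vz : validB w m N ze = true)
    (hord : chainOrder sl = 2 ^ k)
    (hSK : (nextGens sl).all (fun s => siftF w m N tw tm d (lr.map Prod.fst) (get w m s.f)) = true)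
    (hRS : (nextGens rl).all (fun r => sift w m N sl (get w m r.f)) = true)
    (hRN : (nextGens sl).all (fun s => (nextGens rl).all fun r =>
      sift w m N rl fun i => get w m s.f (get w m r.f (get w m s.g i))) = true)
    (hzR : sift w m N rl (get w m ze.f) = true)
    (hiz : iz < N) (hzm : Nat.beq (get w m ze.f iz) iz = false)
    (hzc : (nextGens sl).all (fun s => allN (fun i => Nat.beq (get w m s.f (get w m ze.f i))
      (get w m ze.f (get w m s.f i))) N d) = true)
    (hcent : enumS w m (centLeaf w m (nextGens sl) ze (baseL (lr.map Prod.fst))) sl id id = true)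
    (hsteps : stepsOK w m N tw tm d (lr.map Prod.fst) sl fin [ze] steps = true)
    (hts : tsOK w m N tw tm d (lr.map Prod.fst) rl e ts = true)
    (hrules : rulesOK N (get w m ze.f) [] lr = true)
    (hs : searchF w m N tw tm d (get w m ze.f)
      (mainLeaf w m (baseL (lr.map Prod.fst)) sl rl ts cos) lr id id = true) :
    FusCert K (chainGroup w m N sl) (chainGroup w m N rl) (permOf w m N ze) := by
  have hbs : ∀ b ∈ baseL (lr.map Prod.fst), b < N := hK.base_lt
  have hgS := chain_gens_valid hsl
  have hgR := chain_gens_valid hrl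
  have hSle : chainGroup w m N sl ≤ K := by
    refine (Subgroup.closure_le _).2 ?_
    rintro _ ⟨s, hs', rfl⟩
    exact hK.mem_of_sift hd (gt_eq (List.all_eq_true.1 hgS s hs')) (List.all_eq_true.1 hSK s hs')
  have hRle : chainGroup w m N rl ≤ chainGroup w m N sl := by
    refine (Subgroup.closure_le _).2 ?_
    rintro _ ⟨r, hr, rfl⟩
    exact (sift_iff hsl _ _ (gt_eq (List.all_eq_true.1 hgR r hr))).2 (List.all_eq_true.1 hRS r hr)
  have hzRm : permOf w m N ze ∈ chainGroup w m N rl := (sift_iff hrl _ _ (gt_eq vz)).2 hzR
  have hzS := hRle hzRm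
  have hzK := hSle hzS
  have hzne : permOf w m N ze ≠ 1 := ne_one_of_point vz hiz hzm
  have hcardS : Nat.card (chainGroup w m N sl) = 2 ^ k := by
    rw [chain_card hsl, hord]
  haveI : Fact (Nat.Prime 2) := ⟨Nat.prime_two⟩
  have hSp : IsPGroup 2 (chainGroup w m N sl) := IsPGroup.of_card hcardS
  -- `z` is central in `S`
  have hzCen : ∀ s ∈ chainGroup w m N sl, permOf w m N ze * s = s * permOf w m N ze := by
    have hle : chainGroup w m N sl ≤ Subgroup.centralizer {permOf w m N ze} := by
      refine (Subgroup.closure_le _).2 ?_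
      rintro _ ⟨s, hs', rfl⟩
      rw [SetLike.mem_coe, Subgroup.mem_centralizer_singleton_iff]
      have vs := List.all_eq_true.1 hgS s hs'
      exact comm_of_check vs vz hd (List.all_eq_true.1 hzc s hs')
    intro s hs'
    have := hle hs'
    rw [Subgroup.mem_centralizer_singleton_iff] at this
    exact this.symm
  -- central elements
  have hzz : ∀ x ∈ chainGroup w m N sl, (∀ s ∈ chainGroup w m N sl, x * s = s * x) → x = 1 ∨ x = permOf w m N ze := by
    intro x hx hxc
    obtain ⟨vf, vi, hrep, hleaf⟩ := enumS_sound hsl 1 id id id_rep hcent x hx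
    rw [one_mul] at hrep
    unfold centLeaf at hleaf
    have hcom : ((nextGens sl).all fun s => (baseL (lr.map Prod.fst)).all fun b =>
        Nat.beq (vf (get w m s.f b)) (get w m s.f (vf b))) = true := by
      rw [List.all_eq_true]
      intro s hs'
      rw [List.all_eq_true]
      intro b hb
      have hb' := hbs b hb
      have vs := List.all_eq_true.1 hgS s hs'
      have h1 := hxc _ (permOf_mem_genGroup hs')
      have h2 := congrArg (fun g : Equiv.Perm (Fin N) => ((g ⟨b, hb'⟩ : Fin N) : Nat)) h1
      simp only [Equiv.Perm.mul_apply] at h2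
      rw [Nat.beq_eq]
      have e1 : get w m s.f b = (permOf w m N s ⟨b, hb'⟩ : Fin N) := (permOf_apply vs ⟨b, hb'⟩).symm
      have e2 : vf b = (x ⟨b, hb'⟩ : Fin N) := (hrep ⟨b, hb'⟩).1
      rw [e2, ← permOf_apply vs (x ⟨b, hb'⟩), e1, (hrep _).1]
      exact h2
    rw [hcom] at hleaf
    simp only at hleaf
    cases hA : (baseL (lr.map Prod.fst)).all fun b => Nat.beq (vf b) b with
    | true =>
      left
      refine base1 hK x (hSle hx) fun b hb hlt => Fin.ext ?_
      have h1 := List.all_eq_true.1 hA b hb
      rw [Nat.beq_eq] at h1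
      rw [← (hrep ⟨b, hlt⟩).1]
      exact h1
    | false =>
      rw [hA] at hleaf
      right
      refine hK.eq_of_base (hSle hx) hzK fun b hb hlt => Fin.ext ?_
      have h1 := List.all_eq_true.1 hleaf b hb
      rw [Nat.beq_eq] at h1
      rw [← (hrep ⟨b, hlt⟩).1, h1, permOf_apply vz]
  -- the search
  have hfz : ∀ i : Fin N, get w m ze.f i = (permOf w m N ze i : Fin N) := gt_eq vz
  have hsearch := search_use hK hd hfz hfz hrules hs
  have hleafs : ∀ c ∈ K, c * permOf w m N ze = permOf w m N ze * c →
      ∃ vf vi, Rep c vf vi ∧ mainLeaf w m (baseL (lr.map Prod.fst)) sl rl ts cos vf vi = true := by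
    intro c hc hcz
    refine hsearch c hc fun a => ?_
    have := congrArg (fun g : Equiv.Perm (Fin N) => g a) hcz
    simpa [Equiv.Perm.mul_apply] using this
  have hleaf12 : ∀ {vf vi : Nat → Nat}, mainLeaf w m (baseL (lr.map Prod.fst)) sl rl ts cos vf vi = true →
      (((nextGens sl).all fun s => siftB w m (baseL (lr.map Prod.fst)) sl fun i => frc (vi i) fun a => frc (get w m s.f a) vf) = true →
        (cos.any fun u => siftB w m (baseL (lr.map Prod.fst)) sl fun i => frc (wordF w m ts u i) vf) = true) ∧
      (((nextGens rl).all fun r => (baseL (lr.map Prod.fst)).all fun b =>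
          Nat.beq (vf (get w m r.f b)) (get w m r.f (vf b))) = true →
        siftB w m (baseL (lr.map Prod.fst)) rl vf = true) := by
    intro vf vi h
    unfold mainLeaf at h
    cases h1 : ((nextGens sl).all fun s => siftB w m (baseL (lr.map Prod.fst)) sl fun i => frc (vi i) fun a => frc (get w m s.f a) vf) with
    | false =>
      rw [h1] at h
      simp only at h
      refine ⟨fun h2 => absurd h2 (by simp), fun h2 => ?_⟩
      rw [h2] at h
      exact h
    | true =>
      rw [h1] at h
      simp only at h
      cases h2 : (cos.any fun u => siftB w m (baseL (lr.map Prod.fst)) sl fun i => frc (wordF w m ts u i) vf) with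
      | false =>
        rw [h2] at h
        exact absurd h (by simp)
      | true =>
        rw [h2] at h
        simp only at h
        refine ⟨fun _ => rfl, fun h3 => ?_⟩
        rw [h3] at h
        exact h
  refine ⟨hSle, hzS, hzne, fun x hx hxc _ => hzz x hx hxc, ?_, hRle, ?_, ?_, ?_⟩
  · -- strong closure
    intro T hzT hTS hcl
    refine stepsOK_sound hK hd hsl hcl steps [ze] (by simp [vz]) ?_ hsteps
    intro e' he'
    rw [List.mem_singleton] at he'
    rw [he']
    exact hzT
  · -- `R` is normal in `S`
    have hle : chainGroup w m N sl ≤ Subgroup.normalizer (chainGroup w m N rl : Set (Equiv.Perm (Fin N))) := by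
      refine (Subgroup.closure_le _).2 ?_
      rintro _ ⟨s, hs', rfl⟩
      refine mem_normalizer_of_conj (conj_chain fun r hr => ?_)
      have vs := List.all_eq_true.1 hgS s hs'
      have vr := List.all_eq_true.1 hgR r hr
      have h1 := List.all_eq_true.1 (List.all_eq_true.1 hRN s hs') r hr
      refine (sift_iff hrl _ _ (fun i => ?_)).2 h1
      simp only [Equiv.Perm.mul_apply]
      rw [← permOf_symm_apply vs, ← permOf_apply vr, ← permOf_apply vs]
    intro s hs' r hr
    exact (Subgroup.mem_normalizer_iff.1 (hle hs') r).1 hr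
  · -- the centralizer of `R`
    intro c hc hcr
    obtain ⟨vf, vi, hrep, hleaf⟩ := hleafs c hc (hcr _ hzRm)
    refine siftB_sound (base1 hK) hrl (hRle.trans hSle) vf c hc (fun i => (hrep i).1) ((hleaf12 hleaf).2 ?_)
    rw [List.all_eq_true]
    intro r hr
    rw [List.all_eq_true]
    intro b hb
    have hb' := hbs b hb
    have vr := List.all_eq_true.1 hgR r hr
    have h1 := hcr _ (permOf_mem_genGroup hr)
    have h2 := congrArg (fun g : Equiv.Perm (Fin N) => ((g ⟨b, hb'⟩ : Fin N) : Nat)) h1
    simp only [Equiv.Perm.mul_apply] at h2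
    rw [Nat.beq_eq]
    have e1 : get w m r.f b = (permOf w m N r ⟨b, hb'⟩ : Fin N) := (permOf_apply vr ⟨b, hb'⟩).symm
    have e2 : vf b = (c ⟨b, hb'⟩ : Fin N) := (hrep ⟨b, hb'⟩).1
    rw [e2, ← permOf_apply vr (c ⟨b, hb'⟩), e1, (hrep _).1]
    exact h2
  · -- the normalizer of `S`
    intro g hg hgn
    set Y : Set (Equiv.Perm (Fin N)) := {t | t ∈ K ∧ (∀ r ∈ chainGroup w m N rl, t * r * t⁻¹ ∈ chainGroup w m N rl) ∧
      ∃ k : ℕ, orderOf t = 2 ^ k} with hY
    have hgN := mem_normalizer_of_conj hgn
    -- `g` centralizes `z`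
    have hgz : g * permOf w m N ze = permOf w m N ze * g := by
      have h1 : g * permOf w m N ze * g⁻¹ ∈ chainGroup w m N sl := hgn _ hzS
      have h2 := hzz _ h1 (fun s hs' => ?_)
      · rcases h2 with h2 | h2
        · exfalso
          apply hzne
          have h3 : permOf w m N ze = g⁻¹ * (g * permOf w m N ze * g⁻¹) * g := by group
          rw [h3, h2]
          group
        · have h3 : g * permOf w m N ze = (g * permOf w m N ze * g⁻¹) * g := by group
          rw [h3, h2]
      · have h3 : g⁻¹ * s * g ∈ chainGroup w m N sl := by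
          have := (Subgroup.mem_normalizer_iff.1 (Subgroup.inv_mem _ hgN) s).1 hs'
          simpa using this
        have h4 := hzCen _ h3
        have e1 : g * permOf w m N ze * g⁻¹ * s = g * (permOf w m N ze * (g⁻¹ * s * g)) * g⁻¹ := by group
        have e2 : s * (g * permOf w m N ze * g⁻¹) = g * ((g⁻¹ * s * g) * permOf w m N ze) * g⁻¹ := by group
        rw [e1, e2, h4]
    obtain ⟨vf, vi, hrep, hleaf⟩ := hleafs g hg hgz
    have hany := (hleaf12 hleaf).1 (by
      rw [List.all_eq_true]
      intro s hs'
      have vs := List.all_eq_true.1 hgS s hs'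
      refine siftB_complete hsl hbs _ (g * permOf w m N s * g⁻¹) (fun i => ?_)
        (hgn _ (permOf_mem_genGroup hs'))
      simp only [frc_eq]
      rw [(hrep i).2, ← permOf_apply vs, (hrep _).1]
      simp only [Equiv.Perm.mul_apply])
    rw [List.any_eq_true] at hany
    obtain ⟨u, -, hu⟩ := hany
    -- the generators
    have hvt : ts.all (validB w m N) = true := by
      rw [List.all_eq_true]
      intro t ht
      have h1 := List.all_eq_true.1 hts t ht
      simp only [Bool.and_eq_true] at h1
      exact h1.1.1.1
    have htY : ∀ t ∈ ts, permOf w m N t ∈ Y := by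
      intro t ht
      have h1 := List.all_eq_true.1 hts t ht
      simp only [Bool.and_eq_true] at h1
      obtain ⟨⟨⟨vt, htK⟩, htR⟩, htp⟩ := h1
      refine ⟨hK.mem_of_sift hd (gt_eq vt) htK, conj_chain fun r hr => ?_, ?_⟩
      · have vr := List.all_eq_true.1 hgR r hr
        have h1 := List.all_eq_true.1 htR r hr
        refine (sift_iff hrl _ _ (fun i => ?_)).2 h1
        simp only [Equiv.Perm.mul_apply]
        rw [← permOf_symm_apply vt, ← permOf_apply vr, ← permOf_apply vt]
      · have h2 : permOf w m N t ^ (2 ^ e) = 1 := pow_of_check vt hd htp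
        obtain ⟨j, -, hj⟩ := (Nat.dvd_prime_pow Nat.prime_two).1 (orderOf_dvd_of_pow_eq_one h2)
        exact ⟨j, hj⟩
    have hgtY : genGroup w m N ts ≤ Subgroup.closure Y := by
      refine (Subgroup.closure_le _).2 ?_
      rintro _ ⟨t, ht, rfl⟩
      exact Subgroup.subset_closure (htY t ht)
    have hgtK : Subgroup.closure Y ≤ K := by
      refine (Subgroup.closure_le _).2 ?_
      rintro t ht
      exact ht.1
    have hU := wordPerm_mem (w := w) (m := m) (n := N) ts u
    have hX : g * wordPerm w m N ts u ∈ chainGroup w m N sl := by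
      refine siftB_sound (base1 hK) hsl hSle _ _ (K.mul_mem hg (hgtK (hgtY hU))) (fun i => ?_) hu
      simp only [frc_eq]
      rw [wordF_eq, wordFn_eq hvt, Equiv.Perm.mul_apply, (hrep _).1]
    have hSY : chainGroup w m N sl ≤ Subgroup.closure Y := by
      intro s hs'
      refine Subgroup.subset_closure ⟨hSle hs', ?_, ?_⟩
      · have hle : chainGroup w m N sl ≤ Subgroup.normalizer (chainGroup w m N rl : Set (Equiv.Perm (Fin N))) := by
          refine (Subgroup.closure_le _).2 ?_
          rintro _ ⟨s, hs', rfl⟩
          refine mem_normalizer_of_conj (conj_chain fun r hr => ?_)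
          have vs := List.all_eq_true.1 hgS s hs'
          have vr := List.all_eq_true.1 hgR r hr
          have h1 := List.all_eq_true.1 (List.all_eq_true.1 hRN s hs') r hr
          refine (sift_iff hrl _ _ (fun i => ?_)).2 h1
          simp only [Equiv.Perm.mul_apply]
          rw [← permOf_symm_apply vs, ← permOf_apply vr, ← permOf_apply vs]
        intro r hr
        exact (Subgroup.mem_normalizer_iff.1 (hle hs') r).1 hr
      · obtain ⟨j, hj⟩ := (IsPGroup.iff_orderOf.1 hSp) ⟨s, hs'⟩
        refine ⟨j, ?_⟩
        rw [← hj, Subgroup.orderOf_mk]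
    have : g = (g * wordPerm w m N ts u) * (wordPerm w m N ts u)⁻¹ := by group
    rw [this]
    exact Subgroup.mul_mem _ (hSY hX) (Subgroup.inv_mem _ (hgtY hU))

end Main

end Cfsg.Agent.Lib.Fusion.PermFusC
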