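import Mathlib
import Cfsg.Agent.Lib.Fusion.PermFusDataJ2

/-! The kernel checks for the simplicity of the `2`-fusion system of `J₂`. -/

set_option autoImplicit false
set_option maxRecDepth 100000

namespace Cfsg.Agent.Lib.Fusion.PermFusData.J2

open Cfsg.Agent.Lib.Compute.PermCert Cfsg.Agent.Lib.Compute.OutChain Cfsg.Agent.Lib.Compute.OutFinal
  Cfsg.Agent.Lib.Fusion.PermFusC

local notation "W" => (9 : Nat)
local notation "M" => (511 : Nat)
local notation "NN" => (315 : Nat)
local notation "TW" => (21 : Nat)
local notation "TM" => (2097151 : Nat)
local notation "DD" => (9 : Nat)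

theorem chainK : chkChainF W M NN TW TM DD (lrK.map Prod.fst) = true := by decide +kernel
theorem ordK : ordC (lrK.map Prod.fst) = 604800 := by decide +kernel
theorem hsl : chainCheck W M NN sl = true := by decide +kernel
theorem hrl : chainCheck W M NN rl = true := by decide +kernel
theorem vz : validB W M NN ze = true := by decide +kernel
theorem hord : chainOrder sl = 2 ^ 7 := by decide +kernel
theorem hSK : (nextGens sl).all (fun s => siftF W M NN TW TM DD (lrK.map Prod.fst) (get W M s.f)) = true := by decide +kernel
theorem hRS : (nextGens rl).all (fun r => sift W M NN sl (get W M r.f)) = true := by decide +kernel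
theorem hRN : (nextGens sl).all (fun s => (nextGens rl).all fun r =>
      sift W M NN rl fun i => get W M s.f (get W M r.f (get W M s.g i))) = true := by decide +kernel
theorem hzR : sift W M NN rl (get W M ze.f) = true := by decide +kernel
theorem hzm : Nat.beq (get W M ze.f 0) 0 = false := by decide +kernel
theorem hzc : (nextGens sl).all (fun s => allN (fun i => Nat.beq (get W M s.f (get W M ze.f i))
      (get W M ze.f (get W M s.f i))) NN DD) = true := by decide +kernel
theorem hcent : enumS W M (centLeaf W M (nextGens sl) ze (baseL (lrK.map Prod.fst))) sl id id = true := by decide +kernel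
theorem hsteps : stepsOK W M NN TW TM DD (lrK.map Prod.fst) sl finL [ze] stepsL = true := by decide +kernel
theorem hts : tsOK W M NN TW TM DD (lrK.map Prod.fst) rl 3 ts = true := by decide +kernel
theorem hrules : rulesOK NN (get W M ze.f) [] lrK = true := by decide +kernel
theorem hs : searchF W M NN TW TM DD (get W M ze.f)
      (mainLeaf W M (baseL (lrK.map Prod.fst)) sl rl ts cos) lrK id id = true := by decide +kernel

end Cfsg.Agent.Lib.Fusion.PermFusData.J2
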