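import Mathlib
import Cfsg.Agent.Lib.Compute.OutChain

/-! Splitting a search over a stabiliser chain along the images of the first base point, so that the kernel
can check the branches one at a time. -/

set_option autoImplicit false

namespace Cfsg.Agent.Lib.Fusion.PermFusSplit

open Cfsg.Agent.Lib.Compute.PermCert Cfsg.Agent.Lib.Compute.OutChain
open Cfsg.Agent.Lib.Compute.ToddCoxeterCore (frc frc_eq)

local notation "bB(" b ", " t ", " e ")" => Bool.rec (motive := fun _ => Bool) e t b

/-- One branch of a search at a free level. -/
noncomputable def brF (w m N tw tm d : Nat) (x' : Nat → Nat) (P : (Nat → Nat) → (Nat → Nat) → Bool) (l : Lv) (k : Nat)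
    (ls : List (Lv × Rule)) (vf vi : Nat → Nat) (y : Nat) : Bool :=
  frc (dep w (ent tw tm l y)) fun e =>
      bB(Nat.beq e 0, true, frc (vf y) fun q =>
        bB(bB(Nat.beq k 0, true, Nat.beq (iterF x' k q) q),
          frc (Nat.pred e) fun e' => searchF w m N tw tm d x' P ls (fun a => frc (fwdUF w m tw tm l e' y a) vf)
            (fun a => frc (vi a) (invUF w m tw tm l e' y)), true))

/-- All of `a, a + 1, ..., a + n - 1` satisfy `f`. -/
noncomputable def allR (f : Nat → Bool) : Nat → Nat → Bool
  | _, 0 => true
  | a, n + 1 => bB(f a, frc (Nat.succ a) fun a' => allR f a' n, false)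

theorem allR_spec (f : Nat → Bool) (n a : Nat) (h : allR f a n = true) (y : Nat) (h1 : a ≤ y) (h2 : y < a + n) :
    f y = true := by
  induction n generalizing a with
  | zero => omega
  | succ n ih =>
    rw [allR] at h
    cases hf : f a with
    | false => rw [hf] at h; exact absurd h (by simp)
    | true =>
      rw [hf] at h
      have h' : allR f (Nat.succ a) n = true := by
        simpa [frc_eq] using h
      rcases Nat.eq_or_lt_of_le h1 with h3 | h3
      · rw [← h3]; exact hf
      · exact ih (Nat.succ a) h' (by omega) (by omega)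

theorem searchF_of_branches {w m N tw tm d : Nat} {x' : Nat → Nat} {P : (Nat → Nat) → (Nat → Nat) → Bool} {l : Lv}
    {k : Nat} {ls : List (Lv × Rule)} {vf vi : Nat → Nat} (hd : N ≤ 2 ^ d)
    (h : ∀ y, y < N → brF w m N tw tm d x' P l k ls vf vi y = true) :
    searchF w m N tw tm d x' P ((l, Rule.free k) :: ls) vf vi = true := by
  rw [searchF, allN_eq _ hd, allB_iff]
  exact h

end Cfsg.Agent.Lib.Fusion.PermFusSplit
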