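import Mathlib
import Cfsg.Agent.Lib.Fusion.PermFusDataMcL
import Cfsg.Agent.Lib.Fusion.PermFusSplit

/-! The kernel checks for the simplicity of the `2`-fusion system of `McL`: the main search, branch by branch. -/

set_option autoImplicit false
set_option maxRecDepth 100000
set_option maxHeartbeats 0
set_option Elab.async false

namespace Cfsg.Agent.Lib.Fusion.PermFusData.McL

open Cfsg.Agent.Lib.Compute.PermCert Cfsg.Agent.Lib.Compute.OutChain Cfsg.Agent.Lib.Compute.OutFinal
  Cfsg.Agent.Lib.Fusion.PermFusC Cfsg.Agent.Lib.Fusion.PermFusSplit

local notation "W" => (9 : Nat)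
local notation "M" => (511 : Nat)
local notation "NN" => (275 : Nat)
local notation "TW" => (21 : Nat)
local notation "TM" => (2097151 : Nat)
local notation "DD" => (9 : Nat)

/-- The branches of the main search. -/
noncomputable def brK : Nat → Bool :=
  brF W M NN TW TM DD (get W M ze.f) (mainLeaf W M (baseL (lrK.map Prod.fst)) sl rl ts cos) lvK0 1 lrK.tail id id

theorem hs0 : allR brK 0 32 = true := by decide +kernel
theorem hs1 : allR brK 32 41 = true := by decide +kernel
theorem hs2 : allR brK 73 56 = true := by decide +kernel
theorem hs3 : allR brK 129 47 = true := by decide +kernel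
theorem hs4 : allR brK 176 24 = true := by decide +kernel
theorem hs5 : allR brK 200 23 = true := by decide +kernel
theorem hs6 : allR brK 223 52 = true := by decide +kernel

theorem hs : searchF W M NN TW TM DD (get W M ze.f) (mainLeaf W M (baseL (lrK.map Prod.fst)) sl rl ts cos) lrK id id = true := by
  refine searchF_of_branches (w := W) (m := M) (N := NN) (tw := TW) (tm := TM) (d := DD) (l := lvK0) (k := 1)
    (ls := lrK.tail) (by norm_num) ?_
  intro y hy
  have key : brK y = true := by
    rcases lt_or_ge y 32 with h | h
    · exact allR_spec brK 32 0 hs0 y (by omega) (by omega)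
    rcases lt_or_ge y 73 with h2 | h2
    · exact allR_spec brK 41 32 hs1 y (by omega) (by omega)
    rcases lt_or_ge y 129 with h3 | h3
    · exact allR_spec brK 56 73 hs2 y (by omega) (by omega)
    rcases lt_or_ge y 176 with h4 | h4
    · exact allR_spec brK 47 129 hs3 y (by omega) (by omega)
    rcases lt_or_ge y 200 with h5 | h5
    · exact allR_spec brK 24 176 hs4 y (by omega) (by omega)
    rcases lt_or_ge y 223 with h6 | h6
    · exact allR_spec brK 23 200 hs5 y (by omega) (by omega)
    · exact allR_spec brK 52 223 hs6 y (by omega) (by omega)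
  exact key

end Cfsg.Agent.Lib.Fusion.PermFusData.McL
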