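import Mathlib
import Cfsg.Agent.Lib.Compute.J3.Inst

/-! The Janko group `J₃` embeds in `Perm (Fin 6156)` with image the group `PermPart.P`. -/

set_option autoImplicit false
set_option linter.style.haveILetI false

namespace Cfsg.Agent.Lib.Fusion.PermFusJ3Iso

open Cfsg Cfsg.Spor Cfsg.Agent.Lib.Compute.J3.Main Cfsg.Agent.Lib.Compute.J3.Inst Cfsg.Agent.Lib.Compute.J3.PermPart

variable {F : Type*} [Field F] [Fintype F] (hF : Fintype.card F = 4) {ω : F} (hω : ω ^ 2 + ω + 1 = 0)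

include hF hω in
theorem exists_embed : ∃ f : J3 F ω →* Equiv.Perm (Fin 6156), Function.Injective f ∧ f.range = P := by
  have : CharP F 2 := charP_of_card hF
  let S := theSetup (omega_sq hω) (omega_ne_zero hω) (omega_ne_one hω)
  obtain ⟨L, hLM, hLc, hT1, hT2⟩ := chain_exists S
  obtain ⟨hMc, hLc'⟩ := orders hLM hLc hT1 hT2
  obtain ⟨ρ, h1, h2, -⟩ := rho_exists hLM hLc' hMc hT1 hT2
  have hrange := range_rho ρ h1 h2
  have hM : S.M = threeJ3 F ω := M_eq _ _ _
  obtain ⟨hc3, hcM, -, -⟩ := threeJ3_main hF hω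
  let e : threeJ3 F ω ≃* S.M := MulEquiv.subgroupCongr hM.symm
  let ρ₀ : threeJ3 F ω →* Equiv.Perm (Fin 6156) := ρ.comp e.toMonoidHom
  have hr₀ : ρ₀.range = P := by
    rw [← hrange]
    ext y
    constructor
    · rintro ⟨x, rfl⟩
      exact ⟨_, rfl⟩
    · rintro ⟨x, rfl⟩
      refine ⟨e.symm x, ?_⟩
      show ρ (e (e.symm x)) = ρ x
      rw [MulEquiv.apply_symm_apply]
  have hcP := P_card_of_field hF hω
  have hcen := P_center hcP
  have hle : Subgroup.center (threeJ3 F ω) ≤ ρ₀.ker := by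
    intro x hx
    rw [MonoidHom.mem_ker]
    have hmem : ρ₀ x ∈ P := hr₀ ▸ MonoidHom.mem_range.2 ⟨x, rfl⟩
    have h3 : (⟨ρ₀ x, hmem⟩ : P) ∈ Subgroup.center P := by
      rw [Subgroup.mem_center_iff]
      rintro ⟨y, hy⟩
      rw [← hr₀] at hy
      obtain ⟨y', rfl⟩ := hy
      apply Subtype.ext
      show ρ₀ y' * ρ₀ x = ρ₀ x * ρ₀ y'
      rw [← map_mul, ← map_mul, (Subgroup.mem_center_iff.1 hx) y']
    rw [hcen, Subgroup.mem_bot] at h3
    exact congrArg Subtype.val h3
  have hkercard : Nat.card ρ₀.ker = 3 := by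
    have h4 := Subgroup.card_mul_index ρ₀.ker
    rw [Subgroup.index_ker, hr₀, hcP, hcM] at h4
    omega
  have hker : Subgroup.center (threeJ3 F ω) = ρ₀.ker :=
    Subgroup.eq_of_le_of_card_ge hle (by rw [hkercard, hc3])
  refine ⟨QuotientGroup.lift _ ρ₀ hle, ?_, ?_⟩
  · rw [injective_iff_map_eq_one]
    intro a
    induction a using QuotientGroup.induction_on with
    | H x =>
      intro hx
      rw [QuotientGroup.lift_mk] at hx
      have h5 : x ∈ ρ₀.ker := hx
      rw [← hker] at h5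
      exact (QuotientGroup.eq_one_iff x).2 h5
  · rw [← hr₀]
    ext y
    constructor
    · rintro ⟨a, rfl⟩
      induction a using QuotientGroup.induction_on with
      | H x =>
        rw [QuotientGroup.lift_mk]
        exact ⟨x, rfl⟩
    · rintro ⟨x, rfl⟩
      exact ⟨(x : threeJ3 F ω ⧸ Subgroup.center (threeJ3 F ω)), QuotientGroup.lift_mk _ _ _⟩

end Cfsg.Agent.Lib.Fusion.PermFusJ3Iso
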