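/-
Direct products of saturated fusion systems.
-/
import Mathlib
import Cfsg.Prelude.Def_FusionComponents
import Cfsg.Agent.Lib.Fusion.Basic
import Cfsg.Agent.Lib.Fusion.Saturated

set_option autoImplicit false

namespace Cfsg.Agent.Lib.Fusion.ProductSystem

open Cfsg Cfsg.FusionSystem Cfsg.Agent.Lib.Fusion.Basic Cfsg.Agent.Lib.Fusion.Saturated

section oneSided

variable {X X₁ : Type*} [Group X] [Group X₁]

/-- If a `p`-group `T` of automorphisms of `X` covers (through the surjection `q`) automorphisms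
lying in `G ≤ Aut(X₁)`, an element of `G` conjugates all these into a given Sylow subgroup. -/
theorem exists_conj_sylow_lift {p : ℕ} [Fact p.Prime] (q : X →* X₁) (hq : Function.Surjective q)
    (G : Subgroup (MulAut X₁)) [Finite G] (R : Sylow p G) (T : Subgroup (MulAut X))
    (hT : IsPGroup p T) (hlift : ∀ t ∈ T, ∃ u ∈ G, ∀ x, q (t x) = u (q x)) :
    ∃ a ∈ G, ∀ t ∈ T, ∃ r ∈ (R : Subgroup G).map G.subtype, ∀ x, a (q (t x)) = r (a (q x)) := by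
  let L : Subgroup G :=
    { carrier := {u | ∃ t ∈ T, ∀ x, q (t x) = (u : MulAut X₁) (q x)}
      mul_mem' := by
        rintro u v ⟨t, ht, hu⟩ ⟨s, hs, hv⟩
        refine ⟨t * s, T.mul_mem ht hs, fun x => ?_⟩
        rw [MulAut.mul_apply, hu, hv]
        rfl
      one_mem' := ⟨1, T.one_mem, fun x => rfl⟩
      inv_mem' := by
        rintro u ⟨t, ht, hu⟩
        refine ⟨t⁻¹, T.inv_mem ht, fun x => ?_⟩
        have := hu (t⁻¹ x)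
        rw [MulAut.apply_inv_self] at this
        rw [this]
        show _ = ((u : MulAut X₁)⁻¹) _
        rw [MulAut.inv_apply_self] }
  have hL : IsPGroup p L := by
    rintro ⟨u, t, ht, hu⟩
    obtain ⟨k, hk⟩ := hT ⟨t, ht⟩
    refine ⟨k, ?_⟩
    have hk' : t ^ p ^ k = 1 := congrArg Subtype.val hk
    have hpow : ∀ m : ℕ, ∀ x, q ((t ^ m) x) = ((u : MulAut X₁) ^ m) (q x) := by
      intro m
      induction m with
      | zero => intro x; rfl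
      | succ m ih =>
        intro x
        rw [pow_succ, pow_succ, MulAut.mul_apply, MulAut.mul_apply, ih, hu]
    have hu1 : ((u : MulAut X₁) ^ p ^ k) = 1 := by
      ext y'
      obtain ⟨x', rfl⟩ := hq y'
      have h2 := hpow (p ^ k) x'
      rw [hk'] at h2
      have h3 : q ((1 : MulAut X) x') = q x' := rfl
      rw [h3] at h2
      exact h2.symm
    apply Subtype.ext
    apply Subtype.ext
    exact hu1
  obtain ⟨a, ha⟩ := exists_conj_le_sylow R hL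
  refine ⟨a, a.2, fun t ht => ?_⟩
  obtain ⟨u, hu, h⟩ := hlift t ht
  have huL : (⟨u, hu⟩ : G) ∈ L := ⟨t, ht, h⟩
  have h3 := ha _ huL
  refine ⟨((a * ⟨u, hu⟩ * a⁻¹ : G) : MulAut X₁), ⟨_, h3, rfl⟩, fun x => ?_⟩
  rw [h]
  show _ = ((a : MulAut X₁) * u * (a : MulAut X₁)⁻¹) _
  simp [MulAut.mul_apply]

end oneSided

variable {Ω₁ Ω₂ : Type*} [Group Ω₁] [Group Ω₂] {S₁ : Subgroup Ω₁} {S₂ : Subgroup Ω₂}
  {F₁ : FusionSystem S₁} {F₂ : FusionSystem S₂} {E : FusionSystem (S₁.prod S₂)}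

/-- The first projection of `P`. -/
abbrev q₁ (P : Subgroup (Ω₁ × Ω₂)) : P →* P.map (MonoidHom.fst Ω₁ Ω₂) :=
  (MonoidHom.fst Ω₁ Ω₂).subgroupMap P

/-- The second projection of `P`. -/
abbrev q₂ (P : Subgroup (Ω₁ × Ω₂)) : P →* P.map (MonoidHom.snd Ω₁ Ω₂) :=
  (MonoidHom.snd Ω₁ Ω₂).subgroupMap P

theorem q₁_surjective (P : Subgroup (Ω₁ × Ω₂)) : Function.Surjective (q₁ P) :=
  MonoidHom.subgroupMap_surjective _ _

theorem q₂_surjective (P : Subgroup (Ω₁ × Ω₂)) : Function.Surjective (q₂ P) :=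
  MonoidHom.subgroupMap_surjective _ _

theorem le_prod_map (P : Subgroup (Ω₁ × Ω₂)) :
    P ≤ (P.map (MonoidHom.fst Ω₁ Ω₂)).prod (P.map (MonoidHom.snd Ω₁ Ω₂)) :=
  fun _ hx => ⟨Subgroup.mem_map_of_mem _ hx, Subgroup.mem_map_of_mem _ hx⟩

/-- The restriction to `P ≤ Q₁ × Q₂` of the product of two maps. -/
def prodRes {P : Subgroup (Ω₁ × Ω₂)} {Q₁ : Subgroup Ω₁} {Q₂ : Subgroup Ω₂} (h : P ≤ Q₁.prod Q₂)
    (φ₁ : Q₁ →* Ω₁) (φ₂ : Q₂ →* Ω₂) : P →* Ω₁ × Ω₂ where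
  toFun x := (φ₁ ⟨x.1.1, (h x.2).1⟩, φ₂ ⟨x.1.2, (h x.2).2⟩)
  map_one' := by
    have e1 : (⟨((1 : P) : Ω₁ × Ω₂).1, (h (1 : P).2).1⟩ : Q₁) = 1 := rfl
    have e2 : (⟨((1 : P) : Ω₁ × Ω₂).2, (h (1 : P).2).2⟩ : Q₂) = 1 := rfl
    rw [e1, e2, map_one, map_one]
    rfl
  map_mul' x y := by
    have e1 : (⟨((x * y : P) : Ω₁ × Ω₂).1, (h (x * y : P).2).1⟩ : Q₁) =
        ⟨x.1.1, (h x.2).1⟩ * ⟨y.1.1, (h y.2).1⟩ := rfl
    have e2 : (⟨((x * y : P) : Ω₁ × Ω₂).2, (h (x * y : P).2).2⟩ : Q₂) =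
        ⟨x.1.2, (h x.2).2⟩ * ⟨y.1.2, (h y.2).2⟩ := rfl
    rw [e1, e2, map_mul, map_mul]
    rfl

theorem prodRes_mem (hE : IsProductSystem F₁ F₂ E) {P : Subgroup (Ω₁ × Ω₂)} {Q₁ : Subgroup Ω₁}
    {Q₂ : Subgroup Ω₂} (h : P ≤ Q₁.prod Q₂) {φ₁ : Q₁ →* Ω₁} {φ₂ : Q₂ →* Ω₂}
    (hφ₁ : φ₁ ∈ F₁.Hom Q₁) (hφ₂ : φ₂ ∈ F₂.Hom Q₂) : prodRes h φ₁ φ₂ ∈ E.Hom P := by
  have h₁ : P.map (MonoidHom.fst Ω₁ Ω₂) ≤ Q₁ := by
    rintro _ ⟨x, hx, rfl⟩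
    exact (h hx).1
  have h₂ : P.map (MonoidHom.snd Ω₁ Ω₂) ≤ Q₂ := by
    rintro _ ⟨x, hx, rfl⟩
    exact (h hx).2
  refine (hE P _).2 ⟨fun x hx => ⟨source_le hφ₁ (h hx).1, source_le hφ₂ (h hx).2⟩,
    φ₁.comp (Subgroup.inclusion h₁), res_mem hφ₁ h₁, φ₂.comp (Subgroup.inclusion h₂),
    res_mem hφ₂ h₂, fun x _ _ => rfl⟩

theorem exists_factors (hE : IsProductSystem F₁ F₂ E) {P : Subgroup (Ω₁ × Ω₂)} {φ : P →* Ω₁ × Ω₂}
    (hφ : φ ∈ E.Hom P) :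
    ∃ φ₁ ∈ F₁.Hom (P.map (MonoidHom.fst Ω₁ Ω₂)), ∃ φ₂ ∈ F₂.Hom (P.map (MonoidHom.snd Ω₁ Ω₂)),
      ∀ x : P, φ x = (φ₁ (q₁ P x), φ₂ (q₂ P x)) := by
  obtain ⟨-, φ₁, h₁, φ₂, h₂, h⟩ := (hE P φ).1 hφ
  exact ⟨φ₁, h₁, φ₂, h₂, fun x => h x _ _⟩

/-- Conjugates with prescribed projections. -/
theorem prodRes_range_fst {P : Subgroup (Ω₁ × Ω₂)} {φ : P →* Ω₁ × Ω₂}
    {φ₁ : P.map (MonoidHom.fst Ω₁ Ω₂) →* Ω₁} {φ₂ : P.map (MonoidHom.snd Ω₁ Ω₂) →* Ω₂}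
    (h : ∀ x : P, φ x = (φ₁ (q₁ P x), φ₂ (q₂ P x))) :
    φ.range.map (MonoidHom.fst Ω₁ Ω₂) = φ₁.range := by
  ext y
  constructor
  · rintro ⟨_, ⟨x, rfl⟩, rfl⟩
    exact ⟨q₁ P x, by simp [h]⟩
  · rintro ⟨z, rfl⟩
    obtain ⟨x, rfl⟩ := q₁_surjective P z
    exact ⟨φ x, ⟨x, rfl⟩, by simp [h]⟩

theorem prodRes_range_snd {P : Subgroup (Ω₁ × Ω₂)} {φ : P →* Ω₁ × Ω₂}
    {φ₁ : P.map (MonoidHom.fst Ω₁ Ω₂) →* Ω₁} {φ₂ : P.map (MonoidHom.snd Ω₁ Ω₂) →* Ω₂}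
    (h : ∀ x : P, φ x = (φ₁ (q₁ P x), φ₂ (q₂ P x))) :
    φ.range.map (MonoidHom.snd Ω₁ Ω₂) = φ₂.range := by
  ext y
  constructor
  · rintro ⟨_, ⟨x, rfl⟩, rfl⟩
    exact ⟨q₂ P x, by simp [h]⟩
  · rintro ⟨z, rfl⟩
    obtain ⟨x, rfl⟩ := q₂_surjective P z
    exact ⟨φ x, ⟨x, rfl⟩, by simp [h]⟩

/-- Step A: conjugates with prescribed projections. -/
theorem exists_conj_projections (hE : IsProductSystem F₁ F₂ E) {P : Subgroup (Ω₁ × Ω₂)}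
    {Q₁ : Subgroup Ω₁} {Q₂ : Subgroup Ω₂} (h₁ : F₁.IsConj (P.map (MonoidHom.fst Ω₁ Ω₂)) Q₁)
    (h₂ : F₂.IsConj (P.map (MonoidHom.snd Ω₁ Ω₂)) Q₂) :
    ∃ P', E.IsConj P P' ∧ P'.map (MonoidHom.fst Ω₁ Ω₂) = Q₁ ∧
      P'.map (MonoidHom.snd Ω₁ Ω₂) = Q₂ := by
  obtain ⟨φ₁, hφ₁, hr₁⟩ := h₁
  obtain ⟨φ₂, hφ₂, hr₂⟩ := h₂
  let φ := prodRes (le_prod_map P) φ₁ φ₂
  have hφ : φ ∈ E.Hom P := prodRes_mem hE _ hφ₁ hφ₂
  have hv : ∀ x : P, φ x = (φ₁ (q₁ P x), φ₂ (q₂ P x)) := fun x => rfl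
  exact ⟨φ.range, ⟨φ, hφ, rfl⟩, by rw [prodRes_range_fst hv, hr₁], by rw [prodRes_range_snd hv, hr₂]⟩

/-- Lifting an automorphism of `P` to the first projection. -/
theorem exists_lift_fst (hE : IsProductSystem F₁ F₂ E) {P : Subgroup (Ω₁ × Ω₂)}
    (hP : P ≤ S₁.prod S₂) {t : MulAut P} (ht : t ∈ E.autGroup P) :
    ∃ u ∈ F₁.autGroup (P.map (MonoidHom.fst Ω₁ Ω₂)), ∀ x, q₁ P (t x) = u (q₁ P x) := by
  have hφ := autGroup_mem_hom hP ht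
  obtain ⟨φ₁, hφ₁, φ₂, hφ₂, h⟩ := exists_factors hE hφ
  have hr : φ₁.range = P.map (MonoidHom.fst Ω₁ Ω₂) := by
    rw [← prodRes_range_fst h]
    congr 1
    ext y
    constructor
    · rintro ⟨x, rfl⟩
      exact (t x).2
    · intro hy
      exact ⟨t⁻¹ ⟨y, hy⟩, by simp⟩
  refine ⟨isoOfRange (F₁.injective_of_mem hφ₁) hr, mem_autGroup_of_mem hφ₁, fun x => ?_⟩
  apply Subtype.ext
  have := congrArg Prod.fst (h x)
  exact this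

theorem exists_lift_snd (hE : IsProductSystem F₁ F₂ E) {P : Subgroup (Ω₁ × Ω₂)}
    (hP : P ≤ S₁.prod S₂) {t : MulAut P} (ht : t ∈ E.autGroup P) :
    ∃ u ∈ F₂.autGroup (P.map (MonoidHom.snd Ω₁ Ω₂)), ∀ x, q₂ P (t x) = u (q₂ P x) := by
  have hφ := autGroup_mem_hom hP ht
  obtain ⟨φ₁, hφ₁, φ₂, hφ₂, h⟩ := exists_factors hE hφ
  have hr : φ₂.range = P.map (MonoidHom.snd Ω₁ Ω₂) := by
    rw [← prodRes_range_snd h]
    congr 1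
    ext y
    constructor
    · rintro ⟨x, rfl⟩
      exact (t x).2
    · intro hy
      exact ⟨t⁻¹ ⟨y, hy⟩, by simp⟩
  refine ⟨isoOfRange (F₂.injective_of_mem hφ₂) hr, mem_autGroup_of_mem hφ₂, fun x => ?_⟩
  apply Subtype.ext
  have := congrArg Prod.snd (h x)
  exact this

theorem isPGroup_prod {p : ℕ} (h₁ : IsPGroup p S₁) (h₂ : IsPGroup p S₂) :
    IsPGroup p (S₁.prod S₂) := by
  rintro ⟨⟨a, b⟩, ha, hb⟩
  obtain ⟨m, hm⟩ := h₁ ⟨a, ha⟩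
  obtain ⟨n, hn⟩ := h₂ ⟨b, hb⟩
  refine ⟨m + n, ?_⟩
  have hm' : a ^ p ^ m = 1 := congrArg Subtype.val hm
  have hn' : b ^ p ^ n = 1 := congrArg Subtype.val hn
  apply Subtype.ext
  apply Prod.ext
  · show a ^ p ^ (m + n) = 1
    rw [pow_add, pow_mul, hm', one_pow]
  · show b ^ p ^ (m + n) = 1
    rw [add_comm, pow_add, pow_mul, hn', one_pow]

/-- Step C: receptivity. -/
theorem isReceptive_of_projections [Finite S₁] [Finite S₂] (hE : IsProductSystem F₁ F₂ E)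
    {Y : Subgroup (Ω₁ × Ω₂)} (hY : Y ≤ S₁.prod S₂)
    (h₁ : F₁.IsReceptive (Y.map (MonoidHom.fst Ω₁ Ω₂)))
    (h₂ : F₂.IsReceptive (Y.map (MonoidHom.snd Ω₁ Ω₂))) : E.IsReceptive Y := by
  refine ⟨hY, fun T φ hφ hr => ?_⟩
  obtain ⟨φ₁, hφ₁, φ₂, hφ₂, h⟩ := exists_factors hE hφ
  have hr₁ : φ₁.range = Y.map (MonoidHom.fst Ω₁ Ω₂) := by
    rw [← prodRes_range_fst h, hr]
  have hr₂ : φ₂.range = Y.map (MonoidHom.snd Ω₁ Ω₂) := by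
    rw [← prodRes_range_snd h, hr]
  obtain ⟨ψ₁, hψ₁, hag₁⟩ := h₁.2 _ φ₁ hφ₁ hr₁
  obtain ⟨ψ₂, hψ₂, hag₂⟩ := h₂.2 _ φ₂ hφ₂ hr₂
  have hN : extender (S₁.prod S₂) T φ ≤ (extender S₁ _ φ₁).prod (extender S₂ _ φ₂) := by
    intro g hg
    obtain ⟨hgS, hgN, k, hk, hgk⟩ := mem_extender_iff.1 hg
    have hgT : ∀ x : T, g * (x : Ω₁ × Ω₂) * g⁻¹ ∈ T :=
      fun x => (Subgroup.mem_normalizer_iff.1 hgN x).1 x.2
    constructor
    · refine extender_closure_mem (h := k.1) hgS.1 ?_ hk.1 ?_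
      · exact Subgroup.le_normalizer_map (MonoidHom.fst Ω₁ Ω₂) ⟨g, hgN, rfl⟩
      · intro x₁ hx₁
        obtain ⟨x, rfl⟩ := q₁_surjective T x₁
        have e1 := congrArg Prod.fst (hgk x (hgT x))
        rw [h, h] at e1
        exact e1
    · refine extender_closure_mem (h := k.2) hgS.2 ?_ hk.2 ?_
      · exact Subgroup.le_normalizer_map (MonoidHom.snd Ω₁ Ω₂) ⟨g, hgN, rfl⟩
      · intro x₁ hx₁
        obtain ⟨x, rfl⟩ := q₂_surjective T x₁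
        have e1 := congrArg Prod.snd (hgk x (hgT x))
        rw [h, h] at e1
        exact e1
  let ψ : extender (S₁.prod S₂) T φ →* Ω₁ × Ω₂ := prodRes hN ψ₁ ψ₂
  refine ⟨ψ, prodRes_mem hE hN hψ₁ hψ₂, fun x hx hxN => ?_⟩
  rw [show ψ ⟨x, hxN⟩ = _ from rfl, h ⟨x, hx⟩]
  have e1 := hag₁ x.1 (Subgroup.mem_map_of_mem _ hx) (hN hxN).1
  have e2 := hag₂ x.2 (Subgroup.mem_map_of_mem _ hx) (hN hxN).2
  exact Prod.ext e1 e2

/-- Step B: a fully automized conjugate with the same projections. -/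
theorem exists_fullyAutomized [Finite S₁] [Finite S₂] {p : ℕ} [Fact p.Prime]
    (hp₁ : IsPGroup p S₁) (hp₂ : IsPGroup p S₂) (hE : IsProductSystem F₁ F₂ E)
    {P : Subgroup (Ω₁ × Ω₂)} (hP : P ≤ S₁.prod S₂)
    (h₁ : F₁.IsFullyAutomized p (P.map (MonoidHom.fst Ω₁ Ω₂)))
    (h₂ : F₂.IsFullyAutomized p (P.map (MonoidHom.snd Ω₁ Ω₂))) :
    ∃ P', E.IsConj P P' ∧ P'.map (MonoidHom.fst Ω₁ Ω₂) = P.map (MonoidHom.fst Ω₁ Ω₂) ∧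
      P'.map (MonoidHom.snd Ω₁ Ω₂) = P.map (MonoidHom.snd Ω₁ Ω₂) ∧ E.IsFullyAutomized p P' := by
  obtain ⟨hQ₁, R₁, hR₁⟩ := h₁
  obtain ⟨hQ₂, R₂, hR₂⟩ := h₂
  have : Finite (S₁.prod S₂) :=
    Finite.of_equiv _ (Subgroup.prodEquiv S₁ S₂).symm.toEquiv
  have hpS : IsPGroup p (S₁.prod S₂) := isPGroup_prod hp₁ hp₂
  have : Finite (F₁.autGroup (P.map (MonoidHom.fst Ω₁ Ω₂))) := finite_autGroup hQ₁
  have : Finite (F₂.autGroup (P.map (MonoidHom.snd Ω₁ Ω₂))) := finite_autGroup hQ₂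
  have : Finite (E.autGroup P) := finite_autGroup hP
  obtain ⟨T⟩ : Nonempty (Sylow p (E.autGroup P)) := inferInstance
  let T₀ : Subgroup (MulAut P) := (T : Subgroup (E.autGroup P)).map (E.autGroup P).subtype
  have hT₀ : IsPGroup p T₀ := T.isPGroup'.map _
  have hT₀D : ∀ t ∈ T₀, t ∈ E.autGroup P := by
    rintro _ ⟨t, -, rfl⟩
    exact t.2
  obtain ⟨a₁, ha₁, hsyl₁⟩ := exists_conj_sylow_lift (q₁ P) (q₁_surjective P) _ R₁ T₀ hT₀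
    (fun t ht => exists_lift_fst hE hP (hT₀D t ht))
  obtain ⟨a₂, ha₂, hsyl₂⟩ := exists_conj_sylow_lift (q₂ P) (q₂_surjective P) _ R₂ T₀ hT₀
    (fun t ht => exists_lift_snd hE hP (hT₀D t ht))
  let φ : P →* Ω₁ × Ω₂ := prodRes (le_prod_map P)
    ((P.map (MonoidHom.fst Ω₁ Ω₂)).subtype.comp a₁.toMonoidHom)
    ((P.map (MonoidHom.snd Ω₁ Ω₂)).subtype.comp a₂.toMonoidHom)
  have hφ : φ ∈ E.Hom P := prodRes_mem hE _ (autGroup_mem_hom hQ₁ ha₁) (autGroup_mem_hom hQ₂ ha₂)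
  have hv : ∀ x : P, φ x = (((a₁ (q₁ P x) : P.map (MonoidHom.fst Ω₁ Ω₂)) : Ω₁),
      ((a₂ (q₂ P x) : P.map (MonoidHom.snd Ω₁ Ω₂)) : Ω₂)) := fun x => rfl
  have hv' : ∀ x : P, φ x = (((P.map (MonoidHom.fst Ω₁ Ω₂)).subtype.comp a₁.toMonoidHom) (q₁ P x),
      ((P.map (MonoidHom.snd Ω₁ Ω₂)).subtype.comp a₂.toMonoidHom) (q₂ P x)) := fun x => rfl
  refine ⟨φ.range, ⟨φ, hφ, rfl⟩, ?_, ?_, ?_⟩
  · rw [prodRes_range_fst hv']
    ext y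
    constructor
    · rintro ⟨z, rfl⟩
      exact (a₁ z).2
    · intro hy
      exact ⟨a₁⁻¹ ⟨y, hy⟩, by simp⟩
  · rw [prodRes_range_snd hv']
    ext y
    constructor
    · rintro ⟨z, rfl⟩
      exact (a₂ z).2
    · intro hy
      exact ⟨a₂⁻¹ ⟨y, hy⟩, by simp⟩
  have hP' : φ.range ≤ S₁.prod S₂ := range_le hφ
  rw [isFullyAutomized_iff hpS hP']
  let e : P ≃* φ.range := isoOfRange (E.injective_of_mem hφ) rfl
  have he : ∀ x : P, ((e x : φ.range) : Ω₁ × Ω₂) = φ x := fun x => rfl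
  have hD := map_congr_autGroup hφ e he
  rw [← hD]
  have hle : T₀.map (MulAut.congr e).toMonoidHom ≤ autInducedBy (S₁.prod S₂) φ.range := by
    rintro _ ⟨t, ht, rfl⟩
    obtain ⟨r₁, hr₁, hr₁'⟩ := hsyl₁ t ht
    obtain ⟨r₂, hr₂, hr₂'⟩ := hsyl₂ t ht
    have hr₁S : r₁ ∈ autInducedBy S₁ (P.map (MonoidHom.fst Ω₁ Ω₂)) := by
      obtain ⟨r, hr, rfl⟩ := hr₁
      have hr' : r ∈ (R₁ : Subgroup _) := hr
      rw [hR₁] at hr'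
      exact hr'
    have hr₂S : r₂ ∈ autInducedBy S₂ (P.map (MonoidHom.snd Ω₁ Ω₂)) := by
      obtain ⟨r, hr, rfl⟩ := hr₂
      have hr' : r ∈ (R₂ : Subgroup _) := hr
      rw [hR₂] at hr'
      exact hr'
    obtain ⟨g₁, hg₁, hg₁'⟩ := mem_autInducedBy_iff.1 hr₁S
    obtain ⟨g₂, hg₂, hg₂'⟩ := mem_autInducedBy_iff.1 hr₂S
    refine mem_autInducedBy_iff.2 ⟨(g₁, g₂), ⟨hg₁, hg₂⟩, fun y => ?_⟩
    obtain ⟨x, rfl⟩ := e.surjective y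
    have e0 : (MulAut.congr e).toMonoidHom t (e x) = e (t x) := by
      simp [MulAut.congr_apply]
    rw [e0, he, he, hv, hv, hr₁', hr₂']
    apply Prod.ext
    · exact hg₁' _
    · exact hg₂' _
  have hdvd := Subgroup.relIndex_dvd_of_le_left ((E.autGroup P).map (MulAut.congr e).toMonoidHom) hle
  rw [Subgroup.relIndex_map_map_of_injective _ _ (MulAut.congr e).injective] at hdvd
  have hT₀idx : T₀.relIndex (E.autGroup P) = (T : Subgroup (E.autGroup P)).index := by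
    rw [Subgroup.relIndex]
    congr 1
    ext t
    constructor
    · rintro ⟨u, hu, hut⟩
      have : u = t := Subtype.ext hut
      rwa [← this]
    · intro ht
      exact ⟨t, ht, rfl⟩
  rw [hT₀idx] at hdvd
  exact fun h => T.not_dvd_index (h.trans hdvd)

/-- Products of saturated systems are saturated. -/
theorem isSaturated_of_isProductSystem [Finite S₁] [Finite S₂] {p : ℕ} [Fact p.Prime]
    (hp₁ : IsPGroup p S₁) (hp₂ : IsPGroup p S₂) (hF₁ : F₁.IsSaturated p) (hF₂ : F₂.IsSaturated p)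
    (hE : IsProductSystem F₁ F₂ E) : E.IsSaturated p := by
  intro P hP
  have hP₁ : P.map (MonoidHom.fst Ω₁ Ω₂) ≤ S₁ := by
    rintro _ ⟨x, hx, rfl⟩
    exact (hP hx).1
  have hP₂ : P.map (MonoidHom.snd Ω₁ Ω₂) ≤ S₂ := by
    rintro _ ⟨x, hx, rfl⟩
    exact (hP hx).2
  obtain ⟨Q₁, hc₁, ha₁, hr₁⟩ := hF₁ _ hP₁
  obtain ⟨Q₂, hc₂, ha₂, hr₂⟩ := hF₂ _ hP₂
  obtain ⟨P₁, hPP₁, e₁, e₂⟩ := exists_conj_projections hE hc₁ hc₂
  have hP₁S : P₁ ≤ S₁.prod S₂ := Basic.IsConj.le_right hPP₁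
  obtain ⟨P₂, hP₁₂, e₃, e₄, hfa⟩ := exists_fullyAutomized hp₁ hp₂ hE hP₁S
    (by rw [e₁]; exact ha₁) (by rw [e₂]; exact ha₂)
  refine ⟨P₂, Basic.IsConj.trans hPP₁ hP₁₂, hfa, ?_⟩
  refine isReceptive_of_projections hE hfa.1 ?_ ?_
  · rw [e₃, e₁]; exact hr₁
  · rw [e₄, e₂]; exact hr₂

end Cfsg.Agent.Lib.Fusion.ProductSystem
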