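/-
The structure of `Qd(p)`: the projection onto `SL₂(p)`, the translation subgroup, its normal subgroups.
-/
import Mathlib
import Cfsg.Prelude.Def_PLocal
import Cfsg.Agent.Lib.PGroup.QdSplit

set_option autoImplicit false

namespace Cfsg.Agent.Lib.Fusion.QdStruct

open Cfsg Matrix Cfsg.Agent.Lib.PGroup.QdSplit
open scoped MatrixGroups

variable {p : ℕ}

theorem aff_inj {A B : SL(2, ZMod p)} {v w : Fin 2 → ZMod p} (h : aff A v = aff B w) : A = B ∧ v = w := by
  have h1 := congrArg Subtype.val h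
  rw [aff_coe, aff_coe] at h1
  have e : ∀ i j, (!![A.1 0 0, A.1 0 1, v 0; A.1 1 0, A.1 1 1, v 1; 0, 0, 1] : Matrix (Fin 3) (Fin 3) (ZMod p)) i j =
      (!![B.1 0 0, B.1 0 1, w 0; B.1 1 0, B.1 1 1, w 1; 0, 0, 1] : Matrix (Fin 3) (Fin 3) (ZMod p)) i j :=
    fun i j => congrFun (congrFun h1 i) j
  constructor
  · apply Subtype.ext
    ext i j
    fin_cases i <;> fin_cases j
    · simpa using e 0 0
    · simpa using e 0 1
    · simpa using e 1 0
    · simpa using e 1 1
  · ext i
    fin_cases i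
    · simpa using e 0 2
    · simpa using e 1 2

/-- The linear part. -/
noncomputable def lin (m : qd p) : SL(2, ZMod p) := Classical.choose (exists_aff_of_mem_qd m.2)

/-- The translation part. -/
noncomputable def tr (m : qd p) : Fin 2 → ZMod p := Classical.choose (Classical.choose_spec (exists_aff_of_mem_qd m.2))

theorem coe_eq (m : qd p) : (m : SL(3, ZMod p)) = aff (lin m) (tr m) :=
  Classical.choose_spec (Classical.choose_spec (exists_aff_of_mem_qd m.2))

theorem lin_of_eq {m : qd p} {A : SL(2, ZMod p)} {v : Fin 2 → ZMod p} (h : (m : SL(3, ZMod p)) = aff A v) : lin m = A :=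
  (aff_inj ((coe_eq m).symm.trans h)).1

/-- The projection `Qd(p) → SL₂(p)`. -/
noncomputable def τ : qd p →* SL(2, ZMod p) :=
  MonoidHom.mk' lin (fun a b => by
    apply lin_of_eq
    show (a : SL(3, ZMod p)) * b = _
    rw [coe_eq a, coe_eq b, aff_mul])

theorem τ_of_eq {m : qd p} {A : SL(2, ZMod p)} {v : Fin 2 → ZMod p} (h : (m : SL(3, ZMod p)) = aff A v) : τ m = A :=
  lin_of_eq h

theorem τ_surjective : Function.Surjective (τ : qd p →* SL(2, ZMod p)) := fun A =>
  ⟨⟨aff A 0, aff_mem_qd _ _⟩, τ_of_eq rfl⟩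

/-- The translations. -/
noncomputable def T : Multiplicative (Fin 2 → ZMod p) →* qd p :=
  MonoidHom.mk' (fun c => ⟨aff 1 (Multiplicative.toAdd c), aff_mem_qd _ _⟩) (fun a b => by
    apply Subtype.ext
    show aff 1 (Multiplicative.toAdd (a * b)) = aff 1 (Multiplicative.toAdd a) * aff 1 (Multiplicative.toAdd b)
    rw [aff_mul, mul_one, toAdd_mul]
    simp)

theorem T_coe (c : Multiplicative (Fin 2 → ZMod p)) : ((T c : qd p) : SL(3, ZMod p)) = aff 1 (Multiplicative.toAdd c) := rfl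

theorem T_injective : Function.Injective (T : Multiplicative (Fin 2 → ZMod p) →* qd p) := by
  intro a b h
  have h1 : aff (1 : SL(2, ZMod p)) (Multiplicative.toAdd a) = aff 1 (Multiplicative.toAdd b) := congrArg Subtype.val h
  exact Multiplicative.toAdd.injective (aff_inj h1).2

theorem τ_T (c : Multiplicative (Fin 2 → ZMod p)) : τ (T c) = 1 := τ_of_eq rfl

theorem mem_range_T_iff {m : qd p} : τ m = 1 ↔ m ∈ (T : Multiplicative (Fin 2 → ZMod p) →* qd p).range := by
  constructor
  · intro h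
    refine ⟨Multiplicative.ofAdd (tr m), ?_⟩
    apply Subtype.ext
    rw [T_coe, coe_eq m]
    have : lin m = 1 := h
    rw [this]
    rfl
  · rintro ⟨c, rfl⟩
    exact τ_T c

variable [hp : Fact p.Prime]

theorem T_conj (m : qd p) (c : Fin 2 → ZMod p) :
    m * T (Multiplicative.ofAdd c) * m⁻¹ = T (Multiplicative.ofAdd ((τ m).1 *ᵥ c)) := by
  rw [mul_inv_eq_iff_eq_mul]
  apply Subtype.ext
  show (m : SL(3, ZMod p)) * aff 1 c = aff 1 ((τ m).1 *ᵥ c) * m
  have h : τ m = lin m := rfl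
  rw [coe_eq m, aff_mul, aff_mul, h, mul_one, one_mul]
  congr 1
  show tr m + (lin m).1 *ᵥ c = (lin m).1 *ᵥ c + (1 : SL(2, ZMod p)).1 *ᵥ tr m
  rw [Matrix.SpecialLinearGroup.coe_one, Matrix.one_mulVec, add_comm]

/-- A matrix in `SL₂` with a prescribed nonzero first column. -/
theorem exists_sl_first_column {c : Fin 2 → ZMod p} (hc : c ≠ 0) :
    ∃ B : SL(2, ZMod p), B.1 *ᵥ ![1, 0] = c := by
  by_cases h0 : c 0 = 0
  · have h1 : c 1 ≠ 0 := by
      intro h1
      apply hc
      ext i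
      fin_cases i
      · exact h0
      · exact h1
    refine ⟨⟨!![0, -(c 1)⁻¹; c 1, 0], ?_⟩, ?_⟩
    · rw [det_fin_two_of]
      field_simp
      ring
    · ext i
      fin_cases i
      · simp [Matrix.mulVec, dotProduct, Fin.sum_univ_two, h0]
      · simp [Matrix.mulVec, dotProduct, Fin.sum_univ_two]
  · refine ⟨⟨!![c 0, 0; c 1, (c 0)⁻¹], ?_⟩, ?_⟩
    · rw [det_fin_two_of]
      field_simp
      ring
    · ext i
      fin_cases i
      · simp [Matrix.mulVec, dotProduct, Fin.sum_univ_two]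
      · simp [Matrix.mulVec, dotProduct, Fin.sum_univ_two]

theorem exists_sl_mulVec {c c' : Fin 2 → ZMod p} (hc : c ≠ 0) (hc' : c' ≠ 0) :
    ∃ A : SL(2, ZMod p), A.1 *ᵥ c = c' := by
  obtain ⟨B, hB⟩ := exists_sl_first_column hc
  obtain ⟨B', hB'⟩ := exists_sl_first_column hc'
  refine ⟨B' * B⁻¹, ?_⟩
  have h1 : (B⁻¹).1 *ᵥ c = ![1, 0] := by
    conv_lhs => rw [← hB]
    rw [Matrix.mulVec_mulVec, ← Matrix.SpecialLinearGroup.coe_mul]
    simp
  rw [Matrix.SpecialLinearGroup.coe_mul, ← Matrix.mulVec_mulVec, h1, hB']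

/-- A nontrivial normal subgroup contains all translations. -/
theorem T_mem_of_normal {N : Subgroup (qd p)} [hN : N.Normal] (hne : N ≠ ⊥) (c : Multiplicative (Fin 2 → ZMod p)) :
    T c ∈ N := by
  -- first a nontrivial translation in `N`
  have h1 : ∃ c₀ : Fin 2 → ZMod p, c₀ ≠ 0 ∧ T (Multiplicative.ofAdd c₀) ∈ N := by
    obtain ⟨x, hx, hx1⟩ := (Subgroup.ne_bot_iff_exists_ne_one.1 hne).elim
      (fun a h => (⟨a, a.2, fun e => h (Subtype.ext e)⟩ : ∃ x : qd p, x ∈ N ∧ x ≠ 1))
    by_cases hτ : τ x = 1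
    · obtain ⟨c₀, rfl⟩ := mem_range_T_iff.1 hτ
      refine ⟨Multiplicative.toAdd c₀, ?_, hx⟩
      intro h0
      apply hx1
      have : c₀ = 1 := Multiplicative.toAdd.injective h0
      rw [this, map_one]
    · -- some vector moved
      have h2 : ∃ c₁ : Fin 2 → ZMod p, (τ x).1 *ᵥ c₁ ≠ c₁ := by
        by_contra hall
        push_neg at hall
        apply hτ
        apply Subtype.ext
        rw [Matrix.SpecialLinearGroup.coe_one]
        ext i j
        have h3 := congrFun (hall (Pi.single j 1)) i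
        rw [Matrix.mulVec_single_one] at h3
        rw [Matrix.one_apply]
        simp only [Matrix.col_apply, Pi.single_apply] at h3
        rw [h3]
      obtain ⟨c₁, hc₁⟩ := h2
      refine ⟨(τ x).1 *ᵥ c₁ - c₁, sub_ne_zero.2 hc₁, ?_⟩
      have h3 : T (Multiplicative.ofAdd ((τ x).1 *ᵥ c₁ - c₁)) =
          x * (T (Multiplicative.ofAdd c₁) * x⁻¹ * (T (Multiplicative.ofAdd c₁))⁻¹) := by
        have h4 := T_conj x c₁
        rw [ofAdd_sub, map_div, ← h4, div_eq_mul_inv]
        group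
      rw [h3]
      exact N.mul_mem hx (hN.conj_mem _ (N.inv_mem hx) _)
  obtain ⟨c₀, hc₀, hmem⟩ := h1
  by_cases hc : Multiplicative.toAdd c = 0
  · have : c = 1 := Multiplicative.toAdd.injective hc
    rw [this, map_one]
    exact N.one_mem
  · obtain ⟨A, hA⟩ := exists_sl_mulVec hc₀ hc
    have h2 := hN.conj_mem _ hmem ⟨aff A 0, aff_mem_qd _ _⟩
    rw [T_conj, τ_of_eq (A := A) (v := 0) rfl, hA] at h2
    exact h2

/-- What centralizes the translations has trivial linear part. -/
theorem τ_eq_one_of_commute {m : qd p} (h : ∀ c : Fin 2 → ZMod p, m * T (Multiplicative.ofAdd c) = T (Multiplicative.ofAdd c) * m) :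
    τ m = 1 := by
  apply Subtype.ext
  rw [Matrix.SpecialLinearGroup.coe_one]
  ext i j
  have h1 := T_conj m (Pi.single j 1)
  rw [h, mul_inv_cancel_right] at h1
  have h2 := T_injective h1
  have h3 : (Pi.single j 1 : Fin 2 → ZMod p) = (τ m).1 *ᵥ (Pi.single j 1) := Multiplicative.ofAdd.injective h2
  have h4 := congrFun h3 i
  rw [Matrix.mulVec_single_one] at h4
  rw [Matrix.one_apply]
  simp only [Matrix.col_apply, Pi.single_apply] at h4
  rw [← h4]

theorem T_pow_p (c : Multiplicative (Fin 2 → ZMod p)) : T c ^ p = 1 := by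
  rw [← map_pow]
  have : c ^ p = 1 := by
    apply Multiplicative.toAdd.injective
    rw [toAdd_pow]
    ext i
    simp [Pi.smul_apply]
  rw [this, map_one]

theorem T_ne_one : ∃ c : Multiplicative (Fin 2 → ZMod p), T c ≠ 1 := by
  refine ⟨Multiplicative.ofAdd ![1, 0], fun h => ?_⟩
  have h1 := T_injective (h.trans (map_one T).symm)
  have h2 : (![1, 0] : Fin 2 → ZMod p) = 0 := Multiplicative.ofAdd.injective h1
  have h3 := congrFun h2 0
  simp at h3

/-- The range of `T` is a `p`-group. -/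
theorem isPGroup_range_T : IsPGroup p (T : Multiplicative (Fin 2 → ZMod p) →* qd p).range := by
  rintro ⟨_, c, rfl⟩
  refine ⟨1, ?_⟩
  apply Subtype.ext
  rw [pow_one]
  exact T_pow_p c

/-- Every normal subgroup of order prime to `p` is trivial. -/
theorem eq_bot_of_normal_coprime {N : Subgroup (qd p)} [hN : N.Normal] (hco : ∀ x ∈ N, x ^ p = 1 → x = 1) : N = ⊥ := by
  by_contra hne
  obtain ⟨c, hc⟩ := T_ne_one (p := p)
  exact hc (hco _ (T_mem_of_normal hne c) (T_pow_p c))

end Cfsg.Agent.Lib.Fusion.QdStruct
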