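/-
`p`-th powers of central elements of a Sylow subgroup, in a group with the centralizer condition, which are central in the normalizer of
`W(P)`, are central in the group, when `W` has the property that `W(P)` is normal unless a quadratic element exists.
-/
import Mathlib
import Cfsg.Prelude.Def_FusionSystem
import Cfsg.Agent.Lib.Basic.SylowUtil
import Cfsg.Agent.Lib.Fusion.CenterControl

set_option autoImplicit false

namespace Cfsg.Agent.Lib.Fusion.QuadraticCenter

open Cfsg Cfsg.FusionSystem Cfsg.Agent.Lib.Fusion.GFunctor Cfsg.Agent.Lib.Fusion.CenterControl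
  Cfsg.Agent.Lib.Basic.PCore
open scoped commutatorElement

universe u

section elementwise

variable {L : Type*} [Group L]

/-- The power formula. -/
theorem pow_conj_of_quadratic {g z u : L} (h1 : g * z * g⁻¹ = u * z) (h2 : g * u * g⁻¹ = u) (n : ℕ) :
    g ^ n * z * (g ^ n)⁻¹ = u ^ n * z := by
  induction n with
  | zero => simp
  | succ n ih =>
    have e1 : g ^ (n + 1) * z * (g ^ (n + 1))⁻¹ = g * (g ^ n * z * (g ^ n)⁻¹) * g⁻¹ := by
      rw [pow_succ' g n, mul_inv_rev]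
      group
    rw [e1, ih]
    have e2 : g * (u ^ n * z) * g⁻¹ = (g * u ^ n * g⁻¹) * (g * z * g⁻¹) := by group
    have e3 : g * u ^ n * g⁻¹ = u ^ n := by
      have e4 : g * u ^ n * g⁻¹ = (g * u * g⁻¹) ^ n := by
        rw [conj_pow]
      rw [e4, h2]
    rw [e2, e3, h1, pow_succ, mul_assoc]

/-- A conjugate of `z^p`. -/
theorem conj_pow_of_quadratic {g z u : L} {p : ℕ} (h1 : g * z * g⁻¹ = u * z) (h2 : g * u * g⁻¹ = u) (hc : Commute u z) (m : ℕ)
    (hz : g ^ (m * p) * z * (g ^ (m * p))⁻¹ = z) : g ^ m * z ^ p * (g ^ m)⁻¹ = z ^ p := by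
  have h3 := pow_conj_of_quadratic h1 h2 (m * p)
  rw [hz] at h3
  have h4 : u ^ (m * p) = 1 := by
    have h5 : u ^ (m * p) * z = 1 * z := by rw [one_mul]; exact h3.symm
    exact mul_right_cancel h5
  have h6 := pow_conj_of_quadratic h1 h2 m
  have e : g ^ m * z ^ p * (g ^ m)⁻¹ = (g ^ m * z * (g ^ m)⁻¹) ^ p := by rw [conj_pow]
  rw [e, h6, (hc.pow_left m).mul_pow, ← pow_mul, h4, one_mul]

end elementwise

variable {W : ∀ (Q : Type u) [Group Q], Subgroup Q} {p : ℕ} [Fact p.Prime]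

/-- The group lemma. -/
theorem central_of_local (hW : IsPFunctor p W)
    (hq : ∀ (G : Type u) [Group G] [Finite G] (P : Sylow p G), ¬ (wOf W (P : Subgroup G)).Normal →
      ∃ g : G, g ∈ (P : Subgroup G) ∧ g ∉ Cfsg.pCore p G ∧
        ⁅⁅Subgroup.center ↥(Cfsg.pCore p G) |>.map (Cfsg.pCore p G).subtype, Subgroup.zpowers g⁆, Subgroup.zpowers g⁆ = ⊥) :
    ∀ (n : ℕ) (L : Type u) [Group L] [Finite L] (P : Sylow p L), Nat.card L = n →
      Subgroup.centralizer ((Cfsg.pCore p L : Subgroup L) : Set L) ≤ Cfsg.pCore p L →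
      ∀ z : L, z ∈ (P : Subgroup L) → z ∈ Subgroup.centralizer ((P : Subgroup L) : Set L) →
      (∀ g ∈ Subgroup.normalizer ((wOf W (P : Subgroup L) : Subgroup L) : Set L), g * z ^ p * g⁻¹ = z ^ p) →
      ∀ g : L, g * z ^ p * g⁻¹ = z ^ p := by
  intro n
  induction n using Nat.strong_induction_on with
  | _ n ih =>
  intro L _ _ P hn hcent z hzP hzc hloc
  classical
  -- the centralizer of `x = z^p`
  let D : Subgroup L := Subgroup.centralizer ({z ^ p} : Set L)
  have hD : ∀ g : L, g ∈ D ↔ g * z ^ p * g⁻¹ = z ^ p := by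
    intro g
    rw [Subgroup.mem_centralizer_singleton_iff]
    constructor
    · intro h
      rw [h]
      simp
    · intro h
      calc g * z ^ p = (g * z ^ p * g⁻¹) * g := by group
        _ = z ^ p * g := by rw [h]
  have hPD : (P : Subgroup L) ≤ D := by
    intro g hg
    rw [hD]
    have h1 : Commute g z := (Subgroup.mem_centralizer_iff.1 hzc g hg)
    have h2 : Commute g (z ^ p) := h1.pow_right p
    rw [h2.eq]
    simp
  -- all proper overgroups centralize
  have ha : ∀ H : Subgroup L, (P : Subgroup L) ≤ H → H ≠ ⊤ → H ≤ D := by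
    intro H hPH hH
    have hcard : Nat.card H < n := by
      rw [← hn]
      have h1 := Subgroup.card_le_card_group H
      have h2 : Nat.card H ≠ Nat.card L := fun h => hH (Subgroup.eq_top_of_card_eq H h)
      omega
    let PH : Sylow p H := P.subtype hPH
    have hPHc : ((PH : Subgroup H)) = (P : Subgroup L).subgroupOf H := P.coe_subtype hPH
    have hmemPH : ∀ y : H, y ∈ (PH : Subgroup H) ↔ (y : L) ∈ (P : Subgroup L) := by
      intro y
      rw [hPHc, Subgroup.mem_subgroupOf]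
    -- the centralizer condition
    have hcentH : Subgroup.centralizer ((Cfsg.pCore p H : Subgroup H) : Set H) ≤ Cfsg.pCore p H := by
      have hQH : (Cfsg.pCore p L).subgroupOf H ≤ Cfsg.pCore p H := by
        refine le_pCore ?_ ?_
        · exact Subgroup.normal_subgroupOf
        · have h1 : IsPGroup p (Cfsg.pCore p L) := pCore_isPGroup p
          exact h1.comap_of_injective H.subtype H.subtype_injective
      intro h hh
      apply hQH
      rw [Subgroup.mem_subgroupOf]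
      apply hcent
      rw [Subgroup.mem_centralizer_iff]
      intro q hq'
      have hqH : q ∈ H := hPH (pCore_le_sylow P hq')
      have hq2 : (⟨q, hqH⟩ : H) ∈ Cfsg.pCore p H := hQH hq'
      have h3 := Subgroup.mem_centralizer_iff.1 hh _ hq2
      exact congrArg Subtype.val h3
    let zH : H := ⟨z, hPH hzP⟩
    have hzcH : zH ∈ Subgroup.centralizer (((PH : Subgroup H)) : Set H) := by
      rw [Subgroup.mem_centralizer_iff]
      intro y hy
      exact Subtype.ext (Subgroup.mem_centralizer_iff.1 hzc y ((hmemPH y).1 hy))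
    -- the local condition
    have hPHp : IsPGroup p (PH : Subgroup H) := PH.isPGroup'
    let ι : (PH : Subgroup H) →* L := H.subtype.comp (PH : Subgroup H).subtype
    have hinj : Function.Injective ι := H.subtype_injective.comp (PH : Subgroup H).subtype_injective
    have hr : ι.range = (P : Subgroup L) := by
      ext a
      constructor
      · rintro ⟨t, rfl⟩
        exact (hmemPH _).1 t.2
      · intro ha
        exact ⟨⟨⟨a, hPH ha⟩, (hmemPH _).2 ha⟩, rfl⟩
    have hmap := map_wOf_eq_of_range (W := W) hW hPHp hinj hr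
    have hmemW : ∀ a : L, a ∈ wOf W (P : Subgroup L) ↔ ∃ ha : a ∈ H, (⟨a, ha⟩ : H) ∈ wOf W (PH : Subgroup H) := by
      intro a
      rw [← hmap]
      constructor
      · rintro ⟨t, ht, rfl⟩
        exact ⟨(t : H).2, ht⟩
      · rintro ⟨ha, h⟩
        exact ⟨⟨⟨a, ha⟩, wOf_le _ h⟩, h, rfl⟩
    have hlocH : ∀ g ∈ Subgroup.normalizer ((wOf W (PH : Subgroup H) : Subgroup H) : Set H), g * zH ^ p * g⁻¹ = zH ^ p := by
      intro g hg
      have hgL : (g : L) ∈ Subgroup.normalizer ((wOf W (P : Subgroup L) : Subgroup L) : Set L) := by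
        rw [Subgroup.mem_normalizer_iff]
        intro a
        constructor
        · intro ha
          obtain ⟨h1, h2⟩ := (hmemW a).1 ha
          refine (hmemW _).2 ⟨H.mul_mem (H.mul_mem g.2 h1) (H.inv_mem g.2), ?_⟩
          exact (Subgroup.mem_normalizer_iff.1 hg ⟨a, h1⟩).1 h2
        · intro ha
          obtain ⟨h1, h2⟩ := (hmemW _).1 ha
          have h3 : a ∈ H := by
            have e : a = (g : L)⁻¹ * ((g : L) * a * (g : L)⁻¹) * g := by group
            rw [e]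
            exact H.mul_mem (H.mul_mem (H.inv_mem g.2) h1) g.2
          exact (hmemW a).2 ⟨h3, (Subgroup.mem_normalizer_iff.1 hg ⟨a, h3⟩).2 h2⟩
      apply Subtype.ext
      simpa [zH] using hloc g hgL
    have hk := ih (Nat.card H) hcard H PH rfl hcentH zH ((hmemPH zH).2 hzP) hzcH hlocH
    intro h hh
    rw [hD]
    have h1 := congrArg Subtype.val (hk ⟨h, hh⟩)
    simpa [zH] using h1
  by_contra hne
  push_neg at hne
  obtain ⟨g₀, hg₀⟩ := hne
  have hDtop : D ≠ ⊤ := fun h => hg₀ ((hD g₀).1 (h ▸ Subgroup.mem_top g₀))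
  have hb : ¬ (wOf W (P : Subgroup L)).Normal := fun hnn => by
    refine hg₀ (hloc g₀ (Subgroup.mem_normalizer_iff.2 fun a => ⟨fun ha => hnn.conj_mem a ha g₀, fun ha => ?_⟩))
    have := hnn.conj_mem _ ha g₀⁻¹
    simpa [mul_assoc] using this
  obtain ⟨g, hgP, hgQ, hquad⟩ := hq L P hb
  have hQP : Cfsg.pCore p L ≤ (P : Subgroup L) := pCore_le_sylow P
  have hzC : z ∈ Subgroup.centralizer ((Cfsg.pCore p L : Subgroup L) : Set L) := Subgroup.centralizer_le hQP hzc
  have hzQ : z ∈ Cfsg.pCore p L := hcent hzC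
  -- the subgroup `V = Z(Q)`
  have hmemV : ∀ v : L, v ∈ (Subgroup.center ↥(Cfsg.pCore p L)).map (Cfsg.pCore p L).subtype ↔
      v ∈ Cfsg.pCore p L ∧ v ∈ Subgroup.centralizer ((Cfsg.pCore p L : Subgroup L) : Set L) := by
    intro v
    constructor
    · rintro ⟨t, ht, rfl⟩
      refine ⟨t.2, ?_⟩
      rw [Subgroup.mem_centralizer_iff]
      intro q hq'
      exact congrArg Subtype.val ((Subgroup.mem_center_iff.1 ht) ⟨q, hq'⟩)
    · rintro ⟨h1, h2⟩
      refine ⟨⟨v, h1⟩, Subgroup.mem_center_iff.2 fun t => ?_, rfl⟩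
      exact Subtype.ext (Subgroup.mem_centralizer_iff.1 h2 t t.2)
  have hQn : (Cfsg.pCore p L).Normal := pCore_normal p L
  have hVconj : ∀ (y v : L), v ∈ (Subgroup.center ↥(Cfsg.pCore p L)).map (Cfsg.pCore p L).subtype →
      y * v * y⁻¹ ∈ (Subgroup.center ↥(Cfsg.pCore p L)).map (Cfsg.pCore p L).subtype := by
    intro y v hv
    obtain ⟨h1, h2⟩ := (hmemV v).1 hv
    refine (hmemV _).2 ⟨hQn.conj_mem v h1 y, ?_⟩
    rw [Subgroup.mem_centralizer_iff]
    intro q hq'
    have h3 : y⁻¹ * q * y ∈ Cfsg.pCore p L := by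
      have := hQn.conj_mem q hq' y⁻¹
      simpa using this
    have h4 := Subgroup.mem_centralizer_iff.1 h2 _ h3
    calc q * (y * v * y⁻¹) = y * ((y⁻¹ * q * y) * v) * y⁻¹ := by group
      _ = y * (v * (y⁻¹ * q * y)) * y⁻¹ := by rw [h4]
      _ = y * v * y⁻¹ * q := by group
  have hVcomm : ∀ v w : L, v ∈ (Subgroup.center ↥(Cfsg.pCore p L)).map (Cfsg.pCore p L).subtype →
      w ∈ (Subgroup.center ↥(Cfsg.pCore p L)).map (Cfsg.pCore p L).subtype → Commute v w := by
    intro v w hv hw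
    exact (Subgroup.mem_centralizer_iff.1 ((hmemV v).1 hv).2 w ((hmemV w).1 hw).1).symm
  have hzV := (hmemV z).2 ⟨hzQ, hzC⟩
  -- the quadratic condition
  have hq1 : ∀ v ∈ (Subgroup.center ↥(Cfsg.pCore p L)).map (Cfsg.pCore p L).subtype,
      g * (v * g * v⁻¹ * g⁻¹) * g⁻¹ = v * g * v⁻¹ * g⁻¹ := by
    intro v hv
    have h1 : ⁅⁅v, g⁆, g⁆ ∈ ⁅⁅(Subgroup.center ↥(Cfsg.pCore p L)).map (Cfsg.pCore p L).subtype, Subgroup.zpowers g⁆, Subgroup.zpowers g⁆ :=
      Subgroup.commutator_mem_commutator (Subgroup.commutator_mem_commutator hv (Subgroup.mem_zpowers g))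
        (Subgroup.mem_zpowers g)
    rw [hquad, Subgroup.mem_bot, commutatorElement_def] at h1
    have h2 : ⁅v, g⁆ = v * g * v⁻¹ * g⁻¹ := commutatorElement_def _ _
    rw [h2] at h1
    have h3 : (v * g * v⁻¹ * g⁻¹) * g = g * (v * g * v⁻¹ * g⁻¹) := by
      have h4 := mul_inv_eq_one.1 h1
      calc (v * g * v⁻¹ * g⁻¹) * g = ((v * g * v⁻¹ * g⁻¹) * g * (v * g * v⁻¹ * g⁻¹)⁻¹) * (v * g * v⁻¹ * g⁻¹) := by group
        _ = g * (v * g * v⁻¹ * g⁻¹) := by rw [h4]
    rw [← h3]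
    group
  -- a suitable power of `g`
  obtain ⟨m, hmQ, hmpQ⟩ : ∃ m : ℕ, g ^ m ∉ Cfsg.pCore p L ∧ (g ^ m) ^ p ∈ Cfsg.pCore p L := by
    obtain ⟨k, hk⟩ := P.isPGroup' ⟨g, hgP⟩
    have hex : ∃ k : ℕ, g ^ (p ^ k) ∈ Cfsg.pCore p L := by
      refine ⟨k, ?_⟩
      have h1 : g ^ (p ^ k) = 1 := congrArg Subtype.val hk
      rw [h1]
      exact Subgroup.one_mem _
    have hmin := Nat.find_min hex (m := Nat.find hex - 1)
    have hspec := Nat.find_spec hex
    have hne : Nat.find hex ≠ 0 := by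
      intro h0
      rw [h0] at hspec
      apply hgQ
      simpa using hspec
    have hlt : Nat.find hex - 1 < Nat.find hex := by omega
    refine ⟨p ^ (Nat.find hex - 1), hmin hlt, ?_⟩
    rw [← pow_mul, ← pow_succ]
    have e : Nat.find hex - 1 + 1 = Nat.find hex := by omega
    rw [e]
    exact hspec
  -- the normal closure
  have hg₁P : g ^ m ∈ (P : Subgroup L) := Subgroup.pow_mem _ hgP m
  have hKn : (Subgroup.normalClosure {g ^ m}).Normal := Subgroup.normalClosure_normal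
  have hg₁K : g ^ m ∈ Subgroup.normalClosure {g ^ m} := Subgroup.subset_normalClosure (Set.mem_singleton _)
  have hKD : ¬ Subgroup.normalClosure {g ^ m} ≤ D := by
    intro hKD
    obtain ⟨Q₀, hQ₀⟩ := Cfsg.Agent.Lib.Basic.SylowUtil.exists_sylow_inf_normal P (Subgroup.normalClosure {g ^ m})
    have hRn : (P : Subgroup L) ≤ Subgroup.normalizer (((P : Subgroup L) ⊓ Subgroup.normalClosure {g ^ m} : Subgroup L) : Set L) := by
      intro y hy
      rw [Subgroup.mem_normalizer_iff]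
      intro a
      constructor
      · rintro ⟨h1, h2⟩
        exact ⟨Subgroup.mul_mem _ (Subgroup.mul_mem _ hy h1) (Subgroup.inv_mem _ hy), hKn.conj_mem a h2 y⟩
      · rintro ⟨h1, h2⟩
        constructor
        · have e : a = y⁻¹ * (y * a * y⁻¹) * y := by group
          rw [e]
          exact Subgroup.mul_mem _ (Subgroup.mul_mem _ (Subgroup.inv_mem _ hy) h1) hy
        · have := hKn.conj_mem _ h2 y⁻¹
          simpa [mul_assoc] using this
    by_cases hN : Subgroup.normalizer (((P : Subgroup L) ⊓ Subgroup.normalClosure {g ^ m} : Subgroup L) : Set L) = ⊤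
    · have hRnn : ((P : Subgroup L) ⊓ Subgroup.normalClosure {g ^ m}).Normal := Subgroup.normalizer_eq_top_iff.1 hN
      have hRQ := le_pCore hRnn (P.isPGroup'.to_le inf_le_left)
      exact hmQ (hRQ ⟨hg₁P, hg₁K⟩)
    · have hNle := ha _ hRn hN
      apply hDtop
      rw [eq_top_iff]
      intro y _
      obtain ⟨n', hn', h', hh', rfl⟩ := Cfsg.Agent.Lib.Basic.SylowUtil.frattini_argument' Q₀ y
      rw [hQ₀] at hh'
      exact D.mul_mem (hKD hn') (hNle hh')
  apply hKD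
  -- conjugates of `g^m` centralize `z^p`
  refine (Subgroup.closure_le _).2 ?_
  intro c hc
  rw [Group.mem_conjugatesOfSet_iff] at hc
  obtain ⟨a, ha1, hac⟩ := hc
  rw [Set.mem_singleton_iff] at ha1
  subst ha1
  obtain ⟨y, rfl⟩ := isConj_iff.1 hac
  show _ ∈ D
  rw [hD]
  have e1 : y * g ^ m * y⁻¹ = (y * g * y⁻¹) ^ m := by rw [conj_pow]
  rw [e1]
  have hz' : y⁻¹ * z * y ∈ (Subgroup.center ↥(Cfsg.pCore p L)).map (Cfsg.pCore p L).subtype := by
    have := hVconj y⁻¹ z hzV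
    simpa using this
  have hu := hq1 _ hz'
  have hconj : y * g * y⁻¹ * z * (y * g * y⁻¹)⁻¹ ∈ (Subgroup.center ↥(Cfsg.pCore p L)).map (Cfsg.pCore p L).subtype := hVconj _ z hzV
  have h1 : y * g * y⁻¹ * z * (y * g * y⁻¹)⁻¹ = (y * g * y⁻¹ * z * (y * g * y⁻¹)⁻¹ * z⁻¹) * z := by group
  have hc : Commute (y * g * y⁻¹ * z * (y * g * y⁻¹)⁻¹ * z⁻¹) z := by
    exact hVcomm _ _ (Subgroup.mul_mem _ hconj (Subgroup.inv_mem _ hzV)) hzV
  have h2 : y * g * y⁻¹ * (y * g * y⁻¹ * z * (y * g * y⁻¹)⁻¹ * z⁻¹) * (y * g * y⁻¹)⁻¹ =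
      y * g * y⁻¹ * z * (y * g * y⁻¹)⁻¹ * z⁻¹ := by
    have h3 : y * (g * (y⁻¹ * z * y * g * (y⁻¹ * z * y)⁻¹ * g⁻¹) * g⁻¹)⁻¹ * y⁻¹ = y * (y⁻¹ * z * y * g * (y⁻¹ * z * y)⁻¹ * g⁻¹)⁻¹ * y⁻¹ := by
      rw [hu]
    have e2 : y * (g * (y⁻¹ * z * y * g * (y⁻¹ * z * y)⁻¹ * g⁻¹) * g⁻¹)⁻¹ * y⁻¹ =
        y * g * y⁻¹ * (y * g * y⁻¹ * z * (y * g * y⁻¹)⁻¹ * z⁻¹) * (y * g * y⁻¹)⁻¹ := by
      simp only [mul_inv_rev, inv_inv, mul_assoc, inv_mul_cancel_left, mul_inv_cancel_left, mul_inv_cancel, mul_one]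
    have e3 : y * (y⁻¹ * z * y * g * (y⁻¹ * z * y)⁻¹ * g⁻¹)⁻¹ * y⁻¹ =
        y * g * y⁻¹ * z * (y * g * y⁻¹)⁻¹ * z⁻¹ := by
      simp only [mul_inv_rev, inv_inv, mul_assoc, inv_mul_cancel_left, mul_inv_cancel_left, mul_inv_cancel, mul_one]
    rw [e2, e3] at h3
    exact h3
  have hz : (y * g * y⁻¹) ^ (m * p) * z * ((y * g * y⁻¹) ^ (m * p))⁻¹ = z := by
    have h3 : (y * g * y⁻¹) ^ (m * p) ∈ Cfsg.pCore p L := by
      rw [conj_pow, pow_mul]
      exact hQn.conj_mem _ hmpQ y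
    have h4 := Subgroup.mem_centralizer_iff.1 hzC _ h3
    rw [h4, mul_inv_cancel_right]
  exact conj_pow_of_quadratic h1 h2 hc m hz

/-- `x` is a `p`-th power of an element of the centre of `S`. -/
def PowGood (p : ℕ) : ∀ (Ω : Type u) [Group Ω], Subgroup Ω → Ω → Prop :=
  fun _ _ S x => ∃ z, z ∈ centralizerIn S S ∧ x = z ^ p

theorem goodFamily_powGood : GoodFamily (PowGood.{u} p) := by
  refine ⟨?_, ?_⟩
  · rintro Ω _ S S' x hS' hC ⟨z, hz, rfl⟩
    exact ⟨z, mem_centralizerIn_of_le hS' hz (hC hz), rfl⟩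
  · rintro Ω Ω' _ _ S θ x ⟨z, hz, hx⟩
    refine ⟨θ ⟨z, hz.1⟩, ⟨⟨_, rfl⟩, ?_⟩, ?_⟩
    · show θ ⟨z, hz.1⟩ ∈ Subgroup.centralizer _
      rw [Subgroup.mem_centralizer_iff]
      rintro _ ⟨s, rfl⟩
      rw [← map_mul, ← map_mul]
      congr 1
      exact Subtype.ext (Subgroup.mem_centralizer_iff.1 hz.2 s s.2)
    · have e : x = (⟨z, hz.1⟩ : S) ^ p := Subtype.ext hx
      rw [e, map_pow]

theorem modelCond_powGood (hW : IsPFunctor p W)
    (hq : ∀ (G : Type u) [Group G] [Finite G] (P : Sylow p G), ¬ (wOf W (P : Subgroup G)).Normal →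
      ∃ g : G, g ∈ (P : Subgroup G) ∧ g ∉ Cfsg.pCore p G ∧
        ⁅⁅Subgroup.center ↥(Cfsg.pCore p G) |>.map (Cfsg.pCore p G).subtype, Subgroup.zpowers g⁆, Subgroup.zpowers g⁆ = ⊥) :
    ModelCond p W (PowGood p) := by
  rintro L _ _ P hcent x hxP ⟨z, hz, rfl⟩ hxc hloc g
  exact central_of_local hW hq _ L P rfl hcent z hz.1 hz.2 hloc g

/-- Elements of the subgroup generated by `p`-th powers of the centre are `p`-th powers of central elements. -/
theorem exists_pow_of_mem_closure {Ω : Type*} [Group Ω] {S : Subgroup Ω} {x : Ω}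
    (hx : x ∈ Subgroup.closure ((fun z => z ^ p) '' ((S ⊓ Subgroup.centralizer (S : Set Ω) : Subgroup Ω) : Set Ω))) :
    ∃ z, z ∈ centralizerIn S S ∧ x = z ^ p := by
  induction hx using Subgroup.closure_induction with
  | mem x hx =>
    obtain ⟨z, hz, rfl⟩ := hx
    exact ⟨z, hz, rfl⟩
  | one => exact ⟨1, Subgroup.one_mem _, by simp⟩
  | mul a b _ _ ha hb =>
    obtain ⟨u, hu, rfl⟩ := ha
    obtain ⟨v, hv, rfl⟩ := hb
    refine ⟨u * v, Subgroup.mul_mem _ hu hv, ?_⟩
    have hc : Commute u v := (Subgroup.mem_centralizer_iff.1 hv.2 u hu.1)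
    exact (hc.mul_pow p).symm
  | inv a _ ha =>
    obtain ⟨u, hu, rfl⟩ := ha
    exact ⟨u⁻¹, Subgroup.inv_mem _ hu, by simp⟩

end Cfsg.Agent.Lib.Fusion.QuadraticCenter
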