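import Mathlib
import Cfsg.Agent.Lib.Fusion.SimpleCriterion

/-!
# A simplicity criterion for `F_S(G)` allowing a non-inner automorphism of order three of `S`

Suppose that every nontrivial strongly closed subgroup of the Sylow `2`-subgroup `S` is `S`, that
`N_G(S)` is generated modulo the inner action of `S` by an element `w` with `w ^ 3 = 1`, and that there is
a weakly closed normal subgroup `A` of `S` on which `w` acts nontrivially and is inverted by an element `y`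
with `y ^ 2` trivial on `A`. Then `F_S(G)` is simple: the element `w` lies in the image of every normal
subsystem over `S`, by the Frattini condition and saturation of the subsystem.
-/

set_option autoImplicit false

namespace Cfsg.Agent.Lib.Fusion.SimpleW

open Cfsg Cfsg.FusionSystem Cfsg.Agent.Lib.Fusion

variable {G : Type*} [Group G]

/-- The hypotheses of the criterion. -/
structure GoodW (S A : Subgroup G) (w y : G) : Prop where
  ne : S ≠ ⊥
  closed : ∀ T : Subgroup G, T ≤ S → T ≠ ⊥ →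
    (∀ x ∈ T, ∀ g : G, g * x * g⁻¹ ∈ S → g * x * g⁻¹ ∈ T) → T = S
  w3 : w ^ 3 = 1
  wS : ∀ x ∈ S, w * x * w⁻¹ ∈ S
  hN : ∀ g : G, (∀ x ∈ S, g * x * g⁻¹ ∈ S) →
    ∃ s ∈ S, ∃ j : ℕ, ∀ x ∈ S, g * x * g⁻¹ = (s * w ^ j) * x * (s * w ^ j)⁻¹
  AS : A ≤ S
  SA : ∀ s ∈ S, ∀ a ∈ A, s * a * s⁻¹ ∈ A
  wA : ∀ a ∈ A, w * a * w⁻¹ ∈ A
  yA : ∀ a ∈ A, y * a * y⁻¹ ∈ A
  weak : ∀ g : G, (∀ a ∈ A, g * a * g⁻¹ ∈ S) → ∀ a ∈ A, g * a * g⁻¹ ∈ A
  yy : ∀ a ∈ A, (y * y) * a * (y * y)⁻¹ = a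
  yw : ∀ a ∈ A, (y * w * y⁻¹ * w) * a * (y * w * y⁻¹ * w)⁻¹ = a
  wne : ∃ a ∈ A, w * a * w⁻¹ ≠ a

lemma s3_rel {X : Type*} [Group X] (Y W : X) (h1 : Y * Y = 1) (h2 : Y * W * Y⁻¹ * W = 1)
    (h3 : W ^ 3 = 1) (j : ℕ) :
    ((W ^ j)⁻¹ * Y) * (W * ((W ^ j)⁻¹ * Y) * W⁻¹) = W := by
  have hYW : Y * W * Y⁻¹ = W⁻¹ := eq_inv_of_mul_eq_one_left h2
  have hY : Y⁻¹ = Y := inv_eq_of_mul_eq_one_left h1
  have hn : Y * (W ^ j)⁻¹ * Y⁻¹ = W ^ j := by
    have e1 : Y * W ^ j * Y⁻¹ = (W⁻¹) ^ j := by rw [← conj_pow, hYW]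
    have e2 : Y * (W ^ j)⁻¹ * Y⁻¹ = (Y * W ^ j * Y⁻¹)⁻¹ := by group
    rw [e2, e1, inv_pow, inv_inv]
  have e3 : W⁻¹ * W⁻¹ = W := by
    have e4 : W * W * W = 1 := by rw [← h3, pow_three, mul_assoc]
    calc W⁻¹ * W⁻¹ = W⁻¹ * W⁻¹ * (W * W * W) := by rw [e4, mul_one]
      _ = W := by group
  have hcomm : (W ^ j)⁻¹ * W⁻¹ * W ^ j = W⁻¹ := by
    have e5 : W⁻¹ * W ^ j = W ^ j * W⁻¹ := by
      rw [← zpow_natCast, ← zpow_neg_one, ← zpow_add, ← zpow_add, add_comm]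
    rw [mul_assoc, e5, ← mul_assoc]
    simp
  calc ((W ^ j)⁻¹ * Y) * (W * ((W ^ j)⁻¹ * Y) * W⁻¹)
      = (W ^ j)⁻¹ * (Y * W * Y⁻¹) * (Y * (W ^ j)⁻¹ * Y⁻¹) * (Y * Y) * W⁻¹ := by group
    _ = (W ^ j)⁻¹ * W⁻¹ * W ^ j * W⁻¹ := by rw [hYW, hn, h1, mul_one]
    _ = W⁻¹ * W⁻¹ := by rw [hcomm]
    _ = W := e3

variable [Finite G]

/-- The criterion. -/
theorem isSimple_of_goodW (S : Sylow 2 G) {A : Subgroup G} {w y : G}
    (h : GoodW (S : Subgroup G) A w y) : (groupFusionSystem (S : Subgroup G)).IsSimple 2 := by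
  have hp : Fact (Nat.Prime 2) := ⟨Nat.prime_two⟩
  refine ⟨GroupSylow.isSaturated_groupFusionSystem S, h.ne, ?_⟩
  intro T E hE
  obtain ⟨⟨hEsat, -, hsub, hsc, hinv, hfr⟩, -⟩ := hE
  by_cases hbot : T = ⊥
  · exact Or.inl hbot
  right
  have hTS : T = S := by
    apply h.closed T hsc.1 hbot
    intro t ht g hg
    have hzle : Subgroup.zpowers t ≤ T := by
      rintro _ ⟨i, rfl⟩
      exact T.zpow_mem ht i
    have hmem : conjHom (Subgroup.zpowers t) g ∈ (groupFusionSystem (S : Subgroup G)).Hom (Subgroup.zpowers t) := by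
      refine ⟨hzle.trans hsc.1, ?_, g, fun y => rfl⟩
      rintro ⟨_, i, rfl⟩
      show g * t ^ i * g⁻¹ ∈ (S : Subgroup G)
      rw [← conj_zpow]
      exact (S : Subgroup G).zpow_mem hg i
    exact hsc.2 _ hzle _ hmem ⟨t, Subgroup.mem_zpowers t⟩
  subst hTS
  refine ⟨rfl, ?_⟩
  -- `w` normalizes
  have h3 : w * (w * w) = 1 := by
    rw [← h.w3, pow_three]
  have hwi : w⁻¹ = w * w := inv_eq_of_mul_eq_one_right h3
  have hwii : w⁻¹ * w⁻¹ = w := by
    calc w⁻¹ * w⁻¹ = w⁻¹ * w⁻¹ * (w * (w * w)) := by rw [h3, mul_one]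
      _ = w := by group
  have hwS' : ∀ x ∈ (S : Subgroup G), w⁻¹ * x * w ∈ (S : Subgroup G) := by
    intro x hx
    have h1 := h.wS _ (h.wS x hx)
    have e : w * (w * x * w⁻¹) * w⁻¹ = w⁻¹ * x * w := by
      calc w * (w * x * w⁻¹) * w⁻¹ = (w * w) * x * (w⁻¹ * w⁻¹) := by group
        _ = w⁻¹ * x * w := by rw [← hwi, hwii]
    rwa [e] at h1
  have hwA' : ∀ a ∈ A, w⁻¹ * a * w ∈ A := by
    intro x hx
    have h1 := h.wA _ (h.wA x hx)
    have e : w * (w * x * w⁻¹) * w⁻¹ = w⁻¹ * x * w := by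
      calc w * (w * x * w⁻¹) * w⁻¹ = (w * w) * x * (w⁻¹ * w⁻¹) := by group
        _ = w⁻¹ * x * w := by rw [← hwi, hwii]
    rwa [e] at h1
  have hwSp : ∀ n : ℕ, ∀ x ∈ (S : Subgroup G), (w ^ n)⁻¹ * x * w ^ n ∈ (S : Subgroup G) := by
    intro n
    induction n with
    | zero => intro x hx; simpa using hx
    | succ n ih =>
      intro x hx
      have h1 := hwS' _ (ih x hx)
      have e : w⁻¹ * ((w ^ n)⁻¹ * x * w ^ n) * w = (w ^ (n + 1))⁻¹ * x * w ^ (n + 1) := by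
        rw [pow_succ]; group
      rwa [e] at h1
  have hwAp : ∀ n : ℕ, ∀ x ∈ A, (w ^ n)⁻¹ * x * w ^ n ∈ A := by
    intro n
    induction n with
    | zero => intro x hx; simpa using hx
    | succ n ih =>
      intro x hx
      have h1 := hwA' _ (ih x hx)
      have e : w⁻¹ * ((w ^ n)⁻¹ * x * w ^ n) * w = (w ^ (n + 1))⁻¹ * x * w ^ (n + 1) := by
        rw [pow_succ]; group
      rwa [e] at h1
  have hwN : w ∈ Subgroup.normalizer (((S : Subgroup G)) : Set G) :=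
    SimpleCriterion.mem_normalizer_of_conj_le h.wS
  have hwNA : w ∈ Subgroup.normalizer ((A : Subgroup G) : Set G) :=
    SimpleCriterion.mem_normalizer_of_conj_le h.wA
  have hyNA : y ∈ Subgroup.normalizer ((A : Subgroup G) : Set G) :=
    SimpleCriterion.mem_normalizer_of_conj_le h.yA
  -- maps on `A`
  set Dm : G → Prop := fun g => conjHom A g ∈ E.Hom A with hDm
  have D_congr : ∀ g k : G, Dm g → (∀ a ∈ A, g * a * g⁻¹ = k * a * k⁻¹) → Dm k := by
    intro g k hg hgk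
    have : conjHom A g = conjHom A k := by
      ext ⟨a, ha⟩
      exact hgk a ha
    simpa only [hDm, ← this] using hg
  have D_S : ∀ s ∈ (S : Subgroup G), Dm s := fun s hs => E.conj_mem h.AS hs
  have D_mul : ∀ g k, Dm g → Dm k → (∀ a ∈ A, k * a * k⁻¹ ∈ A) → Dm (g * k) := by
    intro g k hg hk hkA
    have := E.comp_mem hk hg (fun x : A => hkA x x.2)
    show conjHom A (g * k) ∈ E.Hom A
    convert this using 1
    ext x
    show (g * k) * (x : G) * (g * k)⁻¹ = g * (k * x * k⁻¹) * g⁻¹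
    group
  have D_of_eq : ∀ B : Subgroup G, B = A → ∀ χ : B →* G, χ ∈ E.Hom B → ∀ g : G,
      (∀ x : B, χ x = g * (x : G) * g⁻¹) → Dm g := by
    rintro B rfl χ hχ g hg
    show conjHom B g ∈ E.Hom B
    convert hχ using 1
    ext x
    exact (hg x).symm
  -- the Frattini condition applied to `y`
  obtain ⟨j, hy'⟩ : ∃ j : ℕ, Dm ((w ^ j)⁻¹ * y) := by
    have hφ : conjHom A y ∈ (groupFusionSystem (S : Subgroup G)).Hom A :=
      ⟨h.AS, fun x => h.AS (h.yA x x.2), y, fun x => rfl⟩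
    obtain ⟨α, hα, φ₀, hφ₀, hfac⟩ := hfr A h.AS _ hφ
    rw [GroupSylow.autGroup_groupFusionSystem _ le_rfl, GroupSylow.mem_autInducedBy_iff] at hα
    obtain ⟨g, -, hgN, rfl⟩ := hα
    have hgS : ∀ x ∈ (S : Subgroup G), g * x * g⁻¹ ∈ (S : Subgroup G) := fun x hx =>
      (Subgroup.mem_normalizer_iff.1 hgN x).1 hx
    obtain ⟨s, hs, j, hsj⟩ := h.hN g hgS
    refine ⟨j, ?_⟩
    have hφ₀S : ∀ x : A, φ₀ x ∈ (S : Subgroup G) := (E.le_of_mem hφ₀).2
    have hs' : (w ^ j)⁻¹ * s * w ^ j ∈ (S : Subgroup G) := hwSp j s hs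
    have hcomp := E.comp_mem hφ₀ (E.conj_mem (P := (S : Subgroup G)) le_rfl hs') hφ₀S
    show conjHom A ((w ^ j)⁻¹ * y) ∈ E.Hom A
    convert hcomp using 1
    ext x
    have h1 := hfac x (hφ₀S x)
    have h2 : y * (x : G) * y⁻¹ = (s * w ^ j) * φ₀ x * (s * w ^ j)⁻¹ := by
      rw [← hsj _ (hφ₀S x)]
      exact h1
    show (w ^ j)⁻¹ * y * (x : G) * ((w ^ j)⁻¹ * y)⁻¹ =
      ((w ^ j)⁻¹ * s * w ^ j) * φ₀ x * ((w ^ j)⁻¹ * s * w ^ j)⁻¹
    calc (w ^ j)⁻¹ * y * (x : G) * ((w ^ j)⁻¹ * y)⁻¹ = (w ^ j)⁻¹ * (y * (x : G) * y⁻¹) * w ^ j := by group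
      _ = _ := by rw [h2]; group
  -- its conjugate by `w`, by invariance
  have hy'A : ∀ a ∈ A, ((w ^ j)⁻¹ * y) * a * ((w ^ j)⁻¹ * y)⁻¹ ∈ A := by
    intro a ha
    have h1 := hwAp j _ (h.yA a ha)
    have e : (w ^ j)⁻¹ * (y * a * y⁻¹) * w ^ j = ((w ^ j)⁻¹ * y) * a * ((w ^ j)⁻¹ * y)⁻¹ := by group
    rwa [e] at h1
  have hy'' : Dm (w * ((w ^ j)⁻¹ * y) * w⁻¹) := by
    set α : MulAut (S : Subgroup G) := (S : Subgroup G).normalizerMonoidHom ⟨w, hwN⟩ with hαdef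
    have hα : α ∈ (groupFusionSystem (S : Subgroup G)).autGroup (S : Subgroup G) := by
      rw [GroupSylow.autGroup_groupFusionSystem _ le_rfl, GroupSylow.mem_autInducedBy_iff]
      exact ⟨w, Subgroup.mem_top _, hwN, rfl⟩
    obtain ⟨χ, hχ, hχe⟩ := hinv A h.AS (conjHom A ((w ^ j)⁻¹ * y)) hy' α hα
    refine D_of_eq _ ?_ χ hχ _ ?_
    · ext a
      constructor
      · rintro ⟨⟨b, hbS⟩, hb, rfl⟩
        exact h.wA b hb
      · intro ha
        refine ⟨⟨w⁻¹ * a * w, hwS' a (h.AS ha)⟩, hwA' a ha, ?_⟩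
        show w * (w⁻¹ * a * w) * w⁻¹ = a
        group
    · rintro ⟨_, ⟨⟨b, hbS⟩, hb, rfl⟩⟩
      have hb' : b ∈ A := hb
      have h1 := hχe ⟨b, hb'⟩ (h.AS (hy'A b hb')) ⟨⟨b, hbS⟩, hb, rfl⟩
      refine h1.trans ?_
      show w * ((w ^ j)⁻¹ * y * b * ((w ^ j)⁻¹ * y)⁻¹) * w⁻¹ =
        (w * ((w ^ j)⁻¹ * y) * w⁻¹) * (w * b * w⁻¹) * (w * ((w ^ j)⁻¹ * y) * w⁻¹)⁻¹
      group
  -- the group relation
  have hw_A : Dm w := by
    have hy''A : ∀ a ∈ A, (w * ((w ^ j)⁻¹ * y) * w⁻¹) * a * (w * ((w ^ j)⁻¹ * y) * w⁻¹)⁻¹ ∈ A := by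
      intro a ha
      have h1 := h.wA _ (hy'A _ (hwA' a ha))
      have e : w * (((w ^ j)⁻¹ * y) * (w⁻¹ * a * w) * ((w ^ j)⁻¹ * y)⁻¹) * w⁻¹ =
          (w * ((w ^ j)⁻¹ * y) * w⁻¹) * a * (w * ((w ^ j)⁻¹ * y) * w⁻¹)⁻¹ := by group
      rwa [e] at h1
    have hprod := D_mul _ _ hy' hy'' hy''A
    refine D_congr _ _ hprod ?_
    intro a ha
    set ν := (A : Subgroup G).normalizerMonoidHom with hν
    have e1 : ν ⟨y, hyNA⟩ * ν ⟨y, hyNA⟩ = 1 := by
      rw [← map_mul]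
      ext ⟨b, hb⟩
      exact h.yy b hb
    have e2 : ν ⟨y, hyNA⟩ * ν ⟨w, hwNA⟩ * (ν ⟨y, hyNA⟩)⁻¹ * ν ⟨w, hwNA⟩ = 1 := by
      rw [← map_inv, ← map_mul, ← map_mul, ← map_mul]
      ext ⟨b, hb⟩
      exact h.yw b hb
    have e3 : (ν ⟨w, hwNA⟩) ^ 3 = 1 := by
      rw [← map_pow]
      have : (⟨w, hwNA⟩ : Subgroup.normalizer ((A : Subgroup G) : Set G)) ^ 3 = 1 :=
        Subtype.ext (by simpa using h.w3)
      rw [this, map_one]
    have e4 := s3_rel _ _ e1 e2 e3 j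
    have e5 : ν (((⟨w, hwNA⟩ : Subgroup.normalizer ((A : Subgroup G) : Set G)) ^ j)⁻¹ * ⟨y, hyNA⟩ *
        (⟨w, hwNA⟩ * (((⟨w, hwNA⟩ : Subgroup.normalizer ((A : Subgroup G) : Set G)) ^ j)⁻¹ * ⟨y, hyNA⟩) * (⟨w, hwNA⟩)⁻¹)) =
        ν ⟨w, hwNA⟩ := by
      simp only [map_mul, map_inv, map_pow]
      exact e4
    have e6 := congrArg (fun α : MulAut A => ((α ⟨a, ha⟩ : A) : G)) e5
    exact e6
  -- the extension to `S`, by saturation of `E`
  have hkey : conjHom (S : Subgroup G) w ∈ E.Hom (S : Subgroup G) := by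
    obtain ⟨Q, ⟨φ, hφ, hφr⟩, -, hQrec⟩ := hEsat A h.AS
    have hQA : Q = A := by
      obtain ⟨-, hval, g, hg⟩ := hsub A hφ
      have hgA : ∀ a ∈ A, g * a * g⁻¹ ∈ A := h.weak g (fun a ha => by
        have := hval ⟨a, ha⟩
        rwa [hg] at this)
      have hle : Q ≤ A := by
        rw [← hφr]
        rintro _ ⟨x, rfl⟩
        rw [hg]
        exact hgA x x.2
      refine Subgroup.eq_of_le_of_card_ge hle ?_
      rw [← hφr]
      exact (Nat.card_congr (MonoidHom.ofInjective (E.injective_of_mem hφ)).toEquiv).le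
    subst hQA
    have hr : (conjHom Q w).range = Q := by
      apply le_antisymm
      · rintro _ ⟨x, rfl⟩
        exact h.wA x x.2
      · intro a ha
        exact ⟨⟨w⁻¹ * a * w, hwA' a ha⟩, by
          show w * (w⁻¹ * a * w) * w⁻¹ = a
          group⟩
    obtain ⟨ψ, hψ, hψe⟩ := hQrec.2 Q (conjHom Q w) hw_A hr
    have hext : extender (S : Subgroup G) Q (conjHom Q w) = (S : Subgroup G) := by
      apply le_antisymm
      · refine (Subgroup.closure_le _).2 ?_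
        rintro g ⟨hg, -⟩
        exact hg
      · intro g hg
        apply Subgroup.subset_closure
        refine ⟨hg, SimpleCriterion.mem_normalizer_of_conj_le (h.SA g hg), w * g * w⁻¹, h.wS g hg, ?_⟩
        intro x hx
        show w * (g * (x : G) * g⁻¹) * w⁻¹ = (w * g * w⁻¹) * (w * (x : G) * w⁻¹) * (w * g * w⁻¹)⁻¹
        group
    have key : ∀ B : Subgroup G, B = (S : Subgroup G) → ∀ ψ : B →* G, ψ ∈ E.Hom B →
        (∀ x (hP : x ∈ Q) (hN : x ∈ B), ψ ⟨x, hN⟩ = w * x * w⁻¹) →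
        conjHom (S : Subgroup G) w ∈ E.Hom (S : Subgroup G) := by
      intro B hB ψ hψ he
      subst hB
      obtain ⟨-, hval, k, hk⟩ := hsub _ hψ
      have hkS : ∀ x ∈ (S : Subgroup G), k * x * k⁻¹ ∈ (S : Subgroup G) := fun x hx => by
        have := hval ⟨x, hx⟩
        rwa [hk] at this
      obtain ⟨s, hs, j', hsj⟩ := h.hN k hkS
      have hpsi : ∀ x : (S : Subgroup G), ψ x = (s * w ^ j') * (x : G) * (s * w ^ j')⁻¹ := by
        intro x
        rw [hk, hsj _ x.2]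
      -- removing `s`
      have hcw : conjHom (S : Subgroup G) (w ^ j') ∈ E.Hom (S : Subgroup G) := by
        have hcomp := E.comp_mem hψ (E.conj_mem (P := (S : Subgroup G)) le_rfl
          ((S : Subgroup G).inv_mem hs)) hval
        convert hcomp using 1
        ext x
        show w ^ j' * (x : G) * (w ^ j')⁻¹ = s⁻¹ * ψ x * s⁻¹⁻¹
        rw [hpsi]
        group
      have hw3' : ∀ n : ℕ, w ^ n = w ^ (n % 3) := by
        intro n
        conv_lhs => rw [← Nat.div_add_mod n 3, pow_add, pow_mul, h.w3, one_pow, one_mul]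
      have hj3 : j' % 3 = 0 ∨ j' % 3 = 1 ∨ j' % 3 = 2 := by omega
      rcases hj3 with h0 | h1 | h2
      · -- contradiction with the nontrivial action
        exfalso
        obtain ⟨a, ha, hne⟩ := h.wne
        have hws : w ^ j' = 1 := by rw [hw3', h0, pow_zero]
        -- `s` and `w` agree on `Q`
        have hag : ∀ b (hb : b ∈ Q), s * b * s⁻¹ = w * b * w⁻¹ := by
          intro b hb
          have h1 := he b hb (h.AS hb)
          rw [hpsi, hws, mul_one] at h1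
          exact h1
        have hsNA : s ∈ Subgroup.normalizer ((Q : Subgroup G) : Set G) :=
          SimpleCriterion.mem_normalizer_of_conj_le (h.SA s hs)
        set ν := (Q : Subgroup G).normalizerMonoidHom with hν
        have e1 : ν ⟨s, hsNA⟩ = ν ⟨w, hwNA⟩ := by
          ext ⟨b, hb⟩
          exact hag b hb
        have e2 : (ν ⟨w, hwNA⟩) ^ 3 = 1 := by
          rw [← map_pow]
          have : (⟨w, hwNA⟩ : Subgroup.normalizer ((Q : Subgroup G) : Set G)) ^ 3 = 1 :=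
            Subtype.ext (by simpa using h.w3)
          rw [this, map_one]
        obtain ⟨n, hn⟩ := S.isPGroup' ⟨s, hs⟩
        have hsn : s ^ 2 ^ n = 1 := by simpa using congrArg Subtype.val hn
        have e3 : (ν ⟨w, hwNA⟩) ^ 2 ^ n = 1 := by
          rw [← e1, ← map_pow]
          have : (⟨s, hsNA⟩ : Subgroup.normalizer ((Q : Subgroup G) : Set G)) ^ 2 ^ n = 1 :=
            Subtype.ext (by simpa using hsn)
          rw [this, map_one]
        have e4 : ν ⟨w, hwNA⟩ = 1 := by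
          have h5 := orderOf_dvd_of_pow_eq_one e2
          have h6 := orderOf_dvd_of_pow_eq_one e3
          have hc : Nat.Coprime 3 (2 ^ n) := Nat.Coprime.pow_right n (by norm_num)
          exact orderOf_eq_one_iff.1 (Nat.eq_one_of_dvd_coprimes hc h5 h6)
        apply hne
        have e5 := congrArg (fun α : MulAut Q => ((α ⟨a, ha⟩ : Q) : G)) e4
        exact e5
      · have hws : w ^ j' = w := by rw [hw3', h1, pow_one]
        rwa [hws] at hcw
      · have hws : w ^ j' = w * w := by rw [hw3', h2, pow_two]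
        rw [hws] at hcw
        have hcomp := E.comp_mem hcw hcw (fun x : (S : Subgroup G) => by
          show (w * w) * (x : G) * (w * w)⁻¹ ∈ (S : Subgroup G)
          have := h.wS _ (h.wS x x.2)
          have e : w * (w * (x : G) * w⁻¹) * w⁻¹ = (w * w) * (x : G) * (w * w)⁻¹ := by group
          rwa [e] at this)
        convert hcomp using 1
        ext x
        show w * (x : G) * w⁻¹ = (w * w) * ((w * w) * (x : G) * (w * w)⁻¹) * (w * w)⁻¹
        have e : (w * w) * ((w * w) * (x : G) * (w * w)⁻¹) * (w * w)⁻¹ =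
            ((w * w) * (w * w)) * (x : G) * ((w * w) * (w * w))⁻¹ := by group
        rw [e, ← hwi, hwii]
    exact key _ hext ψ hψ (fun x hP hN => hψe x hP hN)
  -- all of `N_G(S)`
  have hNE : ∀ g : G, (∀ x ∈ (S : Subgroup G), g * x * g⁻¹ ∈ (S : Subgroup G)) →
      conjHom (S : Subgroup G) g ∈ E.Hom (S : Subgroup G) := by
    intro g hg
    obtain ⟨s, hs, j', hsj⟩ := h.hN g hg
    have hpow : ∀ n : ℕ, conjHom (S : Subgroup G) (w ^ n) ∈ E.Hom (S : Subgroup G) ∧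
        ∀ x ∈ (S : Subgroup G), w ^ n * x * (w ^ n)⁻¹ ∈ (S : Subgroup G) := by
      intro n
      induction n with
      | zero =>
        refine ⟨?_, fun x hx => by simpa using hx⟩
        have := E.conj_mem (P := (S : Subgroup G)) (g := 1) le_rfl (one_mem _)
        simpa using this
      | succ n ih =>
        refine ⟨?_, fun x hx => ?_⟩
        · have hcomp := E.comp_mem hkey ih.1 (fun x : (S : Subgroup G) => h.wS x x.2)
          convert hcomp using 1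
          ext x
          show w ^ (n + 1) * (x : G) * (w ^ (n + 1))⁻¹ = w ^ n * (w * (x : G) * w⁻¹) * (w ^ n)⁻¹
          rw [pow_succ]
          group
        · have := ih.2 _ (h.wS x hx)
          have e : w ^ n * (w * x * w⁻¹) * (w ^ n)⁻¹ = w ^ (n + 1) * x * (w ^ (n + 1))⁻¹ := by
            rw [pow_succ]; group
          rwa [e] at this
    have hcomp := E.comp_mem (hpow j').1 (E.conj_mem (P := (S : Subgroup G)) le_rfl hs)
      (fun x : (S : Subgroup G) => (hpow j').2 x x.2)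
    convert hcomp using 1
    ext x
    show g * (x : G) * g⁻¹ = s * (w ^ j' * (x : G) * (w ^ j')⁻¹) * s⁻¹
    rw [hsj _ x.2]
    group
  intro P
  refine Set.Subset.antisymm (hsub P) ?_
  intro φ hφ
  have hPS : P ≤ (S : Subgroup G) := hφ.1
  obtain ⟨α, hα, φ₀, hφ₀, hfac⟩ := hfr P hPS φ hφ
  rw [GroupSylow.autGroup_groupFusionSystem _ le_rfl, GroupSylow.mem_autInducedBy_iff] at hα
  obtain ⟨g, -, hgN, rfl⟩ := hα
  have hgS : ∀ x ∈ (S : Subgroup G), g * x * g⁻¹ ∈ (S : Subgroup G) := fun x hx =>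
    (Subgroup.mem_normalizer_iff.1 hgN x).1 hx
  have hφ₀S : ∀ x : P, φ₀ x ∈ (S : Subgroup G) := (E.le_of_mem hφ₀).2
  have hmem := E.comp_mem hφ₀ (hNE g hgS) hφ₀S
  convert hmem using 1
  ext x
  rw [hfac x (hφ₀S x)]
  rfl

end Cfsg.Agent.Lib.Fusion.SimpleW
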