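/-
The fusion system of `T ⋊ A` on a finite `p`-group `T`, for a `p'`-group `A ≤ Aut(T)`, as a system
on the subgroup `T` of the ambient group.
-/
import Mathlib
import Cfsg.Agent.Lib.Fusion.Basic
import Cfsg.Agent.Lib.Fusion.Pullback

set_option autoImplicit false
set_option linter.style.haveILetI false

namespace Cfsg.Agent.Lib.Fusion.SplitSystem

open Cfsg Cfsg.FusionSystem Cfsg.Agent.Lib.Fusion.Basic

variable {Ω : Type*} [Group Ω]

/-- The fusion system on `T` consisting of the restrictions of a subgroup `B ≥ Inn T` of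
automorphisms of `T`. -/
def autSystem (T : Subgroup Ω) (B : Subgroup (MulAut T)) (hB : Inn T ≤ B) : FusionSystem T where
  Hom P := {φ | ∃ hP : P ≤ T, ∃ γ ∈ B, ∀ x : P, φ x = (γ ⟨x, hP x.2⟩ : Ω)}
  le_of_mem := by
    rintro P φ ⟨hP, γ, -, h⟩
    exact ⟨hP, fun x => by rw [h]; exact (γ _).2⟩
  injective_of_mem := by
    rintro P φ ⟨hP, γ, -, h⟩ a b hab
    rw [h, h] at hab
    have h1 := γ.injective (Subtype.ext hab)
    exact Subtype.ext (congrArg (fun t : T => (t : Ω)) h1)
  conj_mem := by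
    intro P g hP hg
    exact ⟨hP, MulAut.conj (⟨g, hg⟩ : T), hB ⟨_, rfl⟩, fun x => rfl⟩
  comp_mem := by
    rintro P Q φ ψ ⟨hP, γ, hγ, h⟩ ⟨hQ, δ, hδ, k⟩ hv
    refine ⟨hP, δ * γ, B.mul_mem hδ hγ, fun x => ?_⟩
    show ψ ⟨φ x, hv x⟩ = _
    rw [k]
    have e : (⟨φ x, hQ (hv x)⟩ : T) = γ ⟨x, hP x.2⟩ := Subtype.ext (h x)
    show ((δ ⟨φ x, hQ (hv x)⟩ : T) : Ω) = _
    rw [e]
    rfl
  inv_mem := by
    rintro P φ ⟨hP, γ, hγ, h⟩
    have hr : φ.range ≤ T := by
      rintro _ ⟨x, rfl⟩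
      rw [h]
      exact (γ _).2
    refine ⟨T.subtype.comp ((γ⁻¹ : MulAut T).toMonoidHom.comp (Subgroup.inclusion hr)),
      ⟨hr, γ⁻¹, B.inv_mem hγ, fun x => rfl⟩, fun x => ?_⟩
    have e : (⟨φ x, hr ⟨x, rfl⟩⟩ : T) = γ ⟨x, hP x.2⟩ := Subtype.ext (h x)
    show (((γ⁻¹ : MulAut T) ⟨φ x, hr ⟨x, rfl⟩⟩ : T) : Ω) = _
    rw [e]
    simp

theorem mem_autSystem_hom {T : Subgroup Ω} {B : Subgroup (MulAut T)} {hB : Inn T ≤ B}
    {P : Subgroup Ω} {φ : P →* Ω} :
    φ ∈ (autSystem T B hB).Hom P ↔ ∃ hP : P ≤ T, ∃ γ ∈ B, ∀ x : P, φ x = (γ ⟨x, hP x.2⟩ : Ω) :=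
  Iff.rfl

/-- `Aut_E(T) = B` for the system `E` of `B`. -/
theorem autGroup_autSystem (T : Subgroup Ω) (B : Subgroup (MulAut T)) (hB : Inn T ≤ B) :
    (autSystem T B hB).autGroup T = B := by
  ext α
  rw [mem_autGroup_iff le_rfl]
  constructor
  · rintro ⟨hP, γ, hγ, h⟩
    have : α = γ := by
      ext x
      exact h x
    rwa [this]
  · intro hα
    exact ⟨le_rfl, α, hα, fun x => rfl⟩

/-- A system of automorphisms inside `Aut_F(T)` is a subsystem of `F`. -/
theorem autSystem_le {S T : Subgroup Ω} {F : FusionSystem S} (hT : T ≤ S)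
    (B : Subgroup (MulAut T)) (hB : Inn T ≤ B) (h : B ≤ F.autGroup T) :
    (autSystem T B hB).IsSubsystemOf F := by
  rintro P φ ⟨hP, γ, hγ, e⟩
  have h1 := res_mem (autGroup_mem_hom hT (h hγ)) hP
  have e' : φ = (T.subtype.comp (MulEquiv.toMonoidHom γ)).comp (Subgroup.inclusion hP) := by
    ext x
    exact e x
  rw [e']
  exact h1

/-- `Inn T ≤ Aut_F(T)`. -/
theorem inn_le_autGroup {S T : Subgroup Ω} {F : FusionSystem S} (hT : T ≤ S) :
    Inn T ≤ F.autGroup T := by
  rintro _ ⟨g, rfl⟩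
  apply mem_autGroup_of_mem
  have e : T.subtype.comp (MulEquiv.toMonoidHom (MulAut.conj g)) = conjHom T (g : Ω) := by
    ext x
    rfl
  show T.subtype.comp (MulEquiv.toMonoidHom (MulAut.conj g)) ∈ _
  rw [e]
  exact F.conj_mem hT (hT g.2)

/-- The system of `T ⋊ A`. -/
abbrev splitSystem (T : Subgroup Ω) (A : Subgroup (MulAut T)) : FusionSystem T :=
  autSystem T (Inn T ⊔ A) le_sup_left

/-- The system of `T ⋊ A` is realized by `T ⋊ A`. -/
theorem isRealizedBy_splitSystem (T : Subgroup Ω) (A : Subgroup (MulAut T)) :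
    (splitSystem T A).IsRealizedBy
      (SemidirectProduct.inl : T →* SemidirectProduct T A A.subtype) := by
  have key : ∀ (t : T) (a : A) (y : T), (SemidirectProduct.inl (t * (a : MulAut T) y * t⁻¹) :
      SemidirectProduct T A A.subtype) = (SemidirectProduct.inl t * SemidirectProduct.inr a) *
        SemidirectProduct.inl y * (SemidirectProduct.inl t * SemidirectProduct.inr a)⁻¹ := by
    intro t a y
    have h1 : (SemidirectProduct.inl ((a : MulAut T) y) : SemidirectProduct T A A.subtype) =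
        SemidirectProduct.inr a * SemidirectProduct.inl y * (SemidirectProduct.inr a)⁻¹ := by
      rw [← map_inv]
      exact SemidirectProduct.inl_aut (φ := A.subtype) a y
    rw [map_mul, map_mul, h1, map_inv]
    group
  refine ⟨SemidirectProduct.inl_injective, fun P hP φ hφ => ⟨?_, ?_⟩⟩
  · rintro ⟨hP', γ, hγ, h⟩
    obtain ⟨i, hi, a, ha, e⟩ := Subgroup.mem_sup_of_normal_left.1 hγ
    obtain ⟨t, rfl⟩ := hi
    refine ⟨SemidirectProduct.inl t * SemidirectProduct.inr ⟨a, ha⟩, fun x => ?_⟩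
    rw [← key]
    congr 1
    apply Subtype.ext
    show φ x = _
    rw [h, ← e]
    rfl
  · rintro ⟨g, hg⟩
    refine ⟨hP, MulAut.conj g.left * g.right, Subgroup.mul_mem _ (le_sup_left (a := Inn T) ⟨_, rfl⟩)
      (le_sup_right (b := A) g.right.2), fun x => ?_⟩
    have h1 := hg x
    rw [← SemidirectProduct.inl_left_mul_inr_right g, ← key] at h1
    have h2 := SemidirectProduct.inl_injective h1
    exact congrArg (fun t : T => (t : Ω)) h2

/-- The system of `T ⋊ A` is saturated, for a `p'`-group `A`. -/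
theorem isSaturated_splitSystem {p : ℕ} [Fact p.Prime] {T : Subgroup Ω} [Finite T]
    (hT : IsPGroup p T) (A : Subgroup (MulAut T)) (hA : ¬ p ∣ Nat.card A) :
    (splitSystem T A).IsSaturated p := by
  classical
  haveI : Finite (MulAut T) :=
    Finite.of_injective (fun α : MulAut T => (α : T → T)) DFunLike.coe_injective
  let G := SemidirectProduct T A A.subtype
  haveI : Finite G :=
    Finite.of_equiv _ (SemidirectProduct.equivProd (N := T) (G := A) (φ := A.subtype)).symm
  let ι : T →* G := SemidirectProduct.inl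
  have hι : Function.Injective ι := SemidirectProduct.inl_injective
  have hc : Nat.card ι.range = Nat.card T :=
    (Nat.card_congr (MonoidHom.ofInjective hι).toEquiv).symm
  have hp : IsPGroup p ι.range := by
    obtain ⟨n, hn⟩ := IsPGroup.iff_card.1 hT
    exact IsPGroup.iff_card.2 ⟨n, hc.trans hn⟩
  have hi : ¬ p ∣ ι.range.index := by
    have h1 : Nat.card ι.range * ι.range.index = Nat.card T * Nat.card A := by
      rw [Subgroup.card_mul_index, ← Nat.card_prod]
      exact Nat.card_congr (SemidirectProduct.equivProd (N := T) (G := A) (φ := A.subtype))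
    rw [hc] at h1
    have h2 : ι.range.index = Nat.card A :=
      Nat.eq_of_mul_eq_mul_left Nat.card_pos h1
    rwa [h2]
  exact Pullback.isSaturated_of_isRealizedBy (isRealizedBy_splitSystem T A) (hp.toSylow hi) (IsPGroup.toSylow_coe hp hi)

/-- A nontrivial `p'`-automorphism makes the system non-inner. -/
theorem not_inner_splitSystem {p : ℕ} [Fact p.Prime] {T : Subgroup Ω} [Finite T]
    (hT : IsPGroup p T) {α : MulAut T} (hα : (orderOf α).Coprime p) (hne : α ≠ 1) :
    ¬ ∀ P : Subgroup Ω, (splitSystem T (Subgroup.zpowers α)).Hom P = (innerFusionSystem T).Hom P := by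
  intro h
  have h1 : T.subtype.comp (MulEquiv.toMonoidHom α) ∈ (splitSystem T (Subgroup.zpowers α)).Hom T :=
    ⟨le_rfl, α, le_sup_right (a := Inn T) (Subgroup.mem_zpowers α), fun x => rfl⟩
  rw [h] at h1
  obtain ⟨-, g, hg, e⟩ := h1
  have h2 : α = MulAut.conj (⟨g, hg⟩ : T) := by
    ext x
    exact e x
  have h3 : orderOf α ∣ orderOf (⟨g, hg⟩ : T) := by
    rw [h2]
    exact orderOf_map_dvd (MulAut.conj : T →* MulAut T) _
  obtain ⟨k, hk⟩ := (IsPGroup.iff_orderOf.1 hT) ⟨g, hg⟩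
  rw [hk] at h3
  have h4 : orderOf α = 1 := by
    have := Nat.Coprime.pow_right k hα
    exact Nat.Coprime.eq_one_of_dvd this h3
  exact hne (orderOf_eq_one_iff.1 h4)

/-- Card of `zpowers α` for `α` of prime order `q ≠ p`. -/
theorem not_dvd_card_zpowers {p : ℕ} [Fact p.Prime] {G : Type*} [Group G] {α : G}
    (hα : (orderOf α).Coprime p) : ¬ p ∣ Nat.card (Subgroup.zpowers α) := by
  rw [Nat.card_zpowers]
  intro h
  have h1 : p ∣ 1 := by
    have := Nat.dvd_gcd h (dvd_refl p)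
    rwa [Nat.Coprime.gcd_eq_one hα] at this
  exact (Fact.out : p.Prime).one_lt.ne' (Nat.dvd_one.1 h1)

/-- A nontrivial `p'`-automorphism in `Aut_F(T)`: a non-inner saturated subsystem over `T`. -/
theorem splitSystem_props {p : ℕ} [Fact p.Prime] {S T : Subgroup Ω} {F : FusionSystem S} [Finite T]
    (hT : IsPGroup p T) (hTS : T ≤ S) {α : MulAut T} (hαF : α ∈ F.autGroup T)
    (hα : (orderOf α).Coprime p) (hne : α ≠ 1) :
    (splitSystem T (Subgroup.zpowers α)).IsSaturated p ∧
      (splitSystem T (Subgroup.zpowers α)).IsSubsystemOf F ∧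
      ¬ ∀ P : Subgroup Ω, (splitSystem T (Subgroup.zpowers α)).Hom P = (innerFusionSystem T).Hom P := by
  refine ⟨isSaturated_splitSystem hT _ (not_dvd_card_zpowers hα), autSystem_le hTS _ _ ?_,
    not_inner_splitSystem hT hα hne⟩
  refine sup_le (inn_le_autGroup hTS) ?_
  rintro _ ⟨k, rfl⟩
  exact Subgroup.zpow_mem _ hαF k

end Cfsg.Agent.Lib.Fusion.SplitSystem
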