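/-
Constrained systems: reverse transport of constrainedness; subnormal subgroups of groups with constrained
fusion; central quotients.
-/
import Mathlib
import Cfsg.Prelude.Def_FusionSystem
import Cfsg.Agent.Lib.Fusion.Basic
import Cfsg.Agent.Lib.Fusion.GroupSylow
import Cfsg.Agent.Lib.Fusion.Transport
import Cfsg.Agent.Lib.Fusion.Pullback
import Cfsg.Agent.Lib.Fusion.GroupNormal
import Cfsg.Agent.Lib.Fusion.ModelLocal

set_option autoImplicit false

namespace Cfsg.Agent.Lib.Fusion.SubnormalConstrained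

open Cfsg Cfsg.FusionSystem
open Cfsg.Agent.Lib.Fusion.Basic Cfsg.Agent.Lib.Fusion.Transport Cfsg.Agent.Lib.Fusion.Pullback
open Cfsg.Agent.Lib.Fusion.GroupSylow

section transport

variable {Ω Ω' : Type*} [Group Ω] [Group Ω'] {ι : Ω' →* Ω} {T' : Subgroup Ω'} {T : Subgroup Ω}
  {E' : FusionSystem T'} {E : FusionSystem T}

/-- Constrainedness passes back along a transport. -/
theorem isConstrained_rev (h : IsTransportAlong ι E' E) {p : ℕ} [Fact p.Prime] (hE : E.IsConstrained p) :
    E'.IsConstrained p := by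
  obtain ⟨hs, Q, hQn, hQc⟩ := hE
  refine ⟨isSaturated_rev h hs, ?_⟩
  obtain ⟨Q', hQ'T, rfl⟩ := exists_map_eq h hQn.1
  refine ⟨Q', ⟨hQ'T, fun P' φ' hφ' => ?_⟩, ⟨hQ'T, fun R' hR' => ?_⟩⟩
  · obtain ⟨ψ, hψ, hag, him⟩ := hQn.2 _ _ (push_mem h hφ')
    have e : (P' ⊔ Q').map ι = P'.map ι ⊔ Q'.map ι := Subgroup.map_sup _ _ _
    have hres : ψ.comp (Subgroup.inclusion e.le) ∈ E.Hom ((P' ⊔ Q').map ι) := res_mem hψ e.le
    have hpull := fun x => pull_apply ι h.inj (ψ.comp (Subgroup.inclusion e.le)) (range_of_map_le h hres) x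
    refine ⟨pull ι h.inj _ (range_of_map_le h hres), pull_mem h hres, fun x => ?_, ?_⟩
    · apply h.inj
      rw [hpull]
      have h1 := hag ⟨ι x, ⟨x, x.2, rfl⟩⟩
      rw [push_apply] at h1
      exact h1
    · ext y
      constructor
      · rintro ⟨x, hx, rfl⟩
        rw [← mem_map_iff ι h.inj, hpull]
        exact him.le ⟨Subgroup.inclusion e.le ⟨ι x, ⟨x, x.2, rfl⟩⟩, ⟨(x : Ω'), hx, rfl⟩, rfl⟩
      · intro hy
        have hy' : ι y ∈ ((Q'.map ι).subgroupOf (P'.map ι ⊔ Q'.map ι)).map ψ := by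
          rw [him]
          exact ⟨y, hy, rfl⟩
        obtain ⟨n, ⟨x, hx, hxn⟩, hn⟩ := hy'
        have hxm : x ∈ P' ⊔ Q' := (le_sup_right : Q' ≤ P' ⊔ Q') hx
        refine ⟨⟨x, hxm⟩, hx, ?_⟩
        apply h.inj
        rw [hpull]
        refine Eq.trans ?_ hn
        show ψ _ = ψ _
        congr 1
        exact Subtype.ext hxn
  · have h1 := hQc.2 _ (isConj_map h hR')
    rintro c ⟨hcT, hcC⟩
    have hc2 : ι c ∈ centralizerIn T (R'.map ι) := by
      refine ⟨?_, Subgroup.mem_centralizer_iff.2 ?_⟩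
      · rw [← h.map_eq]
        exact ⟨c, hcT, rfl⟩
      · rintro _ ⟨r, hr, rfl⟩
        rw [← map_mul, ← map_mul, (Subgroup.mem_centralizer_iff.1 hcC) r hr]
    exact (mem_map_iff ι h.inj).1 (h1 hc2)

/-- The group fusion system is transported along isomorphisms. -/
theorem isTransport_surj {X Y : Type*} [Group X] [Group Y] (ι : X →* Y) (hinj : Function.Injective ι)
    (hsurj : Function.Surjective ι) (T' : Subgroup X) (T : Subgroup Y) (hT : T'.map ι = T) :
    IsTransportAlong ι (groupFusionSystem T') (groupFusionSystem T) where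
  inj := hinj
  map_eq := hT
  hom_iff := by
    subst hT
    intro P' φ φ' he
    constructor
    · rintro ⟨hP, hv, g, hge⟩
      obtain ⟨g', rfl⟩ := hsurj g
      refine ⟨?_, ?_, g', ?_⟩
      · intro x hx
        exact (mem_map_iff ι hinj).1 (hP ⟨x, hx, rfl⟩)
      · intro x
        have h1 := hv ⟨ι x, ⟨x, x.2, rfl⟩⟩
        rw [he x] at h1
        exact (mem_map_iff ι hinj).1 h1
      · intro x
        apply hinj
        rw [← he x, hge]
        simp
    · rintro ⟨hP, hv, g', hge⟩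
      refine ⟨?_, ?_, ι g', ?_⟩
      · rintro _ ⟨x, hx, rfl⟩
        exact ⟨x, hP hx, rfl⟩
      · rintro ⟨_, x, hx, rfl⟩
        rw [he ⟨x, hx⟩]
        exact ⟨_, hv ⟨x, hx⟩, rfl⟩
      · rintro ⟨_, x, hx, rfl⟩
        rw [he ⟨x, hx⟩, hge]
        simp

/-- The system of the subgroup `H ≤ K`, in the ambient group `K`. -/
theorem isTransport_incl {G : Type*} [Group G] {K H : Subgroup G} (hHK : H ≤ K) (S : Subgroup G) (SK : Subgroup K)
    (hSK : SK = S.subgroupOf K) :
    IsTransportAlong (Subgroup.inclusion hHK) (groupFusionSystem (S.subgroupOf H))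
      (fusionSystemOfSubgroup (H.subgroupOf K) (SK ⊓ H.subgroupOf K) inf_le_right) where
  inj := Subgroup.inclusion_injective hHK
  map_eq := by
    subst hSK
    ext x
    constructor
    · rintro ⟨y, hy, rfl⟩
      exact ⟨hy, y.2⟩
    · rintro ⟨h1, h2⟩
      exact ⟨⟨x, h2⟩, h1, rfl⟩
  hom_iff := by
    subst hSK
    intro P' φ φ' he
    constructor
    · rintro ⟨hP, hv, g, hg, hge⟩
      refine ⟨?_, ?_, ⟨g, hg⟩, ?_⟩
      · intro x hx
        exact (hP ⟨x, hx, rfl⟩).1
      · intro x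
        have h1 := hv ⟨Subgroup.inclusion hHK x, ⟨x, x.2, rfl⟩⟩
        rw [he x] at h1
        exact h1.1
      · intro x
        apply Subgroup.inclusion_injective hHK
        rw [← he x, hge]
        rfl
    · rintro ⟨hP, hv, ⟨g, hg⟩, hge⟩
      refine ⟨?_, ?_, ⟨g, hHK hg⟩, hg, ?_⟩
      · rintro _ ⟨x, hx, rfl⟩
        exact ⟨hP hx, x.2⟩
      · rintro ⟨_, x, hx, rfl⟩
        rw [he ⟨x, hx⟩]
        exact ⟨hv ⟨x, hx⟩, (φ' ⟨x, hx⟩).2⟩
      · rintro ⟨_, x, hx, rfl⟩
        rw [he ⟨x, hx⟩, hge]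
        rfl

end transport

section subnormal

variable {G : Type*} [Group G] [Finite G] {p : ℕ} [Fact p.Prime]

/-- Fusion systems of subnormal subgroups of groups with constrained fusion are constrained. -/
theorem constrained_of_subnormal (S : Sylow p G) (hF : (groupFusionSystem (S : Subgroup G)).IsConstrained p)
    {H : Subgroup G} (hH : H.IsSubnormal) :
    (∃ R : Sylow p H, (R : Subgroup H) = (S : Subgroup G).subgroupOf H) ∧
      (groupFusionSystem ((S : Subgroup G).subgroupOf H)).IsConstrained p := by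
  induction hH with
  | top =>
    refine ⟨⟨S.subtype le_top, rfl⟩, ?_⟩
    refine isConstrained_rev (isTransport_surj (⊤ : Subgroup G).subtype Subtype.val_injective ?_ _ _ ?_) hF
    · exact fun y => ⟨⟨y, trivial⟩, rfl⟩
    · exact Subgroup.map_subgroupOf_eq_of_le le_top
  | step H K hHK hK hN ih =>
    obtain ⟨⟨R, hR⟩, hcons⟩ := ih
    haveI := hN
    have hnorm := Cfsg.Agent.Lib.Fusion.GroupNormal.isNormalIn_fusionSystemOfSubgroup R (H.subgroupOf K)
    rw [← hR] at hcons
    have hc2 := Cfsg.Agent.Lib.Fusion.ModelLocal.isConstrained_of_isNormalIn R.isPGroup' hcons hnorm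
    refine ⟨?_, isConstrained_rev (isTransport_incl hHK _ _ hR) hc2⟩
    obtain ⟨R₁, hR₁⟩ := Cfsg.Agent.Lib.Fusion.GroupNormal.isSylowIn_inf R (H.subgroupOf K)
    let c : ↥(H.subgroupOf K) ≃* ↥H := Subgroup.subgroupOfEquivOfLe hHK
    have hcs : Function.Surjective c.toMonoidHom := fun y => c.surjective y
    refine ⟨R₁.mapSurjective (f := c.toMonoidHom) hcs, ?_⟩
    rw [Sylow.coe_mapSurjective, hR₁]
    ext x
    constructor
    · rintro ⟨y, hy, rfl⟩
      have h1 : ((y : K) : K) ∈ (R : Subgroup K) := hy.1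
      rw [hR] at h1
      exact h1
    · intro hx
      refine ⟨c.symm x, ?_, by simp⟩
      refine ⟨?_, (c.symm x).2⟩
      show ((c.symm x : H.subgroupOf K) : K) ∈ (R : Subgroup K)
      rw [hR]
      exact hx

end subnormal

end Cfsg.Agent.Lib.Fusion.SubnormalConstrained
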