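/-
Saturated fusion systems over `p`-groups, `p` odd, with a unique abelian subgroup `A` of index `p`, with `O_p(F) = 1`
and `A` not essential.
-/
import Mathlib
import Cfsg.Agent.Lib.Fusion.AlperinClass

set_option autoImplicit false
set_option linter.style.haveILetI false

namespace Cfsg.Agent.Lib.Fusion.UniqueAbelian

open Cfsg Cfsg.FusionSystem Cfsg.Agent.Lib.Fusion.Basic Cfsg.Agent.Lib.Fusion.Saturated
  Cfsg.Agent.Lib.Fusion.Saturated2 Cfsg.Agent.Lib.Fusion.Essential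
  Cfsg.Agent.Lib.Fusion.EssentialPair Cfsg.Agent.Lib.Fusion.AbelianMax
  Cfsg.Agent.Lib.Fusion.PearlCore Cfsg.Agent.Lib.Fusion.CenterIndex
  Cfsg.Agent.Lib.Fusion.AlperinClass
open scoped commutatorElement

variable {Ω : Type*} [Group Ω] {S A : Subgroup Ω} [Finite S] {p : ℕ} [hp : Fact p.Prime]
  {F : FusionSystem S}

omit [Finite S] hp in
/-- The centre lies in the second centre. -/
theorem cen_le_cen2 : cen S ≤ cen2 S := by
  intro y hy
  refine mem_cen2.2 ⟨(mem_cen.1 hy).1, fun s hs => ?_⟩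
  have h1 := (mem_cen.1 hy).2 s hs
  have e : y * s * y⁻¹ * s⁻¹ = 1 := by
    rw [← h1]
    group
  rw [e]
  exact (cen S).one_mem

/-- Automorphisms of `S` preserve `A`. -/
theorem aut_A (D : Data S A p) (huniq : ∀ B : Subgroup Ω, B ≤ S → IsMulCommutative ↥B →
    (B.subgroupOf S).index = p → B = A) (e : MulAut S) {y : S} (hy : (y : Ω) ∈ A) :
    ((e y : S) : Ω) ∈ A := by
  let B : Subgroup ↥S := (A.subgroupOf S).map e.toMonoidHom
  let B' : Subgroup Ω := B.map S.subtype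
  have hB'S : B' ≤ S := by
    rintro _ ⟨u, -, rfl⟩
    exact u.2
  have hsub : B'.subgroupOf S = B := by
    ext u
    constructor
    · rintro ⟨v, hv, hve⟩
      have : v = u := Subtype.ext hve
      rwa [← this]
    · intro hu
      exact ⟨u, hu, rfl⟩
  have hcomm : IsMulCommutative ↥B' := by
    refine ⟨⟨fun a b => Subtype.ext ?_⟩⟩
    obtain ⟨_, ⟨u, hu, rfl⟩, hae⟩ := a.2
    obtain ⟨_, ⟨v, hv, rfl⟩, hbe⟩ := b.2
    show (a : Ω) * b = b * a
    rw [← hae, ← hbe]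
    have h1 : u * v = v * u := Subtype.ext (D.comm _ hu _ hv)
    show ((e u * e v : S) : Ω) = ((e v * e u : S) : Ω)
    rw [← map_mul, ← map_mul, h1]
  have hidx : (B'.subgroupOf S).index = p := by
    rw [hsub]
    have h1 : B.index = (A.subgroupOf S).index :=
      Subgroup.index_map_equiv (A.subgroupOf S) e
    rw [h1, D.index]
  have hB'A := huniq B' hB'S hcomm hidx
  rw [← hB'A]
  exact ⟨e y, ⟨y, hy, rfl⟩, rfl⟩

omit hp in
/-- Automorphisms of `S` preserve `Z₂(S)`. -/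
theorem aut_cen2 (e : MulAut S) {y : S} (hy : (y : Ω) ∈ cen2 S) : ((e y : S) : Ω) ∈ cen2 S := by
  refine mem_cen2.2 ⟨(e y).2, fun s hs => ?_⟩
  have h1 := (mem_cen2.1 hy).2 _ (e⁻¹ ⟨s, hs⟩).2
  let w : S := y * (e⁻¹ ⟨s, hs⟩) * y⁻¹ * (e⁻¹ ⟨s, hs⟩)⁻¹
  have hw : (w : Ω) ∈ cen S := h1
  have h3 := map_cen e hw
  have h4 : e w = e y * ⟨s, hs⟩ * (e y)⁻¹ * (⟨s, hs⟩ : S)⁻¹ := by
    show e (y * (e⁻¹ ⟨s, hs⟩) * y⁻¹ * (e⁻¹ ⟨s, hs⟩)⁻¹) = _
    rw [map_mul, map_mul, map_mul, map_inv, map_inv, MulAut.apply_inv_self]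
  rw [h4] at h3
  exact h3

/-- The subgroups not in `A` with `Z₂ < Q ∩ A`. -/
def XP (S A : Subgroup Ω) : Set (Subgroup Ω) :=
  {Q | Q ≤ S ∧ ¬ Q ≤ A ∧ cen2 S ≤ Q ∧ ∃ b ∈ Q, b ∈ A ∧ b ∉ cen2 S}

/-- The subgroups not in `A` with `Z₂ = Q ∩ A`. -/
def BB (S A : Subgroup Ω) : Set (Subgroup Ω) :=
  {Q | Q ≤ S ∧ ¬ Q ≤ A ∧ cen2 S ≤ Q ∧ ∀ b ∈ Q, b ∈ A → b ∈ cen2 S}

/-- The context. -/
structure Ctx (F : FusionSystem S) (A : Subgroup Ω) (p : ℕ) : Prop where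
  D : Data S A p
  hF : F.IsSaturated p
  hna : ¬ IsMulCommutative ↥S
  huniq : ∀ B : Subgroup Ω, B ≤ S → IsMulCommutative ↥B → (B.subgroupOf S).index = p → B = A
  hAe : ¬ F.IsEssential p A
  hZ2 : cen2 S ≤ A
  hi : ((cen S).subgroupOf (cen2 S)).index = p

namespace Ctx

variable (C : Ctx F A p)

include C

theorem hS : IsPGroup p S := C.D.hS

theorem ess_x {P : Subgroup Ω} (hP : F.IsEssential p P) : ∃ x ∈ P, x ∉ A :=
  C.D.exists_x hP.1 (fun h => C.hAe (h ▸ hP))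

theorem ess_le {P : Subgroup Ω} (hP : F.IsEssential p P) {b : Ω} (hb : b ∈ P) (hbA : b ∈ A) :
    b ∈ cen2 S := by
  obtain ⟨x, hx, hxA⟩ := C.ess_x hP
  by_cases hab : ∀ s ∈ P, ∀ t ∈ P, s * t = t * s
  · exact cen_le_cen2 (C.D.central_of_comm hbA (hP.1.1 hx) hxA (hab x hx b hb))
  · exact C.D.le_cen2 C.hF hP hx hxA hab hb hbA

/-- Invariance of the class `XP`. -/
theorem XP_inv {d : MulAut S} {Q : Subgroup Ω} (hQ : Q ∈ XP S A) :
    (Q.subgroupOf S).map (S.subtype.comp d.toMonoidHom) ∈ XP S A := by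
  obtain ⟨hQS, hQA, hQZ, b, hb, hbA, hbZ⟩ := hQ
  obtain ⟨x, hx, hxA⟩ := Set.not_subset.1 hQA
  refine ⟨?_, ?_, ?_, ((d ⟨b, hQS hb⟩ : S) : Ω), ⟨⟨b, hQS hb⟩, hb, rfl⟩, aut_A C.D C.huniq d hbA, ?_⟩
  · rintro _ ⟨u, -, rfl⟩
    exact (d u).2
  · intro h
    have h1 := h (show ((d ⟨x, hQS hx⟩ : S) : Ω) ∈ _ from ⟨⟨x, hQS hx⟩, hx, rfl⟩)
    have h2 := aut_A C.D C.huniq d⁻¹ h1
    rw [MulAut.inv_apply_self] at h2
    exact hxA h2
  · intro y hy
    have hyS := (mem_cen2.1 hy).1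
    have h1 := aut_cen2 d⁻¹ (y := ⟨y, hyS⟩) hy
    refine ⟨d⁻¹ ⟨y, hyS⟩, hQZ h1, ?_⟩
    show ((d (d⁻¹ ⟨y, hyS⟩) : S) : Ω) = y
    rw [MulAut.apply_inv_self]
  · intro h
    have h2 := aut_cen2 d⁻¹ h
    rw [MulAut.inv_apply_self] at h2
    exact hbZ h2

/-- Invariance of the class `BB`. -/
theorem BB_inv {d : MulAut S} {Q : Subgroup Ω} (hQ : Q ∈ BB S A) :
    (Q.subgroupOf S).map (S.subtype.comp d.toMonoidHom) ∈ BB S A := by
  obtain ⟨hQS, hQA, hQZ, hQb⟩ := hQ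
  obtain ⟨x, hx, hxA⟩ := Set.not_subset.1 hQA
  refine ⟨?_, ?_, ?_, ?_⟩
  · rintro _ ⟨u, -, rfl⟩
    exact (d u).2
  · intro h
    have h1 := h (show ((d ⟨x, hQS hx⟩ : S) : Ω) ∈ _ from ⟨⟨x, hQS hx⟩, hx, rfl⟩)
    have h2 := aut_A C.D C.huniq d⁻¹ h1
    rw [MulAut.inv_apply_self] at h2
    exact hxA h2
  · intro y hy
    have hyS := (mem_cen2.1 hy).1
    have h1 := aut_cen2 d⁻¹ (y := ⟨y, hyS⟩) hy
    refine ⟨d⁻¹ ⟨y, hyS⟩, hQZ h1, ?_⟩
    show ((d (d⁻¹ ⟨y, hyS⟩) : S) : Ω) = y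
    rw [MulAut.apply_inv_self]
  · rintro _ ⟨u, hu, rfl⟩ hA
    have h1 : ((d u : S) : Ω) ∈ A := hA
    have h2 := aut_A C.D C.huniq d⁻¹ h1
    rw [MulAut.inv_apply_self] at h2
    exact aut_cen2 d (hQb _ hu h2)

/-- **Lemma A**: maps out of `XP`. -/
theorem lemma_A {Q : Subgroup Ω} {φ : Q →* Ω} (hφ : φ ∈ F.Hom Q) (hQ : Q ∈ XP S A) :
    ∃ d ∈ F.autGroup S, ∀ y (hy : y ∈ cen S) (hyQ : y ∈ Q),
      φ ⟨y, hyQ⟩ = ((d ⟨y, (mem_cen.1 hy).1⟩ : S) : Ω) := by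
  refine (alperin_class C.hS C.hF (XP S A) ?_ ?_ ?_ hφ le_rfl hQ).2
  · rintro R ⟨-, -, h, -⟩
    exact cen_le_cen2.trans h
  · intro d _ R _ hR
    exact C.XP_inv hR
  · intro P φ hP _ hr R hR hor
    exfalso
    rcases hor with ⟨-, -, -, b, hb, hbA, hbZ⟩ | ⟨-, -, -, b, hb, hbA, hbZ⟩
    · exact hbZ (C.ess_le hP (hR hb) hbA)
    · apply hbZ
      have hbP : b ∈ P := by
        obtain ⟨u, -, rfl⟩ := hb
        have h0 : φ u ∈ φ.range := ⟨u, rfl⟩
        rwa [hr] at h0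
      exact C.ess_le hP hbP hbA

/-- **Lemma B**: automorphisms of essential subgroups containing `Z₂`. -/
theorem lemma_B {E : Subgroup Ω} (hE : F.IsEssential p E) (hZE2 : cen2 S ≤ E) {α : MulAut E}
    (hα : α ∈ F.autGroup E) :
    ∃ d ∈ F.autGroup S, ∀ y (hy : y ∈ cen S) (hyE : y ∈ E),
      ((α ⟨y, hyE⟩ : E) : Ω) = ((d ⟨y, (mem_cen.1 hy).1⟩ : S) : Ω) := by
  classical
  have hES : E ≤ S := hE.1.1
  haveI : Finite E := finite_of_le hES
  haveI : Finite (F.autGroup E) := finite_autGroup hES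
  obtain ⟨x, hx, hxA⟩ := C.ess_x hE
  have hxS := hES hx
  have hZE : cen S ≤ E := cen_le_of_centric hE.1
  have hp1 := hp.out.one_lt
  -- `E` is not abelian
  have hnab : ¬ ∀ s ∈ E, ∀ t ∈ E, s * t = t * s := by
    intro hab
    have hle : cen2 S ≤ cen S := fun b hb =>
      C.D.central_of_comm (C.hZ2 hb) hxS hxA (hab x hx b (hZE2 hb))
    have h1 : ((cen S).subgroupOf (cen2 S)).index = 1 := by
      rw [Subgroup.index_eq_one]
      exact eq_top_iff.2 fun y _ => hle y.2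
    rw [C.hi] at h1
    omega
  have hcenterE : ∀ y ∈ E, (∀ s ∈ E, s * y = y * s) → y ∈ cen S := fun y hy hc =>
    C.D.center_P_le hES hx hxA hnab hy hc
  have hchar : ∀ β : MulAut E, ∀ y : E, (y : Ω) ∈ cen S → ((β y : E) : Ω) ∈ cen S := by
    intro β y hy
    refine hcenterE _ (β y).2 fun s hs => ?_
    have h1 : (β⁻¹ ⟨s, hs⟩ : E) * y = y * β⁻¹ ⟨s, hs⟩ :=
      Subtype.ext ((mem_cen.1 hy).2 _ (hES (β⁻¹ ⟨s, hs⟩).2))
    have h2 := congrArg (fun u => ((β u : E) : Ω)) h1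
    simp only [map_mul, MulAut.apply_inv_self] at h2
    exact h2
  let K : Subgroup (F.autGroup E) :=
    { carrier := {β | ∀ y : E, (y : Ω) ∈ cen S → (β : MulAut E) y = y}
      mul_mem' := by
        intro a b ha hb y hy
        show (a : MulAut E) ((b : MulAut E) y) = y
        rw [hb y hy, ha y hy]
      one_mem' := fun y _ => rfl
      inv_mem' := by
        intro a ha y hy
        have h1 := ha y hy
        show (a : MulAut E)⁻¹ y = y
        conv_lhs => rw [← h1]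
        exact MulAut.inv_apply_self _ _ _ }
  haveI hKn : K.Normal := by
    constructor
    intro k hk g y hy
    show (g : MulAut E) ((k : MulAut E) ((g : MulAut E)⁻¹ y)) = y
    rw [hk _ (hchar _ y hy), MulAut.apply_inv_self]
  have hQa : F.IsFullyAutomized p E := (fullyNormalized_props C.hS C.hF hE.2.1).2
  obtain ⟨T₀, hT₀⟩ := hQa.2
  have hT₀K : (T₀ : Subgroup (F.autGroup E)) ≤ K := by
    intro β hβ y hy
    rw [hT₀] at hβ
    obtain ⟨g, hg, hgv⟩ := mem_autInducedBy_iff.1 hβ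
    apply Subtype.ext
    have h1 : (((β : MulAut E) y : E) : Ω) = g * y * g⁻¹ := hgv y
    rw [h1, (mem_cen.1 hy).2 g hg]
    group
  have hFr := Sylow.normalizer_sup_eq_top' T₀ hT₀K
  have hαm : (⟨α, hα⟩ : F.autGroup E) ∈ Subgroup.normalizer (T₀ : Set (F.autGroup E)) ⊔ K := by
    rw [hFr]
    exact Subgroup.mem_top _
  rw [← SetLike.mem_coe, Subgroup.mul_normal, Set.mem_mul] at hαm
  obtain ⟨n, hn, k, hk, hnk⟩ := hαm
  -- `n` extends
  have hrec := fullyNormalized_receptive C.hS C.hF hE.2.1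
  have hφ := autGroup_mem_hom hES n.2
  have hr : (E.subtype.comp (n : MulAut E).toMonoidHom).range = E := by
    ext y
    constructor
    · rintro ⟨u, rfl⟩
      exact ((n : MulAut E) u).2
    · intro hy
      refine ⟨(n : MulAut E)⁻¹ ⟨y, hy⟩, ?_⟩
      show (((n : MulAut E) ((n : MulAut E)⁻¹ ⟨y, hy⟩) : E) : Ω) = y
      rw [MulAut.apply_inv_self]
  obtain ⟨ψ, hψ, hag⟩ := hrec.2 E _ hφ hr
  have hle : S ⊓ Subgroup.normalizer (E : Set Ω) ≤ extender S E (E.subtype.comp (n : MulAut E).toMonoidHom) := by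
    intro g hg
    have hcg : (⟨normConj g hg.2, autInducedBy_le_autGroup hES (normConj_mem_autInducedBy hg.1 hg.2)⟩ :
        F.autGroup E) ∈ (T₀ : Subgroup (F.autGroup E)) := by
      rw [hT₀]
      exact normConj_mem_autInducedBy hg.1 hg.2
    have h1 := (Subgroup.mem_normalizer_iff.1 hn _).1 hcg
    rw [hT₀] at h1
    obtain ⟨h, hhS, hhv⟩ := mem_autInducedBy_iff.1 h1
    refine extender_closure_mem hg.1 hg.2 hhS fun u hu => ?_
    have h2 : (((((n * ⟨normConj g hg.2, autInducedBy_le_autGroup hES (normConj_mem_autInducedBy hg.1 hg.2)⟩ * n⁻¹ :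
        F.autGroup E) : MulAut E) ((n : MulAut E) u)) : E) : Ω) = h * (((n : MulAut E) u : E) : Ω) * h⁻¹ :=
      hhv ((n : MulAut E) u)
    have h3 : (((n * ⟨normConj g hg.2, autInducedBy_le_autGroup hES (normConj_mem_autInducedBy hg.1 hg.2)⟩ * n⁻¹ :
        F.autGroup E) : MulAut E) ((n : MulAut E) u)) =
        (n : MulAut E) (normConj g hg.2 u) := by
      show (n : MulAut E) (normConj g hg.2 ((n : MulAut E)⁻¹ ((n : MulAut E) u))) = _
      rw [MulAut.inv_apply_self]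
    rw [h3] at h2
    exact h2
  have hQ₁ : S ⊓ Subgroup.normalizer (E : Set Ω) ∈ XP S A := by
    obtain ⟨a₀, ha₀A, ha₀N, ha₀E⟩ := C.D.exists_normalizing C.hF hE hx hxA
    refine ⟨inf_le_left, fun h => hxA (h ⟨hxS, Subgroup.le_normalizer hx⟩), ?_, a₀, ⟨C.D.le ha₀A, ha₀N⟩, ha₀A,
      fun h => ha₀E (hZE2 h)⟩
    exact le_inf (fun y hy => (mem_cen2.1 hy).1) (hZE2.trans Subgroup.le_normalizer)
  obtain ⟨d, hd, hdv⟩ := C.lemma_A (res_mem hψ hle) hQ₁
  refine ⟨d, hd, fun y hy hyE => ?_⟩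
  have hyN : y ∈ S ⊓ Subgroup.normalizer (E : Set Ω) := ⟨hES hyE, Subgroup.le_normalizer hyE⟩
  have h1 := hdv y hy hyN
  rw [← h1]
  have h2 : (α : MulAut E) = (n : MulAut E) * (k : MulAut E) :=
    (congrArg (fun u : F.autGroup E => (u : MulAut E)) hnk).symm
  rw [h2]
  show (((n : MulAut E) ((k : MulAut E) ⟨y, hyE⟩) : E) : Ω) = _
  rw [hk ⟨y, hyE⟩ hy]
  exact (hag y hyE (hle hyN)).symm

/-- **Lemma C**: maps out of `BB`. -/
theorem lemma_C {Q R : Subgroup Ω} {φ : Q →* Ω} (hφ : φ ∈ F.Hom Q) (hR : R ≤ Q) (hRB : R ∈ BB S A) :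
    (R.subgroupOf Q).map φ ∈ BB S A ∧ ∃ d ∈ F.autGroup S, ∀ y (hy : y ∈ cen S) (hyQ : y ∈ Q),
      φ ⟨y, hyQ⟩ = ((d ⟨y, (mem_cen.1 hy).1⟩ : S) : Ω) := by
  classical
  refine alperin_class C.hS C.hF (BB S A) ?_ ?_ ?_ hφ hR hRB
  · rintro R ⟨-, -, h, -⟩
    exact cen_le_cen2.trans h
  · intro d _ R _ hR
    exact C.BB_inv hR
  · intro P φ hP hφ hr R hR hor
    have hPS : P ≤ S := hP.1.1
    haveI : Finite P := finite_of_le hPS
    have hrv : ∀ u, φ u ∈ P := fun u => by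
      have h0 : φ u ∈ φ.range := ⟨u, rfl⟩
      rwa [hr] at h0
    -- subgroups of `BB` inside `P` are `P`
    have hbig : ∀ R₁ ∈ BB S A, R₁ ≤ P → R₁ = P := by
      rintro R₁ ⟨-, hA, hZ, -⟩ hle
      obtain ⟨x₁, hx₁, hx₁A⟩ := Set.not_subset.1 hA
      refine le_antisymm hle fun y hy => ?_
      obtain ⟨b, hbP, hbA, k, rfl⟩ := C.D.decomp_P hPS (hle hx₁) hx₁A hy
      exact R₁.mul_mem (hZ (C.ess_le hP hbP hbA)) (R₁.pow_mem hx₁ k)
    have himg : (R.subgroupOf P).map φ ≤ P := by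
      rintro _ ⟨u, -, rfl⟩
      exact hrv u
    have hRP : R = P := by
      rcases hor with h | h
      · exact hbig R h hR
      · have h1 := hbig _ h himg
        refine le_antisymm hR fun y hy => ?_
        have h2 : φ ⟨y, hy⟩ ∈ (R.subgroupOf P).map φ := by
          rw [h1]
          exact hrv _
        obtain ⟨u, hu, hue⟩ := h2
        have h3 : u = ⟨y, hy⟩ := F.injective_of_mem hφ hue
        rw [h3] at hu
        exact hu
    subst hRP
    have himg' : (R.subgroupOf R).map φ = R := by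
      apply le_antisymm himg
      intro y hy
      have : y ∈ φ.range := by
        rw [hr]
        exact hy
      obtain ⟨u, hu⟩ := this
      exact ⟨u, u.2, hu⟩
    rw [himg'] at hor ⊢
    have hRB' : R ∈ BB S A := by
      rcases hor with h | h <;> exact h
    refine ⟨hRB', hRB', ?_⟩
    obtain ⟨d, hd, hdv⟩ := C.lemma_B hP hRB'.2.2.1 (autOfHom_mem hφ hrv)
    exact ⟨d, hd, fun y hy hyP => hdv y hy hyP⟩

end Ctx

namespace Ctx

variable (C : Ctx F A p)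

include C

/-- The centre is characteristic in a nonabelian essential subgroup. -/
theorem char_cen {E : Subgroup Ω} (hE : F.IsEssential p E) (hnab : ¬ ∀ s ∈ E, ∀ t ∈ E, s * t = t * s)
    (β : MulAut E) (y : E) (hy : (y : Ω) ∈ cen S) : ((β y : E) : Ω) ∈ cen S := by
  obtain ⟨x, hx, hxA⟩ := C.ess_x hE
  have hES := hE.1.1
  refine C.D.center_P_le hES hx hxA hnab (β y).2 fun s hs => ?_
  have h1 : (β⁻¹ ⟨s, hs⟩ : E) * y = y * β⁻¹ ⟨s, hs⟩ :=
    Subtype.ext ((mem_cen.1 hy).2 _ (hES (β⁻¹ ⟨s, hs⟩).2))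
  have h2 := congrArg (fun u => ((β u : E) : Ω)) h1
  simp only [map_mul, MulAut.apply_inv_self] at h2
  exact h2

/-- The data attached to an abelian essential subgroup. -/
theorem data_of_H {P : Subgroup Ω} (hP : F.IsEssential p P) (hab : ∀ s ∈ P, ∀ t ∈ P, s * t = t * s) {z : Ω}
    (hzZ : z ∈ cen S) (hz1 : z ≠ 1) (hzp : z ^ p = 1)
    (hgen : ∀ y ∈ cen S ⊓ der S, y ∈ Subgroup.zpowers z) :
    ∃ a, Data₂ F P p a z ∧ (∀ y : P, a * y * a⁻¹ = y ↔ (y : Ω) ∈ cen S) ∧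
      S ⊓ Subgroup.normalizer (P : Set Ω) ∈ BB S A := by
  obtain ⟨x, hx, hxA⟩ := C.ess_x hP
  have hPS : P ≤ S := hP.1.1
  have hxS := hPS hx
  have hZP := cen_le_of_centric hP.1
  have hPA : ∀ b ∈ P, b ∈ A → b ∈ cen S := fun b hb hbA =>
    C.D.central_of_comm hbA hxS hxA (hab x hx b hb)
  obtain ⟨a, haA, haN, haP⟩ := C.D.exists_normalizing C.hF hP hx hxA
  have haS := C.D.le haA
  refine ⟨a, ⟨C.hS, C.hF, hP, hab, C.D.index_normalizer C.hF hP hx hxA, haS, haN, haP, hZP hzZ, hz1, hzp,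
    ?_, ?_⟩, fun y => ⟨fun h => ?_, fun h => ?_⟩, ?_⟩
  · rw [(mem_cen.1 hzZ).2 a haS]
    group
  · intro y hy
    have hwP : y⁻¹ * (a * y * a⁻¹) ∈ P :=
      P.mul_mem (P.inv_mem hy) ((Subgroup.mem_normalizer_iff.1 haN y).1 hy)
    have hyS := hPS hy
    have hwA : y⁻¹ * (a * y * a⁻¹) ∈ A := by
      have h1 := C.D.conj_mem (S.inv_mem hyS) haA
      have e : y⁻¹ * (a * y * a⁻¹) = y⁻¹ * a * y⁻¹⁻¹ * a⁻¹ := by group
      rw [e]
      exact A.mul_mem h1 (A.inv_mem haA)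
    have hwd : y⁻¹ * (a * y * a⁻¹) ∈ der S := by
      refine ⟨⁅(⟨y⁻¹, S.inv_mem hyS⟩ : ↥S), (⟨a, haS⟩ : ↥S)⁆, ?_, ?_⟩
      · rw [commutator_def]
        exact Subgroup.commutator_mem_commutator (Subgroup.mem_top _) (Subgroup.mem_top _)
      · show y⁻¹ * a * y⁻¹⁻¹ * a⁻¹ = _
        group
    exact hgen _ ⟨hPA _ hwP hwA, hwd⟩
  · by_cases hyA : (y : Ω) ∈ A
    · exact hPA y y.2 hyA
    · exfalso
      apply haP
      apply hZP
      refine C.D.central_of_comm haA (hPS y.2) hyA ?_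
      rw [mul_inv_eq_iff_eq_mul] at h
      exact h.symm
  · rw [(mem_cen.1 h).2 a haS]
    group
  · refine ⟨inf_le_left, fun h => hxA (h ⟨hxS, Subgroup.le_normalizer hx⟩), ?_, ?_⟩
    · refine le_inf (fun y hy => (mem_cen2.1 hy).1) ?_
      rcases Data.cen2_normalizer hZP with h | h
      · exact h
      · exact absurd hPS h
    · intro b hb hbA
      refine C.D.mem_cen2_of hxS hxA hbA (hPA _ ?_ ?_)
      · exact (C.D.kappa_mem hPS hx hbA hb.2).1
      · exact (C.D.kappa_mem hPS hx hbA hb.2).2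

/-- Extending a torus element to `S` on the centre. -/
theorem ext_H {P : Subgroup Ω} {a z : Ω} (D₂ : Data₂ F P p a z)
    (hB : S ⊓ Subgroup.normalizer (P : Set Ω) ∈ BB S A) {δ : MulAut P}
    {ψ : ↥(S ⊓ Subgroup.normalizer (P : Set Ω)) →* Ω}
    (hψ : ψ ∈ F.Hom (S ⊓ Subgroup.normalizer (P : Set Ω))) (hψv : ∀ y : P, ψ ⟨y, D₂.le_R y.2⟩ = δ y)
    (hδz : δ D₂.zV = D₂.zV⁻¹) (hδs : ∀ y : P, (y : Ω) ∈ cen S → y⁻¹ * δ y ∈ Subgroup.zpowers D₂.zV)
    (hzZ : z ∈ cen S) :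
    ∃ d ∈ F.autGroup S, (∀ y : P, (y : Ω) ∈ cen S → ((d ⟨y, D₂.hPS y.2⟩ : S) : Ω) = δ y) ∧
      d ⟨z, (mem_cen.1 hzZ).1⟩ = (⟨z, (mem_cen.1 hzZ).1⟩ : S)⁻¹ ∧
      ∀ y : S, (y : Ω) ∈ cen S → y⁻¹ * d y ∈ Subgroup.zpowers (⟨z, (mem_cen.1 hzZ).1⟩ : S) := by
  obtain ⟨-, d, hd, hdv⟩ := C.lemma_C hψ le_rfl hB
  have h1 : ∀ y : P, (y : Ω) ∈ cen S → ((d ⟨y, D₂.hPS y.2⟩ : S) : Ω) = δ y := fun y hy => by
    rw [← hdv y hy (D₂.le_R y.2)]
    exact hψv y
  refine ⟨d, hd, h1, Subtype.ext ?_, fun y hy => ?_⟩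
  · have := h1 D₂.zV hzZ
    rw [hδz] at this
    exact this
  · have hZP : cen S ≤ P := cen_le_of_centric D₂.hE.1
    obtain ⟨n, hn⟩ := hδs ⟨y, hZP hy⟩ hy
    refine ⟨n, Subtype.ext ?_⟩
    have h3 := congrArg Subtype.val hn
    have h4 := h1 ⟨y, hZP hy⟩ hy
    have h5 : ((D₂.zV ^ n : P) : Ω) = z ^ n := by simp [Data₂.zV]
    show (((⟨z, (mem_cen.1 hzZ).1⟩ : S) ^ n : S) : Ω) = (y : Ω)⁻¹ * ((d y : S) : Ω)
    have h6 : (((⟨z, (mem_cen.1 hzZ).1⟩ : S) ^ n : S) : Ω) = z ^ n := by simp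
    rw [h6, ← h5]
    simp only at h3
    show ((D₂.zV ^ n : P) : Ω) = _
    have h7 : ((D₂.zV ^ n : P) : Ω) = _ := h3
    rw [h7]
    have h8 : ((d ⟨(⟨y, hZP hy⟩ : P), D₂.hPS (hZP hy)⟩ : S) : Ω) = ((d y : S) : Ω) := rfl
    rw [← h8, h4]
    simp

end Ctx

/-- **The main theorem.** -/
theorem main (hS : IsPGroup p S) (hF : F.IsSaturated p) (hp2 : p ≠ 2) (hna : ¬ IsMulCommutative ↥S)
    (hA : A ≤ S ∧ IsMulCommutative ↥A ∧ (A.subgroupOf S).index = p)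
    (huniq : ∀ B : Subgroup Ω, B ≤ S → IsMulCommutative ↥B → (B.subgroupOf S).index = p → B = A)
    (hcore : F.core = ⊥) (hAe : ¬ F.IsEssential p A) :
    (∃ x ∈ S, x ∉ A ∧ F.IsEssential p (cen S ⊔ Subgroup.zpowers x)) ∧ cen S ≤ der S ∧
      ∀ n : ℕ, Nat.card S = p ^ n → 3 ≤ n → Subgroup.lowerCentralSeries S (n - 2) ≠ ⊥ := by
  classical
  have D : Data S A p := ⟨hS, hA.1, fun a ha b hb => congrArg Subtype.val
    (hA.2.1.is_comm.comm (⟨a, ha⟩ : A) ⟨b, hb⟩), hA.2.2⟩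
  have hS1 : S ≠ ⊥ := by
    intro h
    apply hna
    refine ⟨⟨fun a b => Subtype.ext ?_⟩⟩
    have ha : (a : Ω) = 1 := Subgroup.mem_bot.1 (h.le a.2)
    have hb : (b : Ω) = 1 := Subgroup.mem_bot.1 (h.le b.2)
    show (a : Ω) * b = b * a
    rw [ha, hb]
  obtain ⟨E, hE⟩ := exists_essential hS hF hS1 hcore
  have hEA : E ≠ A := fun h => hAe (h ▸ hE)
  obtain ⟨hZ2, hi⟩ := D.cen2_structure huniq hF hE hEA
  have C : Ctx F A p := ⟨D, hF, hna, huniq, hAe, hZ2, hi⟩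
  obtain ⟨x₀, hx₀, hx₀A⟩ := C.ess_x hE
  have hx₀S := hE.1.1 hx₀
  have hZ0card := D.card_inf hx₀S hx₀A hZ2 hi
  have hpp := hp.out
  haveI : Finite ↥(cen S ⊓ der S) := finite_of_le_S (inf_le_left.trans inf_le_left)
  haveI : Nontrivial ↥(cen S ⊓ der S) :=
    Finite.one_lt_card_iff_nontrivial.1 (by rw [hZ0card]; exact hpp.one_lt)
  obtain ⟨zc, hzc⟩ := exists_ne (1 : ↥(cen S ⊓ der S))
  set z : Ω := (zc : Ω) with hzdef
  have hzZ : z ∈ cen S := zc.2.1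
  have hzder : z ∈ der S := zc.2.2
  have hz1 : z ≠ 1 := fun h => hzc (Subtype.ext h)
  have hzp : z ^ p = 1 := by
    have h1 : zc ^ p = 1 := by
      rw [← hZ0card]
      exact pow_card_eq_one'
    have := congrArg Subtype.val h1
    simpa using this
  have hgen : ∀ y ∈ cen S ⊓ der S, y ∈ Subgroup.zpowers z := by
    intro y hy
    have h1 : (⟨y, hy⟩ : ↥(cen S ⊓ der S)) ∈ Subgroup.zpowers zc :=
      mem_zpowers_of_prime_card hZ0card hzc
    obtain ⟨n, hn⟩ := h1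
    refine ⟨n, ?_⟩
    have := congrArg Subtype.val hn
    simpa using this
  have hzS : z ∈ S := (mem_cen.1 hzZ).1
  set zS : S := ⟨z, hzS⟩ with hzSdef
  have hzSp : zS ^ p = 1 := Subtype.ext hzp
  have hzS1 : zS ≠ 1 := fun h => hz1 (congrArg Subtype.val h)
  have hzd : ∀ d ∈ F.autGroup S, d zS ∈ Subgroup.zpowers zS := by
    intro d _
    have h1 : ((d zS : S) : Ω) ∈ cen S := map_cen d hzZ
    have h2 : ((d zS : S) : Ω) ∈ der S := by
      obtain ⟨u, hu, hue⟩ := hzder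
      have h3 : (commutator ↥S).map d.toMonoidHom = commutator ↥S :=
        Subgroup.characteristic_iff_map_eq.1 inferInstance d
      have h4 : zS = u := Subtype.ext hue.symm
      rw [h4]
      have hu' : d u ∈ commutator ↥S := by
        rw [← h3]
        exact ⟨u, hu, rfl⟩
      exact ⟨d u, hu', rfl⟩
    obtain ⟨n, hn⟩ := hgen _ ⟨h1, h2⟩
    refine ⟨n, Subtype.ext ?_⟩
    have e : ((zS ^ n : S) : Ω) = z ^ n := by simp [hzSdef]
    show ((zS ^ n : S) : Ω) = _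
    rw [e]
    exact hn
  -- an abelian essential subgroup exists
  have hH : ∃ P, F.IsEssential p P ∧ ∀ s ∈ P, ∀ t ∈ P, s * t = t * s := by
    by_contra hH
    push Not at hH
    have hZn : F.IsNormal (cen S) := by
      rw [Cfsg.Agent.Lib.Fusion.NormalEssential.isNormal_iff_essential hS hF]
      rintro P (rfl | hP)
      · refine ⟨inf_le_left, fun α hα => ?_⟩
        exact map_eq_of_forall (G := F.autGroup P) (fun α _ c hc => map_cen α hc) hα
      · refine ⟨cen_le_of_centric hP.1, fun α hα => ?_⟩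
        haveI : Finite P := finite_of_le hP.1.1
        have hnab : ¬ ∀ s ∈ P, ∀ t ∈ P, s * t = t * s := by
          intro hab
          obtain ⟨s, hs, t, ht, hne⟩ := hH P hP
          exact hne (hab s hs t ht)
        exact map_eq_of_forall (G := F.autGroup P)
          (fun β _ c hc => C.char_cen hP hnab β c hc) hα
    have h1 := le_core hZn hzZ
    rw [hcore, Subgroup.mem_bot] at h1
    exact hz1 h1
  obtain ⟨P₀, hP₀, hab₀⟩ := hH
  obtain ⟨a₀, D₂, hfix₀, hB₀⟩ := C.data_of_H hP₀ hab₀ hzZ hz1 hzp hgen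
  obtain ⟨α₀, hα₀, δ₀, ψ₀, hψ₀, hopp, hδmem, hδA, hψv, hδz, hδz', hδfix, hδc, hdecomp, hδs⟩ :=
    D₂.exists_torus_ext hp2 hfix₀
  obtain ⟨d₀, hd₀, hd₀v, hd₀z, hst₀⟩ := C.ext_H D₂ hB₀ hψ₀ hψv hδz hδs hzZ
  have hcompl : ∀ P, F.IsEssential p P → (∀ s ∈ P, ∀ t ∈ P, s * t = t * s) →
      (∀ y ∈ cen S, ∃ (i : ℕ) (c : Ω), y = z ^ i * c ∧ c ∈ fixCen d₀) ∧
      (∀ c ∈ fixCen d₀, c ∈ Subgroup.zpowers z → c = 1) ∧
      (∀ α ∈ F.autGroup P, ∀ c : P, (c : Ω) ∈ fixCen d₀ → ((α c : P) : Ω) ∈ fixCen d₀) := by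
    intro P hP hab
    obtain ⟨b, DE, hfixE, hBE⟩ := C.data_of_H hP hab hzZ hz1 hzp hgen
    refine DE.complement hp2 hfixE ?_
    intro δ hδ hδz hδc hδs ψ hψ hψv y hy
    obtain ⟨d, hd, hdv, hdz, hst⟩ := C.ext_H DE hBE hψ hψv hδz hδs hzZ
    rw [← hdv y hy, act_of_mem d₀ (DE.hPS y.2)]
    exact congrArg Subtype.val (aut_eq_on_cen hS hF hd hd₀ hzSp hdz hd₀z hst hst₀ _ hy)
  have hinv := fun (d : MulAut S) (hd : d ∈ F.autGroup S) (c : S) (hc : (c : Ω) ∈ fixCen d₀) =>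
    fixCen_invariant hS hF hd₀ hzSp hzZ hd₀z hst₀ hzd hd hc
  have hCnorm : F.IsNormal (fixCen d₀) := by
    rw [Cfsg.Agent.Lib.Fusion.NormalEssential.isNormal_iff_essential hS hF]
    intro P hP
    rcases hP with hP | hP
    · subst hP
      refine ⟨fun c hc => (mem_cen.1 hc.1).1, fun α hα => ?_⟩
      exact map_eq_of_forall (G := F.autGroup P) (fun α hα c hc => hinv α hα c hc) hα
    · refine ⟨fun c hc => cen_le_of_centric hP.1 hc.1, fun α hα => ?_⟩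
      haveI : Finite P := finite_of_le hP.1.1
      by_cases hab : ∀ s ∈ P, ∀ t ∈ P, s * t = t * s
      · exact map_eq_of_forall (G := F.autGroup P) (hcompl P hP hab).2.2 hα
      · obtain ⟨x, hx, hxA⟩ := C.ess_x hP
        obtain ⟨-, h2, -⟩ := D.eq_of_nonabelian hF hP hx hxA hab
        have hZ2P : cen2 S ≤ P := by
          rw [h2]
          exact le_sup_left
        refine map_eq_of_forall (G := F.autGroup P) (fun β hβ c hc => ?_) hα
        obtain ⟨d, hd, hdv⟩ := C.lemma_B hP hZ2P hβ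
        have h3 := hdv c hc.1 c.2
        have e : (⟨(c : Ω), c.2⟩ : P) = c := rfl
        rw [e] at h3
        rw [h3]
        exact hinv d hd ⟨c, _⟩ hc
  have hCbot : fixCen d₀ = ⊥ := by
    rw [eq_bot_iff, ← hcore]
    exact le_core hCnorm
  have hcenz : cen S = Subgroup.zpowers z := by
    apply le_antisymm
    · intro y hy
      obtain ⟨i, c, e, hc⟩ := (hcompl P₀ hP₀ hab₀).1 y hy
      rw [hCbot, Subgroup.mem_bot] at hc
      rw [e, hc, mul_one]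
      exact Subgroup.npow_mem_zpowers z i
    · exact Subgroup.zpowers_le.2 hzZ
  refine ⟨?_, ?_, ?_⟩
  · obtain ⟨x, hx, hxA⟩ := C.ess_x hP₀
    refine ⟨x, hP₀.1.1 hx, hxA, ?_⟩
    rw [← D.eq_of_abelian hP₀.1 hx hxA hab₀]
    exact hP₀
  · rw [hcenz]
    exact Subgroup.zpowers_le.2 hzder
  · intro n hn h3
    have hcardZ : Nat.card (Subgroup.center ↥S) = p := by
      have hcenS : Subgroup.center ↥S = Subgroup.zpowers zS := by
        rw [← center_eq]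
        ext y
        rw [Subgroup.mem_subgroupOf, hcenz]
        constructor
        · rintro ⟨k, hk⟩
          refine ⟨k, Subtype.ext ?_⟩
          simpa [hzSdef] using hk
        · rintro ⟨k, hk⟩
          refine ⟨k, ?_⟩
          have := congrArg Subtype.val hk
          simpa [hzSdef] using this
      rw [hcenS, Nat.card_zpowers, orderOf_eq_prime hzSp hzS1]
    have hn0 : n = (n - 1) + 1 := by omega
    have hm : ((cen S).subgroupOf S).index = p ^ (n - 1) := by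
      rw [center_eq]
      have h1 := Subgroup.card_mul_index (Subgroup.center ↥S)
      rw [hcardZ, hn] at h1
      apply Nat.eq_of_mul_eq_mul_left hpp.pos
      rw [h1, ← pow_succ', ← hn0]
    have hlcsS : ∀ k, Subgroup.lowerCentralSeries S k ≤ S := by
      intro k
      induction k with
      | zero => rw [Subgroup.lowerCentralSeries_zero]
      | succ k ih =>
        rw [Subgroup.lowerCentralSeries_succ, Subgroup.commutator_le]
        intro a ha b hb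
        have haS := ih ha
        rw [commutatorElement_def]
        exact S.mul_mem (S.mul_mem (S.mul_mem haS hb) (S.inv_mem haS)) (S.inv_mem hb)
    have hlcs : ∀ k, ¬ Subgroup.lowerCentralSeries S k ≤ cen S →
        Subgroup.lowerCentralSeries S (k + 1) ≠ ⊥ := by
      intro k hk hbot
      obtain ⟨y, hy, hyZ⟩ := Set.not_subset.1 hk
      apply hyZ
      refine mem_cen.2 ⟨hlcsS k hy, fun s hs => ?_⟩
      have h1 : ⁅y, s⁆ ∈ Subgroup.lowerCentralSeries S (k + 1) := by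
        rw [Subgroup.lowerCentralSeries_succ]
        exact Subgroup.commutator_mem_commutator hy hs
      rw [hbot, Subgroup.mem_bot, commutatorElement_eq_one_iff_mul_comm] at h1
      exact h1.symm
    by_cases hn3 : n = 3
    · subst hn3
      apply hlcs 0
      intro hle
      rw [Subgroup.lowerCentralSeries_zero] at hle
      apply hna
      refine ⟨⟨fun a b => Subtype.ext ?_⟩⟩
      exact (mem_cen.1 (hle a.2)).2 b b.2 |>.symm
    · have h4 := D.not_lcs_le hna hx₀S hx₀A hZ0card (n - 1) hm (by omega)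
      have h5 : n - 1 - 2 + 1 = n - 2 := by omega
      rw [← h5]
      exact hlcs _ h4

end Cfsg.Agent.Lib.Fusion.UniqueAbelian
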