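/-
A group realizing a family of partial isomorphisms of a group `S`: inside `FreeGroup B ⋊ Q`, with `Q` a group
containing `S` in which the partial maps are conjugations, the subgroup generated by `S` and stable letters.  Reduced words in the
free group play the part of Britton's lemma, and a minimal-radius argument the part of the fixed point theorem on trees.
-/
import Mathlib

set_option autoImplicit false
set_option linter.style.haveILetI false

namespace Cfsg.Agent.Lib.Fusion.VirtFree

universe u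

section Words

open FreeGroup

variable {B : Type u}

/-- A one-letter element. -/
def let1 (l : B × Bool) : FreeGroup B := FreeGroup.mk [l]

theorem let1_true (b : B) : let1 (b, true) = FreeGroup.of b := rfl

theorem let1_false (b : B) : let1 (b, false) = (FreeGroup.of b)⁻¹ := by
  show FreeGroup.mk [(b, false)] = (FreeGroup.mk [(b, true)])⁻¹
  rw [FreeGroup.inv_mk]
  simp [FreeGroup.invRev]

theorem toWord_let1 (l : B × Bool) [DecidableEq B] : (let1 l).toWord = [l] := by
  unfold let1
  rw [FreeGroup.toWord_mk, FreeGroup.reduce_singleton]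

theorem let1_mul_inv (a : B) (e : Bool) : let1 (a, e) * let1 (a, !e) = 1 := by
  cases e
  · rw [Bool.not_false, let1_true, let1_false, inv_mul_cancel]
  · rw [Bool.not_true, let1_true, let1_false, mul_inv_cancel]

variable [DecidableEq B]

/-- Multiplying by a letter: either the word grows, or the last letter is cancelled. -/
theorem word_mul_let1 (x : FreeGroup B) (l : B × Bool) :
    (x * let1 l).toWord = x.toWord ++ [l] ∨ x.toWord = (x * let1 l).toWord ++ [(l.1, !l.2)] := by
  rcases List.eq_nil_or_concat x.toWord with h | ⟨w, a, h⟩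
  · left
    have hx : x = 1 := FreeGroup.toWord_eq_nil_iff.1 h
    rw [hx, one_mul, toWord_let1, FreeGroup.toWord_one]
    rfl
  · rw [List.concat_eq_append] at h
    by_cases ha : a = (l.1, !l.2)
    · right
      have hw : FreeGroup.IsReduced w := by
        have := FreeGroup.isReduced_toWord (x := x)
        rw [h] at this
        exact this.infix ⟨[], [a], by simp⟩
      have hx : x = FreeGroup.mk w * let1 a := by
        conv_lhs => rw [← FreeGroup.mk_toWord (x := x), h]
        unfold let1
        rw [FreeGroup.mul_mk]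
      have h1 : x * let1 l = FreeGroup.mk w := by
        rw [hx, mul_assoc, ha]
        obtain ⟨l1, l2⟩ := l
        have := let1_mul_inv l1 (!l2)
        rw [Bool.not_not] at this
        rw [this, mul_one]
      rw [h1, FreeGroup.toWord_mk, hw.reduce_eq, h, ha]
    · left
      have hr : FreeGroup.IsReduced (w ++ [a] ++ [l]) := by
        refine FreeGroup.IsReduced.append_overlap (L₁ := w) (L₂ := [a]) (L₃ := [l]) ?_ ?_ (by simp)
        · have := FreeGroup.isReduced_toWord (x := x)
          rw [h] at this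
          simpa using this
        · show FreeGroup.IsReduced [a, l]
          rw [FreeGroup.isReduced_cons_cons]
          refine ⟨fun h1 => ?_, FreeGroup.IsReduced.singleton⟩
          by_contra h2
          apply ha
          ext
          · exact h1
          · simp only
            cases ha2 : a.2 <;> cases hl2 : l.2 <;> simp_all
      rw [FreeGroup.toWord_mul, toWord_let1, h]
      simpa using hr.reduce_eq

/-- The action of a permutation on a reduced word is letterwise. -/
theorem toWord_map (f : B → B) (hf : Function.Injective f) (x : FreeGroup B) :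
    (FreeGroup.map f x).toWord = x.toWord.map fun l => (f l.1, l.2) := by
  conv_lhs => rw [← FreeGroup.mk_toWord (x := x)]
  rw [FreeGroup.map.mk, FreeGroup.toWord_mk]
  apply FreeGroup.IsReduced.reduce_eq
  have := FreeGroup.isReduced_toWord (x := x)
  unfold FreeGroup.IsReduced at this ⊢
  rw [List.isChain_map]
  refine this.imp fun a b h h1 => ?_
  exact h (hf h1)

theorem norm_map (f : B → B) (hf : Function.Injective f) (x : FreeGroup B) :
    (FreeGroup.map f x).norm = x.norm := by
  unfold FreeGroup.norm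
  rw [toWord_map f hf, List.length_map]

/-- If the first letters differ the norm of `a⁻¹ b` is the sum of the norms. -/
theorem norm_inv_mul_of_head_ne (a b : FreeGroup B) (l : B × Bool) (w : List (B × Bool)) (ha : a.toWord = l :: w)
    (hb : b.toWord.head? ≠ some l) : (a⁻¹ * b).norm = a.norm + b.norm := by
  have hr : FreeGroup.IsReduced (FreeGroup.invRev a.toWord ++ b.toWord) := by
    unfold FreeGroup.IsReduced
    rw [List.isChain_append]
    refine ⟨?_, FreeGroup.isReduced_toWord, ?_⟩
    · rw [← FreeGroup.toWord_inv]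
      exact FreeGroup.isReduced_toWord
    · intro x hx y hy h1
      rw [ha, FreeGroup.invRev_cons, List.getLast?_append] at hx
      simp only [FreeGroup.invRev, List.map_cons, List.map_nil, List.reverse_cons, List.reverse_nil,
        List.nil_append, List.getLast?_singleton, Option.some_or, Option.mem_def, Option.some.injEq] at hx
      subst hx
      simp only at h1 ⊢
      have hy' : y ≠ l := by
        rintro rfl
        exact hb hy
      cases hl : l.2 <;> cases hy2 : y.2 <;> simp_all
      · apply hy'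
        ext <;> simp_all
      · apply hy'
        ext <;> simp_all
  unfold FreeGroup.norm
  rw [FreeGroup.toWord_mul, FreeGroup.toWord_inv, hr.reduce_eq, List.length_append, FreeGroup.invRev_length]

/-- Removing the first letter. -/
theorem norm_let1_inv_mul (b : FreeGroup B) (l : B × Bool) (w : List (B × Bool)) (hb : b.toWord = l :: w) :
    ((let1 l)⁻¹ * b).norm + 1 = b.norm := by
  have hr : FreeGroup.IsReduced w := by
    have := FreeGroup.isReduced_toWord (x := b)
    rw [hb] at this
    exact this.infix ⟨[l], [], by simp⟩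
  have hx : b = let1 l * FreeGroup.mk w := by
    conv_lhs => rw [← FreeGroup.mk_toWord (x := b), hb]
    unfold let1
    rw [FreeGroup.mul_mk]
    rfl
  rw [hx, inv_mul_cancel_left]
  unfold FreeGroup.norm
  rw [FreeGroup.toWord_mul, toWord_let1, FreeGroup.toWord_mk, hr.reduce_eq]
  have hr2 : FreeGroup.IsReduced ([l] ++ w) := by
    have := FreeGroup.isReduced_toWord (x := b)
    rw [hb] at this
    exact this
  rw [hr2.reduce_eq]
  simp

end Words

section Abstract

/-- The data: `S` inside `Q`, partial maps of `S` which are conjugations in `Q`. -/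
structure Data (S Q I : Type u) [Group S] [Group Q] where
  lam : S →* Q
  lam_inj : Function.Injective lam
  A : I → Subgroup S
  φ : ∀ i, A i →* S
  φ_inj : ∀ i, Function.Injective (φ i)
  gg : I → Q
  gg_spec : ∀ i (a : A i), gg i * lam a * (gg i)⁻¹ = lam (φ i a)

namespace Data

open scoped Classical

variable {S Q I : Type u} [Group S] [Group Q] (D : Data S Q I)

/-- The stabilizer of the `i`-th base letter. -/
def R (i : I) : Subgroup Q := (D.φ i).range.map D.lam

/-- The alphabet. -/
abbrev B : Type u := Σ i, Q ⧸ D.R i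

/-- The base letters. -/
def y (i : I) : D.B := ⟨i, ((1 : Q) : Q ⧸ D.R i)⟩

theorem smul_y (q : Q) (i : I) : q • D.y i = ⟨i, ((q : Q) : Q ⧸ D.R i)⟩ := by
  unfold y
  rw [Sigma.smul_mk]
  congr 1
  show q • ((1 : Q) : Q ⧸ D.R i) = (q : Q ⧸ D.R i)
  rw [MulAction.Quotient.smul_coe]
  simp

theorem smul_y_eq_smul_y {q q' : Q} {i j : I} (h : q • D.y i = q' • D.y j) : i = j := by
  rw [smul_y, smul_y] at h
  exact (Sigma.mk.inj_iff.1 h).1

theorem smul_y_eq_smul_y' {q q' : Q} {i : I} (h : q • D.y i = q' • D.y i) : q⁻¹ * q' ∈ D.R i := by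
  rw [smul_y, smul_y] at h
  exact QuotientGroup.eq.1 (eq_of_heq (Sigma.mk.inj_iff.1 h).2)

theorem smul_y_eq_of_mem {q q' : Q} {i : I} (h : q⁻¹ * q' ∈ D.R i) : q • D.y i = q' • D.y i := by
  rw [smul_y, smul_y]
  congr 1
  exact QuotientGroup.eq.2 h

/-- The action on the free group. -/
noncomputable def rho : Q →* MulAut (FreeGroup D.B) where
  toFun q := FreeGroup.freeGroupCongr (MulAction.toPerm q)
  map_one' := by
    ext x
    show FreeGroup.map (fun b : D.B => (1 : Q) • b) x = x
    simp only [one_smul]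
    exact FreeGroup.map.id' x
  map_mul' a b := by
    ext x
    show FreeGroup.map (fun c : D.B => (a * b) • c) x =
      FreeGroup.map (fun c : D.B => a • c) (FreeGroup.map (fun c : D.B => b • c) x)
    rw [FreeGroup.map.comp]
    simp only [mul_smul]
    rfl

theorem rho_apply (q : Q) (x : FreeGroup D.B) : D.rho q x = FreeGroup.map (fun b => q • b) x := rfl

theorem rho_let1 (q : Q) (l : D.B × Bool) : D.rho q (let1 l) = let1 (q • l.1, l.2) := by
  rw [rho_apply]
  unfold let1
  rw [FreeGroup.map.mk]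
  rfl

theorem toWord_rho (q : Q) (x : FreeGroup D.B) :
    (D.rho q x).toWord = x.toWord.map fun l => (q • l.1, l.2) :=
  toWord_map _ (MulAction.injective q) x

theorem norm_rho (q : Q) (x : FreeGroup D.B) : (D.rho q x).norm = x.norm :=
  norm_map _ (MulAction.injective q) x

/-- The ambient group. -/
abbrev W : Type u := FreeGroup D.B ⋊[D.rho] Q

/-- The stable letters. -/
noncomputable def t (i : I) : D.W := ⟨FreeGroup.of (D.y i), D.gg i⟩

/-- Stable letters and their inverses. -/
noncomputable def T (i : I) (e : Bool) : D.W := cond e (D.t i) (D.t i)⁻¹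

/-- The group `S` inside. -/
noncomputable def sg (s : S) : D.W := SemidirectProduct.inr (D.lam s)

theorem sg_mul (a b : S) : D.sg a * D.sg b = D.sg (a * b) := by
  unfold sg
  rw [map_mul, map_mul]

theorem sg_one : D.sg 1 = 1 := by
  unfold sg
  rw [map_one, map_one]

theorem sg_inv (a : S) : D.sg a⁻¹ = (D.sg a)⁻¹ := by
  unfold sg
  rw [map_inv, map_inv]

theorem sg_left (a : S) : (D.sg a).left = 1 := rfl

theorem sg_right (a : S) : (D.sg a).right = D.lam a := rfl

theorem sg_injective : Function.Injective D.sg := fun a b h =>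
  D.lam_inj (SemidirectProduct.inr_injective h)

/-- The letter added when multiplying by `T i e`. -/
noncomputable def letter (q : Q) (i : I) (e : Bool) : D.B × Bool :=
  cond e (q • D.y i, true) ((q * (D.gg i)⁻¹) • D.y i, false)

theorem letter_snd (q : Q) (i : I) (e : Bool) : (D.letter q i e).2 = e := by
  cases e <;> rfl

theorem T_left (g : D.W) (i : I) (e : Bool) : (g * D.T i e).left = g.left * let1 (D.letter g.right i e) := by
  rw [SemidirectProduct.mul_left]
  congr 1
  cases e
  · show D.rho g.right ((D.t i)⁻¹).left = let1 ((g.right * (D.gg i)⁻¹) • D.y i, false)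
    rw [SemidirectProduct.inv_left, let1_false]
    show D.rho g.right (D.rho (D.gg i)⁻¹ (FreeGroup.of (D.y i))⁻¹) = _
    rw [map_inv, map_inv, ← let1_true, rho_let1, rho_let1, let1_true, mul_smul]
  · show D.rho g.right (FreeGroup.of (D.y i)) = let1 (g.right • D.y i, true)
    rw [← let1_true, rho_let1]

theorem T_right_true (g : D.W) (i : I) : (g * D.T i true).right = g.right * D.gg i := rfl

theorem T_right_false (g : D.W) (i : I) : (g * D.T i false).right = g.right * (D.gg i)⁻¹ := rfl

theorem mul_sg_left (g : D.W) (s : S) : (g * D.sg s).left = g.left := by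
  rw [SemidirectProduct.mul_left, sg_left, map_one, mul_one]

theorem mul_sg_right (g : D.W) (s : S) : (g * D.sg s).right = g.right * D.lam s := rfl

theorem conj_t (i : I) (a : D.A i) : D.t i * D.sg a * (D.t i)⁻¹ = D.sg (D.φ i a) := by
  have hmem : D.lam (D.φ i a) ∈ D.R i := ⟨_, ⟨a, rfl⟩, rfl⟩
  have h1 : D.rho (D.lam (D.φ i a)) (FreeGroup.of (D.y i)) = FreeGroup.of (D.y i) := by
    rw [← let1_true, rho_let1]
    simp only
    rw [← one_smul Q (D.y i), ← mul_smul, mul_one]
    rw [smul_y_eq_of_mem D (q := D.lam (D.φ i a)) (q' := 1) (by simpa using hmem)]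
  ext
  · show (D.t i * D.sg a * (D.t i)⁻¹).left = 1
    rw [SemidirectProduct.mul_left, mul_sg_left, SemidirectProduct.inv_left, mul_sg_right]
    show FreeGroup.of (D.y i) * D.rho (D.gg i * D.lam a) (D.rho (D.gg i)⁻¹ (FreeGroup.of (D.y i))⁻¹) = 1
    rw [← MulAut.mul_apply, ← map_mul, D.gg_spec i a, map_inv, h1, mul_inv_cancel]
  · show (D.gg i * D.lam a) * (D.gg i)⁻¹ = D.lam (D.φ i a)
    rw [← D.gg_spec i a]

theorem conj_t_inv (i : I) (a : D.A i) : (D.t i)⁻¹ * D.sg (D.φ i a) * D.t i = D.sg a := by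
  rw [← conj_t]
  group

/-- Elements reached by reduced words. -/
inductive Gd : D.W → Prop
  | base (s : S) : Gd (D.sg s)
  | step {g : D.W} (hg : Gd g) (i : I) (e : Bool) (s : S)
      (hw : (g * D.T i e).left.toWord = g.left.toWord ++ [D.letter g.right i e]) :
      Gd (g * D.T i e * D.sg s)

theorem Gd.mul_sg {D : Data S Q I} {g : D.W} (hg : D.Gd g) (s' : S) : D.Gd (g * D.sg s') := by
  cases hg with
  | base s =>
    rw [sg_mul]
    exact .base _
  | step hg i e s hw =>
    rw [mul_assoc, sg_mul]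
    exact .step hg i e _ hw

/-- The pinch analysis: two cancelling letters. -/
theorem pinch {q₁ : Q} {i₁ i : I} {e₁ e : Bool} {s : S} (c : Q) (hc : c = q₁ * (cond e₁ (D.gg i₁) (D.gg i₁)⁻¹) * D.lam s)
    (h : D.letter q₁ i₁ e₁ = ((D.letter c i e).1, !(D.letter c i e).2)) :
    ∃ s', D.T i₁ e₁ * D.sg s * D.T i e = D.sg s' := by
  have h2 := congrArg Prod.snd h
  have h1 := congrArg Prod.fst h
  rw [letter_snd] at h2
  simp only [letter_snd] at h2
  subst h2
  cases e with
  | false =>
    -- `e₁ = true`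
    subst hc
    simp only [letter, cond_true, cond_false, Bool.not_false] at h1
    obtain rfl := D.smul_y_eq_smul_y h1
    have h4 := D.smul_y_eq_smul_y' h1
    have e1 : q₁⁻¹ * (q₁ * D.gg i₁ * D.lam s * (D.gg i₁)⁻¹) = D.gg i₁ * D.lam s * (D.gg i₁)⁻¹ := by group
    rw [e1] at h4
    obtain ⟨_, ⟨a, rfl⟩, ha⟩ := h4
    have e2 : D.lam s = D.lam a := by
      have := D.gg_spec i₁ a
      rw [ha] at this
      exact (mul_left_cancel (mul_right_cancel this)).symm
    have e3 : s = a := D.lam_inj e2
    subst e3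
    exact ⟨D.φ i₁ a, D.conj_t i₁ a⟩
  | true =>
    subst hc
    simp only [letter, cond_true, cond_false, Bool.not_true] at h1
    obtain rfl := D.smul_y_eq_smul_y h1
    have h4 := D.smul_y_eq_smul_y' h1
    have e1 : (q₁ * (D.gg i₁)⁻¹)⁻¹ * (q₁ * (D.gg i₁)⁻¹ * D.lam s) = D.lam s := by group
    rw [e1] at h4
    obtain ⟨_, ⟨a, rfl⟩, ha⟩ := h4
    have e3 : s = D.φ i₁ a := D.lam_inj ha.symm
    subst e3
    exact ⟨a, D.conj_t_inv i₁ a⟩

theorem Gd.mul_T {D : Data S Q I} {g : D.W} (hg : D.Gd g) (i : I) (e : Bool) : D.Gd (g * D.T i e) := by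
  have hl := T_left D g i e
  rcases word_mul_let1 g.left (D.letter g.right i e) with h | h
  · have := Gd.step hg i e 1 (by rw [hl]; exact h)
    rwa [sg_one, mul_one] at this
  · rw [← hl] at h
    cases hg with
    | base s =>
      exfalso
      have h0 : ((D.sg s).left).toWord = [] := by
        rw [sg_left]
        exact FreeGroup.toWord_one
      rw [h0] at h
      simp at h
    | step hg₁ i₁ e₁ s hw =>
      rename_i g₁
      rw [mul_sg_left, hw] at h
      have h2 : D.letter g₁.right i₁ e₁ = ((D.letter (g₁ * D.T i₁ e₁ * D.sg s).right i e).1,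
          !(D.letter (g₁ * D.T i₁ e₁ * D.sg s).right i e).2) := by
        have := List.append_inj' h (by simp)
        simpa using this.2
      obtain ⟨s', hs'⟩ := D.pinch (q₁ := g₁.right) (i₁ := i₁) (e₁ := e₁) (s := s) _ (by
        rw [mul_sg_right]
        cases e₁ <;> rfl) h2
      rw [mul_assoc, mul_assoc, ← mul_assoc (D.T i₁ e₁), hs']
      exact hg₁.mul_sg s'

/-- The group generated. -/
noncomputable def G : Subgroup D.W :=
  Subgroup.closure (Set.range D.sg ∪ Set.range D.t)

theorem sg_mem (s : S) : D.sg s ∈ D.G := Subgroup.subset_closure (Or.inl ⟨s, rfl⟩)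

theorem t_mem (i : I) : D.t i ∈ D.G := Subgroup.subset_closure (Or.inr ⟨i, rfl⟩)

theorem T_mem (i : I) (e : Bool) : D.T i e ∈ D.G := by
  cases e
  · exact D.G.inv_mem (D.t_mem i)
  · exact D.t_mem i

theorem Gd.mem {D : Data S Q I} {g : D.W} (hg : D.Gd g) : g ∈ D.G := by
  induction hg with
  | base s => exact D.sg_mem s
  | step _ i e s _ ih => exact D.G.mul_mem (D.G.mul_mem ih (D.T_mem i e)) (D.sg_mem s)

theorem gd_of_mem {g : D.W} (hg : g ∈ D.G) : D.Gd g := by
  unfold G at hg
  induction hg using Subgroup.closure_induction_right with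
  | one =>
    have := Gd.base (D := D) 1
    rwa [sg_one] at this
  | mul_right x y _ hy ih =>
    rcases hy with ⟨s, rfl⟩ | ⟨i, rfl⟩
    · exact ih.mul_sg s
    · exact ih.mul_T i true
  | mul_inv_cancel x y _ hy ih =>
    rcases hy with ⟨s, rfl⟩ | ⟨i, rfl⟩
    · rw [← sg_inv]
      exact ih.mul_sg _
    · exact ih.mul_T i false

theorem eq_sg_of_left_eq_one {g : D.W} (hg : D.Gd g) (h1 : g.left = 1) : ∃ s, g = D.sg s := by
  cases hg with
  | base s => exact ⟨s, rfl⟩
  | step hg₁ i e s hw =>
    exfalso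
    rw [mul_sg_left] at h1
    rw [h1, FreeGroup.toWord_one] at hw
    simp at hw

theorem left_conj (g : D.W) (x : S) :
    (g * D.sg x * g⁻¹).left = g.left * D.rho (g.right * D.lam x * g.right⁻¹) g.left⁻¹ := by
  rw [SemidirectProduct.mul_left, mul_sg_left, SemidirectProduct.inv_left, mul_sg_right]
  rw [← MulAut.mul_apply, ← map_mul]

theorem rho_fix_of_conj {g : D.W} {x x' : S} (h : g * D.sg x * g⁻¹ = D.sg x') :
    D.rho (g.right * D.lam x * g.right⁻¹) g.left = g.left := by
  have h1 := D.left_conj g x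
  rw [h, sg_left] at h1
  have h2 := h1.symm
  rw [map_inv] at h2
  have h3 : g.left = D.rho (g.right * D.lam x * g.right⁻¹) g.left := by
    have := mul_eq_one_iff_eq_inv.1 h2
    rwa [inv_inv] at this
  exact h3.symm

theorem mem_of_fix_letter {g₁ : D.W} {i : I} {e : Bool} {s x x' : S}
    (hw : (g₁ * D.T i e).left.toWord = g₁.left.toWord ++ [D.letter g₁.right i e])
    (h : (g₁ * D.T i e * D.sg s) * D.sg x * (g₁ * D.T i e * D.sg s)⁻¹ = D.sg x') :
    cond e (s * x * s⁻¹ ∈ D.A i) (s * x * s⁻¹ ∈ (D.φ i).range) := by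
  have hfix := D.rho_fix_of_conj h
  set g := g₁ * D.T i e * D.sg s with hg
  set c := g.right * D.lam x * g.right⁻¹ with hc
  have hleft : g.left = (g₁ * D.T i e).left := D.mul_sg_left _ s
  have h1 := congrArg FreeGroup.toWord hfix
  rw [toWord_rho, hleft, hw, List.map_append] at h1
  have h2 := List.append_inj' h1 (by simp)
  have h3 : (c • (D.letter g₁.right i e).1, (D.letter g₁.right i e).2) = D.letter g₁.right i e := by
    simpa using h2.2
  have h4 : c • (D.letter g₁.right i e).1 = (D.letter g₁.right i e).1 := congrArg Prod.fst h3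
  have hl : D.lam (s * x * s⁻¹) = D.lam s * D.lam x * (D.lam s)⁻¹ := by
    rw [map_mul, map_mul, map_inv]
  cases e with
  | true =>
    show s * x * s⁻¹ ∈ D.A i
    have hr : g.right = g₁.right * D.gg i * D.lam s := rfl
    have h5 : (c * g₁.right) • D.y i = g₁.right • D.y i := by
      rw [mul_smul]
      exact h4
    have h6 := D.smul_y_eq_smul_y' h5.symm
    have e1 : (g₁.right)⁻¹ * (c * g₁.right) = D.gg i * D.lam (s * x * s⁻¹) * (D.gg i)⁻¹ := by
      rw [hc, hr, hl]
      group
    rw [e1] at h6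
    obtain ⟨_, ⟨a, rfl⟩, ha⟩ := h6
    have h7 := D.gg_spec i a
    rw [ha] at h7
    have h8 : D.lam a = D.lam (s * x * s⁻¹) := mul_left_cancel (mul_right_cancel h7)
    rw [← D.lam_inj h8]
    exact a.2
  | false =>
    show s * x * s⁻¹ ∈ (D.φ i).range
    have hr : g.right = g₁.right * (D.gg i)⁻¹ * D.lam s := rfl
    have h5 : (c * (g₁.right * (D.gg i)⁻¹)) • D.y i = (g₁.right * (D.gg i)⁻¹) • D.y i := by
      rw [mul_smul]
      exact h4
    have h6 := D.smul_y_eq_smul_y' h5.symm
    have e1 : (g₁.right * (D.gg i)⁻¹)⁻¹ * (c * (g₁.right * (D.gg i)⁻¹)) = D.lam (s * x * s⁻¹) := by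
      rw [hc, hr, hl]
      group
    rw [e1] at h6
    obtain ⟨_, ⟨a, rfl⟩, ha⟩ := h6
    exact ⟨a, D.lam_inj ha⟩

/-- Conjugation by `s` on a subgroup. -/
def conjS (P : Subgroup S) (s : S) : P →* S := (MulAut.conj s).toMonoidHom.comp P.subtype

theorem conjS_apply (P : Subgroup S) (s : S) (x : P) : conjS P s x = s * x * s⁻¹ := rfl

theorem sg_conj (s x : S) : D.sg s * D.sg x * (D.sg s)⁻¹ = D.sg (s * x * s⁻¹) := by
  rw [← sg_inv, sg_mul, sg_mul]

/-- The conjugations realized by `G` between subgroups of `S` lie in any system containing the data. -/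
theorem conj_closure (Cl : ∀ P : Subgroup S, (P →* S) → Prop)
    (h_conj : ∀ (P : Subgroup S) (s : S), Cl P (conjS P s))
    (h_φ : ∀ (i : I) (ψ : D.A i →* S), (∀ x : D.A i, ψ x = D.φ i x) → Cl (D.A i) ψ)
    (h_inv : ∀ (i : I) (ψ : (D.φ i).range →* S), (∀ x : (D.φ i).range, ∃ a : D.A i, D.φ i a = x ∧ ψ x = a) →
      Cl (D.φ i).range ψ)
    (h_comp : ∀ (P P' : Subgroup S) (ψ : P →* S) (χ : P' →* S) (h : ∀ x, ψ x ∈ P'), Cl P ψ → Cl P' χ →
      Cl P (χ.comp (ψ.codRestrict P' h)))
    {g : D.W} (hg : D.Gd g) :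
    ∀ P : Subgroup S, (∀ x ∈ P, ∃ x', g * D.sg x * g⁻¹ = D.sg x') →
      ∃ ψ : P →* S, Cl P ψ ∧ ∀ x : P, g * D.sg x * g⁻¹ = D.sg (ψ x) := by
  induction hg with
  | base s =>
    intro P _
    exact ⟨conjS P s, h_conj P s, fun x => D.sg_conj s x⟩
  | step hg₁ i e s hw ih =>
    rename_i g₁
    intro P hP
    -- the first step
    have hmem : ∀ x : P, cond e (s * (x : S) * s⁻¹ ∈ D.A i) (s * (x : S) * s⁻¹ ∈ (D.φ i).range) := by
      intro x
      obtain ⟨x', hx'⟩ := hP x x.2
      exact D.mem_of_fix_letter hw hx'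
    have hstep : ∃ ψ₁ : P →* S, Cl P ψ₁ ∧ ∀ x : P, D.T i e * D.sg (s * x * s⁻¹) * (D.T i e)⁻¹ = D.sg (ψ₁ x) := by
      cases e with
      | true =>
        have hm : ∀ x : P, conjS P s x ∈ D.A i := hmem
        refine ⟨(D.φ i).comp ((conjS P s).codRestrict (D.A i) hm), ?_, fun x => ?_⟩
        · exact h_comp _ _ _ _ hm (h_conj P s) (h_φ i _ fun _ => rfl)
        · exact D.conj_t i ⟨_, hm x⟩
      | false =>
        have hm : ∀ x : P, conjS P s x ∈ (D.φ i).range := hmem
        let e₀ := MonoidHom.ofInjective (D.φ_inj i)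
        let χ : (D.φ i).range →* S := (D.A i).subtype.comp e₀.symm.toMonoidHom
        have hχ : ∀ x : (D.φ i).range, D.φ i (e₀.symm x) = x := fun x => by
          have := e₀.apply_symm_apply x
          exact congrArg Subtype.val this
        refine ⟨χ.comp ((conjS P s).codRestrict (D.φ i).range hm), ?_, fun x => ?_⟩
        · refine h_comp _ _ _ _ hm (h_conj P s) (h_inv i χ fun x => ⟨e₀.symm x, hχ x, rfl⟩)
        · have h1 := D.conj_t_inv i (e₀.symm ⟨_, hm x⟩)
          rw [hχ] at h1
          show (D.t i)⁻¹ * D.sg (s * x * s⁻¹) * ((D.t i)⁻¹)⁻¹ = _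
          rw [inv_inv]
          exact h1
    obtain ⟨ψ₁, hCl₁, hψ₁⟩ := hstep
    have hrel : ∀ x : P, g₁ * D.T i e * D.sg s * D.sg x * (g₁ * D.T i e * D.sg s)⁻¹ =
        g₁ * D.sg (ψ₁ x) * g₁⁻¹ := by
      intro x
      rw [← hψ₁ x, ← D.sg_conj s x]
      group
    obtain ⟨χ, hχ, hχe⟩ := ih ψ₁.range (by
      rintro _ ⟨x, rfl⟩
      obtain ⟨x', hx'⟩ := hP x x.2
      exact ⟨x', by rw [← hrel x, hx']⟩)
    refine ⟨χ.comp (ψ₁.codRestrict ψ₁.range fun x => ⟨x, rfl⟩), h_comp _ _ _ _ _ hCl₁ hχ, fun x => ?_⟩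
    rw [hrel x]
    exact hχe ⟨ψ₁ x, ⟨x, rfl⟩⟩

/-! ### The fixed point argument -/

/-- The distance from the base vertex. -/
noncomputable def len (g : D.W) : ℕ := g.left.norm

theorem len_inv_mul (a b : D.W) : D.len (a⁻¹ * b) = (a.left⁻¹ * b.left).norm := by
  unfold len
  rw [SemidirectProduct.mul_left, SemidirectProduct.inv_left, SemidirectProduct.inv_right, ← map_mul, norm_rho]

theorem len_inv (a : D.W) : D.len a⁻¹ = D.len a := by
  have := D.len_inv_mul a 1
  rw [mul_one, SemidirectProduct.one_left, mul_one, FreeGroup.norm_inv_eq] at this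
  exact this

theorem exists_prefix {g : D.W} (hg : D.Gd g) {l : D.B × Bool} {w : List (D.B × Bool)} (h : g.left.toWord = l :: w) :
    ∃ k, D.Gd k ∧ k.left = let1 l := by
  induction hg generalizing l w with
  | base s =>
    rw [sg_left, FreeGroup.toWord_one] at h
    simp at h
  | step hg₁ i e s hw ih =>
    rename_i g₁
    rw [mul_sg_left, hw] at h
    rcases hk : g₁.left.toWord with _ | ⟨l', w'⟩
    · rw [hk] at h
      simp only [List.nil_append, List.cons.injEq, List.nil_eq] at h
      refine ⟨g₁ * D.T i e, hg₁.mul_T i e, ?_⟩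
      have h1 : g₁.left = 1 := FreeGroup.toWord_eq_nil_iff.1 hk
      rw [T_left, h1, one_mul, h.1]
    · rw [hk] at h
      simp only [List.cons_append, List.cons.injEq] at h
      rw [← h.1]
      exact ih hk

theorem radius_le (H : Set D.W) {g g' : D.W} (hg : g ∈ D.G) (hg' : g' ∈ D.G) {m : ℕ}
    (h1 : ∀ h ∈ H, D.len (g⁻¹ * h) ≤ m) (h2 : ∀ h ∈ H, D.len (g'⁻¹ * h) ≤ m)
    (hmin : ∀ u ∈ D.G, ∃ h ∈ H, m ≤ D.len (u⁻¹ * h)) : D.len (g⁻¹ * g') ≤ 1 := by
  by_contra hlen
  push Not at hlen
  set k := g⁻¹ * g' with hk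
  have hkG : k ∈ D.G := D.G.mul_mem (D.G.inv_mem hg) hg'
  have hkd := D.gd_of_mem hkG
  have hnorm : 2 ≤ k.left.norm := hlen
  rcases hw : k.left.toWord with _ | ⟨l, w⟩
  · exfalso
    unfold FreeGroup.norm at hnorm
    rw [hw] at hnorm
    simp at hnorm
  obtain ⟨k₁, hk₁, hk₁l⟩ := D.exists_prefix hkd hw
  obtain ⟨h, hH, hh⟩ := hmin (g * k₁) (D.G.mul_mem hg hk₁.mem)
  have e1 : (g * k₁)⁻¹ * h = k₁⁻¹ * (g⁻¹ * h) := by group
  rw [e1, len_inv_mul, hk₁l] at hh
  have hb := h1 h hH
  have hb' := h2 h hH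
  set b := g⁻¹ * h with hbdef
  have e2 : g'⁻¹ * h = k⁻¹ * b := by
    rw [hk, hbdef]
    group
  by_cases hhead : b.left.toWord.head? = some l
  · rcases hbw : b.left.toWord with _ | ⟨l', r⟩
    · rw [hbw] at hhead
      simp at hhead
    · rw [hbw] at hhead
      simp only [List.head?_cons, Option.some.injEq] at hhead
      subst hhead
      have := norm_let1_inv_mul b.left l' r hbw
      have hb2 : b.left.norm ≤ m := hb
      omega
  · have h3 := norm_inv_mul_of_head_ne k.left b.left l w hw hhead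
    rw [e2, len_inv_mul, h3] at hb'
    have h4 : ((let1 l)⁻¹ * b.left).norm ≤ (let1 l)⁻¹.norm + b.left.norm := FreeGroup.norm_mul_le _ _
    have h5 : (let1 l)⁻¹.norm = 1 := by
      rw [FreeGroup.norm_inv_eq]
      unfold FreeGroup.norm
      rw [toWord_let1]
      rfl
    omega

theorem len_mul_self {c : D.W} (h : D.len c = 1) : D.len (c * c) = 2 := by
  unfold len at h ⊢
  unfold FreeGroup.norm at h
  obtain ⟨l, hl⟩ := List.length_eq_one_iff.1 h
  have h1 : c.left = let1 l := by
    conv_lhs => rw [← FreeGroup.mk_toWord (x := c.left), hl]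
    rfl
  rw [SemidirectProduct.mul_left, h1, rho_let1]
  unfold FreeGroup.norm
  rw [FreeGroup.toWord_mul, toWord_let1, toWord_let1]
  have hr : FreeGroup.IsReduced ([l] ++ [(c.right • l.1, l.2)]) := by
    show FreeGroup.IsReduced [l, (c.right • l.1, l.2)]
    rw [FreeGroup.isReduced_cons_cons]
    exact ⟨fun _ => rfl, FreeGroup.IsReduced.singleton⟩
  rw [hr.reduce_eq]
  rfl

/-- A finite subgroup of `G` is conjugate into `S`. -/
theorem exists_conj_of_finite (H : Subgroup D.W) (hHG : H ≤ D.G) (hH : (H : Set D.W).Finite) :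
    ∃ g ∈ D.G, ∀ h ∈ H, ∃ s, g⁻¹ * h * g = D.sg s := by
  let fs := hH.toFinset
  have hfs : ∀ h, h ∈ fs ↔ h ∈ H := fun h => by simp [fs]
  let f : D.W → ℕ := fun u => fs.sup fun h => D.len (u⁻¹ * h)
  obtain ⟨m, ⟨g, hg, rfl⟩, hmin⟩ := WellFounded.has_min (wellFounded_lt (α := ℕ)) (f '' (D.G : Set D.W))
    ⟨f 1, 1, D.G.one_mem, rfl⟩
  have h1 : ∀ h ∈ H, D.len (g⁻¹ * h) ≤ f g := fun h hh =>
    Finset.le_sup (f := fun h => D.len (g⁻¹ * h)) ((hfs h).2 hh)
  have hne : fs.Nonempty := ⟨1, (hfs 1).2 H.one_mem⟩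
  have hmin' : ∀ u ∈ D.G, ∃ h ∈ (H : Set D.W), f g ≤ D.len (u⁻¹ * h) := by
    intro u hu
    have h2 : ¬ f u < f g := hmin _ ⟨u, hu, rfl⟩
    obtain ⟨h, hh, he⟩ := Finset.exists_mem_eq_sup fs hne fun h => D.len (u⁻¹ * h)
    refine ⟨h, (hfs h).1 hh, ?_⟩
    have he' : f u = D.len (u⁻¹ * h) := he
    omega
  have hleq : ∀ h' ∈ H, D.len (g⁻¹ * (h' * g)) ≤ 1 := by
    intro h' hh'
    refine D.radius_le (H : Set D.W) hg (D.G.mul_mem (hHG hh') hg) (m := f g) h1 ?_ hmin'
    intro h hh
    have e1 : (h' * g)⁻¹ * h = g⁻¹ * (h'⁻¹ * h) := by group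
    rw [e1]
    exact h1 _ (H.mul_mem (H.inv_mem hh') hh)
  refine ⟨g, hg, fun h hh => ?_⟩
  set c := g⁻¹ * h * g with hc
  have hcG : c ∈ D.G := D.G.mul_mem (D.G.mul_mem (D.G.inv_mem hg) (hHG hh)) hg
  have h3 : D.len c ≤ 1 := by
    have := hleq h hh
    rwa [← mul_assoc] at this
  have h4 : D.len (c * c) ≤ 1 := by
    have := hleq (h * h) (H.mul_mem hh hh)
    have e2 : g⁻¹ * (h * h * g) = c * c := by
      rw [hc]
      group
    rwa [e2] at this
  have h5 : D.len c = 0 := by
    by_contra hne0
    have h6 : D.len c = 1 := by omega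
    have := D.len_mul_self h6
    omega
  exact D.eq_sg_of_left_eq_one (D.gd_of_mem hcG) (FreeGroup.norm_eq_zero.1 h5)

/-! ### The free normal subgroup -/

/-- The kernel of the projection on `G`. -/
noncomputable def N : Subgroup ↥D.G :=
  ((SemidirectProduct.rightHom : D.W →* Q).comp D.G.subtype).ker

instance : D.N.Normal := by
  unfold N
  infer_instance

theorem isFreeGroup_N : IsFreeGroup D.N := by
  have hright : ∀ x : D.N, ((x : D.G) : D.W).right = 1 := fun x => x.2
  let f : D.N →* FreeGroup D.B :=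
    { toFun := fun x => ((x : D.G) : D.W).left
      map_one' := rfl
      map_mul' := fun a b => by
        show (((a : D.G) : D.W) * ((b : D.G) : D.W)).left = _
        rw [SemidirectProduct.mul_left, hright a, map_one]
        rfl }
  have hf : Function.Injective f := by
    intro a b hab
    apply Subtype.ext
    apply Subtype.ext
    apply SemidirectProduct.ext
    · exact hab
    · rw [hright a, hright b]
  exact IsFreeGroup.ofMulEquiv (MonoidHom.ofInjective hf).symm

theorem index_N_dvd : D.N.index ∣ Nat.card Q := by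
  unfold N
  rw [Subgroup.index_ker]
  exact Subgroup.card_subgroup_dvd_card _

/-- The injection of `S`. -/
noncomputable def iota : S →* D.G where
  toFun s := ⟨D.sg s, D.sg_mem s⟩
  map_one' := Subtype.ext D.sg_one
  map_mul' a b := Subtype.ext (D.sg_mul a b).symm

theorem iota_injective : Function.Injective D.iota := fun a b h =>
  D.sg_injective (congrArg Subtype.val h)

end Data

end Abstract

end Cfsg.Agent.Lib.Fusion.VirtFree
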