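import Mathlib
import Cfsg.Agent.Lib.Fusion.SimpleW
import Cfsg.Agent.Lib.PSL2.SylowGens
import Cfsg.Agent.Lib.PSL2.Icosian

/-!
# Wreath configurations `SL(2, F) ≀ C₂` inside a finite group

An abstract configuration inside a finite group `Γ` (in the application, `Sp(4, F)`): a homomorphism
`ι : SL(2, F) × SL(2, F) → Γ` and a swapping element `σ`. We study the Sylow subgroup `Q ≀ C₂`.
-/

set_option autoImplicit false
set_option linter.unusedSectionVars false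

namespace Cfsg.Agent.Lib.Fusion.WrSL2

open Matrix
open scoped MatrixGroups
open Cfsg.Agent.Lib.PSL2.Basic Cfsg.Agent.Lib.PSL2.Torus Cfsg.Agent.Lib.PSL2.FourGroup
open Cfsg.Agent.Lib.PSL2.SylowGens

variable {F : Type*} [Field F] {Γ : Type*} [Group Γ]

/-- A wreath configuration. -/
structure WrCfg (F : Type*) [Field F] (Γ : Type*) [Group Γ] where
  ι : SL(2, F) × SL(2, F) →* Γ
  inj : Function.Injective ι
  σ : Γ
  σσ : σ * σ = 1
  σι : ∀ x y, σ * ι (x, y) * σ = ι (y, x)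
  σ_out : ∀ x y, σ ≠ ι (x, y)
  zc : ∀ g, g * ι (-1, -1) = ι (-1, -1) * g
  g₀ : Γ
  hg₀ : g₀ * ι (-1, 1) * g₀⁻¹ = σ
  cent : ∀ g, g * ι (-1, 1) = ι (-1, 1) * g → ∃ x y, g = ι (x, y)
  h2 : (2 : F) ≠ 0
  odd_card : ∃ m, Odd m ∧ Nat.card Γ = 2 * Nat.card SL(2, F) ^ 2 * m
  yy : (A : SL(2, F)) → tr A = 0 → Γ
  hy1 : ∀ A hA x, yy A hA * ι (x, x) =
    ι (cj (onePlus h2 A hA) x, cj (onePlus h2 A hA) x) * yy A hA
  hy2 : ∀ A hA, yy A hA * ι (1, -1) = σ * yy A hA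
  hy3 : ∀ A hA, yy A hA * σ = ι (1, -1) * yy A hA
  hy4 : ∀ A hA, yy A hA * yy A hA = ι (A, A)

namespace WrCfg

variable (C : WrCfg F Γ)

/-- Shorthand for `ι`. -/
def i (x y : SL(2, F)) : Γ := C.ι (x, y)

lemma i_mul (x y x' y' : SL(2, F)) : C.i x y * C.i x' y' = C.i (x * x') (y * y') := by
  simp only [i, ← map_mul]
  rfl

lemma i_one : C.i 1 1 = 1 := map_one C.ι

lemma i_inv (x y : SL(2, F)) : (C.i x y)⁻¹ = C.i x⁻¹ y⁻¹ := by
  simp only [i, ← map_inv]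
  rfl

lemma i_pow (x y : SL(2, F)) (n : ℕ) : (C.i x y) ^ n = C.i (x ^ n) (y ^ n) := by
  simp only [i, ← map_pow]
  rfl

lemma i_inj {x y x' y' : SL(2, F)} (h : C.i x y = C.i x' y') : x = x' ∧ y = y' := by
  have := C.inj h
  exact ⟨congrArg Prod.fst this, congrArg Prod.snd this⟩

lemma σ_i (x y : SL(2, F)) : C.σ * C.i x y = C.i y x * C.σ := by
  have h := C.σι x y
  calc C.σ * C.i x y = (C.σ * C.ι (x, y) * C.σ) * C.σ := by
        rw [mul_assoc _ C.σ C.σ, C.σσ, mul_one]; rfl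
    _ = C.i y x * C.σ := by rw [h]; rfl

lemma σ_inv : C.σ⁻¹ = C.σ := inv_eq_of_mul_eq_one_left C.σσ

lemma σ_conj (x y : SL(2, F)) : C.σ * C.i x y * C.σ = C.i y x := C.σι x y

lemma σ_ne (x y : SL(2, F)) : C.σ ≠ C.i x y := C.σ_out x y

lemma iσ_ne (x y x' y' : SL(2, F)) : C.i x y * C.σ ≠ C.i x' y' := by
  intro h
  apply C.σ_ne (x⁻¹ * x') (y⁻¹ * y')
  rw [← C.i_mul, ← C.i_inv, ← h]
  group

/-- The central element `-1`. -/
def z : Γ := C.i (-1) (-1)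

/-- The involution `(-1, 1)`. -/
def t : Γ := C.i (-1) 1

lemma z_comm (g : Γ) : g * C.z = C.z * g := C.zc g

lemma z_conj (g : Γ) : g * C.z * g⁻¹ = C.z := by
  rw [C.z_comm]; group

lemma neg_mul_neg_one : (-1 : SL(2, F)) * (-1) = 1 := by simp

lemma z_mul_z : C.z * C.z = 1 := by
  rw [z, C.i_mul, neg_mul_neg_one, C.i_one]

include C in
lemma neg_one_ne : (-1 : SL(2, F)) ≠ 1 := neg_one_ne_one_of_two_ne_zero C.h2

lemma z_ne_one : C.z ≠ 1 := by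
  intro h
  rw [z, ← C.i_one] at h
  exact C.neg_one_ne (C.i_inj h).1

lemma z_i (x y : SL(2, F)) : C.z * C.i x y = C.i (-x) (-y) := by
  rw [z, C.i_mul]
  simp

lemma t_ne_one : C.t ≠ 1 := by
  intro h
  rw [t, ← C.i_one] at h
  exact C.neg_one_ne (C.i_inj h).1

lemma t_ne_z : C.t ≠ C.z := by
  intro h
  have := (C.i_inj h).2
  exact C.neg_one_ne this.symm

/-- `Q ≀ C₂`. -/
def Wr (Q : Subgroup SL(2, F)) : Subgroup Γ where
  carrier := {g | ∃ x ∈ Q, ∃ y ∈ Q, g = C.i x y ∨ g = C.i x y * C.σ}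
  one_mem' := ⟨1, Q.one_mem, 1, Q.one_mem, Or.inl C.i_one.symm⟩
  mul_mem' := by
    rintro a b ⟨x, hx, y, hy, rfl | rfl⟩ ⟨x', hx', y', hy', rfl | rfl⟩
    · exact ⟨_, Q.mul_mem hx hx', _, Q.mul_mem hy hy', Or.inl (C.i_mul _ _ _ _)⟩
    · refine ⟨_, Q.mul_mem hx hx', _, Q.mul_mem hy hy', Or.inr ?_⟩
      rw [← mul_assoc, C.i_mul]
    · refine ⟨_, Q.mul_mem hx hy', _, Q.mul_mem hy hx', Or.inr ?_⟩
      rw [mul_assoc, C.σ_i, ← mul_assoc, C.i_mul]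
    · refine ⟨_, Q.mul_mem hx hy', _, Q.mul_mem hy hx', Or.inl ?_⟩
      calc C.i x y * C.σ * (C.i x' y' * C.σ) = C.i x y * (C.σ * C.i x' y') * C.σ := by group
        _ = C.i x y * (C.i y' x' * C.σ) * C.σ := by rw [C.σ_i]
        _ = C.i x y * C.i y' x' * (C.σ * C.σ) := by group
        _ = _ := by rw [C.σσ, mul_one, C.i_mul]
  inv_mem' := by
    rintro a ⟨x, hx, y, hy, rfl | rfl⟩
    · exact ⟨_, Q.inv_mem hx, _, Q.inv_mem hy, Or.inl (C.i_inv _ _)⟩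
    · refine ⟨_, Q.inv_mem hy, _, Q.inv_mem hx, Or.inr ?_⟩
      rw [_root_.mul_inv_rev, C.i_inv, C.σ_inv, C.σ_i]

variable {Q : Subgroup SL(2, F)}

lemma i_mem_Wr {x y : SL(2, F)} (hx : x ∈ Q) (hy : y ∈ Q) : C.i x y ∈ C.Wr Q :=
  ⟨x, hx, y, hy, Or.inl rfl⟩

lemma iσ_mem_Wr {x y : SL(2, F)} (hx : x ∈ Q) (hy : y ∈ Q) : C.i x y * C.σ ∈ C.Wr Q :=
  ⟨x, hx, y, hy, Or.inr rfl⟩

lemma σ_mem_Wr : C.σ ∈ C.Wr Q := by
  refine ⟨1, Q.one_mem, 1, Q.one_mem, Or.inr ?_⟩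
  rw [C.i_one, one_mul]

lemma of_i_mem_Wr {x y : SL(2, F)} (h : C.i x y ∈ C.Wr Q) : x ∈ Q ∧ y ∈ Q := by
  obtain ⟨x', hx', y', hy', h1 | h1⟩ := h
  · obtain ⟨rfl, rfl⟩ := C.i_inj h1
    exact ⟨hx', hy'⟩
  · exact absurd h1.symm (C.iσ_ne _ _ _ _)

lemma of_iσ_mem_Wr {x y : SL(2, F)} (h : C.i x y * C.σ ∈ C.Wr Q) : x ∈ Q ∧ y ∈ Q := by
  obtain ⟨x', hx', y', hy', h1 | h1⟩ := h
  · exact absurd h1 (C.iσ_ne _ _ _ _)
  · have h2 := mul_right_cancel h1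
    obtain ⟨rfl, rfl⟩ := C.i_inj h2
    exact ⟨hx', hy'⟩

lemma z_mem_Wr (h : (-1 : SL(2, F)) ∈ Q) : C.z ∈ C.Wr Q := C.i_mem_Wr h h

/-- `(Q ≀ C₂)` has order `2 |Q|^2`. -/
lemma card_Wr [Finite Γ] : Nat.card (C.Wr Q) = 2 * Nat.card Q ^ 2 := by
  classical
  let f : (Q × Q) × Bool → C.Wr Q := fun p =>
    if p.2 then ⟨C.i p.1.1 p.1.2 * C.σ, C.iσ_mem_Wr p.1.1.2 p.1.2.2⟩
    else ⟨C.i p.1.1 p.1.2, C.i_mem_Wr p.1.1.2 p.1.2.2⟩
  have hf : Function.Bijective f := by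
    constructor
    · rintro ⟨⟨x, y⟩, b⟩ ⟨⟨x', y'⟩, b'⟩ h
      have h' := congrArg Subtype.val h
      cases b <;> cases b' <;> simp only [f, if_true, if_false, Bool.false_eq_true] at h'
      · obtain ⟨h1, h2⟩ := C.i_inj h'
        rw [Subtype.ext h1, Subtype.ext h2]
      · exact absurd h'.symm (C.iσ_ne _ _ _ _)
      · exact absurd h' (C.iσ_ne _ _ _ _)
      · obtain ⟨h1, h2⟩ := C.i_inj (mul_right_cancel h')
        rw [Subtype.ext h1, Subtype.ext h2]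
    · rintro ⟨g, x, hx, y, hy, rfl | rfl⟩
      · exact ⟨(⟨⟨x, hx⟩, ⟨y, hy⟩⟩, false), rfl⟩
      · exact ⟨(⟨⟨x, hx⟩, ⟨y, hy⟩⟩, true), rfl⟩
  rw [← Nat.card_congr (Equiv.ofBijective f hf), Nat.card_prod, Nat.card_prod, Nat.card_eq_fintype_card (α := Bool),
    Fintype.card_bool]
  ring

section Sylow

variable [Fintype F] {S₀ : Subgroup SL(2, F)} {k : ℕ} {A B : SL(2, F)}

include C in
lemma sq_ne_one (hG : Gens S₀ k A B) : A * A ≠ 1 := by
  intro h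
  have h1 : A ^ 2 = 1 := by rw [pow_two, h]
  have h3 := orderOf_dvd_of_pow_eq_one h1
  rw [hG.ord] at h3
  have h4 := Nat.le_of_dvd (by norm_num) h3
  have := hG.two_le_n
  omega

include C in
lemma A_ne (hG : Gens S₀ k A B) : A ≠ 1 ∧ A ≠ -1 := by
  constructor
  · rintro rfl
    exact C.sq_ne_one hG (by simp)
  · rintro rfl
    exact C.sq_ne_one hG (by simp)

include C in
lemma neg_one_mem (hG : Gens S₀ k A B) : (-1 : SL(2, F)) ∈ S₀ := by
  rw [← hG.pow]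
  exact S₀.pow_mem hG.memA _

include C in
/-- An element of `S₀` commuting with both generators is `± 1`. -/
lemma eq_of_comm (hG : Gens S₀ k A B) {x : SL(2, F)} (hx : x ∈ S₀) (hA : x * A = A * x) (hB : x * B = B * x) :
    x = 1 ∨ x = -1 := by
  have h2 := C.h2
  rcases hG.cases x hx with ⟨i, rfl⟩ | ⟨i, rfl⟩
  · have h1 : B * A ^ i * B⁻¹ = (A ^ i)⁻¹ := by
      rw [← inv_pow, ← hG.inv, conj_pow]
    have h3 : B * A ^ i * B⁻¹ = A ^ i := by
      rw [← hB]; group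
    rw [h3] at h1
    apply (mul_self_eq_one_iff h2 _).1
    calc A ^ i * A ^ i = (A ^ i)⁻¹ * A ^ i := by rw [← h1]
      _ = 1 := by group
  · exfalso
    have h1 : B * A ^ i * A = A * (B * A ^ i) := hA
    have hcomm : A ^ i * A = A * A ^ i := (Commute.pow_self A i).eq.symm ▸ rfl
    have h3 : B * A = A * B := by
      have h4 : (B * A) * A ^ i = (A * B) * A ^ i := by
        calc (B * A) * A ^ i = B * (A * A ^ i) := by group
          _ = B * (A ^ i * A) := by rw [hcomm]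
          _ = A * (B * A ^ i) := by rw [← mul_assoc, h1]
          _ = (A * B) * A ^ i := by group
      exact mul_right_cancel h4
    have h4 : B * A * B⁻¹ = A := by rw [h3]; group
    rw [hG.inv] at h4
    apply C.sq_ne_one hG
    calc A * A = A⁻¹ * A := by rw [h4]
      _ = 1 := by group

include C in
/-- A nontrivial element of `S₀` has `-1` as a power. -/
lemma exists_pow_eq_neg_one (hS : IsPGroup 2 S₀) {x : SL(2, F)} (hx : x ∈ S₀) (h1 : x ≠ 1) :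
    ∃ n : ℕ, x ^ n = -1 := by
  classical
  obtain ⟨K, hK⟩ := hS ⟨x, hx⟩
  have hK' : x ^ 2 ^ K = 1 := by simpa using congrArg Subtype.val hK
  have hex : ∃ k, x ^ 2 ^ k = 1 := ⟨K, hK'⟩
  have hj := Nat.find_spec hex
  have hj0 : Nat.find hex ≠ 0 := by
    intro h0
    rw [h0] at hj
    exact h1 (by simpa using hj)
  obtain ⟨j, hj1⟩ := Nat.exists_eq_succ_of_ne_zero hj0
  have hmin : x ^ 2 ^ j ≠ 1 := Nat.find_min hex (m := j) (by omega)
  have hsq : (x ^ 2 ^ j) * (x ^ 2 ^ j) = 1 := by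
    rw [← pow_add, ← two_mul, ← pow_succ']
    rw [hj1] at hj
    exact hj
  exact ⟨2 ^ j, ((mul_self_eq_one_iff C.h2 _).1 hsq).resolve_left hmin⟩

lemma mem_t (hG : Gens S₀ k A B) {x y : SL(2, F)} (hx : x ∈ S₀) (hS : IsPGroup 2 S₀) (T : Subgroup Γ)
    (hn : ∀ a ∈ T, ∀ g ∈ C.Wr S₀, g * a * g⁻¹ ∈ T) (hy : y ∈ S₀) (hT : C.i x y ∈ T)
    (h1 : x ≠ 1) (hm : x ≠ -1) : C.t ∈ T := by
  -- find a commutator
  obtain ⟨u, hu, hne⟩ : ∃ u ∈ S₀, x * u ≠ u * x := by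
    by_contra hc
    push Not at hc
    rcases C.eq_of_comm hG hx (hc A hG.memA) (hc B hG.memB) with h | h
    · exact h1 h
    · exact hm h
  have h3 := hn _ hT (C.i u 1) (C.i_mem_Wr hu S₀.one_mem)
  have h4 := T.mul_mem hT (T.inv_mem h3)
  have e : C.i x y * (C.i u 1 * C.i x y * (C.i u 1)⁻¹)⁻¹ = C.i (x * u * x⁻¹ * u⁻¹) 1 := by
    simp only [C.i_inv, C.i_mul]
    congr 1 <;> simp [mul_assoc]
  rw [e] at h4
  have hc1 : x * u * x⁻¹ * u⁻¹ ≠ 1 := by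
    intro h5
    apply hne
    have : x * u * x⁻¹ * u⁻¹ * (u * x) = u * x := by rw [h5, one_mul]
    rw [← this]
    group
  have hcS : x * u * x⁻¹ * u⁻¹ ∈ S₀ :=
    S₀.mul_mem (S₀.mul_mem (S₀.mul_mem hx hu) (S₀.inv_mem hx)) (S₀.inv_mem hu)
  obtain ⟨n, hn'⟩ := C.exists_pow_eq_neg_one hS hcS hc1
  have h5 := T.pow_mem h4 n
  rw [C.i_pow, hn', one_pow] at h5
  exact h5

/-- Strongly closed subgroups of `Q ≀ C₂`. -/
theorem closed_Wr (hG : Gens S₀ k A B) (hS : IsPGroup 2 S₀) (T : Subgroup Γ) (hTS : T ≤ C.Wr S₀)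
    (hz : C.z ∈ T) (hne : ∃ x ∈ T, x ≠ 1 ∧ x ≠ C.z)
    (hcl : ∀ x ∈ T, ∀ g : Γ, g * x * g⁻¹ ∈ C.Wr S₀ → g * x * g⁻¹ ∈ T) : T = C.Wr S₀ := by
  have hn : ∀ a ∈ T, ∀ g ∈ C.Wr S₀, g * a * g⁻¹ ∈ T := fun a ha g hg =>
    hcl a ha g ((C.Wr S₀).mul_mem ((C.Wr S₀).mul_mem hg (hTS ha)) ((C.Wr S₀).inv_mem hg))
  have hσn : ∀ a ∈ T, C.σ * a * C.σ ∈ T := fun a ha => by
    have := hn a ha C.σ C.σ_mem_Wr
    rwa [C.σ_inv] at this
  have hAne := C.A_ne hG
  have hneg := C.neg_one_mem hG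
  -- the involution `t`
  have ht : C.t ∈ T := by
    have hcase : ∀ x y, x ∈ S₀ → y ∈ S₀ → C.i x y ∈ T → C.i x y ≠ 1 → C.i x y ≠ C.z → C.t ∈ T := by
      intro x y hx hy hxy h1 hzz
      by_cases hx1 : x = 1
      · subst hx1
        by_cases hy1 : y = 1
        · subst hy1
          exact absurd C.i_one h1
        by_cases hym : y = -1
        · subst hym
          have := T.mul_mem hz hxy
          rw [C.z_i] at this
          simpa [WrCfg.t] using this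
        · have h3 := hσn _ hxy
          rw [C.σ_conj] at h3
          exact C.mem_t hG hy hS T hn S₀.one_mem h3 hy1 hym
      by_cases hxm : x = -1
      · subst hxm
        by_cases hy1 : y = 1
        · subst hy1
          exact hxy
        by_cases hym : y = -1
        · subst hym
          exact absurd rfl hzz
        · have h3 := hσn _ hxy
          rw [C.σ_conj] at h3
          exact C.mem_t hG hy hS T hn hneg h3 hy1 hym
      · exact C.mem_t hG hx hS T hn hy hxy hx1 hxm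
    obtain ⟨y, hyT, hy1, hyz⟩ := hne
    obtain ⟨a, ha, b, hb, rfl | rfl⟩ := hTS hyT
    · exact hcase a b ha hb hyT hy1 hyz
    · -- commutator with `(A, 1)`
      have h3 := hn _ hyT (C.i A 1) (C.i_mem_Wr hG.memA S₀.one_mem)
      have h4 := T.mul_mem h3 (T.inv_mem hyT)
      have e : C.i A 1 * (C.i a b * C.σ) * (C.i A 1)⁻¹ * (C.i a b * C.σ)⁻¹ = C.i A (b * A⁻¹ * b⁻¹) := by
        rw [C.i_inv, _root_.mul_inv_rev, C.i_inv, C.σ_inv]
        calc C.i A 1 * (C.i a b * C.σ) * C.i A⁻¹ 1⁻¹ * (C.σ * C.i a⁻¹ b⁻¹)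
            = C.i A 1 * C.i a b * (C.σ * C.i A⁻¹ 1⁻¹ * C.σ) * C.i a⁻¹ b⁻¹ := by group
          _ = _ := by
            rw [C.σ_conj, C.i_mul, C.i_mul, C.i_mul]
            congr 1 <;> simp [mul_assoc]
      rw [e] at h4
      exact C.mem_t hG hG.memA hS T hn
        (S₀.mul_mem (S₀.mul_mem hb (S₀.inv_mem hG.memA)) (S₀.inv_mem hb)) h4 hAne.1 hAne.2
  -- `σ`
  have hσT : C.σ ∈ T := by
    have := hcl _ ht C.g₀ (by
      have e : C.g₀ * C.t * C.g₀⁻¹ = C.σ := C.hg₀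
      rw [e]; exact C.σ_mem_Wr)
    rwa [show C.g₀ * C.t * C.g₀⁻¹ = C.σ from C.hg₀] at this
  have hdiag : ∀ x ∈ S₀, C.i x x⁻¹ ∈ T := by
    intro x hx
    have h3 := hn _ hσT (C.i x 1) (C.i_mem_Wr hx S₀.one_mem)
    have h4 := T.mul_mem h3 hσT
    have e : C.i x 1 * C.σ * (C.i x 1)⁻¹ * C.σ = C.i x x⁻¹ := by
      calc C.i x 1 * C.σ * (C.i x 1)⁻¹ * C.σ = C.i x 1 * (C.σ * (C.i x 1)⁻¹ * C.σ) := by group
        _ = _ := by
          rw [C.i_inv, C.σ_conj, C.i_mul]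
          simp
    rwa [e] at h4
  -- elements with both coordinates of order four
  have h2 := C.h2
  have hord4 : ∀ x ∈ S₀, ∀ y ∈ S₀, x * x = -1 → y * y = -1 → C.i x y ∈ T := by
    intro x hx y hy hxx hyy
    have hBT := hdiag B hG.memB
    have hBB : (B⁻¹) * (B⁻¹) = -1 := by
      have : B⁻¹ * B⁻¹ = (B * B)⁻¹ := by group
      rw [this, hG.sq]
      apply inv_eq_of_mul_eq_one_left
      simp
    obtain ⟨g, hg⟩ := Cfsg.Agent.Lib.PSL2.TraceZero.exists_conj_of_tr_eq_zero h2 B x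
      ((mul_self_eq_neg_one_iff B).1 hG.sq) ((mul_self_eq_neg_one_iff x).1 hxx)
    obtain ⟨g', hg'⟩ := Cfsg.Agent.Lib.PSL2.TraceZero.exists_conj_of_tr_eq_zero h2 B⁻¹ y
      ((mul_self_eq_neg_one_iff _).1 hBB) ((mul_self_eq_neg_one_iff y).1 hyy)
    have e : C.i g g' * C.i B B⁻¹ * (C.i g g')⁻¹ = C.i x y := by
      rw [C.i_inv, C.i_mul, C.i_mul, hg, hg']
    have := hcl _ hBT (C.i g g') (by rw [e]; exact C.i_mem_Wr hx hy)
    rwa [e] at this
  -- powers of `A`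
  have hA1 : ∀ n : ℕ, C.i (A ^ n) 1 ∈ T := by
    intro n
    have h3 := hord4 _ (S₀.mul_mem hG.memB (S₀.pow_mem hG.memA n)) B hG.memB (hG.mul_self_of_B n) hG.sq
    have h4 := hord4 B hG.memB B hG.memB hG.sq hG.sq
    have h5 := T.mul_mem h4 (T.inv_mem h3)
    have e : C.i B B * (C.i (B * A ^ n) B)⁻¹ = C.i (B * (B * A ^ n)⁻¹) 1 := by
      rw [C.i_inv, C.i_mul]
      simp
    rw [e] at h5
    have h6 : B * (B * A ^ n)⁻¹ = A ^ n := by
      have h1 : B * A ^ n * B⁻¹ = (A ^ n)⁻¹ := by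
        rw [← inv_pow, ← hG.inv, conj_pow]
      calc B * (B * A ^ n)⁻¹ = (B * A ^ n * B⁻¹)⁻¹ := by group
        _ = A ^ n := by rw [h1, inv_inv]
    rwa [h6] at h5
  -- `(B, 1)`
  have hB1 : C.i B 1 ∈ T := by
    have hA' : (A ^ 2 ^ (k - 1)) * (A ^ 2 ^ (k - 1)) = -1 := by
      have hk : 2 ^ (k - 1) + 2 ^ (k - 1) = 2 ^ k := by
        obtain ⟨r, rfl⟩ : ∃ r, k = r + 1 := ⟨k - 1, by have := hG.one_le; omega⟩
        simp [pow_succ]
        ring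
      rw [← pow_add, hk, hG.pow]
    obtain ⟨g, hg⟩ := Cfsg.Agent.Lib.PSL2.TraceZero.exists_conj_of_tr_eq_zero h2 (A ^ 2 ^ (k - 1)) B
      ((mul_self_eq_neg_one_iff _).1 hA') ((mul_self_eq_neg_one_iff B).1 hG.sq)
    have e : C.i g 1 * C.i (A ^ 2 ^ (k - 1)) 1 * (C.i g 1)⁻¹ = C.i B 1 := by
      rw [C.i_inv, C.i_mul, C.i_mul, hg]
      simp
    have := hcl _ (hA1 _) (C.i g 1) (by rw [e]; exact C.i_mem_Wr hG.memB S₀.one_mem)
    rwa [e] at this
  have hx1 : ∀ x ∈ S₀, C.i x 1 ∈ T := by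
    intro x hx
    rcases hG.cases x hx with ⟨n, rfl⟩ | ⟨n, rfl⟩
    · exact hA1 n
    · have := T.mul_mem hB1 (hA1 n)
      rw [C.i_mul, mul_one] at this
      exact this
  have h1y : ∀ y ∈ S₀, C.i 1 y ∈ T := by
    intro y hy
    have := hσn _ (hx1 y hy)
    rwa [C.σ_conj] at this
  apply le_antisymm hTS
  rintro g ⟨x, hx, y, hy, rfl | rfl⟩
  · have := T.mul_mem (hx1 x hx) (h1y y hy)
    rw [C.i_mul] at this
    simpa using this
  · have := T.mul_mem (hx1 x hx) (h1y y hy)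
    rw [C.i_mul] at this
    apply T.mul_mem _ hσT
    simpa using this

lemma t_mul_t : C.t * C.t = 1 := by
  rw [t, C.i_mul, neg_mul_neg_one, one_mul, C.i_one]

lemma t_inv : C.t⁻¹ = C.t := inv_eq_of_mul_eq_one_left C.t_mul_t

/-- `t` commutes with `i x y`. -/
lemma t_i (x y : SL(2, F)) : C.t * C.i x y = C.i x y * C.t := by
  rw [t, C.i_mul, C.i_mul]
  simp

lemma t_conj_Wr {s : Γ} (hs : s ∈ C.Wr S₀) : C.t * s * C.t⁻¹ = s ∨ C.t * s * C.t⁻¹ = C.z * s := by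
  obtain ⟨x, hx, y, hy, rfl | rfl⟩ := hs
  · left
    rw [C.t_i]
    group
  · right
    rw [C.t_inv]
    calc C.t * (C.i x y * C.σ) * C.t = C.i x y * (C.t * (C.σ * C.t * C.σ)) * C.σ := by
          rw [← mul_assoc (C.t) (C.i x y), C.t_i]
          simp only [mul_assoc, C.σσ, mul_one]
      _ = C.i x y * C.z * C.σ := by
          congr 2
          rw [t, C.σ_conj, C.i_mul]
          simp [z]
      _ = C.z * (C.i x y * C.σ) := by
          rw [C.z_comm]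
          group

/-- Classification of elements central modulo `z`. -/
lemma eq_t_of_central (hG : Gens S₀ k A B) {t' : Γ} (ht' : t' ∈ C.Wr S₀) (h1 : t' ≠ 1) (hz : t' ≠ C.z)
    (hc : ∀ s ∈ C.Wr S₀, t' * s * t'⁻¹ = s ∨ t' * s * t'⁻¹ = C.z * s) : t' = C.t ∨ t' = C.i 1 (-1) := by
  have hAne := C.A_ne hG
  obtain ⟨a, ha, b, hb, rfl | rfl⟩ := ht'
  · have hleft : ∀ u ∈ S₀, a * u = u * a := by
      intro u hu
      rcases hc _ (C.i_mem_Wr hu S₀.one_mem) with h | h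
      · rw [C.i_inv, C.i_mul, C.i_mul] at h
        have h3 := (C.i_inj h).1
        exact mul_inv_eq_iff_eq_mul.1 h3
      · exfalso
        rw [C.i_inv, C.i_mul, C.i_mul, C.z_i] at h
        have h3 := (C.i_inj h).2
        simp only [mul_one, mul_inv_cancel] at h3
        exact C.neg_one_ne h3.symm
    have hright : ∀ u ∈ S₀, b * u = u * b := by
      intro u hu
      rcases hc _ (C.i_mem_Wr S₀.one_mem hu) with h | h
      · rw [C.i_inv, C.i_mul, C.i_mul] at h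
        have h3 := (C.i_inj h).2
        exact mul_inv_eq_iff_eq_mul.1 h3
      · exfalso
        rw [C.i_inv, C.i_mul, C.i_mul, C.z_i] at h
        have h3 := (C.i_inj h).1
        simp only [mul_one, mul_inv_cancel] at h3
        exact C.neg_one_ne h3.symm
    rcases C.eq_of_comm hG ha (hleft A hG.memA) (hleft B hG.memB) with rfl | rfl <;>
      rcases C.eq_of_comm hG hb (hright A hG.memA) (hright B hG.memB) with rfl | rfl
    · exact absurd C.i_one h1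
    · exact Or.inr rfl
    · exact Or.inl rfl
    · exact absurd rfl hz
  · exfalso
    have e : (C.i a b * C.σ) * C.i A 1 * (C.i a b * C.σ)⁻¹ = C.i 1 (b * A * b⁻¹) := by
      rw [_root_.mul_inv_rev, C.σ_inv, C.i_inv]
      calc C.i a b * C.σ * C.i A 1 * (C.σ * C.i a⁻¹ b⁻¹) = C.i a b * (C.σ * C.i A 1 * C.σ) * C.i a⁻¹ b⁻¹ := by group
        _ = _ := by
          rw [C.σ_conj, C.i_mul, C.i_mul]
          congr 1 <;> simp [mul_assoc]
    rcases hc _ (C.i_mem_Wr hG.memA S₀.one_mem) with h | h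
    · rw [e] at h
      exact hAne.1 (C.i_inj h).1.symm
    · rw [e, C.z_i] at h
      have h3 := (C.i_inj h).1
      apply hAne.2
      rw [← neg_neg A, ← h3]

/-- The form of elements normalizing `Q ≀ C₂`. -/
theorem norm_form [Finite Γ] (hG : Gens S₀ k A B) (g : Γ) (hg : ∀ x ∈ C.Wr S₀, g * x * g⁻¹ ∈ C.Wr S₀) :
    ∃ s ∈ C.Wr S₀, ∃ v, (∀ x ∈ S₀, v * x * v⁻¹ ∈ S₀) ∧ g = s * C.i v v := by
  have hneg := C.neg_one_mem hG
  have hgN := Cfsg.Agent.Lib.Fusion.SimpleCriterion.mem_normalizer_of_conj_le hg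
  have hg' : ∀ x ∈ C.Wr S₀, g⁻¹ * x * g ∈ C.Wr S₀ := by
    intro x hx
    have := (Subgroup.mem_normalizer_iff.1 ((Subgroup.normalizer _).inv_mem hgN) x).1 hx
    simpa using this
  have htW : C.t ∈ C.Wr S₀ := C.i_mem_Wr hneg S₀.one_mem
  have hcent := C.eq_t_of_central hG (hg _ htW)
    (by
      intro h
      apply C.t_ne_one
      have : C.t = g⁻¹ * (g * C.t * g⁻¹) * g := by group
      rw [this, h]
      group)
    (by
      intro h
      apply C.t_ne_z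
      have e1 : C.t = g⁻¹ * (g * C.t * g⁻¹) * g := by group
      rw [e1, h]
      have := C.z_conj g⁻¹
      simpa using this)
    (by
      intro s hs
      rcases C.t_conj_Wr (hg' s hs) with h | h
      · left
        calc (g * C.t * g⁻¹) * s * (g * C.t * g⁻¹)⁻¹ = g * (C.t * (g⁻¹ * s * g) * C.t⁻¹) * g⁻¹ := by group
          _ = s := by rw [h]; group
      · right
        calc (g * C.t * g⁻¹) * s * (g * C.t * g⁻¹)⁻¹ = g * (C.t * (g⁻¹ * s * g) * C.t⁻¹) * g⁻¹ := by group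
          _ = g * (C.z * (g⁻¹ * s * g)) * g⁻¹ := by rw [h]
          _ = (g * C.z * g⁻¹) * s := by group
          _ = C.z * s := by rw [C.z_conj])
  obtain ⟨e, a, b, he, hee, hgeq⟩ : ∃ e a b, e ∈ C.Wr S₀ ∧ (∀ x ∈ C.Wr S₀, e * x * e⁻¹ ∈ C.Wr S₀) ∧ g = e * C.i a b := by
    rcases hcent with h | h
    · obtain ⟨a, b, hab⟩ := C.cent g (by
        have h3 : g * C.t = C.t * g := mul_inv_eq_iff_eq_mul.1 h
        exact h3)
      exact ⟨1, a, b, (C.Wr S₀).one_mem, by simp, by rw [one_mul]; exact hab⟩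
    · obtain ⟨a, b, hab⟩ := C.cent (C.σ * g) (by
        have h3 : g * C.t = C.i 1 (-1) * g := mul_inv_eq_iff_eq_mul.1 h
        have h4 : C.σ * C.i 1 (-1) = C.t * C.σ := by rw [C.σ_i]; rfl
        show C.σ * g * C.t = C.t * (C.σ * g)
        rw [mul_assoc, h3, ← mul_assoc, h4, mul_assoc])
      refine ⟨C.σ, a, b, C.σ_mem_Wr, ?_, ?_⟩
      · intro x hx
        exact (C.Wr S₀).mul_mem ((C.Wr S₀).mul_mem C.σ_mem_Wr hx) ((C.Wr S₀).inv_mem C.σ_mem_Wr)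
      · have : C.σ * (C.σ * g) = g := by rw [← mul_assoc, C.σσ, one_mul]
        rw [← this]
        congr 1
  -- `i a b` normalizes
  have hab : ∀ x ∈ C.Wr S₀, C.i a b * x * (C.i a b)⁻¹ ∈ C.Wr S₀ := by
    intro x hx
    have h1 := hg x hx
    have h2 := (C.Wr S₀).mul_mem ((C.Wr S₀).mul_mem ((C.Wr S₀).inv_mem he) h1) he
    have e1 : e⁻¹ * (g * x * g⁻¹) * e = C.i a b * x * (C.i a b)⁻¹ := by
      rw [hgeq]; group
    rwa [e1] at h2
  have hb : ∀ x ∈ S₀, b * x * b⁻¹ ∈ S₀ := by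
    intro x hx
    have h1 := hab _ (C.i_mem_Wr S₀.one_mem hx)
    rw [C.i_inv, C.i_mul, C.i_mul] at h1
    exact (C.of_i_mem_Wr h1).2
  have hab' : a * b⁻¹ ∈ S₀ := by
    have h1 := hab _ (C.σ_mem_Wr (Q := S₀))
    have e1 : C.i a b * C.σ * (C.i a b)⁻¹ = C.i (a * b⁻¹) (b * a⁻¹) * C.σ := by
      rw [C.i_inv, mul_assoc, C.σ_i, ← mul_assoc, C.i_mul]
    rw [e1] at h1
    exact (C.of_iσ_mem_Wr h1).1
  refine ⟨e * C.i (a * b⁻¹) 1, (C.Wr S₀).mul_mem he (C.i_mem_Wr hab' S₀.one_mem), b, hb, ?_⟩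
  rw [hgeq, mul_assoc, C.i_mul]
  simp

lemma Wr_isPGroup [Finite Γ] (hS : IsPGroup 2 S₀) : IsPGroup 2 (C.Wr S₀) := by
  obtain ⟨a, ha⟩ := IsPGroup.iff_card.1 hS
  rw [IsPGroup.iff_card]
  refine ⟨2 * a + 1, ?_⟩
  rw [C.card_Wr, ha]
  ring

lemma Wr_index [Finite Γ] (S : Sylow 2 SL(2, F)) : ¬ 2 ∣ (C.Wr (S : Subgroup SL(2, F))).index := by
  have hp : Fact (Nat.Prime 2) := ⟨Nat.prime_two⟩
  obtain ⟨m, hm, hcard⟩ := C.odd_card
  have h1 := (C.Wr (S : Subgroup SL(2, F))).card_mul_index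
  rw [C.card_Wr, hcard] at h1
  have h3 := (S : Subgroup SL(2, F)).card_mul_index
  have hodd : ¬ 2 ∣ (S : Subgroup SL(2, F)).index := S.not_dvd_index
  rw [← h3] at h1
  have hpos : 0 < Nat.card (S : Subgroup SL(2, F)) := Nat.card_pos
  have h4 : (C.Wr (S : Subgroup SL(2, F))).index = (S : Subgroup SL(2, F)).index ^ 2 * m := by
    have hpos2 : 0 < 2 * Nat.card (S : Subgroup SL(2, F)) ^ 2 := by positivity
    apply Nat.eq_of_mul_eq_mul_left hpos2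
    linear_combination h1
  rw [h4]
  intro hd
  rcases (Nat.Prime.dvd_mul Nat.prime_two).1 hd with h5 | h5
  · exact hodd (Nat.Prime.dvd_of_dvd_pow Nat.prime_two h5)
  · exact (Nat.not_even_iff_odd.2 hm) (even_iff_two_dvd.2 h5)

end Sylow

section Lift

variable [Fintype F] {S₀ : Subgroup SL(2, F)} {k : ℕ} {A B : SL(2, F)}
variable {G : Type*} [Group G] (π : Γ →* G) (hπ : Function.Surjective π)
  (hker : ∀ x, π x = 1 ↔ x = 1 ∨ x = C.z)

include hker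

lemma pi_z : π C.z = 1 := (hker _).2 (Or.inr rfl)

lemma pi_eq {x y : Γ} (h : π x = π y) : x = y ∨ x = C.z * y := by
  have h1 : π (x * y⁻¹) = 1 := by rw [map_mul, map_inv, h]; group
  rcases (hker _).1 h1 with h3 | h3
  · left
    exact mul_inv_eq_one.1 h3
  · right
    exact mul_inv_eq_iff_eq_mul.1 h3

lemma mem_of_pi {P : Subgroup Γ} (hz : C.z ∈ P) {x : Γ} (h : π x ∈ P.map π) : x ∈ P := by
  obtain ⟨p, hp, hpx⟩ := h
  rcases C.pi_eq π hker hpx with h1 | h1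
  · rwa [← h1]
  · have h3 : x = C.z * p := by
      have h4 : C.z * p = C.z * (C.z * x) := by rw [h1]
      rw [h4, ← mul_assoc, C.z_mul_z, one_mul]
    rw [h3]
    exact P.mul_mem hz hp

include hπ

/-- Strongly closed subgroups in the quotient. -/
theorem closed_map (hG : Gens S₀ k A B) (hS : IsPGroup 2 S₀) (T : Subgroup G)
    (hTS : T ≤ (C.Wr S₀).map π) (hne : T ≠ ⊥)
    (hcl : ∀ x ∈ T, ∀ g : G, g * x * g⁻¹ ∈ (C.Wr S₀).map π → g * x * g⁻¹ ∈ T) :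
    T = (C.Wr S₀).map π := by
  have hz : C.z ∈ C.Wr S₀ := C.z_mem_Wr (C.neg_one_mem hG)
  have h1 : T.comap π = C.Wr S₀ := by
    apply C.closed_Wr hG hS
    · intro x hx
      exact C.mem_of_pi π hker hz (hTS hx)
    · show π C.z ∈ T
      rw [C.pi_z π hker]
      exact T.one_mem
    · obtain ⟨⟨t, htT⟩, ht1⟩ := (Subgroup.ne_bot_iff_exists_ne_one.1 hne)
      obtain ⟨x, rfl⟩ := hπ t
      have hx1 : π x ≠ 1 := fun h => ht1 (Subtype.ext h)
      refine ⟨x, htT, ?_, ?_⟩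
      · rintro rfl
        exact hx1 (map_one π)
      · rintro rfl
        exact hx1 (C.pi_z π hker)
    · intro x hx g hg
      show π (g * x * g⁻¹) ∈ T
      rw [map_mul, map_mul, map_inv]
      apply hcl _ hx
      have : π (g * x * g⁻¹) ∈ (C.Wr S₀).map π := ⟨_, hg, rfl⟩
      rwa [map_mul, map_mul, map_inv] at this
  apply le_antisymm hTS
  rintro _ ⟨p, hp, rfl⟩
  rw [← h1] at hp
  exact hp

omit hπ hker in
omit [Fintype F] in
lemma conj_mem_of_sc {S T : Subgroup G} (hsc : (Cfsg.groupFusionSystem S).StronglyClosed T) :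
    ∀ t ∈ T, ∀ g : G, g * t * g⁻¹ ∈ S → g * t * g⁻¹ ∈ T := by
  intro t ht g hg
  have hzle : Subgroup.zpowers t ≤ T := by
    rintro _ ⟨i, rfl⟩
    exact T.zpow_mem ht i
  have hmem : Cfsg.conjHom (Subgroup.zpowers t) g ∈ (Cfsg.groupFusionSystem S).Hom (Subgroup.zpowers t) := by
    refine ⟨hzle.trans hsc.1, ?_, g, fun y => rfl⟩
    rintro ⟨_, i, rfl⟩
    show g * t ^ i * g⁻¹ ∈ S
    rw [← conj_zpow]
    exact S.zpow_mem hg i
  exact hsc.2 _ hzle _ hmem ⟨t, Subgroup.mem_zpowers t⟩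

/-- The normalizing elements lift. -/
lemma lift_norm (hz : C.z ∈ C.Wr S₀) (g : Γ)
    (hg : ∀ x ∈ (C.Wr S₀).map π, π g * x * (π g)⁻¹ ∈ (C.Wr S₀).map π) :
    ∀ x ∈ C.Wr S₀, g * x * g⁻¹ ∈ C.Wr S₀ := by
  intro x hx
  apply C.mem_of_pi π hker hz
  have := hg _ ⟨x, hx, rfl⟩
  rwa [map_mul, map_mul, map_inv]

lemma ne_bot_map : (C.Wr S₀).map π ≠ ⊥ := by
  intro hb
  have h1 : π C.σ ∈ (C.Wr S₀).map π := ⟨_, C.σ_mem_Wr, rfl⟩
  rw [hb, Subgroup.mem_bot, hker] at h1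
  rcases h1 with h1 | h1
  · apply C.σ_ne 1 1
    rw [C.i_one, h1]
  · exact C.σ_ne _ _ h1

/-- The case of Sylow subgroups of `SL(2, F)` of order at least `16`. -/
theorem isSimple_of_two_le [Finite Γ] [Finite G] (hodd : Odd (Fintype.card F)) (S₁ : Sylow 2 SL(2, F))
    (hG : Gens (S₁ : Subgroup SL(2, F)) k A B) (hk : 2 ≤ k) (S : Sylow 2 G)
    (hS : (S : Subgroup G) = (C.Wr (S₁ : Subgroup SL(2, F))).map π) :
    (Cfsg.groupFusionSystem (S : Subgroup G)).IsSimple 2 := by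
  have hp : Fact (Nat.Prime 2) := ⟨Nat.prime_two⟩
  have hz : C.z ∈ C.Wr (S₁ : Subgroup SL(2, F)) := C.z_mem_Wr (C.neg_one_mem hG)
  refine Cfsg.Agent.Lib.Fusion.SimpleCriterion.isSimple_groupFusionSystem S ?_ ?_ ?_
  · rw [hS]
    exact C.ne_bot_map π hπ hker
  · intro T hT hsc
    have hTS : T ≤ (S : Subgroup G) := hsc.1
    rw [hS] at hTS ⊢
    apply C.closed_map π hπ hker hG S₁.isPGroup' T hTS hT
    intro x hx g hg
    have := conj_mem_of_sc hsc x hx g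
    rw [hS] at this
    exact this hg
  · intro g hg
    obtain ⟨g', rfl⟩ := hπ g
    rw [hS] at hg ⊢
    have hg2 := C.lift_norm π hπ hker hz g' hg
    obtain ⟨s, hs, v, hv, rfl⟩ := C.norm_form hG g' hg2
    have hvN := Cfsg.Agent.Lib.Fusion.SimpleCriterion.mem_normalizer_of_conj_le hv
    rw [normalizer_eq_self hodd S₁ hG hk] at hvN
    exact ⟨_, ⟨_, (C.Wr _).mul_mem hs (C.i_mem_Wr hvN hvN), rfl⟩, fun x _ => rfl⟩

end Lift

end WrCfg

end Cfsg.Agent.Lib.Fusion.WrSL2
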