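import Mathlib
import Cfsg.Agent.Lib.Fusion.WrSL2

/-!
# Wreath configurations over a quaternion group of order `8`

The subgroup `At Q` of `Q ≀ C₂` (the preimage of the diagonal of `Q/±1 × Q/±1`, together with its coset
of `σ`) and its properties: elementary abelian modulo `z`, weakly closed in `Q ≀ C₂`; the elements `w` and `y`
acting on it.
-/

set_option autoImplicit false
set_option linter.unusedSectionVars false

namespace Cfsg.Agent.Lib.Fusion.WrSL2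

open Matrix
open scoped MatrixGroups
open Cfsg.Agent.Lib.PSL2.Basic Cfsg.Agent.Lib.PSL2.Torus Cfsg.Agent.Lib.PSL2.FourGroup
open Cfsg.Agent.Lib.PSL2.SylowGens

variable {F : Type*} [Field F] {Γ : Type*} [Group Γ]

namespace WrCfg

variable (C : WrCfg F Γ)

/-- The preimage of the diagonal, with its coset of `σ`. -/
def At (Q : Subgroup SL(2, F)) : Subgroup Γ where
  carrier := {g | ∃ x ∈ Q, ∃ y ∈ Q, mkP x = mkP y ∧ (g = C.i x y ∨ g = C.i x y * C.σ)}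
  one_mem' := ⟨1, Q.one_mem, 1, Q.one_mem, rfl, Or.inl C.i_one.symm⟩
  mul_mem' := by
    rintro a b ⟨x, hx, y, hy, hxy, rfl | rfl⟩ ⟨x', hx', y', hy', hxy', rfl | rfl⟩
    · refine ⟨_, Q.mul_mem hx hx', _, Q.mul_mem hy hy', ?_, Or.inl (C.i_mul _ _ _ _)⟩
      rw [map_mul, map_mul, hxy, hxy']
    · refine ⟨_, Q.mul_mem hx hx', _, Q.mul_mem hy hy', ?_, Or.inr ?_⟩
      · rw [map_mul, map_mul, hxy, hxy']
      · rw [← mul_assoc, C.i_mul]
    · refine ⟨_, Q.mul_mem hx hy', _, Q.mul_mem hy hx', ?_, Or.inr ?_⟩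
      · rw [map_mul, map_mul, hxy, hxy']
      · rw [mul_assoc, C.σ_i, ← mul_assoc, C.i_mul]
    · refine ⟨_, Q.mul_mem hx hy', _, Q.mul_mem hy hx', ?_, Or.inl ?_⟩
      · rw [map_mul, map_mul, hxy, hxy']
      · calc C.i x y * C.σ * (C.i x' y' * C.σ) = C.i x y * (C.σ * C.i x' y') * C.σ := by group
          _ = C.i x y * (C.i y' x' * C.σ) * C.σ := by rw [C.σ_i]
          _ = C.i x y * C.i y' x' * (C.σ * C.σ) := by group
          _ = _ := by rw [C.σσ, mul_one, C.i_mul]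
  inv_mem' := by
    rintro a ⟨x, hx, y, hy, hxy, rfl | rfl⟩
    · refine ⟨_, Q.inv_mem hx, _, Q.inv_mem hy, ?_, Or.inl (C.i_inv _ _)⟩
      rw [map_inv, map_inv, hxy]
    · refine ⟨_, Q.inv_mem hy, _, Q.inv_mem hx, ?_, Or.inr ?_⟩
      · rw [map_inv, map_inv, hxy]
      · rw [_root_.mul_inv_rev, C.i_inv, C.σ_inv, C.σ_i]

variable {Q : Subgroup SL(2, F)}

lemma i_mem_At {x y : SL(2, F)} (hx : x ∈ Q) (hy : y ∈ Q) (h : mkP x = mkP y) : C.i x y ∈ C.At Q :=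
  ⟨x, hx, y, hy, h, Or.inl rfl⟩

lemma iσ_mem_At {x y : SL(2, F)} (hx : x ∈ Q) (hy : y ∈ Q) (h : mkP x = mkP y) :
    C.i x y * C.σ ∈ C.At Q :=
  ⟨x, hx, y, hy, h, Or.inr rfl⟩

lemma σ_mem_At : C.σ ∈ C.At Q := by
  refine ⟨1, Q.one_mem, 1, Q.one_mem, rfl, Or.inr ?_⟩
  rw [C.i_one, one_mul]

lemma of_i_mem_At {x y : SL(2, F)} (h : C.i x y ∈ C.At Q) : x ∈ Q ∧ y ∈ Q ∧ mkP x = mkP y := by
  obtain ⟨x', hx', y', hy', hm, h1 | h1⟩ := h
  · obtain ⟨rfl, rfl⟩ := C.i_inj h1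
    exact ⟨hx', hy', hm⟩
  · exact absurd h1.symm (C.iσ_ne _ _ _ _)

lemma of_iσ_mem_At {x y : SL(2, F)} (h : C.i x y * C.σ ∈ C.At Q) : x ∈ Q ∧ y ∈ Q ∧ mkP x = mkP y := by
  obtain ⟨x', hx', y', hy', hm, h1 | h1⟩ := h
  · exact absurd h1 (C.iσ_ne _ _ _ _)
  · obtain ⟨rfl, rfl⟩ := C.i_inj (mul_right_cancel h1)
    exact ⟨hx', hy', hm⟩

lemma At_le_Wr : C.At Q ≤ C.Wr Q := by
  rintro g ⟨x, hx, y, hy, -, h⟩
  exact ⟨x, hx, y, hy, h⟩

lemma mkP_neg_one : mkP (-1 : SL(2, F)) = 1 := mkP_eq_one_iff.2 (Or.inr rfl)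

lemma mkP_neg (x : SL(2, F)) : mkP (-x) = mkP x := by
  symm
  exact mkP_eq_iff.2 (Or.inr rfl)

/-- Elements with square in the centre. -/
structure QOK (Q : Subgroup SL(2, F)) : Prop where
  sq : ∀ x ∈ Q, mkP x * mkP x = 1
  neg : (-1 : SL(2, F)) ∈ Q

lemma QOK.comm (h : QOK Q) {x y : SL(2, F)} (hx : x ∈ Q) (hy : y ∈ Q) :
    mkP x * mkP y = mkP y * mkP x := by
  have h1 := h.sq _ (Q.mul_mem hx hy)
  rw [map_mul] at h1
  have h3 : (mkP x * mkP y) * (mkP y * mkP x) = 1 := by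
    calc (mkP x * mkP y) * (mkP y * mkP x) = mkP x * (mkP y * mkP y) * mkP x := by group
      _ = 1 := by rw [h.sq y hy, mul_one, h.sq x hx]
  exact mul_left_cancel (h1.trans h3.symm)

lemma QOK.conj (h : QOK Q) {u x : SL(2, F)} (hu : u ∈ Q) (hx : x ∈ Q) : mkP (u * x * u⁻¹) = mkP x := by
  rw [map_mul, map_mul, map_inv, h.comm hu hx]
  group

lemma QOK.inv (h : QOK Q) {x : SL(2, F)} (hx : x ∈ Q) : (mkP x)⁻¹ = mkP x :=
  inv_eq_of_mul_eq_one_left (h.sq x hx)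

lemma QOK.swap (h : QOK Q) {u v x : SL(2, F)} (hu : u ∈ Q) (hv : v ∈ Q) (hx : x ∈ Q) :
    mkP (u * x * v⁻¹) = mkP (v * x * u⁻¹) := by
  simp only [map_mul, map_inv]
  rw [h.inv hu, h.inv hv]
  calc mkP u * mkP x * mkP v = mkP x * mkP u * mkP v := by rw [h.comm hu hx]
    _ = mkP x * (mkP u * mkP v) := by group
    _ = mkP x * (mkP v * mkP u) := by rw [h.comm hu hv]
    _ = mkP v * mkP x * mkP u := by rw [← mul_assoc, h.comm hx hv]

lemma At_σ_conj {a : Γ} (ha : a ∈ C.At Q) : C.σ * a * C.σ ∈ C.At Q := by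
  obtain ⟨x, hx, y, hy, hm, rfl | rfl⟩ := ha
  · rw [C.σ_conj]
    exact C.i_mem_At hy hx hm.symm
  · rw [mul_assoc, mul_assoc, C.σσ, mul_one, C.σ_i]
    exact C.iσ_mem_At hy hx hm.symm

/-- `Q ≀ C₂` normalizes `At Q`. -/
lemma At_normal (hQ : QOK Q) {s a : Γ} (hs : s ∈ C.Wr Q) (ha : a ∈ C.At Q) : s * a * s⁻¹ ∈ C.At Q := by
  have key : ∀ u ∈ Q, ∀ v ∈ Q, ∀ a ∈ C.At Q, C.i u v * a * (C.i u v)⁻¹ ∈ C.At Q := by
    intro u hu v hv a ha
    obtain ⟨x, hx, y, hy, hm, rfl | rfl⟩ := ha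
    · rw [C.i_inv, C.i_mul, C.i_mul]
      refine C.i_mem_At (Q.mul_mem (Q.mul_mem hu hx) (Q.inv_mem hu))
        (Q.mul_mem (Q.mul_mem hv hy) (Q.inv_mem hv)) ?_
      rw [hQ.conj hu hx, hQ.conj hv hy, hm]
    · have e : C.i u v * (C.i x y * C.σ) * (C.i u v)⁻¹ = C.i (u * x * v⁻¹) (v * y * u⁻¹) * C.σ := by
        rw [C.i_inv]
        calc C.i u v * (C.i x y * C.σ) * C.i u⁻¹ v⁻¹ = C.i u v * C.i x y * (C.σ * C.i u⁻¹ v⁻¹) := by group
          _ = C.i u v * C.i x y * (C.i v⁻¹ u⁻¹ * C.σ) := by rw [C.σ_i]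
          _ = _ := by
            rw [← mul_assoc, C.i_mul, C.i_mul]
      rw [e]
      refine C.iσ_mem_At (Q.mul_mem (Q.mul_mem hu hx) (Q.inv_mem hv))
        (Q.mul_mem (Q.mul_mem hv hy) (Q.inv_mem hu)) ?_
      rw [hQ.swap hu hv hx]
      simp only [map_mul, map_inv, hm]
  obtain ⟨u, hu, v, hv, rfl | rfl⟩ := hs
  · exact key u hu v hv a ha
  · have h1 := key u hu v hv _ (C.At_σ_conj ha)
    have e : C.i u v * C.σ * a * (C.i u v * C.σ)⁻¹ = C.i u v * (C.σ * a * C.σ) * (C.i u v)⁻¹ := by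
      rw [_root_.mul_inv_rev, C.σ_inv]
      group
    rwa [e]

section Pi

variable [Fintype F] {G : Type*} [Group G] (π : Γ →* G) (hker : ∀ x, π x = 1 ↔ x = 1 ∨ x = C.z)

omit [Fintype F] in
lemma comm_sq_closure {H : Type*} [Group H] (k : Set H) (hc : ∀ x ∈ k, ∀ y ∈ k, x * y = y * x)
    (hs : ∀ x ∈ k, x * x = 1) :
    (∀ g ∈ Subgroup.closure k, ∀ h ∈ Subgroup.closure k, g * h = h * g) ∧
      ∀ g ∈ Subgroup.closure k, g * g = 1 := by
  have h1 : ∀ g ∈ Subgroup.closure k, ∀ h ∈ Subgroup.closure k, g * h = h * g := by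
    intro g hg h hh
    letI := Subgroup.closureCommGroupOfComm hc
    have := mul_comm (⟨g, hg⟩ : Subgroup.closure k) ⟨h, hh⟩
    exact congrArg Subtype.val this
  refine ⟨h1, ?_⟩
  intro g hg
  induction hg using Subgroup.closure_induction with
  | mem x hx => exact hs x hx
  | one => simp
  | mul x y hx hy ihx ihy =>
    calc x * y * (x * y) = x * (y * x) * y := by group
      _ = x * (x * y) * y := by rw [h1 y hy x hx]
      _ = (x * x) * (y * y) := by group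
      _ = 1 := by rw [ihx, ihy, one_mul]
  | inv x hx ih =>
    rw [← _root_.mul_inv_rev, ih, inv_one]

include hker

lemma At_props (hQ : QOK Q) :
    (∀ a ∈ C.At Q, ∀ b ∈ C.At Q, π a * π b = π b * π a) ∧ ∀ a ∈ C.At Q, π a * π a = 1 := by
  have hpz : π C.z = 1 := C.pi_z π hker
  set X : Set G := {g | ∃ x ∈ Q, g = π (C.i x x)} ∪ {π (C.i 1 (-1)), π C.σ} with hX
  have hd1 : ∀ x ∈ Q, ∀ u ∈ Q, π (C.i x x) * π (C.i u u) = π (C.i u u) * π (C.i x x) := by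
    intro x hx u hu
    rw [← map_mul, ← map_mul, C.i_mul, C.i_mul]
    have hcm : mkP (x * u) = mkP (u * x) := by
      rw [map_mul, map_mul]
      exact hQ.comm hx hu
    rcases mkP_eq_iff.1 hcm with h | h
    · rw [h]
    · have h3 : C.i (x * u) (x * u) = C.z * C.i (u * x) (u * x) := by
        rw [C.z_i, h]
        simp
      rw [h3, map_mul, hpz, one_mul]
  have hd2 : ∀ x, C.i x x * C.i 1 (-1) = C.i 1 (-1) * C.i x x := by
    intro x
    rw [C.i_mul, C.i_mul]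
    simp
  have hd3 : ∀ x, C.i x x * C.σ = C.σ * C.i x x := by
    intro x
    rw [C.σ_i]
  have ht2 : π (C.i 1 (-1)) * π C.σ = π C.σ * π (C.i 1 (-1)) := by
    rw [← map_mul, ← map_mul, C.σ_i]
    have : C.i (-1) 1 = C.z * C.i 1 (-1) := by
      rw [C.z_i]
      simp
    rw [this, map_mul, map_mul, map_mul, hpz, one_mul]
  have hc : ∀ x ∈ X, ∀ y ∈ X, x * y = y * x := by
    rintro x (⟨a, ha, rfl⟩ | (rfl | rfl)) y (⟨b, hb, rfl⟩ | (rfl | rfl))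
    · exact hd1 a ha b hb
    · rw [← map_mul, ← map_mul, hd2]
    · rw [← map_mul, ← map_mul, hd3]
    · rw [← map_mul, ← map_mul, hd2]
    · rfl
    · exact ht2
    · rw [← map_mul, ← map_mul, hd3]
    · exact ht2.symm
    · rfl
  have hs : ∀ x ∈ X, x * x = 1 := by
    rintro x (⟨a, ha, rfl⟩ | (rfl | rfl))
    · rw [← map_mul, C.i_mul]
      have h1 := hQ.sq a ha
      rw [← map_mul] at h1
      rcases mkP_eq_one_iff.1 h1 with h | h
      · rw [h, C.i_one, map_one]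
      · rw [h]
        exact hpz
    · rw [← map_mul, C.i_mul]
      simp [C.i_one]
    · rw [← map_mul, C.σσ, map_one]
  obtain ⟨h1, h3⟩ := comm_sq_closure X hc hs
  have hmem : ∀ a ∈ C.At Q, π a ∈ Subgroup.closure X := by
    have hdm : ∀ x ∈ Q, π (C.i x x) ∈ Subgroup.closure X := fun x hx =>
      Subgroup.subset_closure (Or.inl ⟨x, hx, rfl⟩)
    have htm : π (C.i 1 (-1)) ∈ Subgroup.closure X :=
      Subgroup.subset_closure (Or.inr (Or.inl rfl))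
    have hσm : π C.σ ∈ Subgroup.closure X :=
      Subgroup.subset_closure (Or.inr (Or.inr rfl))
    have hi : ∀ x ∈ Q, ∀ y ∈ Q, mkP x = mkP y → π (C.i x y) ∈ Subgroup.closure X := by
      intro x hx y hy hm
      rcases mkP_eq_iff.1 hm with h | h
      · rw [h]
        exact hdm x hx
      · have e : C.i x (-x) = C.i x x * C.i 1 (-1) := by
          rw [C.i_mul]
          simp
        rw [h, e, map_mul]
        exact Subgroup.mul_mem _ (hdm x hx) htm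
    rintro a ⟨x, hx, y, hy, hm, rfl | rfl⟩
    · exact hi x hx y hy hm
    · rw [map_mul]
      exact Subgroup.mul_mem _ (hi x hx y hy hm) hσm
  exact ⟨fun a ha b hb => h1 _ (hmem a ha) _ (hmem b hb), fun a ha => h3 _ (hmem a ha)⟩

omit hker in
/-- Index two in the coset situation. -/
lemma card_eq_two_mul_inf {H : Type*} [Group H] [Finite H] (K R : Subgroup H) {τ : H} (hτ : τ ∈ K)
    (hτR : τ ∉ R) (h : ∀ x ∈ K, x ∉ R → x * τ ∈ R) : Nat.card K = 2 * Nat.card (K ⊓ R : Subgroup H) := by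
  have hidx : ((K ⊓ R).subgroupOf K).index = 2 := by
    rw [Subgroup.index_eq_two_iff]
    refine ⟨⟨τ, hτ⟩, ?_⟩
    rintro ⟨b, hb⟩
    simp only [Subgroup.mem_subgroupOf, Subgroup.coe_mul, Subgroup.mem_inf]
    by_cases hbR : b ∈ R
    · right
      refine ⟨⟨hb, hbR⟩, fun h1 => hτR ?_⟩
      have := R.mul_mem (R.inv_mem hbR) h1.2
      simpa using this
    · left
      exact ⟨⟨K.mul_mem hb hτ, h b hb hbR⟩, fun h1 => hbR h1.2⟩
  have h1 := ((K ⊓ R).subgroupOf K).card_mul_index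
  rw [hidx, Nat.card_congr (Subgroup.subgroupOfEquivOfLe (inf_le_left : K ⊓ R ≤ K)).toEquiv] at h1
  rw [← h1]
  ring

end Pi

section Weak

variable [Fintype F] {k : ℕ} {A B : SL(2, F)} {G : Type*} [Group G] (π : Γ →* G)
  (hker : ∀ x, π x = 1 ↔ x = 1 ∨ x = C.z)

include hker

/-- Weak closure of `At Q` in `Q ≀ C₂`. -/
theorem At_weak [Finite Γ] (hQ : QOK Q) (hG : Gens Q k A B) (hAB : A * B = -(B * A)) (g : Γ)
    (hg : ∀ a ∈ C.At Q, g * a * g⁻¹ ∈ C.Wr Q) : ∀ a ∈ C.At Q, g * a * g⁻¹ ∈ C.At Q := by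
  have hpz : π C.z = 1 := C.pi_z π hker
  obtain ⟨hcomm, hsq⟩ := C.At_props π hker hQ
  have hneg := hQ.neg
  set R : Subgroup Γ := C.ι.range with hR
  have hmemR : ∀ {x y : SL(2, F)}, C.i x y ∈ R := fun {x y} => ⟨(x, y), rfl⟩
  have hnotR : ∀ {x y : SL(2, F)}, C.i x y * C.σ ∉ R := by
    rintro x y ⟨⟨p, q⟩, h⟩
    exact C.iσ_ne x y p q h.symm
  set Bt : Subgroup Γ := (C.At Q).map (MulAut.conj g).toMonoidHom with hBt
  have hBtmem : ∀ a ∈ C.At Q, g * a * g⁻¹ ∈ Bt := fun a ha => ⟨a, ha, rfl⟩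
  have hBtW : Bt ≤ C.Wr Q := by
    rintro _ ⟨a, ha, rfl⟩
    exact hg a ha
  -- Step 1: an element outside `R`
  obtain ⟨a₀, ha₀, p₀, hp₀, q₀, hq₀, hτ⟩ : ∃ a₀ ∈ C.At Q, ∃ p₀ ∈ Q, ∃ q₀ ∈ Q, g * a₀ * g⁻¹ = C.i p₀ q₀ * C.σ := by
    by_contra hc
    push Not at hc
    have hall : ∀ a ∈ C.At Q, a * a = 1 → a ≠ 1 → a ≠ C.z → g * a * g⁻¹ = C.t ∨ g * a * g⁻¹ = C.i 1 (-1) := by
      intro a ha haa ha1 haz
      obtain ⟨x, hx, y, hy, h | h⟩ := hg a ha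
      · have hc1 : (g * a * g⁻¹) * (g * a * g⁻¹) = 1 := by
          calc (g * a * g⁻¹) * (g * a * g⁻¹) = g * (a * a) * g⁻¹ := by group
            _ = 1 := by rw [haa]; group
        rw [h, C.i_mul, ← C.i_one] at hc1
        obtain ⟨h3, h4⟩ := C.i_inj hc1
        have hne1 : g * a * g⁻¹ ≠ 1 := by
          intro h5
          apply ha1
          have : a = g⁻¹ * (g * a * g⁻¹) * g := by group
          rw [this, h5]
          group
        have hnez : g * a * g⁻¹ ≠ C.z := by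
          intro h5
          apply haz
          have e1 : a = g⁻¹ * (g * a * g⁻¹) * g := by group
          rw [e1, h5]
          have := C.z_conj g⁻¹
          simpa using this
        rw [h] at hne1 hnez ⊢
        rcases (mul_self_eq_one_iff C.h2 x).1 h3 with rfl | rfl <;>
          rcases (mul_self_eq_one_iff C.h2 y).1 h4 with rfl | rfl
        · exact absurd C.i_one hne1
        · exact Or.inr rfl
        · exact Or.inl rfl
        · exact absurd rfl hnez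
      · exact absurd h (hc a ha x hx y hy)
    have ht : C.t ∈ C.At Q := C.i_mem_At hneg Q.one_mem mkP_neg_one
    have ht2 : C.i 1 (-1) ∈ C.At Q := C.i_mem_At Q.one_mem hneg mkP_neg_one.symm
    have hσ : C.σ ∈ C.At Q := C.σ_mem_At
    have h1 := hall _ ht C.t_mul_t C.t_ne_one C.t_ne_z
    have ht2t2 : C.i 1 (-1) * C.i 1 (-1) = 1 := by
      rw [C.i_mul]
      simp [C.i_one]
    have ht21 : C.i 1 (-1) ≠ 1 := by
      intro h
      rw [← C.i_one] at h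
      exact C.neg_one_ne (C.i_inj h).2
    have ht2z : C.i 1 (-1) ≠ C.z := by
      intro h
      exact C.neg_one_ne (C.i_inj h).1.symm
    have h3 := hall _ ht2 ht2t2 ht21 ht2z
    have h4 := hall _ hσ C.σσ (by
      intro h
      apply C.σ_ne 1 1
      rw [C.i_one, h]) (fun h => C.σ_ne _ _ h)
    have hinj : ∀ a b : Γ, g * a * g⁻¹ = g * b * g⁻¹ → a = b := fun a b h =>
      mul_left_cancel (mul_right_cancel h)
    have htt2 : C.t ≠ C.i 1 (-1) := by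
      intro h
      exact C.neg_one_ne (C.i_inj h).1
    have hσt : C.σ ≠ C.t := C.σ_ne _ _
    have hσt2 : C.σ ≠ C.i 1 (-1) := C.σ_ne _ _
    rcases h1 with h1 | h1 <;> rcases h3 with h3 | h3 <;> rcases h4 with h4 | h4
    · exact htt2 (hinj _ _ (h1.trans h3.symm))
    · exact htt2 (hinj _ _ (h1.trans h3.symm))
    · exact hσt (hinj _ _ (h4.trans h1.symm))
    · exact hσt2 (hinj _ _ (h4.trans h3.symm))
    · exact hσt2 (hinj _ _ (h4.trans h3.symm))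
    · exact hσt (hinj _ _ (h4.trans h1.symm))
    · exact htt2 (hinj _ _ (h1.trans h3.symm))
    · exact htt2 (hinj _ _ (h1.trans h3.symm))
  set τ : Γ := C.i p₀ q₀ * C.σ with hτdef
  have hτBt : τ ∈ Bt := by
    rw [← hτ]
    exact hBtmem a₀ ha₀
  -- Step 2: conjugation relation
  have hrel : ∀ a ∈ C.At Q, ∀ x y, g * a * g⁻¹ = C.i x y →
      ∃ e : SL(2, F), (e = 1 ∨ e = -1) ∧ p₀ * y * p₀⁻¹ = e * x ∧ q₀ * x * q₀⁻¹ = e * y := by
    intro a ha x y hxy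
    have h1 := hcomm _ ha₀ _ ha
    have h3 : π (g * a₀ * g⁻¹) * π (g * a * g⁻¹) = π (g * a * g⁻¹) * π (g * a₀ * g⁻¹) := by
      simp only [map_mul, map_inv]
      calc π g * π a₀ * (π g)⁻¹ * (π g * π a * (π g)⁻¹) = π g * (π a₀ * π a) * (π g)⁻¹ := by group
        _ = π g * (π a * π a₀) * (π g)⁻¹ := by rw [h1]
        _ = _ := by group
    rw [hτ, hxy] at h3
    have h4 : π (τ * C.i x y * τ⁻¹) = π (C.i x y) := by
      rw [map_mul, map_mul, map_inv, h3]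
      group
    have e1 : τ * C.i x y * τ⁻¹ = C.i (p₀ * y * p₀⁻¹) (q₀ * x * q₀⁻¹) := by
      rw [hτdef, _root_.mul_inv_rev, C.σ_inv, C.i_inv]
      calc C.i p₀ q₀ * C.σ * C.i x y * (C.σ * C.i p₀⁻¹ q₀⁻¹) = C.i p₀ q₀ * (C.σ * C.i x y * C.σ) * C.i p₀⁻¹ q₀⁻¹ := by group
        _ = _ := by rw [C.σ_conj, C.i_mul, C.i_mul]
    rw [e1] at h4
    rcases C.pi_eq π hker h4 with h5 | h5
    · obtain ⟨h6, h7⟩ := C.i_inj h5
      exact ⟨1, Or.inl rfl, by rw [h6, one_mul], by rw [h7, one_mul]⟩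
    · rw [C.z_i] at h5
      obtain ⟨h6, h7⟩ := C.i_inj h5
      exact ⟨-1, Or.inr rfl, by rw [h6]; simp, by rw [h7]; simp⟩
  have hp₀conj : ∀ y ∈ Q, mkP (p₀ * y * p₀⁻¹) = mkP y := fun y hy => hQ.conj hp₀ hy
  -- elements of `B₀` lie in `At₀`
  have hB₀ : ∀ a ∈ C.At Q, ∀ x y, g * a * g⁻¹ = C.i x y → C.i x y ∈ C.At Q := by
    intro a ha x y hxy
    have hW : C.i x y ∈ C.Wr Q := by
      rw [← hxy]
      exact hg a ha
    obtain ⟨hx, hy⟩ := C.of_i_mem_Wr hW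
    obtain ⟨e, he, h1, -⟩ := hrel a ha x y hxy
    refine C.i_mem_At hx hy ?_
    have h3 := hp₀conj y hy
    rw [h1] at h3
    rcases he with rfl | rfl
    · rwa [one_mul] at h3
    · rw [neg_mul, one_mul, mkP_neg] at h3
      exact h3
  -- Step 3: counting
  have hcard1 : Nat.card (C.At Q) = 2 * Nat.card (C.At Q ⊓ R : Subgroup Γ) := by
    refine card_eq_two_mul_inf _ _ C.σ_mem_At (τ := C.σ) ?_ ?_
    · have := hnotR (x := 1) (y := 1)
      rwa [C.i_one, one_mul] at this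
    · rintro x ⟨p, hp, q, hq, hm, h | h⟩ hxR
      · exact absurd (h ▸ hmemR) hxR
      · rw [h, mul_assoc, C.σσ, mul_one]
        exact hmemR
  have hcard2 : Nat.card Bt = 2 * Nat.card (Bt ⊓ R : Subgroup Γ) := by
    refine card_eq_two_mul_inf _ _ hτBt hnotR ?_
    intro x hx hxR
    obtain ⟨p, hp, q, hq, h | h⟩ := hBtW hx
    · exact absurd (h ▸ hmemR) hxR
    · rw [h, hτdef]
      have e : C.i p q * C.σ * (C.i p₀ q₀ * C.σ) = C.i p q * (C.σ * C.i p₀ q₀ * C.σ) := by group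
      rw [e, C.σ_conj, C.i_mul]
      exact hmemR
  have hcard3 : Nat.card Bt = Nat.card (C.At Q) :=
    Nat.card_congr ((C.At Q).equivMapOfInjective _ (MulAut.conj g).injective).symm.toEquiv
  have hle : Bt ⊓ R ≤ C.At Q ⊓ R := by
    rintro x ⟨⟨a, ha, rfl⟩, ⟨⟨p, q⟩, hpq⟩⟩
    refine ⟨?_, ⟨(p, q), hpq⟩⟩
    have h1 : g * a * g⁻¹ = C.i p q := hpq.symm
    show g * a * g⁻¹ ∈ C.At Q
    rw [h1]
    exact hB₀ a ha p q h1
  have heq : Bt ⊓ R = C.At Q ⊓ R := by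
    apply Subgroup.eq_of_le_of_card_ge hle
    omega
  have hAt₀ : ∀ x ∈ Q, ∃ a ∈ C.At Q, g * a * g⁻¹ = C.i x x := by
    intro x hx
    have h1 : C.i x x ∈ C.At Q ⊓ R := ⟨C.i_mem_At hx hx rfl, hmemR⟩
    rw [← heq] at h1
    obtain ⟨a, ha, hax⟩ := h1.1
    exact ⟨a, ha, hax⟩
  -- Step 4: `τ ∈ At`
  have hτAt : τ ∈ C.At Q := by
    have hcm : ∀ x ∈ Q, (p₀⁻¹ * q₀) * x = x * (p₀⁻¹ * q₀) := by
      intro x hx
      obtain ⟨a, ha, hax⟩ := hAt₀ x hx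
      obtain ⟨e, he, h1, h3⟩ := hrel a ha x x hax
      have h4 : q₀ * x * q₀⁻¹ = p₀ * x * p₀⁻¹ := by rw [h1, h3]
      have h5 : (p₀⁻¹ * q₀) * x * (p₀⁻¹ * q₀)⁻¹ = x := by
        calc (p₀⁻¹ * q₀) * x * (p₀⁻¹ * q₀)⁻¹ = p₀⁻¹ * (q₀ * x * q₀⁻¹) * p₀ := by group
          _ = p₀⁻¹ * (p₀ * x * p₀⁻¹) * p₀ := by rw [h4]
          _ = x := by group
      exact mul_inv_eq_iff_eq_mul.1 h5
    have hz := C.eq_of_comm hG (Q.mul_mem (Q.inv_mem hp₀) hq₀) (hcm A hG.memA) (hcm B hG.memB)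
    refine C.iσ_mem_At hp₀ hq₀ ?_
    rcases hz with h | h
    · have h1 : q₀ = p₀ := by
        have := congrArg (fun u => p₀ * u) h
        simpa using this
      rw [h1]
    · have h1 : q₀ = -p₀ := by
        have := congrArg (fun u => p₀ * u) h
        simpa using this
      rw [h1, mkP_neg]
  -- Step 5
  intro a ha
  obtain ⟨p, hp, q, hq, h | h⟩ := hg a ha
  · rw [h]
    exact hB₀ a ha p q h
  · have h1 : g * a * g⁻¹ * τ ∈ Bt ⊓ R := by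
      refine ⟨Bt.mul_mem (hBtmem a ha) hτBt, ?_⟩
      rw [h, hτdef]
      have e : C.i p q * C.σ * (C.i p₀ q₀ * C.σ) = C.i p q * (C.σ * C.i p₀ q₀ * C.σ) := by group
      rw [e, C.σ_conj, C.i_mul]
      exact hmemR
    rw [heq] at h1
    have h3 := (C.At Q).mul_mem h1.1 ((C.At Q).inv_mem hτAt)
    simpa using h3

end Weak

section Q8

variable [Fintype F] {A B : SL(2, F)}

include C in
lemma qok (hG : Gens Q 1 A B) : QOK Q := by
  refine ⟨?_, C.neg_one_mem hG⟩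
  intro x hx
  have hA2 : A ^ 2 = -1 := hG.pow
  rcases hG.cases x hx with ⟨i, rfl⟩ | ⟨i, rfl⟩
  · rw [← map_mul, ← pow_add, ← two_mul, pow_mul, hA2, map_pow, mkP_neg_one, one_pow]
  · rw [← map_mul, hG.mul_self_of_B i, mkP_neg_one]

include C in
/-- An element of order three normalizing the quaternion group. -/
lemma exists_w₁ (hq : IsQ A B) : ∃ w₁ : SL(2, F), w₁ * A = B * w₁ ∧ w₁ * B = (A * B) * w₁ ∧ w₁ ^ 3 = 1 := by
  open Cfsg.Agent.Lib.PSL2.Icosian in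
  have h2 := C.h2
  have he : (2 : F) * 2⁻¹ = 1 := mul_inv_cancel₀ h2
  generalize (2 : F)⁻¹ = e at he
  have hc := nrm_c he
  have hi : Phi hq (Q 0 1 0 0) = A.1 := by rw [Phi_val]; simp
  have hj : Phi hq (Q 0 0 1 0) = B.1 := by rw [Phi_val]; simp
  have hk : Phi hq (Q 0 0 0 1) = (A * B).1 := by rw [Phi_val]; simp
  refine ⟨toSL h2 hq _ hc, ?_, ?_, ?_⟩
  · apply Subtype.ext
    show Phi hq (Q (-e) (-e) (-e) (-e)) * A.1 = B.1 * Phi hq (Q (-e) (-e) (-e) (-e))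
    rw [← hi, ← hj, ← Phi_mul, ← Phi_mul, Q_mul, Q_mul]
    congr 1
    apply Q_ext <;> ring
  · apply Subtype.ext
    show Phi hq (Q (-e) (-e) (-e) (-e)) * B.1 = (A * B).1 * Phi hq (Q (-e) (-e) (-e) (-e))
    rw [← hj, ← hk, ← Phi_mul, ← Phi_mul, Q_mul, Q_mul]
    congr 1
    apply Q_ext <;> ring
  · apply Subtype.ext
    show (toSL h2 hq _ hc ^ 3).1 = (1 : SL(2, F)).1
    rw [pow_three]
    show Phi hq (Q (-e) (-e) (-e) (-e)) * (Phi hq (Q (-e) (-e) (-e) (-e)) * Phi hq (Q (-e) (-e) (-e) (-e))) = 1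
    rw [← Phi_mul, ← Phi_mul, Q_mul, Q_mul, ← Phi_one hq, Q_one]
    congr 1
    apply Q_ext
    · linear_combination (4 * e ^ 2 + 2 * e + 1) * he
    · ring
    · ring
    · ring

lemma cj_pow (G : GL (Fin 2) F) (x : SL(2, F)) (n : ℕ) : cj G (x ^ n) = (cj G x) ^ n := by
  induction n with
  | zero => simp [cj_one]
  | succ n ih => rw [pow_succ, cj_mul, ih, pow_succ]

include C in
/-- The form of the normalizer of a quaternion Sylow subgroup. -/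
theorem norm_cosets (S₁ : Sylow 2 SL(2, F)) (hG : Gens (S₁ : Subgroup SL(2, F)) 1 A B) {w₁ : SL(2, F)}
    (hw1 : w₁ * A = B * w₁) (hw2 : w₁ * B = (A * B) * w₁) (hw3 : w₁ ^ 3 = 1) (hwQ : ∀ x ∈ (S₁ : Subgroup SL(2, F)), w₁ * x * w₁⁻¹ ∈ (S₁ : Subgroup SL(2, F)))
    {v : SL(2, F)} (hv : ∀ x ∈ (S₁ : Subgroup SL(2, F)), v * x * v⁻¹ ∈ (S₁ : Subgroup SL(2, F))) :
    ∃ q ∈ (S₁ : Subgroup SL(2, F)), ∃ j : ℕ, v = q * w₁ ^ j := by
  classical
  have hp : Fact (Nat.Prime 2) := ⟨Nat.prime_two⟩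
  have hp3 : Fact (Nat.Prime 3) := ⟨Nat.prime_three⟩
  set Q₁ : Subgroup SL(2, F) := (S₁ : Subgroup SL(2, F)) with hQ₁
  set N : Subgroup SL(2, F) := Subgroup.normalizer (Q₁ : Set SL(2, F)) with hN
  have hQN : Q₁ ≤ N := Subgroup.le_normalizer
  have hwN : w₁ ∈ N := Cfsg.Agent.Lib.Fusion.SimpleCriterion.mem_normalizer_of_conj_le hwQ
  have hvN : v ∈ N := Cfsg.Agent.Lib.Fusion.SimpleCriterion.mem_normalizer_of_conj_le hv
  set Q' : Subgroup N := Q₁.subgroupOf N with hQ'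
  haveI hnormal : Q'.Normal := Subgroup.normal_in_normalizer
  have hcardQ : Nat.card Q₁ = 8 := by
    rw [hG.card]; norm_num
  have hcardQ' : Nat.card Q' = 8 := by
    rw [← hcardQ]
    exact Nat.card_congr (Subgroup.subgroupOfEquivOfLe hQN).toEquiv
  have h1 := Q'.card_mul_index
  rw [hcardQ'] at h1
  have hle := hG.card_normalizer_le C.h2
  have hm6 : Q'.index ≤ 6 := by
    have : Nat.card N ≤ 48 := hle
    omega
  have hodd : ¬ 2 ∣ Q'.index := by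
    intro h3
    apply S₁.not_dvd_index
    have h4 := Subgroup.relIndex_mul_index hQN
    rw [← h4]
    exact Dvd.dvd.mul_right h3 _
  set W : N ⧸ Q' := ((⟨w₁, hwN⟩ : N) : N ⧸ Q') with hW
  have hW3 : W ^ 3 = 1 := by
    rw [hW, ← QuotientGroup.mk_pow]
    have : (⟨w₁, hwN⟩ : N) ^ 3 = 1 := Subtype.ext (by simpa using hw3)
    rw [this]
    rfl
  have hwnQ : w₁ ∉ Q₁ := by
    intro h3
    obtain ⟨n, hn⟩ := S₁.isPGroup' ⟨w₁, h3⟩
    have hn' : w₁ ^ 2 ^ n = 1 := by simpa using congrArg Subtype.val hn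
    have h4 : orderOf w₁ ∣ 3 := orderOf_dvd_of_pow_eq_one hw3
    have h5 : orderOf w₁ ∣ 2 ^ n := orderOf_dvd_of_pow_eq_one hn'
    have hc : Nat.Coprime 3 (2 ^ n) := Nat.Coprime.pow_right n (by norm_num)
    have h6 : w₁ = 1 := orderOf_eq_one_iff.1 (Nat.eq_one_of_dvd_coprimes hc h4 h5)
    rw [h6, one_mul, mul_one] at hw1
    have hq := hG.isQ_one
    have h7 := hq.anti
    rw [← hw1, hq.aa] at h7
    have h8 : (-1 : SL(2, F)) = 1 := by
      have := h7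
      simpa using this
    exact C.neg_one_ne h8
  have hW1 : W ≠ 1 := by
    intro h3
    rw [hW, QuotientGroup.eq_one_iff] at h3
    exact hwnQ h3
  have hordW : orderOf W = 3 := orderOf_eq_prime hW3 hW1
  have hcardq : Nat.card (N ⧸ Q') = Q'.index := rfl
  have h3dvd : 3 ∣ Q'.index := by
    rw [← hordW, ← hcardq]
    exact orderOf_dvd_natCard W
  have hm3 : Q'.index = 3 := by
    obtain ⟨c, hc⟩ := h3dvd
    have : c = 1 := by
      have hc1 : c ≤ 2 := by omega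
      interval_cases c
      · simp at hc
        rw [hc] at hodd
        simp at hodd
      · rfl
      · rw [hc] at hodd
        simp at hodd
    rw [hc, this]
  have htop : Subgroup.zpowers W = ⊤ := by
    apply Subgroup.eq_top_of_card_eq
    rw [Nat.card_zpowers, hordW, hcardq, hm3]
  have hmem : ((⟨v⁻¹, N.inv_mem hvN⟩ : N) : N ⧸ Q') ∈ Subgroup.zpowers W := by
    rw [htop]
    exact Subgroup.mem_top _
  obtain ⟨n, hn⟩ := mem_powers_iff_mem_zpowers.2 hmem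
  have hn' : (((⟨w₁, hwN⟩ : N) ^ n : N) : N ⧸ Q') = ((⟨v⁻¹, N.inv_mem hvN⟩ : N) : N ⧸ Q') := by
    rw [QuotientGroup.mk_pow]
    exact hn
  rw [QuotientGroup.eq] at hn'
  have hq₀ : (w₁ ^ n)⁻¹ * v⁻¹ ∈ Q₁ := by
    have := hn'
    rw [hQ', Subgroup.mem_subgroupOf] at this
    simpa using this
  refine ⟨((w₁ ^ n)⁻¹ * v⁻¹)⁻¹, Q₁.inv_mem hq₀, 2 * n, ?_⟩
  have e : w₁ ^ (2 * n) = (w₁ ^ n)⁻¹ := by
    apply eq_inv_of_mul_eq_one_left
    rw [← pow_add]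
    have : 2 * n + n = 3 * n := by ring
    rw [this, pow_mul, hw3, one_pow]
  rw [e]
  group

section Act

variable (hG : Gens Q 1 A B) (hq : IsQ A B) {w₁ : SL(2, F)}
  (hw1 : w₁ * A = B * w₁) (hw2 : w₁ * B = (A * B) * w₁) (hw3 : w₁ ^ 3 = 1)

include hG hq hw1 hw2 in
lemma w₁_conj {x : SL(2, F)} (hx : x ∈ Q) : w₁ * x * w₁⁻¹ ∈ Q := by
  have e1 : w₁ * A * w₁⁻¹ = B := by rw [hw1]; group
  have e2 : w₁ * B * w₁⁻¹ = A * B := by rw [hw2]; group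
  rcases hG.cases x hx with ⟨i, rfl⟩ | ⟨i, rfl⟩
  · rw [← conj_pow, e1]
    exact Q.pow_mem hG.memB i
  · have e3 : w₁ * (B * A ^ i) * w₁⁻¹ = (w₁ * B * w₁⁻¹) * (w₁ * A * w₁⁻¹) ^ i := by
      rw [conj_pow]
      group
    rw [e3, e1, e2]
    exact Q.mul_mem (Q.mul_mem hG.memA hG.memB) (Q.pow_mem hG.memB i)

/-- The conjugation by `1 + A`. -/
noncomputable def cu (C : WrCfg F Γ) (hq : IsQ A B) (x : SL(2, F)) : SL(2, F) := cj (onePlus C.h2 A hq.tra) x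

lemma cu_mul (x y : SL(2, F)) : C.cu hq (x * y) = C.cu hq x * C.cu hq y := cj_mul _ _ _
lemma cu_pow (x : SL(2, F)) (n : ℕ) : C.cu hq (x ^ n) = C.cu hq x ^ n := cj_pow _ _ _
lemma cu_neg (x : SL(2, F)) : C.cu hq (-x) = - C.cu hq x := cj_neg _ _

lemma cu_A : C.cu hq A = A := cj_onePlus_left C.h2 hq
lemma cu_B : C.cu hq B = A * B := cj_onePlus_right C.h2 hq

include hG in
lemma cu_mem {x : SL(2, F)} (hx : x ∈ Q) : C.cu hq x ∈ Q := by
  rcases hG.cases x hx with ⟨i, rfl⟩ | ⟨i, rfl⟩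
  · rw [C.cu_pow hq, C.cu_A hq]
    exact Q.pow_mem hG.memA i
  · rw [C.cu_mul hq, C.cu_pow hq, C.cu_A hq, C.cu_B hq]
    exact Q.mul_mem (Q.mul_mem hG.memA hG.memB) (Q.pow_mem hG.memA i)

/-- The element `y`. -/
noncomputable abbrev y₀ (C : WrCfg F Γ) (hq : IsQ A B) : Γ := C.yy A hq.tra

lemma mkP_cu_eq (x : SL(2, F)) : mkP (C.cu hq (-x)) = mkP (C.cu hq x) := by
  rw [C.cu_neg hq, mkP_neg]

lemma y_conj_d (x : SL(2, F)) : C.y₀ hq * C.i x x * (C.y₀ hq)⁻¹ = C.i (C.cu hq x) (C.cu hq x) :=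
  mul_inv_eq_iff_eq_mul.2 (C.hy1 A hq.tra x)

lemma y_conj_t2 : C.y₀ hq * C.i 1 (-1) * (C.y₀ hq)⁻¹ = C.σ :=
  mul_inv_eq_iff_eq_mul.2 (C.hy2 A hq.tra)

lemma y_conj_σ : C.y₀ hq * C.σ * (C.y₀ hq)⁻¹ = C.i 1 (-1) :=
  mul_inv_eq_iff_eq_mul.2 (C.hy3 A hq.tra)

/-- The elements of `At Q` in terms of `d x`, `t2`, `σ`. -/
lemma At_form {a : Γ} (ha : a ∈ C.At Q) : ∃ x ∈ Q,
    a = C.i x x ∨ a = C.i x x * C.i 1 (-1) ∨ a = C.i x x * C.σ ∨ a = C.i x x * C.i 1 (-1) * C.σ := by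
  have e : ∀ x : SL(2, F), C.i x (-x) = C.i x x * C.i 1 (-1) := by
    intro x
    rw [C.i_mul]
    simp
  obtain ⟨x, hx, y, hy, hm, rfl | rfl⟩ := ha
  · refine ⟨x, hx, ?_⟩
    rcases mkP_eq_iff.1 hm with h | h
    · left; rw [h]
    · right; left; rw [h, e]
  · refine ⟨x, hx, ?_⟩
    rcases mkP_eq_iff.1 hm with h | h
    · right; right; left; rw [h]
    · right; right; right; rw [h, e]

include hG in
lemma y_At {a : Γ} (ha : a ∈ C.At Q) : C.y₀ hq * a * (C.y₀ hq)⁻¹ ∈ C.At Q := by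
  have hmul : ∀ a b : Γ, C.y₀ hq * (a * b) * (C.y₀ hq)⁻¹ =
      (C.y₀ hq * a * (C.y₀ hq)⁻¹) * (C.y₀ hq * b * (C.y₀ hq)⁻¹) := fun a b => by group
  obtain ⟨x, hx, h | h | h | h⟩ := C.At_form ha
  · rw [h, y_conj_d]
    exact C.i_mem_At (C.cu_mem hG hq hx) (C.cu_mem hG hq hx) rfl
  · rw [h, hmul, y_conj_d, y_conj_t2]
    exact C.iσ_mem_At (C.cu_mem hG hq hx) (C.cu_mem hG hq hx) rfl
  · rw [h, hmul, y_conj_d, y_conj_σ, C.i_mul]
    simp only [mul_one]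
    refine C.i_mem_At (C.cu_mem hG hq hx) ?_ ?_
    · have h1 := Q.mul_mem (C.cu_mem hG hq hx) (C.neg_one_mem hG)
      simpa using h1
    · rw [mul_neg, mul_one, mkP_neg]
  · rw [h, hmul, hmul, y_conj_d, y_conj_t2, y_conj_σ]
    have e1 : C.i (C.cu hq x) (C.cu hq x) * C.σ * C.i 1 (-1) = C.i (-(C.cu hq x)) (C.cu hq x) * C.σ := by
      rw [mul_assoc, C.σ_i, ← mul_assoc, C.i_mul]
      simp
    rw [e1]
    refine C.iσ_mem_At ?_ (C.cu_mem hG hq hx) (mkP_neg _)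
    have h1 := Q.mul_mem (C.neg_one_mem hG) (C.cu_mem hG hq hx)
    simpa using h1

include hG hq hw1 hw2 in
lemma w_At {a : Γ} (ha : a ∈ C.At Q) : C.i w₁ w₁ * a * (C.i w₁ w₁)⁻¹ ∈ C.At Q := by
  have key : ∀ x ∈ Q, ∀ y ∈ Q, mkP x = mkP y → C.i w₁ w₁ * C.i x y * (C.i w₁ w₁)⁻¹ ∈ C.At Q := by
    intro x hx y hy hm
    rw [C.i_inv, C.i_mul, C.i_mul]
    refine C.i_mem_At (w₁_conj hG hq hw1 hw2 hx) (w₁_conj hG hq hw1 hw2 hy) ?_
    simp only [map_mul, map_inv, hm]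
  obtain ⟨x, hx, y, hy, hm, rfl | rfl⟩ := ha
  · exact key x hx y hy hm
  · have e : C.i w₁ w₁ * (C.i x y * C.σ) * (C.i w₁ w₁)⁻¹ = (C.i w₁ w₁ * C.i x y * (C.i w₁ w₁)⁻¹) * C.σ := by
      rw [C.i_inv]
      calc C.i w₁ w₁ * (C.i x y * C.σ) * C.i w₁⁻¹ w₁⁻¹ = C.i w₁ w₁ * C.i x y * (C.σ * C.i w₁⁻¹ w₁⁻¹) := by group
        _ = C.i w₁ w₁ * C.i x y * (C.i w₁⁻¹ w₁⁻¹ * C.σ) := by rw [C.σ_i]
        _ = _ := by group
    rw [e]
    exact (C.At Q).mul_mem (key x hx y hy hm) C.σ_mem_At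

include hG hw1 hw2 in
/-- `(y w) ^ 2` centralizes `At Q`. -/
lemma rr_comm {a : Γ} (ha : a ∈ C.At Q) :
    (C.y₀ hq * C.i w₁ w₁ * (C.y₀ hq * C.i w₁ w₁)) * a = a * (C.y₀ hq * C.i w₁ w₁ * (C.y₀ hq * C.i w₁ w₁)) := by
  set y := C.y₀ hq with hy
  set w := C.i w₁ w₁ with hw
  set r := y * w with hr
  have hwi : w₁ * w₁⁻¹ = 1 := mul_inv_cancel w₁
  have hY1 : ∀ x, y * C.i x x = C.i (C.cu hq x) (C.cu hq x) * y := fun x => C.hy1 A hq.tra x
  have hY2 : y * C.i 1 (-1) = C.σ * y := C.hy2 A hq.tra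
  have hY3 : y * C.σ = C.i 1 (-1) * y := C.hy3 A hq.tra
  -- action on `d x`
  have hrd : ∀ x, r * C.i x x = C.i (C.cu hq (w₁ * x * w₁⁻¹)) (C.cu hq (w₁ * x * w₁⁻¹)) * r := by
    intro x
    have e1 : w * C.i x x = C.i (w₁ * x * w₁⁻¹) (w₁ * x * w₁⁻¹) * w := by
      rw [hw, C.i_mul, C.i_mul]
      simp
    rw [hr, mul_assoc, e1, ← mul_assoc, hY1, mul_assoc]
  have hrt : r * C.i 1 (-1) = C.σ * r := by
    have e1 : w * C.i 1 (-1) = C.i 1 (-1) * w := by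
      rw [hw, C.i_mul, C.i_mul]
      simp
    rw [hr, mul_assoc, e1, ← mul_assoc, hY2, mul_assoc]
  have hrσ : r * C.σ = C.i 1 (-1) * r := by
    have e1 : w * C.σ = C.σ * w := by
      rw [hw, C.σ_i]
    rw [hr, mul_assoc, e1, ← mul_assoc, hY3, mul_assoc]
  -- the map `ψ`
  set ψ : SL(2, F) → SL(2, F) := fun x => C.cu hq (w₁ * x * w₁⁻¹) with hψ
  have ψ_mul : ∀ x x', ψ (x * x') = ψ x * ψ x' := by
    intro x x'
    simp only [hψ]
    rw [← C.cu_mul hq]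
    congr 1
    group
  have ψ_neg : ∀ x, ψ (-x) = -ψ x := by
    intro x
    simp only [hψ]
    rw [← C.cu_neg hq]
    congr 1
    simp
  have ψ_pow : ∀ x (n : ℕ), ψ (x ^ n) = ψ x ^ n := by
    intro x n
    simp only [hψ]
    rw [← C.cu_pow hq, conj_pow]
  have hAA := hq.aa
  have hBB := hq.bb
  have ψA : ψ A = A * B := by
    simp only [hψ]
    rw [hw1, mul_assoc, mul_inv_cancel, mul_one]
    exact C.cu_B hq
  have ψB : ψ B = -B := by
    simp only [hψ]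
    rw [hw2, mul_assoc, mul_inv_cancel, mul_one, C.cu_mul hq, C.cu_A hq, C.cu_B hq, ← mul_assoc, hAA]
    simp
  have ψψA : ψ (ψ A) = A := by
    rw [ψA, ψ_mul, ψA, ψB, mul_neg, mul_assoc, hBB]
    simp
  have ψψB : ψ (ψ B) = B := by
    rw [ψB, ψ_neg, ψB, neg_neg]
  have ψψ : ∀ x ∈ Q, ψ (ψ x) = x := by
    intro x hx
    rcases hG.cases x hx with ⟨i, rfl⟩ | ⟨i, rfl⟩
    · rw [ψ_pow, ψ_pow, ψψA]
    · rw [ψ_mul, ψ_mul, ψ_pow, ψ_pow, ψψA, ψψB]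
  have hrrd : ∀ x ∈ Q, (r * r) * C.i x x = C.i x x * (r * r) := by
    intro x hx
    calc (r * r) * C.i x x = r * (r * C.i x x) := by group
      _ = r * (C.i (ψ x) (ψ x) * r) := by rw [hrd]
      _ = (r * C.i (ψ x) (ψ x)) * r := by group
      _ = (C.i (ψ (ψ x)) (ψ (ψ x)) * r) * r := by rw [hrd]
      _ = C.i x x * (r * r) := by rw [ψψ x hx]; group
  have hrrt : (r * r) * C.i 1 (-1) = C.i 1 (-1) * (r * r) := by
    calc (r * r) * C.i 1 (-1) = r * (r * C.i 1 (-1)) := by group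
      _ = r * (C.σ * r) := by rw [hrt]
      _ = (r * C.σ) * r := by group
      _ = (C.i 1 (-1) * r) * r := by rw [hrσ]
      _ = _ := by group
  have hrrσ : (r * r) * C.σ = C.σ * (r * r) := by
    calc (r * r) * C.σ = r * (r * C.σ) := by group
      _ = r * (C.i 1 (-1) * r) := by rw [hrσ]
      _ = (r * C.i 1 (-1)) * r := by group
      _ = (C.σ * r) * r := by rw [hrt]
      _ = _ := by group
  have hcm : ∀ u v : Γ, (r * r) * u = u * (r * r) → (r * r) * v = v * (r * r) →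
      (r * r) * (u * v) = (u * v) * (r * r) := by
    intro u v hu hv
    calc (r * r) * (u * v) = ((r * r) * u) * v := by group
      _ = u * ((r * r) * v) := by rw [hu]; group
      _ = (u * v) * (r * r) := by rw [hv]; group
  obtain ⟨x, hx, h | h | h | h⟩ := C.At_form ha
  · rw [h]; exact hrrd x hx
  · rw [h]; exact hcm _ _ (hrrd x hx) hrrt
  · rw [h]; exact hcm _ _ (hrrd x hx) hrrσ
  · rw [h]; exact hcm _ _ (hcm _ _ (hrrd x hx) hrrt) hrrσ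

include hG hq hw1 hw2 in
lemma w_Wr {a : Γ} (ha : a ∈ C.Wr Q) : C.i w₁ w₁ * a * (C.i w₁ w₁)⁻¹ ∈ C.Wr Q := by
  have key : ∀ x ∈ Q, ∀ y ∈ Q, C.i w₁ w₁ * C.i x y * (C.i w₁ w₁)⁻¹ ∈ C.Wr Q := by
    intro x hx y hy
    rw [C.i_inv, C.i_mul, C.i_mul]
    exact C.i_mem_Wr (w₁_conj hG hq hw1 hw2 hx) (w₁_conj hG hq hw1 hw2 hy)
  obtain ⟨x, hx, y, hy, rfl | rfl⟩ := ha
  · exact key x hx y hy
  · have e : C.i w₁ w₁ * (C.i x y * C.σ) * (C.i w₁ w₁)⁻¹ = (C.i w₁ w₁ * C.i x y * (C.i w₁ w₁)⁻¹) * C.σ := by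
      rw [C.i_inv]
      calc C.i w₁ w₁ * (C.i x y * C.σ) * C.i w₁⁻¹ w₁⁻¹ = C.i w₁ w₁ * C.i x y * (C.σ * C.i w₁⁻¹ w₁⁻¹) := by group
        _ = C.i w₁ w₁ * C.i x y * (C.i w₁⁻¹ w₁⁻¹ * C.σ) := by rw [C.σ_i]
        _ = _ := by group
    rw [e]
    exact (C.Wr Q).mul_mem (key x hx y hy) C.σ_mem_Wr

end Act

section Final

variable {G : Type*} [Group G] (π : Γ →* G) (hπ : Function.Surjective π)
  (hker : ∀ x, π x = 1 ↔ x = 1 ∨ x = C.z)

include hπ hker in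
/-- The case of a quaternion Sylow subgroup of `SL(2, F)` of order `8`. -/
theorem isSimple_of_one [Finite Γ] [Finite G] (S₁ : Sylow 2 SL(2, F))
    (hG : Gens (S₁ : Subgroup SL(2, F)) 1 A B) (S : Sylow 2 G)
    (hS : (S : Subgroup G) = (C.Wr (S₁ : Subgroup SL(2, F))).map π) :
    (Cfsg.groupFusionSystem (S : Subgroup G)).IsSimple 2 := by
  have hp : Fact (Nat.Prime 2) := ⟨Nat.prime_two⟩
  have hq : IsQ A B := hG.isQ_one
  have hQ : QOK (S₁ : Subgroup SL(2, F)) := C.qok hG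
  have hz : C.z ∈ C.Wr (S₁ : Subgroup SL(2, F)) := C.z_mem_Wr (C.neg_one_mem hG)
  obtain ⟨w₁, hw1, hw2, hw3⟩ := C.exists_w₁ hq
  have hwconj : ∀ x ∈ (S₁ : Subgroup SL(2, F)), w₁ * x * w₁⁻¹ ∈ (S₁ : Subgroup SL(2, F)) :=
    fun x hx => w₁_conj hG hq hw1 hw2 hx
  have hpc : ∀ g x : Γ, π g * π x * (π g)⁻¹ = π (g * x * g⁻¹) := by
    intro g x
    simp only [map_mul, map_inv]
  have hmemA : ∀ {a : Γ}, a ∈ C.At (S₁ : Subgroup SL(2, F)) → π a ∈ (C.At (S₁ : Subgroup SL(2, F))).map π :=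
    fun {a} ha => ⟨a, ha, rfl⟩
  obtain ⟨hcomm, hsq⟩ := C.At_props π hker hQ
  have hAA : C.i A A ∈ C.At (S₁ : Subgroup SL(2, F)) := C.i_mem_At hG.memA hG.memA rfl
  have hyy : ∀ a ∈ C.At (S₁ : Subgroup SL(2, F)), π (C.y₀ hq * C.y₀ hq) * π a * (π (C.y₀ hq * C.y₀ hq))⁻¹ = π a := by
    intro a ha
    have e : C.y₀ hq * C.y₀ hq = C.i A A := C.hy4 A hq.tra
    rw [e, hcomm _ hAA _ ha]
    group
  have hwA : ∀ a ∈ C.At (S₁ : Subgroup SL(2, F)), C.i w₁ w₁ * a * (C.i w₁ w₁)⁻¹ ∈ C.At (S₁ : Subgroup SL(2, F)) :=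
    fun a ha => w_At C hG hq hw1 hw2 ha
  refine Cfsg.Agent.Lib.Fusion.SimpleW.isSimple_of_goodW S (A := (C.At (S₁ : Subgroup SL(2, F))).map π)
    (w := π (C.i w₁ w₁)) (y := π (C.y₀ hq)) ?_
  rw [hS]
  refine ⟨C.ne_bot_map π hπ hker, C.closed_map π hπ hker hG S₁.isPGroup', ?_, ?_, ?_, ?_, ?_, ?_, ?_, ?_, ?_, ?_, ?_⟩
  · rw [← map_pow, C.i_pow, hw3, C.i_one, map_one]
  · rintro _ ⟨s, hs, rfl⟩
    rw [hpc]
    exact ⟨_, w_Wr C hG hq hw1 hw2 hs, rfl⟩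
  · intro g hg
    obtain ⟨g', rfl⟩ := hπ g
    have hg2 := C.lift_norm π hπ hker hz g' hg
    obtain ⟨s, hs, v, hv, rfl⟩ := C.norm_form hG g' hg2
    obtain ⟨q, hq', j, rfl⟩ := C.norm_cosets S₁ hG hw1 hw2 hw3 hwconj hv
    refine ⟨π (s * C.i q q), ⟨_, (C.Wr _).mul_mem hs (C.i_mem_Wr hq' hq'), rfl⟩, j, ?_⟩
    intro x _
    have e : π (s * C.i (q * w₁ ^ j) (q * w₁ ^ j)) = π (s * C.i q q) * π (C.i w₁ w₁) ^ j := by
      rw [← map_pow, ← map_mul, C.i_pow, mul_assoc, C.i_mul]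
    rw [e]
  · exact Subgroup.map_mono C.At_le_Wr
  · rintro _ ⟨s, hs, rfl⟩ _ ⟨a, ha, rfl⟩
    rw [hpc]
    exact ⟨_, C.At_normal hQ hs ha, rfl⟩
  · rintro _ ⟨a, ha, rfl⟩
    rw [hpc]
    exact ⟨_, hwA a ha, rfl⟩
  · rintro _ ⟨a, ha, rfl⟩
    rw [hpc]
    exact ⟨_, C.y_At hG hq ha, rfl⟩
  · intro g hg
    obtain ⟨g', rfl⟩ := hπ g
    have h1 : ∀ a ∈ C.At (S₁ : Subgroup SL(2, F)), g' * a * g'⁻¹ ∈ C.Wr (S₁ : Subgroup SL(2, F)) := by
      intro a ha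
      apply C.mem_of_pi π hker hz
      rw [← hpc]
      exact hg _ ⟨a, ha, rfl⟩
    have h2 := C.At_weak π hker hQ hG hq.anti g' h1
    rintro _ ⟨a, ha, rfl⟩
    rw [hpc]
    exact ⟨_, h2 a ha, rfl⟩
  · rintro _ ⟨a, ha, rfl⟩
    rw [← map_mul]
    exact hyy a ha
  · rintro _ ⟨a, ha, rfl⟩
    have hrr := congrArg π (rr_comm C hG hq hw1 hw2 ha)
    set w := C.i w₁ w₁ with hw
    set y := C.y₀ hq with hy
    simp only [map_mul] at hrr
    have hyy' := hyy (w * a * w⁻¹) (hwA a ha)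
    simp only [map_mul, map_inv] at hyy'
    -- unfolding the conjugation
    have e1 : π y * π w * (π y)⁻¹ * π w = (π y * π w * (π y * π w)) * ((π w)⁻¹ * (π y * π y)⁻¹ * π w) := by group
    rw [e1]
    generalize π y * π w * (π y * π w) = r at hrr ⊢
    generalize π y * π y = u at hyy' ⊢
    generalize π w = W at hyy' ⊢
    generalize π a = a' at hyy' hrr ⊢
    have e3 : u * (W * a' * W⁻¹) = (W * a' * W⁻¹) * u := mul_inv_eq_iff_eq_mul.1 hyy'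
    have e4 : r * a' * r⁻¹ = a' := by rw [hrr]; group
    calc r * (W⁻¹ * u⁻¹ * W) * a' * (r * (W⁻¹ * u⁻¹ * W))⁻¹
        = r * (W⁻¹ * (u⁻¹ * ((W * a' * W⁻¹) * u)) * W) * r⁻¹ := by group
      _ = r * (W⁻¹ * (u⁻¹ * (u * (W * a' * W⁻¹))) * W) * r⁻¹ := by rw [← e3]
      _ = r * a' * r⁻¹ := by group
      _ = a' := e4
  · refine ⟨π (C.i A A), hmemA hAA, ?_⟩
    rw [hpc, C.i_inv, C.i_mul, C.i_mul, hw1, mul_assoc B, mul_inv_cancel, mul_one]
    intro h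
    have hb : B = A ∨ B = -A := by
      rcases C.pi_eq π hker h with h1 | h1
      · left
        exact (C.i_inj h1).1
      · right
        rw [C.z_i] at h1
        exact (C.i_inj h1).1
    have h3 := hq.anti
    have h4 := hq.aa
    have hne := C.neg_one_ne
    rcases hb with rfl | rfl
    · rw [h4] at h3
      apply hne
      simpa using h3
    · rw [mul_neg, neg_mul, neg_neg, h4] at h3
      apply hne
      simpa using h3.symm

end Final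

end Q8

/-- Conjugating a configuration. -/
def conj (C : WrCfg F Γ) (c : Γ) : WrCfg F Γ where
  ι := (MulAut.conj c).toMonoidHom.comp C.ι
  inj := (MulAut.conj c).injective.comp C.inj
  σ := c * C.σ * c⁻¹
  σσ := by
    calc c * C.σ * c⁻¹ * (c * C.σ * c⁻¹) = c * (C.σ * C.σ) * c⁻¹ := by group
      _ = 1 := by rw [C.σσ]; group
  σι := by
    intro x y
    show c * C.σ * c⁻¹ * (c * C.ι (x, y) * c⁻¹) * (c * C.σ * c⁻¹) = c * C.ι (y, x) * c⁻¹
    rw [← C.σι x y]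
    group
  σ_out := by
    intro x y h
    apply C.σ_out x y
    have h1 : c * C.σ * c⁻¹ = c * C.ι (x, y) * c⁻¹ := h
    simpa using h1
  zc := by
    intro g
    show g * (c * C.ι (-1, -1) * c⁻¹) = c * C.ι (-1, -1) * c⁻¹ * g
    have e := C.zc c
    have e' := C.zc g
    have e3 : c * C.ι (-1, -1) * c⁻¹ = C.ι (-1, -1) := by rw [e]; group
    rw [e3, e']
  g₀ := c * C.g₀ * c⁻¹
  hg₀ := by
    show c * C.g₀ * c⁻¹ * (c * C.ι (-1, 1) * c⁻¹) * (c * C.g₀ * c⁻¹)⁻¹ = c * C.σ * c⁻¹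
    rw [← C.hg₀]
    group
  cent := by
    intro g h
    have h1 : g * (c * C.ι (-1, 1) * c⁻¹) = c * C.ι (-1, 1) * c⁻¹ * g := h
    obtain ⟨x, y, hxy⟩ := C.cent (c⁻¹ * g * c) (by
      calc c⁻¹ * g * c * C.ι (-1, 1) = c⁻¹ * (g * (c * C.ι (-1, 1) * c⁻¹)) * c := by group
        _ = c⁻¹ * (c * C.ι (-1, 1) * c⁻¹ * g) * c := by rw [h1]
        _ = _ := by group)
    refine ⟨x, y, ?_⟩
    show g = c * C.ι (x, y) * c⁻¹
    rw [← hxy]
    group
  h2 := C.h2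
  odd_card := C.odd_card
  yy := fun A hA => c * C.yy A hA * c⁻¹
  hy1 := by
    intro A hA x
    show c * C.yy A hA * c⁻¹ * (c * C.ι (x, x) * c⁻¹) =
      (c * C.ι (cj (onePlus C.h2 A hA) x, cj (onePlus C.h2 A hA) x) * c⁻¹) * (c * C.yy A hA * c⁻¹)
    calc c * C.yy A hA * c⁻¹ * (c * C.ι (x, x) * c⁻¹) = c * (C.yy A hA * C.ι (x, x)) * c⁻¹ := by group
      _ = _ := by rw [C.hy1]; group
  hy2 := by
    intro A hA
    show c * C.yy A hA * c⁻¹ * (c * C.ι (1, -1) * c⁻¹) = (c * C.σ * c⁻¹) * (c * C.yy A hA * c⁻¹)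
    calc c * C.yy A hA * c⁻¹ * (c * C.ι (1, -1) * c⁻¹) = c * (C.yy A hA * C.ι (1, -1)) * c⁻¹ := by group
      _ = _ := by rw [C.hy2]; group
  hy3 := by
    intro A hA
    show c * C.yy A hA * c⁻¹ * (c * C.σ * c⁻¹) = (c * C.ι (1, -1) * c⁻¹) * (c * C.yy A hA * c⁻¹)
    calc c * C.yy A hA * c⁻¹ * (c * C.σ * c⁻¹) = c * (C.yy A hA * C.σ) * c⁻¹ := by group
      _ = _ := by rw [C.hy3]; group
  hy4 := by
    intro A hA
    show c * C.yy A hA * c⁻¹ * (c * C.yy A hA * c⁻¹) = c * C.ι (A, A) * c⁻¹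
    calc c * C.yy A hA * c⁻¹ * (c * C.yy A hA * c⁻¹) = c * (C.yy A hA * C.yy A hA) * c⁻¹ := by group
      _ = _ := by rw [C.hy4]

lemma conj_i (c : Γ) (x y : SL(2, F)) : (C.conj c).i x y = c * C.i x y * c⁻¹ := rfl

lemma conj_σ (c : Γ) : (C.conj c).σ = c * C.σ * c⁻¹ := rfl

lemma conj_z (c : Γ) : (C.conj c).z = C.z := by
  show c * C.z * c⁻¹ = C.z
  exact C.z_conj c

lemma mem_conj_Wr {Q : Subgroup SL(2, F)} (c : Γ) {x : Γ} :
    x ∈ (C.conj c).Wr Q ↔ c⁻¹ * x * c ∈ C.Wr Q := by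
  constructor
  · rintro ⟨p, hp, q, hq, rfl | rfl⟩
    · rw [conj_i]
      have e : c⁻¹ * (c * C.i p q * c⁻¹) * c = C.i p q := by group
      rw [e]
      exact C.i_mem_Wr hp hq
    · rw [conj_i, conj_σ]
      have e : c⁻¹ * (c * C.i p q * c⁻¹ * (c * C.σ * c⁻¹)) * c = C.i p q * C.σ := by group
      rw [e]
      exact C.iσ_mem_Wr hp hq
  · rintro ⟨p, hp, q, hq, h | h⟩
    · refine ⟨p, hp, q, hq, Or.inl ?_⟩
      rw [conj_i, ← h]
      group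
    · refine ⟨p, hp, q, hq, Or.inr ?_⟩
      rw [conj_i, conj_σ]
      have e : c * C.i p q * c⁻¹ * (c * C.σ * c⁻¹) = c * (C.i p q * C.σ) * c⁻¹ := by group
      rw [e, ← h]
      group

section Main

variable [Fintype F]
variable {G : Type*} [Group G] (π : Γ →* G) (hπ : Function.Surjective π)
  (hker : ∀ x, π x = 1 ↔ x = 1 ∨ x = C.z)

include hπ hker in
/-- The `2`-fusion system of `Γ / ⟨z⟩` is simple. -/
theorem isSimple_main [Finite Γ] [Finite G] (hodd : Odd (Fintype.card F)) (S : Sylow 2 G) :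
    (Cfsg.groupFusionSystem (S : Subgroup G)).IsSimple 2 := by
  classical
  have hp : Fact (Nat.Prime 2) := ⟨Nat.prime_two⟩
  obtain ⟨S₁⟩ : Nonempty (Sylow 2 SL(2, F)) := inferInstance
  obtain ⟨k, A, B, hG⟩ := exists_gens hodd S₁
  set Q : Subgroup SL(2, F) := (S₁ : Subgroup SL(2, F)) with hQ
  set P : Sylow 2 Γ := (C.Wr_isPGroup S₁.isPGroup').toSylow (C.Wr_index S₁) with hP
  obtain ⟨d, hd⟩ := MulAction.exists_smul_eq G (Sylow.mapSurjective hπ P) S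
  obtain ⟨c, rfl⟩ := hπ d
  have hPc : (P : Subgroup Γ) = C.Wr Q := rfl
  have hS : (S : Subgroup G) = ((C.conj c).Wr Q).map π := by
    rw [← hd]
    ext y
    simp only [Sylow.coe_subgroup_smul, Sylow.coe_mapSurjective, Subgroup.mem_pointwise_smul_iff_inv_smul_mem,
      Subgroup.mem_map, hPc, MulAut.smul_def]
    have hinv : (MulAut.conj (π c))⁻¹ y = (π c)⁻¹ * y * π c := by simp
    rw [hinv]
    constructor
    · rintro ⟨x, hx, hxy⟩
      refine ⟨c * x * c⁻¹, (C.mem_conj_Wr c).2 (by simpa [mul_assoc] using hx), ?_⟩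
      rw [map_mul, map_mul, hxy, map_inv]
      group
    · rintro ⟨x, hx, rfl⟩
      refine ⟨c⁻¹ * x * c, (C.mem_conj_Wr c).1 hx, ?_⟩
      simp [map_mul, map_inv]
  have hker' : ∀ x, π x = 1 ↔ x = 1 ∨ x = (C.conj c).z := by
    rw [conj_z]
    exact hker
  have hk1 : 1 ≤ k := hG.one_le
  rcases Nat.lt_or_ge k 2 with h | h
  · obtain rfl : k = 1 := by omega
    exact (C.conj c).isSimple_of_one π hπ hker' S₁ hG S hS
  · exact (C.conj c).isSimple_of_two_le π hπ hker' hodd S₁ hG h S hS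

end Main

end WrCfg

end Cfsg.Agent.Lib.Fusion.WrSL2
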