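import Mathlib
import Cfsg.Agent.Lib.Fusion.WrSL2Q8
import Cfsg.Agent.Lib.Classical.Symp.SimpleMatrix
import Cfsg.Agent.Lib.Classical.Symp.Count
import Cfsg.Agent.Lib.PSL2.ClassSizes

/-!
# The wreath configuration in `Sp₄(F)` and the simplicity of the `2`-fusion system of `PSp₄(F)`
-/

set_option autoImplicit false
set_option linter.unusedSectionVars false

namespace Cfsg.Agent.Lib.Fusion.WrSp4

open Matrix
open scoped MatrixGroups
open Cfsg.Agent.Lib.PSL2.Basic Cfsg.Agent.Lib.PSL2.Torus Cfsg.Agent.Lib.PSL2.FourGroup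

variable {F : Type*} [Field F]

/-- The tensor product of `2 × 2` matrices. -/
def T (x Y : Matrix (Fin 2) (Fin 2) F) : Matrix (Fin 2 ⊕ Fin 2) (Fin 2 ⊕ Fin 2) F :=
  fromBlocks (x 0 0 • Y) (x 0 1 • Y) (x 1 0 • Y) (x 1 1 • Y)

lemma T_mul (x Y x' Y' : Matrix (Fin 2) (Fin 2) F) : T x Y * T x' Y' = T (x * x') (Y * Y') := by
  simp only [T, fromBlocks_multiply, Matrix.mul_apply, Fin.sum_univ_two, add_smul, smul_mul_smul_comm]

lemma T_transpose (x Y : Matrix (Fin 2) (Fin 2) F) : (T x Y)ᵀ = T xᵀ Yᵀ := by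
  simp only [T, fromBlocks_transpose, transpose_smul, transpose_apply]

lemma T_add_left (x x' Y : Matrix (Fin 2) (Fin 2) F) : T (x + x') Y = T x Y + T x' Y := by
  simp only [T, fromBlocks_add, Matrix.add_apply, add_smul]

lemma T_add_right (x Y Y' : Matrix (Fin 2) (Fin 2) F) : T x (Y + Y') = T x Y + T x Y' := by
  simp only [T, fromBlocks_add, smul_add]

lemma T_smul_left (c : F) (x Y : Matrix (Fin 2) (Fin 2) F) : T (c • x) Y = T x (c • Y) := by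
  simp only [T, Matrix.smul_apply, smul_eq_mul, mul_smul]
  congr 1
  · exact smul_comm _ _ _
  · exact smul_comm _ _ _
  · exact smul_comm _ _ _
  · exact smul_comm _ _ _

lemma T_neg_left (x Y : Matrix (Fin 2) (Fin 2) F) : T (-x) Y = T x (-Y) := by
  simp only [T, Matrix.neg_apply, neg_smul, smul_neg]

lemma T_zero_right (x : Matrix (Fin 2) (Fin 2) F) : T x 0 = 0 := by
  simp only [T, smul_zero, fromBlocks_zero]

lemma T_one_one : T (1 : Matrix (Fin 2) (Fin 2) F) 1 = 1 := by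
  ext (i | i) (j | j) <;> fin_cases i <;> fin_cases j <;> simp [T]

/-- The standard alternating `2 × 2` matrix. -/
def J2 : Matrix (Fin 2) (Fin 2) F := !![0, -1; 1, 0]

lemma J_eq : J (Fin 2) F = T J2 1 := by
  ext (i | i) (j | j) <;> fin_cases i <;> fin_cases j <;> simp [T, J, J2]

lemma conj_J2 (x : Matrix (Fin 2) (Fin 2) F) : x * J2 * xᵀ = x.det • J2 := by
  rw [det_fin_two]
  ext i j
  fin_cases i <;> fin_cases j <;> simp [J2, Matrix.mul_apply, Fin.sum_univ_two] <;> ring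

lemma T_mem {x Y : Matrix (Fin 2) (Fin 2) F} (h : x.det • (Y * Yᵀ) = 1) : T x Y ∈ symplecticGroup (Fin 2) F := by
  rw [SymplecticGroup.mem_iff, J_eq, T_transpose, T_mul, T_mul, conj_J2, T_smul_left, mul_one, h]

/-- The idempotents. -/
def E₁ : Matrix (Fin 2) (Fin 2) F := !![1, 0; 0, 0]
def E₂ : Matrix (Fin 2) (Fin 2) F := !![0, 0; 0, 1]

lemma E₁_mul_E₁ : (E₁ : Matrix (Fin 2) (Fin 2) F) * E₁ = E₁ := by
  ext i j; fin_cases i <;> fin_cases j <;> simp [E₁, Matrix.mul_apply, Fin.sum_univ_two]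
lemma E₂_mul_E₂ : (E₂ : Matrix (Fin 2) (Fin 2) F) * E₂ = E₂ := by
  ext i j; fin_cases i <;> fin_cases j <;> simp [E₂, Matrix.mul_apply, Fin.sum_univ_two]
lemma E₁_mul_E₂ : (E₁ : Matrix (Fin 2) (Fin 2) F) * E₂ = 0 := by
  ext i j; fin_cases i <;> fin_cases j <;> simp [E₁, E₂, Matrix.mul_apply, Fin.sum_univ_two]
lemma E₂_mul_E₁ : (E₂ : Matrix (Fin 2) (Fin 2) F) * E₁ = 0 := by
  ext i j; fin_cases i <;> fin_cases j <;> simp [E₁, E₂, Matrix.mul_apply, Fin.sum_univ_two]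
lemma E₁_add_E₂ : (E₁ : Matrix (Fin 2) (Fin 2) F) + E₂ = 1 := by
  ext i j; fin_cases i <;> fin_cases j <;> simp [E₁, E₂]
lemma E₁_transpose : (E₁ : Matrix (Fin 2) (Fin 2) F)ᵀ = E₁ := by
  ext i j; fin_cases i <;> fin_cases j <;> simp [E₁]
lemma E₂_transpose : (E₂ : Matrix (Fin 2) (Fin 2) F)ᵀ = E₂ := by
  ext i j; fin_cases i <;> fin_cases j <;> simp [E₂]

/-- Block-diagonal matrices. -/
def D (x y : Matrix (Fin 2) (Fin 2) F) : Matrix (Fin 2 ⊕ Fin 2) (Fin 2 ⊕ Fin 2) F := T x E₁ + T y E₂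

lemma D_mul (x y x' y' : Matrix (Fin 2) (Fin 2) F) : D x y * D x' y' = D (x * x') (y * y') := by
  simp only [D, add_mul, mul_add, T_mul, E₁_mul_E₁, E₂_mul_E₂, E₁_mul_E₂, E₂_mul_E₁, T_zero_right, add_zero, zero_add]

lemma D_transpose (x y : Matrix (Fin 2) (Fin 2) F) : (D x y)ᵀ = D xᵀ yᵀ := by
  simp only [D, transpose_add, T_transpose, E₁_transpose, E₂_transpose]

lemma D_same (x : Matrix (Fin 2) (Fin 2) F) : D x x = T x 1 := by
  rw [D, ← T_add_right, E₁_add_E₂]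

lemma D_one_one : D (1 : Matrix (Fin 2) (Fin 2) F) 1 = 1 := by
  rw [D_same, T_one_one]

lemma J_eq_D : J (Fin 2) F = D J2 J2 := by
  rw [J_eq, D_same]

lemma sl2_J2 (x : SL(2, F)) : x.1 * J2 * x.1ᵀ = J2 := by
  rw [conj_J2, x.2, one_smul]

lemma D_mem (x y : SL(2, F)) : D x.1 y.1 ∈ symplecticGroup (Fin 2) F := by
  rw [SymplecticGroup.mem_iff, J_eq_D, D_transpose, D_mul, D_mul, sl2_J2, sl2_J2]

/-- The block-diagonal embedding. -/
def ι₀ : SL(2, F) × SL(2, F) →* symplecticGroup (Fin 2) F where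
  toFun p := ⟨D p.1.1 p.2.1, D_mem p.1 p.2⟩
  map_one' := Subtype.ext D_one_one
  map_mul' p p' := Subtype.ext (D_mul _ _ _ _).symm

lemma ι₀_val (x y : SL(2, F)) : (ι₀ (x, y)).1 = D x.1 y.1 := rfl

lemma D_entries (x y : Matrix (Fin 2) (Fin 2) F) :
    D x y (Sum.inl 0) (Sum.inl 0) = x 0 0 ∧ D x y (Sum.inl 0) (Sum.inr 0) = x 0 1 ∧
    D x y (Sum.inr 0) (Sum.inl 0) = x 1 0 ∧ D x y (Sum.inr 0) (Sum.inr 0) = x 1 1 ∧
    D x y (Sum.inl 1) (Sum.inl 1) = y 0 0 ∧ D x y (Sum.inl 1) (Sum.inr 1) = y 0 1 ∧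
    D x y (Sum.inr 1) (Sum.inl 1) = y 1 0 ∧ D x y (Sum.inr 1) (Sum.inr 1) = y 1 1 := by
  simp [D, T, E₁, E₂]

lemma ι₀_inj : Function.Injective (ι₀ : SL(2, F) × SL(2, F) →* symplecticGroup (Fin 2) F) := by
  rintro ⟨x, y⟩ ⟨x', y'⟩ h
  have h1 : D x.1 y.1 = D x'.1 y'.1 := congrArg Subtype.val h
  obtain ⟨a1, a2, a3, a4, a5, a6, a7, a8⟩ := D_entries x.1 y.1
  obtain ⟨b1, b2, b3, b4, b5, b6, b7, b8⟩ := D_entries x'.1 y'.1
  have c : ∀ i j, D x.1 y.1 i j = D x'.1 y'.1 i j := fun i j => by rw [h1]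
  ext i j
  · fin_cases i <;> fin_cases j
    · have := c (Sum.inl 0) (Sum.inl 0); rwa [a1, b1] at this
    · have := c (Sum.inl 0) (Sum.inr 0); rwa [a2, b2] at this
    · have := c (Sum.inr 0) (Sum.inl 0); rwa [a3, b3] at this
    · have := c (Sum.inr 0) (Sum.inr 0); rwa [a4, b4] at this
  · fin_cases i <;> fin_cases j
    · have := c (Sum.inl 1) (Sum.inl 1); rwa [a5, b5] at this
    · have := c (Sum.inl 1) (Sum.inr 1); rwa [a6, b6] at this
    · have := c (Sum.inr 1) (Sum.inl 1); rwa [a7, b7] at this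
    · have := c (Sum.inr 1) (Sum.inr 1); rwa [a8, b8] at this

/-- The swap. -/
def Sw : Matrix (Fin 2) (Fin 2) F := !![0, 1; 1, 0]

lemma Sw_mul_Sw : (Sw : Matrix (Fin 2) (Fin 2) F) * Sw = 1 := by
  ext i j; fin_cases i <;> fin_cases j <;> simp [Sw, Matrix.mul_apply, Fin.sum_univ_two]
lemma Sw_transpose : (Sw : Matrix (Fin 2) (Fin 2) F)ᵀ = Sw := by
  ext i j; fin_cases i <;> fin_cases j <;> simp [Sw]
lemma Sw_E₁ : (Sw : Matrix (Fin 2) (Fin 2) F) * E₁ * Sw = E₂ := by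
  ext i j; fin_cases i <;> fin_cases j <;> simp [Sw, E₁, E₂, Matrix.mul_apply, Fin.sum_univ_two]
lemma Sw_E₂ : (Sw : Matrix (Fin 2) (Fin 2) F) * E₂ * Sw = E₁ := by
  ext i j; fin_cases i <;> fin_cases j <;> simp [Sw, E₁, E₂, Matrix.mul_apply, Fin.sum_univ_two]

lemma Tσ_mem : T (1 : Matrix (Fin 2) (Fin 2) F) Sw ∈ symplecticGroup (Fin 2) F := by
  apply T_mem
  rw [Sw_transpose, Sw_mul_Sw, det_one, one_smul]

/-- The element `σ`. -/
def σ₀ : symplecticGroup (Fin 2) F := ⟨T 1 Sw, Tσ_mem⟩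

lemma σ₀_val : (σ₀ : symplecticGroup (Fin 2) F).1 = T 1 Sw := rfl

lemma σ₀σ₀ : (σ₀ : symplecticGroup (Fin 2) F) * σ₀ = 1 := by
  apply Subtype.ext
  show T 1 Sw * T 1 Sw = 1
  rw [T_mul, mul_one, Sw_mul_Sw, T_one_one]

lemma σ₀ι₀ (x y : SL(2, F)) : σ₀ * ι₀ (x, y) * σ₀ = ι₀ (y, x) := by
  apply Subtype.ext
  show T 1 Sw * D x.1 y.1 * T 1 Sw = D y.1 x.1
  simp only [D, mul_add, add_mul, T_mul, one_mul, mul_one, Sw_E₁, Sw_E₂]
  exact add_comm _ _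

lemma σ₀_ne (x y : SL(2, F)) : σ₀ ≠ ι₀ (x, y) := by
  intro h
  have h1 : T 1 Sw = D x.1 y.1 := congrArg Subtype.val h
  have h2 := congrFun (congrFun h1 (Sum.inl 0)) (Sum.inl 1)
  simp [T, D, Sw, E₁, E₂] at h2

lemma D_neg_one : D (-1 : Matrix (Fin 2) (Fin 2) F) (-1) = -1 := by
  rw [D_same, T_neg_left, ← T_one_one]
  ext (i | i) (j | j) <;> fin_cases i <;> fin_cases j <;> simp [T]

lemma ι₀_neg_one : ((ι₀ (-1, -1) : symplecticGroup (Fin 2) F)).1 = -1 := by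
  rw [ι₀_val]
  show D (-1) (-1) = -1
  exact D_neg_one

lemma zc₀ (g : symplecticGroup (Fin 2) F) : g * ι₀ (-1, -1) = ι₀ (-1, -1) * g := by
  apply Subtype.ext
  show g.1 * (ι₀ (-1, -1) : symplecticGroup (Fin 2) F).1 = (ι₀ (-1, -1) : symplecticGroup (Fin 2) F).1 * g.1
  rw [ι₀_neg_one]
  simp

section TwoInv

variable (h2 : (2 : F) ≠ 0)

/-- The matrix `P`. -/
def P₀ : Matrix (Fin 2) (Fin 2) F := !![1, 1; -1, 1]

/-- The element `g₀`. -/
def G₀ : Matrix (Fin 2) (Fin 2) F := !![1, 0; 0, (2 : F)⁻¹]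

lemma P₀_mul_transpose : (P₀ : Matrix (Fin 2) (Fin 2) F) * P₀ᵀ = (2 : F) • 1 := by
  have e : (P₀ : Matrix (Fin 2) (Fin 2) F)ᵀ = !![1, -1; 1, 1] := by
    ext i j; fin_cases i <;> fin_cases j <;> simp [P₀]
  rw [e, P₀, Matrix.mul_fin_two]
  ext i j
  fin_cases i <;> fin_cases j <;> simp <;> norm_num

include h2 in
lemma Tg₀_mem : T (G₀ : Matrix (Fin 2) (Fin 2) F) P₀ ∈ symplecticGroup (Fin 2) F := by
  apply T_mem
  have e : (2 : F)⁻¹ * 2 = 1 := inv_mul_cancel₀ h2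
  rw [P₀_mul_transpose, G₀, det_fin_two_of, smul_smul]
  simp only [one_mul, mul_zero, sub_zero, e, one_smul]

/-- The element `g₀`. -/
def g₀₀ : symplecticGroup (Fin 2) F := ⟨T G₀ P₀, Tg₀_mem h2⟩

lemma D_neg_left_one : D (-1 : Matrix (Fin 2) (Fin 2) F) 1 = T 1 !![-1, 0; 0, 1] := by
  ext (i | i) (j | j) <;> fin_cases i <;> fin_cases j <;> simp [T, D, E₁, E₂]

lemma D_one_neg : D (1 : Matrix (Fin 2) (Fin 2) F) (-1) = T 1 !![1, 0; 0, -1] := by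
  ext (i | i) (j | j) <;> fin_cases i <;> fin_cases j <;> simp [T, D, E₁, E₂]

lemma hg₀₀ : g₀₀ h2 * ι₀ (-1, 1) * (g₀₀ h2)⁻¹ = σ₀ := by
  apply mul_inv_eq_iff_eq_mul.2
  apply Subtype.ext
  show T G₀ P₀ * D (-1) 1 = T 1 Sw * T G₀ P₀
  rw [D_neg_left_one, T_mul, T_mul, mul_one, one_mul]
  congr 1
  ext i j
  fin_cases i <;> fin_cases j <;> simp [P₀, Sw, Matrix.mul_apply, Fin.sum_univ_two]

/-- The matrix `H`. -/
def H₀ : Matrix (Fin 2) (Fin 2) F := (2 : F)⁻¹ • !![1, 1; 1, -1]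

lemma H₀_transpose : (H₀ : Matrix (Fin 2) (Fin 2) F)ᵀ = H₀ := by
  rw [H₀, transpose_smul]
  congr 1
  ext i j; fin_cases i <;> fin_cases j <;> simp

include h2 in
lemma H₀_sq : (H₀ : Matrix (Fin 2) (Fin 2) F) * H₀ = (2 : F)⁻¹ • 1 := by
  have e : (2 : F)⁻¹ * 2 = 1 := inv_mul_cancel₀ h2
  have e2 : (!![1, 1; 1, -1] : Matrix (Fin 2) (Fin 2) F) * !![1, 1; 1, -1] = (2 : F) • 1 := by
    rw [Matrix.mul_fin_two]
    ext i j
    fin_cases i <;> fin_cases j <;> simp <;> norm_num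
  rw [H₀, smul_mul_smul_comm, e2, smul_smul, mul_assoc, e, mul_one]

/-- The element `y`. -/
lemma Ty_mem (A : SL(2, F)) (hA : tr A = 0) : T (onePlus h2 A hA).val H₀ ∈ symplecticGroup (Fin 2) F := by
  apply T_mem
  rw [det_onePlus, H₀_transpose, H₀_sq h2, smul_smul, mul_inv_cancel₀ h2, one_smul]

/-- The element `y`. -/
noncomputable def yy₀ (A : SL(2, F)) (hA : tr A = 0) : symplecticGroup (Fin 2) F := ⟨_, Ty_mem h2 A hA⟩

lemma yy₀_val (A : SL(2, F)) (hA : tr A = 0) : (yy₀ h2 A hA).1 = T (onePlus h2 A hA).val H₀ := rfl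

lemma hy1₀ (A : SL(2, F)) (hA : tr A = 0) (x : SL(2, F)) :
    yy₀ h2 A hA * ι₀ (x, x) = ι₀ (cj (onePlus h2 A hA) x, cj (onePlus h2 A hA) x) * yy₀ h2 A hA := by
  apply Subtype.ext
  show T (onePlus h2 A hA).val H₀ * D x.1 x.1 =
    D (cj (onePlus h2 A hA) x).1 (cj (onePlus h2 A hA) x).1 * T (onePlus h2 A hA).val H₀
  rw [D_same, D_same, T_mul, T_mul, mul_one, one_mul, cj_eq_iff.1 rfl]

lemma H₀_f : (H₀ : Matrix (Fin 2) (Fin 2) F) * !![1, 0; 0, -1] = Sw * H₀ := by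
  rw [H₀, Matrix.smul_mul, Matrix.mul_smul, Sw, Matrix.mul_fin_two, Matrix.mul_fin_two]
  congr 1
  ext i j
  fin_cases i <;> fin_cases j <;> simp

lemma H₀_Sw : (H₀ : Matrix (Fin 2) (Fin 2) F) * Sw = !![1, 0; 0, -1] * H₀ := by
  rw [H₀, Matrix.smul_mul, Matrix.mul_smul, Sw, Matrix.mul_fin_two, Matrix.mul_fin_two]
  congr 1
  ext i j
  fin_cases i <;> fin_cases j <;> simp

lemma hy2₀ (A : SL(2, F)) (hA : tr A = 0) : yy₀ h2 A hA * ι₀ (1, -1) = σ₀ * yy₀ h2 A hA := by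
  apply Subtype.ext
  have e : (((-1 : SL(2, F)) : SL(2, F)).1 : Matrix (Fin 2) (Fin 2) F) = -1 := rfl
  have e' : (((1 : SL(2, F)) : SL(2, F)).1 : Matrix (Fin 2) (Fin 2) F) = 1 := rfl
  show T (onePlus h2 A hA).val H₀ * D (1 : SL(2, F)).1 (-1 : SL(2, F)).1 = T 1 Sw * T (onePlus h2 A hA).val H₀
  rw [e, e', D_one_neg, T_mul, T_mul, mul_one, one_mul, H₀_f]

lemma hy3₀ (A : SL(2, F)) (hA : tr A = 0) : yy₀ h2 A hA * σ₀ = ι₀ (1, -1) * yy₀ h2 A hA := by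
  apply Subtype.ext
  have e : (((-1 : SL(2, F)) : SL(2, F)).1 : Matrix (Fin 2) (Fin 2) F) = -1 := rfl
  have e' : (((1 : SL(2, F)) : SL(2, F)).1 : Matrix (Fin 2) (Fin 2) F) = 1 := rfl
  show T (onePlus h2 A hA).val H₀ * T 1 Sw = D (1 : SL(2, F)).1 (-1 : SL(2, F)).1 * T (onePlus h2 A hA).val H₀
  rw [e, e', D_one_neg, T_mul, T_mul, mul_one, one_mul, H₀_Sw]

lemma hy4₀ (A : SL(2, F)) (hA : tr A = 0) : yy₀ h2 A hA * yy₀ h2 A hA = ι₀ (A, A) := by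
  apply Subtype.ext
  show T (onePlus h2 A hA).val H₀ * T (onePlus h2 A hA).val H₀ = D A.1 A.1
  have e1 : A.1 * A.1 = -1 := by
    have := congrArg Subtype.val ((mul_self_eq_neg_one_iff A).2 hA)
    simpa using this
  have e2 : (onePlus h2 A hA).val * (onePlus h2 A hA).val = (2 : F) • A.1 := by
    rw [onePlus_val]
    have : (1 + A.1) * (1 + A.1) = 1 + A.1 + A.1 + A.1 * A.1 := by noncomm_ring
    rw [this, e1, two_smul]
    abel
  rw [T_mul, e2, H₀_sq h2, T_smul_left, smul_smul, mul_inv_cancel₀ h2, one_smul, D_same]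

end TwoInv

section Cent

/-- The diagonal of the involution. -/
def dd : Fin 2 ⊕ Fin 2 → F := Sum.elim ![-1, 1] ![-1, 1]

lemma T_dd : T (1 : Matrix (Fin 2) (Fin 2) F) !![-1, 0; 0, 1] = diagonal dd := by
  ext (i | i) (j | j) <;> fin_cases i <;> fin_cases j <;> simp [T, dd]

/-- The centralizer of the involution. -/
lemma cent₀ (h2 : (2 : F) ≠ 0) (g : symplecticGroup (Fin 2) F) (h : g * ι₀ (-1, 1) = ι₀ (-1, 1) * g) :
    ∃ x y, g = ι₀ (x, y) := by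
  have h1 : g.1 * D (-1) 1 = D (-1) 1 * g.1 := congrArg Subtype.val h
  rw [D_neg_left_one, T_dd] at h1
  have hent : ∀ a b, g.1 a b * dd b = dd a * g.1 a b := by
    intro a b
    have := congrFun (congrFun h1 a) b
    rwa [mul_diagonal, diagonal_mul] at this
  have hz1 : ∀ a b, (dd a : F) = -1 → (dd b : F) = 1 → g.1 a b = 0 := by
    intro a b ha hb
    have h3 := hent a b
    rw [ha, hb] at h3
    have h4 : (2 : F) * g.1 a b = 0 := by linear_combination h3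
    exact (mul_eq_zero.1 h4).resolve_left h2
  have hz2 : ∀ a b, (dd a : F) = 1 → (dd b : F) = -1 → g.1 a b = 0 := by
    intro a b ha hb
    have h3 := hent a b
    rw [ha, hb] at h3
    have h4 : (2 : F) * g.1 a b = 0 := by linear_combination -h3
    exact (mul_eq_zero.1 h4).resolve_left h2
  have e1 : (dd (Sum.inl 0) : F) = -1 := rfl
  have e2 : (dd (Sum.inl 1) : F) = 1 := rfl
  have e3 : (dd (Sum.inr 0) : F) = -1 := rfl
  have e4 : (dd (Sum.inr 1) : F) = 1 := rfl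
  have h01 := hz1 _ _ e1 e2
  have h02 := hz1 _ _ e1 e4
  have h03 := hz1 _ _ e3 e2
  have h04 := hz1 _ _ e3 e4
  have h05 := hz2 _ _ e2 e1
  have h06 := hz2 _ _ e2 e3
  have h07 := hz2 _ _ e4 e1
  have h08 := hz2 _ _ e4 e3
  have hm := SymplecticGroup.mem_iff.1 g.2
  have hJ1 := congrFun (congrFun hm (Sum.inl 0)) (Sum.inr 0)
  have hJ2 := congrFun (congrFun hm (Sum.inl 1)) (Sum.inr 1)
  simp only [J, Matrix.mul_apply, Fintype.sum_sum_type, Fin.sum_univ_two, fromBlocks_apply₁₁, fromBlocks_apply₁₂,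
    fromBlocks_apply₂₁, fromBlocks_apply₂₂, transpose_apply, h01, h02, h03, h04, h05, h06, h07, h08] at hJ1 hJ2
  simp at hJ1 hJ2
  set x : SL(2, F) := ⟨!![g.1 (Sum.inl 0) (Sum.inl 0), g.1 (Sum.inl 0) (Sum.inr 0);
    g.1 (Sum.inr 0) (Sum.inl 0), g.1 (Sum.inr 0) (Sum.inr 0)], by
      rw [det_fin_two_of]
      linear_combination -hJ1⟩ with hx
  set y : SL(2, F) := ⟨!![g.1 (Sum.inl 1) (Sum.inl 1), g.1 (Sum.inl 1) (Sum.inr 1);
    g.1 (Sum.inr 1) (Sum.inl 1), g.1 (Sum.inr 1) (Sum.inr 1)], by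
      rw [det_fin_two_of]
      linear_combination -hJ2⟩ with hy
  refine ⟨x, y, Subtype.ext ?_⟩
  rw [ι₀_val]
  ext (i | i) (j | j) <;> fin_cases i <;> fin_cases j <;>
    simp [D, T, E₁, E₂, hx, hy, h01, h02, h03, h04, h05, h06, h07, h08]

end Cent

section Final

variable [Fintype F]

lemma odd_card₀ (hodd : Odd (Fintype.card F)) :
    ∃ m, Odd m ∧ Nat.card (symplecticGroup (Fin 2) F) = 2 * Nat.card SL(2, F) ^ 2 * m := by
  obtain ⟨r, hr⟩ := hodd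
  have hq : Nat.card F = Fintype.card F := Nat.card_eq_fintype_card
  rw [Cfsg.Agent.Lib.Classical.Symp.Count.card_symplecticGroup hq 2,
    Cfsg.Agent.Lib.PSL2.ClassSizes.card_SL2_mul, hr]
  refine ⟨(2 * r + 1) ^ 2 * (2 * r ^ 2 + 2 * r + 1), ?_, ?_⟩
  · exact Odd.mul (Odd.pow ⟨r, rfl⟩) ⟨r ^ 2 + r, by ring⟩
  · simp only [Finset.prod_range_succ, Finset.prod_range_zero, one_mul]
    have e1 : (2 * r + 1) ^ (2 * (0 + 1)) - 1 = 4 * r * (r + 1) := by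
      apply Nat.sub_eq_of_eq_add
      ring
    have e2 : (2 * r + 1) ^ (2 * (1 + 1)) - 1 = 4 * r * (r + 1) * ((2 * r + 1) ^ 2 + 1) := by
      apply Nat.sub_eq_of_eq_add
      ring
    have e3 : 2 * r + 1 - 1 = 2 * r := rfl
    rw [e1, e2, e3]
    ring

/-- The configuration. -/
noncomputable def cfg (h2 : (2 : F) ≠ 0) (hodd : Odd (Fintype.card F)) :
    Cfsg.Agent.Lib.Fusion.WrSL2.WrCfg F (symplecticGroup (Fin 2) F) where
  ι := ι₀
  inj := ι₀_inj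
  σ := σ₀
  σσ := σ₀σ₀
  σι := σ₀ι₀
  σ_out := σ₀_ne
  zc := zc₀
  g₀ := g₀₀ h2
  hg₀ := hg₀₀ h2
  cent := cent₀ h2
  h2 := h2
  odd_card := odd_card₀ hodd
  yy := yy₀ h2
  hy1 := hy1₀ h2
  hy2 := hy2₀ h2
  hy3 := hy3₀ h2
  hy4 := hy4₀ h2

/-- For a finite field `F` of odd order, the `2`-fusion system of `PSp₄(F)` is simple. -/
theorem isSimple_PSp (hodd : Fintype.card F % 2 = 1) (S : Sylow 2 (Cfsg.PSp 2 F)) :
    (Cfsg.groupFusionSystem (S : Subgroup (Cfsg.PSp 2 F))).IsSimple 2 := by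
  have hodd' : Odd (Fintype.card F) := Nat.odd_iff.2 hodd
  have h2 : (2 : F) ≠ 0 := Cfsg.Agent.Lib.PSL2.TorusCore.two_ne_zero_of_odd_card hodd'
  let C := cfg h2 hodd'
  let π : symplecticGroup (Fin 2) F →* Cfsg.PSp 2 F := QuotientGroup.mk' _
  have hπ : Function.Surjective π := QuotientGroup.mk'_surjective _
  have hker : ∀ x, π x = 1 ↔ x = 1 ∨ x = C.z := by
    intro x
    have e : π x = 1 ↔ x ∈ Subgroup.center (symplecticGroup (Fin 2) F) := QuotientGroup.eq_one_iff x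
    rw [e, Cfsg.Agent.Lib.Classical.Symp.SimpleMatrix.center_symplectic_iff x (by norm_num)]
    constructor
    · rintro (h | h)
      · left
        exact Subtype.ext h
      · right
        apply Subtype.ext
        rw [h]
        exact ι₀_neg_one.symm
    · rintro (rfl | rfl)
      · left
        rfl
      · right
        exact ι₀_neg_one
  exact C.isSimple_main π hπ hker hodd' S

end Final

end Cfsg.Agent.Lib.Fusion.WrSp4
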