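/-
Yoshida's theorem for fusion systems: if `N_F(S)` does not control transfer then `C_p ≀ C_p` is a homomorphic image of `S`.
The proof is through the stable transfer: in absence of a wreath quotient, the transfer of `π ∘ ρ` from a proper subgroup vanishes on
elements with a fixed point, and the other contributions are handled by induction on the order.
-/
import Mathlib
import Cfsg.Prelude.Def_FusionSystem
import Cfsg.Agent.Lib.Fusion.Tate
import Cfsg.Agent.Lib.Fusion.Focal
import Cfsg.Agent.Lib.Fusion.CharTransfer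
import Cfsg.Agent.Lib.Fusion.LocalSystems
import Cfsg.Agent.Lib.Fusion.KNormalizer
import Cfsg.Agent.Lib.Fusion.ModelLocal
import Cfsg.Agent.Lib.Fusion.ModelF
import Cfsg.Agent.Lib.Transfer.Wreath

set_option autoImplicit false

namespace Cfsg.Agent.Lib.Fusion.Yoshida

open Cfsg Cfsg.FusionSystem Cfsg.Agent.Lib.Fusion.Basic Cfsg.Agent.Lib.Fusion.Saturated
  Cfsg.Agent.Lib.Fusion.CharTransfer Cfsg.Agent.Lib.Fusion.LocalSystems Cfsg.Agent.Lib.Fusion.Hyperfocal
  Cfsg.Agent.Lib.Fusion.ModelLocal Cfsg.Agent.Lib.Fusion.Focal Cfsg.Agent.Lib.Fusion.Tate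
  Cfsg.Agent.Lib.Transfer.Monomial
open Cfsg.Agent.Lib.Transfer.EngelCore (ext ext_of_mem ext_mul ext_one ext_inv)
open MulAction Function Subgroup

universe u

section Group

variable {X : Type*} [Group X] [Finite X] {p : ℕ} [hp : Fact p.Prime]

/-- `X` has no homomorphic image isomorphic to `C_p ≀ C_p`. -/
def NoWreath (p : ℕ) [Fact p.Prime] (X : Type*) [Group X] : Prop :=
  ¬ ∃ (W : Sylow p (Equiv.Perm (Fin (p ^ 2)))) (f : X →* (W : Subgroup (Equiv.Perm (Fin (p ^ 2))))), Function.Surjective f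

/-- The vanishing of the transfer at an element with a fixed point on the cosets. -/
theorem transfer_eq_one_of_fixed (hX : IsPGroup p X) (hno : NoWreath p X) {H : Subgroup X} (hH : H ≠ ⊤)
    (ϕ : H →* Multiplicative (ZMod p)) (u : X) (c₀ : X ⧸ H) (huc : u • c₀ = c₀) : ϕ.transfer u = 1 := by
  classical
  haveI : Fintype (X ⧸ H) := Fintype.ofFinite _
  have hS' : stabilizer X c₀ ≠ ⊤ := by
    intro h
    apply hH
    obtain ⟨g, rfl⟩ := QuotientGroup.mk_surjective c₀
    rw [eq_top_iff]
    intro x _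
    have h1 : g * x * g⁻¹ ∈ stabilizer X (g : X ⧸ H) := by rw [h]; exact Subgroup.mem_top _
    have h2 : ((g * x * g⁻¹ * g : X) : X ⧸ H) = (g : X) := h1
    have h3 := QuotientGroup.eq.mp h2
    have e : (g * x * g⁻¹ * g)⁻¹ * g = x⁻¹ := by group
    rw [e] at h3
    simpa using H.inv_mem h3
  obtain ⟨M, hSM, hMn, hMi⟩ := Cfsg.Agent.Lib.PGroup.Basic.exists_normal_index_ge hX hS'
  have huM : u ∈ M := hSM huc
  have hMtop : M ≠ ⊤ := by
    intro h
    rw [h, Subgroup.index_top] at hMi
    exact hp.out.one_lt.ne hMi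
  obtain ⟨z, hzM⟩ : ∃ z, z ∉ M := by
    by_contra hno'
    push Not at hno'
    exact hMtop (eq_top_iff.2 fun x _ => hno' x)
  have hcard : Nat.card (X ⧸ M) = p := hMi
  have hzbar : ((z : X) : X ⧸ M) ≠ 1 := by
    rw [Ne, QuotientGroup.eq_one_iff]
    exact hzM
  have hord : orderOf ((z : X) : X ⧸ M) = p := by
    rw [orderOf_eq_card_of_forall_mem_zpowers (fun x => mem_zpowers_of_prime_card hcard hzbar)]
    exact hcard
  have hcov : ∀ x ∈ (⊤ : Subgroup X), ∃ i, i < p ∧ ∃ m ∈ M, x = z ^ i * m := by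
    intro x _
    have h1 : ((x : X) : X ⧸ M) ∈ zpowers ((z : X) : X ⧸ M) :=
      mem_zpowers_of_prime_card hcard hzbar
    rw [← mem_powers_iff_mem_zpowers] at h1
    obtain ⟨n, hn'⟩ := h1
    have h2 : ((z : X) : X ⧸ M) ^ (n % p) = ((x : X) : X ⧸ M) := by
      rw [← hord, pow_mod_orderOf]
      exact hn'
    refine ⟨n % p, Nat.mod_lt _ hp.out.pos, (z ^ (n % p))⁻¹ * x, ?_, by group⟩
    have h3 : ((z ^ (n % p) : X) : X ⧸ M) = ((x : X) : X ⧸ M) := by
      rw [QuotientGroup.mk_pow]; exact h2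
    exact QuotientGroup.eq.mp h3
  have hz : ∀ i, 0 < i → i < p → z ^ i ∉ M := by
    intro i hi0 hip hm
    have h3 : ((z : X) : X ⧸ M) ^ i = 1 := by
      rw [← QuotientGroup.mk_pow, QuotientGroup.eq_one_iff]
      exact hm
    have h4 := orderOf_dvd_of_pow_eq_one h3
    rw [hord] at h4
    have := Nat.le_of_dvd hi0 h4
    omega
  have hn : ∀ x ∈ (⊤ : Subgroup X), ∀ m ∈ M, x * m * x⁻¹ ∈ M := fun x _ m hm => hMn.conj_mem m hm x
  have hstab : ∀ x ∈ (⊤ : Subgroup X), x • c₀ = c₀ → x ∈ M := fun x _ hx => hSM hx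
  let r : X ⧸ H → X := fun q => q.out
  have hr : IsSec r := out_isSec
  have huniv : orb (⊤ : Subgroup X) c₀ = Finset.univ := by
    ext q
    simp only [Finset.mem_univ, iff_true]
    rw [mem_orb]
    obtain ⟨g, rfl⟩ := QuotientGroup.mk_surjective c₀
    obtain ⟨g', rfl⟩ := QuotientGroup.mk_surjective q
    refine ⟨g' * g⁻¹, Subgroup.mem_top _, ?_⟩
    show ((g' : X) : X ⧸ H) = ((g' * g⁻¹ * g : X) : X ⧸ H)
    congr 1
    group
  rw [transfer_eq_T ϕ hr, ← huniv, T_decomp (p := p) ϕ hr ⊤ M z c₀ u le_top hn (Subgroup.mem_top _) hcov hz hstab huM]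
  by_contra hne
  apply hno
  have hconj : ∀ i : ℕ, (z ^ i)⁻¹ * u * z ^ i ∈ M := by
    intro i
    have := hMn.conj_mem u huM (z ^ i)⁻¹
    simpa using this
  refine Cfsg.Agent.Lib.Transfer.Wreath.wreath_of_norm_ne (nu ϕ hr M c₀) z hX hMi huM ?_
  intro h
  apply hne
  rw [← h]
  refine Finset.prod_congr rfl fun i _ => ?_
  rw [ext_of_mem _ (hconj i)]
  rfl

/-- The transfer from the whole group. -/
theorem transfer_of_top {A : Type*} [CommGroup A] {H : Subgroup X} (hH : H = ⊤) (ϕ : H →* A) (u : X) :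
    ϕ.transfer u = ϕ ⟨u, hH ▸ Subgroup.mem_top u⟩ := by
  classical
  subst hH
  haveI : Fintype (X ⧸ (⊤ : Subgroup X)) := Fintype.ofFinite _
  haveI : Subsingleton (X ⧸ (⊤ : Subgroup X)) := QuotientGroup.subsingleton_quotient_top
  have hr : IsSec (P := (⊤ : Subgroup X)) (fun _ => (1 : X)) := fun q => Subsingleton.elim _ _
  rw [transfer_eq_T ϕ hr]
  unfold T
  rw [Fintype.prod_subsingleton _ ((1 : X) : X ⧸ (⊤ : Subgroup X))]
  unfold tr
  have h1 : ((1 : X))⁻¹ * u * 1 = u := by group
  rw [h1, ext_of_mem ϕ (Subgroup.mem_top u)]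

end Group

section Fusion

variable {Ω : Type u} [Group Ω] {S : Subgroup Ω} {F : FusionSystem S} [Finite S] {p : ℕ} [hp : Fact p.Prime]

/-- The key: an `Aut_F(S)`-invariant homomorphism to `F_p` is stable under the system. -/
theorem stable_of_invariant (hS : IsPGroup p S) (hF : F.IsSaturated p) (hno : NoWreath p S)
    (π : S →* Multiplicative (ZMod p))
    (hinv : ∀ {ψ : S →* Ω} (hψ : ψ ∈ F.Hom S) (x : S), π ⟨ψ x, map_mem_S hψ x⟩ = π x)
    {P : Subgroup Ω} {φ : P →* Ω} (hφ : φ ∈ F.Hom P) (a : P) :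
    π ⟨φ a, map_mem_S hφ a⟩ = π ⟨a, source_le hφ a.2⟩ := by
  classical
  obtain ⟨ι, i1, Q, ρ, hρ, hpd, hmain⟩ := exists_stable_transfer (F := F) hS hF
  have hA : ∀ b : Multiplicative (ZMod p), b ^ p = 1 := Cfsg.Agent.Lib.Transfer.Monomial.hA_zmod
  let ϕ : ∀ i, (Q i).subgroupOf S →* Multiplicative (ZMod p) := fun i => π.comp (rOf (ρ i) (map_mem_S (hρ i)))
  let t : S →* Multiplicative (ZMod p) := ∏ i, (ϕ i).transfer
  have ht : ∀ x, t x = ∏ i, (ϕ i).transfer x := fun x => MonoidHom.finsetProd_apply _ _ _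
  have hst : ∀ {P : Subgroup Ω} {φ : P →* Ω} (hφ : φ ∈ F.Hom P) (a : P),
      t ⟨a, source_le hφ a.2⟩ = t ⟨φ a, map_mem_S hφ a⟩ := by
    intro P φ hφ a
    rw [ht, ht]
    exact hmain π hφ a
  -- the number of automorphisms
  let I₀ : Finset ι := Finset.univ.filter (fun i => (Q i).subgroupOf S = ⊤)
  let m : ℕ := I₀.card
  have hidx : ∀ i, (Q i).subgroupOf S ≠ ⊤ → p ∣ ((Q i).subgroupOf S).index := by
    intro i hi
    have h1 : ((Q i).subgroupOf S).index ∣ Nat.card S := Subgroup.index_dvd_card _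
    obtain ⟨n, hn⟩ := IsPGroup.iff_card.1 hS
    rw [hn] at h1
    obtain ⟨j, -, hj⟩ := (Nat.dvd_prime_pow hp.out).1 h1
    rw [hj]
    rcases j with _ | j
    · exact absurd (Subgroup.index_eq_one.1 (by rw [hj, pow_zero])) hi
    · exact dvd_pow_self p (by omega)
  have hm : Nat.Coprime m p := by
    rw [Nat.coprime_comm, Nat.Prime.coprime_iff_not_dvd hp.out]
    intro h
    apply hpd
    rw [← Finset.sum_filter_add_sum_filter_not Finset.univ (fun i => (Q i).subgroupOf S = ⊤)]
    have h1 : ∑ i ∈ Finset.univ.filter (fun i => (Q i).subgroupOf S = ⊤), ((Q i).subgroupOf S).index = m := by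
      have h2 : ∑ i ∈ Finset.univ.filter (fun i => (Q i).subgroupOf S = ⊤), ((Q i).subgroupOf S).index =
          ∑ i ∈ I₀, 1 := by
        refine Finset.sum_congr rfl fun i hi => ?_
        rw [(Finset.mem_filter.1 hi).2, Subgroup.index_top]
      rw [h2, ← Finset.card_eq_sum_ones]
    rw [h1]
    refine dvd_add h (Finset.dvd_sum fun i hi => hidx i (Finset.mem_filter.1 hi).2)
  have hcop : ∀ b : Multiplicative (ZMod p), b ^ m = 1 → b = 1 := fun b hb => eq_one_of_pow hm hb (hA b)
  -- the main claim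
  have key : ∀ n : ℕ, ∀ u : S, orderOf u = n → t u = π u ^ m := by
    intro n
    induction n using Nat.strong_induction_on with
    | _ n ih =>
    intro u hu
    rw [ht, ← Finset.prod_filter_mul_prod_filter_not Finset.univ (fun i => (Q i).subgroupOf S = ⊤)]
    have h1 : ∏ i ∈ Finset.univ.filter (fun i => (Q i).subgroupOf S = ⊤), (ϕ i).transfer u = π u ^ m := by
      rw [← Finset.prod_const]
      refine Finset.prod_congr rfl fun i hi => ?_
      have hi' := (Finset.mem_filter.1 hi).2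
      rw [transfer_of_top hi']
      have hQ : Q i = S := by
        refine le_antisymm (source_le (hρ i)) ?_
        intro s hs
        have h2 : (⟨s, hs⟩ : S) ∈ (Q i).subgroupOf S := by rw [hi']; exact Subgroup.mem_top _
        exact h2
      obtain ⟨ψ, hψ, hψe⟩ := Cfsg.Agent.Lib.Fusion.Joins.exists_hom_of_eq F hQ (ρ i) (hρ i)
      have hus : (u : Ω) ∈ Q i := by
        have h2 : u ∈ (Q i).subgroupOf S := by rw [hi']; exact Subgroup.mem_top _
        exact h2
      have h3 := hinv hψ u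
      have h4 := hψe u hus u.2
      have e : (⟨ψ u, map_mem_S hψ u⟩ : S) = rOf (ρ i) (map_mem_S (hρ i)) ⟨u, hi' ▸ Subgroup.mem_top u⟩ :=
        Subtype.ext h4
      rw [e] at h3
      exact h3
    have h2 : ∏ i ∈ Finset.univ.filter (fun i => ¬ (Q i).subgroupOf S = ⊤), (ϕ i).transfer u = 1 := by
      refine Finset.prod_eq_one fun i hi => ?_
      have hi' := (Finset.mem_filter.1 hi).2
      by_cases hfix : ∃ c₀ : S ⧸ (Q i).subgroupOf S, u • c₀ = c₀
      · obtain ⟨c₀, hc₀⟩ := hfix
        exact transfer_eq_one_of_fixed hS hno hi' _ u c₀ hc₀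
      · push Not at hfix
        haveI : Fintype (S ⧸ (Q i).subgroupOf S) := Fintype.ofFinite _
        let r : S ⧸ (Q i).subgroupOf S → S := fun q => q.out
        have hr : IsSec r := out_isSec
        rw [transfer_eq_T (ϕ i) hr]
        refine T_eq_one_of_cycles (ϕ i) hr _ u (fun q => by simp) ?_
        intro w _
        set c' : S ⧸ (Q i).subgroupOf S := ((w : S) : S ⧸ (Q i).subgroupOf S) with hc'
        set l := minimalPeriod (u • ·) c' with hl
        have hper : u ^ l • c' = c' := by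
          have := iterate_minimalPeriod (f := (u • ·)) (x := c')
          rwa [smul_iterate] at this
        have hl1 : l ≠ 1 := by
          intro h1'
          rw [hl, minimalPeriod_eq_one_iff_isFixedPt] at h1'
          exact hfix c' h1'
        have hlord : l ∣ orderOf u := by
          apply IsPeriodicPt.minimalPeriod_dvd
          show (u • ·)^[orderOf u] c' = c'
          rw [smul_iterate, pow_orderOf_eq_one]
          simp
        obtain ⟨k, hk⟩ := (IsPGroup.iff_orderOf.mp hS) u
        have hpl : p ∣ l := by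
          rw [hk] at hlord
          obtain ⟨j, -, hj⟩ := (Nat.dvd_prime_pow hp.out).1 hlord
          rw [hj]
          rcases j with _ | j
          · exact absurd (by rw [hj, pow_zero]) hl1
          · exact dvd_pow_self p (by omega)
        have hl0 : l ≠ 0 := by
          intro h0
          rw [h0] at hpl hlord
          have := Nat.eq_zero_of_zero_dvd hlord
          exact (orderOf_pos u).ne' this
        have hord : orderOf (u ^ l) < n := by
          rw [orderOf_pow_of_dvd hl0 hlord, hu]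
          apply Nat.div_lt_self
          · rw [← hu]; exact orderOf_pos u
          · exact Nat.one_lt_iff_ne_zero_and_ne_one.mpr ⟨hl0, hl1⟩
        have hy : w⁻¹ * u ^ l * w ∈ (Q i).subgroupOf S := by
          have h5 : ((u ^ l * w : S) : S ⧸ (Q i).subgroupOf S) = (w : S) := hper
          have h6 := mem_of_mk_eq h5
          have h7 := ((Q i).subgroupOf S).inv_mem h6
          convert h7 using 1
          group
        rw [ext_of_mem (ϕ i) hy]
        set y : (Q i).subgroupOf S := ⟨w⁻¹ * u ^ l * w, hy⟩ with hyd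
        let v : S := rOf (ρ i) (map_mem_S (hρ i)) y
        have hinjr : Function.Injective (rOf (ρ i) (map_mem_S (hρ i))) := by
          intro a b hab
          have h1 : ρ i ⟨a.1, a.2⟩ = ρ i ⟨b.1, b.2⟩ := congrArg Subtype.val hab
          have h2 := F.injective_of_mem (hρ i) h1
          have h3 := congrArg (fun w : Q i => (w : Ω)) h2
          exact Subtype.ext (Subtype.ext h3)
        have hordv : orderOf v = orderOf (u ^ l) := by
          have h5 : orderOf v = orderOf y := orderOf_injective _ hinjr y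
          have h6 : orderOf y = orderOf (w⁻¹ * u ^ l * w) := Subgroup.orderOf_coe y |>.symm
          have h7 : orderOf (MulAut.conj w⁻¹ (u ^ l)) = orderOf (u ^ l) := MulEquiv.orderOf_eq _ _
          rw [MulAut.conj_apply, inv_inv] at h7
          rw [h5, h6, h7]
        have hi1 := ih _ hord (u ^ l) rfl
        have hi2 := ih _ (hordv ▸ hord) v rfl
        -- stability
        have hs1 : t (y : S) = t v := hst (hρ i) ⟨((y : S) : Ω), y.2⟩
        have hs2 : t (y : S) = t (u ^ l) := by
          show t (w⁻¹ * u ^ l * w) = _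
          rw [map_mul, map_mul, map_inv, mul_comm (t w)⁻¹, mul_assoc, inv_mul_cancel, mul_one]
        have hs3 : π (u ^ l) = 1 := by
          rw [map_pow]
          obtain ⟨j, hj⟩ := hpl
          rw [hj, pow_mul, hA, one_pow]
        rw [hs3, one_pow, ← hs2, hs1, hi2] at hi1
        exact hcop _ hi1
    rw [h1, h2, mul_one]
  have h1 := key _ ⟨a, source_le hφ a.2⟩ rfl
  have h2 := key _ ⟨φ a, map_mem_S hφ a⟩ rfl
  have h3 := hst hφ a
  rw [h1, h2] at h3
  have h4 : (π ⟨φ a, map_mem_S hφ a⟩ * (π ⟨a, source_le hφ a.2⟩)⁻¹) ^ m = 1 := by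
    rw [mul_pow, inv_pow, ← h3, mul_inv_cancel]
  have h5 := hcop _ h4
  exact (mul_inv_eq_one.1 h5)

/-- **Yoshida's theorem for fusion systems**, control form. -/
theorem focal_eq_of_noWreath (hS : IsPGroup p S) (hF : F.IsSaturated p) (hno : NoWreath p S)
    (N : FusionSystem (normalizerIn S S)) (hN : F.IsNormalizerSystem S N) : N.focalSubgroup = F.focalSubgroup := by
  classical
  have e : normalizerIn S S = S := inf_eq_left.2 Subgroup.le_normalizer
  haveI : Finite ↥(normalizerIn S S) := e.symm ▸ inferInstance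
  have hS₁ : IsPGroup p ↥(normalizerIn S S) := hS.to_le normalizerIn_le
  have hFN : F.IsFullyNormalized S :=
    Cfsg.Agent.Lib.Fusion.ModelF.isFullyNormalized_of_le_normalizer le_rfl Subgroup.le_normalizer
  have hNs : N.IsSaturated p := Cfsg.Agent.Lib.Fusion.KNormalizer.isSaturated_normalizerSystem hS hF hFN hN
  have hsub : ∀ P, N.Hom P ⊆ F.Hom P := fun P φ hφ => by
    rw [hN P] at hφ
    exact hφ.1
  have hfS : F.focalSubgroup ≤ S := by
    refine (Subgroup.closure_le _).2 ?_
    rintro _ ⟨P, φ, x, hφ, rfl⟩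
    exact S.mul_mem (S.inv_mem (source_le hφ x.2)) (map_mem_S hφ x)
  have hle : N.focalSubgroup ≤ F.focalSubgroup := by
    refine (Subgroup.closure_le _).2 ?_
    rintro _ ⟨P, φ, x, hφ, rfl⟩
    exact Subgroup.subset_closure ⟨P, φ, x, hsub P hφ, rfl⟩
  have hautS : ∀ {ψ : S →* Ω}, ψ ∈ F.Hom S → ψ ∈ N.Hom S := by
    intro ψ hψ
    refine mem_normalizerSystem hN le_rfl e.ge hψ ?_
    have h1 : S.subgroupOf S = ⊤ := Subgroup.subgroupOf_self S
    rw [h1, ← MonoidHom.range_eq_map]
    exact range_eq_of_card hψ (map_mem_S hψ) le_rfl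
  -- control modulo the Frattini subgroup
  have h2 : F.focalSubgroup ≤ (frattini S).map S.subtype ⊔ N.focalSubgroup := by
    intro y hy
    by_contra hnot
    obtain ⟨V, _, _, π₀, hsurj, hker⟩ := Cfsg.Agent.Lib.PGroup.FrattiniBasis.exists_vector_space hS
    let C : Subgroup (Multiplicative V) := ((N.focalSubgroup).subgroupOf S).map π₀
    let W₀ : AddSubgroup V :=
      { carrier := {x | Multiplicative.ofAdd x ∈ C}
        add_mem' := fun {a b} ha hb => C.mul_mem ha hb
        zero_mem' := C.one_mem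
        neg_mem' := fun {a} ha => C.inv_mem ha }
    let W₁ : Submodule (ZMod p) V := AddSubgroup.toZModSubmodule p W₀
    let y' : S := ⟨y, hfS hy⟩
    have hv : Multiplicative.toAdd (π₀ y') ∉ W₁ := by
      intro hmem
      obtain ⟨d, hd, hde⟩ : π₀ y' ∈ C := hmem
      apply hnot
      have h3 : d⁻¹ * y' ∈ π₀.ker := by
        rw [MonoidHom.mem_ker, map_mul, map_inv, hde, inv_mul_cancel]
      rw [hker] at h3
      have e3 : y = (d : Ω) * ((d⁻¹ * y' : S) : Ω) := by
        show y = (d : Ω) * ((d : Ω)⁻¹ * y)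
        group
      have h4 : ((d⁻¹ * y' : S) : Ω) ∈ (frattini S).map S.subtype := ⟨_, h3, rfl⟩
      have h5 : (d : Ω) ∈ N.focalSubgroup := hd
      rw [e3, sup_comm]
      exact Subgroup.mul_mem _ (Subgroup.mem_sup_left h5) (Subgroup.mem_sup_right h4)
    obtain ⟨f, hfv, hfW⟩ := Submodule.exists_le_ker_of_notMem hv
    let π : S →* Multiplicative (ZMod p) := (AddMonoidHom.toMultiplicative f.toAddMonoidHom).comp π₀
    have hπ : ∀ d : S, (d : Ω) ∈ N.focalSubgroup → π d = 1 := by
      intro d hd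
      have h3 : Multiplicative.toAdd (π₀ d) ∈ W₁ := (⟨d, hd, rfl⟩ : π₀ d ∈ C)
      have h4 := hfW h3
      have h5 : f (Multiplicative.toAdd (π₀ d)) = 0 := LinearMap.mem_ker.1 h4
      exact congrArg Multiplicative.ofAdd h5
    have hinv : ∀ {ψ : S →* Ω} (hψ : ψ ∈ F.Hom S) (x : S), π ⟨ψ x, map_mem_S hψ x⟩ = π x := by
      intro ψ hψ x
      have h3 : (x : Ω)⁻¹ * ψ x ∈ N.focalSubgroup := Subgroup.subset_closure ⟨S, ψ, x, hautS hψ, rfl⟩
      have h4 := hπ (x⁻¹ * ⟨ψ x, map_mem_S hψ x⟩) h3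
      rw [map_mul, map_inv, inv_mul_eq_one] at h4
      exact h4.symm
    have hall : F.focalSubgroup ≤ π.ker.map S.subtype := by
      refine (Subgroup.closure_le _).2 ?_
      rintro _ ⟨P, φ, x, hφ, rfl⟩
      refine ⟨(⟨x, source_le hφ x.2⟩ : S)⁻¹ * ⟨φ x, map_mem_S hφ x⟩, ?_, rfl⟩
      show π _ = 1
      rw [map_mul, map_inv, stable_of_invariant hS hF hno π hinv hφ x, inv_mul_cancel]
    obtain ⟨s, hs, hse⟩ := hall hy
    have e4 : s = y' := Subtype.ext hse
    rw [e4] at hs
    apply hfv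
    exact congrArg Multiplicative.toAdd hs
  have hcomm : ⁅S, S⁆ ≤ (frattini S).map S.subtype := by
    have h6 : (⊤ : Subgroup S).map S.subtype = S := by
      rw [← MonoidHom.range_eq_map, Subgroup.range_subtype]
    have h5 : (commutator S).map S.subtype = ⁅S, S⁆ := by
      rw [_root_.commutator_def, Subgroup.map_commutator, h6]
    rw [← h5]
    exact Subgroup.map_mono (Cfsg.Agent.Lib.PGroup.FrattiniBasis.commutator_le_frattini hS)
  have hf1 := focal_eq hS hF
  have hf2 := focal_eq hS₁ hNs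
  rw [show ⁅normalizerIn S S, normalizerIn S S⁆ = ⁅S, S⁆ by rw [e]] at hf2
  have hKle : N.hyperfocalSubgroup p ≤ F.hyperfocalSubgroup p := by
    refine hyperfocal_le fun P hP α hα x => ?_
    have hle' : N.autGroup P ≤ F.autGroup P := Subgroup.closure_mono fun β hβ => hsub P hβ
    refine mem_hyperfocal_of_coprime (F := F) (hP.trans normalizerIn_le) (α := ⟨α, hle' α.2⟩) ?_ x
    have e5 : orderOf (⟨(α : MulAut P), hle' α.2⟩ : F.autGroup P) = orderOf α := by
      rw [Subgroup.orderOf_mk, Subgroup.orderOf_coe]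
    rwa [e5]
  have hKS : ∀ g ∈ S, ∀ t ∈ N.hyperfocalSubgroup p, g * t * g⁻¹ ∈ N.hyperfocalSubgroup p :=
    fun g hg t ht => conj_mem_hyperfocal (by rw [e]; exact hg) ht
  have h3 : F.hyperfocalSubgroup p ≤ N.hyperfocalSubgroup p := by
    refine hyperfocal_le_of_le_frattini_sup hS hF hKS hKle ?_
    calc F.hyperfocalSubgroup p ≤ F.focalSubgroup := by rw [hf1]; exact le_sup_left
      _ ≤ (frattini S).map S.subtype ⊔ N.focalSubgroup := h2
      _ ≤ (frattini S).map S.subtype ⊔ N.hyperfocalSubgroup p := by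
        rw [hf2]
        exact sup_le le_sup_left (sup_le le_sup_right (hcomm.trans le_sup_left))
  apply le_antisymm hle
  rw [hf1, hf2]
  exact sup_le (h3.trans le_sup_left) le_sup_right

/-- **Yoshida's theorem for fusion systems.** -/
theorem yoshida (hS : IsPGroup p S) (hF : F.IsSaturated p) (N : FusionSystem (normalizerIn S S))
    (hN : F.IsNormalizerSystem S N) (hne : N.focalSubgroup ≠ F.focalSubgroup) :
    ∃ (W : Sylow p (Equiv.Perm (Fin (p ^ 2)))) (f : ↥S →* ↥(W : Subgroup (Equiv.Perm (Fin (p ^ 2))))), Function.Surjective f := by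
  by_contra hno
  exact hne (focal_eq_of_noWreath hS hF hno N hN)

end Fusion

end Cfsg.Agent.Lib.Fusion.Yoshida
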